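import Cfsg.Statements.S3751
import Mathlib
import Cfsg.Agent.Lib.Core.PLocal

set_option autoImplicit false
open Cfsg

namespace Cfsg.Agent.S3751

open Subgroup Cfsg.Agent.Core

/-- Two distinct subgroups M₁, M₂ of G form a primitive pair when, for {i, j} = {1, 2}, every non-trivial normal subgroup A of M_i contained in M₁ ∩ M₂ satisfies N_{M_j}(A) = M₁ ∩ M₂; the pair has characteristic p when moreover C_{M_i}(O_p(M_i)) ≤ O_p(M_i) for both i and O_p(M₁)O_p(M₂) ≤ M₁ ∩ M₂. Let G be a finite group, p a prime dividing its order, with O_p(G) = 1 and every p-local subgroup of characteristic p. Then either G has a primitive pair of characteristic p, or every maximal p-local subgroup M of G is strongly p-embedded in G: M is a proper subgroup, p divides its order, and for every g ∉ M the order of M ∩ gMg⁻¹ is prime to p. -/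
theorem result {G : Type*} [Group G] [Finite G] {p : ℕ} [Fact p.Prime] (hloc : Cfsg.IsOfLocalCharacteristic p G) (hOp : Cfsg.pCore p G = ⊥) : (∃ M₁ M₂ : Subgroup G, M₁ ≠ M₂ ∧ (∀ A : Subgroup G, A ≠ ⊥ → A ≤ M₁ ⊓ M₂ → (M₁ ≤ Subgroup.normalizer (A : Set G) → M₂ ⊓ Subgroup.normalizer (A : Set G) = M₁ ⊓ M₂) ∧ (M₂ ≤ Subgroup.normalizer (A : Set G) → M₁ ⊓ Subgroup.normalizer (A : Set G) = M₁ ⊓ M₂)) ∧ Subgroup.centralizer (Cfsg.pCore p ↥M₁ : Set ↥M₁) ≤ Cfsg.pCore p ↥M₁ ∧ Subgroup.centralizer (Cfsg.pCore p ↥M₂ : Set ↥M₂) ≤ Cfsg.pCore p ↥M₂ ∧ (Cfsg.pCore p ↥M₁).map M₁.subtype ⊔ (Cfsg.pCore p ↥M₂).map M₂.subtype ≤ M₁ ⊓ M₂) ∨ (∀ M : Subgroup G, (∃ T : Subgroup G, IsPGroup p T ∧ T ≠ ⊥ ∧ M = Subgroup.normalizer (T : Set G)) → (∀ L : Subgroup G, (∃ T : Subgroup G, IsPGroup p T ∧ T ≠ ⊥ ∧ L = Subgroup.normalizer (T : Set G)) → M ≤ L → L = M) → M ≠ ⊤ ∧ p ∣ Nat.card M ∧ ∀ g : G, g ∉ M → ¬ p ∣ Nat.card ↥(M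 ⊓ M.map (MulAut.conj g).toMonoidHom)) := by
  have hchar : ∀ M : Subgroup G, IsMaximalPLocal p M → IsCharIn p M := by
    rintro M ⟨⟨T, hT, hb, rfl⟩, -⟩
    exact isCharIn_iff.2 (hloc.2 T hT hb)
  refine or_iff_not_imp_right.2 fun h => ?_
  push Not at h
  obtain ⟨M, h1, h2, h3⟩ := h
  have hM : IsMaximalPLocal p M := ⟨h1, h2⟩
  obtain ⟨g, hg, hd⟩ := h3 (isPLocal_ne_top hM.1 hOp) (isPLocal_dvd_card hM.1)
  obtain ⟨x, hx⟩ := exists_prime_orderOf_dvd_card' p hd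
  have hxo : orderOf (x : G) = p := by rw [orderOf_coe, hx]
  have hT : IsPGroup p (zpowers (x : G)) := IsPGroup.of_card (n := 1) (by
    rw [Nat.card_zpowers, hxo, pow_one])
  have hb : zpowers (x : G) ≠ ⊥ := fun e => (Fact.out : p.Prime).ne_one (by
    rw [← hxo, zpowers_eq_bot.1 e, orderOf_one])
  obtain ⟨N₁, N₂, S, k₁, k₂, kne, s₁, s₂⟩ := exists_isMaximalPLocal_common_sylow hM
    (isMaximalPLocal_map_conj hM g) (isMaximalPLocal_map_conj_ne hM hg).symm hT hb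
    (zpowers_le.2 x.2)
  refine ⟨N₁, N₂, kne, fun A hA hle => ⟨fun hn => ?_, fun hn => ?_⟩,
    isCharIn_iff.1 (hchar _ k₁), isCharIn_iff.1 (hchar _ k₂), le_trans (sup_le ?_ ?_)
      (le_inf s₁.1 s₂.1)⟩
  · rw [isMaximalPLocal_normalizer_eq_of_isCharIn k₁ (hchar _ k₁) (hle.trans inf_le_left) hn hA,
      inf_comm]
  · rw [isMaximalPLocal_normalizer_eq_of_isCharIn k₂ (hchar _ k₂) (hle.trans inf_le_right) hn hA]
  · exact s₁.le_of_le_normalizer (pCoreOf_le _) (isPGroup_pCoreOf _)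
      (s₁.1.trans (le_normalizer_pCoreOf _))
  · exact s₂.le_of_le_normalizer (pCoreOf_le _) (isPGroup_pCoreOf _)
      (s₂.1.trans (le_normalizer_pCoreOf _))

end Cfsg.Agent.S3751
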