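import Cfsg.Statements.S4201
import Mathlib

set_option autoImplicit false
open Cfsg

namespace Cfsg.Agent.S4201

open Subgroup Finset

theorem card_fiber_le {X : Type*} [Group X] [Finite X] (N : Subgroup X) [N.Normal] (x : X)
    (t : X ⧸ N) : Nat.card {y : X // (y : X ⧸ N) = t ∧ Commute x y} ≤
      Nat.card {n : N // Commute x n} := by
  rcases isEmpty_or_nonempty {y : X // (y : X ⧸ N) = t ∧ Commute x y} with h | ⟨⟨y₀, h1, h2⟩⟩
  · simp
  · refine Nat.card_le_card_of_injective (fun y => ⟨⟨y₀⁻¹ * y.1, QuotientGroup.eq.mp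
      (h1.trans y.2.1.symm)⟩, h2.inv_right.mul_right y.2.2⟩) ?_
    intro a b h
    have : y₀⁻¹ * a.1 = y₀⁻¹ * b.1 := congrArg (fun z => (z.1 : X)) h
    exact Subtype.ext (mul_left_cancel this)

theorem card_pair_le {X : Type*} [Group X] [Finite X] (N : Subgroup X) [N.Normal] (s t : X ⧸ N) :
    Nat.card {p : X × X // ((p.1 : X ⧸ N) = s ∧ (p.2 : X ⧸ N) = t) ∧ Commute p.1 p.2} ≤
      Nat.card {p : N × N // Commute p.1 p.2} := by
  classical
  have := Fintype.ofFinite X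
  have e1 : {p : X × X // ((p.1 : X ⧸ N) = s ∧ (p.2 : X ⧸ N) = t) ∧ Commute p.1 p.2} ≃
      Σ x : {x : X // (x : X ⧸ N) = s}, {y : X // (y : X ⧸ N) = t ∧ Commute x.1 y} :=
    { toFun := fun p => ⟨⟨p.1.1, p.2.1.1⟩, ⟨p.1.2, p.2.1.2, p.2.2⟩⟩
      invFun := fun p => ⟨(p.1.1, p.2.1), ⟨p.1.2, p.2.2.1⟩, p.2.2.2⟩
      left_inv := fun _ => rfl
      right_inv := fun _ => rfl }
  have e2 : (Σ x : {x : X // (x : X ⧸ N) = s}, {n : N // Commute x.1 n}) ≃
      Σ n : N, {y : X // (y : X ⧸ N) = s ∧ Commute (n : X) y} :=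
    { toFun := fun p => ⟨p.2.1, ⟨p.1.1, p.1.2, p.2.2.symm⟩⟩
      invFun := fun p => ⟨⟨p.2.1, p.2.2.1⟩, ⟨p.1, p.2.2.2.symm⟩⟩
      left_inv := fun _ => rfl
      right_inv := fun _ => rfl }
  have e3 : (Σ n : N, {m : N // Commute (n : X) m}) ≃ {p : N × N // Commute p.1 p.2} :=
    { toFun := fun p => ⟨(p.1, p.2.1), Subtype.ext p.2.2⟩
      invFun := fun p => ⟨p.1.1, ⟨p.1.2, congrArg Subtype.val p.2⟩⟩
      left_inv := fun _ => rfl
      right_inv := fun _ => rfl }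
  rw [Nat.card_congr e1, ← Nat.card_congr e3, Nat.card_sigma, Nat.card_sigma]
  calc _ ≤ ∑ x : {x : X // (x : X ⧸ N) = s}, Nat.card {n : N // Commute x.1 n} :=
        sum_le_sum fun x _ => card_fiber_le N _ _
    _ = ∑ n : N, Nat.card {y : X // (y : X ⧸ N) = s ∧ Commute (n : X) y} := by
        rw [← Nat.card_sigma, ← Nat.card_sigma, Nat.card_congr e2]
    _ ≤ _ := sum_le_sum fun x _ => card_fiber_le N _ _

/-- If N is a normal subgroup of the finite group X then k(X) ≤ k(N)·k(X ⧸ N), where k denotes the number of conjugacy classes. -/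
theorem result {X : Type*} [Group X] [Finite X] (N : Subgroup X) [N.Normal] : Nat.card (ConjClasses X) ≤ Nat.card (ConjClasses N) * Nat.card (ConjClasses (X ⧸ N)) := by
  classical
  have := Fintype.ofFinite X
  have := Fintype.ofFinite (X ⧸ N)
  have e : {p : X × X // Commute p.1 p.2} ≃ Σ q : {q : (X ⧸ N) × (X ⧸ N) // Commute q.1 q.2},
      {p : X × X // ((p.1 : X ⧸ N) = q.1.1 ∧ (p.2 : X ⧸ N) = q.1.2) ∧ Commute p.1 p.2} :=
    { toFun := fun p => ⟨⟨(p.1.1, p.1.2), p.2.map (QuotientGroup.mk' N)⟩, ⟨p.1, ⟨rfl, rfl⟩, p.2⟩⟩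
      invFun := fun p => ⟨p.2.1, p.2.2.2⟩
      left_inv := fun _ => rfl
      right_inv := by
        rintro ⟨⟨⟨s, t⟩, h⟩, ⟨⟨x, y⟩, ⟨h3, h4⟩, h2⟩⟩
        change (x : X ⧸ N) = s at h3
        change (y : X ⧸ N) = t at h4
        cases h3; cases h4; rfl }
  have h1 : Nat.card {p : X × X // Commute p.1 p.2} ≤
      Nat.card {q : (X ⧸ N) × (X ⧸ N) // Commute q.1 q.2} *
        Nat.card {p : N × N // Commute p.1 p.2} := by
    rw [Nat.card_congr e, Nat.card_sigma]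
    refine (sum_le_card_nsmul _ _ _ fun q _ => card_pair_le N _ _).trans ?_
    simp
  rw [card_comm_eq_card_conjClasses_mul_card, card_comm_eq_card_conjClasses_mul_card,
    card_comm_eq_card_conjClasses_mul_card, card_eq_card_quotient_mul_card_subgroup N] at h1
  refine Nat.le_of_mul_le_mul_right (h1.trans (le_of_eq ?_))
    (Nat.mul_pos Nat.card_pos Nat.card_pos)
  ring

end Cfsg.Agent.S4201
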