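import Cfsg.Statements.S3776
import Cfsg.Agent.Lib.Suz2.Cyclic
import Cfsg.Agent.Lib.Suz2.Num
import Cfsg.Agent.Lib.Lin1.Odd

set_option autoImplicit false
open Cfsg

namespace Cfsg.Agent.S3776

open Suz2 in
/-- Let G be a finite non-abelian 2-group with more than one involution admitting a solvable group of automorphisms that permutes its involutions transitively. Then the derived subgroup, the Frattini subgroup and the centre of G coincide and consist exactly of the elements x with x² = 1. -/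
theorem result {G : Type*} [Group G] [Finite G] (hG : IsPGroup 2 G) (hna : ¬ IsMulCommutative G) (htwo : ∃ x y : G, x ≠ y ∧ x ≠ 1 ∧ x ^ 2 = 1 ∧ y ≠ 1 ∧ y ^ 2 = 1) (hY : ∃ Y : Subgroup (MulAut G), Group.IsSolvable Y ∧ ∀ x y : G, x ≠ 1 → x ^ 2 = 1 → y ≠ 1 → y ^ 2 = 1 → ∃ a ∈ Y, a x = y) : commutator G = frattini G ∧ frattini G = Subgroup.center G ∧ ∀ x : G, x ∈ Subgroup.center G ↔ x ^ 2 = 1 := by
  obtain ⟨a, b, hab, ha, ha2, hb, hb2⟩ := htwo
  obtain ⟨Y, hs, hY⟩ := hY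
  have : Nontrivial G := ⟨a, b, hab⟩
  have h : Tr (Y : Set (MulAut G)) := tr_of_trans hG hY
  obtain ⟨n, hn2, hn⟩ := h.exists_card hab ha ha2 hb hb2
  obtain ⟨V, _, _, _, om, hp⟩ := exists_pres (Om G) ⊥ fun u hu => hu.2
  have hb : ∀ x : MulAut G, ∀ u ∈ (⊥ : Subgroup G), x u ∈ (⊥ : Subgroup G) := fun x u hu => by
    rw [Subgroup.mem_bot.1 hu, map_one]; exact one_mem _
  choose y hy using fun x : MulAut G => hp.exists_act x (fun _ => map_mem_Om x) (hb x)
  have hy1 : ∀ x, ∀ u ∈ Om G, y x (om u) = om (x u) := fun x u hu => by simpa using hy x 1 u hu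
  let ρ : Y →* Module.End (ZMod 2) V :=
    { toFun x := y x
      map_one' := hp.ext fun u hu => hy1 1 u hu
      map_mul' x x' := hp.ext fun u hu => by
        rw [Module.End.mul_apply, hy1 _ u hu, hy1 _ u hu, hy1 _ _ (map_mem_Om _ hu)]; rfl }
  have inj : ∀ u ∈ Om G, ∀ v ∈ Om G, om u = om v → u = v := fun u hu v hv e =>
    inv_mul_eq_one.1 ((hp.eq_iff hu hv).1 e)
  have hV : Nat.card V = 2 ^ n := hn ▸ (Nat.card_eq_of_bijective (fun z : Om G => om z)
    ⟨fun a b e => Subtype.ext (inj _ a.2 _ b.2 e), fun l => (hp.surj l).elim fun u hu =>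
      ⟨⟨u, hu.1⟩, hu.2⟩⟩).symm
  have hf : Module.finrank (ZMod 2) V = n := Nat.pow_right_injective le_rfl (by
    simpa [hV] using (Module.natCard_eq_pow_finrank (K := ZMod 2) (V := V)).symm)
  have : Nontrivial V := Module.nontrivial_of_finrank_pos (R := ZMod 2) (by omega)
  have : Finite (MulAut G) := Finite.of_injective _ DFunLike.coe_injective
  obtain ⟨x, d, h1, h2, h3, h4, h5⟩ := Lin1.exists_semireg_two (ρ := ρ) rfl
    (hV ▸ Nat.even_pow.2 ⟨even_two, by omega⟩) fun v w hv hw => by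
      obtain ⟨z, hz, rfl⟩ := hp.surj v
      obtain ⟨z', hz', rfl⟩ := hp.surj w
      obtain ⟨g, hg, rfl⟩ := hY z z' (mt (hp.zero_iff z hz).2 hv) hz.2
        (mt (hp.zero_iff z' hz').2 hw) hz'.2
      exact ⟨⟨g, hg⟩, hy1 g z hz⟩
  rw [hV] at h4 h5
  have hx : Hyp (Y : Set (MulAut G)) x n d := ⟨h, x.2, by rwa [Subgroup.orderOf_coe], hn,
    fun z hz => inj _ (map_mem_Om _ (h.mem_Om.2 hz)) _ (h.mem_Om.2 hz)
      ((hy x d z (h.mem_Om.2 hz)).symm.trans (DFunLike.congr_fun h2 _)),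
    fun j z hz h0 e => h3 j (om z) (mt (hp.zero_iff z (h.mem_Om.2 hz)).1 h0)
      ((hy x j z (h.mem_Om.2 hz)).trans (congrArg om e)), num_of_dvd hn2 h4 (hf ▸ h5)⟩
  obtain ⟨e1, e2, e3⟩ := hx.special hna
  exact ⟨e1.trans e2.symm, e2.trans e3.symm, fun z => e3 ▸ h.mem_Om⟩

end Cfsg.Agent.S3776
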