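import Cfsg.Statements.S3803
import Cfsg.Agent.Lib.Coprime.TIHall
import Cfsg.Agent.Lib.PGrp.Critical

set_option autoImplicit false
open Cfsg

namespace Cfsg.Agent.S3803

/-- Let P be a 2-subgroup and A a subgroup of odd order of a finite group, with A normalizing P. Let D ≤ P with 1 < |D| < |P|. If every subgroup of P of order |D|, and also every subgroup of P of order 4 in case |D| = 2, is normalized by A, then A centralizes P. -/
theorem result {X : Type*} [Group X] [Finite X] (P A D : Subgroup X) (hP : IsPGroup 2 P) (hA : Odd (Nat.card A))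
    (hAP : A ≤ Subgroup.normalizer (P : Set X)) (hDP : D ≤ P) (hD1 : 1 < Nat.card D) (hD2 : Nat.card D < Nat.card P)
    (hinv : ∀ E : Subgroup X, E ≤ P → (Nat.card E = Nat.card D ∨ (Nat.card D = 2 ∧ Nat.card E = 4)) → A ≤ Subgroup.normalizer (E : Set X)) :
    A ≤ Subgroup.centralizer (P : Set X) := by
  have hA2 : (Nat.card A).Coprime 2 := Nat.coprime_two_right.mpr hA
  have hcyc : ∀ E ≤ P, IsCyclic E → A ≤ Subgroup.normalizer (E : Set X) →
      E ≤ Subgroup.centralizer (A : Set X) := by
    intro E hE hc hAE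
    rw [Subgroup.le_centralizer_iff]
    intro a ha
    rw [← Coprime.mem_ker_conjHom hAE ⟨a, ha⟩, MonoidHom.mem_ker, ← orderOf_eq_one_iff]
    obtain ⟨k, hk⟩ := (hP.to_le hE).exists_card_eq
    refine Nat.eq_one_of_dvd_coprimes (hA2.pow_right k)
      ((orderOf_map_dvd _ _).trans (orderOf_dvd_natCard _)) ((orderOf_dvd_natCard _).trans ?_)
    rw [hc.card_mulAut, hk]
    rcases Nat.eq_zero_or_pos k with rfl | hk0
    · simp
    · rw [Nat.totient_prime_pow Nat.prime_two hk0]
      simpa using pow_dvd_pow 2 (Nat.sub_le k 1)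
  refine PGrp.le_centralizer_of_omega_two hP hAP (Coprime.coprime_card_of_isPGroup hA2 hP)
    fun x hx hx4 => ?_
  have hxP : Subgroup.zpowers x ≤ P := Subgroup.zpowers_le.mpr hx
  have hx4' : Nat.card (Subgroup.zpowers x) ∣ 2 ^ 2 := by
    rw [Nat.card_zpowers]; exact orderOf_dvd_of_pow_eq_one hx4
  obtain ⟨d, hd⟩ := (hP.to_le hDP).exists_card_eq
  obtain ⟨m, hm⟩ := hP.exists_card_eq
  rw [hd, hm, Nat.pow_lt_pow_iff_right one_lt_two] at hD2
  have hd0 : d ≠ 0 := by rintro rfl; simp [hd] at hD1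
  by_cases hd1 : d = 1
  · obtain ⟨i, hi, e⟩ := (Nat.dvd_prime_pow Nat.prime_two).mp hx4'
    interval_cases i
    · rw [pow_zero, Subgroup.card_eq_one, Subgroup.zpowers_eq_bot] at e
      rw [e]; exact Subgroup.one_mem _
    · exact hcyc _ hxP inferInstance (hinv _ hxP (Or.inl (by rw [e, hd, hd1])))
        (Subgroup.mem_zpowers x)
    · exact hcyc _ hxP inferInstance (hinv _ hxP (Or.inr ⟨by rw [hd, hd1, pow_one], e⟩))
        (Subgroup.mem_zpowers x)
  obtain ⟨E, hxE, hEP, hE⟩ := PGrp.exists_card_between hP hxP (k := d)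
    ((Nat.le_of_dvd (by norm_num) hx4').trans (Nat.pow_le_pow_right two_pos (by omega)))
    (by rw [hm]; exact Nat.pow_le_pow_right two_pos hD2.le)
  have hAE := hinv E hEP (Or.inl (by rw [hE, hd]))
  by_cases hc : IsCyclic E
  · exact hcyc E hEP hc hAE (hxE (Subgroup.mem_zpowers x))
  obtain ⟨T, hET, hTP, hT⟩ := PGrp.exists_card_between hP hEP (k := d + 1)
    (by rw [hE]; exact Nat.pow_le_pow_right two_pos d.le_succ)
    (by rw [hm]; exact Nat.pow_le_pow_right two_pos hD2)
  have hT2 : IsPGroup 2 T := hP.to_le hTP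
  have hAT : A ≤ Subgroup.normalizer (T : Set X) := by
    have h1 : ¬ T ≤ E := fun h => by
      have := Subgroup.card_le_of_le h
      rw [hT, hE, Nat.pow_le_pow_iff_right one_lt_two] at this
      omega
    obtain ⟨t, ht, htE⟩ := SetLike.not_le_iff_exists.mp h1
    have h2 : Subgroup.zpowers t < T := lt_of_le_of_ne (Subgroup.zpowers_le.mpr ht) fun e => by
      have : IsCyclic T := e ▸ inferInstance
      exact hc (isCyclic_of_injective _ (Subgroup.inclusion_injective hET))
    obtain ⟨F, htF, hFT, hF⟩ := PGrp.exists_card_between hT2 h2.le (k := d)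
      (by
        have := Nat.le_of_dvd Nat.card_pos (PGrp.mul_card_dvd_of_lt hT2 h2)
        rw [hT, pow_succ] at this
        omega)
      (by rw [hT]; exact Nat.pow_le_pow_right two_pos d.le_succ)
    have h3 : E ⊔ F = T := by
      refine Subgroup.eq_of_le_of_card_ge (sup_le hET hFT) ?_
      have := Nat.le_of_dvd Nat.card_pos (PGrp.mul_card_dvd_of_lt (hT2.to_le (sup_le hET hFT))
        (left_lt_sup.mpr fun h => htE (h (htF (Subgroup.mem_zpowers t)))))
      rw [hT, pow_succ, ← hE]
      omega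
    rw [← h3]
    exact Core.le_normalizer_sup hAE (hinv F (hFT.trans hTP) (Or.inl (by rw [hF, hd])))
  refine Subgroup.le_centralizer_iff.mp (Coprime.le_centralizer_of_commutator_le_frattini
    (Coprime.coprime_card_of_isPGroup hA2 hT2) ?_) (hET (hxE (Subgroup.mem_zpowers x)))
  rw [Subgroup.commutator_le]
  intro t ht a ha
  have h1 : a * t⁻¹ * a⁻¹ ∈ T := Coprime.conj_mem_of_le_normalizer hAT ha (T.inv_mem ht)
  refine ⟨⟨t, ht⟩ * ⟨_, h1⟩, PGrp.mem_frattini_iff.mpr fun M hM => ?_, by
    simp [commutatorElement_def, mul_assoc]⟩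
  have h2 := PGrp.coatom_index hT2 hM
  have h3 := hinv (M.map T.subtype) ((Subgroup.map_subtype_le _).trans hTP) (Or.inl (by
    have := M.card_mul_index
    rw [h2, hT, pow_succ] at this
    rw [Core.card_map_subtype, hd]
    omega))
  rw [Subgroup.mul_mem_iff_of_index_two h2, ← Subgroup.mem_map_iff_mem T.subtype_injective,
    ← Subgroup.mem_map_iff_mem T.subtype_injective]
  exact (Subgroup.inv_mem_iff _).symm.trans (Subgroup.mem_normalizer_iff.mp (h3 ha) t⁻¹)

end Cfsg.Agent.S3803
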