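import Cfsg.Statements.S3805
import Cfsg.Agent.Lib.Core.HayC
import Cfsg.Agent.Lib.PGrp.ClassTwo

set_option autoImplicit false
open Cfsg

namespace Cfsg.Agent.S3805

open Subgroup Cfsg.Agent.Coprime Cfsg.Agent.OO
open scoped Pointwise

/-- Let G be a finite group whose Sylow 3-subgroup T is elementary abelian of order 9 and self-centralizing, with N_G(T)/T a Klein four-group, and suppose that the centralizer of every nonidentity element of T lies in N_G(T). Then T is normal in G. -/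
theorem result {G : Type*} [Group G] [Finite G]
    (T : Sylow 3 G) (hT : Cfsg.IsElementaryAbelian 3 (T : Subgroup G)) (hcard : Nat.card T = 9)
    (hC : Subgroup.centralizer ((T : Subgroup G) : Set G) = T)
    [hn : ((T : Subgroup G).subgroupOf (Subgroup.normalizer ((T : Subgroup G) : Set G))).Normal]
    (hK : IsKleinFour (↥(Subgroup.normalizer ((T : Subgroup G) : Set G)) ⧸
      (T : Subgroup G).subgroupOf (Subgroup.normalizer ((T : Subgroup G) : Set G))))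
    (hloc : ∀ t ∈ (T : Subgroup G), t ≠ 1 →
      Subgroup.centralizer ({t} : Set G) ≤ Subgroup.normalizer ((T : Subgroup G) : Set G)) :
    Subgroup.normalizer ((T : Subgroup G) : Set G) = ⊤ := by
  have : Fact (Nat.Prime 3) := ⟨Nat.prime_three⟩
  have hS : Syl 3 (T : Subgroup G) ⊤ := ⟨le_top, T.isPGroup', by
    rw [relIndex_top_right]; exact T.not_dvd_index⟩
  have hN : ♯𝐍((T : Subgroup G)) = 36 := by
    rw [← card_mul_relIndex (le_norm_self (T : Subgroup G)), hcard]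
    exact congrArg (9 * ·) hK.card_four
  have hsq : ∀ x ∈ 𝐍((T : Subgroup G)), x ^ 2 ∈ (T : Subgroup G) := fun x hx => by
    have := Monoid.pow_exponent_eq_one (QuotientGroup.mk (s := (T : Subgroup G).subgroupOf
      𝐍((T : Subgroup G))) ⟨x, hx⟩)
    rwa [hK.exponent_two, ← QuotientGroup.mk_pow, QuotientGroup.eq_one_iff] at this
  revert hT hcard hC hloc hS hN hsq
  generalize (T : Subgroup G) = T
  intro hT hcard hC hloc hS hN hsq
  obtain ⟨V, hVN, hV⟩ : ∃ V ≤ 𝐍(T), ♯V = 2 ^ 2 := by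
    obtain ⟨Q, hQ⟩ := Sylow.exists_subgroup_card_pow_prime 2 (G := 𝐍(T)) (n := 2)
      (by rw [hN]; norm_num)
    exact ⟨Q.map (Subgroup.subtype _), map_subtype_le _, by rw [card_map_of_injective
      (subtype_injective _), hQ]⟩
  have hVa : Ab V := IsPGroup.isMulCommutative_of_card_eq_prime_sq hV
  have hcop : (♯T).Coprime ♯V := by rw [hcard, hV]; norm_num
  have hTV : ∀ x ∈ V, x ∈ T → x = 1 := fun x h1 h2 =>
    mem_bot.1 (inf_eq_bot_of_coprime_card hcop ▸ (⟨h2, h1⟩ : x ∈ T ⊓ V))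
  have hV2 : ∀ x ∈ V, x ^ 2 = 1 := fun x hx => hTV _ (pow_mem hx 2) (hsq x (hVN hx))
  have hnc : ¬ IsCyclic V := fun e => by
    obtain ⟨x, hx⟩ := exists_zpowers_eq e
    have := orderOf_dvd_of_pow_eq_one (hV2 x (hx ▸ mem_zpowers x))
    rw [← Nat.card_zpowers, hx, hV] at this
    norm_num at this
  have hgen : ∀ K : Subgroup G, ♯K ≤ 3 → ∃ a ∈ V, a ≠ 1 ∧ ∃ w ∈ T, w ∈ 𝐂[a] ∧ w ∉ K := by
    intro K hK
    by_contra hc
    push Not at hc
    have := card_le (coprime_abelian_gen_cent1 (K := K) hVa hnc hVN hcop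
      fun a ha h1 w hw => hc a ha h1 w hw.1 hw.2)
    omega
  have ho : ∀ w ∈ T, w ≠ 1 → ♯(zpowers w) = 3 := fun w hw h1 => by
    rw [Nat.card_zpowers, orderOf_eq_of_abelem hT hw h1]
  have hlt : ∀ K L : Subgroup G, K < L → L ≤ T → ♯K = 3 → L = T := fun K L h1 h2 h3 => by
    have h4 := card_lt h1
    have h5 := card_dvd h2
    rw [hcard] at h5
    have h6 := Nat.le_of_dvd (by norm_num) h5
    exact eq_of_le_of_card_le h2 (by rw [hcard]; interval_cases ♯L <;> omega)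
  have hinv : ∀ a ∈ V, a ≠ 1 → ∀ b ∈ V, ∀ w ∈ T, w ≠ 1 → w ∈ 𝐂[a] → w ∉ 𝐂[b] →
      b * w * b⁻¹ = w⁻¹ := by
    intro a ha ha1 b hb w hw hw1 hwa hwb
    have h1 : zpowers w = T ⊓ 𝐂[a] := by
      by_contra e
      have := hlt _ _ (lt_of_le_of_ne (zpowers_le.2 (⟨hw, hwa⟩ : w ∈ T ⊓ 𝐂[a])) e) inf_le_left
        (ho w hw hw1)
      exact ha1 (hTV a ha (hC ▸ le_cent1_iff.1 (inf_eq_left.1 this)))
    have h2 : b * w * b⁻¹ ∈ zpowers w := by
      rw [h1]
      refine ⟨conj_mem_of_norm (hVN hb) hw, ?_⟩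
      rw [← mem_cent1_iff_conj.1 (mem_cent1.2 (ab_iff.1 hVa b hb a ha)), cent1_conj]
      exact conj_mem_conj hwa
    have h3 : orderOf w = 3 := orderOf_eq_of_abelem hT hw hw1
    classical
    rw [mem_zpowers_iff_mem_range_orderOf, h3] at h2
    simp only [Finset.mem_image, Finset.mem_range] at h2
    obtain ⟨k, hk, h2⟩ := h2
    interval_cases k
    · exact absurd (by simpa using h2.symm) hw1
    · exact absurd (mem_cent1_comm.1 (mem_cent1_iff_conj.2 (by simpa using h2.symm))) hwb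
    · rw [← h2, eq_inv_iff_mul_eq_one, ← pow_succ, hT.2 w hw]
  obtain ⟨a, ha, ha1, u, hu, hua, hu1⟩ := hgen ⊥ (by simp)
  rw [mem_bot] at hu1
  obtain ⟨b, hb, hb1, t, ht, htb, htu⟩ := hgen (zpowers u) (ho u hu hu1).le
  have ht1 : t ≠ 1 := fun e => htu (e ▸ one_mem _)
  have hTe : zpowers u ⊔ zpowers t = T := hlt _ _ (lt_of_le_of_ne le_sup_left fun e =>
    htu (e ▸ mem_sup_right (mem_zpowers t))) (sup_le (zpowers_le.2 hu) (zpowers_le.2 ht))
    (ho u hu hu1)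
  have hnot : ∀ c ∈ V, c ≠ 1 → u ∈ 𝐂[c] → t ∉ 𝐂[c] := fun c hc h1 h2 h3 =>
    h1 (hTV c hc (hC ▸ le_cent1_iff.1 (hTe ▸ sup_le (zpowers_le.2 h2) (zpowers_le.2 h3))))
  have e1 := hinv b hb hb1 a ha t ht ht1 htb (hnot a ha ha1 hua)
  have e2 := hinv a ha ha1 b hb u hu hu1 hua fun e => hnot b hb hb1 e htb
  let f := PGrp.dihedralHom t a (hT.2 t ht) (hV2 a ha) e1
  let g := PGrp.dihedralHom u b (hT.2 u hu) (hV2 b hb) e2
  have hf : ∀ {n : ℕ} {x y : G} {hx : x ^ n = 1} {hy : y ^ 2 = 1} {h : y * x * y⁻¹ = x⁻¹}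
      {K : Subgroup G}, x ∈ K → y ∈ K → ∀ p, PGrp.dihedralHom x y hx hy h p ∈ K := by
    rintro n x y hx hy h K h1 h2 (i | i) <;> obtain ⟨i, rfl⟩ := ZMod.intCast_surjective i
    · rw [PGrp.dihedralHom_r]; exact zpow_mem h1 _
    · rw [PGrp.dihedralHom_sr]; exact mul_mem h2 (zpow_mem h1 _)
  have hcomm : ∀ p q, Commute (f p) (g q) := fun p q => by
    refine mem_cent1.1 (hf (mem_cent1_comm.1 (hf ?_ ?_ q)) (mem_cent1_comm.1 (hf ?_ ?_ q)) p)
    exacts [mem_cent1.2 (ab_iff.1 hT.1 u hu t ht), mem_cent1_comm.1 htb, hua,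
      mem_cent1.2 (ab_iff.1 hVa b hb a ha)]
  let ι := f.noncommCoprod g hcomm
  have hι : ∀ p, ι p = f p.1 * g p.2 := fun _ => rfl
  have hr1 : ι.range ≤ 𝐍(T) := by
    rintro _ ⟨p, rfl⟩
    exact mul_mem (hf (le_normalizer ht) (hVN ha) _) (hf (le_normalizer hu) (hVN hb) _)
  have hr2 : 36 ≤ ♯ι.range := by
    have m1 : t ∈ ι.range := ⟨(.r ((1 : ℤ) : ZMod 3), 1), by
      rw [hι, map_one, mul_one, PGrp.dihedralHom_r, zpow_one]⟩
    have m2 : a ∈ ι.range := ⟨(.sr ((0 : ℤ) : ZMod 3), 1), by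
      rw [hι, map_one, mul_one, PGrp.dihedralHom_sr, zpow_zero, mul_one]⟩
    have m3 : u ∈ ι.range := ⟨(1, .r ((1 : ℤ) : ZMod 3)), by
      rw [hι, map_one, one_mul, PGrp.dihedralHom_r, zpow_one]⟩
    have m4 : b ∈ ι.range := ⟨(1, .sr ((0 : ℤ) : ZMod 3)), by
      rw [hι, map_one, one_mul, PGrp.dihedralHom_sr, zpow_zero, mul_one]⟩
    have d1 : 9 ∣ ♯ι.range := hcard ▸ card_dvd (hTe ▸ sup_le (zpowers_le.2 m3) (zpowers_le.2 m1))
    have h2 : ♯(zpowers a) = 2 := by rw [Nat.card_zpowers, orderOf_eq_prime (hV2 a ha) ha1]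
    have h3 : zpowers a < V ⊓ ι.range := lt_of_le_of_ne (zpowers_le.2 ⟨ha, m2⟩) fun e =>
      hnot b hb hb1 (cent1_le_of_mem_zpowers (e ▸ (⟨hb, m4⟩ : b ∈ V ⊓ ι.range)) hua) htb
    have h4 := card_lt h3
    have h5 := card_dvd (inf_le_left : V ⊓ ι.range ≤ V)
    rw [hV] at h5
    have h6 := Nat.le_of_dvd (by norm_num) h5
    have h7 : ♯(V ⊓ ι.range) = 4 := by interval_cases ♯(V ⊓ ι.range) <;> omega
    have d2 : 4 ∣ ♯ι.range := h7 ▸ card_dvd inf_le_right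
    have := card_pos' ι.range
    omega
  have hr : ι.range = 𝐍(T) := eq_of_le_of_card_le hr1 (hN ▸ hr2)
  have hinj : Function.Injective ι := by
    have := (Nat.bijective_iff_surjective_and_card ι.rangeRestrict).2
      ⟨ι.rangeRestrict_surjective, by rw [hr, hN, Nat.card_prod, DihedralGroup.nat_card]⟩
    exact fun p q e => this.1 (Subtype.ext e)
  rw [← hr]
  refine Hay.Model.range_eq_top ⟨hinj, fun p q x hp hx => ?_, fun e => hS.not_dvd ?_⟩
  · have w1 : ι p ^ 2 ∈ T := hsq _ (hr1 ⟨p, rfl⟩)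
    have w2 : ι q ^ 2 ∈ T := hsq _ (hr1 ⟨q, rfl⟩)
    have w3 : x * ι p ^ 2 * x⁻¹ = ι q ^ 2 := by rw [← hx, conj_pow]
    have w4 : ι q ^ 2 ≠ 1 := fun e => hp (hinj (by
      rw [map_pow, map_one]; simpa [← w3] using e))
    have w5 : x •ᶜ T ≤ 𝐍(T) := by
      refine le_trans ?_ (hloc _ w2 w4)
      rw [← w3]
      refine le_trans (conj_mono x fun y hy => mem_cent1.2 (ab_iff.1 hT.1 y hy _ w1)) ?_
      rw [cent1_conj]
    rw [hr]
    refine mem_norm_of_conj_le ?_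
    have hS' := hS.syl_norm
    rw [top_inf_eq] at hS'
    exact hS'.le_of_normal_syl le_rfl w5 (isPGroup_conj.2 hS.isPGroup)
  · rw [← card_top, ← card_mul_relIndex (le_top : T ≤ ⊤), hcard] at e
    exact Nat.dvd_of_mul_dvd_mul_left (by norm_num : 0 < 9) e

end Cfsg.Agent.S3805
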