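import Cfsg.Statements.S3815
import Mathlib

set_option autoImplicit false
open Cfsg

namespace Cfsg.Agent.S3815


/-- Let G be a finite group, p a prime and d ∈ G an element of order prime to p. If dg has order prime to p for every element g ∈ G of order prime to p, then d ∈ O_{p'}(G). -/
theorem result {G : Type*} [Group G] [Finite G] {p : ℕ} [Fact p.Prime]
    (d : G) (hd : (orderOf d).Coprime p)
    (h : ∀ g : G, (orderOf g).Coprime p → (orderOf (d * g)).Coprime p) :
    d ∈ Cfsg.pPrimeCore p G := by
  classical
  have hp : p.Prime := Fact.out
  let D : Subgroup G :=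
    { carrier := {d | ∀ g : G, (orderOf g).Coprime p → (orderOf (d * g)).Coprime p}
      one_mem' := by intro g hg; simpa using hg
      mul_mem' := by
        intro a b ha hb g hg
        rw [mul_assoc]
        exact ha _ (hb g hg)
      inv_mem' := by
        intro a ha
        have hpow : ∀ n : ℕ, ∀ g : G, (orderOf g).Coprime p → (orderOf (a ^ n * g)).Coprime p := by
          intro n
          induction n with
          | zero => intro g hg; simpa using hg
          | succ n ih =>
            intro g hg
            rw [pow_succ', mul_assoc]
            exact ha _ (ih g hg)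
        have hinv : a⁻¹ = a ^ (orderOf a - 1) := by
          have hpos := orderOf_pos a
          rw [inv_eq_iff_mul_eq_one, ← pow_succ']
          rw [Nat.sub_add_cancel hpos, pow_orderOf_eq_one]
        intro g hg
        rw [hinv]
        exact hpow _ g hg }
  have hDn : D.Normal := by
    refine ⟨fun a ha x g hg => ?_⟩
    have h1 : (orderOf (x⁻¹ * g * x)).Coprime p := by
      have : orderOf (x⁻¹ * g * x) = orderOf g := by
        have := (MulAut.conj x⁻¹).orderOf_eq g
        simpa using this
      rwa [this]
    have h2 := ha _ h1
    have : orderOf (x * a * x⁻¹ * g) = orderOf (a * (x⁻¹ * g * x)) := by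
      have := (MulAut.conj x).orderOf_eq (a * (x⁻¹ * g * x))
      rw [← this]
      congr 1
      simp [mul_assoc]
    rwa [this]
  have hDc : (Nat.card D).Coprime p := by
    rw [Nat.Coprime, Nat.gcd_comm]
    apply (Nat.Prime.coprime_iff_not_dvd hp).2
    intro hdvd
    obtain ⟨x, hx⟩ := exists_prime_orderOf_dvd_card' p hdvd
    have h1 := x.2 1 (by simp)
    rw [mul_one, Subgroup.orderOf_coe, hx] at h1
    exact hp.one_lt.ne' (by simpa using h1)
  have : D ≤ Cfsg.pPrimeCore p G := le_sSup ⟨hDn, hDc⟩
  exact this h

end Cfsg.Agent.S3815
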