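import Cfsg.Statements.S3816
import Cfsg.Agent.Lib.Flav.FixC
import Cfsg.Agent.Lib.Coprime.Semidirect

set_option autoImplicit false
open Cfsg

namespace Cfsg.Agent.S3816

/-- Let p be an odd prime, H a finite solvable group of order prime to p, and x an automorphism of H of order p (so P = ⟨x⟩ has prime order p > 2 and acts coprimely on H). For h ∈ H let [h, P] be the subgroup generated by the commutators h⁻¹·xⁱ(h), and let [H, P] be the subgroup generated by all of these. Then the fixed points of x in [H, P] are generated by the fixed points of x in the subgroups [h, P], h ∈ H. -/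
theorem result {H : Type*} [Group H] [Finite H]
    [Group.IsSolvable H] {p : ℕ} [Fact p.Prime] (hp : p ≠ 2) (hcop : (Nat.card H).Coprime p)
    (x : MulAut H) (hx : orderOf x = p) :
    Subgroup.closure {c : H | ∃ h : H, ∃ i : ℕ, c = h⁻¹ * (x ^ i) h} ⊓ (x : H →* H).eqLocus (MonoidHom.id H) =
      ⨆ h : H, Subgroup.closure {c : H | ∃ i : ℕ, c = h⁻¹ * (x ^ i) h} ⊓ (x : H →* H).eqLocus (MonoidHom.id H) := by
  refine le_antisymm ?_ (iSup_le fun h => inf_le_inf_right _ (Subgroup.closure_mono
    fun c ⟨i, hi⟩ => ⟨h, i, hi⟩))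
  let φ := MonoidHom.id (MulAut H)
  have hz : Subgroup.zpowers (SemidirectProduct.inr x : H ⋊[φ] MulAut H) =
      (Subgroup.zpowers x).map SemidirectProduct.inr := (MonoidHom.map_zpowers _ _).symm
  have hfix : Coprime.fixedSub φ (Subgroup.zpowers x) = (x : H →* H).eqLocus (MonoidHom.id H) := by
    ext g
    exact Coprime.mem_fixedSub_zpowers φ
  have h1 := Flav.fixed_le (Fact.out : p.Prime) hp _ (H ⋊[φ] MulAut H)
    ((⊤ : Subgroup H).map SemidirectProduct.inl) (SemidirectProduct.inr x) rfl
    (by rw [← map_pow, ← hx, pow_orderOf_eq_one, map_one])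
    (Core.isSolvable_map inferInstance _)
    (by
      rw [hz, Coprime.card_map_inl, Coprime.card_map_inr, Nat.card_zpowers, hx, Subgroup.card_top]
      exact hcop.symm)
    (by
      rw [hz, Coprime.map_inr_le_normalizer_iff]
      intro _ _ _ _
      trivial)
  rw [hz, Coprime.commutator_map_inl_map_inr, Coprime.map_inl_inf_centralizer, hfix] at h1
  rw [← Coprime.map_inl_le_map_inl_iff φ]
  refine le_trans (Subgroup.map_mono (inf_le_inf_right _ ?_)) (h1.trans (iSup_le ?_))
  · rw [Subgroup.closure_le]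
    rintro _ ⟨h, i, rfl⟩
    exact Coprime.mem_commSub φ (Subgroup.npow_mem_zpowers x i) trivial
  · rintro ⟨_, h, -, rfl⟩
    have h2 : Flav.cm ((Subgroup.zpowers x).map SemidirectProduct.inr)
        (SemidirectProduct.inl h : H ⋊[φ] MulAut H) ≤
        (Subgroup.closure {c : H | ∃ i : ℕ, c = h⁻¹ * (x ^ i) h}).map SemidirectProduct.inl := by
      refine Flav.cm_le ?_
      rintro _ ⟨a, ha, rfl⟩
      obtain ⟨i, rfl⟩ := (isOfFinOrder_of_finite x).mem_powers_iff_mem_zpowers.2 ha
      rw [← map_inv, Coprime.commutator_inl_inr]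
      exact ⟨_, Subgroup.subset_closure ⟨i, rfl⟩, rfl⟩
    refine (inf_le_inf_right _ h2).trans ?_
    rw [Coprime.map_inl_inf_centralizer, hfix]
    exact Subgroup.map_mono (le_iSup (fun h : H => Subgroup.closure
      {c : H | ∃ i : ℕ, c = h⁻¹ * (x ^ i) h} ⊓ (x : H →* H).eqLocus (MonoidHom.id H)) h)

end Cfsg.Agent.S3816
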