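import Cfsg.Statements.S3818
import Cfsg.Agent.Lib.Flav.Main

set_option autoImplicit false
open Cfsg

namespace Cfsg.Agent.S3818

/-- Let G be a finite solvable group and P a subgroup of G of prime order p > 3 whose conjugates generate G. Let V be a faithful irreducible representation of G over a field of positive characteristic, finite-dimensional. Then the subspace of V fixed by P has dimension less than half the dimension of V. -/
theorem result {G : Type*} [Group G] [Finite G] [Group.IsSolvable G]
    {p : ℕ} [Fact p.Prime] (hp : 3 < p) (P : Subgroup G) (hP : Nat.card P = p) (hgen : Subgroup.normalClosure (P : Set G) = ⊤)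
    {k : Type*} [Field k] (ℓ : ℕ) [Fact ℓ.Prime] [CharP k ℓ]
    {V : Type*} [AddCommGroup V] [Module k V] [FiniteDimensional k V]
    (ρ : Representation k G V) [ρ.IsIrreducible] (hfaith : Function.Injective ρ) :
    2 * Module.finrank k ↥(⨅ g : ↥P, LinearMap.ker (ρ (g : G) - LinearMap.id)) < Module.finrank k V := by
  have h5 : 5 ≤ p := by
    have h4 : p ≠ 4 := by
      rintro rfl
      exact absurd (Fact.out : Nat.Prime 4) (by norm_num)
    omega
  obtain ⟨x, rfl, ho⟩ := Mod.exists_zpowers_eq_of_prime_card Fact.out hP
  have hirr : ∀ W : Submodule k V, (∀ g, ∀ v ∈ W, ρ g v ∈ W) → W = ⊥ ∨ W = ⊤ := by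
    intro W hW
    rcases eq_bot_or_eq_top (⟨W, fun g v hv => hW g v hv⟩ : Subrepresentation ρ) with h | h
    · exact Or.inl (congrArg Subrepresentation.toSubmodule h)
    · exact Or.inr (congrArg Subrepresentation.toSubmodule h)
  have hV : Nontrivial V := by
    by_contra h
    rw [not_nontrivial_iff_subsingleton] at h
    have : (⊥ : Subrepresentation ρ) = ⊤ :=
      Subrepresentation.toSubmodule_injective (Subsingleton.elim _ _)
    exact bot_ne_top this
  have hker : ρ.ker = ⊥ := (MonoidHom.ker_eq_bot_iff _).2 hfaith
  have h1 := Flav.rep_bound (ρ := ρ) ℓ h5 (fun N _ hN => by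
    refine (hirr _ fun g v hv => Mod.isInv_fix (A := ⊤)
      (by rw [Subgroup.normalizer_eq_top]) g trivial v hv).resolve_right fun h => hN ?_
    exact Mod.fix_eq_top_iff.1 h) (x := x) (by
      intro h
      have : x ∈ ρ.ker := h ▸ Subgroup.mem_top x
      rw [hker, Subgroup.mem_bot] at this
      rw [this, orderOf_one] at ho
      omega) (by rw [← ho, pow_orderOf_eq_one]) (Flav.gen_of_normalClosure hgen)
  have h2 : (⨅ g : ↥(Subgroup.zpowers x), LinearMap.ker (ρ (g : G) - LinearMap.id)) =
      Mod.fix ρ (Subgroup.zpowers x) := by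
    ext v
    simp only [Mod.mem_fix, Submodule.mem_iInf, LinearMap.mem_ker, LinearMap.sub_apply, sub_eq_zero,
      LinearMap.id_apply, Subtype.forall]
  rwa [h2]

end Cfsg.Agent.S3818
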