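import Cfsg.Statements.S3819
import Cfsg.Agent.Lib.Coprime.Goldschmidt

set_option autoImplicit false
open Cfsg

namespace Cfsg.Agent.S3819

open Subgroup

/-- Let G be a finite group with Sylow p-subgroup P and H = O_{p'}(G), and suppose G = PH and the commutator subgroup [H, P] is solvable. Let q be a prime and z an element of q-power order of C_H(P). Then (O_{q'}(C_H(z)) ∩ O_{q'}(C_H(P))) · [O_{q'}(C_H(z)), P] ≤ O_{q'}(H). -/
theorem result {G : Type*} [Group G] [Finite G] {p : ℕ} [Fact p.Prime]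
    (P : Sylow p G) (hPH : Cfsg.pPrimeCore p G ⊔ (P : Subgroup G) = ⊤)
    (hsol : Group.IsSolvable ↥⁅Cfsg.pPrimeCore p G, (P : Subgroup G)⁆)
    {q : ℕ} [Fact q.Prime] (z : G) (hzH : z ∈ Cfsg.pPrimeCore p G) (hzP : z ∈ Subgroup.centralizer ((P : Subgroup G) : Set G))
    (hz : ∃ k : ℕ, orderOf z = q ^ k) :
    ((Cfsg.pPrimeCore q ↥(Cfsg.pPrimeCore p G ⊓ Subgroup.centralizer ({z} : Set G))).map
        (Cfsg.pPrimeCore p G ⊓ Subgroup.centralizer ({z} : Set G)).subtype ⊓
      (Cfsg.pPrimeCore q ↥(Cfsg.pPrimeCore p G ⊓ Subgroup.centralizer ((P : Subgroup G) : Set G))).map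
        (Cfsg.pPrimeCore p G ⊓ Subgroup.centralizer ((P : Subgroup G) : Set G)).subtype) ⊔
    ⁅(Cfsg.pPrimeCore q ↥(Cfsg.pPrimeCore p G ⊓ Subgroup.centralizer ({z} : Set G))).map
        (Cfsg.pPrimeCore p G ⊓ Subgroup.centralizer ({z} : Set G)).subtype, (P : Subgroup G)⁆ ≤
    (Cfsg.pPrimeCore q ↥(Cfsg.pPrimeCore p G)).map (Cfsg.pPrimeCore p G).subtype := by
  set H := pPrimeCore p G with hH
  set K : Subgroup G := ⁅H, (P : Subgroup G)⁆ with hK
  change Coprime.pPrimeCoreOf q (H ⊓ centralizer {z}) ⊓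
    Coprime.pPrimeCoreOf q (H ⊓ centralizer (P : Set G)) ⊔
      ⁅Coprime.pPrimeCoreOf q (H ⊓ centralizer {z}), (P : Subgroup G)⁆ ≤ Coprime.pPrimeCoreOf q H
  set D := Coprime.pPrimeCoreOf q (H ⊓ centralizer {z}) with hD
  set F := Coprime.pPrimeCoreOf q (H ⊓ centralizer (P : Set G)) with hF
  have hKn : K.Normal := by
    rw [Core.normal_iff_top_le_normalizer, ← hPH]
    exact sup_le (normalizer_commutator_ge_left _ _) (normalizer_commutator_ge_right _ _)
  have hKH : K ≤ H := commutator_le_left _ _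
  have hDc := Coprime.coprime_card_pPrimeCoreOf q (H ⊓ centralizer {z})
  have hZ : IsPGroup q (zpowers z) := by
    obtain ⟨k, hk⟩ := hz
    exact IsPGroup.of_card (by rw [Nat.card_zpowers, hk])
  have hDz : D ≤ centralizer {z} := (Coprime.pPrimeCoreOf_le _).trans inf_le_right
  have h1 : ⁅D, K⁆ ≤ Coprime.pPrimeCoreOf q K := by
    refine Coprime.commutator_le_pPrimeCoreOf (Coprime.isPSolvable_of_isSolvable hsol) hZ hDc
      (zpowers_le.2 fun y hy => hDz hy z rfl ▸ rfl) ?_
    refine le_trans (inf_le_inf hKH ?_) (Coprime.le_normalizer_pPrimeCoreOf _)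
    exact centralizer_le (Set.singleton_subset_iff.2 (mem_zpowers z))
  set O := Coprime.pPrimeCoreOf q K with hO
  have hOc : (Nat.card O).Coprime q := Coprime.coprime_card_pPrimeCoreOf q K
  have hOH : O ≤ Coprime.pPrimeCoreOf q H :=
    Coprime.pPrimeCoreOf_le_of_le_normalizer hKH le_normalizer_of_normal
  refine sup_le ?_ ?_
  · set R := (centralizer ((K.map (QuotientGroup.mk' O) : Subgroup _) : Set (G ⧸ O))).comap
      (QuotientGroup.mk' O) with hR
    have hKn' : (K.map (QuotientGroup.mk' O)).Normal :=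
      hKn.map _ (QuotientGroup.mk'_surjective O)
    have hRn : R.Normal := inferInstance
    have hRK : ∀ Y : Subgroup G, Y ≤ R ↔ ⁅Y, K⁆ ≤ O := fun Y => by
      rw [← Core.map_mk_eq_bot_iff O, map_commutator, commutator_eq_bot_iff_le_centralizer,
        map_le_iff_le_comap]
    have h2 : H = H ⊓ centralizer (P : Set G) ⊔ K :=
      (Coprime.centralizer_sup_commutator le_normalizer_of_normal
        (Core.coprime_card_of_isPGroup P.isPGroup' (Core.coprime_card_pPrimeCore p))
        (Or.inl (Coprime.isSolvable_of_isPGroup P.isPGroup'))).symm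
    refine (inf_le_inf_right F ((hRK D).2 h1)).trans (le_sup_left.trans
      (Coprime.le_pPrimeCoreOf (K := R ⊓ F ⊔ O) ?_ ?_ ?_))
    · exact sup_le (inf_le_right.trans ((Coprime.pPrimeCoreOf_le _).trans inf_le_left))
        ((Coprime.pPrimeCoreOf_le _).trans hKH)
    · rw [h2]
      refine sup_le (Core.le_normalizer_sup (Core.le_normalizer_inf le_normalizer_of_normal
        (Coprime.le_normalizer_pPrimeCoreOf _)) le_normalizer_of_normal) ?_
      exact Coprime.le_normalizer_sup_of_commutator_le le_normalizer_of_normal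
        ((hRK _).1 inf_le_left)
    · exact Coprime.coprime_card_sup le_normalizer_of_normal
        ((Coprime.coprime_card_pPrimeCoreOf q _).coprime_dvd_left (card_dvd_of_le inf_le_right)) hOc
  · have hPD : (P : Subgroup G) ≤ normalizer (D : Set G) := by
      refine le_trans (Core.le_normalizer_inf le_normalizer_of_normal ?_)
        (Coprime.normalizer_le_normalizer_pPrimeCoreOf _)
      refine le_trans (fun x hx => ?_) le_normalizer
      exact mem_centralizer_singleton_iff.2 (hzP x hx)
    have h2 : ⁅D, (P : Subgroup G)⁆ ≤ D ⊓ K := le_inf (Coprime.commutator_le_of_le_normalizer hPD)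
      (commutator_mono ((Coprime.pPrimeCoreOf_le _).trans inf_le_left) le_rfl)
    refine h2.trans (le_trans (le_sup_left.trans
      (Coprime.le_pPrimeCoreOf (K := D ⊓ K ⊔ O) ?_ ?_ ?_)) hOH)
    · exact sup_le inf_le_right (Coprime.pPrimeCoreOf_le _)
    · exact Coprime.le_normalizer_sup_of_commutator_le le_normalizer_of_normal
        ((commutator_mono inf_le_left le_rfl).trans h1)
    · exact Coprime.coprime_card_sup le_normalizer_of_normal
        (hDc.coprime_dvd_left (card_dvd_of_le inf_le_left)) hOc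

end Cfsg.Agent.S3819
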