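import Cfsg.Statements.S3820
import Mathlib
import Cfsg.Agent.Lib.Core.Pronormal

set_option autoImplicit false
open Cfsg

namespace Cfsg.Agent.S3820

open Subgroup Cfsg.Agent.Core

/-- Call a subgroup H of G pronormal if H and gHg⁻¹ are conjugate inside ⟨H, gHg⁻¹⟩ for every g ∈ G. Let S ≤ H ≤ G be subgroups of a finite group with S pronormal in G (for instance S a Sylow subgroup). Then H is pronormal in G if and only if H and gHg⁻¹ are conjugate inside ⟨H, gHg⁻¹⟩ for every g ∈ N_G(S). In particular H is pronormal whenever N_G(S) ≤ H. -/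
theorem result {G : Type*} [Group G] [Finite G] (S H : Subgroup G) (hSH : S ≤ H)
    (hS : Cfsg.IsPronormal S) :
    Cfsg.IsPronormal H ↔
      ∀ g ∈ Subgroup.normalizer (S : Set G), ∃ w ∈ H ⊔ H.map (MulAut.conj g).toMonoidHom,
        H.map (MulAut.conj g).toMonoidHom = H.map (MulAut.conj w).toMonoidHom := by
  exact ⟨fun h g _ => h g, fun h g => PronAt.of_le hSH (hS g) fun x _ hn => h _ hn⟩

end Cfsg.Agent.S3820
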