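import Cfsg.Statements.S3821
import Mathlib
import Cfsg.Agent.Lib.Core.Pronormal

set_option autoImplicit false
open Cfsg

namespace Cfsg.Agent.S3821

open Subgroup Cfsg.Agent.Core

/-- Let A be a normal subgroup of the finite group G and H a subgroup of A. Then H is pronormal in G (H and gHg⁻¹ conjugate inside ⟨H, gHg⁻¹⟩ for every g ∈ G) if and only if H is pronormal in A and G = A · N_G(H). -/
theorem result {G : Type*} [Group G] [Finite G] (A H : Subgroup G) [A.Normal] (hHA : H ≤ A) :
    Cfsg.IsPronormal H ↔ (Cfsg.IsPronormal (H.subgroupOf A) ∧ A ⊔ Subgroup.normalizer (H : Set G) = ⊤) := by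
  rw [isPronormal_subgroupOf_iff hHA]
  constructor
  · intro h
    refine ⟨fun g _ => h g, eq_top_iff.2 fun g _ => ?_⟩
    obtain ⟨x, hx, hn⟩ := pronAt_iff.1 (h g)
    have hle : H ⊔ H.map (MulAut.conj g).toMonoidHom ≤ A := by
      refine sup_le hHA ((map_mono hHA).trans (map_conj_eq_iff.2 ?_).le)
      rw [normalizer_eq_top]; exact mem_top g
    have := mul_mem (mem_sup_left (hle hx)) (mem_sup_right (S := A) hn)
    rwa [mul_inv_cancel_left] at this
  · rintro ⟨h1, h2⟩ g
    have hg : g ∈ A ⊔ normalizer (H : Set G) := h2.ge (mem_top g)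
    rw [← SetLike.mem_coe, normal_mul] at hg
    obtain ⟨a, ha, n, hn, rfl⟩ := hg
    exact (pronAt_mul_normalizer hn).2 (h1 a ha)

end Cfsg.Agent.S3821
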