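import Cfsg.Statements.S3825
import Mathlib

set_option autoImplicit false
open Cfsg

namespace Cfsg.Agent.S3825

/-- Let U be a subgroup of a finite group H and w an involution of H normalizing U and commuting with exactly two elements of U, the identity and y. If V is a non-cyclic elementary abelian 2-subgroup of U containing y which is normal in U and invariant under w, then V is a Sylow 2-subgroup of U, V has order 4, and U/V is abelian. -/
theorem result {H : Type*} [Group H] [Finite H] (U : Subgroup H) (w : H) (hw : orderOf w = 2)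
    (hwU : w ∈ Subgroup.normalizer (U : Set H)) (y : H) (hy : y ≠ 1) (hyU : y ∈ U)
    (hfix : ∀ u ∈ U, w * u * w⁻¹ = u ↔ (u = 1 ∨ u = y))
    (V : Subgroup H) (hVU : V ≤ U) (hVn : (V.subgroupOf U).Normal) (hVw : ∀ v ∈ V, w * v * w⁻¹ ∈ V)
    (hVe : Cfsg.IsElementaryAbelian 2 V) (hVc : ¬ IsCyclic ↥V) (hyV : y ∈ V) :
    ¬ 2 ∣ V.relIndex U ∧ Nat.card ↥V = 4 ∧ ⁅U, U⁆ ≤ V := by
  have hUn : ∀ u ∈ U, w * u * w⁻¹ ∈ U := fun u hu => (Subgroup.mem_normalizer_iff.1 hwU u).1 hu
  have hw2 : w * w = 1 := by rw [← sq, ← hw, pow_orderOf_eq_one]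
  have hwinv : w⁻¹ = w := inv_eq_of_mul_eq_one_right hw2
  have hww : ∀ u : H, w * (w * u * w⁻¹) * w⁻¹ = u := by
    intro u
    calc w * (w * u * w⁻¹) * w⁻¹ = (w * w) * u * (w * w)⁻¹ := by group
      _ = u := by rw [hw2]; simp
  have hVinv : ∀ v ∈ V, v⁻¹ = v := fun v hv =>
    inv_eq_of_mul_eq_one_right (by rw [← sq]; exact hVe.2 v hv)
  -- the set of `u ∈ U` fixed by `w` modulo `V` has at most four elements
  classical
  have := Fintype.ofFinite H
  let T : Finset H := Finset.univ.filter (fun u => u ∈ U ∧ u⁻¹ * (w * u * w⁻¹) ∈ V)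
  have hT : T.card ≤ 2 * 2 := by
    have h1 : ({1, y} : Finset H).card ≤ 2 := Finset.card_le_two
    refine le_trans (Finset.card_le_mul_card_image_of_maps_to (t := ({1, y} : Finset H))
      (f := fun u => u⁻¹ * (w * u * w⁻¹)) ?_ 2 ?_) (Nat.mul_le_mul_left _ h1)
    · intro u hu
      simp only [T, Finset.mem_filter, Finset.mem_univ, true_and] at hu
      simp only [Finset.mem_insert, Finset.mem_singleton]
      rw [← hfix _ (hVU hu.2)]
      have h2 : w * (u⁻¹ * (w * u * w⁻¹)) * w⁻¹ =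
          (w * u * w⁻¹)⁻¹ * (w * (w * u * w⁻¹) * w⁻¹) := by group
      rw [h2, hww, ← hVinv _ hu.2]
      group
    · intro b _
      by_cases hne : (T.filter (fun u => u⁻¹ * (w * u * w⁻¹) = b)).Nonempty
      · obtain ⟨u0, hu0⟩ := hne
        have h3 : ({u0, y * u0} : Finset H).card ≤ 2 := Finset.card_le_two
        refine le_trans (Finset.card_le_card ?_) h3
        intro u hu
        simp only [T, Finset.mem_filter, Finset.mem_univ, true_and] at hu hu0
        have h4 := (hfix (u * u0⁻¹) (U.mul_mem hu.1.1 (U.inv_mem hu0.1.1))).1 (by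
          calc w * (u * u0⁻¹) * w⁻¹ = u * (u⁻¹ * (w * u * w⁻¹)) * (u0⁻¹ * (w * u0 * w⁻¹))⁻¹ * u0⁻¹ := by
                group
            _ = u * u0⁻¹ := by rw [hu.2, hu0.2]; group)
        simp only [Finset.mem_insert, Finset.mem_singleton]
        rcases h4 with h4 | h4
        · left; exact mul_inv_eq_one.1 h4
        · right; exact mul_inv_eq_iff_eq_mul.1 h4
      · rw [Finset.not_nonempty_iff_eq_empty] at hne
        simp [hne]
  have hVT : (V : Set H).toFinset ⊆ T := by
    intro v hv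
    simp only [Set.mem_toFinset, SetLike.mem_coe] at hv
    simp only [T, Finset.mem_filter, Finset.mem_univ, true_and]
    exact ⟨hVU hv, V.mul_mem (V.inv_mem hv) (hVw v hv)⟩
  have hcardV : Nat.card V = (V : Set H).toFinset.card := by
    rw [Set.toFinset_card, ← Nat.card_eq_fintype_card]; rfl
  have hV4 : Nat.card V ≤ 4 := by rw [hcardV]; exact (Finset.card_le_card hVT).trans hT
  have hV2 : IsPGroup 2 V := fun v => ⟨1, Subtype.ext (by simpa using hVe.2 v v.2)⟩
  obtain ⟨k, hk⟩ := IsPGroup.iff_card.1 hV2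
  have hk2 : k = 2 := by
    have h1 : k ≤ 2 := by
      rw [hk] at hV4
      exact (Nat.pow_le_pow_iff_right (by norm_num : 1 < 2)).1 hV4
    by_contra hk2
    apply hVc
    apply isCyclic_of_card_dvd_prime (p := 2)
    rw [hk]
    have : k = 0 ∨ k = 1 := by omega
    rcases this with rfl | rfl <;> simp
  have hV4' : Nat.card V = 4 := by rw [hk, hk2]; norm_num
  have hTV : (V : Set H).toFinset = T :=
    Finset.eq_of_subset_of_card_le hVT (by rw [← hcardV, hV4']; exact hT)
  have hkey : ∀ u ∈ U, u⁻¹ * (w * u * w⁻¹) ∈ V → u ∈ V := by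
    intro u hu h
    have : u ∈ T := by simp only [T, Finset.mem_filter, Finset.mem_univ, true_and]; exact ⟨hu, h⟩
    rw [← hTV] at this
    simpa using this
  let φ : U →* U := MonoidHom.mk' (fun u => ⟨w * u * w⁻¹, hUn u u.2⟩) (by
    intro a b
    ext
    simp only [Subgroup.coe_mul]; group)
  let ψ : U ⧸ V.subgroupOf U →* U ⧸ V.subgroupOf U :=
    QuotientGroup.map _ _ φ (fun v hv => hVw v hv)
  have hψ : MonoidHom.FixedPointFree ψ := by
    intro g hg
    obtain ⟨u, rfl⟩ := QuotientGroup.mk_surjective g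
    rw [QuotientGroup.eq_one_iff]
    have h1 : ((φ u : U) : U ⧸ V.subgroupOf U) = u := hg
    have h2 := QuotientGroup.eq.1 h1.symm
    exact hkey u u.2 h2
  have hψ2 : Function.Involutive ψ := by
    intro g
    obtain ⟨u, rfl⟩ := QuotientGroup.mk_surjective g
    show ((φ (φ u) : U) : U ⧸ V.subgroupOf U) = u
    congr 1
    exact Subtype.ext (hww u)
  refine ⟨?_, hV4', ?_⟩
  · have := hψ.odd_card_of_involutive hψ2
    rw [← Nat.not_even_iff_odd, even_iff_two_dvd] at this
    exact this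
  · rw [Subgroup.commutator_le]
    intro a ha b hb
    have h1 := hψ.commute_all_of_involutive hψ2 ((⟨a, ha⟩ : U) : U ⧸ V.subgroupOf U) (⟨b, hb⟩ : U)
    have h2 : ((⟨a, ha⟩ * ⟨b, hb⟩ * (⟨a, ha⟩ : U)⁻¹ * (⟨b, hb⟩ : U)⁻¹ : U) : U ⧸ V.subgroupOf U) = 1 := by
      simp only [QuotientGroup.mk_mul, QuotientGroup.mk_inv]
      rw [h1.eq]; group
    have h3 := (QuotientGroup.eq_one_iff _).1 h2
    exact h3

end Cfsg.Agent.S3825
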