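import Cfsg.Statements.S3835
import Mathlib
import Cfsg.Agent.Lib.PGrp.Frattini

set_option autoImplicit false
open Cfsg

namespace Cfsg.Agent.S3835

open scoped Matrix

theorem comm_of_lt {G : Type*} [Group G] [Finite G] {p : ℕ} [Fact p.Prime] (hG : IsPGroup p G)
    {n : ℕ} (f : G →* Equiv.Perm (Fin n)) (hf : Function.Injective f) (hn : n < p ^ 2) (a b : G) :
    a * b = b * a := by
  have hp : p.Prime := Fact.out
  let _ : MulAction G (Fin n) := MulAction.compHom _ f
  have key : ∀ x : Fin n, commutator G ≤ MulAction.stabilizer G x := by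
    intro x
    obtain ⟨k, hk⟩ := hG.index (MulAction.stabilizer G x)
    have h1 : p ^ k ≤ n := by
      rw [← hk, MulAction.index_stabilizer]
      simpa using Set.ncard_le_card (MulAction.orbit G x)
    have h2 : k < 2 := (Nat.pow_lt_pow_iff_right hp.one_lt).1 (h1.trans_lt hn)
    interval_cases k
    · rw [pow_zero, Subgroup.index_eq_one] at hk
      rw [hk]; exact le_top
    · rw [pow_one] at hk
      have := PGrp.normal_of_index_eq hG hk
      exact PGrp.commutator_le_of_index_eq hk
  rw [← commutatorElement_eq_one_iff_mul_comm]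
  apply hf
  rw [map_one]
  ext x
  exact congrArg Fin.val
    (key x (Subgroup.commutator_mem_commutator (Subgroup.mem_top a) (Subgroup.mem_top b)))

variable {p : ℕ} [Fact p.Prime]

theorem row {M : Matrix.SpecialLinearGroup (Fin 3) (ZMod p)} (h : M ∈ Cfsg.qd p)
    (v : Fin 3 → ZMod p) : (M.val *ᵥ v) 2 = v 2 := by
  induction h using Subgroup.closure_induction generalizing v with
  | mem M hM => simp [Matrix.mulVec, dotProduct, Fin.sum_univ_three, hM.1, hM.2.1, hM.2.2]
  | one => simp
  | mul M N _ _ hM hN => rw [Matrix.SpecialLinearGroup.coe_mul, ← Matrix.mulVec_mulVec, hM, hN]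
  | inv M _ hM =>
    have := hM ((M⁻¹).val *ᵥ v)
    rw [Matrix.mulVec_mulVec, ← Matrix.SpecialLinearGroup.coe_mul, mul_inv_cancel] at this
    simpa using this.symm

theorem row' (M : Cfsg.qd p) : M.val.val 2 0 = 0 ∧ M.val.val 2 1 = 0 ∧ M.val.val 2 2 = 1 :=
  ⟨by simpa using row M.2 (Pi.single 0 1), by simpa using row M.2 (Pi.single 1 1),
    by simpa using row M.2 (Pi.single 2 1)⟩

/-- Transvections in `Qd(p)`. -/
def tv (i j : Fin 3) (h : i ≠ j) (hi : 2 ≠ i) (c : ZMod p) : Cfsg.qd p :=
  ⟨⟨Matrix.transvection i j c, Matrix.det_transvection_of_ne i j h c⟩,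
    Subgroup.subset_closure ⟨by simp [Matrix.transvection, hi.symm],
      by simp [Matrix.transvection, hi.symm], by simp [Matrix.transvection, hi.symm]⟩⟩

theorem tv_val (i j : Fin 3) (h : i ≠ j) (hi : 2 ≠ i) (c : ZMod p) :
    (tv i j h hi c).val.val = Matrix.transvection i j c := rfl

theorem tv_pow (i j : Fin 3) (h : i ≠ j) (hi : 2 ≠ i) (c : ZMod p) : tv i j h hi c ^ p = 1 := by
  have : ∀ k : ℕ, tv i j h hi c ^ k = tv i j h hi ((k : ZMod p) * c) := by
    intro k
    induction k with
    | zero => exact Subtype.ext (Subtype.ext (by simp [tv_val]))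
    | succ k ih =>
      rw [pow_succ, ih]
      refine Subtype.ext (Subtype.ext ?_)
      change Matrix.transvection i j _ * Matrix.transvection i j _ = Matrix.transvection i j _
      rw [Matrix.transvection_mul_transvection_same _ _ h]
      push_cast; ring_nf
  rw [this]
  exact Subtype.ext (Subtype.ext (by simp [tv_val]))

theorem gen (K : Subgroup (Cfsg.qd p)) (hK : ∀ g : Cfsg.qd p, g ^ p = 1 → g ∈ K) (M : Cfsg.qd p) :
    M ∈ K := by
  have key : ∀ M : Cfsg.qd p, M.val.val 1 0 ≠ 0 → M ∈ K := by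
    intro M hc
    obtain ⟨h1, h2, h3⟩ := row' M
    have hd := M.val.2
    rw [Matrix.det_fin_three, h1, h2, h3] at hd
    have : M = tv 0 2 (by decide) (by decide) (M.val.val 0 2) *
        tv 1 2 (by decide) (by decide) (M.val.val 1 2) *
        tv 0 1 (by decide) (by decide) ((M.val.val 0 0 - 1) / M.val.val 1 0) *
        tv 1 0 (by decide) (by decide) (M.val.val 1 0) *
        tv 0 1 (by decide) (by decide) ((M.val.val 1 1 - 1) / M.val.val 1 0) := by
      refine Subtype.ext (Subtype.ext ?_)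
      simp only [Subgroup.coe_mul, Matrix.SpecialLinearGroup.coe_mul, tv_val]
      ext i j
      fin_cases i <;> fin_cases j <;>
        simp [Matrix.transvection, Matrix.mul_apply, Fin.sum_univ_three, Matrix.one_apply,
          Matrix.single_apply, h1, h2, h3, hc]
      · field_simp
        linear_combination -hd
      · field_simp
        ring
    rw [this]
    refine K.mul_mem (K.mul_mem (K.mul_mem (K.mul_mem ?_ ?_) ?_) ?_) ?_ <;> exact hK _ (tv_pow ..)
  by_cases hc : M.val.val 1 0 = 0
  · refine (K.mul_mem_cancel_left (hK _ (tv_pow 1 0 (by decide) (by decide) 1))).1 (key _ ?_)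
    obtain ⟨h1, h2, h3⟩ := row' M
    have hd := M.val.2
    rw [Matrix.det_fin_three, h1, h2, h3, hc] at hd
    simp only [Subgroup.coe_mul, Matrix.SpecialLinearGroup.coe_mul, tv_val]
    rw [Matrix.transvection_mul_apply_same, hc]
    intro h
    have : M.val.val 0 0 = 0 := by simpa using h
    simp [this] at hd
  · exact key M hc

theorem exists_hom (hp : p ≠ 2) {n : ℕ} (hn : p ^ 2 ≤ n) :
    ∃ f : Cfsg.qd p →* alternatingGroup (Fin n), Function.Injective f := by
  have hp' : p.Prime := Fact.out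
  let X : SubMulAction (Cfsg.qd p) (Fin 3 → ZMod p) :=
    { carrier := {v | v 2 = 1}
      smul_mem' := fun M v hv => (row M.2 v).trans hv }
  have hX : Nat.card X ≤ n := by
    refine le_trans (Nat.card_le_card_of_injective
      (fun v : X => ((v : Fin 3 → ZMod p) 0, (v : Fin 3 → ZMod p) 1)) ?_) ?_
    · intro v w h
      ext i
      fin_cases i
      · exact congrArg Prod.fst h
      · exact congrArg Prod.snd h
      · exact v.2.trans w.2.symm
    · simpa [sq] using hn
  obtain ⟨e⟩ : Nonempty (X ↪ Fin n) := by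
    have := Fintype.ofFinite X
    exact Function.Embedding.nonempty_of_card_le (by simpa using hX)
  let ψ := (Equiv.Perm.viaEmbeddingHom e).comp (MulAction.toPermHom (Cfsg.qd p) X)
  have h1 : ∀ g, ψ g ∈ alternatingGroup (Fin n) := by
    refine gen ((alternatingGroup (Fin n)).comap ψ) fun g hg => ?_
    rw [Subgroup.mem_comap, Equiv.Perm.mem_alternatingGroup]
    have h2 : Equiv.Perm.sign (ψ g) ^ p = 1 := by rw [← map_pow, ← map_pow, hg, map_one, map_one]
    rcases Int.units_eq_one_or (Equiv.Perm.sign (ψ g)) with h | h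
    · exact h
    · rw [h, (hp'.odd_of_ne_two hp).neg_one_pow] at h2
      exact absurd h2 (by decide)
  refine ⟨ψ.codRestrict _ h1, ?_⟩
  rw [MonoidHom.injective_codRestrict]
  refine (Equiv.Perm.viaEmbeddingHom_injective e).comp ?_
  rw [injective_iff_map_eq_one]
  intro M hM
  have h2 : ∀ v : Fin 3 → ZMod p, v 2 = 1 → M.val.val *ᵥ v = v := fun v hv =>
    congrArg Subtype.val (congrArg (fun s : Equiv.Perm X => s ⟨v, hv⟩) hM)
  have h3 := h2 (Pi.single 2 1) (by simp)
  have h4 := h2 (Pi.single 0 1 + Pi.single 2 1) (by simp)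
  have h5 := h2 (Pi.single 1 1 + Pi.single 2 1) (by simp)
  rw [Matrix.mulVec_add, h3, add_left_inj] at h4 h5
  refine Subtype.ext (Subtype.ext ?_)
  ext i j
  fin_cases j
  · simpa [Matrix.one_apply, Pi.single_apply] using congrFun h4 i
  · simpa [Matrix.one_apply, Pi.single_apply] using congrFun h5 i
  · simpa [Matrix.one_apply, Pi.single_apply] using congrFun h3 i

theorem exists_Q (hp : p ≠ 2) : ∃ Q : Subgroup (Cfsg.qd p), IsPGroup p Q ∧
    ∃ a ∈ Q, ∃ b ∈ Q, a * b ≠ b * a := by
  have hp' : p.Prime := Fact.out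
  let S : Submonoid (Cfsg.qd p) :=
    { carrier := {M | M.val.val 1 0 = 0 ∧ M.val.val 0 0 = 1 ∧ M.val.val 1 1 = 1}
      one_mem' := by simp
      mul_mem' := by
        rintro M N ⟨h1, h2, h3⟩ ⟨h4, h5, h6⟩
        simp [Matrix.mul_apply, Fin.sum_univ_three, h1, h2, h3, h4, h5, h6, row' N] }
  have hS : ∀ M ∈ S, M ^ p = 1 := by
    rintro M ⟨h1, h2, h3⟩
    obtain ⟨h4, h5, h6⟩ := row' M
    have h7 : (M.val.val - 1) ^ 3 = 0 := by
      ext i j
      fin_cases i <;> fin_cases j <;>
        simp [pow_succ, Matrix.mul_apply, Fin.sum_univ_three, h1, h2, h3, h4, h5, h6]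
    have h8 := pow_eq_zero_of_le (show 3 ≤ p by have := hp'.two_le; omega) h7
    rw [sub_pow_char_of_commute _ (Commute.one_right _), one_pow, sub_eq_zero] at h8
    exact Subtype.ext (Subtype.ext h8)
  refine ⟨{ S with inv_mem' := fun {M} hM => ?_ }, fun M => ⟨1, Subtype.ext ?_⟩,
    tv 0 1 (by decide) (by decide) 1, ?_, tv 1 2 (by decide) (by decide) 1, ?_, fun h => ?_⟩
  · have : M⁻¹ = M ^ (p - 1) := by
      rw [inv_eq_iff_mul_eq_one, ← pow_succ', Nat.sub_add_cancel hp'.pos, hS M hM]
    rw [this]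
    exact S.pow_mem hM _
  · rw [pow_one]
    exact hS M M.2
  · exact ⟨by simp [tv_val, Matrix.transvection], by simp [tv_val, Matrix.transvection],
      by simp [tv_val, Matrix.transvection]⟩
  · exact ⟨by simp [tv_val, Matrix.transvection], by simp [tv_val, Matrix.transvection],
      by simp [tv_val, Matrix.transvection]⟩
  · have := congrArg (fun M : Cfsg.qd p => M.val.val 0 2) h
    simp [tv_val, Matrix.transvection, Matrix.mul_apply, Fin.sum_univ_three] at this


/-- Let p be an odd prime and n a natural number. The alternating group of degree n has a subgroup isomorphic to Qd(p) (the natural semidirect product of an elementary abelian group of order p² by SL₂(p)) if and only if n ≥ p²; and if n < p² then Qd(p) is not even involved in it. -/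
theorem result {p : ℕ} [Fact p.Prime] (hp : p ≠ 2) (n : ℕ) : ((∃ H : Subgroup (alternatingGroup (Fin n)), Nonempty (↥H ≃* ↥(Cfsg.qd p))) ↔ p ^ 2 ≤ n) ∧ (n < p ^ 2 → ¬ Cfsg.Involves ↥(Cfsg.qd p) ↥(alternatingGroup (Fin n))) := by
  have key : n < p ^ 2 → ¬ Cfsg.Involves ↥(Cfsg.qd p) ↥(alternatingGroup (Fin n)) := by
    rintro hn ⟨K, R, _, ⟨e⟩⟩
    obtain ⟨Q, hQ, a, ha, b, hb, hab⟩ := exists_Q hp
    obtain ⟨P, hP⟩ := hQ.exists_le_sylow
    have hs : Function.Surjective (e.toMonoidHom.comp (QuotientGroup.mk' _)) :=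
      e.surjective.comp (QuotientGroup.mk'_surjective _)
    obtain ⟨S, rfl⟩ := Sylow.mapSurjective_surjective hs p P
    obtain ⟨x, hx, rfl⟩ := hP ha
    obtain ⟨y, hy, rfl⟩ := hP hb
    apply hab
    rw [← map_mul, ← map_mul]
    congr 1
    exact congrArg Subtype.val (comm_of_lt S.isPGroup' (((alternatingGroup _).subtype.comp
      K.subtype).comp (S : Subgroup K).subtype) (Subtype.val_injective.comp
        (Subtype.val_injective.comp Subtype.val_injective)) hn ⟨x, hx⟩ ⟨y, hy⟩)
  refine ⟨⟨fun ⟨H, ⟨e⟩⟩ => ?_, fun hn => ?_⟩, key⟩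
  · by_contra hn
    refine key (not_le.1 hn) ⟨H, ⊥, inferInstance, ⟨MulEquiv.trans ?_ e⟩⟩
    exact (QuotientGroup.quotientMulEquivOfEq (Subgroup.bot_subgroupOf H)).trans
      QuotientGroup.quotientBot
  · obtain ⟨f, hf⟩ := exists_hom hp hn
    exact ⟨f.range, ⟨(MonoidHom.ofInjective hf).symm⟩⟩

end Cfsg.Agent.S3835
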