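import Cfsg.Statements.S3836
import Mathlib
import Cfsg.Agent.Lib.Core.Subnormal

set_option autoImplicit false
open Cfsg

namespace Cfsg.Agent.S3836

open Subgroup Cfsg.Agent.Core

/-- Let G be a finite group that is p-stable in the normalizer form: for every p-subgroup Q and every x ∈ N_G(Q) with [Q, x, x] = 1, the image of x in N_G(Q)/C_G(Q) lies in O_p(N_G(Q)/C_G(Q)). Then every subgroup of G is p-stable in the same sense. -/
theorem result {G : Type*} [Group G] [Finite G] {p : ℕ} [Fact p.Prime] (hst : Cfsg.IsNormalizerPStable p G) (H : Subgroup G) : Cfsg.IsNormalizerPStable p ↥H := by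
  intro P hP g hg hq
  set P' := P.map H.subtype with hP'
  have hn : ∀ x : normalizer (P : Set H), ((x : H) : G) ∈ normalizer (P' : Set G) := fun x =>
    le_normalizer_map H.subtype (mem_map_of_mem H.subtype x.2)
  have h1 := hst P' (hP.map _) g (hn ⟨g, hg⟩) (by
    have := congrArg (Subgroup.map H.subtype) hq
    rwa [map_commutator, map_commutator, MonoidHom.map_zpowers, Subgroup.map_bot] at this)
  let ι : normalizer (P : Set H) →* normalizer (P' : Set G) :=
    (H.subtype.comp (normalizer (P : Set H)).subtype).codRestrict _ hn
  have hι : ∀ x : normalizer (P : Set H),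
      ι x ∈ (centralizer (P' : Set G)).subgroupOf (normalizer (P' : Set G)) ↔
        x ∈ (centralizer (P : Set H)).subgroupOf (normalizer (P : Set H)) := by
    intro x
    rw [mem_subgroupOf, mem_subgroupOf, mem_centralizer_iff, mem_centralizer_iff]
    constructor
    · intro h y hy
      exact Subtype.ext (h y (mem_map_of_mem H.subtype hy))
    · rintro h _ ⟨y, hy, rfl⟩
      exact congrArg Subtype.val (h y hy)
  let φ := QuotientGroup.map ((centralizer (P : Set H)).subgroupOf (normalizer (P : Set H)))
    ((centralizer (P' : Set G)).subgroupOf (normalizer (P' : Set G))) ι fun x hx => (hι x).2 hx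
  have hφ : Function.Injective φ := by
    rw [injective_iff_map_eq_one]
    intro a ha
    obtain ⟨x, rfl⟩ := QuotientGroup.mk_surjective a
    rw [QuotientGroup.eq_one_iff]
    exact (hι x).1 ((QuotientGroup.eq_one_iff _).1 ha)
  exact pCore_comap_le_of_injective hφ h1

end Cfsg.Agent.S3836
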