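import Mathlib
import Cfsg.Statements.S3838
import Cfsg.Agent.Lib.Transfer.Gruen
import Cfsg.Agent.Lib.Transfer.Frobenius

set_option autoImplicit false
open Cfsg

namespace Cfsg.Agent.S3838

open Subgroup

/-- Let G be a finite group with Sylow p-subgroup P such that N_G(P) has a normal p-complement. Then N_G(Q) has a normal p-complement for every subgroup Q with [P, P] ≤ Q ≤ Φ(P). -/
theorem result {G : Type*} [Group G] [Finite G] {p : ℕ} [Fact p.Prime] (P : Sylow p G) (hN : Cfsg.HasNormalPComplement p ↥(Subgroup.normalizer ((P : Subgroup G) : Set G))) (Q : Subgroup G) (h1 : (commutator ↥(P : Subgroup G)).map (P : Subgroup G).subtype ≤ Q) (h2 : Q ≤ (frattini ↥(P : Subgroup G)).map (P : Subgroup G).subtype) : Cfsg.HasNormalPComplement p ↥(Subgroup.normalizer (Q : Set G)) := by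
  have hQP : Q ≤ P := h2.trans (map_subtype_le _)
  have hcomm : ⁅(P : Subgroup G), (P : Subgroup G)⁆ ≤ Q := by
    rw [← map_subtype_commutator]; exact h1
  have hPL : (P : Subgroup G) ≤ normalizer (Q : Set G) := by
    intro g hg
    refine Transfer.mem_normalizer_of_conj_mem fun x hx => ?_
    have := Q.mul_mem (hcomm (commutator_mem_commutator hg (hQP hx))) hx
    simpa [commutatorElement_def, mul_assoc] using this
  set L := normalizer (Q : Set G) with hL
  let P' : Sylow p L := P.subtype hPL
  let D : Subgroup L := Q.subgroupOf L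
  have hDn : D.Normal := normal_in_normalizer
  have hDP : D ≤ P' := fun x hx => hQP hx
  refine Transfer.hasNormalPComplement_of_quotient_le_frattini D (P'.2.to_le hDP) ?_ ?_
  · refine Core.le_frattini_of_normal_of_le_map_frattini (H := P') fun x hx => ?_
    obtain ⟨y, hy, hxy⟩ := h2 hx
    let e := subgroupOfEquivOfLe hPL
    have : e.symm y ∈ frattini (P' : Subgroup L) := by
      have := Core.map_frattini_equiv e.symm
      exact this ▸ mem_map_of_mem _ hy
    exact ⟨e.symm y, this, Subtype.ext hxy⟩
  · let f := QuotientGroup.mk' D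
    have hf : Function.Surjective f := QuotientGroup.mk'_surjective D
    refine Transfer.burnside_of_normalizer_le_centralizer (P'.mapSurjective hf) fun g hg => ?_
    obtain ⟨g, rfl⟩ := hf g
    have hPf : ((P'.mapSurjective hf : Sylow p _) : Subgroup (L ⧸ D)) = (P' : Subgroup L).map f :=
      rfl
    have hmem : ∀ x : L, f x ∈ (P' : Subgroup L).map f → (x : G) ∈ (P : Subgroup G) := by
      intro x hx
      have : x ∈ ((P' : Subgroup L).map f).comap f := hx
      rw [comap_map_eq, QuotientGroup.ker_mk', sup_eq_left.2 hDP] at this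
      exact this
    have hgN : (g : G) ∈ normalizer ((P : Subgroup G) : Set G) := by
      refine Transfer.mem_normalizer_of_conj_mem fun x hx => ?_
      have h3 := (mem_normalizer_iff.1 hg (f ⟨x, hPL hx⟩)).1 (mem_map_of_mem f hx)
      rw [← map_inv, ← map_mul, ← map_mul] at h3
      exact hmem _ h3
    rw [mem_centralizer_iff]
    rintro _ ⟨x, hx, rfl⟩
    let PN : Sylow p (normalizer ((P : Subgroup G) : Set G)) := P.subtype le_normalizer
    obtain ⟨u, hu, hux⟩ := Transfer.exists_mem_sylow_conj_eq_of_hasNormalPComplement hN PN ⟨g, hgN⟩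
    have hx' : (x : G) ∈ (P : Subgroup G) := hx
    have h3 := congrArg Subtype.val (hux ⟨x, le_normalizer hx'⟩ hx'
      ((mem_normalizer_iff.1 hgN x).1 hx'))
    simp only [coe_mul, InvMemClass.coe_inv] at h3
    rw [← map_mul, ← map_mul, QuotientGroup.mk'_apply, QuotientGroup.mk'_apply, eq_comm,
      QuotientGroup.eq_iff_div_mem]
    have h4 := hcomm (commutator_mem_commutator hu hx')
    rw [commutatorElement_def] at h4
    change ((g * x / (x * g) : L) : G) ∈ Q
    have h5 : ((g * x / (x * g) : L) : G) = g * x * (g : G)⁻¹ * (x : G)⁻¹ := by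
      simp [div_eq_mul_inv, mul_assoc]
    rw [h5, h3]
    exact h4

end Cfsg.Agent.S3838
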