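import Cfsg.Statements.S3857
import Cfsg.Agent.Lib.Frob.TwoFrob

set_option autoImplicit false
open Cfsg

namespace Cfsg.Agent.S3857

open Subgroup

/-- No edges between `A` and its complement. -/
def NoEdge (A : Set ℕ) (X : Type*) [Group X] : Prop :=
  ∀ a ∈ A, ∀ b ∉ A, a.Prime → b.Prime → ¬ ∃ g : X, orderOf g = a * b

theorem NoEdge.compl {A : Set ℕ} {X : Type*} [Group X] (h : NoEdge A X) : NoEdge Aᶜ X :=
  fun a ha b hb hpa hpb => mul_comm a b ▸ h b (not_not.1 hb) a ha hpb hpa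

theorem NoEdge.quotient {A : Set ℕ} {X : Type*} [Group X] [Finite X] (h : NoEdge A X)
    (N : Subgroup X) [N.Normal] : NoEdge A (X ⧸ N) := fun a ha b hb hpa hpb e =>
  h a ha b hb hpa hpb (Frob.exists_orderOf_eq_of_surjective (QuotientGroup.mk'_surjective N) e)

theorem NoEdge.subgroup {A : Set ℕ} {X : Type*} [Group X] (h : NoEdge A X)
    (K : Subgroup X) : NoEdge A K := fun a ha b hb hpa hpb ⟨g, hg⟩ =>
  h a ha b hb hpa hpb ⟨g, by rwa [orderOf_coe]⟩

theorem NoEdge.frob {A : Set ℕ} {X : Type*} [Group X] [Finite X] (h : NoEdge A X)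
    {N : Subgroup X} [N.Normal] (h0 : N ≠ ⊥) (h1 : N ≠ ⊤)
    (hN : ∀ p : ℕ, p.Prime → p ∣ Nat.card N → p ∈ A)
    (hQ : ∀ p : ℕ, p.Prime → p ∣ N.index → p ∉ A) :
    ∃ C : Subgroup X, Frob.IsFrobPair N C ∧ N ⊔ C = ⊤ :=
  Frob.exists_isFrobPair_of_centralizer_le h0 h1 fun _ hx x1 =>
    Frob.centralizer_le_of_noEdge (fun p q hp hq h2 h3 =>
      ⟨fun e => hQ q hq h3 (e ▸ hN p hp h2), h p (hN p hp h2) q (hQ q hq h3) hp hq⟩) hx x1

theorem piCore_ne_bot (A : Set ℕ) {X : Type*} [Group X] [Finite X] [Nontrivial X]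
    [Group.IsSolvable X] (h : piCore A X = ⊥) : piCore Aᶜ X ≠ ⊥ := fun h' =>
  Core.fitting_ne_bot (G := X) (le_bot_iff.1 (Core.fitting_le_of_forall_pCore_le fun p _ => by
    by_cases hp : p ∈ A
    · exact h ▸ Core.pCore_le_piCore hp
    · exact h' ▸ Core.pCore_le_piCore (π := Aᶜ) hp))

theorem map_frob {X : Type*} [Group X] [Finite X] {N K : Subgroup X} {C : Subgroup K}
    (hle : N ≤ K) (h : Frob.IsFrobPair (N.subgroupOf K) C) :
    Frob.IsFrobPair N (C.map K.subtype) := by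
  have := h.map_of_injective K.subtype K.subtype_injective
  rwa [map_subgroupOf_eq_of_le hle] at this

theorem step {X : Type*} [Group X] [Finite X] [Group.IsSolvable X] {A : Set ℕ} (hA : NoEdge A X)
    (hq0 : piCore A X = ⊥) (hB0 : piCore Aᶜ X ≠ ⊥) (hBt : piCore Aᶜ X ≠ ⊤)
    (hBFC : Frob.IsFC (piCore Aᶜ X)) : ∀ p : ℕ, p.Prime → p ∣ (piCore Aᶜ X).index → p ∉ Aᶜ := by
  set B := piCore Aᶜ X with hB
  have hBA := Core.mem_of_dvd_card_piCore (G := X) Aᶜ
  have : Nontrivial (X ⧸ B) := QuotientGroup.nontrivial_iff.2 hBt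
  have h1 : piCore Aᶜᶜ (X ⧸ B) ≠ ⊥ := piCore_ne_bot Aᶜ Core.piCore_quotient_piCore
  rw [compl_compl] at h1
  have hLA := Core.mem_of_dvd_card_piCore (G := X ⧸ B) A
  set L := (piCore A (X ⧸ B)).comap (QuotientGroup.mk' B) with hL
  have hLB : L.map (QuotientGroup.mk' B) = piCore A (X ⧸ B) :=
    map_comap_eq_self_of_surjective (QuotientGroup.mk'_surjective B) _
  have hle : B ≤ L := Core.le_comap_mk B _
  have hrel : (B.subgroupOf L).index = Nat.card (piCore A (X ⧸ B)) := by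
    rw [← hLB]; exact (Core.card_map_mk_eq_relIndex B L).symm
  obtain ⟨C, hC, -⟩ := (hA.compl.subgroup L).frob (N := B.subgroupOf L)
    (by rw [Ne, subgroupOf_eq_bot, disjoint_iff, inf_eq_left.2 hle]; exact hB0)
    (by
      rw [Ne, subgroupOf_eq_top]
      exact fun e => h1 (by rw [← hLB]; exact (Core.map_mk_eq_bot_iff B L).2 e))
    (by rwa [Core.card_subgroupOf_of_le hle])
    (by rw [hrel]; exact fun p hp hd => not_not.2 (hLA p hp hd))
  obtain ⟨-, hcyc⟩ := (map_frob hle hC).odd_and_isCyclic hBFC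
  have hF : fittingSubgroup X = B := le_antisymm (Core.fitting_le_of_forall_pCore_le fun p _ => by
    by_cases hp : p ∈ A
    · exact (hq0 ▸ Core.pCore_le_piCore hp).trans bot_le
    · exact Core.pCore_le_piCore (π := Aᶜ) hp) (Core.le_fitting Core.isNilpotent_of_isMulCommutative)
  have hcomm : IsMulCommutative (X ⧸ B) := ⟨⟨fun a b => by
    obtain ⟨x, rfl⟩ := QuotientGroup.mk_surjective a
    obtain ⟨y, rfl⟩ := QuotientGroup.mk_surjective b
    have h2 := Frob.commutator_mem_centralizer_of_isCyclic (K := B)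
      (le_normalizer_of_normal (mem_top x)) (le_normalizer_of_normal (mem_top y))
    have h3 := Core.centralizer_fitting_le (G := X)
    rw [hF] at h3
    have h4 := (QuotientGroup.eq_one_iff _).2 (h3 h2)
    rwa [QuotientGroup.mk_mul, QuotientGroup.mk_mul, QuotientGroup.mk_mul, QuotientGroup.mk_inv,
      QuotientGroup.mk_inv, mul_inv_eq_one, mul_inv_eq_iff_eq_mul] at h4⟩⟩
  have : Group.IsNilpotent (X ⧸ B) := Core.isNilpotent_of_isMulCommutative
  intro p hp hd hpA
  obtain ⟨a, ha, had⟩ := Core.exists_prime_dvd_card_of_ne_bot h1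
  have haA := hLA a ha had
  exact hA.quotient B a haA p hpA ha hp (Frob.exists_orderOf_eq_mul_of_isNilpotent ha hp
    (fun e => hpA (e ▸ haA)) (had.trans (card_subgroup_dvd_card _)) hd)

theorem main {G : Type*} [Group G] [Finite G] [Group.IsSolvable G] {A : Set ℕ} (hA : NoEdge A G)
    (hb : ∃ b ∉ A, b.Prime ∧ b ∣ Nat.card G) (h0 : piCore A G ≠ ⊥) :
    (∃ C : Subgroup G, Cfsg.IsFrobeniusComplement C) ∨
    (∃ (H K : Subgroup G) (_ : H.Normal), K.Normal ∧ H < K ∧
      (∃ C : Subgroup ↥K, Cfsg.IsFrobeniusComplement C ∧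
        Cfsg.frobeniusKernel C = (H.subgroupOf K : Set ↥K)) ∧
      (∃ C : Subgroup (G ⧸ H), Cfsg.IsFrobeniusComplement C ∧
        Cfsg.frobeniusKernel C = (K.map (QuotientGroup.mk' H) : Set (G ⧸ H)))) := by
  set H := piCore A G with hH
  have hHn : H.Normal := inferInstance
  have hHA := Core.mem_of_dvd_card_piCore (G := G) A
  have hHt : H ≠ ⊤ := fun e => by
    obtain ⟨b, hb, hp, hd⟩ := hb
    exact hb (Core.piCore_eq_top_iff.1 e b hp hd)
  have : Nontrivial (G ⧸ H) := QuotientGroup.nontrivial_iff.2 hHt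
  have hq0 : piCore A (G ⧸ H) = ⊥ := Core.piCore_quotient_piCore
  set B := piCore Aᶜ (G ⧸ H) with hB
  have hB0 : B ≠ ⊥ := piCore_ne_bot A hq0
  have hBA := Core.mem_of_dvd_card_piCore (G := G ⧸ H) Aᶜ
  set π := QuotientGroup.mk' H with hπ
  have hs : Function.Surjective π := QuotientGroup.mk'_surjective H
  set K := B.comap π with hK
  have hKB : K.map π = B := map_comap_eq_self_of_surjective hs B
  have hle : H ≤ K := Core.le_comap_mk H B
  have hlt : H < K := lt_of_le_of_ne hle fun e => hB0 (by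
    rw [← hKB, ← e]; exact (Core.map_mk_eq_bot_iff H H).2 le_rfl)
  have hrel : (H.subgroupOf K).index = Nat.card B := by
    rw [← hKB]; exact (Core.card_map_mk_eq_relIndex H K).symm
  obtain ⟨C, hC, hCt⟩ := (hA.subgroup K).frob (N := H.subgroupOf K)
    (by rw [Ne, subgroupOf_eq_bot, disjoint_iff, inf_eq_left.2 hle]; exact h0)
    (by rw [Ne, subgroupOf_eq_top]; exact hlt.not_ge)
    (by rwa [Core.card_subgroupOf_of_le hle]) (by rwa [hrel])
  by_cases hBt : B = ⊤
  · left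
    obtain ⟨D, hD, hDt⟩ := hA.frob h0 hHt hHA (by
      rw [index_eq_card, ← card_top, ← hBt]; exact hBA)
    exact ⟨D, hD.isFrobeniusComplement hDt⟩
  right
  have hKn : K.Normal := Subgroup.Normal.comap inferInstance π
  refine ⟨H, K, ‹_›, hKn, hlt,
    ⟨C, hC.isFrobeniusComplement hCt, hC.frobeniusKernel_eq hCt⟩, ?_⟩
  rw [hKB]
  have hAq := (hA.quotient H).compl
  suffices h : ∀ p : ℕ, p.Prime → p ∣ B.index → p ∉ Aᶜ by
    obtain ⟨D, hD, hDt⟩ := hAq.frob hB0 hBt hBA h
    exact ⟨D, hD.isFrobeniusComplement hDt, hD.frobeniusKernel_eq hDt⟩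
  -- `B` is a Frobenius complement
  have hBFC : Frob.IsFC B := by
    obtain ⟨e1⟩ := hC.nonempty_mulEquiv_quotient hCt
    have e2 : K ⧸ H.subgroupOf K ≃* K.map π := by
      refine (QuotientGroup.quotientMulEquivOfEq ?_).trans
        (QuotientGroup.quotientKerEquivOfSurjective _ (π.subgroupMap_surjective K))
      ext x
      rw [MonoidHom.mem_ker, Subtype.ext_iff]
      exact (QuotientGroup.eq_one_iff (N := H) (x : G)).symm
    rw [← hKB]
    exact hC.isFC.of_mulEquiv (e2.symm.trans e1)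
  exact step (hA.quotient H) hq0 hB0 hBt hBFC


/-- A finite solvable group whose prime graph (prime divisors of the order, two distinct primes joined when there is an element of order their product) is disconnected is a Frobenius group or a 2-Frobenius group (it has normal subgroups H < K with K a Frobenius group with kernel H and G/H a Frobenius group with kernel K/H). -/
theorem result {G : Type*} [Group G] [Finite G] (hsol : Group.IsSolvable G)
    (hdisc : (∃ A : Set ℕ, (∃ a ∈ A, a.Prime ∧ a ∣ Nat.card G) ∧ (∃ b ∉ A, b.Prime ∧ b ∣ Nat.card G) ∧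
      ∀ a ∈ A, ∀ b ∉ A, a.Prime → b.Prime → a ∣ Nat.card G → b ∣ Nat.card G → ¬ ∃ g : G, orderOf g = a * b)) :
    (∃ C : Subgroup G, Cfsg.IsFrobeniusComplement C) ∨
    (∃ (H K : Subgroup G) (_ : H.Normal), K.Normal ∧ H < K ∧
      (∃ C : Subgroup ↥K, Cfsg.IsFrobeniusComplement C ∧ Cfsg.frobeniusKernel C = (H.subgroupOf K : Set ↥K)) ∧
      (∃ C : Subgroup (G ⧸ H), Cfsg.IsFrobeniusComplement C ∧ Cfsg.frobeniusKernel C = (K.map (QuotientGroup.mk' H) : Set (G ⧸ H)))) := by
  obtain ⟨A, ⟨a, ha, hap, had⟩, hb, h⟩ := hdisc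
  have hA : NoEdge A G := fun a ha b hb hpa hpb ⟨g, hg⟩ =>
    h a ha b hb hpa hpb ((dvd_mul_right a b).trans (hg ▸ orderOf_dvd_natCard g))
      ((dvd_mul_left b a).trans (hg ▸ orderOf_dvd_natCard g)) ⟨g, hg⟩
  have : Nontrivial G := Finite.one_lt_card_iff_nontrivial.1
    (hap.one_lt.trans_le (Nat.le_of_dvd Nat.card_pos had))
  by_cases h0 : piCore A G = ⊥
  · exact main hA.compl ⟨a, not_not.2 ha, hap, had⟩ (piCore_ne_bot A h0)
  · exact main hA hb h0

end Cfsg.Agent.S3857
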