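import Cfsg.Statements.S3858
import Mathlib
import Cfsg.Agent.Lib.Cls.Basic

set_option autoImplicit false
open Cfsg

namespace Cfsg.Agent.S3858

/-- Let G be a finite group with a normal non-abelian simple subgroup T whose centralizer is trivial (G almost simple with socle T), r a prime and R a Sylow r-subgroup of G meeting T nontrivially. Then R lies in exactly one maximal subgroup of G if and only if G has exactly one conjugacy class of maximal subgroups whose index is prime to r. -/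
theorem result {G : Type*} [Group G] [Finite G] (T : Subgroup G) [T.Normal] (hT : IsSimpleGroup T) (hna : ¬ IsMulCommutative T)
    (hC : Subgroup.centralizer (T : Set G) = ⊥) {r : ℕ} [Fact r.Prime] (R : Sylow r G) (hR0 : (R : Subgroup G) ⊓ T ≠ ⊥) :
    (∃! M : Subgroup G, IsCoatom M ∧ (R : Subgroup G) ≤ M) ↔
      ((∃ M : Subgroup G, IsCoatom M ∧ ¬ r ∣ M.index) ∧
        ∀ M₁ M₂ : Subgroup G, IsCoatom M₁ → ¬ r ∣ M₁.index → IsCoatom M₂ → ¬ r ∣ M₂.index → ∃ g : G, M₂ = M₁.map (MulAut.conj g).toMonoidHom) := by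
  constructor
  · rintro ⟨M, ⟨hM, hRM⟩, huniq⟩
    refine ⟨⟨M, hM, Cls.not_dvd_index_of_sylow_le hRM⟩, fun M₁ M₂ h1 h1' h2 h2' => ?_⟩
    have key : ∀ M' : Subgroup G, IsCoatom M' → ¬ r ∣ M'.index →
        ∃ g : G, M = M'.map (MulAut.conj g).toMonoidHom := by
      intro M' h h'
      obtain ⟨Q, hQ⟩ := Cls.exists_sylow_le_of_not_dvd_index h'
      obtain ⟨g, rfl⟩ := MulAction.exists_smul_eq G Q R
      refine ⟨g, (huniq _ ⟨?_, ?_⟩).symm⟩
      · exact (OrderIso.isCoatom_iff (MulAut.conj g).mapSubgroup M').2 h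
      · exact Subgroup.map_mono hQ
    obtain ⟨g, hg⟩ := key M₁ h1 h1'
    obtain ⟨k, hk⟩ := key M₂ h2 h2'
    refine ⟨k⁻¹ * g, ?_⟩
    rw [map_mul, MulAut.mul_def]
    change M₂ = M₁.map ((MulAut.conj k⁻¹).toMonoidHom.comp (MulAut.conj g).toMonoidHom)
    rw [← Subgroup.map_map, ← hg, hk, Subgroup.map_map]
    convert (Subgroup.map_id M₂).symm
    ext x
    simp [mul_assoc]
  · rintro ⟨-, h⟩
    have hne : Subgroup.normalizer ((R : Subgroup G) : Set G) ≠ ⊤ := by
      intro h1
      have h2 : (R : Subgroup G).Normal := Subgroup.normalizer_eq_top_iff.1 h1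
      rcases hT.eq_bot_or_eq_top_of_normal ((R : Subgroup G).subgroupOf T) inferInstance with h3 | h3
      · exact hR0 (disjoint_iff.1 (Subgroup.subgroupOf_eq_bot.1 h3))
      · have h4 : IsPGroup r T := R.isPGroup'.to_le (Subgroup.subgroupOf_eq_top.1 h3)
        have := h4.isNilpotent
        exact hna ⟨⟨IsSimpleGroup.comm_iff_isSolvable.2 inferInstance⟩⟩
    obtain ⟨M, hM, hNM⟩ := (eq_top_or_exists_le_coatom _).resolve_left hne
    have hRM : (R : Subgroup G) ≤ M := Subgroup.le_normalizer.trans hNM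
    refine ⟨M, ⟨hM, hRM⟩, fun M' ⟨hM', hRM'⟩ => ?_⟩
    obtain ⟨g, rfl⟩ := h M M' hM (Cls.not_dvd_index_of_sylow_le hRM) hM'
      (Cls.not_dvd_index_of_sylow_le hRM')
    have h1 : ((g⁻¹ • R : Sylow r G) : Subgroup G) ≤ M := by
      intro x hx
      obtain ⟨y, hy, hyx⟩ := hRM' (Cls.mem_smul_sylow_iff.1 hx)
      have : y = x := (MulAut.conj g).injective (by simpa using hyx)
      exact this ▸ hy
    obtain ⟨m, hm⟩ := MulAction.exists_smul_eq M (R.subtype hRM) ((g⁻¹ • R).subtype h1)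
    rw [Sylow.smul_subtype] at hm
    have h2 := Sylow.subtype_injective hm
    have h3 : (g * m) • R = R := by
      rw [mul_smul]
      exact (eq_inv_smul_iff.1 h2)
    have h4 : g ∈ M := (M.mul_mem_cancel_right m.2).1 (hNM (Sylow.smul_eq_iff_mem_normalizer.1 h3))
    ext x
    constructor
    · rintro ⟨y, hy, rfl⟩
      exact M.mul_mem (M.mul_mem h4 hy) (M.inv_mem h4)
    · intro hx
      exact ⟨g⁻¹ * x * g, M.mul_mem (M.mul_mem (M.inv_mem h4) hx) h4, by simp [mul_assoc]⟩

end Cfsg.Agent.S3858
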