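import Cfsg.Statements.S3859
import Mathlib

set_option autoImplicit false
open Cfsg
open scoped Pointwise

namespace Cfsg.Agent.S3859

/-- Let G be a finite group with a normal non-abelian simple subgroup T whose centralizer is trivial (G almost simple with socle T), r a prime and R a Sylow r-subgroup of G meeting T nontrivially. If R lies in exactly one maximal subgroup of G, then G/T is an r-group. -/
theorem result {G : Type*} [Group G] [Finite G] (T : Subgroup G) [T.Normal] (hT : IsSimpleGroup T) (hna : ¬ IsMulCommutative T)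
    (hC : Subgroup.centralizer (T : Set G) = ⊥) {r : ℕ} [Fact r.Prime] (R : Sylow r G) (hR0 : (R : Subgroup G) ⊓ T ≠ ⊥)
    (huniq : ∃! M : Subgroup G, IsCoatom M ∧ (R : Subgroup G) ≤ M) : IsPGroup r (G ⧸ T) := by
  obtain ⟨M, ⟨hM, hRM⟩, hu⟩ := huniq
  have key : ∀ H : Subgroup G, H ≠ ⊤ → (R : Subgroup G) ≤ H → H ≤ M := by
    intro H hH hRH
    obtain h | ⟨M', hM', hle⟩ := eq_top_or_exists_le_coatom H
    · exact absurd h hH
    · rw [← hu M' ⟨hM', hRH.trans hle⟩]; exact hle
  obtain ⟨P, hP⟩ := (R.isPGroup'.comap_subtype (K := T)).exists_le_sylow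
  obtain ⟨Q, hQ⟩ := P.exists_comap_subtype_eq
  obtain ⟨g, rfl⟩ := MulAction.exists_smul_eq G R Q
  -- `R ∩ T` is Sylow in `T`
  have hcard : Nat.card ((R : Subgroup G).subgroupOf T) = Nat.card (P : Subgroup T) := by
    rw [← hQ]
    have e1 : ∀ S : Subgroup G, Nat.card (S.subgroupOf T) = Nat.card (S ⊓ T : Subgroup G) := by
      intro S
      rw [← Subgroup.inf_subgroupOf_right]
      exact Nat.card_congr (Subgroup.subgroupOfEquivOfLe inf_le_right).toEquiv
    show _ = Nat.card (((g • R : Sylow r G) : Subgroup G).subgroupOf T)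
    rw [e1, e1, Sylow.coe_subgroup_smul]
    have : (MulAut.conj g • (R : Subgroup G)) ⊓ T = MulAut.conj g • ((R : Subgroup G) ⊓ T) := by
      rw [Subgroup.smul_inf, Subgroup.Normal.conj_smul_eq_self g T]
    rw [this]
    exact Nat.card_congr (Subgroup.equivSMul (MulAut.conj g) _).toEquiv
  have hPe : (R : Subgroup G).subgroupOf T = P := Subgroup.eq_of_le_of_card_ge hP hcard.ge
  have hfr := Sylow.normalizer_sup_eq_top P
  rw [← hPe, Subgroup.subgroupOf_map_subtype] at hfr
  have hN : Subgroup.normalizer (((R : Subgroup G) ⊓ T : Subgroup G) : Set G) ≠ ⊤ := by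
    intro h
    rw [Subgroup.normalizer_eq_top_iff] at h
    rcases (h.subgroupOf T).eq_bot_or_eq_top with h1 | h1
    · apply hR0
      rw [Subgroup.subgroupOf_eq_bot, disjoint_iff, inf_assoc, inf_idem] at h1
      exact h1
    · rw [Subgroup.subgroupOf_eq_top] at h1
      have hTp : IsPGroup r T := R.isPGroup'.to_le (h1.trans inf_le_left)
      have := hTp.isNilpotent
      exact hna (Group.IsNilpotent.nilpotencyClass_le_one_iff.1
        Group.nilpotencyClass_le_one_of_isSimple_of_isNilpotent)
  have hRN : (R : Subgroup G) ≤ Subgroup.normalizer (((R : Subgroup G) ⊓ T : Subgroup G) : Set G) := by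
    intro a ha
    apply Subgroup.mem_normalizer_fintype
    intro n hn
    exact ⟨(R : Subgroup G).mul_mem ((R : Subgroup G).mul_mem ha hn.1) ((R : Subgroup G).inv_mem ha),
      Subgroup.Normal.conj_mem inferInstance n hn.2 a⟩
  have hRT : (R : Subgroup G) ⊔ T = ⊤ := by
    by_contra h
    apply hM.1
    rw [eq_top_iff, ← hfr]
    exact sup_le (key _ hN hRN) (le_sup_right.trans (key _ h le_sup_left))
  have h1 := R.isPGroup'.map (QuotientGroup.mk' T)
  have h2 : (R : Subgroup G).map (QuotientGroup.mk' T) = ⊤ := by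
    have h3 := congrArg (Subgroup.map (QuotientGroup.mk' T)) hRT
    rw [Subgroup.map_sup, QuotientGroup.map_mk'_self, sup_bot_eq] at h3
    rw [h3]
    exact Subgroup.map_top_of_surjective _ (QuotientGroup.mk'_surjective _)
  rw [h2] at h1
  exact h1.of_equiv Subgroup.topEquiv

end Cfsg.Agent.S3859
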