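import Mathlib
import Cfsg.Statements.S3862
import Cfsg.Agent.Lib.Transfer.MinNonNilp

set_option autoImplicit false
open Cfsg

namespace Cfsg.Agent.S3862



/-- If every 2-element of the finite group G that is conjugate to its inverse lies in the centre of G, then G has a normal 2-complement. -/
theorem result {G : Type*} [Group G] [Finite G] (h : ∀ x : G, (∃ j : ℕ, orderOf x = 2 ^ j) → IsConj x x⁻¹ → x ∈ Subgroup.center G) : Cfsg.HasNormalPComplement 2 G := by
  by_contra hG
  obtain ⟨P⟩ : Nonempty (Sylow 2 G) := inferInstance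
  obtain ⟨X, -, q, g, hI⟩ := Transfer.exists_itoPair hG P
  refine hI.not_mem_centralizer fun x hx => ?_
  obtain ⟨w, -, hw⟩ := hI.exists_conj_eq_inv hx
  exact (Subgroup.mem_center_iff.mp (h x (Core.exists_orderOf_eq_pow_of_mem hI.isPGroup hx)
    (isConj_iff.mpr ⟨w, hw⟩)) g).symm

end Cfsg.Agent.S3862
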