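import Mathlib
import Cfsg.Statements.S3864
import Cfsg.Agent.Lib.Transfer.Gruen
import Cfsg.Agent.Lib.PGrp.Frattini

set_option autoImplicit false
open Cfsg

namespace Cfsg.Agent.S3864

open Subgroup DihedralGroup

section Dih

variable {q : ℕ} [NeZero q]

instance instNeZeroFourMul : NeZero (4 * q) := ⟨by have := NeZero.ne q; omega⟩

/-- parity -/
abbrev par (q : ℕ) : ZMod (4 * q) →+* ZMod 2 := ZMod.castHom (show 2 ∣ 4 * q by omega) (ZMod 2)

theorem exists_two_mul {k : ZMod (4 * q)} (h : par q k = 0) : ∃ l, k = 2 * l := by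
  rw [← ZMod.natCast_zmod_val k, map_natCast, ZMod.natCast_eq_zero_iff] at h
  obtain ⟨l, hl⟩ := h
  exact ⟨l, by rw [← ZMod.natCast_zmod_val k, hl]; simp⟩

theorem eq_of_two_mul {k : ZMod (4 * q)} (h : k + k = 0) : k = 0 ∨ k = 2 * q := by
  rcases (ZMod.neg_eq_self_iff k).1 (neg_eq_of_add_eq_zero_left h) with h | h
  · exact Or.inl h
  · right
    rw [← ZMod.natCast_zmod_val k, show k.val = 2 * q by omega]
    simp

theorem two_mul_ne_zero : (2 * q : ZMod (4 * q)) ≠ 0 := by
  have : ((2 * q : ℕ) : ZMod (4 * q)) ≠ 0 := by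
    rw [Ne, ZMod.natCast_eq_zero_iff]
    have := NeZero.pos q
    exact Nat.not_dvd_of_pos_of_lt (by omega) (by omega)
  simpa using this

theorem orderOf_z : orderOf (r (2 * q) : DihedralGroup (4 * q)) = 2 := by
  refine orderOf_eq_prime ?_ fun h => two_mul_ne_zero (DihedralGroup.r.inj h)
  rw [sq, r_mul_r, one_def]
  congr 1
  have : ((4 * q : ℕ) : ZMod (4 * q)) = 0 := ZMod.natCast_self _
  push_cast at this
  linear_combination this

theorem isConj_sr {i k : ZMod (4 * q)} (h : par q k = par q i) : IsConj (sr i) (sr k) := by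
  obtain ⟨l, hl⟩ := exists_two_mul (k := i - k) (by rw [map_sub, h, sub_self])
  refine isConj_iff.2 ⟨r l, ?_⟩
  rw [inv_r, r_mul_sr, sr_mul_r]
  congr 1
  linear_combination hl

theorem par_eq_of_isConj {i k : ZMod (4 * q)} (h : IsConj (sr i) (sr k)) : par q k = par q i := by
  obtain ⟨c, hc⟩ := isConj_iff.1 h
  have h2 : (2 : ZMod 2) = 0 := rfl
  rcases c with l | l
  · rw [inv_r, r_mul_sr, sr_mul_r] at hc
    rw [← DihedralGroup.sr.inj hc]
    simp only [map_add, map_sub, map_neg]
    linear_combination (-par q l) * h2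
  · rw [inv_sr, sr_mul_sr, r_mul_sr] at hc
    rw [← DihedralGroup.sr.inj hc]
    simp only [map_sub]
    linear_combination (par q l - par q i) * h2

theorem eq_z_of_orderOf {k : ZMod (4 * q)} (h : orderOf (r k) = 2) : k = 2 * q := by
  have h1 := pow_orderOf_eq_one (r k)
  rw [h, sq, r_mul_r, one_def] at h1
  rcases eq_of_two_mul (DihedralGroup.r.inj h1) with h2 | h2
  · rw [h2, r_zero, orderOf_one] at h; omega
  · exact h2

/-- The character of the dihedral group with kernel `⟨r 2, sr i⟩`. -/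
def chi (i : ZMod (4 * q)) : DihedralGroup (4 * q) →* Multiplicative (ZMod 2) :=
  MonoidHom.mk' (fun d => match d with
    | r k => Multiplicative.ofAdd (par q k)
    | sr k => Multiplicative.ofAdd (par q k - par q i)) (by
      have h2 : (2 : ZMod 2) = 0 := rfl
      rintro (a | a) (b | b) <;>
        simp only [r_mul_r, r_mul_sr, sr_mul_r, sr_mul_sr, ← ofAdd_add, map_add, map_sub] <;>
        congr 1
      · linear_combination (-par q a) * h2
      · ring
      · linear_combination (par q i - par q a) * h2)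

theorem index_ker_chi (i : ZMod (4 * q)) : (chi i).ker.index = 2 := by
  rw [index_ker]
  have : (chi i).range = ⊤ := by
    rw [eq_top_iff]
    intro u _
    refine ⟨r (u.toAdd.val), ?_⟩
    change Multiplicative.ofAdd (par q _) = u
    rw [map_natCast, ZMod.natCast_zmod_val]
    rfl
  rw [this, card_top]
  simp

theorem par_cases (k : ZMod (4 * q)) : par q k = par q 0 ∨ par q k = par q 1 := by
  rw [map_zero, map_one]
  generalize par q k = a
  revert a
  decide

end Dih

section Main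

variable {G : Type*} [Group G] [Finite G] {q : ℕ} [NeZero q] (P : Sylow 2 G)
  {φ : DihedralGroup (4 * q) →* G} (hφ : Function.Injective φ) (hP : φ.range = P)

include hφ hP

theorem invol_cases {g : G} (hg : orderOf g = 2) :
    IsConj (φ (r (2 * q))) g ∨ IsConj (φ (sr 0)) g ∨ IsConj (φ (sr 1)) g := by
  have hp : IsPGroup 2 (zpowers g) := IsPGroup.of_card (n := 1) (by rw [Nat.card_zpowers, hg]; rfl)
  obtain ⟨c, -, hc⟩ := (Transfer.isSylowIn_top P).exists_conj_le hp le_top
  have h1 : c * g * c⁻¹ ∈ φ.range := hP ▸ hc (Transfer.conj_mem_conj_smul (mem_zpowers g))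
  obtain ⟨d, hd⟩ := h1
  have h2 : IsConj (φ d) g := (isConj_iff.2 ⟨c, hd.symm⟩).symm
  have h3 : orderOf d = 2 := by
    rw [← orderOf_injective φ hφ, hd, ← MulAut.conj_apply, MulEquiv.orderOf_eq, hg]
  rcases d with k | k
  · rw [eq_z_of_orderOf h3] at h2; exact Or.inl h2
  · rcases par_cases k with h | h
    · exact Or.inr (Or.inl ((φ.map_isConj (isConj_sr h)).trans h2))
    · exact Or.inr (Or.inr ((φ.map_isConj (isConj_sr h)).trans h2))

theorem no_index_two (h0 : IsConj (φ (r (2 * q))) (φ (sr 0)))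
    (h1 : IsConj (φ (r (2 * q))) (φ (sr 1))) (N : Subgroup G) (hN : N.Normal) : N.index ≠ 2 := by
  intro hi
  have hz : φ (r (2 * q)) ∈ N := by
    have := N.sq_mem_of_index_two hi (φ (r q))
    rwa [← map_pow, sq, r_mul_r, ← two_mul] at this
  have hs : ∀ k, φ (sr k) ∈ N := fun k => by
    have : IsConj (φ (r (2 * q))) (φ (sr k)) := by
      rcases par_cases k with h | h
      · exact h0.trans (φ.map_isConj (isConj_sr h))
      · exact h1.trans (φ.map_isConj (isConj_sr h))
    obtain ⟨c, hc⟩ := isConj_iff.1 this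
    exact hc ▸ hN.conj_mem _ hz c
  have hle : (P : Subgroup G) ≤ N := by
    rw [← hP]
    rintro _ ⟨d | d, rfl⟩
    · have := N.mul_mem (hs 0) (hs d)
      rwa [← map_mul, sr_mul_sr, sub_zero] at this
    · exact hs d
  have := index_dvd_of_le hle
  rw [hi] at this
  exact P.not_dvd_index this

theorem exists_index_two {i j : ZMod (4 * q)} (h0 : IsConj (φ (r (2 * q))) (φ (sr i)))
    (h1 : ¬ IsConj (φ (r (2 * q))) (φ (sr j))) : ∃ N : Subgroup G, N.Normal ∧ N.index = 2 := by
  obtain ⟨N, hN, hi, -⟩ := Transfer.thompson_transfer_sylow P (M := (chi i).ker.map φ)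
    (hP ▸ map_le_range _ _) (by
      rw [← hP, MonoidHom.range_eq_map, relIndex_map_map_of_injective _ _ hφ, relIndex_top_right,
        index_ker_chi]) (t := φ (sr j)) (by rw [← map_pow, sq, sr_mul_self, map_one]) (by
      rintro g ⟨d, hd, hdg⟩
      have h2 : IsConj (φ d) (φ (sr j)) := isConj_iff.2 ⟨g, by rw [hdg]; group⟩
      have h3 : orderOf d = 2 := by
        rw [← orderOf_injective φ hφ, hdg]
        have : g⁻¹ * φ (sr j) * g = MulAut.conj g⁻¹ (φ (sr j)) := by simp
        rw [this, MulEquiv.orderOf_eq, orderOf_injective φ hφ, orderOf_sr]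
      rcases d with k | k
      · rw [eq_z_of_orderOf h3] at h2; exact h1 h2
      · have h4 : par q k - par q i = 0 := hd
        exact h1 (h0.trans ((φ.map_isConj (isConj_sr (sub_eq_zero.1 h4))).trans h2)))
  exact ⟨N, hN, hi⟩

theorem no_index_four {i : ZMod (4 * q)} (h0 : IsConj (φ (r (2 * q))) (φ (sr i)))
    (N : Subgroup G) (hN : N.Normal) : N.index ≠ 4 := by
  intro hi
  have hc : Nat.card (G ⧸ N) = 2 ^ 2 := hi
  have hcomm : commutator G ≤ N :=
    PGrp.isMulCommutative_quotient_iff.1 (IsPGroup.isMulCommutative_of_card_eq_prime_sq hc)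
  have h2 : ∀ k, φ (r (2 * k)) ∈ N := fun k => by
    have := hcomm (commutator_mem_commutator (mem_top (φ (r k))) (mem_top (φ (sr 0))))
    rw [← map_commutatorElement, commutatorElement_def, inv_r, inv_sr, r_mul_sr, sr_mul_r,
      sr_mul_sr] at this
    convert this using 3
    ring
  have hs : φ (sr i) ∈ N := by
    obtain ⟨c, hc⟩ := isConj_iff.1 h0
    exact hc ▸ hN.conj_mem _ (h2 q) c
  have hle : (chi i).ker ≤ N.comap φ := by
    rintro (k | k) hk
    · obtain ⟨l, rfl⟩ := exists_two_mul (show par q k = 0 from hk)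
      exact h2 l
    · have h4 : par q k - par q i = 0 := hk
      obtain ⟨l, hl⟩ := exists_two_mul (k := k - i) (by rw [map_sub, h4])
      have := N.mul_mem hs (h2 l)
      rw [← map_mul, sr_mul_r, ← hl, add_sub_cancel] at this
      exact this
  have h3 := index_dvd_of_le hle
  rw [index_ker_chi, index_comap, hP] at h3
  have h4 := Transfer.sup_sylow_eq_top_of_isPGroup_quotient N (IsPGroup.of_card hc) P
  rw [← relIndex_sup_left, h4, relIndex_top_right, hi] at h3
  omega

theorem two_nilpotent (h0 : ¬ IsConj (φ (r (2 * q))) (φ (sr 0)))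
    (h1 : ¬ IsConj (φ (r (2 * q))) (φ (sr 1))) : Cfsg.HasNormalPComplement 2 G := by
  have hs : ∀ k, ¬ IsConj (φ (r (2 * q))) (φ (sr k)) := fun k h => by
    rcases par_cases k with h' | h'
    · exact h0 (h.trans (φ.map_isConj (isConj_sr h')).symm)
    · exact h1 (h.trans (φ.map_isConj (isConj_sr h')).symm)
  refine Transfer.frobenius_of_coprime_centralizes P fun X hX _ g hg hgo => ?_
  let C : Subgroup G := (zpowers (r 1)).map φ
  have hC : ∀ k, φ (r k) ∈ C := fun k => mem_map_of_mem φ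
    ⟨k.val, by simp only [zpow_natCast, r_one_pow, ZMod.natCast_zmod_val]⟩
  have hC' : ∀ x ∈ C, ∃ k, x = φ (r k) := by
    rintro _ ⟨_, ⟨n, rfl⟩, rfl⟩
    exact ⟨n, by simp only [r_one_zpow]⟩
  have hXP : ∀ x ∈ X, ∃ d, φ d = x := fun x hx => (hP ▸ hX hx : x ∈ φ.range)
  have hord : ∀ (x : G) (d : DihedralGroup (4 * q)), g * x * g⁻¹ = φ d → orderOf x = orderOf d :=
    fun x d h => by
      rw [← orderOf_injective φ hφ, ← h, ← MulAut.conj_apply, MulEquiv.orderOf_eq]
  have hn : g ∈ normalizer ((X ⊓ C : Subgroup G) : Set G) := by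
    refine Transfer.mem_normalizer_of_conj_mem fun x hx => ?_
    have h2 := (mem_normalizer_iff.1 hg x).1 hx.1
    refine ⟨h2, ?_⟩
    obtain ⟨d | d, hd⟩ := hXP _ h2
    · exact hd ▸ hC d
    · obtain ⟨k, rfl⟩ := hC' x hx.2
      have h3 := hord _ _ hd.symm
      rw [orderOf_sr, orderOf_injective φ hφ] at h3
      rw [eq_z_of_orderOf h3] at hd
      exact absurd (isConj_iff.2 ⟨g, hd.symm⟩) (hs d)
  have hcomm : IsMulCommutative (X ⊓ C : Subgroup G) := by
    refine ⟨⟨fun a b => Subtype.ext ?_⟩⟩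
    obtain ⟨k, hk⟩ := hC' _ a.2.2
    obtain ⟨l, hl⟩ := hC' _ b.2.2
    rw [coe_mul, coe_mul, hk, hl, ← map_mul, ← map_mul, r_mul_r, r_mul_r, add_comm]
  have hcent := Transfer.mem_centralizer_of_omega (p := 2) (P.2.to_le (inf_le_left.trans hX)) hcomm
    hgo hn (fun w hw hw2 => by
      by_cases hw1 : w = 1
      · simp [hw1]
      have h2 := (mem_normalizer_iff.1 hn w).1 hw
      obtain ⟨k, rfl⟩ := hC' w hw.2
      obtain ⟨l, hl⟩ := hC' _ h2.2
      have h3 : orderOf (φ (r k)) = 2 := orderOf_eq_prime hw2 hw1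
      have h4 := hord _ _ hl
      rw [h3] at h4
      rw [orderOf_injective φ hφ] at h3
      rw [eq_z_of_orderOf h4.symm, ← eq_z_of_orderOf h3] at hl
      exact (mul_inv_eq_iff_eq_mul.1 hl).symm)
  refine mem_centralizer_iff.2 fun x hx => ?_
  obtain ⟨k | k, rfl⟩ := hXP x hx
  · exact mem_centralizer_iff.1 hcent _ ⟨hx, hC k⟩
  have h2 := (mem_normalizer_iff.1 hg _).1 hx
  obtain ⟨l | l, hl⟩ := hXP _ h2
  · have h3 := hord _ _ hl.symm
    rw [orderOf_injective φ hφ, orderOf_sr] at h3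
    rw [eq_z_of_orderOf h3.symm] at hl
    exact absurd (isConj_iff.2 ⟨g, hl.symm⟩).symm (hs k)
  set t := φ (sr k) with ht
  have hw : t⁻¹ * (g * t * g⁻¹) ∈ X ⊓ C := ⟨X.mul_mem (X.inv_mem hx) h2, by
    rw [← hl, ht, ← map_inv, ← map_mul, inv_sr, sr_mul_sr]; exact hC _⟩
  set w := t⁻¹ * (g * t * g⁻¹) with hw'
  have hwg : w * g = g * w := mem_centralizer_iff.1 hcent _ hw
  have hpow : ∀ n : ℕ, g ^ n * t = t * w ^ n * g ^ n := by
    intro n
    induction n with
    | zero => simp
    | succ n ih =>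
      have h3 : g * t = t * w * g := by rw [hw']; group
      have h4 : g * w ^ n = w ^ n * g := ((show Commute w g from hwg).symm.pow_right n).eq
      rw [pow_succ' g, mul_assoc, ih, ← mul_assoc, ← mul_assoc, h3, mul_assoc _ g, h4, pow_succ' w]
      group
  have h3 := hpow (orderOf g)
  rw [pow_orderOf_eq_one, one_mul, mul_one, left_eq_mul] at h3
  have h4 : w = 1 := Transfer.eq_one_of_coprime_of_mem_isPGroup P.2
    (Nat.Coprime.coprime_dvd_left (orderOf_dvd_of_pow_eq_one h3) hgo) (hX hw.1)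
  have h5 := hpow 1
  rw [h4] at h5
  simpa using h5.symm

theorem not_isConj_of_two_nilpotent (h : Cfsg.HasNormalPComplement 2 G) :
    ¬ IsConj (φ (sr 0)) (φ (sr 1)) := by
  intro hc
  obtain ⟨g, hg⟩ := isConj_iff.1 hc
  obtain ⟨u, hu, hu'⟩ := Transfer.exists_mem_sylow_conj_eq_of_hasNormalPComplement h P g
  rw [← hP] at hu hu'
  obtain ⟨d, rfl⟩ := hu
  have h1 := hu' _ ⟨sr 0, rfl⟩ (hg ▸ ⟨sr 1, rfl⟩)
  rw [hg, ← map_inv, ← map_mul, ← map_mul] at h1
  have h2 := par_eq_of_isConj (isConj_iff.2 ⟨d, (hφ h1).symm⟩)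
  rw [map_zero, map_one] at h2
  exact one_ne_zero h2

theorem card_classes :
    Nat.card {C : ConjClasses G // ∃ g : G, ConjClasses.mk g = C ∧ orderOf g = 2} =
      ({ConjClasses.mk (φ (r (2 * q))), ConjClasses.mk (φ (sr 0)), ConjClasses.mk (φ (sr 1))} :
        Set (ConjClasses G)).ncard := by
  rw [← Nat.card_coe_set_eq]
  refine Nat.card_congr (Equiv.subtypeEquivRight fun C => ⟨?_, ?_⟩)
  · rintro ⟨g, rfl, hg⟩
    rcases invol_cases P hφ hP hg with h | h | h <;>
      simp [ConjClasses.mk_eq_mk_iff_isConj.2 h]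
  · rintro (rfl | rfl | rfl)
    · exact ⟨_, rfl, by rw [orderOf_injective φ hφ, orderOf_z]⟩
    · exact ⟨_, rfl, by rw [orderOf_injective φ hφ, orderOf_sr]⟩
    · exact ⟨_, rfl, by rw [orderOf_injective φ hφ, orderOf_sr]⟩

end Main

/-- Let G be a finite group whose Sylow 2-subgroups are dihedral of order 2 ^ n with n ≥ 3, and count the conjugacy classes of involutions of G. Then exactly one of the following holds: there is one class of involutions and no normal subgroup of index 2; there are two classes of involutions, a normal subgroup of index 2 and none of index 4; there are three classes of involutions and G has a normal 2-complement. -/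
theorem result {G : Type*} [Group G] [Finite G] (P : Sylow 2 G) (n : ℕ) (hn : 3 ≤ n) (hdih : Nonempty (↥(P : Subgroup G) ≃* DihedralGroup (2 ^ (n - 1)))) : (Nat.card {C : ConjClasses G // ∃ g : G, ConjClasses.mk g = C ∧ orderOf g = 2} = 1 ∧ ∀ N : Subgroup G, N.Normal → N.index ≠ 2) ∨ (Nat.card {C : ConjClasses G // ∃ g : G, ConjClasses.mk g = C ∧ orderOf g = 2} = 2 ∧ (∃ N : Subgroup G, N.Normal ∧ N.index = 2) ∧ ∀ N : Subgroup G, N.Normal → N.index ≠ 4) ∨ (Nat.card {C : ConjClasses G // ∃ g : G, ConjClasses.mk g = C ∧ orderOf g = 2} = 3 ∧ Cfsg.HasNormalPComplement 2 G) := by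
  obtain ⟨k, rfl⟩ := Nat.exists_eq_add_of_le hn
  have hk : 2 ^ (3 + k - 1) = 4 * 2 ^ k := by rw [show 3 + k - 1 = k + 2 by omega]; ring
  rw [hk] at hdih
  obtain ⟨e⟩ := hdih
  let φ := (P : Subgroup G).subtype.comp e.symm.toMonoidHom
  have hφ : Function.Injective φ := (subtype_injective _).comp e.symm.injective
  have hP : φ.range = P := by
    rw [MonoidHom.range_comp, MonoidHom.range_eq_top_of_surjective _ e.symm.surjective,
      ← MonoidHom.range_eq_map, range_subtype]
  rw [card_classes P hφ hP]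
  by_cases h0 : IsConj (φ (r (2 * (2 ^ k : ℕ)))) (φ (sr 0)) <;>
    by_cases h1 : IsConj (φ (r (2 * (2 ^ k : ℕ)))) (φ (sr 1))
  · refine Or.inl ⟨?_, no_index_two P hφ hP h0 h1⟩
    rw [← ConjClasses.mk_eq_mk_iff_isConj.2 h0, ← ConjClasses.mk_eq_mk_iff_isConj.2 h1]
    simp
  · refine Or.inr (Or.inl ⟨?_, exists_index_two P hφ hP h0 h1, no_index_four P hφ hP h0⟩)
    rw [← ConjClasses.mk_eq_mk_iff_isConj.2 h0, Set.insert_eq_of_mem (Set.mem_insert _ _)]
    exact Set.ncard_pair fun h => h1 (ConjClasses.mk_eq_mk_iff_isConj.1 h)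
  · refine Or.inr (Or.inl ⟨?_, exists_index_two P hφ hP h1 h0, no_index_four P hφ hP h1⟩)
    rw [← ConjClasses.mk_eq_mk_iff_isConj.2 h1,
      Set.insert_eq_of_mem (Set.mem_insert_of_mem _ (Set.mem_singleton _))]
    exact Set.ncard_pair fun h => h0 (ConjClasses.mk_eq_mk_iff_isConj.1 h).symm
  · have h := two_nilpotent P hφ hP h0 h1
    refine Or.inr (Or.inr ⟨Set.ncard_eq_three.2 ⟨_, _, _, ?_, ?_, ?_, rfl⟩, h⟩)
    · exact fun h => h0 (ConjClasses.mk_eq_mk_iff_isConj.1 h)
    · exact fun h => h1 (ConjClasses.mk_eq_mk_iff_isConj.1 h)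
    · exact fun h' => not_isConj_of_two_nilpotent P hφ hP h (ConjClasses.mk_eq_mk_iff_isConj.1 h')

end Cfsg.Agent.S3864
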