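import Cfsg.Statements.S3867
import Cfsg.Agent.Lib.Coprime.SylowCount

set_option autoImplicit false
open Cfsg

namespace Cfsg.Agent.S3867

/-- Let M and N be nontrivial normal subgroups of the finite group G with M ⊓ N trivial, and let p be a prime. Writing n(X) for the number of Sylow p-subgroups of a group X, one has n(G) · n(G/MN) = n(G/M) · n(G/N). -/
theorem result {G : Type*} [Group G] [Finite G] (p : ℕ) [Fact p.Prime] (M N : Subgroup G) [M.Normal] [N.Normal] (hM : M ≠ ⊥) (hN : N ≠ ⊥) (hMN : M ⊓ N = ⊥) : Nat.card (Sylow p G) * Nat.card (Sylow p (G ⧸ (M ⊔ N))) = Nat.card (Sylow p (G ⧸ M)) * Nat.card (Sylow p (G ⧸ N)) := by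
  obtain ⟨P⟩ : Nonempty (Sylow p G) := inferInstance
  rw [P.card_eq_index_normalizer, Coprime.card_sylow_quotient _ P, Coprime.card_sylow_quotient _ P,
    Coprime.card_sylow_quotient _ P, ← Sylow.coe_coe]
  set L := Subgroup.normalizer ((P : Subgroup G) : Set G) with hL
  have h1 : ((P : Subgroup G) ⊔ M) ⊓ ((P : Subgroup G) ⊔ N) = P := by
    refine (Coprime.isSylowIn_top P).eq_of_le (le_inf le_sup_left le_sup_left) le_top ?_
    have hM' : IsPGroup p ((P : Subgroup G).map (QuotientGroup.mk' M)) := P.isPGroup'.map _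
    have hN' : IsPGroup p ((P : Subgroup G).map (QuotientGroup.mk' N)) := P.isPGroup'.map _
    rintro ⟨x, hx1, hx2⟩
    rw [← Core.comap_map_mk] at hx1 hx2
    obtain ⟨a, ha⟩ := hM' ⟨_, hx1⟩
    obtain ⟨b, hb⟩ := hN' ⟨_, hx2⟩
    have ha' : x ^ p ^ a ∈ M := by
      rw [← QuotientGroup.eq_one_iff]; simpa using congrArg Subtype.val ha
    have hb' : x ^ p ^ b ∈ N := by
      rw [← QuotientGroup.eq_one_iff]; simpa using congrArg Subtype.val hb
    refine ⟨a + b, Subtype.ext ?_⟩
    have : x ^ p ^ (a + b) ∈ M ⊓ N := ⟨by rw [pow_add, pow_mul]; exact M.pow_mem ha' _,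
      by rw [pow_add, mul_comm, pow_mul]; exact N.pow_mem hb' _⟩
    rw [hMN] at this
    exact this
  have h2 : (L ⊔ M) ⊓ (L ⊔ N) = L := by
    refine le_antisymm ?_ (le_inf le_sup_left le_sup_left)
    conv_rhs => rw [hL, ← h1]
    refine Core.le_normalizer_inf (inf_le_left.trans (sup_le ?_ ?_)) (inf_le_right.trans (sup_le ?_ ?_))
    · exact Core.le_normalizer_sup le_rfl Subgroup.le_normalizer_of_normal
    · exact le_sup_right.trans Subgroup.le_normalizer
    · exact Core.le_normalizer_sup le_rfl Subgroup.le_normalizer_of_normal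
    · exact le_sup_right.trans Subgroup.le_normalizer
  have h3 : (L ⊔ M).relIndex (L ⊔ (M ⊔ N)) = L.relIndex (L ⊔ N) := by
    rw [← sup_assoc, Coprime.relIndex_sup_of_le le_rfl Subgroup.le_normalizer_of_normal,
      Coprime.relIndex_sup_of_le le_rfl Subgroup.le_normalizer_of_normal,
      ← Subgroup.inf_relIndex_right, ← Subgroup.inf_relIndex_right L]
    congr 1
    refine le_antisymm (le_inf ?_ inf_le_right) (inf_le_inf_right _ le_sup_left)
    exact (inf_le_inf_left _ le_sup_right).trans h2.le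
  rw [← Subgroup.relIndex_mul_index (le_sup_left : L ≤ L ⊔ N),
    ← Subgroup.relIndex_mul_index (sup_le_sup_left le_sup_left L : L ⊔ M ≤ L ⊔ (M ⊔ N)), h3]
  ring

end Cfsg.Agent.S3867
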