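import Cfsg.Statements.S3878
import Cfsg.Agent.Lib.Coprime.Wielandt

set_option autoImplicit false
open Cfsg

namespace Cfsg.Agent.S3878

/-- For a set of primes π the following are equivalent: every finite group has a Hall π-subgroup; in every finite group the maximal π-subgroups are pairwise conjugate; π contains at most one prime or contains every prime. -/
theorem result (π : Set ℕ) :
    ((∀ (G : Type) [Group G] [Finite G], Cfsg.IsEPiGroup π G) ↔
      ((∀ p q : ℕ, p.Prime → q.Prime → p ∈ π → q ∈ π → p = q) ∨ ∀ p : ℕ, p.Prime → p ∈ π)) ∧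
    ((∀ (G : Type) [Group G] [Finite G], Cfsg.IsDPiGroup π G) ↔
      ((∀ p q : ℕ, p.Prime → q.Prime → p ∈ π → q ∈ π → p = q) ∨ ∀ p : ℕ, p.Prime → p ∈ π)) := by
  have hD : ((∀ p q : ℕ, p.Prime → q.Prime → p ∈ π → q ∈ π → p = q) ∨ ∀ p : ℕ, p.Prime → p ∈ π) →
      ∀ (G : Type) [Group G] [Finite G], Cfsg.IsDPiGroup π G := by
    rintro (h | h) G _ _
    · by_cases h1 : ∃ p : ℕ, p.Prime ∧ p ∈ π
      · obtain ⟨p, hp, hπ⟩ := h1
        have := Fact.mk hp
        obtain ⟨P⟩ : Nonempty (Sylow p G) := inferInstance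
        have h2 : IsPiHall π (P : Subgroup G) := ⟨fun q hq hd => by
          rwa [Core.isPGroup_iff_forall_prime_dvd.mp P.isPGroup' q hq hd],
          fun q hq h' => h p q hp hq hπ h' ▸ P.not_dvd_index⟩
        exact Coprime.isDPiGroup_of_coversPi h2.1
          (Coprime.coversPi_of_isNilpotent h2 P.isPGroup'.isNilpotent)
      · have h2 : IsPiHall π (⊥ : Subgroup G) := ⟨by
          rw [Subgroup.card_bot]; exact Coprime.isPiNum_one π, fun q hq h' => (h1 ⟨q, hq, h'⟩).elim⟩
        exact Coprime.isDPiGroup_of_coversPi h2.1 (Coprime.coversPi_of_isNilpotent h2 inferInstance)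
    · exact Coprime.isDPiGroup_of_coversPi (H := ⊤) (fun q hq _ => h q hq)
        fun K _ => ⟨1, by rw [Coprime.map_conj_one]; exact le_top⟩
  have hE : (∀ (G : Type) [Group G] [Finite G], Cfsg.IsEPiGroup π G) →
      ((∀ p q : ℕ, p.Prime → q.Prime → p ∈ π → q ∈ π → p = q) ∨ ∀ p : ℕ, p.Prime → p ∈ π) := by
    intro h
    by_contra hcon
    rw [not_or] at hcon
    obtain ⟨h1, h2⟩ := hcon
    have hcyc : ∀ (n : ℕ) (H : Subgroup (Equiv.Perm (Fin n))), IsPiHall π H → ∀ p : ℕ, p.Prime →
        p ∈ π → p ≤ n → ∃ c ∈ H, c.cycleType = {p} := by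
      intro n H hH p hp hπ hn
      have := Fact.mk hp
      obtain ⟨c, hc⟩ := (Equiv.Perm.exists_with_cycleType_iff (Fin n) (m := {p})).mpr
        ⟨by simpa using hn, by simpa using hp.two_le⟩
      obtain ⟨P, hP⟩ := Cls.exists_sylow_le_of_not_dvd_index (hH.2 p hp hπ)
      obtain ⟨g, hg⟩ := Cls.exists_conj_mem_sylow P (x := c)
        ⟨1, by rw [← Equiv.Perm.lcm_cycleType, hc]; simp⟩
      refine ⟨_, hP hg, ?_⟩
      have := Equiv.Perm.cycleType_conj (σ := c) (τ := g⁻¹)
      rwa [inv_inv, hc] at this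
    have hprim : ∀ (q : ℕ) (H : Subgroup (Equiv.Perm (Fin q))), IsPiHall π H → q.Prime → q ∈ π →
        MulAction.IsPreprimitive H (Fin q) := by
      intro q H hH hq hπ
      obtain ⟨c, hc, e⟩ := hcyc q H hH q hq hπ le_rfl
      have h3 : c.IsCycle := Equiv.Perm.card_cycleType_eq_one.mp (by rw [e]; rfl)
      have h4 : c.support = Finset.univ := Finset.eq_univ_of_card _ (by
        rw [← Equiv.Perm.sum_cycleType, e]; simp)
      have : MulAction.IsPretransitive H (Fin q) := ⟨fun a b => by
        obtain ⟨i, hi⟩ := h3.exists_zpow_eq (x := a) (y := b)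
          (Equiv.Perm.mem_support.mp (h4 ▸ Finset.mem_univ _))
          (Equiv.Perm.mem_support.mp (h4 ▸ Finset.mem_univ _))
        exact ⟨⟨c ^ i, H.zpow_mem hc i⟩, hi⟩⟩
      exact MulAction.IsPreprimitive.of_prime_card (by simpa using hq)
    obtain ⟨p, q, hp, hq, hpπ, hqπ, hpq⟩ : ∃ p q : ℕ, p.Prime ∧ q.Prime ∧ p ∈ π ∧ q ∈ π ∧ p < q := by
      push Not at h1
      obtain ⟨p, q, hp, hq, hpπ, hqπ, hne⟩ := h1
      rcases lt_or_gt_of_ne hne with h | h
      · exact ⟨p, q, hp, hq, hpπ, hqπ, h⟩
      · exact ⟨q, p, hq, hp, hqπ, hpπ, h⟩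
    by_cases h2π : 2 ∈ π
    · classical
      have hex : ∃ r, r.Prime ∧ r ∉ π := by
        push Not at h2
        exact h2
      obtain ⟨hr, hrπ⟩ := Nat.find_spec hex
      have hmin : ∀ s, s < Nat.find hex → s.Prime → s ∈ π := fun s hs hs' => by
        by_contra h'
        exact Nat.find_min hex hs ⟨hs', h'⟩
      set r := Nat.find hex
      by_cases h3 : r < q
      · obtain ⟨H, hH⟩ := h (Equiv.Perm (Fin q))
        obtain ⟨c, hc, e⟩ := hcyc q H hH 2 Nat.prime_two h2π hq.two_le
        have h4 := Equiv.Perm.subgroup_eq_top_of_isPreprimitive_of_isSwap_mem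
          (hprim q H hH hq hqπ) c (Equiv.Perm.isSwap_iff_cycleType.mpr e) hc
        refine hrπ (hH.1 r hr ?_)
        rw [h4, Subgroup.card_top, Nat.card_perm]
        exact Nat.dvd_factorial hr.pos (by simpa using h3.le)
      · have h4 : q < r := lt_of_le_of_ne (not_lt.mp h3) fun e => hrπ (e ▸ hqπ)
        have h5 : 4 ≤ r := by have := hp.two_le; omega
        obtain ⟨H, hH⟩ := h (Equiv.Perm (Fin (r + 1)))
        have h6 : H.index ∣ (r + 1).factorial := by
          have := H.index_dvd_card
          rwa [Nat.card_perm, Nat.card_eq_fintype_card, Fintype.card_fin] at this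
        obtain ⟨k, hk⟩ : ∃ k, H.index = r ^ k := by
          refine Cls.eq_pow_of_forall_prime_eq Subgroup.index_ne_zero_of_finite fun s hs hd => ?_
          have h7 := (hs.dvd_factorial).mp (hd.trans h6)
          have h8 : r ≤ s := not_lt.mp fun h' => hH.2 s hs (hmin s h' hs) hd
          by_contra h9
          have := hr.odd_of_ne_two (by omega)
          have := hs.odd_of_ne_two (by omega)
          rw [Nat.odd_iff] at *
          omega
        have h7 : H.index ≤ r := by
          rw [hk] at h6 ⊢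
          by_contra h7
          have h8 : r ^ 2 ∣ (r + 1).factorial := (pow_dvd_pow r (by
            by_contra h9
            exact h7 ((Nat.pow_le_pow_right hr.pos (by omega)).trans (pow_one r).le))).trans h6
          rw [Nat.factorial_succ, ← Nat.mul_factorial_pred hr.ne_zero, mul_left_comm, pow_two] at h8
          rcases (Nat.Prime.dvd_mul hr).mp (Nat.dvd_of_mul_dvd_mul_left hr.pos h8) with h9 | h9
          · exact hr.one_lt.ne' (Nat.dvd_one.mp ((Nat.dvd_add_right dvd_rfl).mp h9))
          · have := hr.dvd_factorial.mp h9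
            omega
        have h8 : Nontrivial H.normalCore := by
          rw [Subgroup.nontrivial_iff_ne_bot, Subgroup.normalCore_eq_ker, Ne,
            MonoidHom.ker_eq_bot_iff]
          intro h8
          have h9 := Nat.card_le_card_of_injective _ h8
          rw [Nat.card_perm, Nat.card_perm, Nat.card_eq_fintype_card, Fintype.card_fin] at h9
          exact absurd (h9.trans (Nat.factorial_le h7))
            (not_le.mpr (Nat.factorial_lt_of_lt hr.pos r.lt_succ_self))
        have h9 := (Equiv.Perm.alternatingGroup_le_of_normal (by simpa using h5) h8).trans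
          H.normalCore_le
        refine hrπ (hH.1 r hr (dvd_trans ?_ (Subgroup.card_dvd_of_le h9)))
        have : Nontrivial (Fin (r + 1)) := Fin.nontrivial_iff_two_le.mpr (by omega)
        refine ((Nat.coprime_primes hr Nat.prime_two).mpr (by omega)).dvd_of_dvd_mul_left ?_
        rw [← alternatingGroup.index_eq_two (α := Fin (r + 1)), Subgroup.index_mul_card,
          Nat.card_perm]
        exact Nat.dvd_factorial hr.pos (by simp)
    · obtain ⟨H, hH⟩ := h (Equiv.Perm (Fin q))
      obtain ⟨c, hc, e⟩ := hcyc q H hH p hp hpπ hpq.le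
      have h3 : c.IsCycle := Equiv.Perm.card_cycleType_eq_one.mp (by rw [e]; rfl)
      have h4 : c.support.card = p := by rw [← Equiv.Perm.sum_cycleType, e]; simp
      have hp2 := hp.two_le
      have h5 := (hprim q H hH hq hqπ).is_two_pretransitive (n := q - p - 1) (by
        rw [← Finset.coe_compl, Set.ncard_coe_finset, Finset.card_compl, h4, Fintype.card_fin]
        omega) (by rw [Nat.card_eq_fintype_card, Fintype.card_fin]; omega)
        (Equiv.Perm.isPretransitive_of_isCycle_mem h3 hc)
      have : Nontrivial (Fin q) := Fin.nontrivial_iff_two_le.mpr hq.two_le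
      obtain ⟨a, b, hab⟩ := exists_pair_ne (Fin q)
      obtain ⟨g, h6, h7⟩ := MulAction.is_two_pretransitive_iff.mp h5 hab hab.symm
      have h8 : g ^ 2 ∈ MulAction.stabilizer H a := by
        rw [MulAction.mem_stabilizer_iff, pow_two, mul_smul, h6, h7]
      have h9 : g ∈ MulAction.stabilizer H a := Subgroup.zpowers_le.mpr h8
        (mem_zpowers_pow_iff.mpr (Nat.prime_two.coprime_iff_not_dvd.mpr fun h' =>
          h2π (hH.1 2 Nat.prime_two (h'.trans (orderOf_dvd_natCard g)))))
      exact hab (h9.symm.trans h6)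
  exact ⟨⟨hE, fun h G _ _ => Coprime.isEPiGroup_of_isDPiGroup (hD h G)⟩,
    fun h => hE fun G _ _ => Coprime.isEPiGroup_of_isDPiGroup (h G), hD⟩

end Cfsg.Agent.S3878
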