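import Cfsg.Statements.S3881
import Mathlib
import Cfsg.Agent.Lib.Reg.Metacyclic2

set_option autoImplicit false
open Cfsg

namespace Cfsg.Agent.S3881

/-- Let p be an odd prime and G a finite metacyclic p-group (G has a cyclic normal subgroup with cyclic quotient). Suppose G is non-abelian with |G'| = p^n. Then for 1 ≤ i ≤ n the number of elements of G whose conjugacy class has exactly p^i elements is |Z(G)| · (p^(2i) − p^(2i−2)). -/
theorem result {G : Type*} [Group G] [Finite G] {p : ℕ} [Fact p.Prime] (hp : p ≠ 2) (hG : IsPGroup p G) (hmc : Cfsg.IsMetacyclic G) (n : ℕ) (hn : n ≠ 0) (hGn : Nat.card ↥(commutator G) = p ^ n) (i : ℕ) (hi : 1 ≤ i) (hin : i ≤ n) :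
    Nat.card {g : G // (Subgroup.centralizer ({g} : Set G)).index = p ^ i} =
      Nat.card ↥(Subgroup.center G) * (p ^ (2 * i) - p ^ (2 * i - 2)) := by
  classical
  have hp1 := (Fact.out : p.Prime).one_lt
  have h1 := Reg.metacyclic_card_index_centralizer_le hp hG hmc hGn hin
  have h2 := Reg.metacyclic_card_index_centralizer_le hp hG hmc hGn (i := i - 1) (by omega)
  have := Fintype.ofFinite G
  rw [Nat.card_eq_fintype_card, Fintype.card_subtype] at h1 h2 ⊢
  rw [Nat.mul_sub, ← h1, show 2 * i - 2 = 2 * (i - 1) by omega, ← h2, ← Finset.card_sdiff_of_subset]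
  · congr 1
    ext g
    obtain ⟨k, hk⟩ := hG.index (Subgroup.centralizer ({g} : Set G))
    simp only [Finset.mem_filter, Finset.mem_univ, true_and, Finset.mem_sdiff, hk,
      Nat.pow_le_pow_iff_right hp1, Nat.pow_right_inj hp1]
    omega
  · intro g
    simp only [Finset.mem_filter, Finset.mem_univ, true_and]
    exact fun h => h.trans (Nat.pow_le_pow_right hp1.le (by omega))

end Cfsg.Agent.S3881
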