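import Cfsg.Statements.S3882
import Mathlib
import Cfsg.Agent.Lib.Reg.Metacyclic2

set_option autoImplicit false
open Cfsg

namespace Cfsg.Agent.S3882

/-- Let p be an odd prime and G a finite metacyclic p-group (G has a cyclic normal subgroup with cyclic quotient). Suppose |G'| = p^n and 0 ≤ s ≤ n. Then an element g lies in the subgroup generated by the p^s-th powers if and only if its conjugacy class has at most p^(n−s) elements; in particular the subgroup generated by the p^n-th powers is the center of G. -/
theorem result {G : Type*} [Group G] [Finite G] {p : ℕ} [Fact p.Prime] (hp : p ≠ 2) (hG : IsPGroup p G) (hmc : Cfsg.IsMetacyclic G) (n : ℕ) (hGn : Nat.card ↥(commutator G) = p ^ n) (s : ℕ) (hs : s ≤ n) (g : G) :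
    (g ∈ Subgroup.closure {x : G | ∃ y : G, y ^ p ^ s = x} ↔ (Subgroup.centralizer ({g} : Set G)).index ≤ p ^ (n - s)) ∧
      Subgroup.closure {x : G | ∃ y : G, y ^ p ^ n = x} = Subgroup.center G := by
  have e : ∀ q : ℕ, Subgroup.closure {x : G | ∃ y : G, y ^ q = x} = Reg.powClosure q ⊤ := by
    intro q
    unfold Reg.powClosure
    congr 1
    ext x
    simp [eq_comm]
  rw [e, e]
  refine ⟨Reg.metacyclic_mem_powClosure_iff hp hG hmc hGn hs g, ?_⟩
  ext x
  rw [Reg.metacyclic_mem_powClosure_iff hp hG hmc hGn le_rfl, Nat.sub_self, pow_zero,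
    Nat.le_one_iff_eq_zero_or_eq_one, or_iff_right Subgroup.index_ne_zero_of_finite,
    Subgroup.index_eq_one, Subgroup.centralizer_eq_top_iff_subset, Set.singleton_subset_iff]
  rfl

end Cfsg.Agent.S3882
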