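import Cfsg.Statements.S3883
import Mathlib
import Cfsg.Agent.Lib.Reg.Metacyclic2

set_option autoImplicit false
open Cfsg

namespace Cfsg.Agent.S3883

/-- Let p be an odd prime and G a finite metacyclic p-group (G has a cyclic normal subgroup with cyclic quotient). Suppose G is non-abelian. Then an element g of G lies outside the Frattini subgroup if and only if its centralizer C_G(g) is abelian. -/
theorem result {G : Type*} [Group G] [Finite G] {p : ℕ} [Fact p.Prime] (hp : p ≠ 2) (hG : IsPGroup p G) (hmc : Cfsg.IsMetacyclic G) (hna : ¬ IsMulCommutative G) (g : G) :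
    g ∉ frattini G ↔ IsMulCommutative ↥(Subgroup.centralizer ({g} : Set G)) := by
  have hp1 := (Fact.out : p.Prime).one_lt
  obtain ⟨n, hn⟩ := PGrp.exists_card_eq_pow hG (commutator G)
  have hn0 : 1 ≤ n := by
    rcases n with _ | n
    · exact absurd (commutator_eq_bot_iff G |>.mp (Subgroup.card_eq_one.mp (by simpa using hn))) hna
    · omega
  have hfr : frattini G = Reg.powClosure (p ^ 1) ⊤ := by
    rw [PGrp.frattini_eq hG, sup_eq_right.mpr]
    · rfl
    obtain ⟨D⟩ := Reg.nonempty_metaGens hG hmc
    rw [D.commutator_eq, Subgroup.zpowers_le]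
    exact Reg.pow_mem_powClosure_of_dvd trivial (by simp)
  obtain ⟨k, hk⟩ := hG.index (Subgroup.centralizer ({g} : Set G))
  rw [hfr, Reg.metacyclic_mem_powClosure_iff hp hG hmc hn hn0,
    Reg.metacyclic_isMulCommutative_iff hp hG hmc, hk, Nat.pow_le_pow_iff_right hp1]
  have e1 := (Subgroup.centralizer ({g} : Set G)).card_mul_index
  have e2 := (commutator G).card_mul_index
  rw [hk] at e1
  rw [hn] at e2
  constructor
  · intro h
    apply Nat.le_of_mul_le_mul_left _ (pow_pos (by omega : 0 < p) n)
    rw [e2, ← e1, mul_comm]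
    exact Nat.mul_le_mul_left _ (Nat.pow_le_pow_right hp1.le (by omega))
  · intro h
    have : p ^ n ≤ p ^ k := by
      apply Nat.le_of_mul_le_mul_left _ (Nat.card_pos (α := Subgroup.centralizer ({g} : Set G)))
      rw [e1, ← e2, mul_comm]
      exact Nat.mul_le_mul_left _ h
    rw [Nat.pow_le_pow_iff_right hp1] at this
    omega

end Cfsg.Agent.S3883
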