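import Cfsg.Statements.S3884
import Mathlib
import Cfsg.Agent.Lib.Reg.Regular2
import Cfsg.Agent.Lib.Reg.Metacyclic2

set_option autoImplicit false
open Cfsg

namespace Cfsg.Agent.S3884

/-- Let p be an odd prime and G a finite metacyclic p-group (G has a cyclic normal subgroup with cyclic quotient). Then G is the product of two cyclic subgroups with trivial intersection: there are cyclic subgroups A and B with A ∩ B = 1 and |A| · |B| = |G|. -/
theorem result {G : Type*} [Group G] [Finite G] {p : ℕ} [Fact p.Prime] (hp : p ≠ 2) (hG : IsPGroup p G) (hmc : Cfsg.IsMetacyclic G) : ∃ A B : Subgroup G, IsCyclic ↥A ∧ IsCyclic ↥B ∧ A ⊓ B = ⊥ ∧ Nat.card ↥A * Nat.card ↥B = Nat.card G := by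
  classical
  have hp1 := (Fact.out : p.Prime).one_lt
  have := hG.isNilpotent
  have hreg := Reg.powRegOn_of_isMetacyclic hp hG hmc
  obtain ⟨D⟩ := Reg.nonempty_metaGens hG hmc
  have hex : ∃ m, ∃ a b : G, Subgroup.closure {a, b} = ⊤ ∧ orderOf b = m :=
    ⟨_, _, _, D.closure_eq_top, rfl⟩
  obtain ⟨a, b, hab, hb⟩ := Nat.find_spec hex
  have hmin : ∀ a' b' : G, Subgroup.closure {a', b'} = ⊤ → orderOf b ≤ orderOf b' :=
    fun a' b' h => hb ▸ Nat.find_min' hex ⟨a', b', h, rfl⟩
  obtain ⟨e, he⟩ := IsPGroup.iff_orderOf.mp hG a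
  obtain ⟨f, hf⟩ := IsPGroup.iff_orderOf.mp hG b
  have hfe : f ≤ e := by
    have := hmin b a (by rw [Set.pair_comm]; exact hab)
    rwa [he, hf, Nat.pow_le_pow_iff_right hp1] at this
  have hinf : Subgroup.zpowers a ⊓ Subgroup.zpowers b = ⊥ := by
    by_contra hne
    obtain ⟨i, hi⟩ : ∃ i, (Subgroup.zpowers a).relIndex (Subgroup.zpowers b) = p ^ i :=
      (hG.to_subgroup _).index _
    have h1 := PGrp.card_inf_mul_relIndex (Subgroup.zpowers a) (Subgroup.zpowers b)
    rw [Nat.card_zpowers, hf, hi] at h1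
    have h2 := (Subgroup.one_lt_card_iff_ne_bot _).mpr hne
    have hif : i < f := by
      rw [← Nat.pow_lt_pow_iff_right hp1, ← h1]
      exact lt_mul_of_one_lt_left (by positivity) h2
    have h3 : b ^ p ^ (f - 1) ∈ Subgroup.zpowers a := by
      rw [Reg.pow_mem_iff_relIndex_dvd (Subgroup.mem_zpowers b), hi]
      · exact pow_dvd_pow p (by omega)
      · intro k hk
        obtain ⟨m, rfl⟩ := (mem_powers_iff_mem_zpowers).mpr hk
        exact ⟨m, by simp⟩
    obtain ⟨j, hj⟩ := (mem_powers_iff_mem_zpowers).mpr h3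
    simp only at hj
    have h4 : p ^ (f - 1) * p ∣ j * p := by
      have : p ^ e ∣ j * p := by
        rw [← he, orderOf_dvd_iff_pow_eq_one, pow_mul, hj, ← pow_mul, ← pow_succ,
          show f - 1 + 1 = f by omega, ← hf, pow_orderOf_eq_one]
      exact dvd_trans (by rw [← pow_succ]; exact pow_dvd_pow p (by omega)) this
    obtain ⟨k, rfl⟩ := Nat.dvd_of_mul_dvd_mul_right (by omega) h4
    rw [mul_comm, pow_mul, eq_comm, (hreg (f - 1)).pow_eq_pow_iff trivial trivial] at hj
    have h5 := hmin a (b * (a ^ k)⁻¹) (by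
      rw [eq_top_iff, ← hab]
      refine Reg.closure_pair_le (Reg.left_mem_closure_pair _ _) ?_
      have := Subgroup.mul_mem _ (Reg.right_mem_closure_pair a (b * (a ^ k)⁻¹))
        (Subgroup.pow_mem _ (Reg.left_mem_closure_pair a (b * (a ^ k)⁻¹)) k)
      simpa using this)
    have h6 := h5.trans (Nat.le_of_dvd (by positivity) (orderOf_dvd_of_pow_eq_one hj))
    rw [hf, Nat.pow_le_pow_iff_right hp1] at h6
    omega
  refine ⟨Subgroup.zpowers a, Subgroup.zpowers b, inferInstance, inferInstance, hinf,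
    le_antisymm ?_ ?_⟩
  · rw [← Nat.card_prod]
    exact Nat.card_le_card_of_injective _
      (Subgroup.mul_injective_of_disjoint (disjoint_iff.mpr hinf))
  · set Ω := (hreg f).omega with hΩ
    have hn : Ω.Normal := ⟨fun x hx g => ⟨trivial, by rw [conj_pow, hx.2]; simp⟩⟩
    have h1 : Nat.card Ω ≤ (p ^ f) ^ 2 :=
      Reg.card_le_sq_of_isMetacyclic (Reg.isMetacyclic_subgroup hmc Ω) (by positivity)
        fun g => Subtype.ext g.2.2
    have h2 : Ω ⊔ Subgroup.zpowers a = ⊤ := by
      rw [eq_top_iff, ← hab]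
      exact Reg.closure_pair_le (Subgroup.mem_sup_right (Subgroup.mem_zpowers a))
        (Subgroup.mem_sup_left ⟨trivial, by rw [← hf, pow_orderOf_eq_one]⟩)
    have h3 : Ω.index ∣ p ^ (e - f) := by
      rw [← Subgroup.relIndex_top_right, ← Reg.pow_mem_iff_relIndex_dvd (Subgroup.mem_top a)]
      · exact ⟨trivial, by rw [← pow_mul, ← pow_add, Nat.sub_add_cancel hfe, ← he, pow_orderOf_eq_one]⟩
      · intro k _
        obtain ⟨u, hu, v, hv, rfl⟩ := Subgroup.mem_sup_of_normal_left.mp (h2 ▸ Subgroup.mem_top k)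
        obtain ⟨m, rfl⟩ := (mem_powers_iff_mem_zpowers).mpr hv
        exact ⟨m, by simpa using hu⟩
    rw [Nat.card_zpowers, Nat.card_zpowers, he, hf, ← Ω.card_mul_index]
    refine (Nat.mul_le_mul h1 (Nat.le_of_dvd (by positivity) h3)).trans (le_of_eq ?_)
    rw [← pow_mul, ← pow_add, ← pow_add]
    congr 1
    omega

end Cfsg.Agent.S3884
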