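import Cfsg.Statements.S3886
import Mathlib
import Cfsg.Agent.Lib.Reg.Metacyclic2

set_option autoImplicit false
open Cfsg

namespace Cfsg.Agent.S3886

/-- Let p be an odd prime and G a finite metacyclic p-group (G has a cyclic normal subgroup with cyclic quotient). Then the largest value of |R| · |Z(R)| over subgroups R of G is |G : G'|², and the subgroups attaining it (the centrally large subgroups) are exactly the non-abelian subgroups together with the maximal abelian subgroups of G. -/
theorem result {G : Type*} [Group G] [Finite G] {p : ℕ} [Fact p.Prime] (hp : p ≠ 2) (hG : IsPGroup p G) (hmc : Cfsg.IsMetacyclic G) : Cfsg.maxCentralProduct G = (commutator G).index ^ 2 ∧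
    ∀ R : Subgroup G, Cfsg.IsCentrallyLarge R ↔ (¬ IsMulCommutative ↥R ∨ Maximal (fun K : Subgroup G => IsMulCommutative ↥K) R) := by
  have hna : ∀ R : Subgroup G, ¬ IsMulCommutative R →
      Nat.card R * Nat.card (Subgroup.center R) = (commutator G).index ^ 2 := by
    intro R hR
    have h1 := Reg.metacyclic_index_center hp (hG.to_subgroup R) (Reg.isMetacyclic_subgroup hmc R)
    have h2 := Reg.metacyclic_card_commutator_mul_index hp hG hmc hR
    rw [← Subgroup.map_subtype_commutator, Subgroup.card_map_of_injective R.subtype_injective] at h2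
    have h3 := (Subgroup.center R).card_mul_index
    have h4 := R.card_mul_index
    have h5 := (commutator G).card_mul_index
    have h6 : Nat.card R = Nat.card (commutator R) * (commutator G).index := by
      apply Nat.eq_of_mul_eq_mul_right (Nat.pos_of_ne_zero (R.index_ne_zero_of_finite))
      rw [h4, ← h5, ← h2]; ring
    apply Nat.eq_of_mul_eq_mul_right (pow_pos (Nat.card_pos (α := commutator R)) 2)
    rw [mul_assoc, ← h1, h3, h1, h6]; ring
  have hab : ∀ R : Subgroup G, IsMulCommutative R →
      Nat.card R * Nat.card (Subgroup.center R) = Nat.card R ^ 2 := by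
    intro R hR
    rw [Subgroup.center_eq_top_iff.mpr hR, Subgroup.card_top, sq]
  have hmax : Cfsg.maxCentralProduct G = (commutator G).index ^ 2 := by
    apply IsGreatest.csSup_eq
    constructor
    · by_cases h : IsMulCommutative (⊤ : Subgroup G)
      · refine ⟨⊤, ?_⟩
        rw [hab _ h, commutator_def, Subgroup.commutator_self_eq_bot_iff.mpr h, Subgroup.index_bot,
          Subgroup.card_top]
      · exact ⟨⊤, hna _ h⟩
    · rintro _ ⟨K, rfl⟩
      by_cases h : IsMulCommutative K
      · rw [hab _ h]
        exact Nat.pow_le_pow_left ((Reg.metacyclic_isMulCommutative_iff hp hG hmc K).mp h) 2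
      · exact (hna _ h).le
  refine ⟨hmax, fun R => ?_⟩
  rw [Cfsg.IsCentrallyLarge, hmax, Reg.metacyclic_maximal_iff hp hG hmc]
  by_cases h : IsMulCommutative R
  · rw [hab _ h, Nat.pow_left_inj (by norm_num)]
    simp [h]
  · simp [h, hna _ h]

end Cfsg.Agent.S3886
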