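import Cfsg.Statements.S3887
import Mathlib
import Cfsg.Agent.Lib.Reg.Metacyclic2

set_option autoImplicit false
open Cfsg

namespace Cfsg.Agent.S3887

/-- Let p be an odd prime and G a finite metacyclic p-group (G has a cyclic normal subgroup with cyclic quotient). Then a subgroup R of G maximizes |R| · |C_G(R)| over all subgroups of G if and only if R contains the center of G. -/
theorem result {G : Type*} [Group G] [Finite G] {p : ℕ} [Fact p.Prime] (hp : p ≠ 2) (hG : IsPGroup p G) (hmc : Cfsg.IsMetacyclic G) (R : Subgroup G) : Cfsg.IsCentralizerLarge R ↔ Subgroup.center G ≤ R := by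
  have h := Reg.metacyclic_card_mul_card_centralizer hp hG hmc
  have hmax : Cfsg.maxCentralizerProduct G = Nat.card (Subgroup.center G) * Nat.card G := by
    apply IsGreatest.csSup_eq
    constructor
    · exact ⟨⊤, by rw [h, inf_top_eq]⟩
    · rintro _ ⟨K, rfl⟩
      rw [h]
      exact Nat.mul_le_mul_right _ (Subgroup.card_le_of_le inf_le_left)
  rw [Cfsg.IsCentralizerLarge, hmax, h, Nat.mul_left_inj Nat.card_pos.ne', ← inf_eq_left]
  exact ⟨fun h => Subgroup.eq_of_le_of_card_ge inf_le_left h.ge, fun h => by rw [h]⟩

end Cfsg.Agent.S3887
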