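import Mathlib
import Cfsg.Statements.S3895
import Cfsg.Agent.Lib.Cls.PiClasses
import Cfsg.Agent.Lib.Transfer.NilpMax

set_option autoImplicit false
open Cfsg

namespace Cfsg.Agent.S3895

open Subgroup
open scoped Pointwise

universe u

theorem ncard_piClasses_le_quotient {G : Type*} [Group G] [Finite G] (π : Set ℕ) (N : Subgroup G)
    [N.Normal] : (Cls.piClasses π G).ncard ≤ (Cls.piClasses π (G ⧸ N)).ncard * Nat.card N := by
  have hrep : ∀ c : ConjClasses (G ⧸ N), ∃ g : G, ConjClasses.mk (g : G ⧸ N) = c := by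
    intro c
    obtain ⟨x, rfl⟩ := ConjClasses.mk_surjective c
    obtain ⟨g, rfl⟩ := QuotientGroup.mk_surjective x
    exact ⟨g, rfl⟩
  choose rep hrep using hrep
  let f : Cls.piClasses π (G ⧸ N) × N → ConjClasses G := fun x => ConjClasses.mk (rep x.1 * x.2)
  have h1 : Cls.piClasses π G ⊆ Set.range f := by
    intro c hc
    obtain ⟨x, rfl⟩ := ConjClasses.mk_surjective c
    have hx : ConjClasses.mk (x : G ⧸ N) ∈ Cls.piClasses π (G ⧸ N) :=
      Cls.mk_mem_piClasses.2 fun r hr hd => Cls.mk_mem_piClasses.1 hc r hr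
        (hd.trans (orderOf_map_dvd (QuotientGroup.mk' N) x))
    obtain ⟨g, hg⟩ := isConj_iff.1 (ConjClasses.mk_eq_mk_iff_isConj.1 (hrep (ConjClasses.mk (x : G ⧸ N)))).symm
    obtain ⟨g, rfl⟩ := QuotientGroup.mk_surjective g
    have h2 : (rep (ConjClasses.mk (x : G ⧸ N)))⁻¹ * (g * x * g⁻¹) ∈ N :=
      QuotientGroup.eq.1 hg.symm
    refine ⟨(⟨_, hx⟩, ⟨_, h2⟩), ConjClasses.mk_eq_mk_iff_isConj.2 ?_⟩
    simp only [mul_inv_cancel_left]
    exact (isConj_iff.2 ⟨g, rfl⟩).symm
  refine (Set.ncard_le_ncard h1 (Set.toFinite _)).trans ?_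
  rw [← Set.image_univ]
  refine (Set.ncard_image_le (Set.toFinite _)).trans ?_
  rw [Set.ncard_univ, Nat.card_prod, Nat.card_coe_set_eq]

theorem ncard_le_of_sylow_le {G : Type*} [Group G] [Finite G] {p : ℕ} [Fact p.Prime]
    (P : Sylow p G) {C : Subgroup G} (h : (P : Subgroup G) ≤ C) :
    (Cls.piClasses {p} G).ncard ≤ (Cls.piClasses {p} C).ncard := by
  rw [Cls.piClasses_single_eq P, Cls.piClasses_single_eq (P.subtype h)]
  refine le_trans (Set.ncard_le_ncard ?_ (Set.toFinite _))
    (Set.ncard_image_le (f := ConjClasses.map C.subtype) (Set.toFinite _))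
  rintro _ ⟨x, rfl⟩
  exact ⟨_, ⟨⟨⟨x, h x.2⟩, x.2⟩, rfl⟩, rfl⟩

theorem two_nilpotent (G : Type u) [Group G] [Finite G] : ∀ P : Sylow 2 G,
    Nat.card (P : Subgroup G) < 2 * (Cls.piClasses {2} G).ncard →
    Cfsg.HasNormalPComplement 2 G := by
  refine Core.induction_on_card (P := fun G _ _ => ∀ P : Sylow 2 G,
    Nat.card (P : Subgroup G) < 2 * (Cls.piClasses {2} G).ncard →
    Cfsg.HasNormalPComplement 2 G) ?_ G
  intro G _ _ ih P hP
  by_cases h2 : ¬ 2 ∣ Nat.card G
  · exact Transfer.hasNormalPComplement_of_not_dvd h2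
  push Not at h2
  have h2P : 2 ∣ Nat.card (P : Subgroup G) := P.dvd_card_of_dvd_card h2
  have hx : ∃ x ∈ (P : Subgroup G), x ≠ 1 ∧
      ∀ g : G, g * x * g⁻¹ ∈ (P : Subgroup G) → g * x * g⁻¹ = x := by
    by_contra hx
    push Not at hx
    have := Cls.two_mul_ncard_range_le (fun x : (P : Subgroup G) => ConjClasses.mk (x : G)) {1}
      (fun a ha => by
        obtain ⟨g, hg1, hg2⟩ := hx a a.2 (fun h => ha (Subtype.ext h))
        exact ⟨⟨_, hg1⟩, fun h => hg2 (congrArg Subtype.val h),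
          ConjClasses.mk_eq_mk_iff_isConj.2 (isConj_iff.2 ⟨g, rfl⟩).symm⟩)
    rw [← Cls.piClasses_single_eq P, Set.ncard_singleton] at this
    omega
  obtain ⟨x, hxP, hx1, hx⟩ := hx
  set C := centralizer ({x} : Set G) with hC
  have hPC : (P : Subgroup G) ≤ C := fun g hg => Cls.mem_centralizer_single.2
    (mul_inv_eq_iff_eq_mul.1 (hx g (mul_mem (mul_mem hg hxP) (inv_mem hg))))
  by_cases hCt : C = ⊤
  · have hxc : x ∈ center G := Cls.centralizer_single_eq_top_iff.1 hCt
    obtain ⟨z, hz, hz2⟩ := PGrp.exists_orderOf_eq_prime_of_ne_bot (p := 2) (H := zpowers x)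
      (P.2.to_le (zpowers_le.2 hxP)) (by simpa using hx1)
    have hzc : zpowers z ≤ center G := zpowers_le.2 (zpowers_le.2 hxc hz)
    have hzP : zpowers z ≤ P := zpowers_le.2 (zpowers_le.2 hxP hz)
    have hn : (zpowers z).Normal := PGrp.normal_of_le_center hzc
    have hcard : Nat.card (zpowers z) = 2 := by rw [Nat.card_zpowers, hz2]
    refine Transfer.hasNormalPComplement_of_quotient_center _ hzc (ih _ ?_
      (P.mapSurjective (QuotientGroup.mk'_surjective (zpowers z))) ?_)
    · exact Coprime.card_quotient_lt fun h => by rw [h, card_bot] at hcard; omega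
    · have h3 := ncard_piClasses_le_quotient {2} (zpowers z)
      have h4 := PGrp.card_map_mk'_mul (zpowers z) P
      rw [sup_eq_left.2 hzP, hcard] at h4
      rw [hcard] at h3
      change Nat.card ((P : Subgroup G).map (QuotientGroup.mk' (zpowers z))) < _
      omega
  · have hCn : Cfsg.HasNormalPComplement 2 C := by
      refine ih C (Coprime.card_lt_of_ne_top hCt) (P.subtype hPC) ?_
      have h3 := ncard_le_of_sylow_le P hPC
      have h4 : Nat.card ((P.subtype hPC : Sylow 2 C) : Subgroup C) = Nat.card (P : Subgroup G) :=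
        Nat.card_congr (subgroupOfEquivOfLe hPC).toEquiv
      omega
    refine Transfer.hasNormalPComplement_of_controls_fusion P fun y hy g hg => ?_
    have hW : ∀ g : G, MulAut.conj g • zpowers x ≤ P → MulAut.conj g • zpowers x = zpowers x := by
      intro g hg
      have := hx g (hg (Transfer.conj_mem_conj_smul (mem_zpowers x)))
      rw [Transfer.conj_smul_eq_map, MonoidHom.map_zpowers]
      exact congrArg zpowers this
    obtain ⟨n, hn, hgn⟩ := Transfer.exists_mem_normalizer_conj_eq_of_weaklyClosed P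
      (zpowers_le.2 hxP) hW (x := y) (g := g) (by rw [Cls.centralizer_zpowers]; exact hPC hy)
      (by rw [Cls.centralizer_zpowers]; exact hPC hg)
    have hnC : n ∈ C := Cls.mem_centralizer_single.2 (mul_inv_eq_iff_eq_mul.1 (hx n
      (zpowers_le.2 hxP ((mem_normalizer_iff.1 hn x).1 (mem_zpowers x)))))
    obtain ⟨u, hu, hu'⟩ := Transfer.exists_mem_sylow_conj_eq_of_hasNormalPComplement hCn
      (P.subtype hPC) ⟨n, hnC⟩
    refine ⟨u, hu, ?_⟩
    rw [hgn]
    exact congrArg Subtype.val (hu' ⟨y, hPC hy⟩ hy (by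
      change n * y * n⁻¹ ∈ (P : Subgroup G)
      rwa [← hgn]))

/-- Let G be a finite group with Sylow 2-subgroup P, and write k₂(G) for the number of conjugacy classes of G consisting of 2-elements (elements of 2-power order, the identity included). Then k₂(G) > |P|/2 if and only if G has a normal 2-complement and P has more than |P|/2 conjugacy classes. -/
theorem result {G : Type*} [Group G] [Finite G] (P : Sylow 2 G) :
    Nat.card ↥(P : Subgroup G) < 2 * Nat.card {c : ConjClasses G // ∀ x ∈ c.carrier, ∃ k : ℕ, orderOf x = 2 ^ k} ↔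
      Cfsg.HasNormalPComplement 2 G ∧ Nat.card ↥(P : Subgroup G) < 2 * Nat.card (ConjClasses ↥(P : Subgroup G)) := by
  have hk : Nat.card {c : ConjClasses G // ∀ x ∈ c.carrier, ∃ k : ℕ, orderOf x = 2 ^ k} =
      (Cls.piClasses {2} G).ncard := by
    rw [← Nat.card_coe_set_eq]
    refine Nat.card_congr (Equiv.subtypeEquivRight fun c => ?_)
    refine forall₂_congr fun x _ => ⟨?_, fun h => Cls.eq_pow_of_forall_prime_eq (orderOf_pos x).ne' h⟩
    rintro ⟨k, hk⟩ r hr hd
    exact (Nat.prime_dvd_prime_iff_eq hr Nat.prime_two).1 (hr.dvd_of_dvd_pow (hk ▸ hd))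
  rw [hk]
  have h1 : Cls.piClasses {2} G = Set.range (ConjClasses.map (P : Subgroup G).subtype) := by
    rw [Cls.piClasses_single_eq P]
    ext c
    constructor
    · rintro ⟨x, rfl⟩
      exact ⟨ConjClasses.mk x, rfl⟩
    · rintro ⟨c, rfl⟩
      obtain ⟨x, rfl⟩ := ConjClasses.mk_surjective c
      exact ⟨x, rfl⟩
  constructor
  · intro h
    refine ⟨two_nilpotent G P h, h.trans_le (Nat.mul_le_mul_left _ ?_)⟩
    rw [h1, ← Set.image_univ, ← Set.ncard_univ]
    exact Set.ncard_image_le (Set.toFinite _)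
  · rintro ⟨h2, h3⟩
    have hinj : Function.Injective (ConjClasses.map (P : Subgroup G).subtype) := by
      intro c d hcd
      obtain ⟨x, rfl⟩ := ConjClasses.mk_surjective c
      obtain ⟨y, rfl⟩ := ConjClasses.mk_surjective d
      obtain ⟨g, hg⟩ := isConj_iff.1 (ConjClasses.mk_eq_mk_iff_isConj.1 hcd)
      obtain ⟨u, hu, hu'⟩ := Transfer.exists_mem_sylow_conj_eq_of_hasNormalPComplement h2 P g
      have h4 : g * x * g⁻¹ = y := hg
      have h5 := hu' x x.2 (h4 ▸ y.2)
      rw [h4] at h5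
      exact ConjClasses.mk_eq_mk_iff_isConj.2 (isConj_iff.2 ⟨⟨u, hu⟩, Subtype.ext h5.symm⟩)
    rwa [h1, ← Set.image_univ, Set.ncard_image_of_injective _ hinj, Set.ncard_univ]

end Cfsg.Agent.S3895
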