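import Cfsg.Statements.S3897
import Cfsg.Agent.Lib.Cls.PiClasses

set_option autoImplicit false
open Cfsg

namespace Cfsg.Agent.S3897

/-- Let p be an odd prime and G a finite group with Sylow p-subgroup P, and write k_p(G) for the number of conjugacy classes of G consisting of p-elements (elements of p-power order, the identity included). Then k_p(G) > (p + 1)|P|/(2p) if and only if G has a normal p-complement and P is abelian. -/
theorem result {G : Type*} [Group G] [Finite G] {p : ℕ} [Fact p.Prime] (hp : p ≠ 2) (P : Sylow p G) :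
    (p + 1) * Nat.card ↥(P : Subgroup G) < 2 * p * Nat.card {c : ConjClasses G // ∀ x ∈ c.carrier, ∃ k : ℕ, orderOf x = p ^ k} ↔
      Cfsg.HasNormalPComplement p G ∧ IsMulCommutative ↥(P : Subgroup G) := by
  have hpp : p.Prime := Fact.out
  have hk : Nat.card {c : ConjClasses G // ∀ x ∈ c.carrier, ∃ k : ℕ, orderOf x = p ^ k} =
      (Cls.piClasses {p} G).ncard := by
    rw [← Nat.card_coe_set_eq]
    refine Nat.card_congr (Equiv.subtypeEquivRight fun c => ?_)
    refine forall₂_congr fun x _ => ⟨?_, fun h => Cls.eq_pow_of_forall_prime_eq (orderOf_pos x).ne' h⟩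
    rintro ⟨k, hk⟩ r hr hd
    exact (Nat.prime_dvd_prime_iff_eq hr hpp).1 (hr.dvd_of_dvd_pow (hk ▸ hd))
  rw [hk]
  constructor
  · intro h
    have h1 := Cls.normalizer_le_centralizer_of_many_classes P h
    exact ⟨Cls.hasNormalPComplement_of_normalizer_le_centralizer P h1,
      Cls.isMulCommutative_of_le_centralizer (Subgroup.le_normalizer.trans h1)⟩
  · rintro ⟨h1, h2⟩
    have hc := Transfer.isComplement'_pResidual h1 P
    have hinj : Function.Injective (fun x : (P : Subgroup G) => ConjClasses.mk (x : G)) := by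
      intro x y hxy
      obtain ⟨g, hg⟩ := isConj_iff.1 (ConjClasses.mk_eq_mk_iff_isConj.1 hxy)
      obtain ⟨⟨n, u⟩, hnu⟩ := hc.2 g
      simp only at hnu
      have hux : (u : G) * x * (u : G)⁻¹ = x := by
        have := congrArg Subtype.val (h2.is_comm.comm u x)
        simp only [Subgroup.coe_mul] at this
        rw [this, mul_inv_cancel_right]
      have h3 : (y : G) * (x : G)⁻¹ ∈ pResidual p G := by
        rw [← hg, ← hnu, show (n : G) * u * x * ((n : G) * u)⁻¹ * (x : G)⁻¹ =
          n * ((u * x * (u : G)⁻¹) * (n : G)⁻¹ * (x : G)⁻¹) by group, hux]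
        exact mul_mem n.2 ((inferInstance : (pResidual p G).Normal).conj_mem _ (inv_mem n.2) _)
      have h4 : (y : G) * (x : G)⁻¹ ∈ (P : Subgroup G) := mul_mem y.2 (inv_mem x.2)
      have h5 := Subgroup.disjoint_def.1 hc.disjoint h3 h4
      exact Subtype.ext (mul_inv_eq_one.1 h5).symm
    rw [Cls.piClasses_single_eq P, ← Set.image_univ, Set.ncard_image_of_injective _ hinj,
      Set.ncard_univ]
    have := hpp.two_le
    have h6 : 0 < Nat.card (P : Subgroup G) := Nat.card_pos
    nlinarith

end Cfsg.Agent.S3897
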