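import Mathlib
import Cfsg.Statements.S3898
import Cfsg.Agent.S3895
import Cfsg.Agent.Lib.Cls.ManyClasses

set_option autoImplicit false
open Cfsg

namespace Cfsg.Agent.S3898

open Subgroup

theorem aux {G : Type*} [Group G] [Finite G] (π : Finset ℕ) (hπ : ∀ r ∈ π, r.Prime)
    (key : ∀ q ∈ π, ∀ (_ : Fact q.Prime), Cfsg.HasNormalPComplement q G) :
    (⨅ q ∈ π, pResidual q G).Normal ∧
      (∀ r : ℕ, r.Prime → r ∣ Nat.card ↥(⨅ q ∈ π, pResidual q G) → r ∉ π) ∧
      ∀ r : ℕ, r.Prime → r ∣ (⨅ q ∈ π, pResidual q G).index → r ∈ π := by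
  refine ⟨normal_iInf_normal fun q => normal_iInf_normal fun _ => inferInstance, ?_, ?_⟩
  · intro r hr hd hrπ
    have : Fact r.Prime := ⟨hr⟩
    have h1 := key r hrπ this
    rw [Transfer.hasNormalPComplement_iff_not_dvd_pResidual] at h1
    exact h1 (hd.trans (card_dvd_of_le (biInf_le _ hrπ)))
  · intro r hr hd
    by_contra hrπ
    have : Fact r.Prime := ⟨hr⟩
    refine Cls.not_dvd_index_of_sylow_le (Q := (default : Sylow r G)) ?_ hd
    refine le_iInf₂ fun q hq => Transfer.le_pResidual_of_coprime ?_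
    refine Core.coprime_card_of_isPGroup (default : Sylow r G).2 ?_
    exact (Nat.coprime_primes (hπ q hq) hr).2 fun h => hrπ (h ▸ hq)

theorem aux2 {G : Type*} [Group G] [Finite G] (π : Finset ℕ) (hπ : ∀ r ∈ π, r.Prime)
    (key : ∀ q ∈ π, ∀ (_ : Fact q.Prime), ∃ Q : Sylow q G,
      normalizer ((Q : Subgroup G) : Set G) ≤ centralizer ((Q : Subgroup G) : Set G)) :
    ∃ H : Subgroup G, Cfsg.IsPiHall (↑π : Set ℕ) H ∧ IsMulCommutative ↥H := by
  obtain ⟨hNn, hN1, hN2⟩ := aux (G := G) π hπ fun q hq i => by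
    obtain ⟨Q, hQ⟩ := key q hq i
    exact Cls.hasNormalPComplement_of_normalizer_le_centralizer Q hQ
  set N : Subgroup G := ⨅ q ∈ π, pResidual q G with hN
  have hN3 : commutator G ≤ N := by
    refine le_iInf₂ fun q hq => ?_
    have : Fact q.Prime := ⟨hπ q hq⟩
    obtain ⟨Q, hQ⟩ := key q hq this
    have h1 := Cls.isMulCommutative_of_le_centralizer (le_normalizer.trans hQ)
    rw [← Normal.quotient_commutative_iff_commutator_le]
    have hs : Function.Surjective
        ((QuotientGroup.mk' (pResidual q G)).comp (Q : Subgroup G).subtype) := by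
      intro y
      obtain ⟨y, rfl⟩ := QuotientGroup.mk'_surjective _ y
      have hy : y ∈ pResidual q G ⊔ (Q : Subgroup G) := by
        rw [Transfer.pResidual_sup_sylow]; trivial
      rw [sup_comm, ← SetLike.mem_coe, mul_normal] at hy
      obtain ⟨u, hu, n, hn, rfl⟩ := hy
      refine ⟨⟨u, hu⟩, ?_⟩
      simp [(QuotientGroup.eq_one_iff n).2 hn]
    refine ⟨⟨fun a b => ?_⟩⟩
    obtain ⟨a, rfl⟩ := hs a
    obtain ⟨b, rfl⟩ := hs b
    rw [← map_mul, ← map_mul, h1.is_comm.comm]
  have hcop : (Nat.card N).Coprime N.index :=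
    (Cls.coprime_of_pi (π := (π : Set ℕ)) hN2 hN1).symm
  obtain ⟨H, hH⟩ := exists_right_complement'_of_coprime hcop
  refine ⟨H, ⟨fun r hr hd => hN2 r hr (hH.symm.index_eq_card ▸ hd),
    fun r hr hrπ hd => hN1 r hr ?_ hrπ⟩, ?_⟩
  · rwa [hH.index_eq_card] at hd
  · refine ⟨⟨fun a b => Subtype.ext ?_⟩⟩
    have h1 : (a : G) * b * (a : G)⁻¹ * (b : G)⁻¹ ∈ N :=
      hN3 (commutator_mem_commutator (mem_top _) (mem_top _))
    have h2 : (a : G) * b * (a : G)⁻¹ * (b : G)⁻¹ ∈ H :=
      mul_mem (mul_mem (mul_mem a.2 b.2) (inv_mem a.2)) (inv_mem b.2)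
    exact commutatorElement_eq_one_iff_mul_comm.1 (disjoint_def.1 hH.disjoint h1 h2)

theorem many_single {G : Type*} [Group G] [Finite G] (π : Finset ℕ) (hπ : ∀ r ∈ π, r.Prime)
    (hk : π.prod (fun r => r ^ (Nat.card G).factorization r) <
      2 * (Cls.piClasses (π : Set ℕ) G).ncard) {q : ℕ} (hq : q ∈ π) [Fact q.Prime]
    (Q : Sylow q G) : Nat.card (Q : Subgroup G) < 2 * (Cls.piClasses {q} G).ncard := by
  classical
  set M := ∏ r ∈ π.erase q, r ^ (Nat.card G).factorization r with hM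
  have h1 : (Cls.piClasses (π : Set ℕ) G).ncard ≤ (Cls.piClasses {q} G).ncard * M := by
    have : (π : Set ℕ) = {q} ∪ (π.erase q : Set ℕ) := by
      rw [← Set.insert_eq, ← Finset.coe_insert, Finset.insert_erase hq]
    rw [this]
    refine Cls.ncard_piClasses_union_le _ _ _ fun H => ?_
    refine (Cls.ncard_piClasses_le _ (fun r hr => hπ r (Finset.mem_of_mem_erase hr)) H).trans
      (Finset.prod_le_prod' fun r hr => ?_)
    refine Nat.pow_le_pow_right (hπ r (Finset.mem_of_mem_erase hr)).pos ?_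
    exact (Nat.factorization_le_iff_dvd Nat.card_pos.ne' Nat.card_pos.ne').2
      (card_subgroup_dvd_card H) r
  rw [← Finset.mul_prod_erase π _ hq, ← hM, ← Q.card_eq_multiplicity] at hk
  refine lt_of_mul_lt_mul_right (a := M) ?_ (Nat.zero_le _)
  calc Nat.card (Q : Subgroup G) * M < _ := hk
    _ ≤ 2 * ((Cls.piClasses {q} G).ncard * M) := Nat.mul_le_mul_left _ h1
    _ = _ := by ring

theorem odd_case {G : Type*} [Group G] [Finite G] {q : ℕ} [hq : Fact q.Prime] (hq2 : q ≠ 2)
    (Q : Sylow q G) (P : Sylow 2 G) (hPQ : (P : Subgroup G) ≤ centralizer ((Q : Subgroup G) : Set G))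
    (h : Nat.card (Q : Subgroup G) < 2 * (Cls.piClasses {q} G).ncard) :
    normalizer ((Q : Subgroup G) : Set G) ≤ centralizer ((Q : Subgroup G) : Set G) := by
  rw [Cls.piClasses_single_eq Q] at h
  have hq3 : 3 ≤ q := by have := hq.out.two_le; omega
  obtain ⟨n, hn⟩ := Q.2.exists_card_eq
  have hprime : ∀ r, r.Prime → r ∣ Nat.card (Q : Subgroup G) → q ≤ r := fun r hr hd =>
    ((Nat.prime_dvd_prime_iff_eq hr hq.out).1 (hr.dvd_of_dvd_pow (hn ▸ hd))).ge
  have hab : (Q : Subgroup G) ≤ centralizer ((Q : Subgroup G) : Set G) := by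
    by_contra hne
    have h1 := Cls.mul_ncard_classes_le' (H := (Q : Subgroup G)) (R := Q) le_normalizer q hprime
    have h2 := Cls.sq_le_of_not_prime (p := q) (fun h => hne (relIndex_eq_one.1 h))
      index_ne_zero_of_finite (Cls.not_prime_relIndex_centralizer (H := (Q : Subgroup G)))
      (fun r hr hd => hprime r hr (hd.trans (relIndex_dvd_card _ _)))
    have h3 := PGrp.card_inf_mul_relIndex (centralizer ((Q : Subgroup G) : Set G)) Q
    rw [inf_comm] at h3
    set a := Nat.card ↥((Q : Subgroup G) ⊓ centralizer ((Q : Subgroup G) : Set G))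
    set m := (centralizer ((Q : Subgroup G) : Set G)).relIndex Q
    set k := (Set.range fun x : (Q : Subgroup G) => ConjClasses.mk (x : G)).ncard
    rw [← h3] at h h1
    have ha : 0 < a := Nat.card_pos
    have h4 : q * (a * m) < 2 * (q * k) := by nlinarith
    have h5 : a * (q * m + 2) < a * (2 * q + 2 * m) := by nlinarith
    have h6 := lt_of_mul_lt_mul_left h5 (Nat.zero_le _)
    nlinarith
  by_contra hne
  set N := normalizer ((Q : Subgroup G) : Set G) with hN
  have hF : ¬ (Q : Subgroup G) ≤ centralizer (N : Set G) := fun h' => hne (le_centralizer_iff.1 h')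
  have hdvd : ∀ x ∈ (Q : Subgroup G), ∀ r, r.Prime → r ∣ (centralizer ({x} : Set G)).relIndex N →
      r ≠ 2 ∧ r ≠ q := by
    intro x hx r hr hd
    have h1 : centralizer ((Q : Subgroup G) : Set G) ≤ centralizer ({x} : Set G) :=
      centralizer_le (Set.singleton_subset_iff.2 hx)
    have h2 := (hd.trans (relIndex_dvd_of_le_left N h1)).trans
      (relIndex_dvd_index_of_le (centralizer_le_normalizer _))
    constructor
    · rintro rfl; exact Cls.not_dvd_index_of_sylow_le hPQ h2
    · rintro rfl; exact Cls.not_dvd_index_of_sylow_le hab h2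
  have h3 := PGrp.card_inf_mul_relIndex (centralizer (N : Set G)) Q
  rw [inf_comm] at h3
  have h4 := Nat.le_of_dvd (Nat.pos_of_ne_zero index_ne_zero_of_finite)
    (PGrp.dvd_relIndex_of_not_le Q.2 hF)
  have h5 : ∀ t, (∀ r, r.Prime → r ≠ 2 → r ≠ q → t ≤ r) → _ := fun t ht =>
    Cls.mul_ncard_classes_le (H := (Q : Subgroup G)) (R := N) le_rfl t fun x hx hxN =>
      Cls.le_of_one_lt_of_forall_prime (fun h => hxN (relIndex_eq_one.1 h))
        index_ne_zero_of_finite fun r hr hd => ht r hr (hdvd x hx r hr hd).1 (hdvd x hx r hr hd).2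
  change q ≤ (centralizer (N : Set G)).relIndex Q at h4
  set a := Nat.card ↥((Q : Subgroup G) ⊓ centralizer (N : Set G))
  set m := (centralizer (N : Set G)).relIndex Q
  set k := (Set.range fun x : (Q : Subgroup G) => ConjClasses.mk (x : G)).ncard
  rw [← h3] at h h5
  by_cases hq' : q = 3
  · have h6 := h5 5 fun r hr h1 h2 => by
      have := hr.two_le
      have : r ≠ 4 := by rintro rfl; exact absurd hr (by norm_num)
      omega
    nlinarith
  · have h6 := h5 3 fun r hr h1 _ => by have := hr.two_le; omega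
    have : q ≠ 4 := by rintro rfl; exact absurd hq.out (by norm_num)
    have : 5 ≤ m := by omega
    nlinarith

/-- Let π be a finite set of primes containing 2 and G a finite group. Write k_π(G) for the number of conjugacy classes of G consisting of π-elements (elements all of whose order's prime divisors lie in π) and |G|_π for the π-part of the order of G. If k_π(G) > |G|_π/2, then G has a normal π-complement (a normal subgroup of order prime to π whose index is a π-number) and an abelian Hall subgroup for the set of odd primes in π. -/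
theorem result {G : Type*} [Group G] [Finite G] (π : Finset ℕ) (hπ : ∀ r ∈ π, r.Prime) (h2 : 2 ∈ π)
    (hk : π.prod (fun r => r ^ (Nat.card G).factorization r) < 2 * Nat.card {c : ConjClasses G // ∀ x ∈ c.carrier, ∀ r : ℕ, r.Prime → r ∣ orderOf x → r ∈ π}) :
    (∃ N : Subgroup G, N.Normal ∧ (∀ r : ℕ, r.Prime → r ∣ Nat.card ↥N → r ∉ π) ∧ ∀ r : ℕ, r.Prime → r ∣ N.index → r ∈ π) ∧ ∃ H : Subgroup G, Cfsg.IsPiHall ((↑π : Set ℕ) \ {2}) H ∧ IsMulCommutative ↥H := by
  classical
  have hk' : Nat.card {c : ConjClasses G // ∀ x ∈ c.carrier, ∀ r : ℕ, r.Prime → r ∣ orderOf x → r ∈ π} =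
      (Cls.piClasses (π : Set ℕ) G).ncard := by
    rw [← Nat.card_coe_set_eq]; rfl
  rw [hk'] at hk
  obtain ⟨H, hH, hHn⟩ := Cls.exists_nilpHall_of_many_classes (p := 2) π
    (fun s hs => ⟨hπ s hs, (hπ s hs).two_le⟩) G hk
  have key : ∀ q ∈ π.erase 2, ∀ (_ : Fact q.Prime), ∃ Q : Sylow q G,
      normalizer ((Q : Subgroup G) : Set G) ≤ centralizer ((Q : Subgroup G) : Set G) := by
    intro q hq i
    obtain ⟨hq2, hq⟩ := Finset.mem_erase.1 hq
    obtain ⟨Q, hQ⟩ := Cls.exists_sylow_le_of_not_dvd_index (hH.2 q i.out hq)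
    obtain ⟨P, hP⟩ := Cls.exists_sylow_le_of_not_dvd_index (hH.2 2 Nat.prime_two h2)
    refine ⟨Q, odd_case hq2 Q P (Cls.le_centralizer_of_coprime_of_nilpotent hHn hP hQ ?_)
      (many_single π hπ hk hq Q)⟩
    exact IsPGroup.coprime_card_of_ne 2 q hq2.symm _ _ P.2 Q.2
  refine ⟨⟨_, aux π hπ fun q hq i => ?_⟩, ?_⟩
  · by_cases hq2 : q = 2
    · subst hq2
      exact S3895.two_nilpotent G default (many_single π hπ hk hq default)
    · obtain ⟨Q, hQ⟩ := key q (Finset.mem_erase.2 ⟨hq2, hq⟩) i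
      exact Cls.hasNormalPComplement_of_normalizer_le_centralizer Q hQ
  · rw [← Finset.coe_erase]
    exact aux2 _ (fun r hr => hπ r (Finset.mem_of_mem_erase hr)) key

end Cfsg.Agent.S3898
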