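import Cfsg.Statements.S3899
import Cfsg.Agent.Lib.Cls.PiClasses

set_option autoImplicit false
open Cfsg

namespace Cfsg.Agent.S3899

/-- Let π be a finite non-empty set of odd primes with smallest member p and G a finite group. Write k_π(G) for the number of conjugacy classes of G consisting of π-elements (elements all of whose order's prime divisors lie in π) and |G|_π for the π-part of the order of G. If k_π(G) > (p + 1)|G|_π/(2p), then G has a normal π-complement (a normal subgroup of order prime to π whose index is a π-number) and an abelian Hall π-subgroup. -/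
theorem result {G : Type*} [Group G] [Finite G] (π : Finset ℕ) (hπ : ∀ r ∈ π, r.Prime) (h2 : 2 ∉ π) (p : ℕ) (hp : p ∈ π)
    (hmin : ∀ r ∈ π, p ≤ r) (hk : (p + 1) * π.prod (fun r => r ^ (Nat.card G).factorization r) < 2 * p * Nat.card {c : ConjClasses G // ∀ x ∈ c.carrier, ∀ r : ℕ, r.Prime → r ∣ orderOf x → r ∈ π}) :
    (∃ N : Subgroup G, N.Normal ∧ (∀ r : ℕ, r.Prime → r ∣ Nat.card ↥N → r ∉ π) ∧ ∀ r : ℕ, r.Prime → r ∣ N.index → r ∈ π) ∧ ∃ H : Subgroup G, Cfsg.IsPiHall (↑π : Set ℕ) H ∧ IsMulCommutative ↥H := by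
  classical
  have hk' : Nat.card {c : ConjClasses G // ∀ x ∈ c.carrier, ∀ r : ℕ, r.Prime → r ∣ orderOf x → r ∈ π} =
      (Cls.piClasses (π : Set ℕ) G).ncard := by
    rw [← Nat.card_coe_set_eq]; rfl
  rw [hk'] at hk
  have key : ∀ q ∈ π, ∀ (_ : Fact q.Prime) (Q : Sylow q G),
      Subgroup.normalizer ((Q : Subgroup G) : Set G) ≤ Subgroup.centralizer ((Q : Subgroup G) : Set G) := by
    intro q hq _ Q
    apply Cls.normalizer_le_centralizer_of_many_classes
    set M := ∏ r ∈ π.erase q, r ^ (Nat.card G).factorization r with hM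
    have h1 : (Cls.piClasses (π : Set ℕ) G).ncard ≤ (Cls.piClasses {q} G).ncard * M := by
      have : (π : Set ℕ) = {q} ∪ (π.erase q : Set ℕ) := by
        rw [← Set.insert_eq, ← Finset.coe_insert, Finset.insert_erase hq]
      rw [this]
      refine Cls.ncard_piClasses_union_le _ _ _ fun H => ?_
      refine (Cls.ncard_piClasses_le _ (fun r hr => hπ r (Finset.mem_of_mem_erase hr)) H).trans
        (Finset.prod_le_prod' fun r hr => ?_)
      refine Nat.pow_le_pow_right (hπ r (Finset.mem_of_mem_erase hr)).pos ?_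
      exact (Nat.factorization_le_iff_dvd Nat.card_pos.ne' Nat.card_pos.ne').2
        (Subgroup.card_subgroup_dvd_card H) r
    rw [← Finset.mul_prod_erase π _ hq, ← hM, ← Q.card_eq_multiplicity] at hk
    have h3 : (p + 1) * Nat.card (Q : Subgroup G) < 2 * p * (Cls.piClasses {q} G).ncard := by
      refine lt_of_mul_lt_mul_right (a := M) ?_ (Nat.zero_le _)
      calc (p + 1) * Nat.card (Q : Subgroup G) * M = (p + 1) * (Nat.card (Q : Subgroup G) * M) := by ring
        _ < _ := hk
        _ ≤ 2 * p * ((Cls.piClasses {q} G).ncard * M) := Nat.mul_le_mul_left _ h1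
        _ = _ := by ring
    have h4 := hmin q hq
    have h5 := (hπ p hp).pos
    set a := Nat.card (Q : Subgroup G)
    set b := (Cls.piClasses {q} G).ncard
    refine lt_of_mul_lt_mul_left (a := p) ?_ (Nat.zero_le _)
    have h6 : q * ((p + 1) * a) < q * (2 * p * b) := Nat.mul_lt_mul_of_pos_left h3 (by omega)
    nlinarith [Nat.mul_le_mul_right a h4]
  -- the normal `π`-complement
  set N : Subgroup G := ⨅ q ∈ π, pResidual q G with hN
  have hNn : N.Normal := Subgroup.normal_iInf_normal fun q => Subgroup.normal_iInf_normal fun _ => inferInstance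
  have hN1 : ∀ r : ℕ, r.Prime → r ∣ Nat.card N → r ∉ π := by
    intro r hr hd hrπ
    have : Fact r.Prime := ⟨hr⟩
    have h1 := Cls.hasNormalPComplement_of_normalizer_le_centralizer default (key r hrπ this default)
    rw [Transfer.hasNormalPComplement_iff_not_dvd_pResidual] at h1
    exact h1 (hd.trans (Subgroup.card_dvd_of_le (biInf_le _ hrπ)))
  have hN2 : ∀ r : ℕ, r.Prime → r ∣ N.index → r ∈ π := by
    intro r hr hd
    by_contra hrπ
    have : Fact r.Prime := ⟨hr⟩
    refine Cls.not_dvd_index_of_sylow_le (Q := (default : Sylow r G)) ?_ hd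
    refine le_iInf₂ fun q hq => Transfer.le_pResidual_of_coprime ?_
    refine Core.coprime_card_of_isPGroup (default : Sylow r G).2 ?_
    exact (Nat.coprime_primes (hπ q hq) hr).2 fun h => hrπ (h ▸ hq)
  have hN3 : commutator G ≤ N := by
    refine le_iInf₂ fun q hq => ?_
    have : Fact q.Prime := ⟨hπ q hq⟩
    set Q : Sylow q G := default
    have h1 := Cls.isMulCommutative_of_le_centralizer (Subgroup.le_normalizer.trans (key q hq this Q))
    rw [← Subgroup.Normal.quotient_commutative_iff_commutator_le]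
    have hs : Function.Surjective ((QuotientGroup.mk' (pResidual q G)).comp (Q : Subgroup G).subtype) := by
      intro y
      obtain ⟨y, rfl⟩ := QuotientGroup.mk'_surjective _ y
      have hy : y ∈ pResidual q G ⊔ (Q : Subgroup G) := by rw [Transfer.pResidual_sup_sylow]; trivial
      rw [sup_comm, ← SetLike.mem_coe, Subgroup.mul_normal] at hy
      obtain ⟨u, hu, n, hn, rfl⟩ := hy
      refine ⟨⟨u, hu⟩, ?_⟩
      simp [(QuotientGroup.eq_one_iff n).2 hn]
    refine ⟨⟨fun a b => ?_⟩⟩
    obtain ⟨a, rfl⟩ := hs a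
    obtain ⟨b, rfl⟩ := hs b
    rw [← map_mul, ← map_mul, h1.is_comm.comm]
  refine ⟨⟨N, hNn, hN1, hN2⟩, ?_⟩
  have hcop : (Nat.card N).Coprime N.index :=
    (Cls.coprime_of_pi (π := (π : Set ℕ)) hN2 hN1).symm
  obtain ⟨H, hH⟩ := Subgroup.exists_right_complement'_of_coprime hcop
  refine ⟨H, ⟨fun r hr hd => hN2 r hr (hH.symm.index_eq_card ▸ hd), fun r hr hrπ hd => hN1 r hr ?_ hrπ⟩, ?_⟩
  · rwa [hH.index_eq_card] at hd
  · refine ⟨⟨fun a b => Subtype.ext ?_⟩⟩
    have h1 : (a : G) * b * (a : G)⁻¹ * (b : G)⁻¹ ∈ N :=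
      hN3 (Subgroup.commutator_mem_commutator (Subgroup.mem_top _) (Subgroup.mem_top _))
    have h2 : (a : G) * b * (a : G)⁻¹ * (b : G)⁻¹ ∈ H :=
      mul_mem (mul_mem (mul_mem a.2 b.2) (inv_mem a.2)) (inv_mem b.2)
    exact commutatorElement_eq_one_iff_mul_comm.1 (Subgroup.disjoint_def.1 hH.disjoint h1 h2)

end Cfsg.Agent.S3899
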