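import Mathlib
import Cfsg.Statements.S3903
import Cfsg.Agent.Lib.Transfer.MaxCent

set_option autoImplicit false
open Cfsg

namespace Cfsg.Agent.S3903



/-- Let N be a proper normal subgroup of the finite group G such that every element x of G outside N has prime power order and has centralizer C_G(x) a maximal subgroup of G. Then N is solvable. -/
theorem result {G : Type*} [Group G] [Finite G] (N : Subgroup G) [N.Normal] (hN : N ≠ ⊤)
    (h : ∀ x : G, x ∉ N → IsPrimePow (orderOf x) ∧ IsCoatom (Subgroup.centralizer ({x} : Set G))) : Group.IsSolvable ↥N := by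
  by_contra hNs
  suffices Group.IsSolvable G from hNs inferInstance
  have hP : ∀ x : G, x ∉ N → ∀ (p k : ℕ), p.Prime → orderOf x = p ^ k →
      IsPGroup p (Subgroup.centralizer ({x} : Set G)) := fun x hx p k hp hk => by
    have := Fact.mk hp
    refine Transfer.isPGroup_of_forall_coprime_eq_one fun y hy hyp => ?_
    have hc : Commute x y := (Subgroup.mem_centralizer_singleton_iff.mp hy).symm
    have hco : (orderOf x).Coprime (orderOf y) := hk ▸ Nat.Coprime.pow_left _ hyp.symm
    have hxy : x * y ∉ N := fun h1 => hx (Subgroup.zpowers_le.mpr h1 (Cls.mem_zpowers_mul_left hc hco))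
    have h1 := (h _ hxy).1
    rw [hc.orderOf_mul_eq_mul_orderOf_of_coprime hco] at h1
    rcases (Nat.Coprime.isPrimePow_dvd_mul hco h1).mp dvd_rfl with h2 | h2
    · rw [← orderOf_eq_one_iff]
      exact Nat.dvd_one.mp (Nat.dvd_of_mul_dvd_mul_left (orderOf_pos x) (by rwa [mul_one]))
    · exact absurd (Nat.dvd_one.mp (Nat.dvd_of_mul_dvd_mul_right (orderOf_pos y)
        (by rwa [one_mul]))) (h x hx).1.ne_one
  by_cases hodd : ∃ x : G, x ∉ N ∧ ¬ IsPGroup 2 (Subgroup.centralizer ({x} : Set G))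
  · obtain ⟨x, hx, hx2⟩ := hodd
    obtain ⟨p, k, hp, -, hk⟩ := (isPrimePow_nat_iff _).mp (h x hx).1
    have := Fact.mk hp
    have h1 := hP x hx p k hp hk.symm
    refine Transfer.isSolvable_of_isCoatom_isNilpotent_odd (h x hx).2 h1.isNilpotent fun h2 => ?_
    have h3 := Core.isPGroup_iff_forall_prime_dvd.mp h1 2 Nat.prime_two h2
    exact hx2 (h3 ▸ h1)
  push Not at hodd
  by_cases hG : IsPGroup 2 G
  · have := hG.isNilpotent
    infer_instance
  have hsyl : ∀ x : G, x ∉ N → ∃ T : Sylow 2 G, (T : Subgroup G) = Subgroup.centralizer {x} :=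
    fun x hx => by
      obtain ⟨T, hT⟩ := (hodd x hx).exists_le_sylow
      rcases (h x hx).2.le_iff.mp hT with h1 | h1
      · exact absurd ((h1 ▸ T.2).of_equiv Subgroup.topEquiv) hG
      · exact ⟨T, h1⟩
  obtain ⟨x, -, hx⟩ := SetLike.exists_of_lt (lt_top_iff_ne_top.mpr hN)
  obtain ⟨S, hS⟩ := hsyl x hx
  have hco : IsCoatom (S : Subgroup G) := hS ▸ (h x hx).2
  refine Transfer.isSolvable_of_isCoatom_of_isMulCommutative hco ?_
  have hNS : ¬ N ≤ S := fun hNS => by
    have := (S.2.to_le hNS).isNilpotent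
    exact hNs inferInstance
  have htop : (S : Subgroup G) ⊔ N = ⊤ :=
    hco.2 _ (lt_of_le_of_ne le_sup_left fun he => hNS (he ▸ le_sup_right))
  set A : Set G := ((S : Subgroup G) : Set G) \ N with hA
  set B : Set G := A ∩ Subgroup.centralizer ((S : Subgroup G) : Set G) with hB
  have h1 : ((N : Set G)ᶜ).ncard ≤ (S : Subgroup G).index * B.ncard := by
    let f : (G ⧸ (S : Subgroup G)) × B → ((N : Set G)ᶜ : Set G) := fun a =>
      ⟨a.1.out * a.2 * a.1.out⁻¹, fun h1 => a.2.2.1.2 (by
        simpa [mul_assoc] using Subgroup.Normal.conj_mem' inferInstance _ h1 a.1.out)⟩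
    have hf : Function.Surjective f := by
      rintro ⟨y, hy⟩
      obtain ⟨T, hT⟩ := hsyl y hy
      obtain ⟨g, rfl⟩ := MulAction.exists_smul_eq G S T
      have hmem : ∀ s : G, s ∈ (S : Subgroup G) ↔ g * s * g⁻¹ * y = y * (g * s * g⁻¹) := fun s => by
        rw [← Subgroup.mem_centralizer_singleton_iff, ← hT, Transfer.mem_sylow_smul_iff]
        simp only [mul_assoc, inv_mul_cancel_left, inv_mul_cancel, mul_one]
      have hz : g⁻¹ * y * g ∈ B := ⟨⟨(hmem _).mpr (by group), fun h1 => hy (by
        simpa [mul_assoc] using Subgroup.Normal.conj_mem inferInstance _ h1 g)⟩, fun s hs => by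
          calc s * (g⁻¹ * y * g) = g⁻¹ * (g * s * g⁻¹ * y) * g := by group
            _ = _ := by rw [(hmem s).mp hs]; group⟩
      refine ⟨(g, ⟨_, hz⟩), Subtype.ext ?_⟩
      obtain ⟨s, hs⟩ := QuotientGroup.mk_out_eq_mul (S : Subgroup G) g
      change (g : G ⧸ (S : Subgroup G)).out * (g⁻¹ * y * g) * (g : G ⧸ (S : Subgroup G)).out⁻¹ = y
      rw [hs]
      calc g * s * (g⁻¹ * y * g) * (g * s)⁻¹ = g * (s * (g⁻¹ * y * g)) * (g * s)⁻¹ := by group
        _ = y := by rw [hz.2 s s.2]; group
    have := Nat.card_le_card_of_surjective f hf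
    rwa [Nat.card_prod, Nat.card_coe_set_eq, Nat.card_coe_set_eq, ← Subgroup.index_eq_card] at this
  have h2 : ((N : Set G)ᶜ).ncard = (S : Subgroup G).index * A.ncard := by
    have e1 := Set.ncard_add_ncard_compl (N : Set G)
    have e2 : Nat.card ↥((S : Subgroup G) ⊓ N) + A.ncard = Nat.card (S : Subgroup G) :=
      Set.ncard_inter_add_ncard_sdiff_eq_ncard ((S : Subgroup G) : Set G) N
    have e3 := Core.card_sup_mul_card_inf (S : Subgroup G) N
    have e4 := (S : Subgroup G).index_mul_card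
    rw [htop, Subgroup.card_top, ← e4] at e3
    rw [← Nat.card_coe_set_eq (N : Set G)] at e1
    simp only [SetLike.coe_sort_coe] at e1
    have hpos : 0 < Nat.card (S : Subgroup G) := Nat.card_pos
    have e5 : (S : Subgroup G).index * Nat.card ↥((S : Subgroup G) ⊓ N) = Nat.card N :=
      Nat.eq_of_mul_eq_mul_left hpos (by rw [← e3]; ring)
    rw [← e4, ← e5, ← e2, mul_add] at e1
    exact Nat.add_left_cancel e1
  have h3 : B = A := Set.eq_of_subset_of_ncard_le Set.inter_subset_left
    (Nat.le_of_mul_le_mul_left (h2 ▸ h1) (Nat.pos_of_ne_zero Subgroup.index_ne_zero_of_finite))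
  have h4 : ((S : Subgroup G) : Set G) ⊆ N ∪ Subgroup.centralizer ((S : Subgroup G) : Set G) :=
    fun s hs => by
      by_cases hsN : s ∈ N
      · exact Or.inl hsN
      · exact Or.inr (h3.ge ⟨hs, hsN⟩).2
  rcases SubgroupClass.subset_union.mp h4 with h5 | h5
  · exact absurd (h5 (hS ▸ Cls.self_mem_centralizer_single x)) hx
  · exact Subgroup.le_centralizer_iff_isMulCommutative.mp h5

end Cfsg.Agent.S3903
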