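import Mathlib
import Cfsg.Statements.S3904
import Cfsg.Agent.Lib.Transfer.MaxCent

set_option autoImplicit false
open Cfsg

namespace Cfsg.Agent.S3904



/-- Let G be a non-abelian finite group in which the centralizer of every non-central element is a maximal subgroup. Then G/Z(G) is either an elementary abelian p-group for some prime p, or a minimal non-abelian group (non-abelian with all proper subgroups abelian) of order p^a · q for distinct primes p, q with a normal Sylow p-subgroup. -/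
theorem result {G : Type*} [Group G] [Finite G] (hna : ¬ IsMulCommutative G)
    (h : ∀ x : G, x ∉ Subgroup.center G → IsCoatom (Subgroup.centralizer ({x} : Set G))) :
    (∃ p : ℕ, p.Prime ∧ Cfsg.IsElementaryAbelian p (⊤ : Subgroup (G ⧸ Subgroup.center G))) ∨
    (¬ IsMulCommutative (G ⧸ Subgroup.center G) ∧ (∀ H : Subgroup (G ⧸ Subgroup.center G), H ≠ ⊤ → IsMulCommutative ↥H) ∧
      ∃ p q a : ℕ, p.Prime ∧ q.Prime ∧ p ≠ q ∧ Nat.card (G ⧸ Subgroup.center G) = p ^ a * q ∧
        ∀ P : Subgroup (G ⧸ Subgroup.center G), Nat.card ↥P = p ^ a → P.Normal) := by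
  have hr : (MonoidHom.id G).range = ⊤ := MonoidHom.range_eq_top.mpr Function.surjective_id
  have : (MonoidHom.id G).range.Normal := by rw [hr]; infer_instance
  rcases Transfer.maxCent_quotient_structure (MonoidHom.id G) Function.injective_id
    (by
      rw [hr]
      exact fun x _ hx => h x fun h1 => hx fun g _ => Subgroup.mem_center_iff.mp h1 g)
    with h1 | ⟨K, Q, p, hp, hK, hF, htop, hQ, hKe⟩
  · exact Or.inl h1
  have := Fact.mk hp
  have := Fact.mk hQ
  obtain ⟨a, ha⟩ := (Core.isPGroup_of_isElementaryAbelian hKe).exists_card_eq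
  refine Or.inr ⟨fun hc => ?_, fun Y hY => ?_, p, Nat.card Q, a, hp, hQ, fun he => ?_, ?_,
    fun P hP => ?_⟩
  · obtain ⟨⟨x, hx⟩, hx1⟩ := Subgroup.ne_bot_iff_exists_ne_one.mp hF.left_ne_bot
    obtain ⟨⟨y, hy⟩, hy1⟩ := Subgroup.ne_bot_iff_exists_ne_one.mp hF.right_ne_bot
    exact hx1 (Subtype.ext (hF.fpf y hy (fun h1 => hy1 (Subtype.ext h1)) x hx (hc.1.1 y x)))
  · by_cases hYK : Y ≤ K
    · exact Core.isMulCommutative_of_le hKe.1 hYK
    obtain ⟨y, hyY, hyK⟩ := SetLike.not_le_iff_exists.mp hYK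
    obtain ⟨k, -, hk⟩ := hF.exists_conj_mem (htop ▸ Subgroup.mem_top y) hyK
    have hy1 : y ≠ 1 := fun h1 => hyK (h1 ▸ one_mem K)
    have hk1 : k⁻¹ * y * k ≠ 1 := fun h1 => hy1 (by
      calc y = k * (k⁻¹ * y * k) * k⁻¹ := by group
        _ = 1 := by rw [h1]; group)
    have hC : Subgroup.centralizer {y} ≤ Subgroup.zpowers y := fun c hc => by
      rw [Subgroup.mem_centralizer_singleton_iff] at hc
      have h1 : k⁻¹ * c * k ∈ Q := hF.mem_right_of_commute (htop ▸ Subgroup.mem_top _) hk hk1 (by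
        calc k⁻¹ * c * k * (k⁻¹ * y * k) = k⁻¹ * (c * y) * k := by group
          _ = _ := by rw [hc]; group)
      obtain ⟨m, hm⟩ := mem_zpowers_of_prime_card (G := Q) rfl (g := ⟨_, hk⟩)
        (fun h2 => hk1 (congrArg Subtype.val h2)) (g' := ⟨_, h1⟩)
      refine ⟨m, ?_⟩
      have h2 : (k⁻¹ * y * k) ^ m = k⁻¹ * c * k := congrArg Subtype.val hm
      calc y ^ m = k * (k⁻¹ * y * k⁻¹⁻¹) ^ m * k⁻¹ := by rw [conj_zpow]; group
        _ = c := by rw [inv_inv, h2]; group
    obtain ⟨y, rfl⟩ := QuotientGroup.mk_surjective y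
    have hco := Transfer.isCoatom_map_of_ker_le (QuotientGroup.mk'_surjective (Subgroup.center G))
      (h y fun h1 => hy1 ((QuotientGroup.eq_one_iff y).mpr h1))
      (by rw [QuotientGroup.ker_mk']; exact Cls.center_le_centralizer_single y)
    have h2 := (Cls.map_centralizer_single_le (QuotientGroup.mk' (Subgroup.center G)) y).trans hC
    rcases hco.le_iff.mp (h2.trans (Subgroup.zpowers_le.mpr hyY)) with h3 | h3
    · exact absurd h3 hY
    · exact Core.isMulCommutative_of_le inferInstance (h3.le.trans h2)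
  · have h1 := hF.coprime
    rw [ha, ← he] at h1
    rcases Nat.eq_zero_or_pos a with rfl | h0
    · exact hF.left_ne_bot (Subgroup.card_eq_one.mp ha)
    · exact hp.ne_one (Nat.Coprime.eq_one_of_dvd h1.symm (dvd_pow_self p h0.ne'))
  · rw [← ha, ← hF.card_sup, htop, Subgroup.card_top]
  · have h1 : P ≤ K := Core.le_of_coprime_card_index (by
      rw [hF.index_left htop, hP, ← ha]
      exact hF.coprime)
    rw [Core.eq_of_le_of_card_eq h1 (hP.trans ha.symm)]
    exact hK

end Cfsg.Agent.S3904
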