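import Cfsg.Statements.S3910
import Cfsg.Agent.Lib.PGrp.ConjOrder

set_option autoImplicit false
open Cfsg

namespace Cfsg.Agent.S3910

/-- A finite nilpotent group in which any two abelian subgroups of the same order are conjugate is cyclic. -/
theorem result {G : Type*} [Group G] [Finite G] (hB : ∀ A B : Subgroup G, IsMulCommutative ↥A → IsMulCommutative ↥B → Nat.card ↥A = Nat.card ↥B → ∃ g : G, B = A.map (MulAut.conj g).toMonoidHom) (hnil : Group.IsNilpotent G) : IsCyclic G := by
  have : IsZGroup G := ⟨fun p hp P => by
    have := Fact.mk hp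
    exact (PGrp.ConjAb.conjAbP hB p).isCyclic_of_normal P.2
      fun K hK hn => PGrp.normal_of_le_normalizer_of_nilpotent P hK hn⟩
  infer_instance

end Cfsg.Agent.S3910
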