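import Cfsg.Statements.S3917
import Cfsg.Agent.Lib.PGrp.MaxClass

set_option autoImplicit false
open Cfsg

namespace Cfsg.Agent.S3917

/-- Say that a group has self-centralizing non-cyclic subgroups when every non-cyclic subgroup H satisfies C_G(H) ≤ H. A finite abelian group with self-centralizing non-cyclic subgroups is cyclic or elementary abelian of order p² for a prime p. -/
theorem result {G : Type*} [CommGroup G] [Finite G] (hX : (∀ H : Subgroup G, ¬ IsCyclic ↥H → Subgroup.centralizer (H : Set G) ≤ H)) :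
    IsCyclic G ∨ ∃ p : ℕ, p.Prime ∧ Nat.card G = p ^ 2 ∧ Monoid.exponent G = p := by
  by_cases hc : IsCyclic G
  · exact Or.inl hc
  right
  obtain ⟨p, hp, P, hP⟩ : ∃ p, p.Prime ∧ ∃ P : Sylow p G, ¬ IsCyclic P := by
    by_contra! h
    have : IsZGroup G := ⟨h⟩
    exact hc inferInstance
  have := Fact.mk hp
  have hr : ¬ PRankLE p 1 P := fun h =>
    hP (PGrp.isCyclic_of_comm_of_rank_le_one P.2 inferInstance h)
  obtain ⟨E, hE, hcard⟩ := PGrp.exists_elemAb_card_eq_of_not_rank_le hr
  have h1 := PGrp.isElementaryAbelian_map hE (P : Subgroup G).subtype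
  have h2 : Nat.card (E.map (P : Subgroup G).subtype) = p ^ 2 := by
    rw [Subgroup.card_subtype, hcard]
  have h3 := hX _ (PGrp.not_isCyclic_of_elemAb h1.2
    (by rw [h2]; exact lt_self_pow₀ hp.one_lt one_lt_two))
  rw [Subgroup.centralizer_eq_top_iff_subset.mpr (by simp [CommGroup.center_eq_top]),
    top_le_iff] at h3
  rw [h3, Subgroup.card_top] at h2
  exact ⟨p, hp, h2, (not_isCyclic_iff_exponent_eq_prime hp h2).mp hc⟩

end Cfsg.Agent.S3917
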