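import Cfsg.Statements.S3918
import Cfsg.Agent.Lib.PGrp.MaxClass

set_option autoImplicit false
open Cfsg

namespace Cfsg.Agent.S3918

/-- Say that a group has self-centralizing non-cyclic subgroups when every non-cyclic subgroup H satisfies C_G(H) ≤ H. For an odd prime p, a finite non-abelian p-group has self-centralizing non-cyclic subgroups if and only if it has order p³. -/
theorem result {G : Type*} [Group G] [Finite G] {p : ℕ} [Fact p.Prime] (hp : p ≠ 2) (hG : IsPGroup p G) (hna : ¬ IsMulCommutative G) :
    (∀ H : Subgroup G, ¬ IsCyclic ↥H → Subgroup.centralizer (H : Set G) ≤ H) ↔ Nat.card G = p ^ 3 := by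
  have hp' : p.Prime := Fact.out
  constructor
  · intro h
    obtain ⟨E, hn, hE, hc⟩ := PGrp.exists_normal_elemAb_of_odd hG hp
      fun _ => hna IsCyclic.isMulCommutative
    have h1 := (Subgroup.index_antitone (h E (PGrp.not_isCyclic_of_elemAb hE.2
      (by rw [hc]; exact lt_self_pow₀ hp'.one_lt one_lt_two)))).trans
      (PGrp.index_centralizer_le_of_card_sq hG hc)
    obtain ⟨n, hn⟩ := IsPGroup.iff_card.mp hG
    have h2 : p ^ n ≤ p ^ 3 := by
      rw [← hn, ← E.card_mul_index, hc, pow_succ _ 2]
      exact Nat.mul_le_mul_left _ h1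
    rw [Nat.pow_le_pow_iff_right hp'.one_lt] at h2
    rcases h2.eq_or_lt with rfl | h2
    · exact hn
    have h3 := PGrp.commutator_le_of_index_le_sq hG (N := ⊥) (by
      rw [Subgroup.index_bot, hn]; exact Nat.pow_le_pow_right hp'.pos (by omega))
    exact absurd (PGrp.commutator_eq_bot_iff_comm.mp (le_bot_iff.mp h3)) hna
  · intro hc H hH
    have hE := PGrp.isExtraspecial_of_card_eq_cube hc hna
    obtain ⟨k, hk⟩ := PGrp.exists_card_eq_pow hG H
    have h1 : ¬ k ≤ 1 := fun h => hH (PGrp.isCyclic_of_card_le_prime (hG.to_subgroup H)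
      (hk ▸ (Nat.pow_le_pow_right hp'.pos h).trans (pow_one p).le))
    by_cases h2 : H = ⊤
    · rw [h2]; exact le_top
    have h3 := PGrp.card_le_of_lt_of_card_eq_pow ((Subgroup.card_top).trans hc) (lt_top_iff_ne_top.mpr h2)
    rw [hk, Nat.pow_le_pow_iff_right hp'.one_lt] at h3
    obtain rfl : k = 2 := by omega
    have := IsPGroup.isMulCommutative_of_card_eq_prime_sq hk
    have h4 : H.index = p := by
      have := H.card_mul_index
      rw [hk, hc, pow_succ _ 2] at this
      exact Nat.eq_of_mul_eq_mul_left (pow_pos hp'.pos 2) this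
    rcases (PGrp.isCoatom_of_index_eq h4).le_iff.mp (Subgroup.le_centralizer H) with h | h
    · have h5 := Subgroup.card_le_of_le (Subgroup.centralizer_eq_top_iff_subset.mp h)
      rw [hk, hE.2] at h5
      exact absurd h5 (lt_self_pow₀ hp'.one_lt one_lt_two).not_ge
    · exact h.le

end Cfsg.Agent.S3918
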