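import Cfsg.Statements.S3919
import Cfsg.Agent.Lib.PGrp.MaxClass

set_option autoImplicit false
open Cfsg

namespace Cfsg.Agent.S3919

/-- Say that a group has self-centralizing non-cyclic subgroups when every non-cyclic subgroup H satisfies C_G(H) ≤ H. A finite non-abelian 2-group G of order 2^n has self-centralizing non-cyclic subgroups if and only if G has nilpotency class n − 1 (that is, G is dihedral, semidihedral or generalized quaternion). -/
theorem result {G : Type*} [Group G] [Finite G] (hna : ¬ IsMulCommutative G) (n : ℕ) (hG : Nat.card G = 2 ^ n) :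
    (∀ H : Subgroup G, ¬ IsCyclic ↥H → Subgroup.centralizer (H : Set G) ≤ H) ↔ (⊤ : Subgroup G).lowerCentralSeries (n - 2) ≠ ⊥ := by
  have hP : IsPGroup 2 G := IsPGroup.of_card hG
  have := hP.isNilpotent
  have hn : 3 ≤ n := by
    by_contra! h
    have h1 := PGrp.commutator_le_of_index_le_sq hP (N := ⊥) (by
      rw [Subgroup.index_bot, hG]; exact Nat.pow_le_pow_right two_pos (by omega))
    exact hna (PGrp.commutator_eq_bot_iff_comm.mp (le_bot_iff.mp h1))
  obtain ⟨n, rfl⟩ := Nat.exists_eq_add_of_le' hn
  have h1 := PGrp.nilpotencyClass_le_of_card (n := n + 1) hG.le hP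
  rw [Ne, Subgroup.lowerCentralSeries_eq_bot_iff_nilpotencyClass_le]
  constructor
  · intro h
    suffices Group.nilpotencyClass G = n + 2 by omega
    by_cases hr : PRankLE 2 1 G
    · rcases PGrp.isCyclic_or_quaternion_gens_of_rank_le_one hP hr with
        hc | ⟨-, m, x, y, h2, h3, h4, h5, h6⟩
      · exact absurd IsCyclic.isMulCommutative hna
      rw [PGrp.IsDQS.nilpotencyClass_eq (x := x) (y := y) ⟨h2, h3, h4, h5, Or.inr (Or.inl h6)⟩]
      rw [hG, Nat.pow_right_inj one_lt_two] at h3
      omega
    obtain ⟨E, hE, hc⟩ := PGrp.exists_elemAb_card_eq_of_not_rank_le hr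
    exact PGrp.nilpotencyClass_eq_of_centralizer_le (n := n + 1) hG hc
      (h E (PGrp.not_isCyclic_of_elemAb hE.2 (by rw [hc]; norm_num)))
  · intro h H hH
    obtain ⟨x, y, hd⟩ := PGrp.dqs_of_maxClass hG (by omega)
    exact hd.centralizer_le_of_not_isCyclic hH

end Cfsg.Agent.S3919
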