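import Cfsg.Statements.S3920
import Cfsg.Agent.Lib.PGrp.ConjOrder

set_option autoImplicit false
open Cfsg

namespace Cfsg.Agent.S3920

open DihedralGroup

/-- The dihedral subgroup killed by `q`. -/
def sub (n q : ℕ) : Subgroup (DihedralGroup n) where
  carrier := {g | ∃ j : ZMod n, q * j = 0 ∧ (g = r j ∨ g = sr j)}
  one_mem' := ⟨0, mul_zero _, Or.inl rfl⟩
  mul_mem' := by
    rintro _ _ ⟨i, hi, rfl | rfl⟩ ⟨j, hj, rfl | rfl⟩
    · exact ⟨i + j, by rw [mul_add, hi, hj, add_zero], Or.inl rfl⟩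
    · exact ⟨j - i, by rw [mul_sub, hi, hj, sub_zero], Or.inr rfl⟩
    · exact ⟨i + j, by rw [mul_add, hi, hj, add_zero], Or.inr rfl⟩
    · exact ⟨j - i, by rw [mul_sub, hi, hj, sub_zero], Or.inl rfl⟩
  inv_mem' := by
    rintro _ ⟨i, hi, rfl | rfl⟩
    · exact ⟨-i, by rw [mul_neg, hi, neg_zero], Or.inl rfl⟩
    · exact ⟨i, hi, Or.inr rfl⟩

theorem eq_zero_of_odd {n q : ℕ} (hq : Odd q) {j : ZMod n} (h1 : q * j = 0) (h2 : j + j = 0) :
    j = 0 := by
  obtain ⟨k, rfl⟩ := hq
  push_cast at h1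
  linear_combination h1 - k * h2

theorem natCast_ne_zero {n a b : ℕ} (h : n = a * b) (hn : 0 < n) (ha : 1 < a) :
    (b : ZMod n) ≠ 0 := fun h1 => by
  have hb : 0 < b := Nat.pos_of_mul_pos_left (h ▸ hn)
  have := Nat.le_of_dvd hb ((ZMod.natCast_eq_zero_iff b n).mp h1)
  nlinarith

/-- Say that a group has self-centralizing non-cyclic subgroups when every non-cyclic subgroup H satisfies C_G(H) ≤ H. For n ≥ 3, the dihedral group of order 2n has self-centralizing non-cyclic subgroups if and only if n is odd or a power of 2. -/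
theorem result (n : ℕ) (hn : 3 ≤ n) : (∀ H : Subgroup (DihedralGroup n), ¬ IsCyclic ↥H → Subgroup.centralizer (H : Set (DihedralGroup n)) ≤ H) ↔ (Odd n ∨ ∃ k : ℕ, n = 2 ^ k) := by
  haveI : NeZero n := ⟨by omega⟩
  constructor
  · intro h
    by_contra! h1
    obtain ⟨m, hm⟩ := (Nat.not_odd_iff_even.mp h1.1).two_dvd
    obtain ⟨q, hq, ⟨t, ht⟩, ho⟩ := (Nat.eq_two_pow_or_exists_odd_prime_and_dvd n).resolve_left
      fun ⟨k, hk⟩ => h1.2 k hk
    have h2 : (m : ZMod n) + m = 0 := by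
      rw [← two_mul, ← Nat.cast_ofNat, ← Nat.cast_mul, ← hm, ZMod.natCast_self]
    have h3 : (q : ZMod n) * t = 0 := by rw [← Nat.cast_mul, ← ht, ZMod.natCast_self]
    have h4 := h (sub n q) (fun _ => by
      have h4 := (PGrp.isMulCommutative_iff_mem (A := sub n q)).mp inferInstance
        (r (t : ZMod n)) ⟨t, h3, Or.inl rfl⟩ (sr 0) ⟨0, mul_zero _, Or.inr rfl⟩
      simp only [r_mul_sr, sr_mul_r, sr.injEq] at h4
      exact natCast_ne_zero ht (by omega) hq.one_lt
        (eq_zero_of_odd ho h3 (by linear_combination -h4))) (x := r m)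
      (Subgroup.mem_centralizer_iff.mpr (by
        rintro (i | i) -
        · simp [add_comm]
        · simp only [r_mul_sr, sr_mul_r, sr.injEq]
          linear_combination h2))
    obtain ⟨j, hj, h5 | h5⟩ := h4
    · obtain rfl := r.inj h5
      exact natCast_ne_zero hm (by omega) one_lt_two (eq_zero_of_odd ho hj h2)
    · exact absurd h5 (by simp)
  intro hn' H hH
  have hr : ∀ i : ZMod n, r i ∈ Subgroup.zpowers (r (1 : ZMod n)) := fun i =>
    ⟨i.val, by simp⟩
  obtain ⟨j, hj⟩ : ∃ j, sr j ∈ H := by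
    by_contra! h
    refine hH (Subgroup.isCyclic_of_le (H' := Subgroup.zpowers (r 1)) ?_)
    rintro (i | i) hi
    · exact hr i
    · exact absurd hi (h i)
  obtain ⟨i, hi, hi0⟩ : ∃ i, r i ∈ H ∧ i ≠ 0 := by
    by_contra! h
    refine hH (Subgroup.isCyclic_of_le (H' := Subgroup.zpowers (sr j)) ?_)
    rintro (i | i) hi
    · rw [h i hi]; exact one_mem _
    · obtain rfl := sub_eq_zero.mp (h _ (H.mul_mem hi hj))
      exact Subgroup.mem_zpowers _
  have key : ∀ a, r a * sr j = sr j * r a → r a ∈ H := fun a ha => by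
    simp only [r_mul_sr, sr_mul_r, sr.injEq] at ha
    have h1 : orderOf (r a) ∣ 2 := orderOf_dvd_of_pow_eq_one (by
      rw [sq, r_mul_r, show a + a = 0 by linear_combination -ha]; rfl)
    have h2 : ∀ b : ZMod n, orderOf (r b) ∣ n := fun b =>
      (orderOf_dvd_of_mem_zpowers (hr b)).trans orderOf_r_one.dvd
    rcases (Nat.dvd_prime Nat.prime_two).mp h1 with h3 | h3
    · rw [orderOf_eq_one_iff.mp h3]; exact one_mem _
    obtain ⟨k, hk⟩ := hn'.resolve_left fun h => h.not_two_dvd_nat (h3 ▸ h2 a)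
    refine Subgroup.zpowers_le.mpr hi (PGrp.le_of_card_dvd_of_isCyclic
      (Subgroup.zpowers_le.mpr (hr a)) (Subgroup.zpowers_le.mpr (hr i)) ?_ (Subgroup.mem_zpowers _))
    obtain ⟨l, -, hl⟩ := (Nat.dvd_prime_pow Nat.prime_two).mp ((h2 i).trans hk.dvd)
    rw [Nat.card_zpowers, Nat.card_zpowers, h3, hl]
    exact dvd_pow_self 2 fun h => hi0 (r.inj (orderOf_eq_one_iff.mp (by rw [hl, h, pow_zero])))
  rintro (a | a) ha
  · exact key a (Subgroup.mem_centralizer_iff.mp ha _ hj).symm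
  · have h1 := Subgroup.mem_centralizer_iff.mp ha _ hj
    refine (H.mul_mem_cancel_left hj).mp (key _ ?_)
    simp only [sr_mul_sr, r.injEq] at h1
    simp only [r_mul_sr, sr_mul_r, sr.injEq]
    linear_combination -h1

end Cfsg.Agent.S3920
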