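import Cfsg.Statements.S3928
import Cfsg.Agent.Lib.Core.InvOdd

set_option autoImplicit false
open Cfsg

namespace Cfsg.Agent.S3928



/-- There is a function f such that for every non-trivial finite group G and every automorphism α of G of order 2 with [G, α] = G (the elements g·α(g)⁻¹ generate G), the order of G is at most f(m), where m is the number of elements of odd order inverted by α. -/
theorem result : ∃ f : ℕ → ℕ, ∀ (G : Type) [Group G] [Finite G] [Nontrivial G] (α : MulAut G), orderOf α = 2 →
    Subgroup.closure (Set.range (fun c : G => c * (α c)⁻¹)) = ⊤ →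
      Nat.card G ≤ f (Nat.card {g : G // Odd (orderOf g) ∧ α g = g⁻¹}) := by
  exact ⟨Cfsg.Agent.Core.InvOdd.fb, fun G _ _ _ α hα hG => Cfsg.Agent.Core.InvOdd.card_le α
    (by rw [← pow_two, ← hα, pow_orderOf_eq_one]) hG⟩

end Cfsg.Agent.S3928
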