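import Cfsg.Statements.S3933
import Cfsg.Agent.Lib.Cls.Solv
import Cfsg.Agent.Lib.Transfer.Frobenius

set_option autoImplicit false
open Cfsg

namespace Cfsg.Agent.S3933

universe u

open Subgroup

theorem card_sylow_normal_dvd {G : Type*} [Group G] [Finite G] (r : ℕ) [Fact r.Prime]
    (N : Subgroup G) [N.Normal] : Nat.card (Sylow r N) ∣ Nat.card (Sylow r G) := by
  obtain ⟨Q⟩ : Nonempty (Sylow r N) := inferInstance
  obtain ⟨P, hP⟩ := Q.exists_comap_subtype_eq
  rw [P.card_eq_index_normalizer, Q.card_eq_index_normalizer]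
  refine (index_dvd_of_le (H := (normalizer ((P : Subgroup G) : Set G)).subgroupOf N) ?_).trans
    (Cls.relIndex_dvd_index_of_normal' _ N)
  intro x hx
  rw [mem_subgroupOf, mem_normalizer_iff] at hx
  change x ∈ normalizer ((Q : Subgroup N) : Set N)
  rw [← hP, mem_normalizer_iff]
  intro h
  exact hx h

theorem card_sylow_quotient_dvd {G : Type*} [Group G] [Finite G] (r : ℕ) [Fact r.Prime]
    (N : Subgroup G) [N.Normal] : Nat.card (Sylow r (G ⧸ N)) ∣ Nat.card (Sylow r G) := by
  obtain ⟨P⟩ : Nonempty (Sylow r G) := inferInstance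
  rw [P.card_eq_index_normalizer,
    (P.mapSurjective (QuotientGroup.mk'_surjective N)).card_eq_index_normalizer]
  refine (index_dvd_of_le ?_).trans
    ((normalizer (P : Set G)).index_map_dvd (QuotientGroup.mk'_surjective N))
  exact le_normalizer_map (H := (P : Subgroup G)) (QuotientGroup.mk' N)

theorem index_inf_eq_mul_iff_mul_eq_univ_aux {G : Type*} [Group G] [Finite G] {A B : Subgroup G}
    (hc : A.index.Coprime B.index) (g : G) : ∃ a ∈ A, ∃ b ∈ B, a * b = g := by
  have h1 : A.relIndex B = A.index := by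
    apply le_antisymm
    · exact relIndex_le_of_le_right le_top (by rw [relIndex_top_right]; exact A.index_ne_zero_of_finite)
        |>.trans (relIndex_top_right A).le
    · refine Nat.le_of_dvd (Nat.pos_of_ne_zero index_ne_zero_of_finite) (hc.dvd_of_dvd_mul_right ?_)
      rw [← inf_relIndex_right, relIndex_mul_index inf_le_right]
      exact index_dvd_of_le inf_le_left
  let f : B ⧸ A.subgroupOf B → G ⧸ A := Quotient.map' Subtype.val fun x y hxy => by
    rw [QuotientGroup.leftRel_apply] at hxy ⊢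
    exact hxy
  have hf : Function.Injective f := by
    intro x y hxy
    obtain ⟨x, rfl⟩ := QuotientGroup.mk_surjective x
    obtain ⟨y, rfl⟩ := QuotientGroup.mk_surjective y
    have : ((x : G) : G ⧸ A) = (y : G) := hxy
    rw [QuotientGroup.eq] at this ⊢
    exact this
  have hs : Function.Surjective f := (hf.bijective_of_nat_card_le h1.ge).2
  obtain ⟨y, hy⟩ := hs (g⁻¹ : G)
  obtain ⟨y, rfl⟩ := QuotientGroup.mk_surjective y
  have : ((y : G) : G ⧸ A) = (g⁻¹ : G) := hy
  rw [eq_comm, QuotientGroup.eq, inv_inv] at this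
  exact ⟨_, this, _, inv_mem y.2, by group⟩

/-- If the Sylow numbers for `r` and `s` are coprime and `s` does not divide the Sylow number
for `r`, then the Sylow `s`-subgroups normalize every Sylow `r`-subgroup. -/
theorem le_normalCore {G : Type*} [Group G] [Finite G] {r s : ℕ} [Fact r.Prime] [Fact s.Prime]
    (R : Sylow r G) (hc : (Nat.card (Sylow r G)).Coprime (Nat.card (Sylow s G)))
    (hs : ¬ s ∣ Nat.card (Sylow r G)) :
    ∃ S : Sylow s G, (S : Subgroup G) ≤ (normalizer (R : Set G)).normalCore := by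
  rw [R.card_eq_index_normalizer] at hs hc
  obtain ⟨S, hS⟩ := Cls.exists_sylow_le_of_not_dvd_index hs
  rw [S.card_eq_index_normalizer] at hc
  refine ⟨S, fun x hx g => ?_⟩
  have h1 := (index_inf_eq_mul_iff_mul_eq_univ_aux hc) g
  obtain ⟨a, ha, b, hb, rfl⟩ := h1
  have h2 : b * x * b⁻¹ ∈ (S : Subgroup G) := (mem_normalizer_iff.1 hb x).1 hx
  have : a * b * x * (a * b)⁻¹ = a * (b * x * b⁻¹) * a⁻¹ := by group
  rw [this]
  exact mul_mem (mul_mem ha (hS h2)) (inv_mem ha)

theorem simple_case (G : Type u) [Group G] [Finite G] [IsSimpleGroup G]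
    (hna : ¬ IsMulCommutative G) :
    ¬ ∀ (r : ℕ) [Fact r.Prime], ∃ q k : ℕ, q.Prime ∧ Nat.card (Sylow r G) = q ^ k := by
  intro h
  have hns : ¬ Group.IsSolvable G := fun h => hna ⟨⟨IsSimpleGroup.comm_iff_isSolvable.2 h⟩⟩
  have hS : ∀ (r : ℕ) [Fact r.Prime] (R : Sylow r G), r ∣ Nat.card G →
      (R : Subgroup G) ≠ ⊥ ∧ normalizer (R : Set G) ≠ ⊤ := by
    intro r _ R hr
    have h1 : (R : Subgroup G) ≠ ⊥ := R.ne_bot_of_dvd_card hr
    refine ⟨h1, fun h2 => ?_⟩
    have h3 : (R : Subgroup G).Normal := normalizer_eq_top_iff.1 h2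
    have h4 : IsPGroup r G := (R.isPGroup'.of_equiv
      ((MulEquiv.subgroupCongr (h3.eq_bot_or_eq_top.resolve_left h1)).trans topEquiv))
    have := h4.isNilpotent
    exact hns inferInstance
  choose q k hq hk using h
  -- the key dichotomy
  have key : ∀ (r s : ℕ) [Fact r.Prime] [Fact s.Prime], r ∣ Nat.card G → s ∣ Nat.card G →
      q r = q s ∨ q r = s := by
    intro r s _ _ hr hs
    by_contra hcon
    push Not at hcon
    obtain ⟨R⟩ : Nonempty (Sylow r G) := inferInstance
    obtain ⟨S, hS'⟩ := le_normalCore (s := s) R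
      (by rw [hk r, hk s]
          exact Nat.Coprime.pow _ _ ((Nat.coprime_primes (hq r) (hq s)).2 hcon.1))
      (by rw [hk r]
          intro hd
          exact hcon.2 ((Nat.prime_dvd_prime_iff_eq Fact.out (hq r)).1
            ((Fact.out : s.Prime).dvd_of_dvd_pow hd)).symm)
    rcases (normalCore_normal (normalizer (R : Set G))).eq_bot_or_eq_top with h1 | h1
    · exact (hS s S hs).1 (le_bot_iff.1 (h1 ▸ hS'))
    · exact (hS r R hr).2 (top_le_iff.1 (h1 ▸ normalCore_le _))
  have hne : ∀ (r : ℕ) [Fact r.Prime], r ∣ Nat.card G → q r ≠ r ∧ q r ∣ Nat.card G := by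
    intro r _ hr
    obtain ⟨R⟩ : Nonempty (Sylow r G) := inferInstance
    have hk0 : k r ≠ 0 := fun h0 => (hS r R hr).2 <| by
      rw [← index_eq_one, ← R.card_eq_index_normalizer, hk r, h0, pow_zero]
    have h1 : q r ∣ Nat.card (Sylow r G) := hk r ▸ dvd_pow_self _ hk0
    refine ⟨fun h2 => not_dvd_card_sylow r G (by rw [h2] at h1; exact h1), h1.trans ?_⟩
    rw [R.card_eq_index_normalizer]
    exact index_dvd_card _
  have : Nontrivial G := inferInstance
  obtain ⟨r, hr, hrG⟩ := Nat.exists_prime_and_dvd (Finite.one_lt_card (α := G)).ne'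
  have : Fact r.Prime := ⟨hr⟩
  have : Fact (q r).Prime := ⟨hq r⟩
  refine hns (Char.solvable_of_two_primes hr (hq r) fun u hu huG => ?_)
  have : Fact u.Prime := ⟨hu⟩
  by_contra hcon
  push Not at hcon
  have h1 : q r = q u := (key r u hrG huG).resolve_right hcon.2.symm
  have h2 := hne r hrG
  have h3 : q (q r) = r := (key (q r) r h2.2 hrG).resolve_left (hne _ h2.2).1
  have h4 : q (q r) = u := (key (q r) u h2.2 huG).resolve_left (h1 ▸ (hne _ h2.2).1)
  exact hcon.1 (h4.symm.trans h3)

/-- If for every prime r the number of Sylow r-subgroups of the finite group G is a prime power or 1, then G is solvable. -/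
theorem result {G : Type*} [Group G] [Finite G] (h : ∀ (r : ℕ) [Fact r.Prime], Nat.card (Sylow r G) = 1 ∨ IsPrimePow (Nat.card (Sylow r G))) :
    Group.IsSolvable G := by
  refine Cls.isSolvable_of_hereditary
    (P := fun G _ _ => ∀ (r : ℕ) [Fact r.Prime], ∃ q k : ℕ, q.Prime ∧ Nat.card (Sylow r G) = q ^ k)
    ?_ ?_ simple_case G ?_
  · intro G _ _ N _ h r _
    obtain ⟨q, k, hq, hk⟩ := h r
    obtain ⟨j, hj⟩ := Cls.exists_pow_of_dvd_pow hq (hk ▸ card_sylow_normal_dvd r N)
    exact ⟨q, j, hq, hj⟩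
  · intro G _ _ N _ h r _
    obtain ⟨q, k, hq, hk⟩ := h r
    obtain ⟨j, hj⟩ := Cls.exists_pow_of_dvd_pow hq (hk ▸ card_sylow_quotient_dvd r N)
    exact ⟨q, j, hq, hj⟩
  · intro r _
    rcases h r with h1 | h1
    · exact ⟨2, 0, Nat.prime_two, h1⟩
    · obtain ⟨q, k, hq, -, hk⟩ := (isPrimePow_nat_iff _).1 h1
      exact ⟨q, k, hq, hk.symm⟩

end Cfsg.Agent.S3933
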