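import Cfsg.Statements.S3939
import Mathlib
import Cfsg.Agent.Lib.Core.Engel

set_option autoImplicit false
open Cfsg

namespace Cfsg.Agent.S3939

/-- In a finite group G the set of elements g such that the subgroup generated by g and x is nilpotent for every x ∈ G is exactly the hypercenter of G (the last term of the upper central series). -/
theorem result {G : Type*} [Group G] [Finite G] (g : G) :
    (∀ x : G, Group.IsNilpotent ↥(Subgroup.closure ({x, g} : Set G))) ↔ g ∈ ⨆ n : ℕ, Subgroup.upperCentralSeries G n := by
  constructor
  · intro h
    obtain ⟨n, hn⟩ := Core.exists_mem_upperCentralSeries_of_forall_isNilpotent_closure g h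
    exact Subgroup.mem_iSup_of_mem n hn
  · intro h x
    obtain ⟨n, hn⟩ := (Subgroup.mem_iSup_of_directed
      (Subgroup.upperCentralSeries_mono G).directed_le).1 h
    have := Core.isNilpotent_sup_of_le_upperCentralSeries (H := Subgroup.zpowers x)
      Core.isNilpotent_of_isMulCommutative (Subgroup.zpowers_le.2 hn)
    rwa [Subgroup.zpowers_eq_closure, Subgroup.zpowers_eq_closure, ← Subgroup.closure_union] at this

end Cfsg.Agent.S3939
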