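import Cfsg.Statements.S3941
import Mathlib

set_option autoImplicit false
open Cfsg

namespace Cfsg.Agent.S3941


/-- Let n ≥ 5 and p an odd prime with p ≤ n, and suppose that every proper subgroup of the alternating group of degree n whose order is divisible by p has a normal Sylow p-subgroup. Then n = p. -/
theorem result (n p : ℕ) (hn : 5 ≤ n) [Fact p.Prime] (hp : p ≠ 2) (hpn : p ≤ n)
    (h : ∀ H : Subgroup ↥(alternatingGroup (Fin n)), H ≠ ⊤ → p ∣ Nat.card ↥H → Cfsg.IsPClosed p ↥H) : n = p := by
  classical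
  have hpp : p.Prime := Fact.out
  by_contra hne
  have hlt : p < n := lt_of_le_of_ne hpn (Ne.symm hne)
  have hodd : Odd p := hpp.odd_of_ne_two hp
  have hmem : ∀ a : Equiv.Perm (Fin n), orderOf a = p → a ∈ alternatingGroup (Fin n) := by
    intro a ha
    rw [Equiv.Perm.mem_alternatingGroup]
    have h1 : (Equiv.Perm.sign a) ^ p = 1 := by rw [← map_pow, ← ha, pow_orderOf_eq_one, map_one]
    rcases Int.units_eq_one_or (Equiv.Perm.sign a) with h2 | h2
    · exact h2
    · rw [h2, hodd.neg_one_pow] at h1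
      exact absurd h1 (by decide)
  have key : ∀ (w : Fin n) (a b : Equiv.Perm (Fin n)), orderOf a = p → orderOf b = p → a w = w →
      b w = w → ∃ k, (a * b) ^ p ^ k = 1 := by
    intro w a b ha hb haw hbw
    let H := MulAction.stabilizer (alternatingGroup (Fin n)) w
    have hH : H ≠ ⊤ := by
      intro htop
      have hpre : MulAction.IsPretransitive (alternatingGroup (Fin n)) (Fin n) :=
        alternatingGroup.isPretransitive_of_three_le_card (Fin n) (by simp; omega)
      have : Nontrivial (Fin n) := Fin.nontrivial_iff_two_le.2 (by omega)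
      obtain ⟨v, hv⟩ := exists_ne w
      obtain ⟨g, hg⟩ := MulAction.exists_smul_eq (alternatingGroup (Fin n)) w v
      have : g ∈ H := htop ▸ Subgroup.mem_top g
      exact hv (hg.symm.trans this)
    let a' : H := ⟨⟨a, hmem a ha⟩, haw⟩
    let b' : H := ⟨⟨b, hmem b hb⟩, hbw⟩
    have ha' : orderOf a' = p := by
      rw [← Subgroup.orderOf_coe, ← Subgroup.orderOf_coe]; exact ha
    have hb' : orderOf b' = p := by
      rw [← Subgroup.orderOf_coe, ← Subgroup.orderOf_coe]; exact hb
    have hcl := h H hH (ha' ▸ orderOf_dvd_natCard a')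
    obtain ⟨P⟩ : Nonempty (Sylow p H) := inferInstance
    have hP := hcl P
    have hin : ∀ c : H, orderOf c = p → c ∈ (P : Subgroup H) := by
      intro c hc
      have hz : IsPGroup p (Subgroup.zpowers c) := by
        apply IsPGroup.of_card (n := 1)
        rw [Nat.card_zpowers, hc, pow_one]
      obtain ⟨Q, hQ⟩ := hz.exists_le_sylow
      have : Q = P := by
        have := P.unique_of_normal hP
        exact Subsingleton.elim _ _
      exact this ▸ hQ (Subgroup.mem_zpowers c)
    obtain ⟨k, hk⟩ := P.isPGroup' ⟨a' * b', mul_mem (hin a' ha') (hin b' hb')⟩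
    refine ⟨k, ?_⟩
    have := congrArg (fun z : (P : Subgroup H) =>
      (((z : H) : alternatingGroup (Fin n)) : Equiv.Perm (Fin n))) hk
    simpa [a', b'] using this
  by_cases h3 : p = 3
  · subst h3
    let i0 : Fin n := ⟨0, by omega⟩
    let i1 : Fin n := ⟨1, by omega⟩
    let i2 : Fin n := ⟨2, by omega⟩
    let i3 : Fin n := ⟨3, by omega⟩
    let i4 : Fin n := ⟨4, by omega⟩
    have t1 : (Equiv.swap i1 i0 * Equiv.swap i1 i2).IsThreeCycle :=
      Equiv.Perm.isThreeCycle_swap_mul_swap_same (by simp [i0, i1]) (by simp [i1, i2])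
        (by simp [i0, i2])
    have t2 : (Equiv.swap i2 i1 * Equiv.swap i2 i3).IsThreeCycle :=
      Equiv.Perm.isThreeCycle_swap_mul_swap_same (by simp [i1, i2]) (by simp [i2, i3])
        (by simp [i1, i3])
    obtain ⟨k, hk⟩ := key i4 _ _ t1.orderOf t2.orderOf
      (by simp [Equiv.swap_apply_def, i0, i1, i2, i4])
      (by simp [Equiv.swap_apply_def, i1, i2, i3, i4])
    have e : Equiv.swap i1 i0 * Equiv.swap i1 i2 * (Equiv.swap i2 i1 * Equiv.swap i2 i3) =
        Equiv.swap i1 i0 * Equiv.swap i2 i3 := by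
      rw [Equiv.swap_comm i2 i1, mul_assoc, Equiv.swap_mul_self_mul]
    rw [e] at hk
    have hcomm : Commute (Equiv.swap i1 i0) (Equiv.swap i2 i3) := by
      apply Equiv.Perm.Disjoint.commute
      intro x
      by_cases hx1 : x = i1
      · right; subst hx1; simp [Equiv.swap_apply_def, i1, i2, i3]
      by_cases hx0 : x = i0
      · right; subst hx0; simp [Equiv.swap_apply_def, i0, i2, i3]
      · left; exact Equiv.swap_apply_of_ne_of_ne hx1 hx0
    have h2 : (Equiv.swap i1 i0 * Equiv.swap i2 i3) ^ 2 = 1 := by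
      rw [hcomm.mul_pow, sq, sq, Equiv.swap_mul_self, Equiv.swap_mul_self, one_mul]
    have hc : (3 ^ k).Coprime 2 := Nat.Coprime.pow_left _ (by norm_num)
    have h1 := Nat.eq_one_of_dvd_coprimes hc (orderOf_dvd_of_pow_eq_one hk)
      (orderOf_dvd_of_pow_eq_one h2)
    rw [orderOf_eq_one_iff] at h1
    have := congrArg (fun f : Equiv.Perm (Fin n) => f i0) h1
    simp [Equiv.swap_apply_def, i0, i1, i2, i3] at this
  · obtain ⟨g, hg⟩ : ∃ g : Equiv.Perm (Fin n), g.cycleType = {p} := by
      rw [Equiv.Perm.exists_with_cycleType_iff]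
      simp [hpn, hpp.two_le]
    have hcyc : g.IsCycle := by
      rw [← Equiv.Perm.card_cycleType_eq_one, hg]; rfl
    have hord : orderOf g = p := by
      rw [← Equiv.Perm.lcm_cycleType, hg]; simp
    have hsupp : g.support.card = p := by
      rw [← Equiv.Perm.sum_cycleType, hg]; simp
    obtain ⟨w, hw⟩ : ∃ w, w ∉ g.support := by
      by_contra hall
      push Not at hall
      have : g.support = Finset.univ := Finset.eq_univ_of_forall hall
      rw [this, Finset.card_univ, Fintype.card_fin] at hsupp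
      omega
    obtain ⟨x, hx⟩ : g.support.Nonempty := by
      rw [← Finset.card_pos, hsupp]; exact hpp.pos
    have hgw : g w = w := by simpa using hw
    have hgx : g x ≠ x := by simpa using hx
    have hxw : w ≠ x := fun h => hw (h ▸ hx)
    have hyw : w ≠ g x := fun h => hw (h ▸ Equiv.Perm.apply_mem_support.2 hx)
    have hg2 : g⁻¹ x ≠ g x := by
      intro h2
      have : g ^ 2 = 1 := by
        rw [hcyc.pow_eq_one_iff]
        refine ⟨x, hgx, ?_⟩
        rw [sq, Equiv.Perm.mul_apply, ← h2]
        simp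
      have := orderOf_dvd_of_pow_eq_one this
      rw [hord] at this
      exact hp ((Nat.prime_dvd_prime_iff_eq hpp Nat.prime_two).1 this)
    have hg1 : x ≠ g⁻¹ x := by
      intro h2
      apply hgx
      conv_lhs => rw [h2]
      simp
    let t := Equiv.swap x (g x)
    have htw : t w = w := Equiv.swap_apply_of_ne_of_ne hxw hyw
    obtain ⟨k, hk⟩ := key w g⁻¹ (t * g * t⁻¹) (by rw [orderOf_inv, hord])
      (by rw [← hord]; simpa using (MulAut.conj t).orderOf_eq g)
      (by rw [Equiv.Perm.inv_eq_iff_eq, hgw])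
      (by
        have : t⁻¹ w = w := by rw [Equiv.Perm.inv_eq_iff_eq, htw]
        simp only [Equiv.Perm.mul_apply, this, hgw, htw])
    have e : g⁻¹ * (t * g * t⁻¹) = Equiv.swap x (g⁻¹ x) * Equiv.swap x (g x) := by
      have e1 : Equiv.swap (g⁻¹ x) (g⁻¹ (g x)) = g⁻¹ * t * g⁻¹⁻¹ := Equiv.swap_apply_apply _ _ _
      rw [Equiv.swap_comm x (g⁻¹ x)]
      have e2 : g⁻¹ (g x) = x := by simp
      rw [e2, inv_inv] at e1
      rw [e1, Equiv.swap_inv]
      simp only [t, mul_assoc]
    have t3 := Equiv.Perm.isThreeCycle_swap_mul_swap_same hg1 hgx.symm hg2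
    rw [e] at hk
    have h1 := orderOf_dvd_of_pow_eq_one hk
    rw [t3.orderOf] at h1
    exact h3 ((Nat.prime_dvd_prime_iff_eq Nat.prime_three hpp).1
      (Nat.prime_three.dvd_of_dvd_pow h1)).symm

end Cfsg.Agent.S3941
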