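import Cfsg.Statements.S3947
import Cfsg.Agent.Lib.Core.Flavell

set_option autoImplicit false
open Cfsg

namespace Cfsg.Agent.S3947



/-- Let G be a finite group and A a proper subgroup of G whose normal closure is G. Let Y be the join of all proper subgroups H of G that contain A and are generated by their own conjugates of A (the normal closure of A in H is H). Then either Y = G, or A is contained in exactly one maximal subgroup of G. -/
theorem result {G : Type*} [Group G] [Finite G] (A : Subgroup G) (hA : Subgroup.normalClosure (A : Set G) = ⊤) (hAG : A ≠ ⊤) :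
    sSup {H : Subgroup G | A ≤ H ∧ H ≠ ⊤ ∧ Subgroup.normalClosure ((A.subgroupOf H : Subgroup ↥H) : Set ↥H) = ⊤} = ⊤ ∨
      ∃! M : Subgroup G, IsCoatom M ∧ A ≤ M := by
  refine (eq_top_or_exists_le_coatom _).imp id fun ⟨M, hM, h⟩ => ?_
  have hY : ∀ H, A ≤ H → H ≠ ⊤ → Cfsg.Agent.Core.Flav.Full A H → H ≤ M := fun H h1 h2 h3 => by
    refine le_trans (le_sSup ?_) h
    exact ⟨h1, h2, (Cfsg.Agent.Core.Flav.full_iff h1).1 h3⟩
  exact ⟨M, ⟨hM, hY A le_rfl hAG fun N hN _ => hN⟩, fun L hL =>
    Cfsg.Agent.Core.Flav.unique_coatom A hA hM hY hL.1 hL.2⟩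

end Cfsg.Agent.S3947
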