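import Cfsg.Statements.S3949
import Mathlib

set_option autoImplicit false
open Cfsg

namespace Cfsg.Agent.S3949

/-- Let G be a finite group and α an automorphism of G of order 2 such that the elements g·α(g)⁻¹ generate G. Let j be a positive integer such that 2^j divides the order of no element inverted by α. Then the set of values of the j-th iterate of the map c ↦ c·α(c)⁻¹ is exactly the set of elements of odd order inverted by α. -/
theorem result {G : Type*} [Group G] [Finite G] (α : MulAut G) (hα : orderOf α = 2) (hG : Subgroup.closure (Set.range (fun c : G => c * (α c)⁻¹)) = ⊤)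
    (j : ℕ) (hj : ∀ g : G, α g = g⁻¹ → ¬ 2 ^ j ∣ orderOf g) :
    Set.range ((fun c : G => c * (α c)⁻¹)^[j]) = {g : G | Odd (orderOf g) ∧ α g = g⁻¹} := by
  have hα2 : ∀ g, α (α g) = g := fun g => by
    have : α ^ 2 = 1 := by rw [← hα, pow_orderOf_eq_one]
    exact DFunLike.congr_fun this g
  set f : G → G := fun c => c * (α c)⁻¹ with hf
  have h1 : ∀ c, α (f c) = (f c)⁻¹ := fun c => by simp [hf, hα2]
  have h2 : ∀ g, α g = g⁻¹ → f g = g ^ 2 := fun g hg => by simp [hf, hg, sq]
  have h3 : ∀ (k : ℕ) g, α g = g⁻¹ → f^[k] g = g ^ 2 ^ k := by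
    intro k
    induction k with
    | zero => simp
    | succ k ih =>
      intro g hg
      rw [Function.iterate_succ_apply, h2 g hg, ih _ (by rw [map_pow, hg, inv_pow]), ← pow_mul,
        pow_succ']
  obtain ⟨k, rfl⟩ : ∃ k, j = k + 1 := by
    rcases j with _ | k
    · exact absurd (by simp) (hj 1 (by simp))
    · exact ⟨k, rfl⟩
  ext g
  constructor
  · rintro ⟨c, rfl⟩
    rw [Function.iterate_succ_apply, h3 k _ (h1 c)]
    refine ⟨?_, by rw [map_pow, h1, inv_pow]⟩
    have h4 := hj _ (h1 c)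
    rw [orderOf_pow]
    have hpos := orderOf_pos (f c)
    obtain ⟨e, m, hm, hem⟩ := Nat.exists_eq_two_pow_mul_odd hpos.ne'
    have he : e ≤ k := by
      by_contra h5
      exact h4 (hem ▸ (pow_dvd_pow 2 (by omega)).mul_right _)
    have h6 : Nat.gcd (2 ^ e * m) (2 ^ k) = 2 ^ e := by
      obtain ⟨d, rfl⟩ := Nat.exists_eq_add_of_le he
      rw [pow_add, Nat.gcd_mul_left, (Nat.Coprime.pow_right d
        (Nat.coprime_two_right.mpr hm)).gcd_eq_one, mul_one]
    rw [hem, h6, Nat.mul_div_cancel_left _ (by positivity)]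
    exact hm
  · rintro ⟨hodd, hg⟩
    obtain ⟨m, hm⟩ := exists_pow_eq_self_of_coprime (x := g) (n := 2 ^ (k + 1))
      (Nat.Coprime.pow_left _ (Nat.coprime_two_left.mpr hodd))
    refine ⟨g ^ m, ?_⟩
    rw [h3 _ _ (by rw [map_pow, hg, inv_pow]), ← pow_mul, mul_comm, pow_mul, hm]

end Cfsg.Agent.S3949
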