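import Cfsg.Statements.S3982
import Mathlib
import Cfsg.Agent.Lib.Core.Primitive
import Cfsg.Agent.Lib.Coprime.Sylow

set_option autoImplicit false
open Cfsg

namespace Cfsg.Agent.S3982

open Subgroup

/-- Let p be an odd prime and G a finite group of even order divisible by p in which the centralizer of every non-identity p-element has odd order. If some nontrivial p-subgroup of G has a normalizer of even order, then the normalizer of every Sylow p-subgroup of G has even order. -/
theorem result {G : Type*} [Group G] [Finite G] (p : ℕ) [Fact p.Prime] (hp2 : p ≠ 2) (hpG : p ∣ Nat.card G) (h2G : 2 ∣ Nat.card G) (hC : ∀ g : G, g ≠ 1 → (∃ k : ℕ, orderOf g = p ^ k) → Odd (Nat.card ↥(Subgroup.centralizer ({g} : Set G)))) (Q : Subgroup G) (hQ : IsPGroup p ↥Q) (hQ1 : Q ≠ ⊥) (hev : Even (Nat.card ↥(Subgroup.normalizer (Q : Set G)))) (P : Sylow p G) : Even (Nat.card ↥(Subgroup.normalizer ((P : Subgroup G) : Set G))) := by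
  have hp : p.Prime := Fact.out
  obtain ⟨⟨y, hyQ⟩, hy⟩ := exists_prime_orderOf_dvd_card' 2 hev.two_dvd
  rw [orderOf_mk] at hy
  have hy2 : y * y = 1 := by rw [← sq, ← hy, pow_orderOf_eq_one]
  have hyi : y⁻¹ = y := inv_eq_of_mul_eq_one_right hy2
  have hev' : ∀ H : Subgroup G, y ∈ H → Even (Nat.card H) := fun H h =>
    even_iff_two_dvd.2 (hy ▸ orderOf_dvd_natCard H h)
  obtain ⟨R, hQR, ⟨hR, hyR⟩, hmax⟩ := Core.exists_maximal_ge
    (P := fun R : Subgroup G => IsPGroup p R ∧ y ∈ normalizer (R : Set G)) ⟨hQ, hyQ⟩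
  have hinv : ∀ r ∈ R, y * r * y⁻¹ = r⁻¹ := fun r hr => by
    have h1 : MonoidHom.FixedPointFree (R.normalizerMonoidHom ⟨y, hyR⟩) := fun r h => by
      by_contra h2
      refine Nat.not_odd_iff_even.2 (hev' _ ?_) (hC r (fun h => h2 (Subtype.ext h))
        (Core.exists_orderOf_eq_pow_of_mem hR r.2))
      exact mem_centralizer_singleton_iff.2 (mul_inv_eq_iff_eq_mul.1 (congrArg Subtype.val h))
    have h2 := h1.coe_eq_inv_of_involutive fun r => by
      rw [← MulAut.mul_apply, ← map_mul, show (⟨y, hyR⟩ * ⟨y, hyR⟩ : normalizer (R : Set G)) = 1 from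
        Subtype.ext hy2, map_one, MulAut.one_apply]
    exact congrArg Subtype.val (congrFun h2 ⟨r, hr⟩)
  obtain ⟨r, hr, hr1⟩ : ∃ r ∈ Q, r ≠ 1 := by
    by_contra h
    push Not at h
    exact hQ1 ((eq_bot_iff_forall _).2 h)
  have hodd : Odd (Nat.card (centralizer (R : Set G))) :=
    (hC r hr1 (Core.exists_orderOf_eq_pow_of_mem hQ hr)).of_dvd_nat (card_dvd_of_le
      (centralizer_le (Set.singleton_subset_iff.2 (hQR hr))))
  have hRC : R ≤ centralizer (R : Set G) := fun a ha b hb => by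
    have h1 := hinv _ (R.mul_mem ha hb)
    rw [← conj_mul, hinv a ha, hinv b hb, ← mul_inv_rev] at h1
    exact inv_injective h1
  have hS : Coprime.IsSylowIn p R ⊤ := by
    refine Coprime.isSylowIn_of_normalizer le_top (Coprime.isSylowIn_of_maximal
      (le_inf le_top le_normalizer) hR fun U hRU hU hUp => ?_)
    have hU' : U ≤ normalizer (R : Set G) := hU.trans inf_le_right
    obtain ⟨k, hk⟩ := IsPGroup.iff_card.1 hUp
    have h1 : Odd (Nat.card (U ⊔ centralizer (R : Set G) : Subgroup G)) :=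
      Odd.of_dvd_nat (Odd.mul (hk ▸ (hp.odd_of_ne_two hp2).pow) hodd)
        (Core.card_sup_dvd_of_le_normalizer (Core.le_normalizer_centralizer hU'))
    have h2 : y ∈ normalizer ((U ⊔ centralizer (R : Set G) : Subgroup G) : Set G) := by
      refine Core.mem_normalizer_of_map_conj_le ?_
      rw [Subgroup.map_sup, Core.map_conj_eq_iff.2
        (Core.le_normalizer_centralizer (zpowers_le.2 hyR) (mem_zpowers y))]
      refine sup_le ?_ le_sup_right
      rintro _ ⟨x, hx, rfl⟩
      refine (mul_mem_cancel_left (mem_sup_left (U.inv_mem hx))).1 (mem_sup_right fun a ha => ?_)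
      have h3 := hinv _ ((mem_normalizer_iff.1 (hU' hx) _).1 ha)
      have h4 := hinv a ha
      have h5 : x * a * x⁻¹ * y = y * (x * a * x⁻¹)⁻¹ := by
        rw [← h3, ← mul_assoc y, ← mul_assoc y y, hy2, one_mul, hyi]
      simp only [MulEquiv.coe_toMonoidHom, MulAut.conj_apply]
      calc a * (x⁻¹ * (y * x * y⁻¹)) = x⁻¹ * (x * a * x⁻¹ * y) * x * y⁻¹ := by group
        _ = x⁻¹ * y * x * a⁻¹ * y⁻¹ := by rw [h5]; group
        _ = _ := by rw [← h4, hyi]; simp [mul_assoc, hy2]
    obtain ⟨S, hS, hyS, hRS⟩ := Coprime.exists_invariant_sylow_ge (p := p) (zpowers_le.2 h2)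
      (by rw [Nat.card_zpowers, hy]; exact (Nat.coprime_two_left).2 h1) (Or.inl inferInstance)
      (hRU.trans le_sup_left) hR (zpowers_le.2 hyR)
    obtain rfl := hmax S ⟨hS.2.1, hyS (mem_zpowers y)⟩ hRS
    exact hS.eq_of_le hRU le_sup_left hUp
  obtain ⟨S, rfl⟩ := hS.exists_sylow_top
  obtain ⟨g, rfl⟩ := MulAction.exists_smul_eq G S P
  have h5 : g * y * g⁻¹ ∈ normalizer (((g • S : Sylow p G) : Subgroup G) : Set G) := by
    refine Sylow.smul_eq_iff_mem_normalizer.1 ?_
    rw [mul_smul, mul_smul, inv_smul_smul,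
      Sylow.smul_eq_iff_mem_normalizer.2 hyR]
  exact even_iff_two_dvd.2 ((hy ▸ (MulAut.conj g).orderOf_eq y).symm.dvd.trans
    (orderOf_dvd_natCard _ h5))

end Cfsg.Agent.S3982
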