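import Cfsg.Statements.S3983
import Mathlib
import Cfsg.Agent.Lib.Cls.Basic

set_option autoImplicit false
open scoped Pointwise
open Cfsg

namespace Cfsg.Agent.S3983

/-- Let P be a Sylow p-subgroup of the finite group G that meets each conjugate g P g⁻¹ with g outside N_G(P) trivially, and let U be a subgroup of G of order divisible by p. Then a Sylow p-subgroup Q of U has the same property inside U: Q meets each conjugate u Q u⁻¹ with u ∈ U outside N_U(Q) trivially. -/
theorem result {G : Type*} [Group G] [Finite G] (p : ℕ) [Fact p.Prime] (P : Sylow p G) (hTI : ∀ g : G, g ∉ Subgroup.normalizer ((P : Subgroup G) : Set G) → (P : Subgroup G) ⊓ (MulAut.conj g • (P : Subgroup G)) = ⊥) (U : Subgroup G) (hU : p ∣ Nat.card ↥U) (Q : Sylow p ↥U) : ∀ u : ↥U, u ∉ Subgroup.normalizer ((Q : Subgroup ↥U) : Set ↥U) → (Q : Subgroup ↥U) ⊓ (MulAut.conj u • (Q : Subgroup ↥U)) = ⊥ := by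
  intro u hu
  obtain ⟨R, hR⟩ := Q.exists_comap_subtype_eq
  obtain ⟨g, rfl⟩ := MulAction.exists_smul_eq G P R
  refine (Subgroup.eq_bot_iff_forall _).2 fun x hx => ?_
  by_contra hx1
  have h1 : ∀ y : U, y ∈ (Q : Subgroup U) ↔ g⁻¹ * y * g ∈ (P : Subgroup G) := fun y => by
    rw [← hR, Subgroup.mem_comap, Cls.mem_smul_sylow_iff]; rfl
  have h2 : g⁻¹ * u * g ∈ Subgroup.normalizer ((P : Subgroup G) : Set G) := by
    by_contra h
    have h3 : g⁻¹ * x * g ∈ (P : Subgroup G) ⊓ (MulAut.conj (g⁻¹ * u * g) • (P : Subgroup G)) := by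
      refine ⟨(h1 x).1 hx.1, ?_⟩
      have h4 := (h1 _).1 (Subgroup.mem_pointwise_smul_iff_inv_smul_mem.1 hx.2)
      refine Subgroup.mem_pointwise_smul_iff_inv_smul_mem.2 ?_
      simpa [mul_assoc] using h4
    rw [hTI _ h, Subgroup.mem_bot] at h3
    exact hx1 (Subtype.ext (by simpa [mul_assoc, inv_mul_eq_one] using h3))
  refine hu (Subgroup.mem_normalizer_iff.2 fun y => ?_)
  rw [h1, h1, Subgroup.mem_normalizer_iff.1 h2]
  simp [mul_assoc]

end Cfsg.Agent.S3983
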