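import Cfsg.Statements.S3984
import Cfsg.Agent.Lib.Coprime.TIHall

set_option autoImplicit false
open scoped Pointwise
open Cfsg

namespace Cfsg.Agent.S3984

/-- Let P be a Sylow p-subgroup of the finite group G that meets each conjugate g P g⁻¹ with g outside N_G(P) trivially, and let N be a normal subgroup of G of order prime to p. Then every Sylow p-subgroup Q of G ⧸ N meets each conjugate x Q x⁻¹ with x outside its normalizer trivially. -/
theorem result {G : Type*} [Group G] [Finite G] (p : ℕ) [Fact p.Prime] (P : Sylow p G) (hTI : ∀ g : G, g ∉ Subgroup.normalizer ((P : Subgroup G) : Set G) → (P : Subgroup G) ⊓ (MulAut.conj g • (P : Subgroup G)) = ⊥) (N : Subgroup G) [N.Normal] (hN : (Nat.card ↥N).Coprime p) (Q : Sylow p (G ⧸ N)) : ∀ x : G ⧸ N, x ∉ Subgroup.normalizer ((Q : Subgroup (G ⧸ N)) : Set (G ⧸ N)) → (Q : Subgroup (G ⧸ N)) ⊓ (MulAut.conj x • (Q : Subgroup (G ⧸ N))) = ⊥ := by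
  intro x hx
  obtain ⟨R, rfl⟩ := Sylow.mapSurjective_surjective (QuotientGroup.mk'_surjective N) p Q
  obtain ⟨g, rfl⟩ := QuotientGroup.mk'_surjective N x
  obtain ⟨a, rfl⟩ := MulAction.exists_smul_eq G P R
  rw [Sylow.coe_mapSurjective] at hx ⊢
  set R := ((a • P : Sylow p G) : Subgroup G) with hR
  rw [eq_bot_iff]
  rintro _ ⟨⟨u, hu, rfl⟩, hu'⟩
  by_contra hu1
  obtain ⟨v, hv, e⟩ := (Frob.mem_conj_smul_iff _ _ _).mp hu'
  have hv' : g * v * g⁻¹ ∈ N ⊔ Subgroup.zpowers u := by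
    have : g * v * g⁻¹ = (g * v * g⁻¹ * u⁻¹) * u := by group
    rw [this]
    refine Subgroup.mul_mem_sup ?_ (Subgroup.mem_zpowers u)
    rw [← QuotientGroup.eq_one_iff, ← QuotientGroup.mk'_apply]
    simp only [map_mul, map_inv, e]
    group
  have hpu : IsPGroup p (Subgroup.zpowers u) :=
    (a • P).isPGroup'.to_le (Subgroup.zpowers_le.mpr hu)
  have hpv : IsPGroup p (Subgroup.zpowers (g * v * g⁻¹)) := by
    have := ((a • P).isPGroup'.to_le (Subgroup.zpowers_le.mpr hv)).map (MulAut.conj g).toMonoidHom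
    rwa [MonoidHom.map_zpowers] at this
  obtain ⟨n, hn, h⟩ := Coprime.sz_le_conj Subgroup.le_normalizer_of_normal
    (Subgroup.zpowers_le.mpr hv') (Coprime.coprime_card_of_isPGroup hN hpu)
    (Coprime.coprime_card_of_isPGroup hN hpv)
    (Or.inr (Or.inl (Coprime.isSolvable_of_isPGroup hpu)))
  have h1 : n⁻¹ * (g * v * g⁻¹) * n ∈ R :=
    Subgroup.zpowers_le.mpr hu (Coprime.mem_map_conj_iff.mp (h (Subgroup.mem_zpowers _)))
  have h2 : a⁻¹ * (n⁻¹ * g) * a ∈ Subgroup.normalizer ((P : Subgroup G) : Set G) := by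
    by_contra h2
    have h3 : a⁻¹ * (n⁻¹ * (g * v * g⁻¹) * n) * a ∈ (P : Subgroup G) ⊓
        MulAut.conj (a⁻¹ * (n⁻¹ * g) * a) • (P : Subgroup G) := by
      refine ⟨Cls.mem_smul_sylow_iff.mp h1, (Frob.mem_conj_smul_iff _ _ _).mpr ?_⟩
      simpa [mul_assoc] using Cls.mem_smul_sylow_iff.mp hv
    rw [hTI _ h2, Subgroup.mem_bot] at h3
    have h4 : v = 1 := by
      calc v = g⁻¹ * n * a * (a⁻¹ * (n⁻¹ * (g * v * g⁻¹) * n) * a) * (g⁻¹ * n * a)⁻¹ := by group
        _ = 1 := by rw [h3]; group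
    rw [h4, map_one, eq_comm] at e
    exact hu1 (by simpa [mul_assoc, inv_mul_eq_one] using e)
  have h3 : n⁻¹ * g ∈ Subgroup.normalizer (R : Set G) := by
    have := Sylow.smul_eq_iff_mem_normalizer.mpr h2
    refine Sylow.smul_eq_iff_mem_normalizer.mp ?_
    rw [mul_smul, mul_smul, inv_smul_eq_iff] at this
    exact this
  refine hx ?_
  have := Subgroup.le_normalizer_map (QuotientGroup.mk' N) ⟨_, h3, rfl⟩
  rwa [map_mul, map_inv, show QuotientGroup.mk' N n = 1 from (QuotientGroup.eq_one_iff n).mpr hn,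
    inv_one, one_mul] at this

end Cfsg.Agent.S3984
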