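import Cfsg.Statements.S3985
import Mathlib

set_option autoImplicit false
open scoped Pointwise
open Cfsg

namespace Cfsg.Agent.S3985

open Subgroup

/-- Let P be a cyclic Sylow p-subgroup of the finite group G. Then P meets each conjugate g P g⁻¹ with g outside N_G(P) trivially if and only if P is weakly self-centralizing: C_G(x) = C_G(P) for every non-identity x ∈ P. -/
theorem result {G : Type*} [Group G] [Finite G] (p : ℕ) [Fact p.Prime] (P : Sylow p G) (hcyc : IsCyclic ↥(P : Subgroup G)) : (∀ g : G, g ∉ Subgroup.normalizer ((P : Subgroup G) : Set G) → (P : Subgroup G) ⊓ (MulAut.conj g • (P : Subgroup G)) = ⊥) ↔ ∀ x : G, x ∈ (P : Subgroup G) → x ≠ 1 → Subgroup.centralizer ({x} : Set G) = Subgroup.centralizer ((P : Subgroup G) : Set G) := by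
  have hp : p.Prime := Fact.out
  obtain ⟨y, hy⟩ := hcyc.exists_monoid_generator
  have hcomm : ∀ a ∈ (P : Subgroup G), ∀ b ∈ (P : Subgroup G), a * b = b * a := fun a ha b hb =>
    congrArg Subtype.val (mul_comm' (⟨a, ha⟩ : (P : Subgroup G)) ⟨b, hb⟩)
  constructor
  · intro h x hx hx1
    refine le_antisymm ?_ (centralizer_le (Set.singleton_subset_iff.mpr hx))
    intro g hg
    rw [mem_centralizer_singleton_iff] at hg
    have hgN : g ∈ normalizer ((P : Subgroup G) : Set G) := by
      by_contra hgN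
      have : x ∈ (P : Subgroup G) ⊓ MulAut.conj g • (P : Subgroup G) :=
        ⟨hx, ⟨x, hx, by simp [hg]⟩⟩
      rw [h g hgN] at this
      exact hx1 this
    obtain ⟨k, hk⟩ := hy ⟨_, (mem_normalizer_iff.mp hgN y).mp y.2⟩
    have hk' : g * y * g⁻¹ = (y : G) ^ k := (congrArg Subtype.val hk).symm
    have hk2 : ∀ j : ℕ, g ^ j * y * (g ^ j)⁻¹ = (y : G) ^ k ^ j := by
      intro j
      induction j with
      | zero => simp
      | succ j ih =>
        calc g ^ (j + 1) * y * (g ^ (j + 1))⁻¹ = g * (g ^ j * y * (g ^ j)⁻¹) * g⁻¹ := by group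
          _ = _ := by rw [ih, ← conj_pow, hk', ← pow_mul, pow_succ']
    obtain ⟨m, hm⟩ := hy ⟨x, hx⟩
    have hm' : (y : G) ^ m = x := congrArg Subtype.val hm
    have hxk : x ^ k = x ^ 1 := by
      rw [← hm', ← pow_mul, mul_comm, pow_mul, ← hk', conj_pow, hm', hg]; simp
    rw [pow_eq_pow_iff_modEq] at hxk
    obtain ⟨a, ha⟩ := (IsPGroup.iff_orderOf.mp P.isPGroup') ⟨x, hx⟩
    rw [orderOf_mk] at ha
    have hpx : p ∣ orderOf x := by
      rw [ha]
      refine dvd_pow_self p (fun h0 => hx1 ?_)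
      rwa [h0, pow_zero, orderOf_eq_one_iff] at ha
    obtain ⟨n, hn⟩ := (IsPGroup.iff_orderOf.mp P.isPGroup') y
    rw [← orderOf_coe] at hn
    have h1 : ((p ^ (n + 1) : ℕ) : ℤ) ∣ (k : ℤ) ^ p ^ n - 1 ^ p ^ n := by
      have := dvd_sub_pow_of_dvd_sub (R := ℤ) (p := p) (a := k) (b := 1)
        (by simpa using (hxk.of_dvd hpx).symm.dvd) n
      exact_mod_cast this
    have h2 : (y : G) ^ k ^ p ^ n = (y : G) ^ 1 := by
      rw [pow_eq_pow_iff_modEq, hn]
      refine Nat.ModEq.symm (Nat.modEq_iff_dvd.mpr ?_)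
      refine (Int.natCast_dvd_natCast.mpr (pow_dvd_pow p (Nat.le_succ n))).trans ?_
      simpa using h1
    have h3 : g ^ p ^ n ∈ centralizer ((P : Subgroup G) : Set G) := by
      rw [mem_centralizer_iff]
      intro z hz
      obtain ⟨i, hi⟩ := hy ⟨z, hz⟩
      have hi' : (y : G) ^ i = z := congrArg Subtype.val hi
      have := hk2 (p ^ n)
      rw [h2, pow_one, mul_inv_eq_iff_eq_mul] at this
      rw [← hi']
      exact (Commute.pow_right this i).symm
    let N := normalizer ((P : Subgroup G) : Set G)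
    let C := (centralizer ((P : Subgroup G) : Set G)).subgroupOf N
    have h4 : (⟨g, hgN⟩ : N) ^ C.index ∈ C := C.pow_index_mem _
    have h5 : ¬ p ∣ C.index := fun h5 => P.not_dvd_index (h5.trans (by
      have h6 : (P : Subgroup G) ≤ centralizer ((P : Subgroup G) : Set G) :=
        fun a ha b hb => hcomm b hb a ha
      exact (relIndex_dvd_of_le_left N h6).trans (relIndex_dvd_index_of_le le_normalizer)))
    have h6 : g ^ C.index ∈ centralizer ((P : Subgroup G) : Set G) := h4
    obtain ⟨u, v, huv⟩ : IsCoprime ((p ^ n : ℕ) : ℤ) (C.index : ℤ) :=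
      Nat.isCoprime_iff_coprime.mpr (((Nat.Prime.coprime_iff_not_dvd hp).mpr h5).pow_left n)
    have : g = (g ^ p ^ n) ^ u * (g ^ C.index) ^ v := by
      rw [← zpow_natCast, ← zpow_natCast, ← zpow_mul, ← zpow_mul, ← zpow_add, mul_comm _ u,
        mul_comm _ v, huv, zpow_one]
    rw [this]
    exact mul_mem (zpow_mem h3 u) (zpow_mem h6 v)
  · intro h g hg
    by_contra hne
    apply hg
    obtain ⟨⟨x, hx1, hx2⟩, hx⟩ := ne_bot_iff_exists_ne_one.mp hne
    have hx' : x ≠ 1 := fun h => hx (Subtype.ext h)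
    have h1 : ((g • P : Sylow p G) : Subgroup G) ≤ normalizer ((P : Subgroup G) : Set G) := by
      refine le_trans ?_ (centralizer_le_normalizer _)
      rw [← h x hx1 hx']
      rintro _ ⟨a, ha, rfl⟩
      obtain ⟨b, hb, rfl⟩ := hx2
      rw [mem_centralizer_singleton_iff]
      show MulAut.conj g a * MulAut.conj g b = MulAut.conj g b * MulAut.conj g a
      rw [← map_mul, ← map_mul, hcomm a ha b hb]
    have h2 := (g • P).isPGroup'.inf_normalizer_sylow P
    have h3 := left_eq_inf.mp ((inf_eq_left.mpr h1).symm.trans h2)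
    exact Sylow.smul_eq_iff_mem_normalizer.mp
      (Sylow.ext ((g • P).is_maximal' P.isPGroup' h3).symm)

end Cfsg.Agent.S3985
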