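import Cfsg.Statements.S3986
import Mathlib

set_option autoImplicit false
open Cfsg

namespace Cfsg.Agent.S3986

theorem eq_top_of_forall_sylow_le {G : Type*} [Group G] [Finite G] (H : Subgroup G)
    (h : ∀ (q : ℕ) [Fact q.Prime], ∃ Q : Sylow q G, (Q : Subgroup G) ≤ H) : H = ⊤ := by
  rw [← Subgroup.index_eq_one]
  by_contra hne
  obtain ⟨q, hq, hdvd⟩ := Nat.exists_prime_and_dvd hne
  haveI := Fact.mk hq
  obtain ⟨Q, hQ⟩ := h q
  exact Q.not_dvd_index (hdvd.trans (Subgroup.index_dvd_of_le hQ))


/-- Let p be a prime and G a finite group. Then some Sylow p-subgroup of G is a direct factor of G (it is normal and has a normal complement) if and only if every element of p-power order commutes with every element whose order is a power of a prime other than p. -/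
theorem result {G : Type*} [Group G] [Finite G] (p : ℕ) [Fact p.Prime] : (∃ (P : Sylow p G) (K : Subgroup G), (P : Subgroup G).Normal ∧ K.Normal ∧ (P : Subgroup G) ⊓ K = ⊥ ∧ (P : Subgroup G) ⊔ K = ⊤) ↔ ∀ x y : G, (∃ a : ℕ, orderOf x = p ^ a) → (∃ q b : ℕ, q.Prime ∧ q ≠ p ∧ orderOf y = q ^ b) → x * y = y * x := by
  classical
  have hp : p.Prime := Fact.out
  constructor
  · rintro ⟨P, K, hPn, hKn, hinf, hsup⟩ x y ⟨a, ha⟩ ⟨q, b, hq, hqp, hb⟩
    have hx : x ∈ (P : Subgroup G) := by
      have hz : IsPGroup p (Subgroup.zpowers x) := by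
        apply IsPGroup.of_card (n := a)
        rw [Nat.card_zpowers, ha]
      obtain ⟨Q, hQ⟩ := hz.exists_le_sylow
      have : Q = P := by
        haveI := P.unique_of_normal hPn
        exact Subsingleton.elim _ _
      exact this ▸ hQ (Subgroup.mem_zpowers x)
    have hy : y ∈ K := by
      have hc : IsPGroup p (G ⧸ K) := by
        have hs : Function.Surjective ((QuotientGroup.mk' K).comp (P : Subgroup G).subtype) := by
          intro g
          obtain ⟨g, rfl⟩ := QuotientGroup.mk'_surjective K g
          have hg : g ∈ (P : Subgroup G) ⊔ K := hsup ▸ Subgroup.mem_top g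
          rw [← SetLike.mem_coe, Subgroup.mul_normal] at hg
          obtain ⟨u, hu, k, hk, rfl⟩ := hg
          refine ⟨⟨u, hu⟩, ?_⟩
          simp [(QuotientGroup.eq_one_iff k).2 hk]
        exact P.isPGroup'.of_surjective _ hs
      obtain ⟨k, hk⟩ := hc (QuotientGroup.mk y)
      have h1 : orderOf (QuotientGroup.mk y : G ⧸ K) ∣ p ^ k := orderOf_dvd_of_pow_eq_one hk
      have h2 : orderOf (QuotientGroup.mk y : G ⧸ K) ∣ q ^ b :=
        hb ▸ orderOf_map_dvd (QuotientGroup.mk' K) y
      have hcop : (p ^ k).Coprime (q ^ b) :=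
        Nat.Coprime.pow _ _ ((Nat.coprime_primes hp hq).2 hqp.symm)
      have h3 := Nat.eq_one_of_dvd_coprimes hcop h1 h2
      rw [orderOf_eq_one_iff, QuotientGroup.eq_one_iff] at h3
      exact h3
    exact (Subgroup.commute_of_normal_of_disjoint _ _ hPn hKn (disjoint_iff.2 hinf) x y hx hy).eq
  · intro h
    obtain ⟨P⟩ : Nonempty (Sylow p G) := inferInstance
    have hcent : ∀ (q : ℕ) [Fact q.Prime], q ≠ p → ∀ Q : Subgroup G, IsPGroup q Q →
        Q ≤ Subgroup.centralizer (P : Set G) := by
      intro q hq hqp Q hQ y hy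
      rw [Subgroup.mem_centralizer_iff]
      intro x hx
      apply h
      · obtain ⟨a, ha⟩ := (IsPGroup.iff_orderOf.1 P.isPGroup') ⟨x, hx⟩
        exact ⟨a, by rw [← ha, Subgroup.orderOf_mk]⟩
      · obtain ⟨b, hb⟩ := (IsPGroup.iff_orderOf.1 hQ) ⟨y, hy⟩
        exact ⟨q, b, hq.out, hqp, by rw [← hb, Subgroup.orderOf_mk]⟩
    have hPn : (P : Subgroup G).Normal := by
      rw [← Subgroup.normalizer_eq_top_iff]
      apply eq_top_of_forall_sylow_le
      intro q hq
      by_cases hqp : q = p
      · subst hqp
        exact ⟨P, Subgroup.le_normalizer⟩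
      · obtain ⟨Q⟩ : Nonempty (Sylow q G) := inferInstance
        exact ⟨Q, (hcent q hqp Q Q.isPGroup').trans (Subgroup.centralizer_le_normalizer _)⟩
    obtain ⟨L, hL⟩ := Subgroup.exists_right_complement'_of_coprime P.card_coprime_index
    have hLc : L ≤ Subgroup.centralizer (P : Set G) := by
      have : (Subgroup.centralizer (P : Set G)).subgroupOf L = ⊤ := by
        apply eq_top_of_forall_sylow_le
        intro q hq
        obtain ⟨Q⟩ : Nonempty (Sylow q L) := inferInstance
        refine ⟨Q, ?_⟩
        by_cases hqp : q = p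
        · subst hqp
          have h1 : ¬ q ∣ Nat.card L := by
            rw [← hL.symm.index_eq_card]
            exact P.not_dvd_index
          have h2 : (Q : Subgroup L) = ⊥ := by
            obtain ⟨k, hk⟩ := Q.isPGroup'.exists_card_eq
            have h3 : Nat.card (Q : Subgroup L) ∣ Nat.card L := Subgroup.card_subgroup_dvd_card _
            rw [← Subgroup.card_eq_one, hk]
            cases k with
            | zero => rfl
            | succ k =>
              exact absurd ((dvd_pow_self q (Nat.succ_ne_zero k)).trans (hk ▸ h3)) h1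
          rw [h2]
          exact bot_le
        · have := hcent q hqp ((Q : Subgroup L).map L.subtype) (Q.isPGroup'.map _)
          intro y hy
          exact this ⟨y, hy, rfl⟩
      rwa [Subgroup.subgroupOf_eq_top] at this
    have hLn : L.Normal := by
      rw [← Subgroup.normalizer_eq_top_iff, eq_top_iff, ← hL.sup_eq_top, sup_le_iff]
      refine ⟨?_, Subgroup.le_normalizer⟩
      exact (Subgroup.le_centralizer_iff.1 hLc).trans (Subgroup.centralizer_le_normalizer _)
    exact ⟨P, L, hPn, hLn, hL.disjoint.eq_bot, hL.sup_eq_top⟩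

end Cfsg.Agent.S3986
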