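import Cfsg.Statements.S3987
import Mathlib
import Cfsg.Agent.S3986
import Cfsg.Agent.Lib.Cls.Basic

set_option autoImplicit false
open Cfsg

namespace Cfsg.Agent.S3987

/-- Let p be a prime and G a finite group. Then some Sylow p-subgroup of G is a direct factor of G (normal with a normal complement) if and only if for every element x of p-power order and every element y whose order is a power of a prime other than p, the conjugacy class of x y has as many elements as the product of the sizes of the classes of x and of y. -/
theorem result {G : Type*} [Group G] [Finite G] (p : ℕ) [Fact p.Prime] : (∃ (P : Sylow p G) (K : Subgroup G), (P : Subgroup G).Normal ∧ K.Normal ∧ (P : Subgroup G) ⊓ K = ⊥ ∧ (P : Subgroup G) ⊔ K = ⊤) ↔ ∀ x y : G, (∃ a : ℕ, orderOf x = p ^ a) → (∃ q b : ℕ, q.Prime ∧ q ≠ p ∧ orderOf y = q ^ b) → (Subgroup.centralizer ({x * y} : Set G)).index = (Subgroup.centralizer ({x} : Set G)).index * (Subgroup.centralizer ({y} : Set G)).index := by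
  have hp : p.Prime := Fact.out
  constructor
  · intro h x y hx hy
    have hc := (S3986.result p).1 h
    obtain ⟨P, K, hP, hK, h1, h2⟩ := h
    have hxP : x ∈ (P : Subgroup G) := Cls.mem_sylow_of_mem_normalizer P hx
      (by rw [Subgroup.normalizer_eq_top]; trivial)
    have hcop : (orderOf x).Coprime (orderOf y) := by
      obtain ⟨a, ha⟩ := hx
      obtain ⟨q, b, hq, hqp, hb⟩ := hy
      rw [ha, hb]
      exact Nat.Coprime.pow _ _ ((Nat.coprime_primes hp hq).2 hqp.symm)
    rw [Cls.centralizer_single_mul (hc x y hx hy) hcop]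
    have h3 : K ≤ Subgroup.centralizer {x} := fun k hk =>
      Cls.mem_centralizer_single.2
        (Subgroup.commute_of_normal_of_disjoint _ _ hP hK (disjoint_iff.2 h1) x k hxP hk).symm.eq
    have h4 : (P : Subgroup G) ≤ Subgroup.centralizer {y} := fun k hk => by
      refine Cls.mem_centralizer_single.2 (hc k y ?_ hy)
      obtain ⟨a, ha⟩ := IsPGroup.iff_orderOf.1 P.isPGroup' ⟨k, hk⟩
      exact ⟨a, by rw [← ha, ← Subgroup.orderOf_coe]⟩
    have h5 : K.index = Nat.card P := by
      rw [← Subgroup.relIndex_top_right, ← h2, Subgroup.relIndex_sup_right,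
        ← Subgroup.inf_relIndex_left, h1, Subgroup.relIndex_bot_left]
    obtain ⟨n, hn⟩ := IsPGroup.iff_card.1 P.isPGroup'
    have h6 : (Subgroup.centralizer {x}).index.Coprime (Subgroup.centralizer {y}).index := by
      refine Nat.Coprime.coprime_dvd_left (Subgroup.index_dvd_of_le h3)
        (Nat.Coprime.coprime_dvd_right (Subgroup.index_dvd_of_le h4) ?_)
      rw [h5, hn]
      exact Nat.Coprime.pow_left _ (hp.coprime_iff_not_dvd.2 P.not_dvd_index)
    refine le_antisymm Subgroup.index_inf_le (Nat.le_of_dvd
      (Nat.pos_of_ne_zero Subgroup.index_ne_zero_of_finite) ?_)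
    exact h6.mul_dvd_of_dvd_of_dvd (Subgroup.index_dvd_of_le inf_le_left)
      (Subgroup.index_dvd_of_le inf_le_right)
  · intro h
    refine (S3986.result p).2 fun x y hx hy => ?_
    have h1 : Subgroup.centralizer {x} ⊓ Subgroup.centralizer {y} ≤
        Subgroup.centralizer ({x * y} : Set G) := by
      rintro g ⟨h1, h2⟩
      exact Cls.mem_centralizer_single_commute.2 ((Cls.mem_centralizer_single_commute.1 h1).mul_right
        (Cls.mem_centralizer_single_commute.1 h2))
    have h2 := Subgroup.index_inf_le (H := Subgroup.centralizer {x}) (K := Subgroup.centralizer {y})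
    rw [← h x y hx hy, ← Subgroup.relIndex_mul_index h1] at h2
    have h3 : (Subgroup.centralizer {x} ⊓ Subgroup.centralizer {y}).relIndex
        (Subgroup.centralizer ({x * y} : Set G)) = 1 := by
      have h4 : 0 < (Subgroup.centralizer ({x * y} : Set G)).index :=
        Nat.pos_of_ne_zero Subgroup.index_ne_zero_of_finite
      have h5 : (Subgroup.centralizer {x} ⊓ Subgroup.centralizer {y}).relIndex
        (Subgroup.centralizer ({x * y} : Set G)) ≠ 0 := Subgroup.index_ne_zero_of_finite
      have := Nat.le_of_mul_le_mul_right (h2.trans (one_mul _).ge) h4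
      omega
    have h4 := (Subgroup.relIndex_eq_one.1 h3 (Cls.self_mem_centralizer_single _)).1
    have h5 := Cls.mem_centralizer_single.1 h4
    rw [mul_assoc] at h5
    exact (mul_left_cancel h5).symm

end Cfsg.Agent.S3987
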