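import Cfsg.Statements.S3989
import Cfsg.Agent.Lib.Cls.Basic
import Cfsg.Agent.Lib.Core.MinNormal
import Cfsg.Agent.Lib.Transfer.Frobenius
import Cfsg.Agent.Lib.Coprime.PiSep

set_option autoImplicit false
open Cfsg

namespace Cfsg.Agent.S3989

universe u

open scoped Pointwise in
theorem aux (p : ℕ) [hp : Fact p.Prime] (G : Type u) [Group G] [Finite G] :
    (∀ x y : G, (∃ a : ℕ, orderOf x = p ^ a) → (∃ q b : ℕ, q.Prime ∧ q ≠ p ∧ orderOf y = q ^ b) →
      ∀ a b : G, IsConj (x * y) (a * x * a⁻¹ * (b * y * b⁻¹))) → Cfsg.IsPSolvable p G := by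
  refine Core.induction_on_card (P := fun G _ _ => (∀ x y : G, (∃ a : ℕ, orderOf x = p ^ a) →
    (∃ q b : ℕ, q.Prime ∧ q ≠ p ∧ orderOf y = q ^ b) →
      ∀ a b : G, IsConj (x * y) (a * x * a⁻¹ * (b * y * b⁻¹))) → Cfsg.IsPSolvable p G) ?_ G
  intro G _ _ ih h
  rcases subsingleton_or_nontrivial G with h0 | h0
  · exact Coprime.isPSolvable_of_isSolvable inferInstance
  obtain ⟨N, hN⟩ := Core.exists_isMinNormal (G := G)
  have := hN.normal
  refine Coprime.isPSolvable_of_normal_of_quotient N ?_ (ih _ (Core.card_quotient_lt hN.ne_bot) ?_)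
  · by_cases hc : HasNormalPComplement p N
    · obtain ⟨K, _, h1, h2⟩ := Transfer.hasNormalPComplement_iff_exists_normal.1 hc
      exact Coprime.isPSolvable_of_normal_of_quotient K (Coprime.isPSolvable_of_coprime h1)
        (Coprime.isPSolvable_of_isPGroup h2)
    exfalso
    obtain ⟨P⟩ : Nonempty (Sylow p N) := inferInstance
    obtain ⟨X, hXP, -, q, hq, hqp, g, hg, ⟨k, hk⟩, hgc⟩ :=
      Transfer.exists_prime_pow_not_centralizes hc P
    rw [Subgroup.mem_centralizer_iff] at hgc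
    push Not at hgc
    obtain ⟨v, hv, hvg⟩ := hgc
    have hxX : v * (g * v⁻¹ * g⁻¹) ∈ X :=
      mul_mem hv ((Subgroup.mem_normalizer_iff.1 hg _).1 (inv_mem hv))
    set x : N := v * (g * v⁻¹ * g⁻¹) with hx
    have hx1 : (x : G) ≠ 1 := by
      intro h1
      have h2 : x = 1 := Subtype.ext h1
      apply hvg
      calc v * g = x * (g * v) := by rw [hx]; group
        _ = g * v := by rw [h2, one_mul]
    have hxp : ∃ a, orderOf (x : G) = p ^ a := by
      obtain ⟨a, ha⟩ := (IsPGroup.iff_orderOf.1 P.isPGroup') ⟨x, hXP hxX⟩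
      exact ⟨a, by rw [Subgroup.orderOf_mk] at ha; rw [Subgroup.orderOf_coe, ha]⟩
    have hgq : ∃ q b : ℕ, q.Prime ∧ q ≠ p ∧ orderOf (g : G) = q ^ b :=
      ⟨q, k, hq, hqp, by rw [Subgroup.orderOf_coe, hk]⟩
    have hxg : IsConj (g : G) ((x : G) * g) :=
      isConj_iff.2 ⟨v, by rw [hx]; push_cast; group⟩
    set C : Set G := {z | IsConj (g : G) z} with hC
    have h1 : Subgroup.normalClosure {(x : G)} ≤ MulAction.stabilizer G C := by
      rw [Subgroup.normalClosure, Subgroup.closure_le]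
      intro w hw
      obtain ⟨y, hy, hw⟩ := Group.mem_conjugatesOfSet_iff.1 hw
      rw [Set.mem_singleton_iff] at hy
      subst hy
      obtain ⟨a, rfl⟩ := isConj_iff.1 hw
      rw [SetLike.mem_coe, MulAction.mem_stabilizer_set_iff_smul_set_subset (Set.toFinite C)]
      rintro _ ⟨z, hz, rfl⟩
      obtain ⟨b, rfl⟩ := isConj_iff.1 hz
      exact hxg.trans (h _ _ hxp hgq a b)
    have h2 : Subgroup.normalClosure {(x : G)} = N :=
      hN.eq_of_le (Subgroup.normalClosure_le_normal (by simp)) fun h3 => hx1 <| by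
        have := Subgroup.subset_normalClosure (Set.mem_singleton (x : G))
        rwa [h3, SetLike.mem_coe, Subgroup.mem_bot] at this
    have h3 : (g : G)⁻¹ • C = C := h1 (h2.ge (inv_mem g.2))
    have h4 : (1 : G) ∈ C := h3 ▸ ⟨g, IsConj.refl _, inv_mul_cancel _⟩
    have h5 : g = 1 := Subtype.ext (isConj_one_left.1 h4)
    exact hvg (by rw [h5, mul_one, one_mul])
  · rintro x y hx ⟨q, b, hq, hqp, hy⟩ a c
    obtain ⟨x, rfl⟩ := QuotientGroup.mk'_surjective N x
    obtain ⟨y, rfl⟩ := QuotientGroup.mk'_surjective N y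
    obtain ⟨a, rfl⟩ := QuotientGroup.mk'_surjective N a
    obtain ⟨c, rfl⟩ := QuotientGroup.mk'_surjective N c
    obtain ⟨u, -, hu, hu'⟩ := Cls.exists_p_lift hp.out _ x hx
    obtain ⟨v, -, hv, k, hv'⟩ := Cls.exists_p_lift hq _ y ⟨b, hy⟩
    have := (QuotientGroup.mk' N).map_isConj (h u v hu' ⟨q, k, hq, hqp, hv'⟩ a c)
    simpa only [map_mul, map_inv, hu, hv] using this

/-- Let p be a prime and G a finite group such that for every element x of p-power order and every element y whose order is a power of a prime other than p, the conjugacy class of x y is the set of all products of a conjugate of x with a conjugate of y. Then G is p-solvable. -/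
theorem result {G : Type*} [Group G] [Finite G] (p : ℕ) [Fact p.Prime] (h : ∀ x y : G, (∃ a : ℕ, orderOf x = p ^ a) → (∃ q b : ℕ, q.Prime ∧ q ≠ p ∧ orderOf y = q ^ b) → ∀ z : G, IsConj (x * y) z ↔ ∃ a b : G, z = a * x * a⁻¹ * (b * y * b⁻¹)) : Cfsg.IsPSolvable p G := by
  exact aux p G fun x y hx hy a b => (h x y hx hy _).2 ⟨a, b, rfl⟩

end Cfsg.Agent.S3989
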