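import Cfsg.Statements.S4009
import Mathlib
import Cfsg.Agent.Lib.Reg.IterComm

set_option autoImplicit false
open Cfsg

namespace Cfsg.Agent.S4009

/-- Let P be a finite p-group of order p^n whose derived length is exactly k + 1 (the k-th derived subgroup is nontrivial and the (k+1)-st is trivial). Then n ≥ 2^k + 2k − 2. -/
theorem result {P : Type*} [Group P] [Finite P] (p : ℕ) [Fact p.Prime] (n k : ℕ) (hcard : Nat.card P = p ^ n) (hk : derivedSeries P k ≠ ⊥) (hk' : derivedSeries P (k + 1) = ⊥) : 2 ^ k + 2 * k ≤ n + 2 := by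
  classical
  have hp1 := (Fact.out : p.Prime).one_lt
  have hP : IsPGroup p P := IsPGroup.of_card hcard
  have hne : ∀ i, i < k → ⁅derivedSeries P i, derivedSeries P i⁆ ≠ ⊥ := fun i hi h => hk
    (eq_bot_iff.mpr ((derivedSeries_antitone P (by omega : i + 1 ≤ k)).trans h.le))
  have hall : ∀ i, i < k → Nat.card (derivedSeries P (i + 1)) * p ^ (2 ^ i + 1) ≤
      Nat.card (derivedSeries P i) := fun i hi => by
    have := Reg.card_commutator_mul_pow_le hP (Reg.derivedSeries_le_lowerCentralSeries i) (hne i hi)
    have h1 := Nat.one_le_two_pow (n := i)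
    rwa [show 2 ^ i - 1 + 2 = 2 ^ i + 1 by omega] at this
  obtain ⟨d, hd⟩ : ∃ d, ∀ i, i < k → i ≠ d → i ≠ d + 1 →
      Nat.card (derivedSeries P (i + 1)) * p ^ (2 ^ i + 2) ≤ Nat.card (derivedSeries P i) := by
    by_cases hex : ∃ i, i < k ∧
        ¬ Nat.card (derivedSeries P (i + 1)) * p ^ (2 ^ i + 2) ≤ Nat.card (derivedSeries P i)
    swap
    · push Not at hex
      exact ⟨0, fun i hi _ _ => hex i hi⟩
    refine ⟨Nat.find hex, fun i hi h1 h2 => ?_⟩
    obtain ⟨hd1, hd2⟩ := Nat.find_spec hex
    set d := Nat.find hex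
    rcases lt_or_gt_of_ne h1 with h | h
    · by_contra h3
      exact Nat.find_min hex h ⟨hi, h3⟩
    have h4 := Nat.one_le_two_pow (n := d)
    obtain ⟨c, hc, hc'⟩ := (Reg.card_commutator_mul_pow_le_or hP
      (Reg.derivedSeries_le_lowerCentralSeries d) (hne d hd1)).resolve_left (by
        rwa [show 2 ^ d - 1 + 3 = 2 ^ d + 2 by omega])
    have h5 : ∀ j, derivedSeries P (d + 2 + j) ≤
        (⊤ : Subgroup P).lowerCentralSeries (2 ^ (d + 2 + j)) := by
      intro j
      induction j with
      | zero =>
        have h6 := Reg.derivedSeries_le_lowerCentralSeries (G := P) (d + 1)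
        refine (Reg.commutator_le_of_le_zpowers_sup hc hc').trans ?_
        refine (Subgroup.commutator_mono (Subgroup.commutator_mono h6 le_rfl) h6).trans ?_
        refine (Reg.commutator_lowerCentralSeries_le ⊤ (2 ^ (d + 1) - 1 + 1) _).trans (le_of_eq ?_)
        congr 1
        simp only [add_zero, pow_succ]
        omega
      | succ j ih =>
        refine (Subgroup.commutator_mono ih ih).trans
          ((Reg.commutator_lowerCentralSeries_le ⊤ _ _).trans
            (Subgroup.lowerCentralSeries_antitone _ ?_))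
        rw [← add_assoc, pow_succ]
        omega
    obtain ⟨j, rfl⟩ : ∃ j, i = d + 2 + j := ⟨i - (d + 2), by omega⟩
    exact Reg.card_commutator_mul_pow_le hP (h5 j) (hne _ hi)
  have key : ∀ j, j ≤ k →
      Nat.card (derivedSeries P j) * p ^ (2 ^ j + 2 * j - 1 - min 2 (j - d)) ≤ Nat.card P := by
    intro j
    induction j with
    | zero => simp
    | succ j ih =>
      intro hj
      refine le_trans ?_ (ih (by omega))
      have h4 := Nat.lt_two_pow_self (n := j)
      by_cases h : j = d ∨ j = d + 1
      · refine le_trans ?_ (Nat.mul_le_mul_right _ (hall j hj))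
        rw [mul_assoc, ← pow_add]
        refine Nat.mul_le_mul_left _ (Nat.pow_le_pow_right hp1.le ?_)
        rw [pow_succ]
        omega
      · push Not at h
        refine le_trans ?_ (Nat.mul_le_mul_right _ (hd j hj h.1 h.2))
        rw [mul_assoc, ← pow_add]
        refine Nat.mul_le_mul_left _ (Nat.pow_le_pow_right hp1.le ?_)
        rw [pow_succ]
        omega
  have h1 := key k le_rfl
  have h2 : p ≤ Nat.card (derivedSeries P k) := by
    simpa using Nat.le_of_dvd Nat.card_pos
      (PGrp.mul_card_dvd_of_lt (hP.to_subgroup _) (bot_lt_iff_ne_bot.mpr hk))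
  have h3 := (Nat.mul_le_mul_right _ h2).trans h1
  rw [← pow_succ', hcard, Nat.pow_le_pow_iff_right hp1] at h3
  have h4 := Nat.lt_two_pow_self (n := k)
  omega

end Cfsg.Agent.S4009
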