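import Cfsg.Statements.S4010
import Mathlib
import Cfsg.Agent.Lib.Reg.LinDerived

set_option autoImplicit false
open Cfsg

namespace Cfsg.Agent.S4010

/-- Let F be a field, n ≥ 1, and P a finite p-group (p a prime) admitting an injective homomorphism into the general linear group of degree n over F. Then the derived length of P is at most ⌊log₂ n⌋ + 1: that term of the derived series of P is trivial. -/
theorem result {P : Type*} [Group P] [Finite P] (p : ℕ) [Fact p.Prime] (hP : IsPGroup p P) (F : Type*) [Field F] (n : ℕ) (hn : 1 ≤ n) (ρ : P →* Matrix.GeneralLinearGroup (Fin n) F) (hρ : Function.Injective ρ) : derivedSeries P (Nat.log 2 n + 1) = ⊥ := by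
  let σ : Representation F P (Fin n → F) :=
    ((Matrix.toLinAlgEquiv' (R := F) (n := Fin n)).toMonoidHom.comp (Units.coeHom _)).comp ρ
  have hσ : Function.Injective σ :=
    (Matrix.toLinAlgEquiv'.injective.comp Units.val_injective).comp hρ
  have hn' : n < 2 ^ (Nat.log 2 n + 1) := Nat.lt_pow_succ_log_self one_lt_two n
  by_cases hk : (p : F) = 0
  · have : CharP F p := (CharP.charP_iff_prime_eq_zero Fact.out).2 hk
    rw [eq_bot_iff, ← (MonoidHom.ker_eq_bot_iff σ).2 hσ]
    exact Reg.derivedSeries_le_ker_of_charP hP (by simpa using hn'.le)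
  · refine Reg.derivedSeries_eq_bot_of_finrank_lt (e := 1) hk (fun _ => le_rfl) ?_ n P _ σ hP
      (by simp) hσ _ ?_
    · intro V _ _ _ f _ hf
      by_contra h
      have := Module.finrank_zero_iff.1 (show Module.finrank F V = 0 by omega)
      exact hf (Subsingleton.elim _ _)
    · rw [one_mul]
      exact hn'.trans_le (Nat.pow_le_pow_left (Fact.out : p.Prime).two_le _)

end Cfsg.Agent.S4010
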