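import Cfsg.Statements.S4013
import Mathlib

set_option autoImplicit false
open Cfsg

namespace Cfsg.Agent.S4013


/-- Let G be a finite p-group (p prime) and N < M normal subgroups of G such that for some g ∈ M ∖ N the conjugacy class of g is exactly M ∖ N. Then p = 2 and N has index 2 in M. -/
theorem result {G : Type*} [Group G] [Finite G] (p : ℕ) [Fact p.Prime] (hG : IsPGroup p G) (N M : Subgroup G) [N.Normal] [M.Normal] (hNM : N < M) (g : G) (hgM : g ∈ M) (hgN : g ∉ N) (hcl : {h : G | IsConj g h} = (M : Set G) \ (N : Set G)) : p = 2 ∧ N.relIndex M = 2 := by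
  classical
  have hp : p.Prime := Fact.out
  have hcard : Nat.card {h : G | IsConj g h} = Nat.card M - Nat.card N := by
    rw [hcl]
    have h1 : (N : Set G) ⊆ (M : Set G) := hNM.le
    have := Set.ncard_sdiff h1
    rw [Nat.card_coe_set_eq, this]
    rfl
  have horb : {h : G | IsConj g h} = MulAction.orbit (ConjAct G) g := by
    ext h
    rw [ConjAct.mem_orbit_conjAct, Set.mem_ofPred_eq]
    exact ⟨IsConj.symm, IsConj.symm⟩
  have hG' : IsPGroup p (ConjAct G) := hG
  obtain ⟨k, hk⟩ := hG'.card_orbit g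
  rw [← horb, hcard] at hk
  have hrel : N.relIndex M * Nat.card N = Nat.card M := by
    have h1 := (N.subgroupOf M).index_mul_card
    rw [Nat.card_congr (Subgroup.subgroupOfEquivOfLe hNM.le).toEquiv] at h1
    exact h1
  obtain ⟨a, ha⟩ : ∃ a, N.relIndex M = p ^ a := by
    have hM : IsPGroup p M := hG.to_subgroup M
    exact hM.index (N.subgroupOf M)
  have ha0 : a ≠ 0 := by
    rintro rfl
    rw [pow_zero, Subgroup.relIndex_eq_one] at ha
    exact absurd ha (not_le_of_gt hNM)
  have hdvd : p ^ a - 1 ∣ p ^ k := by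
    rw [← hk, ← hrel, ha]
    exact ⟨Nat.card N, by rw [Nat.sub_mul, one_mul]⟩
  obtain ⟨j, -, hj⟩ := (Nat.dvd_prime_pow hp).1 hdvd
  have hpos : 1 ≤ p ^ a := Nat.one_le_pow _ _ hp.pos
  have hj0 : j = 0 := by
    by_contra hj0
    have h1 : p ∣ p ^ a := dvd_pow_self p ha0
    have h2 : p ∣ p ^ a - 1 := hj ▸ dvd_pow_self p hj0
    have h3 : p ∣ p ^ a - (p ^ a - 1) := Nat.dvd_sub h1 h2
    rw [Nat.sub_sub_self hpos] at h3
    exact hp.one_lt.ne' (Nat.dvd_one.1 h3)
  have h2 : p ^ a = 2 := by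
    rw [hj0, pow_zero] at hj
    omega
  refine ⟨?_, ha.trans h2⟩
  have : p ∣ 2 := h2 ▸ dvd_pow_self p ha0
  exact (Nat.prime_dvd_prime_iff_eq hp Nat.prime_two).1 this

end Cfsg.Agent.S4013
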