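import Cfsg.Statements.S4014
import Mathlib
import Cfsg.Agent.Lib.Reg.Wreath

set_option autoImplicit false
open Cfsg

namespace Cfsg.Agent.S4014

/-- Let p be a prime, n ≥ 1, and P a Sylow p-subgroup of the symmetric group on n letters. Then the derived length of P is exactly k = ⌊log_p n⌋ (the largest k with p^k ≤ n): the k-th derived subgroup of P is trivial and, when k ≥ 1, the (k−1)-st is not. -/
theorem result (p : ℕ) [Fact p.Prime] (n : ℕ) (hn : 1 ≤ n) (P : Sylow p (Equiv.Perm (Fin n))) : derivedSeries ↥(P : Subgroup (Equiv.Perm (Fin n))) (Nat.log p n) = ⊥ ∧ (1 ≤ Nat.log p n → derivedSeries ↥(P : Subgroup (Equiv.Perm (Fin n))) (Nat.log p n - 1) ≠ ⊥) := by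
  have hp : p.Prime := Fact.out
  constructor
  · rw [eq_bot_iff]
    intro g hg
    have h1 : ∀ i : Fin n, g ∈ MulAction.stabilizer (P : Subgroup (Equiv.Perm (Fin n))) i := by
      intro i
      refine Reg.derivedSeries_le_of_index_lt (p := p) _ _ P.isPGroup' _ ?_ hg
      rw [MulAction.index_stabilizer]
      refine lt_of_le_of_lt ?_ (Nat.lt_pow_succ_log_self hp.one_lt n)
      simpa using Set.ncard_le_card (MulAction.orbit (P : Subgroup (Equiv.Perm (Fin n))) i)
    exact Subtype.ext (Equiv.ext h1)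
  · intro hk
    obtain ⟨Q, α, _, _, _, f, hQ, hf, hα, h⟩ :=
      Reg.exists_perm_derivedSeries_ne_bot (p := p) (Nat.log p n - 1)
    rw [Nat.sub_add_cancel hk] at hα
    have := Fintype.ofFinite α
    obtain ⟨ι⟩ : Nonempty (α ↪ Fin n) := Function.Embedding.nonempty_of_card_le (by
      rw [← Nat.card_eq_fintype_card, hα, Fintype.card_fin]
      exact Nat.pow_log_le_self p (by omega))
    exact Reg.sylow_derivedSeries_ne_bot P hQ ((Equiv.Perm.viaEmbeddingHom ι).comp f)
      ((Equiv.Perm.viaEmbeddingHom_injective ι).comp hf) h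

end Cfsg.Agent.S4014
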