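import Cfsg.Statements.S4015
import Mathlib
import Cfsg.Agent.Lib.Reg.Wreath

set_option autoImplicit false
open Cfsg

namespace Cfsg.Agent.S4015

/-- Let p be an odd prime, F a finite field with q elements where p does not divide q, and e the multiplicative order of q modulo p. Let n ≥ e and write w = ⌊n/e⌋ and k = ⌊log_p w⌋. Then a Sylow p-subgroup of GL(n, F) has derived length exactly k + 1: its (k+1)-st derived subgroup is trivial and its k-th is not. -/
theorem result (p : ℕ) [Fact p.Prime] (hp : p ≠ 2) (F : Type*) [Field F] [Fintype F] (q : ℕ) (hq : Fintype.card F = q) (hpq : ¬ p ∣ q) (n : ℕ) (hn : orderOf (q : ZMod p) ≤ n) (P : Sylow p (Matrix.GeneralLinearGroup (Fin n) F)) : derivedSeries ↥(P : Subgroup (Matrix.GeneralLinearGroup (Fin n) F)) (Nat.log p (n / orderOf (q : ZMod p)) + 1) = ⊥ ∧ derivedSeries ↥(P : Subgroup (Matrix.GeneralLinearGroup (Fin n) F)) (Nat.log p (n / orderOf (q : ZMod p))) ≠ ⊥ := by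
  have hpp : p.Prime := Fact.out
  subst hq
  set e := orderOf (Fintype.card F : ZMod p) with he
  have he0 : 0 < e := by
    rw [Nat.pos_iff_ne_zero]
    intro h
    have := (Reg.dvd_card_GL_iff hpq 0).2 (he ▸ h.le)
    rw [Matrix.card_GL_field] at this
    exact hpp.one_lt.ne' (by simpa using this)
  constructor
  · let σ : Representation F (P : Subgroup (Matrix.GeneralLinearGroup (Fin n) F)) (Fin n → F) :=
      ((Matrix.toLinAlgEquiv' (R := F) (n := Fin n)).toMonoidHom.comp (Units.coeHom _)).comp
        (Subgroup.subtype _)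
    have hσ : Function.Injective σ :=
      (Matrix.toLinAlgEquiv'.injective.comp Units.val_injective).comp Subtype.val_injective
    have hk : (p : F) ≠ 0 := fun h => by
      have := (CharP.charP_iff_prime_eq_zero hpp).2 h
      obtain ⟨m, -, hm⟩ := FiniteField.card F p
      exact hpq (hm ▸ dvd_pow_self p m.ne_zero)
    refine Reg.derivedSeries_eq_bot_of_finrank_lt (e := e) hk (fun h => absurd h hp) ?_ n _ _ σ
      P.isPGroup' (by simp) hσ _ ?_
    · intro V _ _ _ f hf hf1
      rw [he, ← Reg.dvd_card_GL_iff hpq]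
      let b := Module.finBasis F V
      have h1 : orderOf (LinearMap.toMatrixAlgEquiv b f) = p := by
        rw [← orderOf_eq_prime hf hf1]
        exact orderOf_injective (LinearMap.toMatrixAlgEquiv b).toMonoidHom
          (LinearMap.toMatrixAlgEquiv b).injective f
      have h2 : IsUnit (LinearMap.toMatrixAlgEquiv b f) :=
        (orderOf_pos_iff.1 (h1 ▸ hpp.pos)).isUnit
      rw [← h2.unit_spec, orderOf_units] at h1
      exact h1 ▸ orderOf_dvd_natCard _
    · rw [mul_comm, ← Nat.div_lt_iff_lt_mul he0]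
      exact Nat.lt_pow_succ_log_self hpp.one_lt _
  · obtain ⟨g, hg⟩ := exists_prime_orderOf_dvd_card' p ((Reg.dvd_card_GL_iff hpq e).2 he.ge)
    obtain ⟨Q, V, _, _, _, _, _, ρ, hQ, hρ, hV, h⟩ :=
      Reg.exists_rep_derivedSeries_ne_bot g hg (Nat.log p (n / e))
    obtain ⟨f, hf⟩ := Reg.exists_injective_GL ρ hρ (n := n) (by
      rw [hV, mul_comm, ← Nat.le_div_iff_mul_le he0]
      exact Nat.pow_log_le_self p (Nat.div_pos hn he0).ne')
    exact Reg.sylow_derivedSeries_ne_bot P hQ f hf h

end Cfsg.Agent.S4015
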