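import Cfsg.Statements.S4020
import Cfsg.Agent.Lib.PGrp.ConjOrder
import Cfsg.Agent.Lib.PGrp.ExtraspecialTwo
import Cfsg.Agent.Lib.Transfer.SylowIn

set_option autoImplicit false
open Cfsg

namespace Cfsg.Agent.S4020

open Subgroup Cfsg.Agent.PGrp Cfsg.Agent.Coprime
open scoped commutatorElement

section

variable {G : Type*} [Group G] [Finite G] {p : ℕ} [hp : Fact p.Prime]

theorem card_zc {Q : Subgroup G} (hQ : Nat.card Q = p ^ 3) (hna : ¬ IsMulCommutative Q) :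
    Nat.card ↥(Q ⊓ centralizer (Q : Set G)) = p :=
  IsExtraspecial.card_inf_centralizer (isExtraspecial_of_card_eq_cube hQ hna)

theorem transv {Q : Subgroup G} (hQ : Nat.card Q = p ^ 3) (hna : ¬ IsMulCommutative Q) {x z : G}
    (hx : x ∈ Q) (hx' : x ∉ centralizer (Q : Set G)) (hz : z ∈ Q ⊓ centralizer (Q : Set G)) :
    ∃ a ∈ Q, a * x * a⁻¹ = z * x := by
  have hE := isExtraspecial_of_card_eq_cube hQ hna
  have hc := IsExtraspecial.commutator_eq hE
  rw [mem_centralizer_iff] at hx'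
  push Not at hx'
  obtain ⟨a, ha, hax⟩ := hx'
  have h1 : ⁅a, x⁆ ∈ Q ⊓ centralizer (Q : Set G) := hc ▸ commutator_mem_commutator ha hx
  have h2 : ⁅a, x⁆ ≠ 1 := fun h => hax (commutatorElement_eq_one_iff_mul_comm.mp h)
  have h3 : zpowers ⁅a, x⁆ = Q ⊓ centralizer (Q : Set G) :=
    eq_of_le_of_card_prime (zpowers_le.mpr h1) (card_zc hQ hna) (by simpa using h2)
  rw [← h3, mem_zpowers_iff] at hz
  obtain ⟨n, rfl⟩ := hz
  refine ⟨a ^ n, Q.zpow_mem ha n, ?_⟩
  rw [← commutatorElement_zpow_left_of_commute (h1.2 a ha).symm, commutatorElement_def]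
  group

theorem le_norm {Q V : Subgroup G} (hQ : Nat.card Q = p ^ 3) (hV : Nat.card V = p ^ 2)
    (h : V ≤ Q) : Q ≤ normalizer (V : Set G) := by
  have hQp : IsPGroup p Q := IsPGroup.of_card hQ
  have hlt : V < Q := lt_of_le_of_ne h fun e => by
    rw [e, hQ] at hV
    have := Nat.pow_right_injective hp.out.two_le hV
    omega
  have h1 := lt_inf_normalizer hQp hlt
  have h2 := mul_card_dvd_of_lt (hQp.to_le inf_le_left) h1
  rw [hV, ← pow_succ, ← hQ] at h2
  have h3 := eq_of_le_of_card_eq (inf_le_left : Q ⊓ normalizer (V : Set G) ≤ Q)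
    (Nat.dvd_antisymm (card_dvd_of_le inf_le_left) h2)
  rw [← h3]; exact inf_le_right

theorem zc_le {Q V : Subgroup G} (hQ : Nat.card Q = p ^ 3) (hna : ¬ IsMulCommutative Q)
    (hV : Nat.card V = p ^ 2) (h : V ≤ Q) : Q ⊓ centralizer (Q : Set G) ≤ V := by
  have hb : V ≠ ⊥ := fun e => by
    rw [e, card_bot] at hV
    exact (Nat.one_lt_pow two_ne_zero hp.out.one_lt).ne hV
  have h1 := inf_centralizer_ne_bot (IsPGroup.of_card hQ) (IsPGroup.of_card hV) (le_norm hQ hV h) hb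
  rw [← eq_of_le_of_card_prime (inf_le_inf_right _ h) (card_zc hQ hna) h1]
  exact inf_le_left

/-- The configuration to be excluded. -/
structure Cfg (p : ℕ) (G : Type*) [Group G] : Prop where
  conj : ConjP p G
  conj2 : ConjP 2 G
  ne2 : p ≠ 2
  le : ∀ Q : Subgroup G, IsPGroup p Q → Nat.card Q ≤ p ^ 3
  ex : ∃ Q : Subgroup G, Nat.card Q = p ^ 3
  na : ∀ Q : Subgroup G, Nat.card Q = p ^ 3 → ¬ IsMulCommutative Q

theorem Cfg.card_syl (h : Cfg p G) {Q R K : Subgroup G} (hQ : IsSylowIn p Q K) (hR : R ≤ K)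
    (hc : Nat.card R = p ^ 3) : Nat.card Q = p ^ 3 := by
  obtain ⟨g, -, hg⟩ := hQ.exists_le_conj hR (IsPGroup.of_card hc)
  have h1 := card_le_of_le hg
  rw [card_map_of_injective (MulAut.conj g).injective, hc] at h1
  exact le_antisymm (h.le Q hQ.2.1) h1

omit [Finite G] in
theorem Cfg.odd (h : Cfg p G) : Odd p := hp.out.odd_of_ne_two h.ne2

omit [Finite G] in
theorem Cfg.ne_inv (h : Cfg p G) {V : Subgroup G} (hV : IsPGroup p V) {v : G} (hv : v ∈ V)
    (h1 : v = v⁻¹) : v = 1 := by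
  obtain ⟨k, hk⟩ := hV ⟨v, hv⟩
  have h2 : v ^ p ^ k = 1 := congrArg Subtype.val hk
  have h3 : v ^ 2 = 1 := by rw [sq]; nth_rewrite 2 [h1]; exact mul_inv_cancel v
  have h4 : orderOf v ∣ Nat.gcd 2 (p ^ k) :=
    Nat.dvd_gcd (orderOf_dvd_of_pow_eq_one h3) (orderOf_dvd_of_pow_eq_one h2)
  rw [Nat.Coprime.gcd_eq_one (Nat.coprime_two_left.mpr h.odd.pow), Nat.dvd_one] at h4
  exact orderOf_eq_one_iff.mp h4

theorem Cfg.exists_w (h : Cfg p G) {V : Subgroup G} (hV : Nat.card V = p ^ 2) :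
    ∃ a b : G, (∃ k, a ^ p ^ k = 1) ∧ (∃ k, b ^ p ^ k = 1) ∧
      a * b * a ∈ normalizer (V : Set G) ∧
      ∀ v ∈ V, (a * b * a) ^ 2 * v * ((a * b * a) ^ 2)⁻¹ = v⁻¹ := by
  have hVp : IsPGroup p V := IsPGroup.of_card hV
  have hVc : ∀ u ∈ V, ∀ v ∈ V, u * v = v * u := fun u hu v hv => congrArg Subtype.val
    ((IsPGroup.isMulCommutative_of_card_eq_prime_sq hV).is_comm.comm ⟨u, hu⟩ ⟨v, hv⟩)
  obtain ⟨R, hR⟩ := h.ex
  obtain ⟨P, hP, hVP⟩ := exists_isSylowIn_ge (le_top (a := V)) hVp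
  have hPc := h.card_syl hP le_top hR
  have hPn := h.na P hPc
  set Z := P ⊓ centralizer (P : Set G) with hZ
  have hZc : Nat.card Z = p := card_zc hPc hPn
  have hZV : Z ≤ V := zc_le hPc hPn hV hVP
  have hlt : Z < V := lt_of_le_of_ne hZV fun e => by
    rw [← e, hZc] at hV
    have := hp.out.one_lt
    nlinarith
  obtain ⟨x, hxV, hxZ⟩ := SetLike.exists_of_lt hlt
  have hZb : Z ≠ ⊥ := fun e => by
    rw [e, card_bot] at hZc
    exact hp.out.one_lt.ne hZc
  obtain ⟨⟨z, hz⟩, hz1⟩ := ne_bot_iff_exists_ne_one.mp hZb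
  have hz1' : z ≠ 1 := fun e => hz1 (Subtype.ext e)
  have hzZ : zpowers z = Z := eq_of_le_of_card_prime (zpowers_le.mpr hz) hZc (by simpa using hz1')
  have hx1 : x ≠ 1 := fun e => hxZ (e ▸ Z.one_mem)
  have hr : ¬ PRankLE p 1 G := fun hr => by
    have := isCyclic_of_rank_le_one_of_odd hP.2.1 h.ne2 (pRankLE_subgroup hr P)
    exact hPn inferInstance
  have hxp : x ^ p = 1 := h.conj.conjAbP.pow_eq_one hr hVp hxV
  have hxo : orderOf x = p := orderOf_eq_prime hxp hx1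
  obtain ⟨g, hg⟩ := h.conj Z (zpowers x) (hVp.to_le hZV) (hVp.to_le (zpowers_le.mpr hxV))
    (by rw [hZc, Nat.card_zpowers, hxo])
  have hPg : P.map (MulAut.conj g).toMonoidHom ≤ centralizer {x} := by
    rintro _ ⟨u, hu, rfl⟩
    have : x ∈ Z.map (MulAut.conj g).toMonoidHom := hg ▸ mem_zpowers x
    obtain ⟨y, hy, rfl⟩ := this
    rw [mem_centralizer_singleton_iff, ← map_mul, ← map_mul, hy.2 u hu]
  obtain ⟨P1, hP1, hVP1⟩ := exists_isSylowIn_ge (U := V) (G := centralizer {x})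
    (fun v hv => mem_centralizer_singleton_iff.mpr (hVc v hv x hxV)) hVp
  have hP1c := h.card_syl hP1 hPg (by rw [card_map_of_injective (MulAut.conj g).injective, hPc])
  have hP1n := h.na P1 hP1c
  have hxZ1 : x ∈ P1 ⊓ centralizer (P1 : Set G) :=
    ⟨hVP1 hxV, fun u hu => mem_centralizer_singleton_iff.mp (hP1.1 hu)⟩
  have hzZ1 : z ∉ centralizer (P1 : Set G) := fun hc => by
    have := eq_of_le_of_card_prime (zpowers_le.mpr (show z ∈ P1 ⊓ centralizer (P1 : Set G) from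
      ⟨hVP1 (hZV hz), hc⟩)) (card_zc hP1c hP1n) (by simpa using hz1')
    rw [← this, hzZ] at hxZ1
    exact hxZ hxZ1
  obtain ⟨a, ha, hax⟩ := transv hPc hPn (hVP hxV) (fun hc => hxZ ⟨hVP hxV, hc⟩) hz
  obtain ⟨b, hb, hbz⟩ := transv hP1c hP1n (hVP1 (hZV hz)) hzZ1 (inv_mem hxZ1)
  have haz : a * z * a⁻¹ = z := by rw [hz.2 a ha]; group
  have hbx : b * x * b⁻¹ = x := by rw [hxZ1.2 b hb]; group
  have hxz : x * z = z * x := hVc x hxV z (hZV hz)
  have hwx : a * b * a * x * (a * b * a)⁻¹ = z := by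
    calc a * b * a * x * (a * b * a)⁻¹ = a * b * (a * x * a⁻¹) * b⁻¹ * a⁻¹ := by group
      _ = a * ((b * z * b⁻¹) * (b * x * b⁻¹)) * a⁻¹ := by rw [hax]; group
      _ = a * (x⁻¹ * (z * x)) * a⁻¹ := by rw [hbz, hbx]; group
      _ = z := by rw [← hxz, inv_mul_cancel_left, haz]
  have hwz : a * b * a * z * (a * b * a)⁻¹ = x⁻¹ := by
    calc a * b * a * z * (a * b * a)⁻¹ = a * b * (a * z * a⁻¹) * b⁻¹ * a⁻¹ := by group
      _ = a * (b * z * b⁻¹) * a⁻¹ := by rw [haz]; group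
      _ = (a * x * a⁻¹)⁻¹ * (a * z * a⁻¹) := by rw [hbz]; group
      _ = x⁻¹ := by rw [hax, haz]; group
  have hpow : ∀ Q : Subgroup G, IsPGroup p Q → ∀ u ∈ Q, ∃ k, u ^ p ^ k = 1 := fun Q hQ u hu => by
    obtain ⟨k, hk⟩ := hQ ⟨u, hu⟩
    exact ⟨k, congrArg Subtype.val hk⟩
  have han := le_norm hPc hV hVP ha
  refine ⟨a, b, hpow P hP.2.1 a ha, hpow P1 hP1.2.1 b hb,
    mul_mem (mul_mem han (le_norm hP1c hV hVP1 hb)) han, ?_⟩
  set w := a * b * a
  let I : Subgroup G :=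
    { carrier := {v | v ∈ V ∧ w ^ 2 * v * (w ^ 2)⁻¹ = v⁻¹}
      one_mem' := ⟨V.one_mem, by simp⟩
      mul_mem' := by
        rintro u v ⟨hu, hu'⟩ ⟨hv, hv'⟩
        refine ⟨mul_mem hu hv, ?_⟩
        rw [hVc u hu v hv, mul_inv_rev, ← hu', ← hv', hVc v hv u hu]; group
      inv_mem' := by
        rintro u ⟨hu, hu'⟩
        refine ⟨inv_mem hu, ?_⟩
        calc w ^ 2 * u⁻¹ * (w ^ 2)⁻¹ = (w ^ 2 * u * (w ^ 2)⁻¹)⁻¹ := by group
          _ = u⁻¹⁻¹ := by rw [hu'] }
  have hxI : x ∈ I := ⟨hxV, by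
    calc w ^ 2 * x * (w ^ 2)⁻¹ = w * (w * x * w⁻¹) * w⁻¹ := by rw [sq]; group
      _ = x⁻¹ := by rw [hwx, hwz]⟩
  have hzI : z ∈ I := ⟨hZV hz, by
    calc w ^ 2 * z * (w ^ 2)⁻¹ = w * (w * z * w⁻¹) * w⁻¹ := by rw [sq]; group
      _ = (w * x * w⁻¹)⁻¹ := by rw [hwz]; group
      _ = z⁻¹ := by rw [hwx]⟩
  have hIV : I ≤ V := fun v hv => hv.1
  have hZI : Z < I := lt_of_le_of_ne (hzZ ▸ zpowers_le.mpr hzI) fun e => hxZ (e ▸ hxI)
  have h2 := mul_card_dvd_of_lt (hVp.to_le hIV) hZI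
  rw [hZc, ← sq, ← hV] at h2
  have h3 := eq_of_le_of_card_eq hIV (Nat.dvd_antisymm (card_dvd_of_le hIV) h2)
  intro v hv
  rw [← h3] at hv
  exact hv.2

omit [Finite G] in
theorem conj_pow_odd {c v : G} (h : c * v * c⁻¹ = v⁻¹) {m : ℕ} (hm : Odd m) :
    c ^ m * v * (c ^ m)⁻¹ = v⁻¹ := by
  have := pow_conj_eq (g := c) (x := v) (k := -1) (by simpa using h) m
  rw [this, hm.neg_one_pow]; simp

theorem Cfg.exists_s (h : Cfg p G) {V : Subgroup G} (hV : Nat.card V = p ^ 2) :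
    PRankLE 2 1 G ∧ ∃ s ∈ normalizer (V : Set G), orderOf s = 2 ∧ ∀ v ∈ V, s * v * s⁻¹ = v⁻¹ := by
  have hVp : IsPGroup p V := IsPGroup.of_card hV
  obtain ⟨a, b, ⟨i, ha⟩, ⟨j, hb⟩, hn, hw⟩ := h.exists_w hV
  set w := a * b * a with hwd
  obtain ⟨k, m, hm, hkm⟩ := Nat.exists_eq_two_pow_mul_odd (orderOf_pos w).ne'
  set t := w ^ m with ht
  have ht1 : t ^ 2 ^ k = 1 := by rw [ht, ← pow_mul, mul_comm, ← hkm, pow_orderOf_eq_one]
  have ht2 : ∀ v ∈ V, t ^ 2 * v * (t ^ 2)⁻¹ = v⁻¹ := fun v hv => by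
    rw [ht, ← pow_mul, mul_comm m, pow_mul]
    exact conj_pow_odd (hw v hv) hm
  have ht3 : t ^ 2 ≠ 1 := fun e => by
    have hb : V ≠ ⊥ := fun e => by
      rw [e, card_bot] at hV
      exact (Nat.one_lt_pow two_ne_zero hp.out.one_lt).ne hV
    refine hb (eq_bot_iff.mpr fun v hv => mem_bot.mpr (h.ne_inv hVp hv ?_))
    simpa [e] using ht2 v hv
  have htp : IsPGroup 2 (zpowers t) := by
    obtain ⟨l, -, hl⟩ := (Nat.dvd_prime_pow Nat.prime_two).mp (orderOf_dvd_of_pow_eq_one ht1)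
    exact IsPGroup.of_card (by rw [Nat.card_zpowers, hl])
  obtain ⟨S, hS⟩ := htp.exists_le_sylow
  have htS : t ∈ (S : Subgroup G) := hS (mem_zpowers t)
  rcases h.conj2.cases S.isPGroup' with hc | ⟨-, hr, h8, hna⟩ | ⟨-, he | ⟨h2, -⟩⟩
  · exfalso
    have hmin : (Nat.card G).minFac = 2 := by
      rw [Nat.minFac_eq_two_iff]
      obtain ⟨l, -, hl⟩ := (Nat.dvd_prime_pow Nat.prime_two).mp (orderOf_dvd_of_pow_eq_one ht1)
      refine dvd_trans ?_ (orderOf_dvd_natCard t)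
      rw [hl]
      refine dvd_pow_self 2 fun e => ht3 ?_
      rw [e, pow_zero, orderOf_eq_one_iff] at hl
      rw [hl, one_pow]
    have hN := hc.normalizer_le_centralizer hmin
    have := hc.isMulCommutative
    set f := MonoidHom.transferSylow S hN with hf
    have hk : ∀ (u : G) (l : ℕ), u ^ p ^ l = 1 → f u = 1 := fun u l hu => by
      obtain ⟨e, he⟩ := S.isPGroup' (f u)
      have h1 : f u ^ p ^ l = 1 := by rw [← map_pow, hu, map_one]
      have h4 : orderOf (f u) ∣ Nat.gcd (2 ^ e) (p ^ l) :=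
        Nat.dvd_gcd (orderOf_dvd_of_pow_eq_one he) (orderOf_dvd_of_pow_eq_one h1)
      rw [Nat.Coprime.gcd_eq_one ((Nat.coprime_two_left.mpr h.odd.pow).pow_left _),
        Nat.dvd_one] at h4
      exact orderOf_eq_one_iff.mp h4
    have h1 : t ∈ f.ker := by
      rw [MonoidHom.mem_ker, ht, map_pow, hwd, map_mul, map_mul, hk a i ha, hk b j hb]; simp
    have h2 := (MonoidHom.ker_transferSylow_disjoint S hN (zpowers t) htp)
    have h3 : t = 1 := mem_bot.mp (disjoint_iff.mp h2 ▸ (show t ∈ f.ker ⊓ zpowers t from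
      ⟨h1, mem_zpowers t⟩))
    exact ht3 (by rw [h3, one_pow])
  · refine ⟨hr, t ^ 2, pow_mem (pow_mem hn _) _, ?_, ht2⟩
    refine orderOf_eq_prime ?_ ht3
    have h1 : orderOf t ∣ 2 ^ 3 := h8 ▸ orderOf_dvd_natCard _ htS
    obtain ⟨l, hl, hl'⟩ := (Nat.dvd_prime_pow Nat.prime_two).mp h1
    have hl3 : l ≠ 3 := fun e => by
      have : zpowers t = S := eq_of_le_of_card_eq hS (by rw [Nat.card_zpowers, hl', h8, e])
      exact hna (this ▸ inferInstance)
    rw [← pow_mul, ← orderOf_dvd_iff_pow_eq_one, hl']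
    exact pow_dvd_pow 2 (show l ≤ 2 by omega)
  · exact absurd (he.2 t htS) ht3
  · exact absurd rfl h2

omit hp in
theorem inv_unique (hr : PRankLE 2 1 G) {Q : Subgroup G} (hQ : IsPGroup 2 Q) {s t : G}
    (hs : s ∈ Q) (ht : t ∈ Q) (hs2 : orderOf s = 2) (ht2 : orderOf t = 2) : s = t := by
  classical
  have hb : Q ≠ ⊥ := fun e => by
    rw [e, mem_bot] at hs
    simp [hs] at hs2
  obtain ⟨z, hz, hz2⟩ := exists_orderOf_eq_prime_of_ne_bot (hQ.to_le inf_le_left)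
    (inf_centralizer_ne_bot hQ hQ le_normalizer hb)
  have key : ∀ s ∈ Q, orderOf s = 2 → s = z := fun s hs hs2 => by
    have hc : Commute s z := hz.2 s hs
    have hcl : IsMulCommutative (closure ({s, z} : Set G)) :=
      isMulCommutative_closure (by
        rintro x (rfl | rfl) y (rfl | rfl)
        exacts [rfl, hc, hc.symm, rfl])
    have he : ∀ a ∈ closure ({s, z} : Set G), a ^ 2 = 1 := by
      intro a ha
      induction ha using closure_induction with
      | mem x hx =>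
        rcases hx with rfl | rfl
        · rw [← hs2, pow_orderOf_eq_one]
        · rw [← hz2, pow_orderOf_eq_one]
      | one => simp
      | mul x y hx hy h1 h2 =>
        have : Commute x y := congrArg Subtype.val (hcl.is_comm.comm ⟨x, hx⟩ ⟨y, hy⟩)
        rw [this.mul_pow, h1, h2, one_mul]
      | inv x _ h1 => rw [inv_pow, h1, inv_one]
    have h1 := hr _ hcl he
    have h2 : zpowers z = closure ({s, z} : Set G) :=
      eq_of_le_of_card_ge (zpowers_le.mpr (subset_closure (by simp)))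
        (by rw [Nat.card_zpowers, hz2]; simpa using h1)
    have h3 : s ∈ zpowers z := h2 ▸ subset_closure (by simp)
    rw [← mem_powers_iff_mem_zpowers, mem_powers_iff_mem_range_orderOf, hz2] at h3
    simp only [Finset.mem_image, Finset.mem_range] at h3
    obtain ⟨i, hi, rfl⟩ := h3
    interval_cases i
    · simp at hs2
    · simp
  rw [key s hs hs2, key t ht ht2]

theorem Cfg.inverts (h : Cfg p G) {V : Subgroup G} (hV : Nat.card V = p ^ 2) {t : G}
    (ht : t ∈ normalizer (V : Set G)) (ht2 : orderOf t = 2) : ∀ v ∈ V, t * v * t⁻¹ = v⁻¹ := by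
  obtain ⟨hr, s, hs, hs2, hsv⟩ := h.exists_s hV
  have hz : ∀ u : G, orderOf u = 2 → IsPGroup 2 (zpowers u) := fun u hu =>
    IsPGroup.of_card (n := 1) (by rw [Nat.card_zpowers, hu, pow_one])
  obtain ⟨Q, hQ, hsQ⟩ := exists_isSylowIn_ge (zpowers_le.mpr hs) (hz s hs2)
  obtain ⟨g, hg, htQ⟩ := hQ.exists_le_conj (zpowers_le.mpr ht) (hz t ht2)
  have e : t = g * s * g⁻¹ := inv_unique hr (hQ.map_conj g).2.1 (htQ (mem_zpowers t))
    ⟨s, hsQ (mem_zpowers s), rfl⟩ ht2 (((MulAut.conj g).orderOf_eq s).trans hs2)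
  intro v hv
  have h1 := hsv (g⁻¹ * v * g) (by
    simpa using (mem_normalizer_iff.mp (inv_mem hg) v).mp hv)
  calc t * v * t⁻¹ = g * (s * (g⁻¹ * v * g) * s⁻¹) * g⁻¹ := by rw [e]; group
    _ = v⁻¹ := by rw [h1]; group

theorem Cfg.false (h : Cfg p G) : False := by
  obtain ⟨P, hPc⟩ := h.ex
  have hPp : IsPGroup p P := IsPGroup.of_card hPc
  have hPn := h.na P hPc
  obtain ⟨V, -, hVP, hV⟩ := exists_card_between (k := 2) hPp (bot_le (a := P))
    (by rw [card_bot]; exact Nat.one_le_pow _ _ hp.out.pos)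
    (by rw [hPc]; exact Nat.pow_le_pow_right hp.out.pos (by norm_num))
  have hVp : IsPGroup p V := IsPGroup.of_card hV
  obtain ⟨-, s, hs, hs2, hsv⟩ := h.exists_s hV
  have hss : s * s = 1 := by rw [← sq, ← hs2, pow_orderOf_eq_one]
  have hsi : s⁻¹ = s := inv_eq_of_mul_eq_one_right hss
  set Z := P ⊓ centralizer (P : Set G) with hZ
  have hZc : Nat.card Z = p := card_zc hPc hPn
  have hZV : Z ≤ V := zc_le hPc hPn hV hVP
  have hZb : Z ≠ ⊥ := fun e => by
    rw [e, card_bot] at hZc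
    exact hp.out.one_lt.ne hZc
  set D := normalizer (V : Set G) ⊓ centralizer (Z : Set G) with hD
  have hPD : P ≤ D := le_inf (le_norm hPc hV hVP) fun u hu z hz => (hz.2 u hu).symm
  have hodd : ¬ 2 ∣ Nat.card D := fun h2 => by
    obtain ⟨t, ht⟩ := exists_prime_orderOf_dvd_card' 2 h2
    have ht2 : orderOf (t : G) = 2 := by rw [orderOf_coe, ht]
    refine hZb (eq_bot_iff.mpr fun z hz => mem_bot.mpr (h.ne_inv hVp (hZV hz) ?_))
    rw [← h.inverts hV t.2.1 ht2 z (hZV hz), ← t.2.2 z hz]; group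
  have hsD : zpowers s ≤ normalizer (D : Set G) := by
    rw [zpowers_le]
    refine Transfer.mem_normalizer_of_conj_mem fun d hd => ⟨conj_mem_of_le_normalizer
      (le_normalizer (H := normalizer (V : Set G))) hs (mem_inf.mp hd).1, fun z hz => ?_⟩
    have h1 := hsv z (hZV hz)
    have h2 := hd.2 z⁻¹ (inv_mem hz)
    calc z * (s * d * s⁻¹) = s⁻¹ * (s * z * s⁻¹ * d) * s := by
          rw [hsi]; simp only [← mul_assoc, hss, one_mul]
      _ = s⁻¹ * (d * (s * z * s⁻¹)) * s := by rw [h1, h2]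
      _ = s * d * s⁻¹ * z := by rw [hsi]; simp only [mul_assoc, hss, mul_one]
  obtain ⟨Q, hQ, hsQ, hVQ⟩ := exists_invariant_sylow_ge hsD
    (by rw [Nat.card_zpowers, hs2]; exact (Nat.Prime.coprime_iff_not_dvd Nat.prime_two).mpr hodd)
    (Or.inl inferInstance) (hVP.trans hPD) hVp (zpowers_le.mpr hs)
  have hQc := h.card_syl hQ hPD hPc
  have hQn := h.na Q hQc
  have hy : ∃ y ∈ Q, y ≠ 1 ∧ s * y * s⁻¹ = y := by
    by_contra hcon
    push Not at hcon
    let φ := conjHom hsQ ⟨s, mem_zpowers s⟩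
    have h1 : MonoidHom.FixedPointFree φ := fun y hy => by
      by_contra h1
      exact hcon y y.2 (fun e => h1 (Subtype.ext e)) (congrArg Subtype.val hy)
    have h2 : Function.Involutive φ := fun y => Subtype.ext (by
      change s * (s * (y : G) * s⁻¹) * s⁻¹ = y
      rw [hsi]; simp only [← mul_assoc, hss, one_mul]; rw [mul_assoc, hss, mul_one])
    exact hQn ⟨⟨fun a b => h1.commute_all_of_involutive h2 a b⟩⟩
  obtain ⟨y, hyQ, hy1, hsy⟩ := hy
  have hyV : y ∉ V := fun hv => hy1 (h.ne_inv hVp hv (hsy.symm.trans (hsv y hv)))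
  set W := Q ⊓ centralizer {y} with hW
  have hyW : y ∈ W := ⟨hyQ, mem_centralizer_singleton_iff.mpr rfl⟩
  have hZQ := zc_le hQc hQn hV hVQ
  have h1 : Q ⊓ centralizer (Q : Set G) < W :=
    lt_of_le_of_ne (inf_le_inf_left _ (centralizer_le (by simpa using hyQ)))
      fun e => hyV (hZQ (e ▸ hyW))
  have h2 : W < Q := lt_of_le_of_ne inf_le_left fun e => hyV (hZQ ⟨hyQ, fun u hu => by
    have : u ∈ W := by rw [e]; exact hu
    exact mem_centralizer_singleton_iff.mp this.2⟩)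
  have h3 := mul_card_dvd_of_lt (hQ.2.1.to_le h2.le) h1
  have h4 := mul_card_dvd_of_lt hQ.2.1 h2
  rw [card_zc hQc hQn, ← sq] at h3
  rw [hQc, pow_succ] at h4
  have hWc : Nat.card W = p ^ 2 := Nat.dvd_antisymm (Nat.dvd_of_mul_dvd_mul_right hp.out.pos h4) h3
  have hsW : s ∈ normalizer (W : Set G) := by
    refine Transfer.mem_normalizer_of_conj_mem fun d hd =>
      ⟨conj_mem_of_le_normalizer hsQ (mem_zpowers s) hd.1, ?_⟩
    have h5 := mem_centralizer_singleton_iff.mp hd.2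
    refine mem_centralizer_singleton_iff.mpr ?_
    rw [← hsy]
    calc s * d * s⁻¹ * (s * y * s⁻¹) = s * (d * y) * s⁻¹ := by group
      _ = s * y * s⁻¹ * (s * d * s⁻¹) := by rw [h5]; group
  exact hy1 (h.ne_inv hQ.2.1 hyQ (hsy.symm.trans (h.inverts hWc hsW hs2 y hyW)))

end

/-- Let G be a finite group in which, for every prime p, any two p-subgroups of the same order are conjugate. Then every Sylow subgroup of G is cyclic, elementary abelian, or a quaternion group of order 8. -/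
theorem result {G : Type*} [Group G] [Finite G]
    (hD : ∀ p : ℕ, p.Prime → ∀ H K : Subgroup G, IsPGroup p H → IsPGroup p K → Nat.card H = Nat.card K →
      ∃ g : G, K = H.map (MulAut.conj g).toMonoidHom) {p : ℕ} [Fact p.Prime] (P : Sylow p G) :
    IsCyclic P ∨ Cfsg.IsElementaryAbelian p (P : Subgroup G) ∨ Nonempty ((P : Subgroup G) ≃* QuaternionGroup 2) := by
  have hp : p.Prime := Fact.out
  have hc : ConjP p G := hD p hp
  rcases hc.cases P.isPGroup' with h | ⟨rfl, hr, h8, hna⟩ | ⟨-, he | ⟨h2, hna, h3, -⟩⟩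
  · exact Or.inl h
  · exact Or.inr (Or.inr (IsExtraspecial.quaternion_of_rank_le_one
      (isExtraspecial_of_card_eq_cube h8 hna) (pRankLE_subgroup hr _)))
  · exact Or.inr (Or.inl he)
  · refine (Cfg.false (p := p) (G := G) ⟨hc, hD 2 Nat.prime_two, h2, fun Q hQ => ?_, ⟨P, h3⟩,
      fun Q hQ hQc => hna ?_⟩).elim
    · obtain ⟨S, hS⟩ := hQ.exists_le_sylow
      rw [← h3, ← Transfer.card_sylow_eq S P]
      exact card_le_of_le hS
    · obtain ⟨g, hg⟩ := hc Q P (IsPGroup.of_card hQ) P.isPGroup' (hQ.trans h3.symm)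
      rw [hg]
      infer_instance

end Cfsg.Agent.S4020
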