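import Cfsg.Statements.S4023
import Cfsg.Agent.Lib.PGrp.ConjOrder

set_option autoImplicit false
open Cfsg

namespace Cfsg.Agent.S4023

/-- Let p be a prime and G a finite group in which any two p-subgroups of the same order are conjugate, with Sylow p-subgroup P. Then P is cyclic, or elementary abelian, or p = 2 and P is a quaternion group of order 8, or p is odd and P is non-abelian of order p³ and exponent p. -/
theorem result {G : Type*} [Group G] [Finite G]
    {p : ℕ} [Fact p.Prime] (hC : ∀ H K : Subgroup G, IsPGroup p H → IsPGroup p K → Nat.card H = Nat.card K →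
      ∃ g : G, K = H.map (MulAut.conj g).toMonoidHom) (P : Sylow p G) :
    IsCyclic P ∨ Cfsg.IsElementaryAbelian p (P : Subgroup G) ∨
      (p = 2 ∧ Nonempty ((P : Subgroup G) ≃* QuaternionGroup 2)) ∨
      (p ≠ 2 ∧ ¬ IsMulCommutative P ∧ Nat.card P = p ^ 3 ∧ Monoid.exponent P = p) := by
  rcases PGrp.ConjP.cases hC P.2 with h | ⟨rfl, hr, hc, hn⟩ | ⟨-, h | ⟨h1, h2, h3, h4⟩⟩
  · exact Or.inl h
  · rcases PGrp.isCyclic_or_quaternion_of_rank_le_one P.2 (PGrp.pRankLE_subgroup hr P) with
      h | ⟨-, k, -, ⟨e⟩⟩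
    · exact Or.inl h
    · have h1 := Nat.card_congr e.toEquiv
      rw [hc, Nat.card_eq_fintype_card, QuaternionGroup.card, show 4 = 2 ^ 2 from rfl,
        ← pow_add] at h1
      obtain rfl : k = 1 := by have := Nat.pow_right_injective le_rfl h1; omega
      exact Or.inr (Or.inr (Or.inl ⟨rfl, ⟨e⟩⟩))
  · exact Or.inr (Or.inl h)
  · refine Or.inr (Or.inr (Or.inr ⟨h1, h2, h3, ?_⟩))
    have hp : p.Prime := Fact.out
    refine ((Nat.dvd_prime hp).mp (Monoid.exponent_dvd_of_forall_pow_eq_one
      fun x => Subtype.ext (h4 x x.2))).resolve_left fun h => h2 ?_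
    have := Monoid.exp_eq_one_iff.mp h
    exact ⟨⟨fun a b => Subsingleton.elim _ _⟩⟩

end Cfsg.Agent.S4023
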