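import Cfsg.Statements.S4024
import Cfsg.Agent.Lib.PGrp.ConjOrder2

set_option autoImplicit false
open Cfsg

namespace Cfsg.Agent.S4024

/-- Let p be an odd prime and G a finite group in which any two p-subgroups of the same order are conjugate, with Sylow p-subgroup P. If H is a normal p-solvable subgroup of G whose order is divisible by p, then P is abelian, and either P ≤ H or P is cyclic. -/
theorem result {G : Type*} [Group G] [Finite G]
    {p : ℕ} [Fact p.Prime] (hp : p ≠ 2) (hC : ∀ H K : Subgroup G, IsPGroup p H → IsPGroup p K → Nat.card H = Nat.card K →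
      ∃ g : G, K = H.map (MulAut.conj g).toMonoidHom) (P : Sylow p G)
    (H : Subgroup G) [H.Normal] (hsolv : Cfsg.IsPSolvable p H) (hdiv : p ∣ Nat.card H) :
    IsMulCommutative P ∧ ((P : Subgroup G) ≤ H ∨ IsCyclic P) := by
  have h := PGrp.ConjP.conjAbP hC
  by_cases hr : PRankLE p 1 G
  · have := PGrp.isCyclic_of_rank_le_one_of_odd P.2 hp (PGrp.pRankLE_subgroup hr P)
    exact ⟨inferInstance, Or.inr this⟩
  · exact ⟨(h.isElementaryAbelian hr hsolv hdiv P.2).1, Or.inl (h.le_of_normal hr hdiv P.2)⟩

end Cfsg.Agent.S4024
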