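import Cfsg.Statements.S4028
import Mathlib
import Cfsg.Agent.Lib.Reg.FrobCount

set_option autoImplicit false
open Cfsg

namespace Cfsg.Agent.S4028

theorem aux {G : Type*} [Group G] (P : Subgroup G) (y t : P) :
    t ∈ Subgroup.normalizer ((Subgroup.zpowers y : Subgroup P) : Set P) ↔
      (t : G) ∈ Subgroup.normalizer ((Subgroup.zpowers (y : G) : Subgroup G) : Set G) := by
  have h1 : Subgroup.zpowers y = (Subgroup.zpowers (y : G)).subgroupOf P := by
    rw [show Subgroup.zpowers (y : G) = (Subgroup.zpowers y).map P.subtype from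
      (MonoidHom.map_zpowers P.subtype y).symm]
    exact (Subgroup.comap_map_eq_self_of_injective P.subtype_injective _).symm
  rw [h1, ← Subgroup.subgroupOf_normalizer_eq (Subgroup.zpowers_le.2 y.2), Subgroup.mem_subgroupOf]

/-- Let G be a finite group with Sylow 2-subgroup P. Then N_G(⟨x⟩) = C_G(x) holds for every 2-element x of G if and only if N_P(⟨y⟩) = C_P(y) holds for every y ∈ P (computed inside P). -/
theorem result {G : Type*} [Group G] [Finite G] (P : Sylow 2 G) :
    (∀ x : G, (∀ r : ℕ, r.Prime → r ∣ orderOf x → r = 2) →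
      Subgroup.normalizer ((Subgroup.zpowers x : Subgroup G) : Set G) ≤ Subgroup.centralizer {x}) ↔
    (∀ y : ↥(P : Subgroup G), Subgroup.normalizer ((Subgroup.zpowers y : Subgroup ↥(P : Subgroup G)) : Set ↥(P : Subgroup G)) ≤
        Subgroup.centralizer {y}) := by
  constructor
  · intro h y t ht
    obtain ⟨k, hk⟩ := IsPGroup.iff_orderOf.1 P.2 y
    have := h y (fun r hr hd => (Nat.prime_dvd_prime_iff_eq hr Nat.prime_two).1
      (hr.dvd_of_dvd_pow (by rwa [Subgroup.orderOf_coe, hk] at hd))) ((aux _ y t).1 ht)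
    exact Subgroup.mem_centralizer_singleton_iff.2
      (Subtype.ext (Subgroup.mem_centralizer_singleton_iff.1 this))
  · intro h x hx g hg
    obtain ⟨k, hk⟩ : ∃ k, orderOf x = 2 ^ k :=
      ⟨_, Nat.eq_prime_pow_of_unique_prime_dvd (orderOf_pos x).ne' fun {d} hd hd' => hx d hd hd'⟩
    obtain ⟨j, m, hm, hjm⟩ := Nat.exists_eq_two_pow_mul_odd (orderOf_pos g).ne'
    have h1 : g ^ 2 ^ k ∈ Subgroup.centralizer {x} := by
      have h2 : (Subgroup.zpowers x).normalizerMonoidHom (⟨g, hg⟩ ^ 2 ^ k) = 1 := by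
        rw [map_pow, ← orderOf_dvd_iff_pow_eq_one]
        refine (orderOf_dvd_natCard _).trans ?_
        rw [IsCyclic.card_mulAut, Nat.card_zpowers, hk]
        rcases k with _ | k
        · simp
        · rw [Nat.totient_prime_pow_succ Nat.prime_two]
          simpa using pow_dvd_pow 2 k.le_succ
      rw [← MonoidHom.mem_ker, Subgroup.normalizerMonoidHom_ker, Subgroup.mem_subgroupOf,
        PGrp.centralizer_zpowers] at h2
      exact h2
    have h2 : g ^ m ∈ Subgroup.centralizer {x} := by
      have h3 : IsPGroup 2 (Subgroup.zpowers (g ^ m)) := IsPGroup.of_card (n := j) (by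
        rw [Nat.card_zpowers, orderOf_pow_of_dvd hm.pos.ne' (hjm ▸ dvd_mul_left _ _), hjm,
          Nat.mul_div_cancel _ hm.pos])
      have h4 : IsPGroup 2 (Subgroup.zpowers x) := IsPGroup.of_card (by rw [Nat.card_zpowers, hk])
      obtain ⟨Q, hQ⟩ := (h4.to_sup_of_normal_left' h3
        (Subgroup.zpowers_le.2 (pow_mem hg m))).exists_le_sylow
      have hx' : x ∈ (Q : Subgroup G) := hQ (Subgroup.mem_sup_left (Subgroup.mem_zpowers x))
      have hg' : g ^ m ∈ (Q : Subgroup G) := hQ (Subgroup.mem_sup_right (Subgroup.mem_zpowers _))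
      let e := Q.equiv P
      have h5 := (aux _ ⟨x, hx'⟩ ⟨_, hg'⟩).2 (pow_mem hg m)
      have h6 : e ⟨_, hg'⟩ ∈ Subgroup.normalizer
          ((Subgroup.zpowers (e ⟨x, hx'⟩) : Subgroup (P : Subgroup G)) : Set (P : Subgroup G)) := by
        have := Subgroup.le_normalizer_map (H := Subgroup.zpowers (⟨x, hx'⟩ : (Q : Subgroup G)))
          e.toMonoidHom ⟨_, h5, rfl⟩
        rwa [MonoidHom.map_zpowers] at this
      have h7 := Subgroup.mem_centralizer_singleton_iff.1 (h _ h6)
      rw [← map_mul, ← map_mul] at h7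
      exact Subgroup.mem_centralizer_singleton_iff.2 (congrArg Subtype.val (e.injective h7))
    obtain ⟨a, b, hab⟩ := Nat.isCoprime_iff_coprime.2 ((Nat.coprime_two_left.2 hm).pow_left k)
    rw [← zpow_one g, ← hab, zpow_add, mul_comm a, mul_comm b, zpow_mul, zpow_mul, zpow_natCast,
      zpow_natCast]
    exact mul_mem (zpow_mem h1 a) (zpow_mem h2 b)

end Cfsg.Agent.S4028
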