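import Cfsg.Statements.S4029
import Cfsg.Agent.Lib.PGrp.SqrtCount
import Cfsg.Agent.Lib.Cls.Basic

set_option autoImplicit false
open Cfsg

namespace Cfsg.Agent.S4029

open scoped ComplexConjugate Classical

theorem sum_card_centralizer {G : Type*} [Group G] [Fintype G] :
    ∑ g : G, (if g ^ 2 = 1 then Nat.card (Subgroup.centralizer ({g} : Set G)) else 0) =
      Nat.card G * Nat.card {c : ConjClasses G // ∃ y : G, ConjClasses.mk y = c ∧ y ^ 2 = 1} := by
  have := Fintype.ofFinite (ConjClasses G)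
  rw [← Finset.sum_fiberwise Finset.univ (ConjClasses.mk : G → ConjClasses G),
    PGrp.card_subtype_eq_sum, Finset.mul_sum]
  refine Finset.sum_congr rfl fun c _ => ?_
  obtain ⟨x, rfl⟩ := ConjClasses.mk_surjective c
  have key : ∀ y, ConjClasses.mk y = ConjClasses.mk x → (y ^ 2 = 1 ↔ x ^ 2 = 1) := fun y h => by
    obtain ⟨g, rfl⟩ := isConj_iff.mp (ConjClasses.mk_eq_mk_iff_isConj.mp h)
    rw [conj_pow, conj_eq_one_iff]
  rw [Finset.sum_congr rfl (g := fun _ => if x ^ 2 = 1 then
    Nat.card (Subgroup.centralizer ({x} : Set G)) else 0) fun y hy => by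
      have h := (Finset.mem_filter.mp hy).2
      rw [key y h, Cls.card_centralizer_of_isConj (ConjClasses.mk_eq_mk_iff_isConj.mp h)],
    Finset.sum_const, smul_eq_mul]
  by_cases hx : x ^ 2 = 1
  · rw [if_pos hx, if_pos ⟨x, rfl, hx⟩, mul_one, ← (Subgroup.centralizer {x}).index_mul_card,
      ← Cls.card_isConj, PGrp.card_subtype_eq_sum (IsConj x), Finset.card_filter]
    refine congrArg (· * _) (Finset.sum_congr rfl fun y _ => ?_)
    simp only [ConjClasses.mk_eq_mk_iff_isConj, isConj_comm]
  · rw [if_neg hx, if_neg fun ⟨y, h1, h2⟩ => hx ((key y h1).mp h2), mul_zero, mul_zero]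

theorem card_le_of_real {G : Type*} [Group G] [Finite G] (h : ∀ g : G, IsConj g g⁻¹ → g ^ 2 = 1)
    {S : Type*} [Finite S] (l : S → G →* ℂ) (hl : Function.Injective l)
    (h2 : ∀ s g, l s (g ^ 2) = 1) :
    Nat.card S ≤ Nat.card {c : ConjClasses G // ∃ y : G, ConjClasses.mk y = c ∧ y ^ 2 = 1} := by
  have := Fintype.ofFinite G
  have := Fintype.ofFinite S
  choose c hc using fun χ : IrrCharacter G => Char.classInner_char_nat
    (Char.isCharacter_of_irr χ.2) (Char.isCharacter_conj (Char.isCharacter_of_irr χ.2))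
  have h0 := Char.natCard_ne_zero_complex G
  have h3 : ∑ χ, c χ =
      Nat.card {c : ConjClasses G // ∃ y : G, ConjClasses.mk y = c ∧ y ^ 2 = 1} := by
    have h4 := congrArg (Nat.cast : ℕ → ℂ) (sum_card_centralizer (G := G))
    apply Nat.cast_injective (R := ℂ)
    apply mul_left_cancel₀ h0
    push_cast at h4 ⊢
    rw [← h4]
    simp only [← hc, classInner, ← Finset.mul_sum, mul_inv_cancel_left₀ h0]
    rw [Finset.sum_comm]
    refine Finset.sum_congr rfl fun g _ => ?_
    rw [Finset.sum_congr rfl fun χ _ => by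
      rw [← Char.char_inv (Char.isCharacter_of_irr χ.2) g], Char.sum_irr_mul_conj,
      Cls.centralizer_single_inv]
    refine if_congr ⟨h g, fun hg => ?_⟩ rfl rfl
    rw [inv_eq_of_mul_eq_one_right (sq g ▸ hg)]
  let e : S → IrrCharacter G := fun s => ⟨_, Char.isIrrCharacter_of_hom (l s)⟩
  have he : Function.Injective e := fun s t hst =>
    hl (MonoidHom.ext (congrFun (congrArg Subtype.val hst)))
  rw [← h3, Nat.card_eq_fintype_card, ← Finset.card_univ, ← Finset.card_image_of_injective _ he,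
    Finset.card_eq_sum_ones]
  refine le_trans (Finset.sum_le_sum fun φ hφ => ?_)
    (Finset.sum_le_sum_of_subset (Finset.subset_univ _))
  obtain ⟨s, -, rfl⟩ := Finset.mem_image.mp hφ
  have h4 : (c (e s) : ℂ) = 1 := by
    rw [← hc, classInner, Finset.sum_congr rfl (g := fun _ => 1) fun g _ => by
      rw [Complex.conj_conj]
      exact (map_mul _ _ _).symm.trans (sq g ▸ h2 s g)]
    simp [← Nat.card_eq_fintype_card, h0]
  exact (Nat.cast_eq_one.mp h4).ge

open scoped IsMulCommutative in

/-- Let P be a finite 2-group in which N_P(⟨y⟩) = C_P(y) for every y ∈ P. If s is the number of conjugacy classes of involutions of P, then #(P/Φ(P)) ≤ s + 1; in particular the subgroup generated by the involutions of P has order at least #(P/Φ(P)). -/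
theorem result {P : Type*} [Group P] [Finite P] (hP : IsPGroup 2 P)
    (hirr : ∀ y : P, Subgroup.normalizer ((Subgroup.zpowers y : Subgroup P) : Set P) ≤ Subgroup.centralizer {y}) :
    Nat.card (P ⧸ frattini P) ≤ Nat.card {c : ConjClasses P // ∃ y : P, ConjClasses.mk y = c ∧ orderOf y = 2} + 1 ∧
    Nat.card (P ⧸ frattini P) ≤ Nat.card (Subgroup.closure {y : P | orderOf y = 2}) := by
  have := PGrp.isMulCommutative_quotient_frattini hP
  let L := (P ⧸ frattini P) →* ℂˣ
  let l : L → P →* ℂ := fun a => (Units.coeHom ℂ).comp (a.comp (QuotientGroup.mk' _))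
  have hl : Function.Injective l := fun a b h => MonoidHom.ext fun q => by
    obtain ⟨g, rfl⟩ := QuotientGroup.mk'_surjective _ q
    exact Units.ext (DFunLike.congr_fun h g)
  have hsq : ∀ (a : L) g, l a (g ^ 2) = 1 := fun a g => by
    change ((a (QuotientGroup.mk' _ (g ^ 2)) : ℂˣ) : ℂ) = 1
    rw [map_pow, PGrp.quotient_frattini_pow_eq_one hP, map_one, Units.val_one]
  have : NeZero (Monoid.exponent (P ⧸ frattini P)) := ⟨Monoid.exponent_ne_zero_of_finite⟩
  have hL : Nat.card L = Nat.card (P ⧸ frattini P) :=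
    CommGroup.card_monoidHom_of_hasEnoughRootsOfUnity _ ℂ
  have : Finite L := Nat.finite_of_card_ne_zero (hL ▸ Nat.card_pos.ne')
  have h1 := card_le_of_real (fun g hg => by
    obtain ⟨x, hx⟩ := isConj_iff.mp hg
    have h2 : x ∈ Subgroup.normalizer (Subgroup.zpowers g : Set P) := by
      rw [Subgroup.mem_normalizer_iff_map_conj_eq, MonoidHom.map_zpowers]
      exact (congrArg Subgroup.zpowers hx).trans Subgroup.zpowers_inv
    rw [Subgroup.mem_centralizer_singleton_iff.mp (hirr g h2), mul_inv_cancel_right] at hx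
    rw [sq, mul_eq_one_iff_eq_inv, ← hx]) l hl hsq
  rw [hL] at h1
  have key : ∀ y : P, y ^ 2 = 1 → y ≠ 1 → orderOf y = 2 := fun y h h' => orderOf_eq_prime h h'
  constructor
  · refine h1.trans ?_
    rw [PGrp.card_eq_card_add_card _ (fun c => c ≠ ConjClasses.mk 1)]
    refine Nat.add_le_add (Nat.card_le_card_of_injective
      (fun c => ⟨c.1, by
        obtain ⟨⟨y, h2, h3⟩, h4⟩ := c.2
        exact ⟨y, h2, key y h3 fun e => h4 (by rw [← h2, e])⟩⟩)
      fun a b h => Subtype.ext (Subtype.mk.inj h)) ?_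
    exact Finite.card_le_one_iff_subsingleton.mpr ⟨fun a b => Subtype.ext
      ((not_not.mp a.2.2).trans (not_not.mp b.2.2).symm)⟩
  · refine h1.trans ((Nat.card_le_card_of_surjective
      (fun y : {y : P // y ^ 2 = 1} => ⟨ConjClasses.mk y.1, y.1, rfl, y.2⟩) ?_).trans
      (Nat.card_le_card_of_injective (fun y => ⟨y.1, ?_⟩) fun a b h =>
        Subtype.ext (Subtype.mk.inj h)))
    · rintro ⟨_, y, rfl, hy⟩
      exact ⟨⟨y, hy⟩, rfl⟩
    · by_cases h : y.1 = 1
      · rw [h]; exact one_mem _
      · exact Subgroup.subset_closure (key _ y.2 h)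

end Cfsg.Agent.S4029
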