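import Cfsg.Statements.S4032
import Cfsg.Agent.Lib.Coprime.TIHall

set_option autoImplicit false
open Cfsg

namespace Cfsg.Agent.S4032

/-- Let π be a set of primes and G a finite group in which N_G(⟨x⟩) = C_G(x) for every π-element x. If N is a normal subgroup of G whose order is divisible by no prime of π, then G/N has the same property: N_{G/N}(⟨y⟩) = C_{G/N}(y) for every π-element y of G/N. -/
theorem result {G : Type*} [Group G] [Finite G] (π : Set ℕ)
    (hirr : ∀ x : G, (∀ r : ℕ, r.Prime → r ∣ orderOf x → r ∈ π) →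
      Subgroup.normalizer ((Subgroup.zpowers x : Subgroup G) : Set G) ≤ Subgroup.centralizer {x})
    (N : Subgroup G) [N.Normal] (hN : ∀ r : ℕ, r.Prime → r ∣ Nat.card N → r ∉ π) :
    ∀ y : G ⧸ N, (∀ r : ℕ, r.Prime → r ∣ orderOf y → r ∈ π) →
      Subgroup.normalizer ((Subgroup.zpowers y : Subgroup (G ⧸ N)) : Set (G ⧸ N)) ≤ Subgroup.centralizer {y} := by
  intro y hy
  obtain ⟨x, rfl⟩ := QuotientGroup.mk'_surjective N y
  obtain ⟨u, -, hu, hu'⟩ := Cls.exists_pi_lift π (QuotientGroup.mk' N) x hy
  rw [← hu, ← MonoidHom.map_zpowers, ← Coprime.map_normalizer_eq _ (QuotientGroup.mk'_surjective N)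
    (by
      rw [QuotientGroup.ker_mk', Nat.card_zpowers]
      exact Nat.coprime_of_dvd fun q hq h1 h2 => hN q hq h2 (hu' q hq h1))
    (Or.inl (Coprime.isSolvable_of_isMulCommutative inferInstance))]
  exact (Subgroup.map_mono (hirr u hu')).trans (Cls.map_centralizer_single_le _ _)

end Cfsg.Agent.S4032
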