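import Mathlib
import Cfsg.Statements.S4035
import Cfsg.Agent.Lib.Transfer.Camina

set_option autoImplicit false
open Cfsg

namespace Cfsg.Agent.S4035



/-- Let G be a finite group and p a prime such that p divides the size of no conjugacy class of p-regular elements (elements of order prime to p). Then G is the internal direct product of a Sylow p-subgroup P and a normal subgroup H of order prime to p: P is normal, P ⊓ H = 1 and PH = G. -/
theorem result {G : Type*} [Group G] [Finite G] {p : ℕ} [Fact p.Prime]
    (h : ∀ x : G, (orderOf x).Coprime p → ¬ p ∣ (ConjClasses.mk x).carrier.ncard) (P : Sylow p G) :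
    (P : Subgroup G).Normal ∧ ∃ H : Subgroup G, H.Normal ∧ ¬ p ∣ Nat.card H ∧
      (P : Subgroup G) ⊓ H = ⊥ ∧ (P : Subgroup G) ⊔ H = ⊤ := by
  obtain ⟨h1, h2⟩ := Transfer.sylow_normal_of_not_dvd_index
    (fun x hx => Cls.ncard_carrier_mk x ▸ h x hx) P
  have h3 := Transfer.hasNormalPComplement_of_forall_mem_centralizer P h2
  refine ⟨h1, pResidual p G, inferInstance, Transfer.hasNormalPComplement_iff_not_dvd_pResidual.mp h3,
    ?_, ?_⟩
  · rw [inf_comm]
    exact (Transfer.hasNormalPComplement_iff_pResidual_inf_sylow P).mp h3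
  · rw [sup_comm]
    exact Transfer.pResidual_sup_sylow P

end Cfsg.Agent.S4035
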