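import Cfsg.Statements.S4036
import Cfsg.Agent.Lib.Coprime.TIHall

set_option autoImplicit false
open Cfsg

namespace Cfsg.Agent.S4036

/-- Let P be a finite abelian p-group and K a group of automorphisms of P (a subgroup of Aut P) whose order is divisible by p. If all non-identity elements of K have the same fixed-point subgroup on P, then K has no non-trivial normal subgroup of order prime to p. -/
theorem result {P : Type*} [CommGroup P] [Finite P] {p : ℕ}
    [Fact p.Prime] (hP : IsPGroup p P) (K : Subgroup (MulAut P)) (hK : p ∣ Nat.card K)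
    (hfix : ∀ x y : MulAut P, x ∈ K → y ∈ K → x ≠ 1 → y ≠ 1 → ∀ v : P, x v = v ↔ y v = v) :
    ∀ N : Subgroup ↥K, N.Normal → ¬ p ∣ Nat.card N → N = ⊥ := by
  intro N hN hp
  by_contra hb
  obtain ⟨⟨y, hy⟩, hy1⟩ := Subgroup.ne_bot_iff_exists_ne_one.mp hb
  have hy1' : (y : MulAut P) ≠ 1 := fun e => hy1 (Subtype.ext (Subtype.ext e))
  obtain ⟨x, hx⟩ := exists_prime_orderOf_dvd_card' p hK
  have hx1 : (x : MulAut P) ≠ 1 := fun e => by
    rw [show x = 1 from Subtype.ext e, orderOf_one] at hx
    exact (Fact.out : p.Prime).one_lt.ne hx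
  have hcop : (Nat.card N).Coprime (Nat.card (⊤ : Subgroup P)) := by
    obtain ⟨k, hk⟩ := hP.exists_card_eq
    rw [Subgroup.card_top, hk]
    exact ((Nat.Prime.coprime_iff_not_dvd Fact.out).mpr hp).symm.pow_right k
  have h1 := Coprime.act_fixedSub_inf_commSub K.subtype (B := N) (H := ⊤) (fun _ _ _ _ => trivial)
    hcop inferInstance
  set W := Coprime.commSub K.subtype ⊤ N with hW
  have hW1 : W ≠ ⊥ := by
    rw [hW, Ne, Coprime.commSub_eq_bot_iff]
    exact fun h => hy1' (MulEquiv.ext fun v => h (Subgroup.mem_top v) y hy)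
  have h2 : ∀ k : K, ∀ w ∈ W, (k : MulAut P) w ∈ W := by
    intro k
    change W ≤ W.comap (k : MulAut P).toMonoidHom
    rw [hW, Coprime.commSub_le_iff]
    intro b hb v _
    have := Coprime.mem_commSub K.subtype (H := ⊤) (hN.conj_mem b hb k)
      (Subgroup.mem_top ((k : MulAut P) v))
    simpa [Subgroup.mem_comap] using this
  have h3 := PGrp.inf_centralizer_ne_bot (p := p)
    (P := (Subgroup.zpowers x).map (SemidirectProduct.inr : K →* P ⋊[K.subtype] K))
    (V := W.map SemidirectProduct.inl)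
    ((IsPGroup.of_card (n := 1) (by rw [Nat.card_zpowers, hx, pow_one])).map _)
    ((hP.to_subgroup W).map _) ((Coprime.map_inr_le_normalizer_iff _).mpr fun b _ => h2 b)
    (by rwa [Ne, Subgroup.map_eq_bot_iff_of_injective _ SemidirectProduct.inl_injective])
  rw [Coprime.map_inl_inf_centralizer, Ne,
    Subgroup.map_eq_bot_iff_of_injective _ SemidirectProduct.inl_injective] at h3
  refine h3 (eq_bot_iff.mpr (h1 ▸ fun v hv => ⟨⟨trivial, fun b hb => ?_⟩, hv.1⟩))
  by_cases hb1 : (b : MulAut P) = 1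
  · change (b : MulAut P) v = v
    rw [hb1, MulAut.one_apply]
  · exact (hfix x b x.2 b.2 hx1 hb1 v).mp ((Coprime.mem_fixedSub_zpowers _).mp hv.2)

end Cfsg.Agent.S4036
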