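import Mathlib
import Cfsg.Statements.S4040
import Cfsg.Agent.Lib.Transfer.NilpMax

set_option autoImplicit false
open Cfsg

namespace Cfsg.Agent.S4040



/-- A finite group possessing a maximal subgroup that is nilpotent of odd order is solvable. -/
theorem result {G : Type*} [Group G] [Finite G]
    (M : Subgroup G) (hmax : IsCoatom M) (hnil : Group.IsNilpotent M) (hodd : Odd (Nat.card M)) :
    Group.IsSolvable G := by
  exact Transfer.isSolvable_of_isCoatom_isNilpotent_odd hmax hnil
    (fun h => (Nat.not_even_iff_odd.mpr hodd) (even_iff_two_dvd.mpr h))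

end Cfsg.Agent.S4040
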