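import Cfsg.Statements.S4043
import Cfsg.Agent.Lib.Coprime.TIHall

set_option autoImplicit false
open Cfsg

namespace Cfsg.Agent.S4043

/-- Let G be a finite group that is the semidirect product of a normal p-subgroup N by a subgroup A, and also of N by a subgroup A₁, where p is a prime and A and A₁ both have normal p-complements. If C_N(A) = C_N(A₁) = 1, then A₁ is conjugate to A by an element of N. -/
theorem result {G : Type*} [Group G] [Finite G] {p : ℕ}
    [Fact p.Prime] (N : Subgroup G) [N.Normal] (hN : IsPGroup p N) (A A₁ : Subgroup G)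
    (hA : A.IsComplement' N) (hA₁ : A₁.IsComplement' N)
    (hAp : Cfsg.HasNormalPComplement p A) (hA₁p : Cfsg.HasNormalPComplement p A₁)
    (hC : ∀ n : G, n ∈ N → (∀ a : G, a ∈ A → a * n * a⁻¹ = n) → n = 1)
    (hC₁ : ∀ n : G, n ∈ N → (∀ a : G, a ∈ A₁ → a * n * a⁻¹ = n) → n = 1) :
    ∃ n : G, n ∈ N ∧ A₁ = A.map (MulAut.conj n).toMonoidHom := by
  have key : ∀ B : Subgroup G, B.IsComplement' N → Cfsg.HasNormalPComplement p B →
      ∃ K : Subgroup G, K ≤ B ∧ B ≤ Subgroup.normalizer (K : Set G) ∧ (Nat.card K).Coprime p ∧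
        (∀ g : G, (orderOf g).Coprime p → g ∈ N ⊔ K) ∧
        ∃ P : Subgroup G, IsPGroup p P ∧ K ⊔ P = B := by
    intro B hB hBp
    have h1 := Transfer.hasNormalPComplement_iff_coprime_pResidual.mp hBp
    obtain ⟨P⟩ : Nonempty (Sylow p B) := inferInstance
    refine ⟨(pResidual p B).map B.subtype, Subgroup.map_subtype_le _,
      Core.le_normalizer_map_subtype _ _, by rwa [Core.card_map_subtype], fun g hg => ?_,
      (P : Subgroup B).map B.subtype, P.isPGroup'.map _, ?_⟩
    · obtain ⟨b, hb, n, hn, rfl⟩ := (Core.mem_sup_of_le_normalizer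
        Subgroup.le_normalizer_of_normal).mp (hB.sup_eq_top ▸ Subgroup.mem_top g)
      have e : QuotientGroup.mk' N (b * n) = ((QuotientGroup.mk' N).comp B.subtype) ⟨b, hb⟩ := by
        simp [(QuotientGroup.eq_one_iff n).mpr hn]
      obtain ⟨u, -, hu, hu'⟩ := Cls.exists_coprime_lift (n := p)
        ((QuotientGroup.mk' N).comp B.subtype) ⟨b, hb⟩
        (hg.coprime_dvd_left (e ▸ orderOf_map_dvd _ _))
      rw [sup_comm, ← Core.comap_map_mk, Subgroup.mem_comap, e, ← hu]
      exact ⟨u, ⟨u, Transfer.mem_pResidual_of_coprime hu', rfl⟩, rfl⟩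
    · rw [← Subgroup.map_sup, Transfer.pResidual_sup_sylow, ← MonoidHom.range_eq_map,
        Subgroup.range_subtype]
  have key2 : ∀ B K P : Subgroup G, B.IsComplement' N → K ≤ B →
      B ≤ Subgroup.normalizer (K : Set G) → IsPGroup p P → K ⊔ P = B →
      (∀ n : G, n ∈ N → (∀ a : G, a ∈ B → a * n * a⁻¹ = n) → n = 1) →
      Subgroup.normalizer (K : Set G) = B := by
    intro B K P hB h1 h2 hP h3 h4
    have h5 : N ⊓ Subgroup.normalizer (K : Set G) = ⊥ := by
      rw [Coprime.inf_normalizer_eq_of_inf_eq_bot Subgroup.le_normalizer_of_normal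
        (eq_bot_iff.mpr ((inf_le_inf_right _ h1).trans hB.disjoint.le_bot))]
      by_contra h5
      refine PGrp.inf_centralizer_ne_bot hP hN.to_inf_left (Core.le_normalizer_inf
        Subgroup.le_normalizer_of_normal
        (Core.le_normalizer_centralizer ((le_sup_right.trans h3.le).trans h2))) h5 ?_
      rw [eq_bot_iff]
      rintro n ⟨⟨hn, hn'⟩, hn''⟩
      have : B ≤ Subgroup.centralizer {n} := by
        rw [← h3]
        exact sup_le (fun a ha => Subgroup.mem_centralizer_singleton_iff.mpr (hn' a ha))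
          fun a ha => Subgroup.mem_centralizer_singleton_iff.mpr (hn'' a ha)
      exact h4 n hn fun a ha => by
        rw [Subgroup.mem_centralizer_singleton_iff.mp (this ha), mul_inv_cancel_right]
    refine le_antisymm (fun g hg => ?_) h2
    obtain ⟨b, hb, n, hn, rfl⟩ := (Core.mem_sup_of_le_normalizer
      Subgroup.le_normalizer_of_normal).mp (hB.sup_eq_top ▸ Subgroup.mem_top g)
    have : n ∈ N ⊓ Subgroup.normalizer (K : Set G) :=
      ⟨hn, (Subgroup.mul_mem_cancel_left _ (h2 hb)).mp hg⟩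
    rw [h5, Subgroup.mem_bot] at this
    rwa [this, mul_one]
  obtain ⟨K, h1, h2, h3, h4, P, h5, h6⟩ := key A hA hAp
  obtain ⟨L, l1, l2, l3, l4, Q, l5, l6⟩ := key A₁ hA₁ hA₁p
  have hs := Coprime.isSolvable_of_isPGroup hN
  have c1 := (Coprime.coprime_card_of_isPGroup h3 hN).symm
  have c2 := (Coprime.coprime_card_of_isPGroup l3 hN).symm
  obtain ⟨n, hn, e1⟩ := Coprime.sz_le_conj (A := K) (B := L) Subgroup.le_normalizer_of_normal
    (fun g hg => h4 g (l3.coprime_dvd_left (L.orderOf_dvd_natCard hg))) c1 c2 (Or.inl hs)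
  obtain ⟨m, -, e2⟩ := Coprime.sz_le_conj (A := L) (B := K) Subgroup.le_normalizer_of_normal
    (fun g hg => l4 g (h3.coprime_dvd_left (K.orderOf_dvd_natCard hg))) c2 c1 (Or.inl hs)
  have e3 := Subgroup.eq_of_le_of_card_ge e1 (by
    have := Subgroup.card_le_of_le e2
    rwa [Coprime.card_map_conj] at this ⊢)
  refine ⟨n, hn, ?_⟩
  rw [← key2 A K P hA h1 h2 h5 h6 hC, ← key2 A₁ L Q hA₁ l1 l2 l5 l6 hC₁, e3]
  exact (Subgroup.map_equiv_normalizer_eq K (MulAut.conj n)).symm

end Cfsg.Agent.S4043
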