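import Cfsg.Statements.S4051
import Cfsg.Agent.Lib.Coprime.PiClosed

set_option autoImplicit false
open Cfsg

namespace Cfsg.Agent.S4051

/-- Let π be a set of primes and G a finite group such that N_G(H)/C_G(H) is a π'-group for every nontrivial π'-subgroup H of G. If K is a normal subgroup of G such that the π-elements of K form a subgroup and the π-elements of G/K form a subgroup, then the π-elements of G form a subgroup. -/
theorem result {G : Type*} [Group G] [Finite G] (π : Set ℕ)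
    (hπ : ∀ p ∈ π, p.Prime) (hhom : (∀ H : Subgroup G, H ≠ ⊥ → (∀ p : ℕ, p.Prime → p ∣ Nat.card ↥H → p ∉ π) →
        ∀ p : ℕ, p.Prime → p ∣ (Subgroup.centralizer (H : Set G)).relIndex (Subgroup.normalizer (H : Set G)) → p ∉ π))
    (K : Subgroup G) [K.Normal]
    (hK : ∃ L : Subgroup ↥K, ∀ x : ↥K, x ∈ L ↔ ∀ p : ℕ, p.Prime → p ∣ orderOf x → p ∈ π)
    (hQ : ∃ L : Subgroup (G ⧸ K), ∀ x : G ⧸ K, x ∈ L ↔ ∀ p : ℕ, p.Prime → p ∣ orderOf x → p ∈ π) :
    (∃ K : Subgroup G, ∀ x : G, x ∈ K ↔ ∀ p : ℕ, p.Prime → p ∣ orderOf x → p ∈ π) := by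
  obtain ⟨L, hL⟩ := hK
  obtain ⟨M, hM⟩ := hQ
  obtain ⟨l0, l1, l2⟩ := Coprime.normal_hall_of_mem_iff hL
  obtain ⟨m0, m1, m2⟩ := Coprime.normal_hall_of_mem_iff hM
  obtain ⟨N, hN, h3, h4⟩ := Coprime.exists_normal_hall_of_piCentralizes
    (Coprime.isPiSeparable_of_normal_of_quotient K (Coprime.isPiSeparable_of_normal_hall l1 l2)
      (Coprime.isPiSeparable_of_normal_hall m1 m2)) (Coprime.piCentralizes_iff.mpr hhom)
  exact ⟨N, Coprime.mem_iff_isPiNum_orderOf h3 h4⟩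

end Cfsg.Agent.S4051
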