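import Cfsg.Statements.S4052
import Mathlib
import Cfsg.Agent.Lib.Char.PiHomog

set_option autoImplicit false
open Cfsg

namespace Cfsg.Agent.S4052

/-- Let π be a set of primes and G a finite group whose maximal π-subgroups are pairwise conjugate (so Hall π-subgroups exist, any two are conjugate, and every π-subgroup lies in one of them), and suppose N_G(H)/C_G(H) is a π-group for every nontrivial π-subgroup H. If either 3 does not divide the order of G, or the π'-elements of every proper subgroup of G form a subgroup, then the π'-elements of G form a subgroup. -/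
theorem result {G : Type*} [Group G] [Finite G] (π : Set ℕ)
    (hπ : ∀ p ∈ π, p.Prime) (hD : Cfsg.IsDPiGroup π G) (hhom : (∀ H : Subgroup G, H ≠ ⊥ → (∀ p : ℕ, p.Prime → p ∣ Nat.card ↥H → p ∈ π) →
        ∀ p : ℕ, p.Prime → p ∣ (Subgroup.centralizer (H : Set G)).relIndex (Subgroup.normalizer (H : Set G)) → p ∈ π))
    (hcase : ¬ 3 ∣ Nat.card G ∨ ∀ M : Subgroup G, M ≠ ⊤ →
      ∃ L : Subgroup ↥M, ∀ x : ↥M, x ∈ L ↔ ∀ p : ℕ, p.Prime → p ∣ orderOf x → p ∉ π) :
    (∃ K : Subgroup G, ∀ x : G, x ∈ K ↔ ∀ p : ℕ, p.Prime → p ∣ orderOf x → p ∉ π) := by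
  obtain ⟨H, hH⟩ := Coprime.isEPiGroup_of_isDPiGroup hD
  have h1 : Coprime.PiCentralizes πᶜ G := Coprime.piCentralizes_iff.2 fun U h0 hU p hp hd =>
    not_not.2 (hhom U h0 (fun q hq hq' => not_not.1 (hU q hq hq')) p hp hd)
  obtain ⟨K, hK, h2, h3⟩ := OO.PiHyp.exists_normal_compl π G H
    ⟨hH.1, Coprime.coversPi_of_isDPiGroup hH hD, fun U hU => h1 U hU.compl_compl⟩
  exact ⟨K, Coprime.mem_iff_isPiNum_orderOf h2 h3⟩

end Cfsg.Agent.S4052
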