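import Cfsg.Statements.S4057
import Cfsg.Agent.Lib.PGrp.Generators

set_option autoImplicit false
open Cfsg

namespace Cfsg.Agent.S4057

/-- Let p be an odd prime and P a finite p-group in which every normal abelian subgroup can be generated by k elements. Then every subgroup of P can be generated by at most ⌊k(k+4)/4⌋ elements. -/
theorem result {P : Type*} [Group P] [Finite P] {p : ℕ} [Fact p.Prime]
    (hp : p ≠ 2) (hP : IsPGroup p P) (k : ℕ)
    (hab : ∀ A : Subgroup P, A.Normal → IsMulCommutative A → ∃ S : Finset P, S.card ≤ k ∧ Subgroup.closure (S : Set P) = A) :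
    ∀ H : Subgroup P, ∃ S : Finset P, S.card ≤ k * (k + 4) / 4 ∧ Subgroup.closure (S : Set P) = H := by
  classical
  intro H
  have hp' : p.Prime := Fact.out
  obtain ⟨E, _, hE, hmax⟩ := PGrp.exists_maximal_elemAb (p := p) (G := P)
  obtain ⟨S, hS, hS'⟩ := hab E inferInstance hE.1
  have h1 := PGrp.index_frattini_le_of_maximal_elemAb hP hp hE hmax
    ((PGrp.card_le_of_closure_eq hE hS').trans (Nat.pow_le_pow_right hp'.pos hS)) H
  obtain ⟨d, hd⟩ := (hP.to_subgroup H).index (frattini H)
  obtain ⟨T, hT, hT'⟩ := PGrp.exists_generators_card_eq (hP.to_subgroup H) hd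
  rw [hd, Nat.pow_le_pow_iff_right hp'.one_lt] at h1
  refine ⟨T.image H.subtype, Finset.card_image_le.trans ?_, ?_⟩
  · rw [hT, mul_add, Nat.add_mul_div_right _ _ four_pos]
    exact h1
  · rw [Finset.coe_image, ← MonoidHom.map_closure, hT', ← MonoidHom.range_eq_map,
      Subgroup.range_subtype]

end Cfsg.Agent.S4057
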