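import Cfsg.Statements.S4065
import Mathlib
import Cfsg.Agent.Lib.Lin.Two

set_option autoImplicit false
open Cfsg

namespace Cfsg.Agent.S4065

theorem ti {G : Type*} [Group G]
    (h : ∀ a b y : G, y ≠ 1 → Commute a y → Commute b y → Commute a b) (x : G) :
    Cfsg.IsTISubset (Subgroup.centralizer ({x} : Set G) : Set G) := by
  intro g hg y hy hgy
  by_contra hy1
  apply hg
  by_cases hx : x = 1
  · subst hx
    rw [Subgroup.mem_normalizer_iff]
    intro a
    simp [Subgroup.mem_centralizer_singleton_iff]
  have key : ∀ y : G, y ≠ 1 → Commute y x → ∀ a, Commute a x ↔ Commute a y := fun y h1 h2 a =>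
    ⟨fun h3 => h a y x hx h3 h2, fun h3 => h a x y h1 h3 h2.symm⟩
  have h1 := key y hy1 (Subgroup.mem_centralizer_singleton_iff.1 hy)
  have h2 := key (g * y * g⁻¹) (by simpa [mul_inv_eq_iff_eq_mul] using hy1)
    (Subgroup.mem_centralizer_singleton_iff.1 hgy)
  rw [Subgroup.mem_normalizer_iff]
  intro a
  rw [Subgroup.mem_centralizer_singleton_iff, Subgroup.mem_centralizer_singleton_iff]
  refine (h1 a).trans (Iff.trans ?_ (h2 _).symm)
  exact ⟨fun h3 => h3.map (MulAut.conj g), fun h3 =>
    Commute.of_map (f := MulAut.conj g) (MulAut.conj g).injective h3⟩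


/-- Let F be a finite field with 2ⁿ elements, n ≥ 2. In PSL₂(F) the centralizer of every element meets each of its conjugates by elements outside its normalizer trivially. -/
theorem result (n : ℕ) (hn : 2 ≤ n)
    (x : Matrix.ProjectiveSpecialLinearGroup (Fin 2) (GaloisField 2 n)) :
    Cfsg.IsTISubset (Subgroup.centralizer ({x} : Set (Matrix.ProjectiveSpecialLinearGroup (Fin 2) (GaloisField 2 n))) :
      Set (Matrix.ProjectiveSpecialLinearGroup (Fin 2) (GaloisField 2 n))) := by
  have hz : ∀ a : Matrix.SpecialLinearGroup (Fin 2) (GaloisField 2 n),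
      a.val ∈ Set.range (Matrix.scalar (Fin 2)) → a = 1 := by
    rintro a ⟨r, hr⟩
    have h1 := a.2
    rw [← hr, Matrix.scalar_apply, Matrix.det_diagonal, Fin.prod_univ_two] at h1
    have h2 : r = 1 := by
      rcases mul_self_eq_one_iff.1 h1 with h | h
      · exact h
      · rw [h, CharTwo.neg_eq]
    exact Subtype.ext (by rw [← hr, h2, map_one]; rfl)
  have hinj : Function.Injective (QuotientGroup.mk'
      (Subgroup.center (Matrix.SpecialLinearGroup (Fin 2) (GaloisField 2 n)))) := by
    rw [injective_iff_map_eq_one]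
    intro a ha
    obtain ⟨r, -, hr⟩ := Matrix.SpecialLinearGroup.mem_center_iff.1
      ((QuotientGroup.eq_one_iff a).1 ha)
    exact hz a ⟨r, hr⟩
  refine ti (fun a b y hy ha hb => ?_) x
  obtain ⟨a, rfl⟩ := QuotientGroup.mk'_surjective _ a
  obtain ⟨b, rfl⟩ := QuotientGroup.mk'_surjective _ b
  obtain ⟨y, rfl⟩ := QuotientGroup.mk'_surjective _ y
  apply Commute.map
  exact Subtype.ext (Lin.commute_of_commute_two (y := y.val)
    (fun h => hy (by rw [hz y h, map_one]))
    (congrArg Subtype.val (ha.of_map hinj).eq) (congrArg Subtype.val (hb.of_map hinj).eq))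

end Cfsg.Agent.S4065
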