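import Cfsg.Statements.S4066
import Mathlib
import Cfsg.Agent.Lib.Cls.Basic
import Cfsg.Agent.Lib.PGrp.Basic
import Cfsg.Agent.Lib.Core.Zipper

set_option autoImplicit false
open Cfsg

namespace Cfsg.Agent.S4066

open Subgroup

/-- Let G be a finite group in which the centralizer of every element meets each of its conjugates by elements outside its normalizer trivially. Then any two distinct Sylow p-subgroups of G, for any prime p, intersect trivially. -/
theorem result {G : Type*} [Group G] [Finite G] (hTI : ∀ x : G, Cfsg.IsTISubset (Subgroup.centralizer ({x} : Set G) : Set G))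
    {p : ℕ} [Fact p.Prime] (P Q : Sylow p G) (hPQ : P ≠ Q) : (P : Subgroup G) ⊓ (Q : Subgroup G) = ⊥ := by
  refine (eq_bot_iff_forall _).2 fun x hx => ?_
  by_contra hx1
  obtain ⟨g, rfl⟩ := MulAction.exists_smul_eq G P Q
  obtain ⟨z, ⟨hz, hz'⟩, hz1⟩ : ∃ z ∈ (P : Subgroup G) ⊓ centralizer ((P : Subgroup G) : Set G),
      z ≠ 1 := by
    by_contra h
    push Not at h
    exact PGrp.inf_centralizer_ne_bot P.isPGroup' P.isPGroup' le_normalizer
      (fun h => hx1 (mem_bot.1 (h ▸ hx.1))) ((eq_bot_iff_forall _).2 h)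
  have hP : (P : Subgroup G) ≤ centralizer {z} := fun a ha =>
    mem_centralizer_singleton_iff.2 (hz' a ha)
  have h1 : g ∈ normalizer (centralizer {z} : Set G) := by
    by_contra h
    have := hTI z g h _ (hP (Cls.mem_smul_sylow_iff.1 hx.2)) (by simpa [mul_assoc] using hP hx.1)
    exact hx1 (by simpa [mul_assoc, inv_mul_eq_one] using this)
  have h2 : ((g • P : Sylow p G) : Subgroup G) ≤ centralizer {z} := fun a ha => by
    simpa [mul_assoc] using (mem_normalizer_iff.1 h1 _).1 (hP (Cls.mem_smul_sylow_iff.1 ha))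
  refine hPQ (Sylow.ext (P.3 (g • P).isPGroup' fun y hy => ?_).symm)
  refine Core.pCore_le_sylow ((g • P).subtype h2) (Core.mem_pCore_iff_forall_closure (x := ⟨y, hP hy⟩)
    |>.2 fun c => ?_)
  have h3 : (c : G) ∈ normalizer (centralizer {y} : Set G) := by
    by_contra h
    have h4 := (mem_centralizer_singleton_iff.1 (hP hy)).symm
    refine hz1 (hTI y c h z (mem_centralizer_singleton_iff.2 h4) ?_)
    rw [mem_centralizer_singleton_iff.1 c.2, mul_inv_cancel_right]
    exact mem_centralizer_singleton_iff.2 h4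
  have h4 := mem_centralizer_singleton_iff.1
    ((mem_normalizer_iff.1 h3 y).1 (mem_centralizer_singleton_iff.2 rfl))
  obtain ⟨k, hk⟩ := Core.exists_orderOf_eq_pow_of_mem P.isPGroup' hy
  rw [Set.insert_eq, Subgroup.closure_union, ← zpowers_eq_closure, ← zpowers_eq_closure]
  refine IsPGroup.to_sup_of_normal_right' (Core.isPGroup_zpowers_of_orderOf (k := k) (by
    rwa [orderOf_mk])) (Core.isPGroup_zpowers_of_orderOf (k := k) (by
      rw [← hk, ← orderOf_coe]; exact (MulAut.conj (c : G)).orderOf_eq _)) (zpowers_le.2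
      (centralizer_le_normalizer _ ?_))
  rw [Cls.centralizer_zpowers, mem_centralizer_singleton_iff]
  exact Subtype.ext h4.symm

end Cfsg.Agent.S4066
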