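import Cfsg.Statements.S4067
import Mathlib
import Cfsg.Agent.Lib.Reg.MaxClassPow

set_option autoImplicit false
open Cfsg

namespace Cfsg.Agent.S4067

open Subgroup MulAction Cfsg.Agent.Reg
open scoped commutatorElement

theorem card_orbits_eq (A X : Type*) [Group A] [MulAction A X] [Fintype X] :
    (Nat.card (orbitRel.Quotient A X) : ℚ) = ∑ x : X, 1 / ((orbit A x).ncard : ℚ) := by
  classical
  have := Fintype.ofFinite (orbitRel.Quotient A X)
  rw [← Finset.sum_fiberwise Finset.univ (Quotient.mk'' : X → orbitRel.Quotient A X),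
    Nat.card_eq_fintype_card, Fintype.card, Finset.card_eq_sum_ones, Nat.cast_sum]
  refine Finset.sum_congr rfl ?_
  rintro ⟨a⟩ -
  have h1 : ∀ x : X, (Quotient.mk'' x : orbitRel.Quotient A X) = Quot.mk _ a ↔ x ∈ orbit A a :=
    fun x => Quotient.eq''.trans orbitRel_apply
  rw [Finset.sum_congr rfl (g := fun _ => 1 / ((orbit A a).ncard : ℚ)) fun x hx => by
    rw [orbit_eq_iff.2 ((h1 x).1 (by simpa using hx))], Finset.sum_const, nsmul_eq_mul,
    ← Set.ncard_coe_finset, Finset.coe_filter]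
  simp only [Finset.mem_univ, true_and, h1, Set.ofPred_mem_eq]
  rw [mul_one_div_cancel, Nat.cast_one]
  exact Nat.cast_ne_zero.2 (Set.ncard_ne_zero_of_mem (mem_orbit_self a))

variable {G : Type*} [Group G] [Finite G]

theorem bound {p d : ℕ} (hp : 0 < p) (hd : p < d) {M : Subgroup G} (hZ : center G ≤ M)
    (h1 : ∀ g ∉ center G, p ≤ (orbit (MulAut G) g).ncard)
    (h2 : ∀ g ∉ M, d ≤ (orbit (MulAut G) g).ncard) (h3 : p * Nat.card M ≤ Nat.card G)
    (h4 : Nat.card (center G) * d + Nat.card M * p ≤ Nat.card M * d) :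
    Nat.card (orbitRel.Quotient (MulAut G) G) ≤ Nat.card G / p := by
  classical
  have := Fintype.ofFinite G
  have hp' : (1 : ℚ) ≤ p := Nat.one_le_cast.2 hp
  have hd' : (p : ℚ) < d := Nat.cast_lt.2 hd
  have h5 : ∀ (K : Subgroup G) [DecidablePred (· ∈ K)] (c : ℚ), ∑ g : G, (if g ∈ K then c else 0) = Nat.card K * c := by
    intro K _ c
    rw [← Finset.sum_filter, Finset.sum_const, nsmul_eq_mul, Nat.card_eq_fintype_card,
      Fintype.card_subtype]
  have h6 : (Nat.card (orbitRel.Quotient (MulAut G) G) : ℚ) ≤ ∑ g : G, (1 / (d : ℚ) +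
      (if g ∈ M then 1 / (p : ℚ) - 1 / d else 0) + (if g ∈ center G then 1 - 1 / (p : ℚ) else 0)) := by
    rw [card_orbits_eq]
    refine Finset.sum_le_sum fun g _ => ?_
    by_cases hg : g ∈ center G
    · rw [if_pos hg, if_pos (hZ hg), add_sub_cancel, add_sub_cancel]
      exact div_le_one_of_le₀ (Nat.one_le_cast.2 (Nat.pos_of_ne_zero
        (Set.ncard_ne_zero_of_mem (mem_orbit_self g)))) (Nat.cast_nonneg _)
    rw [if_neg hg, add_zero]
    by_cases hg' : g ∈ M
    · rw [if_pos hg', add_sub_cancel]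
      exact one_div_le_one_div_of_le (by positivity) (Nat.cast_le.2 (h1 g hg))
    · rw [if_neg hg', add_zero]
      exact one_div_le_one_div_of_le (by linarith) (Nat.cast_le.2 (h2 g hg'))
  rw [Finset.sum_add_distrib, Finset.sum_add_distrib, h5, h5, Finset.sum_const, nsmul_eq_mul,
    Finset.card_univ, ← Nat.card_eq_fintype_card] at h6
  rw [Nat.le_div_iff_mul_le hp, ← Nat.cast_le (α := ℚ), Nat.cast_mul, ← le_div_iff₀ (by linarith)]
  refine h6.trans ?_
  have h3' : (p : ℚ) * Nat.card M ≤ Nat.card G := by exact_mod_cast h3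
  have h4' : (Nat.card (center G) : ℚ) * d + Nat.card M * p ≤ Nat.card M * d := by exact_mod_cast h4
  have : (0 : ℚ) < d := by linarith
  field_simp
  nlinarith [mul_le_mul_of_nonneg_right h3' (sub_nonneg.2 hd'.le),
    mul_le_mul_of_nonneg_right h4' (sub_nonneg.2 hp')]

theorem index_centralizer_le (g : G) :
    (centralizer ({g} : Set G)).index ≤ (orbit (MulAut G) g).ncard := by
  have h := index_stabilizer (ConjAct G) g
  rw [ConjAct.stabilizer_eq_centralizer] at h
  exact h.le.trans (Set.ncard_le_ncard fun _ ⟨h, hh⟩ => ⟨MulAut.conj (ConjAct.ofConjAct h), hh⟩)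

omit [Finite G] in
theorem exists_mulAut {p : ℕ} [Fact p.Prime] {M : Subgroup G} [M.Normal] (hM : M.index = p)
    {y x : G} (hy : y ∉ M) (hx : x ∈ M) (hc : x ∈ centralizer (M : Set G))
    (h : (y * x) ^ p = y ^ p) : ∃ α : MulAut G, (∀ m ∈ M, α m = m) ∧ α y = y * x := by
  have hy' : y * x ∉ M := fun e => hy ((mul_mem_cancel_right hx).1 e)
  have h1 : ∀ k : ℤ, ∀ m ∈ M, ((y * x) ^ k)⁻¹ * m * (y * x) ^ k = (y ^ k)⁻¹ * m * y ^ k := by
    intro k m hm
    have h2 : MulAut.conjNormal (H := M) (y * x) = MulAut.conjNormal y := by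
      ext ⟨m, hm⟩
      simp only [MulAut.conjNormal_apply]
      rw [mul_assoc y, ← hc m hm]; group
    have h3 := congrArg (fun f : MulAut M => (((f ^ k)⁻¹) ⟨m, hm⟩ : G)) h2
    simpa only [← map_zpow, ← map_inv, MulAut.conjNormal_apply, inv_inv] using h3
  let D : Subgroup (G × G) :=
    { carrier := {a | ∃ k : ℤ, ∃ m ∈ M, a = (y ^ k * m, (y * x) ^ k * m)}
      one_mem' := ⟨0, 1, one_mem _, by ext <;> simp⟩
      mul_mem' := by
        rintro _ _ ⟨k, m, hm, rfl⟩ ⟨l, n, hn, rfl⟩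
        refine ⟨k + l, (y ^ l)⁻¹ * m * y ^ l * n,
          mul_mem (Normal.conj_mem' inferInstance m hm _) hn, Prod.ext ?_ ?_⟩
        · simp [zpow_add, mul_assoc]
        · rw [← h1 l m hm]; simp [zpow_add, mul_assoc]
      inv_mem' := by
        rintro _ ⟨k, m, hm, rfl⟩
        refine ⟨-k, (y ^ (-k))⁻¹ * m⁻¹ * y ^ (-k),
          Normal.conj_mem' inferInstance _ (inv_mem hm) _, Prod.ext ?_ ?_⟩
        · simp [mul_assoc]
        · rw [← h1 _ _ (inv_mem hm)]; simp [mul_assoc] }
  have h2 : ∀ a b : G, a ∉ M → a ^ p = b ^ p → ∀ k : ℤ, ∀ m ∈ M, a ^ k * m = 1 → b ^ k * m = 1 := by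
    intro a b ha hab k m hm h3
    have h4 : orderOf (a : G ⧸ M) = p := orderOf_eq_prime
      (by rw [← hM]; exact pow_card_eq_one') (mt (QuotientGroup.eq_one_iff a).1 ha)
    obtain ⟨l, rfl⟩ : (p : ℤ) ∣ k := by
      rw [← h4, orderOf_dvd_iff_zpow_eq_one, ← QuotientGroup.mk_zpow, QuotientGroup.eq_one_iff,
        ← mul_mem_cancel_right hm, h3]
      exact one_mem _
    rwa [zpow_mul, zpow_natCast, ← hab, ← zpow_natCast, ← zpow_mul]
  have h3 : ∀ a : G, a ∉ M → ∀ g, ∃ k : ℤ, (a ^ k)⁻¹ * g ∈ M := fun a ha g => by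
    obtain ⟨k, hk⟩ := mem_zpowers_of_prime_card (g' := (g : G ⧸ M)) hM
      (mt (QuotientGroup.eq_one_iff a).1 ha)
    exact ⟨k, QuotientGroup.eq.1 hk⟩
  obtain ⟨e, he⟩ := D.exists_mulEquiv_eq_graph
    ⟨(injective_iff_map_eq_one ((MonoidHom.fst G G).comp D.subtype)).2 (by
      rintro ⟨_, k, m, hm, rfl⟩ h4
      exact Subtype.ext (Prod.ext h4 (h2 _ _ hy h.symm k m hm h4))), fun g => by
      obtain ⟨k, hk⟩ := h3 y hy g
      exact ⟨⟨_, k, _, hk, rfl⟩, mul_inv_cancel_left _ _⟩⟩
    ⟨(injective_iff_map_eq_one ((MonoidHom.snd G G).comp D.subtype)).2 (by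
      rintro ⟨_, k, m, hm, rfl⟩ h4
      exact Subtype.ext (Prod.ext (h2 _ _ hy' h k m hm h4) h4)), fun g => by
      obtain ⟨k, hk⟩ := h3 _ hy' g
      exact ⟨⟨_, k, _, hk, rfl⟩, mul_inv_cancel_left _ _⟩⟩
  exact ⟨e, fun m hm => he.le (⟨0, m, hm, by simp⟩ : (m, m) ∈ D),
    he.le (⟨1, 1, one_mem _, by simp⟩ : (y, y * x) ∈ D)⟩

omit [Finite G] in
theorem mem_of_coprime {H : Subgroup G} {a : G} {m n : ℕ} (hm : a ^ m ∈ H) (hn : a ^ n ∈ H)
    (h : m.Coprime n) : a ∈ H := by
  have := mul_mem (zpow_mem hm (Nat.gcdA m n)) (zpow_mem hn (Nat.gcdB m n))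
  rwa [← zpow_natCast, ← zpow_natCast, ← zpow_mul, ← zpow_mul, ← zpow_add, ← Nat.gcd_eq_gcd_ab,
    h.gcd_eq_one, Nat.cast_one, zpow_one] at this

omit [Finite G] in
theorem ncard_coset (g : G) (K : Subgroup G) : ((g * ·) '' (K : Set G)).ncard = Nat.card K :=
  Set.ncard_image_of_injective _ (mul_right_injective g)

/-- Let G be a finite non-abelian group and p the least prime dividing its order. Then the automorphism group of G has at most #G/p orbits on G. -/
theorem result {G : Type*} [Group G] [Finite G] (hna : ¬ IsMulCommutative G) :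
    Nat.card (MulAction.orbitRel.Quotient (MulAut G) G) ≤ Nat.card G / (Nat.card G).minFac := by
  set p := (Nat.card G).minFac with hpdef
  have hZ : center G ≠ ⊤ := fun e => hna ⟨⟨fun a b => mem_center_iff.1 (e ▸ mem_top b) a⟩⟩
  have hp : p.Prime := Nat.minFac_prime fun e => hZ (by
    have := (Nat.card_eq_one_iff_unique.1 e).1
    exact Subsingleton.elim _ _)
  have : Fact p.Prime := ⟨hp⟩
  have hidx : ∀ K : Subgroup G, K ≠ ⊤ → p ≤ K.index := fun K hK => Nat.minFac_le_of_dvd
    (one_lt_index_of_ne_top hK) K.index_dvd_card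
  have hcen : ∀ g ∉ center G, centralizer ({g} : Set G) ≠ ⊤ := fun g hg e =>
    hg (centralizer_eq_top_iff_subset.1 e rfl)
  have h1 : ∀ g ∉ center G, p ≤ (orbit (MulAut G) g).ncard := fun g hg =>
    (hidx _ (hcen g hg)).trans (index_centralizer_le g)
  have h3 : ∀ K : Subgroup G, K ≠ ⊤ → p * Nat.card K ≤ Nat.card G := fun K hK =>
    K.index_mul_card ▸ Nat.mul_le_mul_right _ (hidx K hK)
  by_cases hP : IsPGroup p (G ⧸ center G)
  swap
  · obtain ⟨q, hq, hqp, hqd⟩ : ∃ q, q.Prime ∧ q ≠ p ∧ q ∣ Nat.card (G ⧸ center G) := by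
      by_contra h
      push Not at h
      exact hP (IsPGroup.of_card (Nat.eq_prime_pow_of_unique_prime_dvd Nat.card_pos.ne'
        fun hq hd => by_contra fun e => h _ hq e hd))
    have : Fact q.Prime := ⟨hq⟩
    obtain ⟨y, hy⟩ := exists_prime_orderOf_dvd_card' q hqd
    obtain ⟨y, rfl⟩ := QuotientGroup.mk_surjective y
    have hy1 : y ∉ center G := fun e => hq.one_lt.ne (by
      rw [← hy, (QuotientGroup.eq_one_iff y).2 e, orderOf_one])
    have hy2 : y ^ q ∈ center G := (QuotientGroup.eq_one_iff _).1 (hy ▸ pow_orderOf_eq_one (y : G ⧸ center G))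
    have hpq : p < q := lt_of_le_of_ne (Nat.minFac_le_of_dvd hq.two_le
      (hqd.trans (center G).index_dvd_card)) hqp.symm
    refine bound hp.pos p.lt_succ_self (center_le_centralizer {y}) h1 (fun g hg => ?_)
      (h3 _ (hcen y hy1)) ?_
    · refine le_trans (lt_of_le_of_ne (hidx _ (hcen g fun e => hg (center_le_centralizer _ e)))
        fun e => hg ?_) (index_centralizer_le g)
      have := normal_of_index_eq_minFac_card e.symm
      exact mem_centralizer_singleton_iff.2 (mem_centralizer_singleton_iff.1 (mem_of_coprime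
        (e ▸ pow_index_mem _ y) (center_le_centralizer _ hy2)
        ((Nat.coprime_primes hp hq).2 hqp.symm))).symm
    · rw [Nat.mul_succ (Nat.card (centralizer _)), add_comm, Nat.add_le_add_iff_left]
      refine (Nat.mul_le_mul_left _ hpq).trans ?_
      rw [← PGrp.card_sup_zpowers (by rw [normalizer_eq_top]; trivial) hy1 hy2]
      exact card_le_of_le (sup_le (center_le_centralizer _)
        (zpowers_le.2 (mem_centralizer_singleton_iff.2 rfl)))
  suffices h : ∃ M : Subgroup G, center G < M ∧ M ≠ ⊤ ∧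
      ∀ g ∉ M, 2 * p ≤ (orbit (MulAut G) g).ncard by
    obtain ⟨M, hM, hM', h⟩ := h
    refine bound hp.pos (by have := hp.pos; omega) hM.le h1 h (h3 M hM') ?_
    have h4 := PGrp.card_mul_relIndex hM.le
    have h5 : 2 ≤ (center G).relIndex M := one_lt_index_of_ne_top fun e =>
      hM.not_ge (subgroupOf_eq_top.1 e)
    nlinarith [Nat.mul_le_mul_left (Nat.card (center G) * p) h5]
  have hsq : ∀ k, p < p ^ k → 2 * p ≤ p ^ k := fun k hk => by
    have h4 : 1 < k := (Nat.pow_lt_pow_iff_right hp.one_lt).1 (by rwa [pow_one])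
    exact (Nat.mul_le_mul_right p hp.two_le).trans (sq p ▸ Nat.pow_le_pow_right hp.pos h4)
  let f : center G →* center G :=
    MonoidHom.mk' (· ^ p) fun a b => Commute.mul_pow (Subtype.ext (mem_center_iff.1 b.2 a)) p
  let Ω : Subgroup G := f.ker.map (center G).subtype
  have hΩ : ∀ c, c ∈ Ω ↔ c ∈ center G ∧ c ^ p = 1 := fun c =>
    ⟨by rintro ⟨c, hc, rfl⟩; exact ⟨c.2, congrArg Subtype.val hc⟩,
      fun h => ⟨⟨c, h.1⟩, Subtype.ext h.2, rfl⟩⟩
  have := PGrp.normal_of_le_center fun c hc => ((hΩ c).1 hc).1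
  by_cases hΩp : p < Nat.card Ω
  · have := QuotientGroup.nontrivial_iff.2 hZ
    obtain ⟨M, -, hM, -⟩ := PGrp.exists_le_index_eq hP bot_ne_top
    have h4 : (M.comap (QuotientGroup.mk' (center G))).index = p := by
      rw [index_comap_of_surjective _ (QuotientGroup.mk'_surjective _), hM]
    have := normal_of_index_eq_minFac_card h4
    have h5 := Core.le_comap_mk (center G) M
    refine ⟨_, lt_of_le_of_ne h5 fun e => hna ?_, (PGrp.isCoatom_of_index_eq h4).1, fun g hg => ?_⟩
    · have := isCyclic_of_prime_card (α := G ⧸ center G) ((congrArg index e).trans h4)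
      exact (QuotientGroup.mk' (center G)).isMulCommutative_of_isCyclic_of_ker_le_center
        (QuotientGroup.ker_mk' _).le
    obtain ⟨k, hk⟩ := IsPGroup.iff_card.1 (show IsPGroup p Ω from fun c =>
      ⟨1, Subtype.ext ((pow_one p).symm ▸ ((hΩ c).1 c.2).2)⟩)
    refine (hsq k (hk ▸ hΩp)).trans ?_
    rw [← hk, ← ncard_coset g]
    refine Set.ncard_le_ncard ?_
    rintro _ ⟨c, hc, rfl⟩
    obtain ⟨h6, h7⟩ := (hΩ c).1 hc
    obtain ⟨α, -, hα⟩ := exists_mulAut h4 hg (h5 h6) (center_le_centralizer _ h6) (by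
      rw [(PGrp.commute_of_mem_center h6 g).symm.mul_pow, h7, mul_one])
    exact ⟨α, hα⟩
  have hW : ∀ w ∉ center G, (∀ h : G, ⁅h, w⁆ ∈ Ω) → (centralizer ({w} : Set G)).index = p := by
    intro w hw hw'
    refine le_antisymm (le_trans ?_ (not_lt.1 hΩp)) (hidx _ (hcen w hw))
    have h4 := PGrp.card_centralizer_mk_le Ω w
    rw [show centralizer {(w : G ⧸ Ω)} = ⊤ from eq_top_iff.2 fun g _ => by
      obtain ⟨h, rfl⟩ := QuotientGroup.mk_surjective g
      exact mem_commIn.2 (hw' h), card_top, ← index_eq_card] at h4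
    have h5 := (centralizer ({w} : Set G)).card_mul_index
    rw [← Ω.index_mul_card] at h5
    exact Nat.le_of_mul_le_mul_left (h5.le.trans (Nat.mul_le_mul_right _ h4)) Nat.card_pos
  have hlt : ∀ w ∉ center G, center G < centralizer ({w} : Set G) := fun w hw =>
    lt_of_le_of_ne (center_le_centralizer _) fun e => hw (e ▸ mem_centralizer_singleton_iff.2 rfl)
  let W := (center (G ⧸ Ω)).comap (QuotientGroup.mk' Ω)
  have hW' : ∀ w, w ∈ W ↔ ∀ h : G, ⁅h, w⁆ ∈ Ω := fun w => by
    rw [mem_comap, mem_center_iff, (QuotientGroup.mk'_surjective Ω).forall]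
    exact forall_congr' fun h => mem_centralizer_singleton_iff.symm.trans mem_commIn
  by_cases hab : ∃ a ∈ W, ∃ b ∈ W, ¬ Commute a b
  swap
  · have := QuotientGroup.nontrivial_iff.2 hZ
    obtain ⟨x, -, hx, hxo⟩ := PGrp.exists_mem_center_orderOf_eq hP (N := ⊤) top_ne_bot
    obtain ⟨x, rfl⟩ := QuotientGroup.mk_surjective x
    have hx1 : x ∉ center G := fun e => hp.one_lt.ne (by
      rw [← hxo, (QuotientGroup.eq_one_iff x).2 e, orderOf_one])
    have hx2 : x ^ p ∈ center G := (QuotientGroup.eq_one_iff _).1 (hxo ▸ pow_orderOf_eq_one (x : G ⧸ center G))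
    have hx3 : ∀ h : G, ⁅h, x⁆ ∈ Ω := fun h => by
      have h4 : ⁅h, x⁆ ∈ center G := mem_commIn.1
        (mem_centralizer_singleton_iff.2 (mem_center_iff.1 hx _))
      rw [hΩ, ← PGrp.commutatorElement_pow_right_of_commute (PGrp.commute_of_mem_center h4 x),
        commutatorElement_eq_one_iff_mul_comm]
      exact ⟨h4, mem_center_iff.1 hx2 h⟩
    refine ⟨_, hlt x hx1, hcen x hx1, fun g hg => le_trans ?_ (index_centralizer_le g)⟩
    have hg' : ¬ Commute g x := fun e => hg (mem_centralizer_singleton_iff.2 e)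
    obtain ⟨k, hk⟩ := IsPGroup.iff_card.1 hP
    obtain ⟨l, -, hl⟩ := (Nat.dvd_prime_pow hp).1
      ((index_dvd_of_le (center_le_centralizer ({g} : Set G))).trans hk.dvd)
    rw [hl]
    refine hsq l (hl ▸ lt_of_le_of_ne (hidx _ (hcen g fun e => hg (center_le_centralizer _ e)))
      fun e => hab ⟨g, (hW' g).2 fun h => mem_commIn.1 ?_, x, (hW' x).2 hx3, hg'⟩)
    rw [(PGrp.isCoatom_of_index_eq e.symm).2 (commIn Ω g) (lt_of_le_of_ne
      (fun c hc => mem_commIn.2 (by
        rw [commutatorElement_eq_one_iff_mul_comm.2 (mem_centralizer_singleton_iff.1 hc)]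
        exact one_mem _)) fun e' => hg' (mem_centralizer_singleton_iff.1 (e'.ge
          (mem_commIn.2 (commutatorElement_mem_comm.1 (hx3 g))))).symm)]
    trivial
  obtain ⟨a, ha, b, hb, hab⟩ := hab
  have hWp : ∀ w ∈ W, w ^ p ∈ center G := fun w hw => mem_center_iff.2 fun h => by
    obtain ⟨h4, h5⟩ := (hΩ _).1 ((hW' w).1 hw h)
    rwa [← commutatorElement_eq_one_iff_mul_comm,
      PGrp.commutatorElement_pow_right_of_commute (PGrp.commute_of_mem_center h4 w)]
  obtain ⟨u, hu, v, hv, huv, c, hc, h4⟩ : ∃ u ∈ W, ∃ v ∈ W, ¬ Commute u v ∧ ∃ c ∈ center G,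
      (u * c) ^ p = v ^ p := by
    let u : ℕ → G := fun k => if k < p then b * a ^ k else a
    have hu : ∀ k, u k ∈ W := fun k => by
      simp only [u]
      split_ifs
      exacts [mul_mem hb (pow_mem ha k), ha]
    have hu' : ∀ k l, k < l → l ≤ p → ¬ Commute (u k) (u l) := fun k l hkl hl h => by
      have h5 : u k = b * a ^ k := if_pos (hkl.trans_le hl)
      have h6 : Commute a (u k) := by
        by_cases h6 : l < p
        · refine mem_centralizer_singleton_iff.1 (mem_of_coprime (m := l - k) ?_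
            (center_le_centralizer _ (hWp a ha)) ((Nat.coprime_of_lt_prime (by omega)
              (by omega) hp).symm))
          have h7 := ((Commute.refl (u k)).inv_left.mul_left h.symm)
          rw [mem_centralizer_singleton_iff]
          convert h7.eq using 2 <;>
          rw [h5, show u l = b * a ^ l from if_pos h6, pow_sub _ hkl.le] <;> group
        · exact (show u l = a from if_neg h6) ▸ h.symm
      have h7 := h6.mul_right ((Commute.refl a).pow_right k).inv_right
      rw [h5, mul_inv_cancel_right] at h7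
      exact hab h7
    have := Fintype.ofFinite (center G ⧸ f.range)
    obtain ⟨k, hk, l, hl, hkl, h⟩ := Finset.exists_ne_map_eq_of_card_lt_of_maps_to
      (s := Finset.range (p + 1)) (t := Finset.univ) (f := fun k =>
        ((⟨u k ^ p, hWp _ (hu k)⟩ : center G) : center G ⧸ f.range)) (by
        rw [Finset.card_univ, ← Nat.card_eq_fintype_card, ← index_eq_card, index_range,
          Finset.card_range, ← card_subtype]
        exact Nat.lt_succ_of_le (not_lt.1 hΩp)) fun _ _ => Finset.mem_univ _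
    obtain ⟨c, hc⟩ := QuotientGroup.eq.1 h
    rw [Finset.mem_range] at hk hl
    refine ⟨_, hu k, _, hu l, (lt_or_gt_of_ne hkl).elim (fun e => hu' k l e (by omega))
      fun e e' => hu' l k e (by omega) e'.symm, c, c.2, ?_⟩
    rw [(PGrp.commute_of_mem_center c.2 _).symm.mul_pow,
      show (c : G) ^ p = (u k ^ p)⁻¹ * u l ^ p from congrArg Subtype.val hc, mul_inv_cancel_left]
  set w := (u * c)⁻¹ * v with hw
  have hwW : ∀ h : G, ⁅h, w⁆ ∈ Ω := (hW' w).1 (mul_mem (inv_mem (mul_mem hu ((hW' c).2 fun h => by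
    rw [commutatorElement_eq_one_iff_mul_comm.2 (mem_center_iff.1 hc h)]; exact one_mem _))) hv)
  have h5 : u * c ∉ centralizer {w} := fun e => huv (by
    have h6 : Commute (u * c) (u * c * w) :=
      (Commute.refl _).mul_right (mem_centralizer_singleton_iff.1 e)
    have h7 := h6.mul_left (PGrp.commute_of_mem_center hc _).inv_left
    rwa [hw, mul_inv_cancel_left, mul_inv_cancel_right] at h7)
  have hwZ : w ∉ center G := fun e => hcen w (fun _ => h5
    (mem_centralizer_singleton_iff.2 (mem_center_iff.1 e _))) (centralizer_eq_top_iff_subset.2 (by simpa))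
  have h6 := hW w hwZ hwW
  have := normal_of_index_eq_minFac_card h6
  obtain ⟨α, hα, hα'⟩ := exists_mulAut h6 h5 (mem_centralizer_singleton_iff.2 rfl)
    (fun m hm => mem_centralizer_singleton_iff.1 hm) (by rw [hw, mul_inv_cancel_left, h4])
  refine ⟨_, hlt w hwZ, hcen w hwZ, fun g hg => ?_⟩
  obtain ⟨h7, h8⟩ := (hΩ _).1 (hwW g⁻¹)
  have h9 : Nat.card (zpowers ⁅g⁻¹, w⁆) = p := by
    rw [Nat.card_zpowers, orderOf_eq_prime h8 fun e => hg (inv_mem_iff.1
      (mem_centralizer_singleton_iff.2 (commutatorElement_eq_one_iff_mul_comm.1 e)))]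
  have h10 : (g * ·) '' (zpowers ⁅g⁻¹, w⁆ : Set G) ⊆ orbit (MulAut G) g := by
    rintro _ ⟨_, ⟨k, rfl⟩, rfl⟩
    refine ⟨MulAut.conj (w ^ k), ?_⟩
    simp only [← PGrp.commutatorElement_zpow_right_of_commute (PGrp.commute_of_mem_center h7 w),
      MulAut.smul_def, MulAut.conj_apply, commutatorElement_def g⁻¹ (w ^ k)]
    group
  refine le_trans ?_ (Set.ncard_le_ncard (Set.union_subset h10 (t := α '' ((g * ·) ''
    (zpowers ⁅g⁻¹, w⁆ : Set G))) (by rintro _ ⟨x, hx, rfl⟩; exact mem_orbit_of_mem_orbit α (h10 hx))))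
  rw [Set.ncard_union_eq, Set.ncard_image_of_injective _ α.injective, ncard_coset, h9, two_mul]
  rw [Set.disjoint_left]
  rintro _ ⟨x, hx, rfl⟩ ⟨_, ⟨y, hy, rfl⟩, h11⟩
  let K : Subgroup G := ((QuotientGroup.mk' (center G)).comp α.toMonoidHom).eqLocus
    (QuotientGroup.mk' (center G))
  have h12 : g ∈ K := by
    refine QuotientGroup.eq.2 ?_
    have h13 : α g = g * x * y⁻¹ := by
      rw [eq_mul_inv_iff_mul_eq, ← hα y (center_le_centralizer _ (zpowers_le.2 h7 hy)), ← map_mul]
      exact h11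
    change (α g)⁻¹ * g ∈ center G
    rw [h13, mul_assoc, mul_inv_rev, inv_mul_cancel_right]
    exact inv_mem (zpowers_le.2 h7 (mul_mem hx (inv_mem hy)))
  have h13 : u * c ∈ K := by
    rw [(PGrp.isCoatom_of_index_eq h6).2 K (lt_of_le_of_ne (fun m hm => congrArg _ (hα m hm))
      fun e => hg (e ▸ h12))]
    trivial
  have h14 : (α (u * c))⁻¹ * (u * c) ∈ center G := QuotientGroup.eq.1 h13
  rw [hα', mul_inv_rev, inv_mul_cancel_right, inv_mem_iff] at h14
  exact hwZ h14

end Cfsg.Agent.S4067
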