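import Cfsg.Statements.S4068
import Mathlib
import Cfsg.Agent.Lib.PGrp.Basic
import Cfsg.Agent.Lib.Coprime.Generate
import Cfsg.Agent.Lib.Char.Burnside
import Cfsg.Agent.Lib.Cls.Basic
import Cfsg.Agent.Lib.Core.MinNormal

set_option autoImplicit false
open Cfsg

namespace Cfsg.Agent.S4068

open Subgroup

theorem arith1 {h Q R : ℕ} (hh : 1 ≤ h) (h3 : (2 * h + 1) ^ 2 ≤ Q)
    (h1 : (2 * h + 1 + 1) * (Q + R) = 2 + 2 * Q * R) : False := by
  zify at *
  have h4 : ((Q : ℤ) - (h + 1)) * (R - (h + 1)) = (h + 1) ^ 2 - 1 := by linarith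
  have h6 : (h + 1 : ℤ) ^ 2 - 1 < Q - (h + 1) := by nlinarith
  have h7 : (0 : ℤ) < (h + 1) ^ 2 - 1 := by nlinarith
  rcases le_or_gt (R : ℤ) (h + 1) with h5 | h5
  · have := mul_nonpos_of_nonneg_of_nonpos (show (0 : ℤ) ≤ Q - (h + 1) by linarith)
      (show (R : ℤ) - (h + 1) ≤ 0 by linarith)
    linarith
  · have := mul_le_mul_of_nonneg_left (show (1 : ℤ) ≤ R - (h + 1) by linarith)
      (show (0 : ℤ) ≤ Q - (h + 1) by linarith)
    linarith

theorem arith2 {m Q R g nq nr : ℕ} (hm : 1 < m) (hQ : 1 < Q) (hR : 1 < R) (hG : g = m * Q * R)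
    (hcls : g = 1 + Q * R + nq + nr)
    (hineq : (Q * R) ^ 2 ≤ Q * R + Q * R * (m - 2) + nq * Q + nr * R)
    (aq : 2 * nq + m * R ≤ g) (ar : 2 * nr + m * Q ≤ g) :
    2 * nq + m * R = g ∧ 2 * nr + m * Q = g ∧ m * (Q + R) = 2 + 2 * Q * R := by
  obtain ⟨a, ha⟩ := Nat.exists_eq_add_of_le aq
  obtain ⟨b, hb⟩ := Nat.exists_eq_add_of_le ar
  obtain ⟨m, rfl⟩ := Nat.exists_eq_add_of_le' hm
  simp only [Nat.succ_eq_add_one, Nat.reduceAdd, Nat.add_sub_cancel] at *
  have e1 : (m + 2) * (Q + R) + a + b = 2 + 2 * Q * R := by linarith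
  have e2 : (a + b) * (Q * R) + a * Q + b * R ≤ 0 := by
    zify at *
    have f1 : (2 * nq * Q : ℤ) = (g - (m + 2) * R - a) * Q := by rw [ha]; ring
    have f2 : (2 * nr * R : ℤ) = (g - (m + 2) * Q - b) * R := by rw [hb]; ring
    have f3 : (Q * R : ℤ) * ((m + 2) * (Q + R) + a + b) = (Q * R) * (2 + 2 * Q * R) := by rw [e1]
    rw [hG] at f1 f2
    linarith
  have e3 : a * Q = 0 := by omega
  have e4 : b * R = 0 := by omega
  have e5 : a = 0 := (mul_eq_zero.1 e3).resolve_right (by omega)
  have e6 : b = 0 := (mul_eq_zero.1 e4).resolve_right (by omega)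
  subst e5 e6
  exact ⟨ha.symm, hb.symm, e1⟩

section
variable {G : Type*} [Group G] [Finite G] (hpr : ∀ g : G, g ≠ 1 → (orderOf g).Prime)
include hpr

omit [Finite G] in
theorem ord_of_comm {p : ℕ} (hp : p.Prime) {x y : G} (hx : orderOf x = p) (hy : y ≠ 1)
    (h : Commute x y) : orderOf y = p := by
  by_contra h1
  have h2 := h.orderOf_mul_eq_mul_orderOf_of_coprime
    (by rw [hx]; exact (Nat.coprime_primes hp (hpr y hy)).2 (Ne.symm h1))
  have h3 : x * y ≠ 1 := fun h4 => by
    rw [h4, orderOf_one, eq_comm, mul_eq_one, hx] at h2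
    exact hp.one_lt.ne' h2.1
  have h4 := hpr _ h3
  rw [h2, hx, Nat.prime_mul_iff] at h4
  rcases h4 with h4 | h4
  · exact hy (orderOf_eq_one_iff.1 h4.2)
  · exact hp.one_lt.ne' h4.2

omit [Finite G] in
theorem ord_of_pgroup {p : ℕ} [Fact p.Prime] {P : Subgroup G} (hP : IsPGroup p P) {y : G}
    (hy : y ∈ P) (hy1 : y ≠ 1) : orderOf y = p := by
  have h1 : p ∣ orderOf y := by
    simpa using hP.dvd_orderOf (g := ⟨y, hy⟩) (fun h' => hy1 (congrArg Subtype.val h'))
  exact ((Nat.prime_dvd_prime_iff_eq Fact.out (hpr y hy1)).1 h1).symm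

omit [Finite G] in
theorem cent_pgroup {p : ℕ} (hp : p.Prime) {x : G} (hx : orderOf x = p) :
    IsPGroup p (centralizer {x}) := by
  rintro ⟨y, hy⟩
  refine ⟨1, Subtype.ext ?_⟩
  by_cases h : y = 1
  · simp [h]
  · rw [pow_one, SubmonoidClass.mk_pow, ← ord_of_comm hpr hp hx h
      (Cls.mem_centralizer_single_commute.1 hy).symm]
    exact pow_orderOf_eq_one y

theorem not_sq_dvd {p s : ℕ} [Fact p.Prime] [Fact s.Prime] (hps : s ≠ p) {T : Subgroup G}
    (hT : IsPGroup p T) (hT1 : T ≠ ⊥) : ¬ s ^ 2 ∣ Nat.card (normalizer (T : Set G)) := by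
  intro h
  have hs : s.Prime := Fact.out
  obtain ⟨E, hE⟩ := Sylow.exists_subgroup_card_pow_prime s h
  rw [← card_map_of_injective (subtype_injective _)] at hE
  set E' := E.map (normalizer (T : Set G)).subtype
  have hnc : ¬ IsCyclic E' := fun hc => by
    obtain ⟨g, hg⟩ := hc.exists_ofOrder_eq_natCard
    rw [hE, ← orderOf_coe] at hg
    have h1 := hpr g (fun h2 => by
      rw [h2, orderOf_one] at hg
      exact (Nat.one_lt_pow two_ne_zero hs.one_lt).ne hg)
    rw [hg] at h1
    exact absurd h1.eq_one_of_pow (by norm_num)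
  obtain ⟨k, hk⟩ := IsPGroup.iff_card.1 hT
  obtain ⟨e, heE, he1, he⟩ := Coprime.exists_inf_centralizer_ne_bot (A := E') (G := T)
    (IsPGroup.isMulCommutative_of_card_eq_prime_sq hE) hnc (map_subtype_le _)
    (by rw [hE, hk]; exact ((Nat.coprime_primes hs Fact.out).2 hps).pow _ _) hT1
  obtain ⟨⟨y, hy, hy'⟩, hy1⟩ := ne_bot_iff_exists_ne_one.1 he
  have h1 := ord_of_pgroup hpr (IsPGroup.of_card hE) heE he1
  have h2 := ord_of_pgroup hpr hT hy (fun h => hy1 (Subtype.ext h))
  exact hps (h1.symm.trans (ord_of_comm hpr Fact.out h2 he1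
    (Cls.mem_centralizer_single_commute.1 hy')))

variable (haut : ∀ g h : G, orderOf g = orderOf h → ∃ α : MulAut G, α g = h)
include haut

theorem cent_sylow {p : ℕ} [Fact p.Prime] {x : G} (hx : orderOf x = p) :
    ∃ P : Sylow p G, (P : Subgroup G) = centralizer {x} := by
  have hp : p.Prime := Fact.out
  obtain ⟨P⟩ : Nonempty (Sylow p G) := inferInstance
  have h1 : Nontrivial P := (nontrivial_iff_ne_bot _).2
    (P.ne_bot_of_dvd_card (hx ▸ orderOf_dvd_natCard x))
  have := P.isPGroup'.center_nontrivial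
  obtain ⟨⟨z, hz⟩, hz1⟩ := exists_ne (1 : center P)
  have h2 : orderOf (z : G) = p :=
    ord_of_pgroup hpr P.isPGroup' z.2 (fun h => hz1 (Subtype.ext (Subtype.ext h)))
  have h3 : centralizer {(z : G)} = P := P.3 (cent_pgroup hpr hp h2) fun y hy =>
    Cls.mem_centralizer_single.2 (congrArg Subtype.val (mem_center_iff.1 hz ⟨y, hy⟩))
  obtain ⟨α, rfl⟩ := haut z x (h2.trans hx.symm)
  refine ⟨α • P, ?_⟩
  rw [Sylow.pointwise_smul_def]
  generalize (z : G) = z' at h3
  rw [← h3]
  ext y
  rw [mem_pointwise_smul_iff_inv_smul_mem, Cls.mem_centralizer_single, Cls.mem_centralizer_single,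
    ← α.injective.eq_iff]
  simp

theorem count {p : ℕ} [Fact p.Prime] (P : Sylow p G) :
    Nat.card {x : G // orderOf x = p} = Nat.card (Sylow p G) * (Nat.card (center P) - 1) := by
  classical
  have hp : p.Prime := Fact.out
  have := Fintype.ofFinite G
  have := Fintype.ofFinite (Sylow p G)
  rw [Nat.card_eq_fintype_card, Fintype.card_subtype, Nat.card_eq_fintype_card (α := Sylow p G),
    ← Finset.card_univ, ← mul_one (Finset.card _), eq_comm]
  refine Finset.card_mul_eq_card_mul
    (fun (Q : Sylow p G) (x : G) => (Q : Subgroup G) = centralizer {x}) ?_ ?_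
  · intro Q _
    have h1 : Nat.card (center P) = Nat.card (center Q) :=
      Nat.card_congr (centerCongr (P.equiv Q)).toEquiv
    rw [h1, Nat.card_eq_fintype_card, ← Finset.card_univ,
      ← Finset.card_erase_of_mem (Finset.mem_univ 1), eq_comm]
    refine Finset.card_bij (fun z _ => ((z : Q) : G)) ?_ ?_ ?_
    · rintro ⟨z, hz⟩ hz1
      have h2 : orderOf (z : G) = p := ord_of_pgroup hpr Q.isPGroup' z.2
        (fun h => (Finset.mem_erase.1 hz1).1 (Subtype.ext (Subtype.ext h)))
      refine (Finset.mem_bipartiteAbove _).2 ⟨by simpa using h2, ?_⟩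
      exact (Q.3 (cent_pgroup hpr hp h2) fun y hy =>
        Cls.mem_centralizer_single.2 (congrArg Subtype.val (mem_center_iff.1 hz ⟨y, hy⟩))).symm
    · intro a _ b _ h
      exact Subtype.ext (Subtype.ext h)
    · intro x hx
      obtain ⟨h2, h3⟩ := (Finset.mem_bipartiteAbove _).1 hx
      have h4 : orderOf x = p := by simpa using h2
      refine ⟨⟨⟨x, h3 ▸ Cls.self_mem_centralizer_single x⟩, mem_center_iff.2 fun y =>
        Subtype.ext (Cls.mem_centralizer_single.1 (h3 ▸ y.2))⟩, Finset.mem_erase.2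
        ⟨fun h => ?_, Finset.mem_univ _⟩, rfl⟩
      rw [show x = 1 from congrArg (fun z : center Q => ((z : Q) : G)) h, orderOf_one] at h4
      exact hp.one_lt.ne h4
  · intro x hx
    obtain ⟨Q, hQ⟩ := cent_sylow hpr haut (p := p) (x := x) (by simpa using hx)
    refine Finset.card_eq_one.2 ⟨Q, ?_⟩
    ext Q'
    simp only [Finset.mem_bipartiteBelow, Finset.mem_univ, true_and, Finset.mem_singleton, ← hQ]
    exact ⟨Sylow.ext, fun h => h ▸ rfl⟩

theorem pack [IsSimpleGroup G] (hns : ¬ Group.IsSolvable G) {p : ℕ} [Fact p.Prime] (P : Sylow p G)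
    (hd : p ∣ Nat.card G) : ∃ e z : ℕ, Nat.card (normalizer ((P : Subgroup G) : Set G)) =
      e * Nat.card P ∧ e ∣ P.index ∧ Nat.card {x : G // orderOf x = p} * e = P.index * z ∧
      z + 1 = Nat.card (center P) ∧ z + 1 ≤ Nat.card P ∧ (e = 1 → p * (z + 1) ≤ Nat.card P) := by
  have h0 : Nat.card (center P) - 1 + 1 = Nat.card (center P) :=
    Nat.sub_add_cancel Nat.card_pos
  refine ⟨(P : Subgroup G).relIndex (normalizer ((P : Subgroup G) : Set G)),
    Nat.card (center P) - 1, ?_, relIndex_dvd_index_of_le le_normalizer, ?_, h0, ?_, fun he => ?_⟩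
  · rw [mul_comm, PGrp.card_mul_relIndex le_normalizer]
  · have h1 : Nat.card (Sylow p G) = (normalizer ((P : Subgroup G) : Set G)).index :=
      P.card_eq_index_normalizer
    rw [count hpr haut P, h1, ← relIndex_mul_index (H := (P : Subgroup G)) le_normalizer]
    ring
  · rw [h0]; exact card_le_card_group _
  · rw [h0, ← (center P).index_mul_card]
    refine Nat.mul_le_mul_right _ (Nat.le_of_dvd (Nat.pos_of_ne_zero index_ne_zero_of_finite)
      (PGrp.dvd_index_of_ne_top P.isPGroup' fun h => ?_))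
    have h1 : normalizer ((P : Subgroup G) : Set G) ≤ centralizer (P : Set G) :=
      (relIndex_eq_one.1 he).trans fun a ha b hb =>
        congrArg Subtype.val (mem_center_iff.1 (h ▸ mem_top (⟨a, ha⟩ : P)) ⟨b, hb⟩)
    have h2 := MonoidHom.ker_transferSylow_isComplement' P h1
    rcases IsSimpleGroup.eq_bot_or_eq_top_of_normal (MonoidHom.transferSylow P h1).ker
      inferInstance with h3 | h3
    · rw [h3, isComplement'_bot_left] at h2
      have h4 : IsPGroup p G := P.isPGroup'.of_surjective (P : Subgroup G).subtype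
        (fun g => ⟨⟨g, h2 ▸ mem_top g⟩, rfl⟩)
      have := h4.isNilpotent
      exact hns inferInstance
    · rw [h3, isComplement'_top_left] at h2
      exact P.ne_bot_of_dvd_card hd h2

omit haut in
theorem invol_conj [IsSimpleGroup G] (hns : ¬ Group.IsSolvable G) {s t : G} (hs : orderOf s = 2)
    (ht : orderOf t = 2) : IsConj s t := by
  by_contra h
  have : Fact (Nat.Prime 2) := ⟨Nat.prime_two⟩
  have ht2 : t * t = 1 := by rw [← sq, ← ht, pow_orderOf_eq_one]
  have h1 : normalClosure {s} ≤ centralizer {t} := by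
    refine (closure_le _).2 fun u hu0 => ?_
    obtain ⟨s', hs', hu⟩ := Group.mem_conjugatesOfSet_iff.1 hu0
    rw [Set.mem_singleton_iff.1 hs'] at hu
    have hu2 : u * u = 1 := by
      obtain ⟨c, rfl⟩ := isConj_iff.1 hu
      rw [← sq, conj_pow, ← hs, pow_orderOf_eq_one, mul_one, mul_inv_cancel]
    have hui : u⁻¹ = u := inv_eq_of_mul_eq_one_right hu2
    have hti : t⁻¹ = t := inv_eq_of_mul_eq_one_right ht2
    refine Cls.mem_centralizer_single.2 ?_
    rcases Nat.even_or_odd' (orderOf (u * t)) with ⟨j, hj | hj⟩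
    · by_cases h2 : u * t = 1
      · rw [orderOf_eq_one_iff.2 h2] at hj; omega
      · have h3 := (hpr _ h2).eq_two_or_odd'.resolve_right (by rw [hj]; simp)
        have h4 : u * t * (u * t) = 1 := by rw [← sq, ← h3, pow_orderOf_eq_one]
        rw [eq_inv_of_mul_eq_one_left h4, mul_inv_rev, hui, hti]
    · exfalso
      refine h (hu.trans (IsConj.symm (isConj_iff.2 ⟨(u * t) ^ (j + 1), ?_⟩)))
      have h3 : SemiconjBy t (u * t)⁻¹ (u * t) := by
        rw [SemiconjBy, mul_inv_rev, hui, hti, ← mul_assoc, mul_assoc u, ht2, one_mul, mul_one]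
      have h4 := (h3.pow_right (j + 1)).eq
      rw [mul_assoc, ← inv_pow, h4, ← mul_assoc, ← pow_add,
        show j + 1 + (j + 1) = 2 * j + 1 + 1 by ring, pow_succ, ← hj, pow_orderOf_eq_one, one_mul,
        mul_assoc, ht2, mul_one]
  rcases IsSimpleGroup.eq_bot_or_eq_top_of_normal (normalClosure {s}) inferInstance with h2 | h2
  · have : s ∈ normalClosure {s} := subset_normalClosure rfl
    rw [h2, mem_bot] at this
    rw [this, orderOf_one] at hs
    omega
  · have h4 : IsPGroup 2 G := (cent_pgroup hpr Nat.prime_two ht).of_surjective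
      (centralizer {t}).subtype (fun g => ⟨⟨g, h1 (h2 ▸ mem_top g)⟩, rfl⟩)
    have := h4.isNilpotent
    exact hns inferInstance

theorem card_cent {p : ℕ} [Fact p.Prime] (P : Sylow p G) {x : G} (hx : orderOf x = p) :
    Nat.card (centralizer {x}) = Nat.card P := by
  obtain ⟨Q, hQ⟩ := cent_sylow hpr haut hx
  rw [← hQ, Q.card_eq_multiplicity, P.card_eq_multiplicity]

theorem card_invol [IsSimpleGroup G] (hns : ¬ Group.IsSolvable G) (T : Sylow 2 G)
    (hd : 2 ∣ Nat.card G) : Nat.card {x : G // orderOf x = 2} = T.index := by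
  obtain ⟨s, hs⟩ := exists_prime_orderOf_dvd_card' 2 hd
  have h1 : Nat.card {x : G // orderOf x = 2} = Nat.card {y : G // IsConj s y} := by
    refine Nat.card_congr (Equiv.subtypeEquivRight fun y => ⟨invol_conj hpr hns hs, fun h => ?_⟩)
    obtain ⟨c, rfl⟩ := isConj_iff.1 h
    exact ((MulAut.conj c).orderOf_eq s).trans hs
  rw [h1, Cls.card_isConj]
  apply mul_right_cancel₀ (Nat.card_pos (α := T)).ne'
  rw [index_mul_card, ← card_cent hpr haut T hs, index_mul_card]

omit hpr haut in
theorem sum_order [Fintype G] {p q r : ℕ} (hp : 1 < p) (hq : 1 < q) (hr : 1 < r) (hpq : p ≠ q)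
    (hpr' : p ≠ r) (hqr : q ≠ r)
    (hord : ∀ g : G, orderOf g = 1 ∨ orderOf g = p ∨ orderOf g = q ∨ orderOf g = r) (b : ℕ → ℕ) :
    ∑ x : G, b (orderOf x) = b 1 + Nat.card {x : G // orderOf x = p} * b p +
      Nat.card {x : G // orderOf x = q} * b q + Nat.card {x : G // orderOf x = r} * b r := by
  classical
  rw [← Finset.sum_fiberwise_of_maps_to (t := {1, p, q, r}) (g := orderOf)
    (fun x _ => by simpa using hord x)]
  have h1 : ∀ k, ∑ x ∈ Finset.univ.filter (fun x : G => orderOf x = k), b (orderOf x) =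
      Nat.card {x : G // orderOf x = k} * b k := fun k => by
    rw [Finset.sum_congr rfl (fun x hx => by rw [(Finset.mem_filter.1 hx).2]), Finset.sum_const,
      Nat.card_eq_fintype_card, Fintype.card_subtype, smul_eq_mul]
  simp only [h1]
  rw [Finset.sum_insert (by simp; omega), Finset.sum_insert (by simp; omega),
    Finset.sum_pair hqr]
  simp [add_assoc]

theorem invol_ineq {q r : ℕ} [Fact q.Prime] [Fact r.Prime] (hq : 2 ≠ q) (hr : 2 ≠ r) (hqr : q ≠ r)
    (hord : ∀ g : G, orderOf g = 1 ∨ orderOf g = 2 ∨ orderOf g = q ∨ orderOf g = r)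
    (T : Sylow 2 G) (Q : Sylow q G) (R : Sylow r G) :
    Nat.card {x : G // orderOf x = 2} ^ 2 ≤ Nat.card {x : G // orderOf x = 2} +
      Nat.card {x : G // orderOf x = 2} * (Nat.card T - 2) +
      Nat.card {x : G // orderOf x = q} * Nat.card Q +
      Nat.card {x : G // orderOf x = r} * Nat.card R := by
  classical
  have := Fintype.ofFinite G
  have hq1 := (Fact.out : q.Prime).one_lt
  have hr1 := (Fact.out : r.Prime).one_lt
  have h1 := sum_order (by norm_num) hq1 hr1 hq hr hqr hord (fun k => if k = 1 then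
    Nat.card {x : G // orderOf x = 2} else if k = 2 then Nat.card T - 2 else if k = q then
    Nat.card Q else Nat.card R)
  simp only [if_true, hq1.ne', hr1.ne', hq.symm, hr.symm, hqr.symm, if_false,
    OfNat.ofNat_ne_one] at h1
  rw [← h1]
  set I := Finset.univ.filter (fun x : G => orderOf x = 2) with hI
  have hIc : Nat.card {x : G // orderOf x = 2} = I.card := by
    rw [Nat.card_eq_fintype_card, Fintype.card_subtype]
  rw [hIc, sq, ← Finset.card_product, Finset.card_eq_sum_card_fiberwise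
    (f := fun st : G × G => st.1 * st.2) (t := Finset.univ) (fun _ _ => Finset.mem_univ _)]
  refine Finset.sum_le_sum fun x _ => ?_
  set Fx := (I ×ˢ I).filter (fun st : G × G => st.1 * st.2 = x) with hFx
  have hmem : ∀ st ∈ Fx, orderOf st.1 = 2 ∧ orderOf st.2 = 2 ∧ st.1 * st.2 = x ∧
      st.1 * x = x⁻¹ * st.1 ∧ st.1 * x⁻¹ = x * st.1 := by
    rintro ⟨s, t⟩ hst
    simp only [hFx, hI, Finset.mem_filter, Finset.mem_product, Finset.mem_univ, true_and] at hst
    obtain ⟨⟨hs, ht⟩, rfl⟩ := hst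
    have hs2 : s * s = 1 := by rw [← sq, ← hs, pow_orderOf_eq_one]
    have ht2 : t * t = 1 := by rw [← sq, ← ht, pow_orderOf_eq_one]
    refine ⟨hs, ht, rfl, ?_, ?_⟩
    · simp only [mul_inv_rev, inv_eq_of_mul_eq_one_right hs2, inv_eq_of_mul_eq_one_right ht2]
      rw [← mul_assoc, mul_assoc t, hs2, one_mul, mul_one]
    · simp only [mul_inv_rev, inv_eq_of_mul_eq_one_right hs2, inv_eq_of_mul_eq_one_right ht2]
      rw [mul_assoc]
  have key : ∀ (S : Finset G) (c : G), (∀ st ∈ Fx, c * st.1 ∈ S) → Fx.card ≤ S.card := by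
    intro S c hS
    refine Finset.card_le_card_of_injOn (fun st => c * st.1) hS fun a ha b hb hab => ?_
    have h2 := mul_left_cancel hab
    exact Prod.ext h2 (mul_left_cancel (a := a.1)
      (by rw [(hmem a ha).2.2.1, h2, (hmem b hb).2.2.1]))
  have hC : Fx.card ≤ Nat.card (centralizer {x}) := by
    rcases Fx.eq_empty_or_nonempty with h | ⟨c, hc⟩
    · simp [h]
    rw [Nat.card_eq_fintype_card, Fintype.card_subtype]
    refine key _ c.1 fun st hst => Finset.mem_filter.2 ⟨Finset.mem_univ _,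
      Cls.mem_centralizer_single.2 ?_⟩
    rw [mul_assoc, (hmem st hst).2.2.2.1, ← mul_assoc, (hmem c hc).2.2.2.2, mul_assoc]
  split_ifs with h2 h3 h4
  · exact key I 1 fun st hst => by simpa [hI] using (hmem st hst).1
  · have hx1 : x ≠ 1 := fun h => h2 (orderOf_eq_one_iff.2 h)
    have hx2 : x⁻¹ = x := inv_eq_of_mul_eq_one_right (by rw [← sq, ← h3, pow_orderOf_eq_one])
    rw [← card_cent hpr haut T h3, Nat.card_eq_fintype_card, Fintype.card_subtype,
      ← Finset.card_pair hx1, ← Finset.card_sdiff_of_subset (fun y hy => by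
        rcases Finset.mem_insert.1 hy with rfl | hy
        · simpa using Cls.self_mem_centralizer_single y
        · simp [Finset.mem_singleton.1 hy])]
    refine key _ 1 fun st hst => ?_
    obtain ⟨h5, h6, h7, h8, -⟩ := hmem st hst
    simp only [one_mul, Finset.mem_sdiff, Finset.mem_filter, Finset.mem_univ, true_and,
      Finset.mem_insert, Finset.mem_singleton, not_or, Cls.mem_centralizer_single]
    refine ⟨by rw [h8, hx2], fun h => ?_, fun h => ?_⟩
    · rw [h, mul_eq_left] at h7
      rw [h7, orderOf_one] at h6; omega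
    · rw [h, orderOf_one] at h5; omega
  · rwa [← card_cent hpr haut Q h4]
  · rwa [← card_cent hpr haut R ((hord x).resolve_left h2 |>.resolve_left h3 |>.resolve_left h4)]

omit hpr haut in
theorem card_eq {p q r : ℕ} [Fact p.Prime] [Fact q.Prime] [Fact r.Prime] (hpq : p ≠ q)
    (hpr' : p ≠ r) (hqr : q ≠ r)
    (hord : ∀ g : G, orderOf g = 1 ∨ orderOf g = p ∨ orderOf g = q ∨ orderOf g = r)
    (P : Sylow p G) (Q : Sylow q G) (R : Sylow r G) :
    Nat.card G = Nat.card P * Nat.card Q * Nat.card R ∧ P.index = Nat.card Q * Nat.card R ∧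
      Q.index = Nat.card P * Nat.card R ∧ R.index = Nat.card P * Nat.card Q := by
  have hc : ∀ {s t : ℕ} [Fact s.Prime] [Fact t.Prime] (S : Sylow s G) (T : Sylow t G), s ≠ t →
      (Nat.card S).Coprime (Nat.card T) := fun S T h => by
    rw [S.card_eq_multiplicity, T.card_eq_multiplicity]
    exact ((Nat.coprime_primes Fact.out Fact.out).2 h).pow _ _
  obtain ⟨k, hk⟩ : Nat.card P * Nat.card Q * Nat.card R ∣ Nat.card G :=
    ((hc P R hpr').mul_left (hc Q R hqr)).mul_dvd_of_dvd_of_dvd
      ((hc P Q hpq).mul_dvd_of_dvd_of_dvd (card_subgroup_dvd_card _) (card_subgroup_dvd_card _))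
      (card_subgroup_dvd_card _)
  have h1 : P.index = Nat.card Q * Nat.card R * k := mul_right_cancel₀ (Nat.card_pos (α := P)).ne'
    (by rw [index_mul_card, hk]; ring)
  have h2 : Q.index = Nat.card P * Nat.card R * k := mul_right_cancel₀ (Nat.card_pos (α := Q)).ne'
    (by rw [index_mul_card, hk]; ring)
  have h3 : R.index = Nat.card P * Nat.card Q * k := mul_right_cancel₀ (Nat.card_pos (α := R)).ne'
    (by rw [index_mul_card, hk]; ring)
  have : k = 1 := by
    by_contra h
    obtain ⟨s, hs, hsk⟩ := Nat.exists_prime_and_dvd h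
    have : Fact s.Prime := ⟨hs⟩
    obtain ⟨g, hg⟩ := exists_prime_orderOf_dvd_card' (G := G) s (hk ▸ hsk.mul_left _)
    rcases hord g with h | h | h | h <;> rw [hg] at h
    · exact hs.one_lt.ne' h
    · exact P.not_dvd_index (h1 ▸ h ▸ hsk.mul_left _)
    · exact Q.not_dvd_index (h2 ▸ h ▸ hsk.mul_left _)
    · exact R.not_dvd_index (h3 ▸ h ▸ hsk.mul_left _)
  rw [this, mul_one] at hk h1 h2 h3
  exact ⟨hk, h1, h2, h3⟩

theorem notboth {q r : ℕ} [Fact q.Prime] [Fact r.Prime] (hq : 2 ≠ q) (hqr : q < r)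
    (T : Sylow 2 G) (hN : Nat.card (normalizer ((T : Subgroup G) : Set G)) = q * r * Nat.card T)
    (hR : ∀ R : Sylow r G, ∃ e, e ≤ 2 ∧
      Nat.card (normalizer ((R : Subgroup G) : Set G)) = e * Nat.card R) : False := by
  have hq' : q.Prime := Fact.out
  have hr' : r.Prime := Fact.out
  have hq2 := hq'.two_le
  set N := normalizer ((T : Subgroup G) : Set G) with hNdef
  have h1 : Nat.card ((T : Subgroup G).subgroupOf N) = Nat.card T :=
    Nat.card_congr (subgroupOfEquivOfLe le_normalizer).toEquiv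
  have h2 : ((T : Subgroup G).subgroupOf N).index = q * r :=
    mul_right_cancel₀ (Nat.card_pos (α := T)).ne' (by rw [← hN, ← h1, index_mul_card])
  obtain ⟨E, hE⟩ := exists_right_complement'_of_coprime (N := (T : Subgroup G).subgroupOf N) (by
    rw [h1, h2, T.card_eq_multiplicity]
    exact (((Nat.coprime_primes Nat.prime_two hq').2 hq).mul_right
      ((Nat.coprime_primes Nat.prime_two hr').2 (by omega))).pow_left _)
  have h3 : Nat.card E = q * r := by rw [← hE.symm.index_eq_card, h2]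
  obtain ⟨y, hy⟩ := exists_prime_orderOf_dvd_card' (G := E) q (h3 ▸ dvd_mul_right _ _)
  obtain ⟨w, hw⟩ := exists_prime_orderOf_dvd_card' (G := E) r (h3 ▸ dvd_mul_left _ _)
  have h4 : (zpowers w).Normal := by
    apply normal_of_index_eq_minFac_card
    have : (zpowers w).index = q := mul_right_cancel₀ hr'.ne_zero (by
      rw [← h3, ← (zpowers w).index_mul_card, Nat.card_zpowers, hw])
    rw [this, h3, eq_comm]
    refine le_antisymm (Nat.minFac_le_of_dvd hq2 (dvd_mul_right _ _)) ?_
    have h5 := Nat.minFac_prime (n := q * r) (by nlinarith)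
    rcases h5.dvd_mul.1 (Nat.minFac_dvd _) with h | h
    · exact ((Nat.prime_dvd_prime_iff_eq h5 hq').1 h).ge
    · exact hqr.le.trans ((Nat.prime_dvd_prime_iff_eq h5 hr').1 h).ge
  let f : E →* G := N.subtype.comp E.subtype
  have hf : Function.Injective f := Subtype.val_injective.comp Subtype.val_injective
  have hw' : orderOf (f w) = r := (orderOf_injective f hf w).trans hw
  obtain ⟨R, hRw⟩ := cent_sylow hpr haut hw'
  have h5 : f y ∈ normalizer ((R : Subgroup G) : Set G) := by
    refine mem_normalizer_fintype fun n hn => ?_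
    rw [SetLike.mem_coe, hRw] at hn ⊢
    obtain ⟨i, hi⟩ := h4.conj_mem w (mem_zpowers w) y⁻¹
    have h6 : f w ^ i = (f y)⁻¹ * f w * f y := by
      simpa using congrArg f hi
    have h7 := Cls.mem_centralizer_single.1 (Cls.centralizer_single_le_zpow (f w) i hn)
    rw [h6] at h7
    rw [Cls.mem_centralizer_single]
    calc f y * n * (f y)⁻¹ * f w = f y * (n * ((f y)⁻¹ * f w * f y)) * (f y)⁻¹ := by group
      _ = _ := by rw [h7]; group
  obtain ⟨e, he, he'⟩ := hR R
  have h6 := (normalizer ((R : Subgroup G) : Set G)).orderOf_dvd_natCard h5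
  rw [orderOf_injective f hf, hy, he', R.card_eq_multiplicity] at h6
  rcases hq'.dvd_mul.1 h6 with h | h
  · have h7 : e ≠ 0 := by
      rintro rfl
      exact Nat.card_pos.ne' (he'.trans (zero_mul _))
    have := Nat.le_of_dvd (by omega) h
    omega
  · exact hqr.ne ((Nat.prime_dvd_prime_iff_eq hq' hr').1 (hq'.dvd_of_dvd_pow h))

omit haut in
theorem sylow_two (T : Sylow 2 G) {w : G} (hw : w ∈ (T : Subgroup G)) (hw1 : w ≠ 1) :
    centralizer {w} = T := by
  have : Fact (Nat.Prime 2) := ⟨Nat.prime_two⟩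
  have h1 : ∀ a ∈ (T : Subgroup G), a⁻¹ = a := fun a ha => by
    by_cases h : a = 1
    · simp [h]
    · exact inv_eq_of_mul_eq_one_right
        (by rw [← sq, ← ord_of_pgroup hpr T.isPGroup' ha h, pow_orderOf_eq_one])
  refine T.3 (cent_pgroup hpr Nat.prime_two (ord_of_pgroup hpr T.isPGroup' hw hw1)) fun a ha => ?_
  rw [Cls.mem_centralizer_single, ← h1 _ (mul_mem ha hw), mul_inv_rev, h1 a ha, h1 w hw]

omit haut in
theorem final [IsSimpleGroup G] {q r : ℕ} [Fact q.Prime] [Fact r.Prime] (hq : 2 ≠ q) (hr : 2 ≠ r)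
    (hqr : q ≠ r) (T : Sylow 2 G) {a b : ℕ} (ha : a ≠ 0) (hm : Nat.card T = q + 1)
    (hG : Nat.card G = Nat.card T * q ^ a * r ^ b)
    (hN : Nat.card (normalizer ((T : Subgroup G) : Set G)) = q * Nat.card T)
    (h1 : Nat.card T * (q ^ a + r ^ b) = 2 + 2 * q ^ a * r ^ b)
    (h2 : 2 * Nat.card {x : G // orderOf x = r} + Nat.card T * q ^ a = Nat.card G) :
    Nonempty (G ≃* alternatingGroup (Fin 5)) := by
  classical
  have hq' : q.Prime := Fact.out
  have hr' : r.Prime := Fact.out
  have : Fact (Nat.Prime 2) := ⟨Nat.prime_two⟩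
  obtain ⟨h, hh⟩ := hq'.odd_of_ne_two hq.symm
  have hq2 := hq'.two_le
  have hh1 : 1 ≤ h := by omega
  have ha1 : a = 1 := by
    by_contra ha1
    have h3 : q ^ 2 ≤ q ^ a := Nat.pow_le_pow_right hq'.pos (by omega)
    rw [hm] at h1
    subst hh
    exact arith1 hh1 h3 h1
  rw [ha1, pow_one, hm] at h1 h2 hG
  have hR : r ^ b = q + 2 := by
    generalize r ^ b = R at h1
    apply Nat.eq_of_mul_eq_mul_left hh1
    subst hh
    nlinarith
  rw [hR] at hG
  have hS : Nat.card (Sylow 2 G) = q + 2 := by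
    have h3 : Nat.card (Sylow 2 G) = (normalizer ((T : Subgroup G) : Set G)).index :=
      T.card_eq_index_normalizer
    apply mul_right_cancel₀ (Nat.card_pos (α := normalizer ((T : Subgroup G) : Set G))).ne'
    rw [h3, index_mul_card, hN, hG, hm]; ring
  have hinj : Function.Injective (MulAction.toPermHom G (Sylow 2 G)) := by
    rw [← MonoidHom.ker_eq_bot_iff]
    refine (IsSimpleGroup.eq_bot_or_eq_top_of_normal _ inferInstance).resolve_right fun h3 => ?_
    have : Nontrivial (Sylow 2 G) := Finite.one_lt_card_iff_nontrivial.1 (by omega)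
    obtain ⟨T', hT'⟩ := exists_ne T
    obtain ⟨g, rfl⟩ := MulAction.exists_smul_eq G T T'
    have h4 : g ∈ (MulAction.toPermHom G (Sylow 2 G)).ker := h3 ▸ mem_top g
    exact hT' (congrArg (fun s : Equiv.Perm (Sylow 2 G) => s T) h4)
  by_cases hq3 : q = 3
  · subst hq3
    let e : Sylow 2 G ≃ Fin 5 := Finite.equivFinOfCardEq hS
    let f := e.permCongrHom.toMonoidHom.comp (MulAction.toPermHom G (Sylow 2 G))
    have hf : Function.Injective f := e.permCongrHom.injective.comp hinj
    have h3 : f.range.index = 2 := by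
      have h4 := f.range.index_mul_card
      rw [← Nat.card_congr (MonoidHom.ofInjective hf).toEquiv, hG, Nat.card_perm] at h4
      simp [Nat.factorial] at h4
      omega
    exact ⟨(MonoidHom.ofInjective hf).trans
      (MulEquiv.subgroupCongr (Equiv.Perm.eq_alternatingGroup_of_index_eq_two h3))⟩
  exfalso
  have hr3 : r = 3 := by
    have h3 : ¬ 3 ∣ q := fun h => hq3 ((Nat.prime_dvd_prime_iff_eq Nat.prime_three hq').1 h).symm
    have h4 : ¬ 3 ∣ q + 1 := fun h => by
      rw [← hm, T.card_eq_multiplicity] at h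
      exact absurd (Nat.prime_three.dvd_of_dvd_pow h) (by norm_num)
    exact ((Nat.prime_dvd_prime_iff_eq Nat.prime_three hr').1
      (Nat.prime_three.dvd_of_dvd_pow (n := b) (by
        rw [hR]
        rcases (by omega : q % 3 = 0 ∨ q % 3 = 1 ∨ q % 3 = 2) with h | h | h <;> omega))).symm
  subst hr3
  have hdvd : ∀ (w : G) (T' : Sylow 2 G), w • T' = T' → orderOf w ∣ q * Nat.card T := by
    intro w T' hw
    obtain ⟨g, rfl⟩ := MulAction.exists_smul_eq G T T'
    have h3 : g⁻¹ * w * g ∈ normalizer ((T : Subgroup G) : Set G) :=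
      Sylow.smul_eq_iff_mem_normalizer.1 (by rw [mul_smul, mul_smul, hw, inv_smul_smul])
    have h4 := Subgroup.orderOf_dvd_natCard _ h3
    rwa [hN, show orderOf (g⁻¹ * w * g) = orderOf w by
      simpa using (MulAut.conj g⁻¹).orderOf_eq w] at h4
  have hthree : ∀ (w : G) (x y z : Sylow 2 G), x ≠ y → x ≠ z → y ≠ z → w • x = x → w • y = y →
      w • z = z → w = 1 := by
    intro w x y z hxy hxz hyz hx hy hz
    by_contra hw
    rcases (hpr w hw).dvd_mul.1 (hdvd w x hx) with h3 | h3
    · have h4 := (Nat.prime_dvd_prime_iff_eq (hpr w hw) hq').1 h3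
      have h5 := (IsPGroup.of_card (p := q) (n := 1) (G := zpowers w)
        (by rw [Nat.card_zpowers, h4, pow_one])).card_modEq_card_fixedPoints (Sylow 2 G)
      have h6 : ∀ u : Sylow 2 G, w • u = u → u ∈ MulAction.fixedPoints (zpowers w) (Sylow 2 G) :=
        fun u hu g => (zpowers_le (H := MulAction.stabilizer G u)).2 hu g.2
      have h7 : 2 < (MulAction.fixedPoints (zpowers w) (Sylow 2 G)).ncard :=
        (Set.two_lt_ncard_iff (Set.toFinite _)).2 ⟨x, y, z, h6 x hx, h6 y hy, h6 z hz, hxy, hxz, hyz⟩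
      have h8 := Set.ncard_le_card (MulAction.fixedPoints (zpowers w) (Sylow 2 G))
      rw [Nat.card_coe_set_eq] at h5
      have h9 := Nat.eq_zero_of_dvd_of_lt ((Nat.modEq_iff_dvd' h8).1 h5.symm) (by omega)
      have h10 : MulAction.fixedPoints (zpowers w) (Sylow 2 G) = Set.univ :=
        Set.eq_of_subset_of_ncard_le (Set.subset_univ _) (by rw [Set.ncard_univ]; omega)
      refine hw (hinj (Equiv.ext fun u => ?_))
      have : u ∈ MulAction.fixedPoints (zpowers w) (Sylow 2 G) := h10 ▸ Set.mem_univ u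
      simpa using this ⟨w, mem_zpowers w⟩
    · rw [T.card_eq_multiplicity] at h3
      have h4 := (Nat.prime_dvd_prime_iff_eq (hpr w hw) Nat.prime_two).1
        ((hpr w hw).dvd_of_dvd_pow h3)
      have h5 : ∀ u : Sylow 2 G, w • u = u → centralizer {w} = (u : Subgroup G) := fun u hu =>
        sylow_two hpr u (Cls.mem_sylow_of_mem_normalizer u ⟨1, by rw [h4, pow_one]⟩
          (Sylow.smul_eq_iff_mem_normalizer.1 hu)) hw
      exact hxy (Sylow.ext ((h5 x hx).symm.trans (h5 y hy)))
  have hfpf : ∀ (w : G), orderOf w = 3 → ∀ u : Sylow 2 G, w • u ≠ u := by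
    intro w hw u hu
    have h3 := hdvd w u hu
    rw [hw, T.card_eq_multiplicity] at h3
    rcases Nat.prime_three.dvd_mul.1 h3 with h | h
    · exact hqr ((Nat.prime_dvd_prime_iff_eq Nat.prime_three hq').1 h).symm
    · exact absurd (Nat.prime_three.dvd_of_dvd_pow h) (by norm_num)
  have hle := Nat.card_le_card_of_injective
    (fun y : {x : G // orderOf x = 3} => (y.1 • T, y.1 • y.1 • T)) (by
      rintro ⟨y, hy⟩ ⟨y', hy'⟩ h
      obtain ⟨h3, h4⟩ := Prod.ext_iff.1 h
      simp only at h3 h4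
      have h5 : ∀ y : G, orderOf y = 3 → y • y • y • T = T := fun y hy => by
        rw [← mul_smul, ← mul_smul, ← pow_three', ← hy, pow_orderOf_eq_one, one_smul]
      have h6 := hthree (y'⁻¹ * y) T (y • T) (y • y • T) (hfpf y hy T).symm
        (fun h => hfpf y hy T ((congrArg (y • ·) h).trans (h5 y hy))) (hfpf y hy _).symm
        (by rw [mul_smul, h3, inv_smul_smul])
        (by rw [mul_smul, h4, inv_smul_smul, h3])
        (by rw [mul_smul, h5 y hy, h4, inv_smul_eq_iff, h5 y' hy'])
      exact Subtype.ext (inv_mul_eq_one.1 h6).symm)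
  rw [Nat.card_prod, hS] at hle
  rw [hG] at h2
  have : 5 ≤ q := by omega
  nlinarith

theorem main [IsSimpleGroup G] (hns : ¬ Group.IsSolvable G) {q r : ℕ} [Fact q.Prime]
    [Fact r.Prime] (hq : 2 ≠ q) (hr : 2 ≠ r) (hqr : q ≠ r)
    (hord : ∀ g : G, orderOf g = 1 ∨ orderOf g = 2 ∨ orderOf g = q ∨ orderOf g = r)
    (h2d : 2 ∣ Nat.card G) (hqd : q ∣ Nat.card G) (hrd : r ∣ Nat.card G) :
    Nonempty (G ≃* alternatingGroup (Fin 5)) := by
  have : Fact (Nat.Prime 2) := ⟨Nat.prime_two⟩
  have hq' : q.Prime := Fact.out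
  have hr' : r.Prime := Fact.out
  have := Fintype.ofFinite G
  obtain ⟨T⟩ : Nonempty (Sylow 2 G) := inferInstance
  obtain ⟨Q⟩ : Nonempty (Sylow q G) := inferInstance
  obtain ⟨R⟩ : Nonempty (Sylow r G) := inferInstance
  obtain ⟨hG, hTi, hQi, hRi⟩ := card_eq hq hr hqr hord T Q R
  have hcls := sum_order one_lt_two hq'.one_lt hr'.one_lt hq hr hqr hord (fun _ => 1)
  simp only [Finset.sum_const, Finset.card_univ, smul_eq_mul, mul_one,
    ← Nat.card_eq_fintype_card] at hcls
  have hineq := invol_ineq hpr haut hq hr hqr hord T Q R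
  have hn2 := card_invol hpr haut hns T h2d
  have A2 : ∀ {s : ℕ} [Fact s.Prime] (S : Sylow s G), s ∣ Nat.card G →
      2 * Nat.card {x : G // orderOf x = s} + S.index ≤ Nat.card G ∧
      (2 ≠ s → 2 * Nat.card {x : G // orderOf x = s} + S.index = Nat.card G → ∃ e, e ≤ 2 ∧
        Nat.card (normalizer ((S : Subgroup G) : Set G)) = e * Nat.card S) := by
    intro s _ S hs
    obtain ⟨e, z, h1, h2, h3, -, h4, h5⟩ := pack hpr haut hns S hs
    have h6 : 0 < S.index := Nat.pos_of_ne_zero index_ne_zero_of_finite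
    have h7 := Nat.pos_of_dvd_of_pos h2 h6
    have h8 := (Fact.out : s.Prime).two_le
    have h9 : 1 < Nat.card S := (one_lt_card_iff_ne_bot _).2 (S.ne_bot_of_dvd_card hs)
    rw [← (S : Subgroup G).index_mul_card]
    refine ⟨?_, fun _ h => ⟨e, ?_, h1⟩⟩
    · by_cases he : e = 1
      · have := h5 he
        subst he
        nlinarith
      · have : 2 ≤ e := by omega
        nlinarith
    · by_contra he
      have : 3 ≤ e := by omega
      nlinarith
  obtain ⟨e, z, h1, h2, h3, h4, -, h5⟩ := pack hpr haut hns T h2d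
  have hz : z + 1 = Nat.card T := by
    rw [h4, center_eq_top_iff.2, card_top]
    refine ⟨⟨fun a b => Subtype.ext ?_⟩⟩
    by_cases hb : (b : G) = 1
    · simp [hb]
    · exact Cls.mem_centralizer_single.1 ((sylow_two hpr T b.2 hb).ge a.2)
  have hez : e = z := by
    rw [hn2] at h3
    exact mul_left_cancel₀ index_ne_zero_of_finite h3
  subst hez
  have he1 : e ≠ 1 := fun h => by have := h5 h; omega
  have hT1 : (T : Subgroup G) ≠ ⊥ := T.ne_bot_of_dvd_card h2d
  have hT2 := (one_lt_card_iff_ne_bot _).2 hT1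
  have hQ2 := (one_lt_card_iff_ne_bot _).2 (Q.ne_bot_of_dvd_card hqd)
  have hR2 := (one_lt_card_iff_ne_bot _).2 (R.ne_bot_of_dvd_card hrd)
  have aq := (A2 Q hqd).1
  have ar := (A2 R hrd).1
  have hmain : 2 * Nat.card {x : G // orderOf x = q} + Q.index = Nat.card G ∧
      2 * Nat.card {x : G // orderOf x = r} + R.index = Nat.card G ∧
      Nat.card T * (Nat.card Q + Nat.card R) = 2 + 2 * Nat.card Q * Nat.card R := by
    rw [hn2, hTi] at hineq hcls
    rw [hQi] at aq ⊢
    rw [hRi] at ar ⊢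
    exact arith2 hT2 hQ2 hR2 hG hcls hineq aq ar
  obtain ⟨hm1, hm2, hm3⟩ := hmain
  have hidx : ∀ {s : ℕ} [Fact s.Prime] (S S' : Sylow s G), S'.index = S.index := fun S S' =>
    mul_right_cancel₀ (Nat.card_pos (α := S)).ne' (by
      rw [index_mul_card, S.card_eq_multiplicity, ← S'.card_eq_multiplicity, index_mul_card])
  obtain ⟨a, ha⟩ := IsPGroup.iff_card.1 Q.isPGroup'
  obtain ⟨b, hb⟩ := IsPGroup.iff_card.1 R.isPGroup'
  have ha0 : a ≠ 0 := by rintro rfl; rw [pow_zero] at ha; omega
  have hb0 : b ≠ 0 := by rintro rfl; rw [pow_zero] at hb; omega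
  rw [hTi, ha, hb] at h2
  obtain ⟨d1, d2, hd1, hd2, rfl⟩ := (Nat.dvd_mul).1 h2
  obtain ⟨i, -, rfl⟩ := (Nat.dvd_prime_pow hq').1 hd1
  obtain ⟨j, -, rfl⟩ := (Nat.dvd_prime_pow hr').1 hd2
  have hi : i < 2 := by
    by_contra h
    refine not_sq_dvd hpr hq.symm T.isPGroup' hT1 ?_
    rw [h1]
    exact ((pow_dvd_pow q (by omega)).mul_right _).mul_right _
  have hj : j < 2 := by
    by_contra h
    refine not_sq_dvd hpr hr.symm T.isPGroup' hT1 ?_
    rw [h1]
    exact ((pow_dvd_pow r (by omega)).mul_left _).mul_right _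
  rw [ha, hb] at hG hm3
  rw [hQi, hb] at hm1
  interval_cases i <;> interval_cases j
  · simp at he1
  · simp only [pow_zero, pow_one, one_mul] at hz h1
    exact final hpr hr hq hqr.symm T hb0 hz.symm (hG.trans (mul_right_comm _ _ _)) h1
      (by linarith) hm1
  · simp only [pow_zero, pow_one, mul_one] at hz h1
    rw [hRi, ha] at hm2
    exact final hpr hq hr hqr T ha0 hz.symm hG h1 hm3 hm2
  · simp only [pow_one] at h1
    exfalso
    rcases lt_or_gt_of_ne hqr with h | h
    · exact notboth hpr haut hq h T h1 fun R' => (A2 R' hrd).2 hr (by rw [hidx R, hm2])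
    · exact notboth hpr haut hr h T (by rw [h1, mul_comm q]) fun Q' => (A2 Q' hqd).2 hq
        (by rw [hidx Q, hQi, hb, hm1])

theorem not_odd [IsSimpleGroup G] (hns : ¬ Group.IsSolvable G) {p q r : ℕ} [Fact p.Prime]
    [Fact q.Prime] [Fact r.Prime] (hpq : p ≠ q) (hpr' : p ≠ r) (hqr : q ≠ r)
    (hord : ∀ g : G, orderOf g = 1 ∨ orderOf g = p ∨ orderOf g = q ∨ orderOf g = r)
    (hpd : p ∣ Nat.card G) (hqd : q ∣ Nat.card G) (hrd : r ∣ Nat.card G) : 2 ∣ Nat.card G := by
  by_contra h2
  have := Fintype.ofFinite G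
  obtain ⟨P⟩ : Nonempty (Sylow p G) := inferInstance
  obtain ⟨Q⟩ : Nonempty (Sylow q G) := inferInstance
  obtain ⟨R⟩ : Nonempty (Sylow r G) := inferInstance
  have hcls := sum_order (Fact.out : p.Prime).one_lt (Fact.out : q.Prime).one_lt
    (Fact.out : r.Prime).one_lt hpq hpr' hqr hord (fun _ => 1)
  simp only [Finset.sum_const, Finset.card_univ, smul_eq_mul, mul_one,
    ← Nat.card_eq_fintype_card] at hcls
  have A3 : ∀ {s : ℕ} [Fact s.Prime] (S : Sylow s G), s ∣ Nat.card G →
      3 * Nat.card {x : G // orderOf x = s} + 2 ≤ Nat.card G := by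
    intro s _ S hs
    obtain ⟨e, z, h1, h2', h3, -, h4, h5⟩ := pack hpr haut hns S hs
    have h6 : 2 ≤ S.index := by
      have h7 : S.index ≠ 0 := index_ne_zero_of_finite
      have h8 : S.index ≠ 1 := fun h => by
        have h4 : IsPGroup s G := S.isPGroup'.of_surjective (S : Subgroup G).subtype
          (fun g => ⟨⟨g, index_eq_one.1 h ▸ mem_top g⟩, rfl⟩)
        have := h4.isNilpotent
        exact hns inferInstance
      omega
    have h7 := Nat.pos_of_dvd_of_pos h2' (by omega)
    have h8 := (Fact.out : s.Prime).two_le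
    have h9 : s ≠ 2 := fun h => h2 (h ▸ hs)
    have h10 : e ≠ 2 := fun h => h2 (h ▸ h2'.trans (index_dvd_card _))
    rw [← (S : Subgroup G).index_mul_card]
    by_cases he : e = 1
    · have := h5 he
      have : 3 ≤ s := by omega
      subst he
      nlinarith
    · have : 3 ≤ e := by omega
      nlinarith
  have := A3 P hpd
  have := A3 Q hqd
  have := A3 R hrd
  omega

end


/-- A finite non-solvable group on which its automorphism group has exactly four orbits is isomorphic to the alternating group of degree 5. -/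
theorem result {G : Type*} [Group G] [Finite G] (hns : ¬ Group.IsSolvable G)
    (h4 : Nat.card (MulAction.orbitRel.Quotient (MulAut G) G) = 4) : Nonempty (G ≃* alternatingGroup (Fin 5)) := by
  classical
  have h3 : 2 < (Nat.card G).primeFactors.card := by
    by_contra h
    exact hns (Char.solvable_of_card_primeFactors_le_two (by omega))
  obtain ⟨p, q, r, hp, hq, hr, hpq, hpr', hqr⟩ := Finset.two_lt_card_iff.1 h3
  have hp' : Fact p.Prime := ⟨Nat.prime_of_mem_primeFactors hp⟩
  have hq' : Fact q.Prime := ⟨Nat.prime_of_mem_primeFactors hq⟩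
  have hr' : Fact r.Prime := ⟨Nat.prime_of_mem_primeFactors hr⟩
  replace hp := Nat.dvd_of_mem_primeFactors hp
  replace hq := Nat.dvd_of_mem_primeFactors hq
  replace hr := Nat.dvd_of_mem_primeFactors hr
  obtain ⟨a, ha⟩ := exists_prime_orderOf_dvd_card' p hp
  obtain ⟨b, hb⟩ := exists_prime_orderOf_dvd_card' q hq
  obtain ⟨c, hc⟩ := exists_prime_orderOf_dvd_card' r hr
  have hp1 := hp'.out.one_lt
  have hq1 := hq'.out.one_lt
  have hr1 := hr'.out.one_lt
  have hall : ∀ g : G, ∃ x, (x = 1 ∨ x = a ∨ x = b ∨ x = c) ∧ ∃ α : MulAut G, α x = g := by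
    have := Fintype.ofFinite (MulAction.orbitRel.Quotient (MulAut G) G)
    have hne : ∀ g h : G, orderOf g ≠ orderOf h →
        (Quotient.mk _ g : MulAction.orbitRel.Quotient (MulAut G) G) ≠ Quotient.mk _ h := by
      intro g h h1 h2
      obtain ⟨α, rfl⟩ := Quotient.eq.1 h2
      exact h1 (α.orderOf_eq h)
    have h5 : ({Quotient.mk _ 1, Quotient.mk _ a, Quotient.mk _ b, Quotient.mk _ c} :
        Finset (MulAction.orbitRel.Quotient (MulAut G) G)).card = 4 :=
      Finset.card_eq_four.2 ⟨_, _, _, _, hne _ _ (by rw [ha, orderOf_one]; omega),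
        hne _ _ (by rw [hb, orderOf_one]; omega), hne _ _ (by rw [hc, orderOf_one]; omega),
        hne _ _ (by rwa [ha, hb]), hne _ _ (by rwa [ha, hc]), hne _ _ (by rwa [hb, hc]), rfl⟩
    rw [← h5, Nat.card_eq_fintype_card, eq_comm, Finset.card_eq_iff_eq_univ,
      Finset.eq_univ_iff_forall] at h4
    intro g
    have := h4 (Quotient.mk _ g)
    simp only [Finset.mem_insert, Finset.mem_singleton] at this
    rcases this with h | h | h | h <;> exact ⟨_, by simp, Quotient.eq.1 h⟩
  have hord : ∀ g : G, orderOf g = 1 ∨ orderOf g = p ∨ orderOf g = q ∨ orderOf g = r := by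
    intro g
    obtain ⟨x, hx, α, rfl⟩ := hall g
    rw [α.orderOf_eq]
    rcases hx with rfl | rfl | rfl | rfl <;> simp [ha, hb, hc]
  have hpr : ∀ g : G, g ≠ 1 → (orderOf g).Prime := fun g hg => by
    rcases hord g with h | h | h | h
    · exact absurd (orderOf_eq_one_iff.1 h) hg
    all_goals rw [h]; exact Fact.out
  have haut : ∀ g h : G, orderOf g = orderOf h → ∃ α : MulAut G, α g = h := by
    intro g h hgh
    obtain ⟨x, hx, α, rfl⟩ := hall g
    obtain ⟨y, hy, β, rfl⟩ := hall h
    rw [α.orderOf_eq, β.orderOf_eq] at hgh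
    have : x = y := by
      rcases hx with rfl | rfl | rfl | rfl <;> rcases hy with rfl | rfl | rfl | rfl <;>
        first | rfl | (exfalso; simp only [ha, hb, hc, orderOf_one] at hgh; omega)
    exact ⟨β * α⁻¹, by simp [this]⟩
  have hsol : ∀ (H : Type _) [Group H] [Finite H] (s : ℕ), s.Prime → s ∣ Nat.card G →
      Nat.card H ∣ Nat.card G → ¬ s ∣ Nat.card H → Group.IsSolvable H := by
    intro H _ _ s hs h1 h2 h5
    apply Char.solvable_of_card_primeFactors_le_two
    have h6 : ∀ t, t.Prime → t ∣ Nat.card G → t ∈ ({p, q, r} : Finset ℕ) := fun t ht h7 => by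
      have : Fact t.Prime := ⟨ht⟩
      obtain ⟨g, hg⟩ := exists_prime_orderOf_dvd_card' t h7
      have := hord g
      have := ht.one_lt
      simp only [Finset.mem_insert, Finset.mem_singleton]
      omega
    have h7 : (Nat.card H).primeFactors ⊆ ({p, q, r} : Finset ℕ).erase s := fun t ht =>
      Finset.mem_erase.2 ⟨fun h => h5 (h ▸ Nat.dvd_of_mem_primeFactors ht),
        h6 t (Nat.prime_of_mem_primeFactors ht) ((Nat.dvd_of_mem_primeFactors ht).trans h2)⟩
    have h8 := Finset.card_le_card h7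
    rw [Finset.card_erase_of_mem (h6 s hs h1)] at h8
    have := Finset.card_le_three (a := p) (b := q) (c := r)
    omega
  have hchar : ∀ K : Subgroup G, K.Characteristic → K ≠ ⊥ → K = ⊤ := by
    intro K hK h1
    by_contra h2
    have h5 : ∀ x ∈ K, ∀ y, orderOf x = orderOf y → y ∈ K := fun x hx y hxy => by
      obtain ⟨α, rfl⟩ := haut x y hxy
      exact (MulAut.characteristic K α ⟨x, hx⟩).2
    obtain ⟨⟨x, hx⟩, hx1⟩ := ne_bot_iff_exists_ne_one.1 h1
    obtain ⟨y, hy⟩ : ∃ y, y ∉ K := by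
      by_contra h; push Not at h; exact h2 (eq_top_iff.2 fun y _ => h y)
    have hy' := hpr y (fun h => hy (h ▸ K.one_mem))
    have hx' := hpr x (fun h => hx1 (Subtype.ext h))
    have s1 := hsol K _ hy' (orderOf_dvd_natCard y) (card_subgroup_dvd_card K) (fun h => by
      have : Fact (orderOf y).Prime := ⟨hy'⟩
      obtain ⟨z, hz⟩ := exists_prime_orderOf_dvd_card' _ h
      exact hy (h5 z z.2 y (by rw [orderOf_coe, hz])))
    have s2 := hsol (G ⧸ K) _ hx' (orderOf_dvd_natCard x) (card_quotient_dvd_card K) (by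
      have : Fact (orderOf x).Prime := ⟨hx'⟩
      obtain ⟨P⟩ : Nonempty (Sylow (orderOf x) G) := inferInstance
      refine Cls.not_dvd_index_of_sylow_le (Q := P) fun z hz => ?_
      by_cases h : z = 1
      · exact h ▸ K.one_mem
      · exact h5 x hx z (ord_of_pgroup hpr P.isPGroup' hz h).symm)
    exact hns (Group.isSolvable_of_ker_le_range K.subtype (QuotientGroup.mk' K) (by simp))
  have hnt : Nontrivial G := ⟨a, 1, fun h => by rw [h, orderOf_one] at ha; omega⟩
  have hsimple : IsSimpleGroup G := by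
    refine ⟨fun N hN => or_iff_not_imp_left.2 fun h1 => ?_⟩
    obtain ⟨M, hM, hMN⟩ := Core.exists_isMinNormal_le h1
    refine top_le_iff.1 ((hchar M ?_ hM.ne_bot).ge.trans hMN)
    rw [characteristic_iff_map_eq]
    intro α
    by_contra h2
    have h5 := (hM.map_equiv α).le_centralizer_of_ne hM h2
    obtain ⟨⟨x, hx⟩, hx1⟩ := ne_bot_iff_exists_ne_one.1 hM.ne_bot
    have hx' := hpr x (fun h => hx1 (Subtype.ext h))
    have : Fact (orderOf x).Prime := ⟨hx'⟩
    have h6 : IsPGroup (orderOf x) M := by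
      rintro ⟨y, hy⟩
      refine ⟨1, Subtype.ext ?_⟩
      by_cases h : y = 1
      · simp [h]
      · rw [pow_one, SubmonoidClass.mk_pow, ← ord_of_comm hpr hx' (α.orderOf_eq x) h
          (h5 ⟨x, hx, rfl⟩ y hy).symm]
        exact pow_orderOf_eq_one y
    have := hM.normal
    have h7 := hchar (pCore (orderOf x) G) inferInstance
      (fun h => hM.ne_bot (le_bot_iff.1 (h ▸ Core.le_pCore h6)))
    have := (Core.pCore_eq_top_iff.1 h7).isNilpotent
    exact hns inferInstance
  have h2 := not_odd hpr haut hns hpq hpr' hqr hord hp hq hr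
  obtain ⟨s, hs⟩ := exists_prime_orderOf_dvd_card' 2 h2
  rcases hord s with h | h | h | h <;> rw [hs] at h
  · omega
  · subst h
    exact main hpr haut hns hpq hpr' hqr hord h2 hq hr
  · subst h
    exact main hpr haut hns hpq.symm hqr hpr' (fun g => by have := hord g; tauto) h2 hp hr
  · subst h
    exact main hpr haut hns hpr'.symm hqr.symm hpq (fun g => by have := hord g; tauto) h2 hp hq

end Cfsg.Agent.S4068
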