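import Cfsg.Statements.S4070
import Cfsg.Agent.Lib.SPG.Odd
import Cfsg.Agent.Lib.SPG.Col2

set_option autoImplicit false
open Cfsg

namespace Cfsg.Agent.S4070

open Cfsg.Agent.SPG

/-- Let G be a finite solvable group acting faithfully by additive automorphisms on a finite vector space V over the field with p elements, completely reducibly (every G-invariant subspace has a G-invariant complement). Then some vector v ∈ V has stabilizer C_G(v) of derived length at most 9; and if both #G and p are odd, some vector has abelian stabilizer. -/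
theorem result {G V : Type*} [Group G] [Finite G] [Group.IsSolvable G]
    {p : ℕ} [Fact p.Prime] [AddCommGroup V] [Module (ZMod p) V] [Finite V] [DistribMulAction G V] [FaithfulSMul G V]
    (hcr : ∀ W : Submodule (ZMod p) V, (∀ (g : G) (w : V), w ∈ W → g • w ∈ W) →
      ∃ W' : Submodule (ZMod p) V, (∀ (g : G) (w : V), w ∈ W' → g • w ∈ W') ∧ IsCompl W W') :
    (∃ v : V, derivedSeries ↥(MulAction.stabilizer G v) 9 = ⊥) ∧
    (Odd (Nat.card G) → p ≠ 2 → ∃ v : V, IsMulCommutative ↥(MulAction.stabilizer G v)) := by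
  have hc : CR G V := fun W hW => by
    obtain ⟨W', h1, h2⟩ := hcr (AddSubgroup.toZModSubmodule p W) fun g w hw => hW g w hw
    refine ⟨(AddSubgroup.toZModSubmodule p).symm W', fun g w hw => h1 g w hw, ?_⟩
    simpa using (AddSubgroup.toZModSubmodule p).symm.isCompl h2
  refine ⟨?_, fun ho h2 => ?_⟩
  · obtain ⟨v, hv⟩ := cr_of_irr (fun _ => True) (fun _ _ _ => ⟨trivial, trivial⟩)
      (fun V _ _ _ _ hi _ => exists_nine (fun G _ _ _ L => col5 L) (fun G _ _ _ L => col3 L)
        (fun G _ _ _ L => col2 L) hi) _ V rfl hc trivial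
    rw [kerA_eq_bot, le_bot_iff] at hv
    exact ⟨v, (Mod.derivedSeries_eq_bot_iff _ _).mpr hv⟩
  · obtain ⟨v, hv⟩ := cr_of_irr Odd (fun _ _ => Nat.odd_mul.mp)
      (fun V _ _ _ _ hi hV => exists_one (fun G _ _ _ L ho => colOdd L ho) ho hi hV) _ V rfl hc (by
        rw [Module.natCard_eq_pow_finrank (K := ZMod p), Nat.card_zmod]
        exact ((Fact.out : p.Prime).odd_of_ne_two h2).pow)
    rw [kerA_eq_bot, le_bot_iff] at hv
    have := (Mod.derivedSeries_eq_bot_iff _ _).mpr hv
    rw [derivedSeries_one, commutator_eq_bot_iff_center_eq_top] at this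
    exact ⟨v, ⟨⟨fun a b => Subgroup.mem_center_iff.mp (this ▸ Subgroup.mem_top b) a⟩⟩⟩

end Cfsg.Agent.S4070
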