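import Mathlib
import Cfsg.Statements.S4071
import Cfsg.Agent.Lib.Transfer.MinNonNilp

set_option autoImplicit false
open Cfsg

namespace Cfsg.Agent.S4071

open scoped Pointwise



/-- Let G be a finite solvable non-nilpotent group. Every non-abelian subgroup of G is self-normalizing if and only if G is a semidirect product ⟨x⟩ ⋉ A in which ⟨x⟩ is a p-group for some prime p, A is a normal abelian subgroup of order prime to p, x^p is central in G, and x acts fixed-point-freely on A (no non-identity element of A commutes with x). -/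
theorem result {G : Type*} [Group G] [Finite G]
    [Group.IsSolvable G] (hnn : ¬ Group.IsNilpotent G) :
    (∀ H : Subgroup G, ¬ IsMulCommutative H → Subgroup.normalizer (H : Set G) = H) ↔
    ∃ (x : G) (A : Subgroup G) (p : ℕ), p.Prime ∧ A.Normal ∧ IsMulCommutative A ∧ (∃ k : ℕ, orderOf x = p ^ k) ∧
      ¬ p ∣ Nat.card A ∧ (Subgroup.zpowers x).IsComplement' A ∧ x ^ p ∈ Subgroup.center G ∧
      ∀ a : G, a ∈ A → a ≠ 1 → x * a * x⁻¹ ≠ a := by
  constructor
  · intro hS
    have hnt : Nontrivial G := by
      by_contra h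
      rw [not_nontrivial_iff_subsingleton] at h
      exact hnn inferInstance
    obtain ⟨M, hM, hGM⟩ := Core.exists_coatom_ge (Group.IsSolvable.commutator_lt_top_of_nontrivial G).ne
    have hMn : M.Normal := PGrp.normal_of_commutator_le hGM
    have hMc : IsMulCommutative M := by
      by_contra h
      exact hM.1 ((hS M h).symm.trans (Subgroup.normalizer_eq_top_iff.mpr hMn))
    have hp := Core.prime_index_of_isCoatom_of_normal hM
    set p := M.index with hpdef
    have := Fact.mk hp
    obtain ⟨x, hxM, k, hk⟩ : ∃ x : G, x ∉ M ∧ ∃ k, orderOf x = p ^ k := by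
      obtain ⟨y, -, hy⟩ := SetLike.exists_of_lt hM.lt_top
      obtain ⟨u, -, v, -, rfl, hu, hv⟩ := Cls.exists_p_part hp y
      refine ⟨u, fun h => hy (mul_mem h ?_), hu⟩
      exact Core.le_of_coprime_card_index (by rwa [Nat.card_zpowers]) (Subgroup.mem_zpowers v)
    have hxp := Core.isPGroup_zpowers_of_orderOf hk
    have hcomm : ∀ a ∈ M, ∀ b ∈ M, a * b = b * a := fun a ha b hb =>
      Core.mul_comm_of_mem_of_isMulCommutative hMc ha hb
    have htop : M ⊔ Subgroup.zpowers x = ⊤ := hM.2 _ (lt_of_le_of_ne le_sup_left fun he =>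
      hxM (he ▸ Subgroup.mem_sup_right (Subgroup.mem_zpowers x)))
    let A : Subgroup G :=
      { carrier := {a | a ∈ M ∧ (orderOf a).Coprime p}
        mul_mem' := fun {a b} ha hb => ⟨mul_mem ha.1 hb.1, Nat.Coprime.coprime_dvd_left
          (Commute.orderOf_mul_dvd_mul_orderOf (hcomm a ha.1 b hb.1)) (Nat.Coprime.mul_left ha.2 hb.2)⟩
        one_mem' := ⟨one_mem _, by simp⟩
        inv_mem' := fun ha => ⟨inv_mem ha.1, by simpa using ha.2⟩ }
    have hAM : A ≤ M := fun a ha => ha.1
    have hAn : A.Normal := ⟨fun a ha g => ⟨hMn.conj_mem a ha.1 g, by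
      rw [← MulAut.conj_apply, MulEquiv.orderOf_eq]; exact ha.2⟩⟩
    have hAp : ¬ p ∣ Nat.card A := fun hd => by
      obtain ⟨a, ha, hap⟩ := Core.exists_mem_orderOf_eq_of_dvd_card hd
      exact hp.ne_one (Nat.Coprime.eq_one_of_dvd (hap ▸ ha.2) dvd_rfl)
    have hAc : (Nat.card A).Coprime p := ((Nat.Prime.coprime_iff_not_dvd hp).mpr hAp).symm
    have hcop := Core.coprime_card_of_isPGroup hxp hAc
    have hall : ∀ g : G, (orderOf g).Coprime p → g ∈ A := fun g hg =>
      ⟨Core.le_of_coprime_card_index (by rwa [Nat.card_zpowers]) (Subgroup.mem_zpowers g), hg⟩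
    have hxA : ¬ Subgroup.zpowers x ≤ Subgroup.centralizer (A : Set G) := fun h => by
      apply hnn
      have h1 : ⊤ ≤ Subgroup.centralizer (A : Set G) :=
        htop ▸ sup_le (fun m hm a ha => hcomm a ha.1 m hm) h
      have := Transfer.isNilpotent_of_forall_coprime_mem_centralizer (C := (⊤ : Subgroup G)) (p := p)
        fun y _ hy => Subgroup.le_centralizer_iff.mp h1 (hall y hy)
      exact Group.nilpotent_of_mulEquiv Subgroup.topEquiv
    have hAcomm : IsMulCommutative A := Core.isMulCommutative_of_le hMc hAM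
    have hfix : ∀ a : G, a ∈ A → a ≠ 1 → x * a * x⁻¹ ≠ a := by
      intro a ha ha1 he
      set B := ⁅A, Subgroup.zpowers x⁆ with hB
      have hBA : B ≤ A := Subgroup.commutator_le_left _ _
      have hxB : Subgroup.zpowers x ≤ Subgroup.normalizer (B : Set G) :=
        Core.le_normalizer_commutator Subgroup.le_normalizer_of_normal Subgroup.le_normalizer
      have h1 : ¬ IsMulCommutative (B ⊔ Subgroup.zpowers x : Subgroup G) := fun h => by
        refine hxA (Coprime.commutator_eq_bot_iff_le_centralizer'.mp ?_)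
        rw [← Coprime.commutator_commutator_eq Subgroup.le_normalizer_of_normal hcop
          (Or.inl inferInstance), eq_bot_iff, ← Subgroup.commutator_self_eq_bot_iff.mpr h]
        exact Subgroup.commutator_mono le_sup_left le_sup_right
      have hax : a ∈ Subgroup.centralizer (Subgroup.zpowers x : Set G) := by
        rw [Cls.centralizer_zpowers, Subgroup.mem_centralizer_singleton_iff]
        calc a * x = x * a * x⁻¹ * x := by rw [he]
          _ = x * a := by group
      have h2 : a ∈ B ⊔ Subgroup.zpowers x := by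
        rw [← hS _ h1]
        refine Subgroup.centralizer_le_normalizer _ (Subgroup.le_centralizer_iff.mp (sup_le ?_ ?_)
          (Subgroup.mem_zpowers a))
        · exact fun b hb c hc => hcomm c (Subgroup.zpowers_le.mpr ha.1 hc) b (hBA hb).1
        · exact Subgroup.le_centralizer_iff.mp (Subgroup.zpowers_le.mpr hax)
      have h3 : a ∈ B := by
        have : (B ⊔ Subgroup.zpowers x) ⊓ A = B := by
          rw [sup_comm, Core.sup_inf_eq_inf_sup_of_le_normalizer hxB hBA,
            Core.inf_eq_bot_of_coprime_card hcop, bot_sup_eq]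
        exact this ▸ (⟨h2, ha⟩ : a ∈ (B ⊔ Subgroup.zpowers x) ⊓ A)
      exact ha1 (Subgroup.mem_bot.mp (Coprime.centralizer_inf_commutator_eq_bot
        Subgroup.le_normalizer_of_normal hcop hAcomm ▸ (⟨⟨ha, hax⟩, h3⟩ :
          a ∈ A ⊓ Subgroup.centralizer (Subgroup.zpowers x : Set G) ⊓ B)))
    have htop' : Subgroup.zpowers x ⊔ A = ⊤ := by
      by_contra hne
      have h1 : ¬ IsMulCommutative (Subgroup.zpowers x ⊔ A : Subgroup G) := fun h =>
        hxA fun u hu a ha => Core.mul_comm_of_mem_of_isMulCommutative h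
          (Subgroup.mem_sup_right ha) (Subgroup.mem_sup_left hu)
      have h2 : IsPGroup p (G ⧸ A) :=
        Transfer.isPGroup_quotient_of_pResidual_le A ((Subgroup.closure_le _).mpr hall)
      have := h2.isNilpotent
      have hc : ((Subgroup.zpowers x ⊔ A).map (QuotientGroup.mk' A)).comap (QuotientGroup.mk' A) =
          Subgroup.zpowers x ⊔ A := by rw [Core.comap_map_mk, sup_assoc, sup_idem]
      have h3 := Group.normalizerCondition_of_isNilpotent
        ((Subgroup.zpowers x ⊔ A).map (QuotientGroup.mk' A))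
        (lt_top_iff_ne_top.mpr fun ht => hne (by rw [← hc, ht, Subgroup.comap_top]))
      obtain ⟨y, hy, hy'⟩ := SetLike.exists_of_lt h3
      obtain ⟨y, rfl⟩ := QuotientGroup.mk'_surjective A y
      have h4 := Subgroup.le_normalizer_comap (QuotientGroup.mk' A) hy
      rw [hc, hS _ h1] at h4
      exact hy' (Subgroup.mem_map_of_mem _ h4)
    refine ⟨x, A, p, hp, hAn, hAcomm, ⟨k, hk⟩, hAp,
      Core.isComplement'_of_sup_eq_top_of_inf_eq_bot htop' (Core.inf_eq_bot_of_coprime_card hcop),
      Subgroup.mem_center_iff.mpr fun g => ?_, hfix⟩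
    have hxpM : x ^ p ∈ M := M.pow_index_mem x
    have h1 : ⊤ ≤ Subgroup.centralizer ({x ^ p} : Set G) := htop ▸ sup_le
      (fun m hm => Subgroup.mem_centralizer_singleton_iff.mpr (hcomm m hm _ hxpM))
      ((Cls.zpowers_le_centralizer_single x).trans (Cls.centralizer_single_le_pow x p))
    exact Subgroup.mem_centralizer_singleton_iff.mp (h1 (Subgroup.mem_top g))
  · rintro ⟨x, A, p, hp, hAn, hAc, ⟨k, hk⟩, hAp, hcompl, hxp, hfix⟩ H hH
    have := Fact.mk hp
    have htop : Subgroup.zpowers x ⊔ A = ⊤ := hcompl.sup_eq_top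
    have hcomm : ∀ a ∈ A, ∀ b ∈ A, a * b = b * a := fun a ha b hb =>
      Core.mul_comm_of_mem_of_isMulCommutative hAc ha hb
    have hS : Transfer.IsSylowIn p (Subgroup.zpowers x) ⊤ :=
      ⟨le_top, Core.isPGroup_zpowers_of_orderOf hk, by
        rwa [Subgroup.relIndex_top_right, hcompl.symm.index_eq_card]⟩
    have key : ∀ K : Subgroup G, x ∈ K → Subgroup.normalizer (K : Set G) = K := by
      intro K hxK
      refine le_antisymm (fun g hg => ?_) Subgroup.le_normalizer
      obtain ⟨u, hu, a, ha, rfl⟩ := (Core.mem_sup_of_le_normalizer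
        Subgroup.le_normalizer_of_normal).mp (htop ▸ Subgroup.mem_top g)
      have huK := Subgroup.zpowers_le.mpr hxK hu
      refine mul_mem huK ?_
      have han : a ∈ Subgroup.normalizer (K : Set G) :=
        (mul_mem_cancel_left (Subgroup.le_normalizer huK)).mp hg
      obtain ⟨b, hb, he⟩ := Frob.exists_conj_of_fpf (K := A ⊓ K) (h := x)
        (Core.le_normalizer_inf Subgroup.le_normalizer_of_normal Subgroup.le_normalizer hxK)
        (fun c hc he => by
          by_contra h1
          exact hfix c hc.1 h1 (by rw [he, mul_inv_cancel_right]))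
        (k := a * x * a⁻¹ * x⁻¹) ⟨by
          rw [mul_assoc a, mul_assoc a]
          exact A.mul_mem ha (hAn.conj_mem _ (A.inv_mem ha) x),
          K.mul_mem ((Subgroup.mem_normalizer_iff.mp han x).mp hxK) (K.inv_mem hxK)⟩
      have h1 : b⁻¹ * a = 1 := by
        by_contra h1
        refine hfix _ (A.mul_mem (A.inv_mem hb.1) ha) h1 ?_
        calc x * (b⁻¹ * a) * x⁻¹ = b⁻¹ * (b * x * b⁻¹) * a * x⁻¹ := by group
          _ = _ := by rw [he]; group
      rw [← inv_mul_eq_one.mp h1]
      exact hb.2
    obtain ⟨Q, hQ⟩ := Transfer.exists_isSylowIn (p := p) H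
    obtain ⟨c, -, hc⟩ := hS.exists_conj_le hQ.isPGroup le_top
    have hxH : x ∈ MulAut.conj c • H := by
      by_contra hx
      apply hH
      set C := Subgroup.zpowers (x ^ p) ⊔ A with hC
      have hCc : ∀ a ∈ C, ∀ b ∈ C, a * b = b * a := by
        intro a' ha' b' hb'
        obtain ⟨u, hu, a, ha, rfl⟩ := (Core.mem_sup_of_le_normalizer
          Subgroup.le_normalizer_of_normal).mp ha'
        obtain ⟨v, hv, b, hb, rfl⟩ := (Core.mem_sup_of_le_normalizer
          Subgroup.le_normalizer_of_normal).mp hb'
        have hu' := Subgroup.mem_center_iff.mp (Subgroup.zpowers_le.mpr hxp hu)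
        have hv' := Subgroup.mem_center_iff.mp (Subgroup.zpowers_le.mpr hxp hv)
        calc u * a * (v * b) = v * (u * a) * b := by rw [← hv' (u * a)]; group
          _ = v * (u * b) * a := by simp only [mul_assoc, hcomm a ha b hb]
          _ = _ := by rw [← hu' b]; group
      have hCn : C.Normal := by
        have := Core.normal_of_le_center (Subgroup.zpowers_le.mpr hxp)
        infer_instance
      have hHC : H ≤ C := by
        intro h hh
        obtain ⟨u, hu, c', hc', rfl⟩ := hQ.exists_mul_of_coprime_mem (C := C)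
          Subgroup.le_normalizer_of_normal (fun g _ hg => Subgroup.mem_sup_right
            (Core.le_of_coprime_card_index (H := Subgroup.zpowers g) (by
              rw [Nat.card_zpowers, hcompl.index_eq_card, Nat.card_zpowers, hk]
              exact Nat.Coprime.pow_right _ hg) (Subgroup.mem_zpowers g))) hh
        refine mul_mem ?_ hc'
        have h1 := Transfer.conj_mem_conj_smul (g := c) hu
        have h2 : c * u * c⁻¹ ∈ C := by
          by_contra h2
          have h3 := Transfer.zpowers_eq_of_not_mem hp hk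
            (Subgroup.mem_sup_left (Subgroup.mem_zpowers _)) (hc h1) h2
          exact hx (Subgroup.zpowers_le.mpr (Transfer.conj_smul_mono c hQ.le h1)
            (h3 ▸ Subgroup.mem_zpowers x))
        simpa [mul_assoc] using hCn.conj_mem' _ h2 c
      exact Core.isMulCommutative_of_forall fun a ha b hb => hCc a (hHC ha) b (hHC hb)
    have h1 := key _ hxH
    rw [Transfer.normalizer_conj_smul] at h1
    exact MulAction.injective _ h1

end Cfsg.Agent.S4071
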