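import Mathlib
import Cfsg.Statements.S4072
import Cfsg.Agent.Lib.Transfer.MinNonNilp

set_option autoImplicit false
open Cfsg

namespace Cfsg.Agent.S4072



/-- A finite group in which every non-abelian subgroup is self-normalizing is solvable or simple. -/
theorem result {G : Type*} [Group G] [Finite G] (hS : ∀ H : Subgroup G, ¬ IsMulCommutative H → Subgroup.normalizer (H : Set G) = H) :
    Group.IsSolvable G ∨ IsSimpleGroup G := by
  by_contra hcon
  rw [not_or] at hcon
  obtain ⟨hs, hsimple⟩ := hcon
  have hab : ∀ N : Subgroup G, N.Normal → N ≠ ⊤ → IsMulCommutative N := fun N hN ht => by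
    by_contra h
    exact ht ((hS N h).symm.trans (Subgroup.normalizer_eq_top_iff.mpr hN))
  have hq : ∀ (N : Subgroup G) [N.Normal], N ≠ ⊤ → ¬ Group.IsNilpotent (G ⧸ N) := fun N hN ht h => by
    have := hab N hN ht
    have := Core.isNilpotent_of_isMulCommutative (G := N)
    exact hs ((Group.isSolvable_iff_subgroup_quotient N).mpr ⟨inferInstance, inferInstance⟩)
  have hnt : Nontrivial G := by
    by_contra h
    rw [not_nontrivial_iff_subsingleton] at h
    exact hs inferInstance
  obtain ⟨N, hN, hb, ht⟩ : ∃ N : Subgroup G, N.Normal ∧ N ≠ ⊥ ∧ N ≠ ⊤ := by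
    by_contra h
    push Not at h
    exact hsimple ⟨fun N hN => or_iff_not_imp_left.mpr (h N hN)⟩
  have hC : Subgroup.centralizer (N : Set G) = ⊤ := by
    by_contra hC
    set C := Subgroup.centralizer (N : Set G) with hCdef
    obtain ⟨p, hp, X, q, g, hI⟩ := Transfer.exists_itoPair_of_not_isNilpotent (hq C hC)
    obtain ⟨g, rfl⟩ := QuotientGroup.mk'_surjective C g
    have hNC : N ≤ C := Subgroup.le_centralizer_iff_isMulCommutative.mpr (hab N hN ht)
    have h1 : IsMulCommutative (X.comap (QuotientGroup.mk' C)) := by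
      by_contra h
      have h2 := Subgroup.le_normalizer_comap (QuotientGroup.mk' C) hI.mem_normalizer
      rw [hS _ h] at h2
      exact hI.not_mem h2
    refine hI.ne_bot ?_
    rw [← Subgroup.map_comap_eq_self_of_surjective (QuotientGroup.mk'_surjective C) X,
      Core.map_mk_eq_bot_iff]
    exact (Subgroup.le_centralizer_iff_isMulCommutative.mpr h1).trans
      (Subgroup.centralizer_le (hNC.trans (Core.le_comap_mk C X)))
  obtain ⟨p, hp, hd⟩ := Core.exists_prime_dvd_card_of_ne_bot hb
  have := Fact.mk hp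
  obtain ⟨z, hz, hzp⟩ := Core.exists_mem_orderOf_eq_of_dvd_card hd
  have hzc : ∀ y : G, z * y = y * z := fun y =>
    (hC ▸ Subgroup.mem_top y : y ∈ Subgroup.centralizer (N : Set G)) z hz
  by_cases hG : HasNormalPComplement p G
  · refine hq (pResidual p G) (fun h => ?_) Transfer.isPGroup_quotient_pResidual.isNilpotent
    refine Transfer.hasNormalPComplement_iff_not_dvd_pResidual.mp hG ?_
    rw [h]
    exact hd.trans (Subgroup.card_dvd_of_le le_top)
  obtain ⟨P⟩ : Nonempty (Sylow p G) := inferInstance
  obtain ⟨X, -, q, g, hI⟩ := Transfer.exists_itoPair hG P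
  have h1 := hS _ (hI.not_isMulCommutative_of_le (H := X ⊔ Subgroup.zpowers g) le_sup_left
    (Subgroup.mem_sup_right (Subgroup.mem_zpowers g)))
  have hz1 : z ∈ X ⊔ Subgroup.zpowers g :=
    h1 ▸ Subgroup.centralizer_le_normalizer _ fun y _ => (hzc y).symm
  have hzX : z ∈ X := hI.isSylowIn.le_of_le_normalizer
    (Core.isPGroup_zpowers_of_orderOf (k := 1) (by rw [hzp, pow_one])) (Subgroup.zpowers_le.mpr hz1)
    (fun y _ => Subgroup.centralizer_le_normalizer _ (by
      rw [Cls.centralizer_zpowers]
      exact Subgroup.mem_centralizer_singleton_iff.mpr (hzc y).symm)) (Subgroup.mem_zpowers z)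
  have h2 := hI.mem_commutator_of_commute hzX (hzc g)
  have h3 : ¬ IsMulCommutative X := fun h => by
    rw [Subgroup.commutator_self_eq_bot_iff.mpr h, Subgroup.mem_bot] at h2
    rw [h2, orderOf_one] at hzp
    exact hp.ne_one hzp.symm
  exact hI.not_mem (hS X h3 ▸ hI.mem_normalizer)

end Cfsg.Agent.S4072
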