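import Cfsg.Statements.S4074
import Mathlib

set_option autoImplicit false
open Cfsg

namespace Cfsg.Agent.S4074

/-- For n > 2, every non-abelian subgroup of the dihedral group of order 2n is self-normalizing if and only if n = 4 or n is odd. -/
theorem result (n : ℕ) (hn : 2 < n) :
    (∀ H : Subgroup (DihedralGroup n), ¬ IsMulCommutative H → Subgroup.normalizer (H : Set (DihedralGroup n)) = H) ↔
    (n = 4 ∨ Odd n) := by
  constructor
  · intro h
    by_contra h1
    rw [not_or, Nat.not_odd_iff_even] at h1
    obtain ⟨h4, h2⟩ := h1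
    let φ : ZMod n →+* ZMod 2 := ZMod.castHom h2.two_dvd (ZMod 2)
    have hneg : ∀ x : ZMod 2, -x = x := by decide
    let f : DihedralGroup n →* Multiplicative (ZMod 2) :=
      MonoidHom.mk' (fun g => match g with
        | .r i => Multiplicative.ofAdd (φ i)
        | .sr i => Multiplicative.ofAdd (φ i)) (by
        rintro (a | a) (b | b) <;>
          simp [sub_eq_add_neg, hneg, ← ofAdd_add, add_comm])
    have h5 := h f.ker (fun hc => ?_)
    · rw [Subgroup.normalizer_eq_top] at h5
      have : DihedralGroup.r 1 ∈ f.ker := h5 ▸ Subgroup.mem_top _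
      simp [f, MonoidHom.mem_ker] at this
    · have h6 : DihedralGroup.r 2 ∈ f.ker := by
        simp only [f, MonoidHom.mem_ker, MonoidHom.mk'_apply, map_ofNat]; rfl
      have h7 : DihedralGroup.sr 0 ∈ f.ker := by
        simp [f, MonoidHom.mem_ker]
      have h8 := congrArg Subtype.val (hc.is_comm.comm ⟨_, h6⟩ ⟨_, h7⟩)
      simp only [Subgroup.coe_mul, DihedralGroup.r_mul_sr, DihedralGroup.sr_mul_r,
        DihedralGroup.sr.injEq] at h8
      have h9 : ((4 : ℕ) : ZMod n) = 0 := by push_cast; linear_combination -h8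
      rw [ZMod.natCast_eq_zero_iff] at h9
      have := Nat.le_of_dvd (by norm_num) h9
      obtain ⟨k, hk⟩ := h2
      omega
  · intro h H hH
    refine le_antisymm ?_ Subgroup.le_normalizer
    have hex : ∃ a ∈ H, ∃ b ∈ H, a * b ≠ b * a := by
      by_contra h1
      push Not at h1
      exact hH ⟨⟨fun a b => Subtype.ext (h1 a a.2 b b.2)⟩⟩
    obtain ⟨a, ha, b, hb, hab⟩ := hex
    rcases h with rfl | ⟨k, hk⟩
    · intro g _
      obtain ⟨i, j, k, rfl⟩ := (by decide +kernel : ∀ a b g : DihedralGroup 4, a * b ≠ b * a →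
        ∃ i j k : Fin 4, g = a ^ i.val * b ^ j.val * (a * b) ^ k.val) a b g hab
      exact H.mul_mem (H.mul_mem (H.pow_mem ha _) (H.pow_mem hb _)) (H.pow_mem (H.mul_mem ha hb) _)
    · obtain ⟨i, hi⟩ : ∃ i, DihedralGroup.sr i ∈ H := by
        rcases a with a | a
        · rcases b with b | b
          · exact absurd (by simp [add_comm]) hab
          · exact ⟨b, hb⟩
        · exact ⟨a, ha⟩
      have hr : ∀ j, DihedralGroup.r j ∈ Subgroup.normalizer (H : Set (DihedralGroup n)) →
          DihedralGroup.r j ∈ H := by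
        intro j hj
        have h1 := H.pow_mem (H.mul_mem ((Subgroup.mem_normalizer_iff.1 hj _).1 hi) hi) (k + 1)
        simp only [DihedralGroup.inv_r, DihedralGroup.r_mul_sr, DihedralGroup.sr_mul_r,
          DihedralGroup.sr_mul_sr, DihedralGroup.r_pow] at h1
        convert h1 using 2
        have h2 : ((2 * k + 1 : ℕ) : ZMod n) = 0 := by rw [← hk, ZMod.natCast_self]
        push_cast at h2 ⊢
        linear_combination -j * h2
      rintro (j | j) hj
      · exact hr j hj
      · have := hr _ (Subgroup.mul_mem _ hj (Subgroup.le_normalizer hi))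
        exact (H.mul_mem_cancel_right hi).1 this

end Cfsg.Agent.S4074
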