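import Mathlib
import Cfsg.Statements.S4075
import Cfsg.Agent.Lib.Transfer.MinNonNilp

set_option autoImplicit false
open Cfsg

namespace Cfsg.Agent.S4075



/-- Let G be a finite nilpotent group. Every non-abelian subgroup of G is self-normalizing if and only if G is abelian or G is a minimal non-abelian p-group for some prime p (non-abelian of prime-power order with every proper subgroup abelian). -/
theorem result {G : Type*} [Group G] [Finite G]
    [Group.IsNilpotent G] :
    (∀ H : Subgroup G, ¬ IsMulCommutative H → Subgroup.normalizer (H : Set G) = H) ↔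
    (IsMulCommutative G ∨ (IsPrimePow (Nat.card G) ∧ ¬ IsMulCommutative G ∧ ∀ H : Subgroup G, H ≠ ⊤ → IsMulCommutative H)) := by
  constructor
  · intro h
    by_cases hc : IsMulCommutative G
    · exact Or.inl hc
    have hall : ∀ H : Subgroup G, H ≠ ⊤ → IsMulCommutative H := fun H hH => by
      by_contra hH'
      exact (Group.normalizerCondition_of_isNilpotent H (lt_top_iff_ne_top.mpr hH)).ne' (h H hH')
    refine Or.inr ⟨?_, hc, hall⟩
    by_contra hpp
    apply hc
    refine ⟨⟨fun a b => ?_⟩⟩
    have key : ∀ x : G, ∀ (q : ℕ), q.Prime → (∃ k, orderOf x = q ^ k) →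
        ⊤ ≤ Subgroup.centralizer ({x} : Set G) := by
      intro x q hq ⟨k, hk⟩
      have := Fact.mk hq
      refine Transfer.le_of_forall_prime_pow_mem fun r hr y _ ⟨j, hj⟩ => ?_
      rw [Subgroup.mem_centralizer_singleton_iff]
      by_cases hrq : r = q
      · subst hrq
        have hx := Core.le_pCore_of_le_nilpotent_normal (N := ⊤) inferInstance
          (Core.isPGroup_zpowers_of_orderOf hk) le_top (Subgroup.mem_zpowers x)
        have hy := Core.le_pCore_of_le_nilpotent_normal (N := ⊤) inferInstance
          (Core.isPGroup_zpowers_of_orderOf hj) le_top (Subgroup.mem_zpowers y)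
        refine Core.mul_comm_of_mem_of_isMulCommutative (hall _ fun ht => hpp ?_) hy hx
        obtain ⟨n, hn⟩ := (Core.pCore_eq_top_iff.mp ht).exists_card_eq
        refine (isPrimePow_nat_iff _).mpr ⟨r, n, hr, Nat.pos_of_ne_zero ?_, hn.symm⟩
        rintro rfl
        have := (Nat.card_eq_one_iff_unique.mp hn).1
        exact hc ⟨⟨fun a b => Subsingleton.elim _ _⟩⟩
      · exact Transfer.commute_of_coprime_of_isNilpotent (M := ⊤) inferInstance trivial trivial
          (hk ▸ hj ▸ Nat.coprime_pow_primes _ _ hr hq hrq)
    have : ⊤ ≤ Subgroup.centralizer ({b} : Set G) := by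
      refine Transfer.le_of_forall_prime_pow_mem fun q hq x _ hx => ?_
      rw [Subgroup.mem_centralizer_singleton_iff]
      exact (Subgroup.mem_centralizer_singleton_iff.mp (key x q hq hx (Subgroup.mem_top b))).symm
    exact Subgroup.mem_centralizer_singleton_iff.mp (this (Subgroup.mem_top a))
  · rintro (h | ⟨-, -, h⟩) H hH
    · exact absurd (Core.isMulCommutative_of_forall fun a _ b _ => h.1.1 a b) hH
    · by_cases ht : H = ⊤
      · rw [ht]
        exact top_le_iff.mp Subgroup.le_normalizer
      · exact absurd (h H ht) hH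

end Cfsg.Agent.S4075
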