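import Cfsg.Statements.S4078
import Cfsg.Agent.Lib.Transfer.NilpMax
import Cfsg.Agent.Lib.Frob.Basic
import Cfsg.Agent.Lib.Cls.Solv
import Cfsg.Agent.Lib.Core.Subnormal
import Cfsg.Agent.Lib.Coprime.TwoGen

set_option autoImplicit false
open Cfsg

namespace Cfsg.Agent.S4078

open Subgroup

universe u

/-- `x` and `y` generate a solvable subgroup. -/
def S {G : Type*} [Group G] (x y : G) : Prop := Group.IsSolvable ↥(closure ({x, y} : Set G))

theorem S_map {G G' : Type*} [Group G] [Group G'] (f : G →* G') (hf : Group.IsSolvable f.ker)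
    (x y : G) : S (f x) (f y) ↔ S x y := by
  have h : closure ({f x, f y} : Set G') = (closure ({x, y} : Set G)).map f := by
    rw [MonoidHom.map_closure, Set.image_pair]
  unfold S
  rw [h]
  exact ⟨fun h1 => Core.isSolvable_of_le (Core.isSolvable_comap hf h1) (le_comap_map _ _),
    fun h1 => Core.isSolvable_map h1 f⟩

theorem S_comm {G : Type*} [Group G] {x y : G} (h : S x y) : S y x := by
  unfold S at h ⊢
  rwa [Set.pair_comm]

theorem main (G : Type u) [Group G] [Finite G]
    (h : ∀ x y z : G, S x y → S x z → S x (y * z)) : Group.IsSolvable G := by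
  revert h
  refine Core.induction_on_card (P := fun G _ _ =>
    (∀ x y z : G, S x y → S x z → S x (y * z)) → Group.IsSolvable G) ?_ G
  intro G _ _ ih h
  have hinj : ∀ {A B : Type u} [Group A] [Group B] (f : A →* B), Function.Injective f →
      Group.IsSolvable f.ker := fun f hf => by
    rw [(MonoidHom.ker_eq_bot_iff f).mpr hf]
    infer_instance
  have hsub : ∀ H : Subgroup G, H ≠ ⊤ → Group.IsSolvable H := fun H hH =>
    ih H (Core.card_lt_of_ne_top hH) fun x y z h1 h2 => by
      rw [← S_map H.subtype (hinj _ H.subtype_injective)] at h1 h2 ⊢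
      exact h _ _ _ h1 h2
  by_contra hns
  have hsimple : ∀ N : Subgroup G, N.Normal → N ≠ ⊤ → N = ⊥ := fun N hN h1 => by
    by_contra h2
    refine hns (Cls.isSolvable_of_normal_of_quotient N (hsub N h1)
      (ih _ (Core.card_quotient_lt h2) fun x y z h3 h4 => ?_))
    have hk : Group.IsSolvable (QuotientGroup.mk' N).ker := by
      rw [QuotientGroup.ker_mk']; exact hsub N h1
    obtain ⟨x, rfl⟩ := QuotientGroup.mk'_surjective N x
    obtain ⟨y, rfl⟩ := QuotientGroup.mk'_surjective N y
    obtain ⟨z, rfl⟩ := QuotientGroup.mk'_surjective N z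
    rw [← map_mul]
    rw [S_map _ hk] at h3 h4 ⊢
    exact h _ _ _ h3 h4
  have hM : ∀ M : Subgroup G, M ≠ ⊤ → ∀ x ∈ M, ∀ y ∈ M, S x y := fun M hM x hx y hy =>
    Core.isSolvable_of_le (hsub M hM) ((closure_le M).mpr (Set.pair_subset hx hy))
  have hz : ∀ x : G, zpowers x ≠ ⊤ := fun x e => hns (by
    have : IsCyclic G := isCyclic_iff_exists_zpowers_eq_top.mpr ⟨x, e⟩
    exact Cls.isSolvable_of_isMulCommutative inferInstance)
  let Sol : G → Subgroup G := fun x =>
    { carrier := {y | S x y}
      mul_mem' := fun h1 h2 => h _ _ _ h1 h2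
      one_mem' := hM _ (hz x) x (mem_zpowers x) 1 (one_mem _)
      inv_mem' := fun {y} hy => Core.isSolvable_of_le hy ((closure_le _).mpr (Set.pair_subset
        (subset_closure (by simp)) (inv_mem (subset_closure (by simp))))) }
  have hN : (⨅ y, Sol y).Normal := ⟨fun x hx g => mem_iInf.mpr fun y => by
    have h1 := (S_map (MulAut.conj g).toMonoidHom (hinj _ (MulAut.conj g).injective) _ _).mpr
      (mem_iInf.mp hx (g⁻¹ * y * g))
    have e : (MulAut.conj g).toMonoidHom (g⁻¹ * y * g) = y := by simp [mul_assoc]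
    rw [e] at h1
    exact h1⟩
  have hnt : (⊥ : Subgroup G) ≠ ⊤ := by simpa using hz 1
  obtain ⟨M, hMc, -⟩ := Core.exists_coatom_ge hnt
  have hM1 : M ≠ ⊥ := fun e => hns (Transfer.isSolvable_of_isCoatom_bot (e ▸ hMc))
  have hMn : ¬ M.Normal := fun e => hM1 (hsimple M e hMc.1)
  have hF : IsFrobeniusComplement M := by
    refine (Frob.isFrobeniusComplement_iff M).mpr ⟨hM1, hMc.1, fun g hg x hx hx' => ?_⟩
    have h1 : M.map (MulAut.conj g).toMonoidHom ≠ M := fun e => by
      have h2 : M < normalizer (M : Set G) := lt_of_le_of_ne le_normalizer fun e' =>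
        hg (e' ▸ Core.map_conj_eq_iff.mp e)
      exact hMn (normalizer_eq_top_iff.mp (hMc.2 _ h2))
    have h2 := Core.isCoatom_map_conj hMc g
    have h3 : Sol x = ⊤ := by
      refine top_le_iff.mp ((hMc.sup_eq_top_of_ne h2 h1.symm).ge.trans (sup_le ?_ ?_))
      · exact fun y hy => hM M hMc.1 x hx y hy
      · exact fun y hy => hM _ h2.1 x (Core.mem_map_conj.mpr hx') y hy
    have h4 : x ∈ ⨅ y, Sol y := mem_iInf.mpr fun y => S_comm (h3 ▸ mem_top y : y ∈ Sol x)
    have h5 : (⨅ y, Sol y) ≠ ⊤ := fun e => hns (Coprime.isSolvable_of_forall_pair G fun a b =>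
      mem_iInf.mp (e ▸ mem_top b : b ∈ ⨅ y, Sol y) a)
    exact mem_bot.mp (hsimple _ hN h5 ▸ h4)
  obtain ⟨K, hK, -, h1, h2⟩ := Frob.exists_kernel hF
  have h3 := hsimple K hK fun e => hM1 (by rwa [e, top_inf_eq] at h1)
  rw [h3, bot_sup_eq] at h2
  exact hMc.1 h2

/-- For an element x of a finite group G let Sol(x) be the set of y ∈ G such that x and y generate a solvable subgroup. Then G is solvable if and only if Sol(x) is (the carrier of) a subgroup of G for every x ∈ G. -/
theorem result {G : Type*} [Group G] [Finite G] :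
    Group.IsSolvable G ↔ ∀ x : G, ∃ H : Subgroup G, (H : Set G) = {y : G | Group.IsSolvable ↥(Subgroup.closure ({x, y} : Set G))} := by
  refine ⟨fun h x => ⟨⊤, (Set.eq_univ_of_forall fun y => ?_).symm⟩, fun h => main G fun x y z h1 h2 => ?_⟩
  · exact inferInstanceAs (Group.IsSolvable ↥(Subgroup.closure ({x, y} : Set G)))
  · obtain ⟨H, hH⟩ := h x
    exact hH.subset (H.mul_mem (hH.superset h1) (hH.superset h2))

end Cfsg.Agent.S4078
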