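import Cfsg.Statements.S4079
import Mathlib
import Cfsg.Agent.Lib.Reg.MetaAut

set_option autoImplicit false
open Cfsg

namespace Cfsg.Agent.S4079

/-- Let p be an odd prime and L a finite metacyclic p-group with no cyclic subgroup of index p, and let a be an automorphism of L of order p. Then a moves some element of order p of L if and only if p = 3 and the semidirect product L ⋊ ⟨a⟩ (of order 3·#L) has maximal class, i.e. nilpotency class m where #L = 3^m. -/
theorem result {L : Type*} [Group L] [Finite L] {p : ℕ} [Fact p.Prime]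
    (hp : p ≠ 2) (hL : IsPGroup p L) (hmc : Cfsg.IsMetacyclic L) (hnc : ∀ C : Subgroup L, IsCyclic C → C.index ≠ p)
    (a : MulAut L) (ha : orderOf a = p) (m : ℕ) (hm : Nat.card L = p ^ m) :
    (∃ x : L, orderOf x = p ∧ a x ≠ x) ↔
    (p = 3 ∧ Group.nilpotencyClass (SemidirectProduct L ↥(Subgroup.zpowers a) (Subgroup.zpowers a).subtype) = m) := by
  let Γ := SemidirectProduct L ↥(Subgroup.zpowers a) (Subgroup.zpowers a).subtype
  have : Finite Γ := Finite.of_equiv _ SemidirectProduct.equivProd.symm
  have hp1 : 1 < p := (Fact.out : p.Prime).one_lt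
  obtain ⟨m, rfl⟩ : ∃ k, m = k + 1 := by
    refine Nat.exists_eq_succ_of_ne_zero fun h0 => ?_
    rw [h0, pow_zero, Nat.card_eq_one_iff_unique] at hm
    have := hm.1
    rw [show a = 1 from MulEquiv.ext fun x => Subsingleton.elim _ _, orderOf_one] at ha
    omega
  have hΓ : Nat.card Γ = p ^ (m + 2) := by
    rw [SemidirectProduct.card, hm, Nat.card_zpowers, ha, ← pow_succ]
  let t : Γ := SemidirectProduct.inr ⟨a, Subgroup.mem_zpowers a⟩
  have hn : (SemidirectProduct.inl : L →* Γ).range.Normal := by
    rw [SemidirectProduct.range_inl_eq_ker_rightHom]; infer_instance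
  have hc : ∀ x : L, Commute t (SemidirectProduct.inl x) ↔ a x = x := fun x => by
    rw [← (SemidirectProduct.inl_injective (φ := (Subgroup.zpowers a).subtype)).eq_iff]
    have := SemidirectProduct.inl_aut (φ := (Subgroup.zpowers a).subtype)
      ⟨a, Subgroup.mem_zpowers a⟩ x
    rw [map_inv] at this
    rw [show (SemidirectProduct.inl (a x) : Γ) = t * SemidirectProduct.inl x * t⁻¹ from this,
      mul_inv_eq_iff_eq_mul]
    rfl
  rw [← Reg.metacyclic_aut_iff hp hΓ (L := (SemidirectProduct.inl : L →* Γ).range) (t := t)]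
  · constructor
    · rintro ⟨x, hx, hx'⟩
      exact ⟨_, ⟨x, rfl⟩, by rw [← map_pow, ← hx, pow_orderOf_eq_one, map_one], mt (hc x).mp hx'⟩
    · rintro ⟨_, ⟨x, rfl⟩, hx, hx'⟩
      rw [hc] at hx'
      refine ⟨x, orderOf_eq_prime ?_ fun h => hx' (by rw [h, map_one]), hx'⟩
      rwa [← map_pow, map_eq_one_iff _ SemidirectProduct.inl_injective] at hx
  · rw [SemidirectProduct.range_inl_eq_ker_rightHom, Subgroup.index_ker,
      MonoidHom.range_eq_top.mpr SemidirectProduct.rightHom_surjective, Subgroup.card_top,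
      Nat.card_zpowers, ha]
  · exact Reg.isMetacyclic_of_surjective hmc _ (MonoidHom.rangeRestrict_surjective _)
  · intro C _ hC h
    refine hnc (C.comap SemidirectProduct.inl) ?_ (by rwa [Subgroup.index_comap])
    exact isCyclic_of_injective (((SemidirectProduct.inl : L →* Γ).subgroupComap C))
      fun x y h => Subtype.ext (SemidirectProduct.inl_injective (congrArg Subtype.val h))
  · rw [← map_pow, show (⟨a, Subgroup.mem_zpowers a⟩ : Subgroup.zpowers a) ^ p = 1 from
      Subtype.ext (by rw [← ha]; exact pow_orderOf_eq_one a), map_one]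
  · refine eq_top_iff.mpr fun g _ => ?_
    rw [← SemidirectProduct.inl_left_mul_inr_right g]
    refine Subgroup.mul_mem_sup ⟨_, rfl⟩ ?_
    obtain ⟨k, hk⟩ := g.right.2
    exact ⟨k, (map_zpow _ _ k).symm.trans (congrArg _ (Subtype.ext hk))⟩

end Cfsg.Agent.S4079
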