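import Cfsg.Statements.S4080
import Mathlib
import Cfsg.Agent.S4079

set_option autoImplicit false
open Cfsg

namespace Cfsg.Agent.S4080

/-- Let p > 3 be a prime and L the direct product of two cyclic groups of order p². Every automorphism of L of order p fixes every element of order p of L. -/
theorem result {p : ℕ} [Fact p.Prime] (hp : 3 < p)
    (a : MulAut (Multiplicative (ZMod (p ^ 2) × ZMod (p ^ 2)))) (ha : orderOf a = p)
    (x : Multiplicative (ZMod (p ^ 2) × ZMod (p ^ 2))) (hx : orderOf x = p) : a x = x := by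
  by_contra hne
  have hp0 : p.Prime := Fact.out
  have : NeZero (p ^ 2) := ⟨pow_ne_zero _ hp0.ne_zero⟩
  have hc : Nat.card (Multiplicative (ZMod (p ^ 2) × ZMod (p ^ 2))) = p ^ 4 := by
    simp [← pow_add]
  have := (Cfsg.Agent.S4079.result (by omega) (IsPGroup.of_card hc) ?_ ?_ a ha 4 hc).mp ⟨x, hx, hne⟩
  · omega
  · let f := AddMonoidHom.toMultiplicative (AddMonoidHom.snd (ZMod (p ^ 2)) (ZMod (p ^ 2)))
    refine ⟨f.ker, inferInstance, ?_, isCyclic_of_injective (QuotientGroup.kerLift f)
      (QuotientGroup.kerLift_injective f)⟩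
    refine isCyclic_of_injective ((AddMonoidHom.toMultiplicative
      (AddMonoidHom.fst (ZMod (p ^ 2)) (ZMod (p ^ 2)))).comp f.ker.subtype) fun x y h => ?_
    exact Subtype.ext (Prod.ext h (x.2.trans y.2.symm))
  · intro C hC h
    have h1 := C.card_mul_index
    have h2 : Nat.card C ∣ p ^ 2 := by
      rw [← IsCyclic.exponent_eq_card, Monoid.exponent_dvd_iff_forall_pow_eq_one]
      intro g
      refine Subtype.ext (Multiplicative.toAdd.injective ?_)
      have h0 : (p : ZMod (p ^ 2)) ^ 2 = 0 := by rw [← Nat.cast_pow, ZMod.natCast_self]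
      ext <;> simp [h0]
    rw [h, hc] at h1
    have h3 := Nat.mul_le_mul_right p (Nat.le_of_dvd (by positivity) h2)
    rw [h1, ← pow_succ, Nat.pow_le_pow_iff_right hp0.one_lt] at h3
    omega

end Cfsg.Agent.S4080
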