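import Cfsg.Statements.S4081
import Mathlib
import Cfsg.Agent.Lib.PGrp.ElemAb
import Cfsg.Agent.Lib.Coprime.Generate
import Cfsg.Agent.Lib.Char.Burnside
import Cfsg.Agent.Lib.Cls.Basic

set_option autoImplicit false
open Cfsg

namespace Cfsg.Agent.S4081

open Polynomial

theorem exists_equiv_field {K M N : Type*} [Field K] [AddCommGroup M] [Module K M]
    [AddCommGroup N] [Module K N] [Finite M] [Finite N] (h : Nat.card M = Nat.card N)
    {v : M} {w : N} (hv : v ≠ 0) (hw : w ≠ 0) : ∃ e : M ≃ₗ[K] N, e v = w := by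
  have : Finite K := Finite.of_injective _ (smul_left_injective K hv)
  have h1 : Module.finrank K M = Module.finrank K N := by
    rw [Module.natCard_eq_pow_finrank (K := K) (V := M),
      Module.natCard_eq_pow_finrank (K := K) (V := N)] at h
    exact Nat.pow_right_injective Finite.one_lt_card h
  let e := LinearEquiv.ofFinrankEq M N h1
  have h2 : e v ≠ 0 := by simpa using hv
  obtain ⟨g, hg⟩ := Submodule.exists_linearEquiv_restrict_eq
    ((LinearEquiv.toSpanNonzeroSingleton K N (e v) h2).symm ≪≫ₗ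
      LinearEquiv.toSpanNonzeroSingleton K N w hw)
  refine ⟨e ≪≫ₗ g, ?_⟩
  have := hg (LinearEquiv.toSpanNonzeroSingleton K N (e v) h2 1)
  rw [LinearEquiv.trans_apply, LinearEquiv.symm_apply_apply] at this
  simpa using this.symm

theorem exists_equiv_of_torsion {R M N : Type*} [CommRing R] [IsDomain R] [IsPrincipalIdealRing R]
    [AddCommGroup M] [Module R M] [AddCommGroup N] [Module R N] [Finite M] [Finite N]
    {r : R} (hr : Irreducible r) (hM : Module.IsTorsionBy R M r) (hN : Module.IsTorsionBy R N r)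
    (h : Nat.card M = Nat.card N) {v : M} {w : N} (hv : v ≠ 0) (hw : w ≠ 0) :
    ∃ e : M ≃+ N, (∀ (s : R) m, e (s • m) = s • e m) ∧ e v = w := by
  have := PrincipalIdealRing.isMaximal_of_irreducible hr
  let _ := Ideal.Quotient.field (Ideal.span {r})
  let _ := hM.module
  let _ := hN.module
  obtain ⟨e, he⟩ := exists_equiv_field (K := R ⧸ Ideal.span {r}) h hv hw
  exact ⟨e.toAddEquiv, fun s m => e.map_smul (Ideal.Quotient.mk _ s) m, he⟩

theorem LA {F V : Type*} [Field F] [AddCommGroup V] [Module F V] [Finite V] {f : F[X]}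
    (hf : Irreducible f) (T S : Module.End F V) (hT : aeval T f = 0) (hS : aeval S f = 0)
    {v w : V} (hv : v ≠ 0) (hw : w ≠ 0) :
    ∃ e : V ≃+ V, (∀ m, e (T m) = S (e m)) ∧ e v = w := by
  obtain ⟨e, h1, h2⟩ := @exists_equiv_of_torsion F[X] V V _ _ _ _
    (Module.compHom V (aeval T).toRingHom) _ (Module.compHom V (aeval S).toRingHom) _ _ f hf
    (fun m => show aeval T f m = 0 by rw [hT]; rfl)
    (fun m => show aeval S f m = 0 by rw [hS]; rfl) rfl v w hv hw
  refine ⟨e, fun m => ?_, h2⟩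
  have : e (aeval T (X : F[X]) m) = aeval S (X : F[X]) (e m) := h1 X m
  simpa using this

theorem map_aeval {F V : Type*} [Field F] [AddCommGroup V] [Module F V] {T S φ : Module.End F V}
    (h : ∀ m, φ (T m) = S (φ m)) (f : F[X]) (m : V) : φ (aeval T f m) = aeval S f (φ m) := by
  induction f using Polynomial.induction_on generalizing m with
  | C a => simp
  | add f g hf hg => simp [hf, hg]
  | monomial n a ih =>
    rw [pow_succ, ← mul_assoc, map_mul, map_mul (aeval S), aeval_X, aeval_X, Module.End.mul_apply,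
      Module.End.mul_apply, ih, h]

theorem aeval_cyc {F V : Type*} [Field F] [AddCommGroup V] [Module F V] {T : Module.End F V}
    {q : ℕ} [Fact q.Prime] (h1 : T ^ q = 1) (h2 : ∀ v, T v = v → v = 0) :
    aeval T (cyclotomic q F) = 0 := by
  ext v
  apply h2
  have := congrArg (fun f => aeval T f v)
    ((mul_comm _ _).trans (cyclotomic_prime_mul_X_sub_one F q))
  simp only [map_mul, map_sub, aeval_X, map_one, map_pow, h1, sub_self, Module.End.mul_apply,
    LinearMap.sub_apply, Module.End.one_apply] at this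
  exact sub_eq_zero.1 this

theorem LB {p q : ℕ} [Fact p.Prime] [Fact q.Prime] (hpq : p ≠ q) {V : Type*} [AddCommGroup V]
    [Module (ZMod p) V] [Finite V] [Nontrivial V] (T : Module.End (ZMod p) V)
    (h1 : ∀ v w : V, v ≠ 0 → w ≠ 0 → ∃ (φ : V ≃ₗ[ZMod p] V) (j : ℕ),
      (∀ m, φ (T m) = (T ^ j) (φ m)) ∧ φ v = w)
    (h2 : ∀ i : ℕ, ¬ q ∣ i → ∃ φ : V ≃ₗ[ZMod p] V, ∀ m, φ (T m) = (T ^ i) (φ m))
    (h3 : aeval T (cyclotomic q (ZMod p)) = 0) : orderOf (p : ZMod q) = q - 1 := by
  classical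
  have hp : p.Prime := Fact.out
  have hq : q.Prime := Fact.out
  let C : V → Set V := fun v => Set.range fun f : (ZMod p)[X] => aeval T f v
  have hC : ∀ v w : V, v ≠ 0 → w ≠ 0 → (C v).ncard ≤ (C w).ncard := by
    intro v w hv hw
    obtain ⟨φ, j, h4, rfl⟩ := h1 v w hv hw
    refine Set.ncard_le_ncard_of_injOn φ ?_ φ.injective.injOn
    rintro _ ⟨f, rfl⟩
    refine ⟨f.comp (X ^ j), ?_⟩
    simp only [aeval_comp, map_pow, aeval_X]
    exact (map_aeval (φ := φ.toLinearMap) h4 f v).symm
  have hC2 : ∀ (v : V) (f : (ZMod p)[X]), aeval T f v ≠ 0 → ∀ g : (ZMod p)[X],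
      ∃ k : (ZMod p)[X], aeval T k (aeval T f v) = aeval T g v := by
    intro v f hf g
    have h4 : C (aeval T f v) = C v := by
      refine Set.eq_of_subset_of_ncard_le ?_ (hC _ _ (by rintro rfl; simp at hf) hf)
      rintro _ ⟨k, rfl⟩
      exact ⟨k * f, by simp⟩
    have h5 : aeval T g v ∈ C v := ⟨g, rfl⟩
    rw [← h4] at h5
    exact h5
  have hcomm : ∀ (f g : (ZMod p)[X]) (v : V), aeval T f (aeval T g v) = aeval T g (aeval T f v) :=
    fun f g v => by rw [← Module.End.mul_apply, ← map_mul, mul_comm, map_mul, Module.End.mul_apply]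
  have hkill : ∀ (g : (ZMod p)[X]) (v : V), v ≠ 0 → aeval T g v = 0 → aeval T g = 0 := by
    intro g v hv hg
    ext w
    by_contra hw
    have h4 : aeval T g (v + w) = aeval T g w := by rw [map_add, hg, zero_add]
    obtain ⟨k, hk⟩ := hC2 (v + w) g (h4 ▸ hw) 1
    rw [h4, map_one, Module.End.one_apply, ← Module.End.mul_apply, ← map_mul] at hk
    have h5 : aeval T (k * g - 1) w = v := by
      rw [map_sub, map_one, LinearMap.sub_apply, hk]; simp
    obtain ⟨l, hl⟩ := hC2 w (k * g - 1) (h5 ▸ hv) 1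
    rw [h5, map_one, Module.End.one_apply] at hl
    apply hw
    rw [← hl, hcomm, hg, map_zero, LinearMap.zero_apply]
  have hint : IsIntegral (ZMod p) T := Algebra.IsIntegral.isIntegral T
  set μ := minpoly (ZMod p) T with hμ
  have hirr : Irreducible μ := by
    refine Prime.irreducible ⟨minpoly.ne_zero hint, minpoly.not_isUnit _ _, fun a b hab => ?_⟩
    simp only [hμ, minpoly.dvd_iff] at hab ⊢
    by_contra h
    push Not at h
    obtain ⟨w, hw⟩ := DFunLike.ne_iff.1 h.2
    exact h.1 (hkill a _ hw (by rw [← Module.End.mul_apply, ← map_mul, hab]; rfl))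
  have hcop : p.Coprime q := (Nat.coprime_primes hp hq).2 hpq
  have hdvd : μ ∣ cyclotomic q (ZMod p) := minpoly.dvd _ _ h3
  have hdeg := natDegree_of_dvd_cyclotomic_of_irreducible (f := 1) (by simp) hcop hdvd hirr
  rw [← orderOf_units, ZMod.coe_unitOfCoprime, pow_one] at hdeg
  have : Fact (Irreducible μ) := ⟨hirr⟩
  set t := AdjoinRoot.root μ with ht
  have hroot : ∀ f, μ ∣ f → aeval t f = 0 := fun f hf => by
    rw [ht, AdjoinRoot.aeval_eq, AdjoinRoot.mk_eq_zero]; exact hf
  have : NeZero (q : AdjoinRoot μ) := ⟨by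
    rw [← map_natCast (algebraMap (ZMod p) (AdjoinRoot μ)), _root_.map_ne_zero, Ne,
      ZMod.natCast_eq_zero_iff]
    exact fun h => hpq ((Nat.prime_dvd_prime_iff_eq hp hq).1 h)⟩
  have hprim : IsPrimitiveRoot t q := by
    rw [← isRoot_cyclotomic_iff, ← map_cyclotomic q (algebraMap (ZMod p) (AdjoinRoot μ)),
      IsRoot.def, eval_map_algebraMap]
    exact hroot _ hdvd
  have h4 : q - 1 ≤ μ.natDegree := by
    have h5 : (Finset.Ico 1 q).image (fun i => t ^ i) ⊆ (μ.aroots (AdjoinRoot μ)).toFinset := by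
      intro s hs
      obtain ⟨i, hi, rfl⟩ := Finset.mem_image.1 hs
      rw [Finset.mem_Ico] at hi
      rw [Multiset.mem_toFinset, mem_aroots]
      refine ⟨hirr.ne_zero, ?_⟩
      obtain ⟨φ, hφ⟩ := h2 i (Nat.not_dvd_of_pos_of_lt hi.1 hi.2)
      have h6 : aeval T (μ.comp (X ^ i)) = 0 := by
        ext m
        obtain ⟨m, rfl⟩ := φ.surjective m
        have := map_aeval (φ := φ.toLinearMap) hφ μ m
        rw [hμ, minpoly.aeval, LinearMap.zero_apply, map_zero] at this
        simp only [aeval_comp, map_pow, aeval_X]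
        exact this.symm
      have := hroot _ (minpoly.dvd _ _ h6)
      simpa [aeval_comp] using this
    have h6 := Finset.card_le_card h5
    rw [Finset.card_image_of_injOn (fun i hi j hj h => hprim.pow_inj
      (Finset.mem_Ico.1 hi).2 (Finset.mem_Ico.1 hj).2 h), Nat.card_Ico] at h6
    exact h6.trans ((Multiset.toFinset_card_le _).trans
      ((card_roots' _).trans natDegree_map_le))
  refine le_antisymm (Nat.le_of_dvd (by have := hq.two_le; omega)
    (ZMod.orderOf_dvd_card_sub_one ?_)) (hdeg ▸ h4)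
  rw [Ne, ZMod.natCast_eq_zero_iff]
  exact fun h => hpq ((Nat.prime_dvd_prime_iff_eq hq hp).1 h).symm


/-- Automorphisms of an elementary abelian group as linear maps. -/
def Lmap (p : ℕ) [Fact p.Prime] (E : Type*) [CommGroup E] [Module (ZMod p) (Additive E)] :
    MulAut E →* Module.End (ZMod p) (Additive E) :=
  LinearEquiv.automorphismGroup.toLinearMapMonoidHom.comp
    (PGrp.mulAutEquivLinear (p := p) (E := E)).toMonoidHom

section
open scoped IsMulCommutative
variable {p q : ℕ} [Fact p.Prime] [Fact q.Prime] {E : Type*} [Group E] [Finite E]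

theorem GA (hc : IsMulCommutative E) (he : ∀ x : E, x ^ p = 1) (hpq : p ≠ q)
    (ho : orderOf (p : ZMod q) = q - 1) {τ σ : MulAut E} (hτ : τ ^ q = 1) (hσ : σ ^ q = 1)
    (hτ' : ∀ v, τ v = v → v = 1) (hσ' : ∀ v, σ v = v → v = 1) {v w : E} (hv : v ≠ 1)
    (hw : w ≠ 1) : ∃ e : MulAut E, (∀ m, e (τ m) = σ (e m)) ∧ e v = w := by
  have hp : p.Prime := Fact.out
  have hq : q.Prime := Fact.out
  let _ : Module (ZMod p) (Additive E) := PGrp.zmodModule he
  let L := Lmap p E
  have hirr : Irreducible (cyclotomic q (ZMod p)) := by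
    refine ZMod.irreducible_of_dvd_cyclotomic_of_natDegree
      (fun h => hpq ((Nat.prime_dvd_prime_iff_eq hp hq).1 h)) dvd_rfl ?_
    rw [← orderOf_units, ZMod.coe_unitOfCoprime, ho, natDegree_cyclotomic, Nat.totient_prime hq]
  obtain ⟨e, h1, h2⟩ := LA hirr (L τ) (L σ)
    (aeval_cyc (by rw [← map_pow, hτ, map_one]) hτ')
    (aeval_cyc (by rw [← map_pow, hσ, map_one]) hσ') (v := Additive.ofMul v)
    (w := Additive.ofMul w) hv hw
  exact ⟨MulEquiv.toAdditive.symm e, h1, h2⟩

theorem GB [Nontrivial E] (hc : IsMulCommutative E) (he : ∀ x : E, x ^ p = 1) (hpq : p ≠ q)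
    {τ : MulAut E} (hτ : τ ^ q = 1) (hτ' : ∀ v, τ v = v → v = 1)
    (h1 : ∀ v w : E, v ≠ 1 → w ≠ 1 → ∃ (φ : MulAut E) (j : ℕ),
      (∀ m, φ (τ m) = (τ ^ j) (φ m)) ∧ φ v = w)
    (h2 : ∀ i : ℕ, ¬ q ∣ i → ∃ φ : MulAut E, ∀ m, φ (τ m) = (τ ^ i) (φ m)) :
    orderOf (p : ZMod q) = q - 1 := by
  let _ : Module (ZMod p) (Additive E) := PGrp.zmodModule he
  let L := Lmap p E
  refine LB hpq (L τ) (fun v w hv hw => ?_) (fun i hi => ?_)
    (aeval_cyc (by rw [← map_pow, hτ, map_one]) hτ')
  · obtain ⟨φ, j, h3, h4⟩ := h1 v.toMul w.toMul hv hw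
    exact ⟨PGrp.mulAutEquivLinear φ, j, by rw [← map_pow]; exact h3, h4⟩
  · obtain ⟨φ, h3⟩ := h2 i hi
    exact ⟨PGrp.mulAutEquivLinear φ, by rw [← map_pow]; exact h3⟩

end

open scoped IsMulCommutative in
theorem ext_aut {G : Type*} [Group G] [Finite G] {P : Subgroup G} [P.Normal] {x : G}
    (h : P.IsComplement' (Subgroup.zpowers x)) (φ : MulAut P) (i : ℕ)
    (hi : x ∈ Subgroup.zpowers (x ^ i))
    (hφ : ∀ m, φ (MulAut.conjNormal x m) = MulAut.conjNormal (x ^ i) (φ m)) :
    ∃ α : MulAut G, (∀ v : P, α v = φ v) ∧ α x = x ^ i := by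
  have hk : ∀ k : ℕ, ∀ m, φ (MulAut.conjNormal (x ^ k) m) =
      MulAut.conjNormal ((x ^ k) ^ i) (φ m) := by
    intro k
    induction k with
    | zero => simp
    | succ k ih =>
      intro m
      rw [pow_succ, map_mul, MulAut.mul_apply, ih, hφ, ((Commute.refl x).pow_left k).mul_pow,
        map_mul, MulAut.mul_apply]
  let f : _ →* G := SemidirectProduct.lift
    (φ := P.normalizerMonoidHom.comp (Subgroup.inclusion (P.normalizer_eq_top ▸ le_top)))
    (P.subtype.comp φ.toMonoidHom)
    ((Subgroup.zpowers x).subtype.comp (powMonoidHom i)) (by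
      rintro ⟨z, hz⟩
      obtain ⟨k, rfl⟩ := mem_powers_iff_mem_zpowers.2 hz
      ext m
      exact congrArg Subtype.val (hk k m))
  let e := SemidirectProduct.mulEquivSubgroup h
  have h1 : ∀ v : P, f (e.symm v) = φ v := fun v => by
    have : e.symm v = SemidirectProduct.inl v := by
      rw [MulEquiv.symm_apply_eq]
      simp [e]
    rw [this]
    exact SemidirectProduct.lift_inl _ _ _ v
  have h2 : f (e.symm x) = x ^ i := by
    have : e.symm x = SemidirectProduct.inr ⟨x, Subgroup.mem_zpowers x⟩ := by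
      rw [MulEquiv.symm_apply_eq]
      simp [e]
    rw [this]
    exact SemidirectProduct.lift_inr _ _ _ _
  have h3 : Function.Surjective (f.comp e.symm.toMonoidHom) := by
    rw [← MonoidHom.range_eq_top, eq_top_iff]
    refine h.sup_eq_top.ge.trans (sup_le (fun v hv => ⟨φ.symm ⟨v, hv⟩, ?_⟩) ?_)
    · exact (h1 _).trans (by simp)
    · rw [Subgroup.zpowers_le]
      exact Subgroup.zpowers_le.2 (MonoidHom.mem_range.2 ⟨x, h2⟩) hi
  exact ⟨MulEquiv.ofBijective (f.comp e.symm.toMonoidHom)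
    (Finite.surjective_iff_bijective.1 h3), h1, h2⟩

theorem mk_eq_iff {G : Type*} [Group G] {g h : G} :
    (Quotient.mk _ g : MulAction.orbitRel.Quotient (MulAut G) G) = Quotient.mk _ h ↔
      ∃ α : MulAut G, α h = g := Quotient.eq

theorem card_three_iff {G : Type*} [Group G] [Finite G] {p q : ℕ} (hp : p.Prime) (hq : q.Prime)
    (hpq : p ≠ q) {a b : G} (ha : orderOf a = p) (hb : orderOf b = q) :
    Nat.card (MulAction.orbitRel.Quotient (MulAut G) G) = 3 ↔
      ∀ g : G, g = 1 ∨ (∃ α : MulAut G, α a = g) ∨ (∃ α : MulAut G, α b = g) := by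
  classical
  have := Fintype.ofFinite (MulAction.orbitRel.Quotient (MulAut G) G)
  have hne : ∀ g h : G, orderOf g ≠ orderOf h →
      (Quotient.mk _ g : MulAction.orbitRel.Quotient (MulAut G) G) ≠ Quotient.mk _ h := by
    intro g h h1 h2
    obtain ⟨α, rfl⟩ := mk_eq_iff.1 h2
    exact h1 (α.orderOf_eq h)
  have h3 : ({Quotient.mk _ 1, Quotient.mk _ a, Quotient.mk _ b} :
      Finset (MulAction.orbitRel.Quotient (MulAut G) G)).card = 3 :=
    Finset.card_eq_three.2 ⟨_, _, _, hne _ _ (by rw [ha, orderOf_one]; exact hp.one_lt.ne),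
      hne _ _ (by rw [hb, orderOf_one]; exact hq.one_lt.ne), hne _ _ (by rwa [ha, hb]), rfl⟩
  rw [← h3, Nat.card_eq_fintype_card, eq_comm, Finset.card_eq_iff_eq_univ, Finset.eq_univ_iff_forall]
  simp only [Finset.mem_insert, Finset.mem_singleton]
  constructor
  · intro h g
    simpa [mk_eq_iff, eq_comm (a := g) (b := 1)] using h (Quotient.mk _ g)
  · intro h g
    induction g using Quotient.inductionOn with
    | _ g => simpa [mk_eq_iff, eq_comm (a := g) (b := 1)] using h g

theorem fwd {G : Type*} [Group G] [Finite G] {p q : ℕ} [Fact p.Prime] [Fact q.Prime]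
    (hpq : p ≠ q) {a b : G} (ha : orderOf a = p) (hb : orderOf b = q)
    (hall : ∀ g : G, g = 1 ∨ (∃ α : MulAut G, α a = g) ∨ (∃ α : MulAut G, α b = g))
    (A : Subgroup G) [A.Characteristic] (hA : IsMulCommutative A) (haA : a ∈ A) :
    ∃ n, 1 ≤ n ∧ Nat.card G = p ^ n * q ∧
      (∀ P : Sylow p G, (P : Subgroup G).Normal ∧ Cfsg.IsElementaryAbelian p (P : Subgroup G)) ∧
      orderOf (p : ZMod q) = q - 1 ∧
      ∀ x y : G, orderOf x = q → orderOf y = p → x * y * x⁻¹ ≠ y := by
  have hp : p.Prime := Fact.out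
  have hq : q.Prime := Fact.out
  have hcop : p.Coprime q := (Nat.coprime_primes hp hq).2 hpq
  have hord : ∀ g : G, orderOf g = 1 ∨ orderOf g = p ∨ orderOf g = q := fun g => by
    rcases hall g with rfl | ⟨α, rfl⟩ | ⟨α, rfl⟩
    · simp
    · simp [α.orderOf_eq, ha]
    · simp [α.orderOf_eq, hb]
  have hpa : ∀ g : G, orderOf g = p → ∃ α : MulAut G, α a = g := fun g hg => by
    rcases hall g with rfl | h | ⟨α, rfl⟩
    · rw [orderOf_one] at hg; exact absurd hg hp.one_lt.ne
    · exact h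
    · rw [α.orderOf_eq, hb] at hg; exact absurd hg.symm hpq
  have hqb : ∀ g : G, orderOf g = q → ∃ α : MulAut G, α b = g := fun g hg => by
    rcases hall g with rfl | ⟨α, rfl⟩ | h
    · rw [orderOf_one] at hg; exact absurd hg hq.one_lt.ne
    · rw [α.orderOf_eq, ha] at hg; exact absurd hg hpq
    · exact h
  have hfpf : ∀ x y : G, orderOf x = q → orderOf y = p → x * y * x⁻¹ ≠ y := by
    intro x y hx hy h
    have h1 : Commute y x := (mul_inv_eq_iff_eq_mul.1 h).symm
    have h2 := h1.orderOf_mul_eq_mul_orderOf_of_coprime (by rwa [hx, hy])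
    rw [hx, hy] at h2
    have := hp.two_le
    have := hq.two_le
    rcases hord (y * x) with h | h | h <;> rw [h2] at h <;> nlinarith
  have hchar : ∀ (α : MulAut G) g, g ∈ A → α g ∈ A := fun α g hg =>
    (MulAut.characteristic A α ⟨g, hg⟩).2
  have hAp : ∀ g ∈ A, g ≠ 1 → orderOf g = p := fun g hg h1 => by
    rcases hord g with h | h | h
    · exact absurd (orderOf_eq_one_iff.1 h) h1
    · exact h
    · exact absurd (mul_inv_eq_iff_eq_mul.2 (Coprime.mul_comm_of_mem hA hg haA))
        (hfpf g a h ha)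
  have hAe : ∀ g ∈ A, g ^ p = 1 := fun g hg => by
    by_cases h : g = 1
    · simp [h]
    · rw [← hAp g hg h, pow_orderOf_eq_one]
  have hAG : IsPGroup p A := PGrp.IsElementaryAbelian.isPGroup ⟨hA, hAe⟩
  have hP : ∀ P : Sylow p G, (P : Subgroup G) = A := fun P => by
    refine (P.3 hAG fun g hg => ?_).symm
    by_cases h : g = 1
    · exact h ▸ A.one_mem
    have h1 : p ∣ orderOf g := by
      simpa using P.isPGroup'.dvd_orderOf (g := ⟨g, hg⟩) (fun h' => h (congrArg Subtype.val h'))
    rcases hord g with h2 | h2 | h2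
    · exact absurd (orderOf_eq_one_iff.1 h2) h
    · obtain ⟨α, rfl⟩ := hpa g h2
      exact hchar α a haA
    · rw [h2] at h1
      exact absurd ((Nat.prime_dvd_prime_iff_eq hp hq).1 h1) hpq
  have ha1 : a ≠ 1 := by rintro rfl; rw [orderOf_one] at ha; exact hp.one_lt.ne ha
  obtain ⟨k, hk⟩ := IsPGroup.iff_card.1 hAG
  have hq2 : ¬ q ^ 2 ∣ Nat.card G := by
    intro h
    obtain ⟨E, hE⟩ := Sylow.exists_subgroup_card_pow_prime q h
    have hnc : ¬ IsCyclic E := fun hc => by
      obtain ⟨g, hg⟩ := hc.exists_ofOrder_eq_natCard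
      rw [hE, ← Subgroup.orderOf_coe] at hg
      have := hq.two_le
      rcases hord g with h2 | h2 | h2 <;> rw [hg] at h2
      · nlinarith
      · exact hpq ((Nat.prime_dvd_prime_iff_eq hq hp).1 (h2 ▸ dvd_pow_self q two_ne_zero)).symm
      · nlinarith
    obtain ⟨e, heE, he1, he⟩ := Coprime.exists_inf_centralizer_ne_bot (A := E) (G := A)
      (IsPGroup.isMulCommutative_of_card_eq_prime_sq hE) hnc
      (by rw [Subgroup.normalizer_eq_top]; exact le_top)
      (by rw [hE, hk]; exact hcop.symm.pow _ _) (fun h => ha1 (by simpa [h] using haA))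
    · obtain ⟨⟨y, hy, hy'⟩, hy1⟩ := Subgroup.ne_bot_iff_exists_ne_one.1 he
      have h1 : q ∣ orderOf e := by
        simpa using (IsPGroup.of_card hE).dvd_orderOf (g := ⟨e, heE⟩)
          (fun h' => he1 (congrArg Subtype.val h'))
      rcases hord e with h2 | h2 | h2
      · exact he1 (orderOf_eq_one_iff.1 h2)
      · rw [h2] at h1
        exact hpq ((Nat.prime_dvd_prime_iff_eq hq hp).1 h1).symm
      · exact hfpf e y h2 (hAp y hy fun h => hy1 (Subtype.ext h))
          (mul_inv_eq_iff_eq_mul.2 (Subgroup.mem_centralizer_singleton_iff.1 hy').symm)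
  obtain ⟨m, hm⟩ : q ∣ Nat.card G := hb ▸ orderOf_dvd_natCard b
  obtain ⟨n, hn⟩ := Cls.eq_pow_of_forall_prime_eq (p := p) (n := m)
    (by rintro rfl; exact Nat.card_pos.ne' (hm.trans (mul_zero _))) (fun r hr hrm => by
      have : Fact r.Prime := ⟨hr⟩
      obtain ⟨g, hg⟩ := exists_prime_orderOf_dvd_card' (G := G) r (hm ▸ hrm.mul_left q)
      rcases hord g with h2 | h2 | h2 <;> rw [hg] at h2
      · exact absurd h2 hr.one_lt.ne'
      · exact h2
      · subst h2
        exact absurd (by rw [hm, sq]; exact mul_dvd_mul_left _ hrm) hq2)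
  rw [hn, mul_comm] at hm
  have hcardA : Nat.card A = p ^ n := by
    obtain ⟨P⟩ : Nonempty (Sylow p G) := inferInstance
    rw [← hP P, P.card_eq_multiplicity, hm, Nat.factorization_mul (pow_pos hp.pos _).ne' hq.ne_zero,
      hp.factorization_pow, hq.factorization]
    simp [hpq.symm]
  have hcompl : A.IsComplement' (Subgroup.zpowers b) := Subgroup.isComplement'_of_coprime
    (by rw [hcardA, Nat.card_zpowers, hb, hm])
    (by rw [hcardA, Nat.card_zpowers, hb]; exact hcop.pow_left _)
  refine ⟨n, ?_, hm, fun P => by rw [hP P]; exact ⟨inferInstance, hA, hAe⟩, ?_, hfpf⟩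
  · by_contra h
    have : n = 0 := by omega
    rw [this, pow_zero, Subgroup.card_eq_one] at hcardA
    exact ha1 (by simpa [hcardA] using haA)
  have : Nontrivial A := ⟨⟨a, haA⟩, 1, fun h => ha1 (congrArg Subtype.val h)⟩
  have hconj : ∀ (α : MulAut G) (m : A), MulAut.characteristic A α (MulAut.conjNormal b m) =
      MulAut.conjNormal (α b) (MulAut.characteristic A α m) := fun α m =>
    Subtype.ext (show α (b * m * b⁻¹) = α b * α m * (α b)⁻¹ by simp)
  refine GB hA (fun x => Subtype.ext (hAe x x.2)) hpq (τ := MulAut.conjNormal b)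
    (by rw [← map_pow, ← hb, pow_orderOf_eq_one, map_one]) (fun v hv => ?_)
    (fun v w hv hw => ?_) (fun i hi => ?_)
  · by_contra h
    exact hfpf b v hb (hAp v v.2 fun h' => h (Subtype.ext h')) (congrArg Subtype.val hv)
  · obtain ⟨α, hα⟩ := hpa v (hAp v v.2 fun h' => hv (Subtype.ext h'))
    obtain ⟨β, hβ⟩ := hpa w (hAp w w.2 fun h' => hw (Subtype.ext h'))
    obtain ⟨⟨u, ⟨z, hz⟩⟩, hu⟩ := (hcompl.existsUnique ((β * α⁻¹) b)).exists
    obtain ⟨j, rfl⟩ := mem_powers_iff_mem_zpowers.2 hz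
    refine ⟨MulAut.characteristic A (β * α⁻¹), j, fun m => ?_, Subtype.ext ?_⟩
    · rw [hconj, ← hu, ← map_pow, map_mul, MulAut.mul_apply]
      apply Subtype.ext
      rw [MulAut.conjNormal_apply, mul_inv_eq_iff_eq_mul]
      exact Coprime.mul_comm_of_mem hA u.2 (Subtype.property _)
    · change β (α⁻¹ v) = w
      rw [← hα, ← hβ]; simp
  · obtain ⟨α, hα⟩ := hqb (b ^ i) (by
      rw [Nat.Coprime.orderOf_pow (by rw [hb]; exact hq.coprime_iff_not_dvd.2 hi), hb])
    exact ⟨MulAut.characteristic A α, fun m => by rw [hconj, hα, map_pow]⟩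

/-- Let G be a finite group whose order is not a prime power. Then the automorphism group of G has exactly three orbits on G if and only if there are distinct primes p, q with #G = pⁿ·q (n ≥ 1) such that G has a normal elementary abelian Sylow p-subgroup P, p is a primitive root modulo q (the multiplicative order of p mod q is q − 1), and every element of order q of G acts on P without non-identity fixed points. -/
theorem result {G : Type*} [Group G] [Finite G] (hnpp : ¬ IsPrimePow (Nat.card G)) (hnt : Nat.card G ≠ 1) :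
    Nat.card (MulAction.orbitRel.Quotient (MulAut G) G) = 3 ↔
    ∃ (p q n : ℕ) (_ : Fact p.Prime) (_ : Fact q.Prime), p ≠ q ∧ 1 ≤ n ∧ Nat.card G = p ^ n * q ∧
      (∀ P : Sylow p G, (P : Subgroup G).Normal ∧ Cfsg.IsElementaryAbelian p (P : Subgroup G)) ∧
      orderOf (p : ZMod q) = q - 1 ∧
      ∀ x y : G, orderOf x = q → orderOf y = p → x * y * x⁻¹ ≠ y := by
  constructor
  · intro h3
    have h2 : 1 < (Nat.card G).primeFactors.card := by
      have h1 := Finset.card_pos.2 (Nat.nonempty_primeFactors.2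
        (show 1 < Nat.card G by have := Nat.card_pos (α := G); omega))
      rw [isPrimePow_iff_card_primeFactors_eq_one] at hnpp
      omega
    obtain ⟨p, hp, q, hq, hpq⟩ := Finset.one_lt_card.1 h2
    have hp' : Fact p.Prime := ⟨Nat.prime_of_mem_primeFactors hp⟩
    have hq' : Fact q.Prime := ⟨Nat.prime_of_mem_primeFactors hq⟩
    obtain ⟨a, ha⟩ := exists_prime_orderOf_dvd_card' p (Nat.dvd_of_mem_primeFactors hp)
    obtain ⟨b, hb⟩ := exists_prime_orderOf_dvd_card' q (Nat.dvd_of_mem_primeFactors hq)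
    have hall := (card_three_iff hp'.out hq'.out hpq ha hb).1 h3
    have hsol : Group.IsSolvable G := Char.solvable_of_two_primes hp'.out hq'.out fun r hr hd => by
      have : Fact r.Prime := ⟨hr⟩
      obtain ⟨g, hg⟩ := exists_prime_orderOf_dvd_card' r hd
      rcases hall g with rfl | ⟨α, rfl⟩ | ⟨α, rfl⟩
      · rw [orderOf_one] at hg; exact absurd hg hr.one_lt.ne
      · rw [α.orderOf_eq, ha] at hg; exact Or.inl hg.symm
      · rw [α.orderOf_eq, hb] at hg; exact Or.inr hg.symm
    obtain ⟨k, hk1, hk2⟩ : ∃ k, derivedSeries G k ≠ ⊥ ∧ derivedSeries G (k + 1) = ⊥ := by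
      classical
      have h1 := Nat.find_spec hsol.solvable
      have h4 : Nat.find hsol.solvable ≠ 0 := fun h => by
        rw [h, derivedSeries_zero, ← Subgroup.card_eq_one, Subgroup.card_top] at h1
        exact hnt h1
      obtain ⟨k, hk⟩ := Nat.exists_eq_succ_of_ne_zero h4
      exact ⟨k, Nat.find_min hsol.solvable (by omega), by rwa [hk] at h1⟩
    have hA : IsMulCommutative (derivedSeries G k) :=
      Subgroup.le_centralizer_iff_isMulCommutative.1
        (Subgroup.commutator_eq_bot_iff_le_centralizer.1 hk2)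
    obtain ⟨⟨g, hg⟩, hg1⟩ := Subgroup.ne_bot_iff_exists_ne_one.1 hk1
    rcases hall g with rfl | ⟨α, rfl⟩ | ⟨α, rfl⟩
    · exact absurd rfl hg1
    · obtain ⟨n, hn⟩ := fwd hpq ha hb hall _ hA (by
        have : α.symm (α _) ∈ _ := (MulAut.characteristic _ α.symm ⟨_, hg⟩).2
        rwa [α.symm_apply_apply] at this)
      exact ⟨p, q, n, hp', hq', hpq, hn⟩
    · obtain ⟨n, hn⟩ := fwd hpq.symm hb ha (fun g => by have := hall g; tauto) _ hA (by
        have : α.symm (α _) ∈ _ := (MulAut.characteristic _ α.symm ⟨_, hg⟩).2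
        rwa [α.symm_apply_apply] at this)
      exact ⟨q, p, n, hq', hp', hpq.symm, hn⟩
  · rintro ⟨p, q, n, hp', hq', hpq, hn, hG, hP, ho, hfpf⟩
    have hp := hp'.out
    have hq := hq'.out
    have hcop : p.Coprime q := (Nat.coprime_primes hp hq).2 hpq
    obtain ⟨a, ha⟩ := exists_prime_orderOf_dvd_card' (G := G) p
      (hG ▸ (dvd_pow_self p (by omega)).mul_right q)
    obtain ⟨b, hb⟩ := exists_prime_orderOf_dvd_card' (G := G) q (hG ▸ dvd_mul_left _ _)
    obtain ⟨P⟩ : Nonempty (Sylow p G) := inferInstance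
    obtain ⟨hN, hc, he⟩ := hP P
    have hmem : ∀ g : G, (∃ k, orderOf g = p ^ k) → g ∈ (P : Subgroup G) := fun g hg =>
      Cls.mem_sylow_of_mem_normalizer P hg (by rw [Subgroup.normalizer_eq_top]; trivial)
    have hcardA : Nat.card P = p ^ n := by
      rw [P.card_eq_multiplicity, hG, Nat.factorization_mul (pow_pos hp.pos _).ne' hq.ne_zero,
        hp.factorization_pow, hq.factorization]
      simp [hpq.symm]
    have hcompl : (P : Subgroup G).IsComplement' (Subgroup.zpowers b) :=
      Subgroup.isComplement'_of_coprime (by rw [hcardA, Nat.card_zpowers, hb, hG])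
        (by rw [hcardA, Nat.card_zpowers, hb]; exact hcop.pow_left _)
    have hf : ∀ x : G, orderOf x = q → ∀ v : P, MulAut.conjNormal x v = v → v = 1 := by
      intro x hx v hv
      by_contra h
      exact hfpf x v hx (orderOf_eq_prime (he v v.2) fun h' => h (Subtype.ext h'))
        (congrArg Subtype.val hv)
    have hf2 : ∀ x : G, orderOf x = q → (MulAut.conjNormal x : MulAut P) ^ q = 1 := fun x hx => by
      rw [← map_pow, ← hx, pow_orderOf_eq_one, map_one]
    have haP := hmem a ⟨1, by rw [ha, pow_one]⟩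
    have ha1 : (⟨a, haP⟩ : P) ≠ 1 := fun h => by
      rw [show a = 1 from congrArg Subtype.val h, orderOf_one] at ha; exact hp.one_lt.ne ha
    refine (card_three_iff hp hq hpq ha hb).2 fun g => ?_
    by_cases hg1 : g = 1
    · exact Or.inl hg1
    right
    by_cases hgP : g ∈ (P : Subgroup G)
    · left
      obtain ⟨e, h1, h2⟩ := GA hc (fun x => Subtype.ext (he x x.2)) hpq ho (hf2 b hb) (hf2 b hb)
        (hf b hb) (hf b hb) ha1 (w := ⟨g, hgP⟩) (fun h => hg1 (congrArg Subtype.val h))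
      obtain ⟨α, hα, -⟩ := ext_aut hcompl e 1 (by simp) (by simpa using h1)
      exact ⟨α, (hα ⟨a, haP⟩).trans (congrArg Subtype.val h2)⟩
    right
    have hg : orderOf g = q := by
      obtain ⟨u, hu, v, hv, huv, hu', hv'⟩ := Cls.exists_p_part hp g
      have h1 : orderOf v ∣ q :=
        (hv'.pow_right n).dvd_of_dvd_mul_left (hG ▸ orderOf_dvd_natCard v)
      have huP := hmem u hu'
      rcases (Nat.dvd_prime hq).1 h1 with h | h
      · rw [orderOf_eq_one_iff.1 h, mul_one] at huv
        exact absurd (huv ▸ huP) hgP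
      · have h2 := hf v h ⟨u, huP⟩ (Subtype.ext
          (mul_inv_eq_iff_eq_mul.2 (Cls.commute_of_mem_zpowers hv hu).eq))
        rw [huv, show u = 1 from congrArg Subtype.val h2, one_mul, h]
    have hQ : IsPGroup q (Subgroup.zpowers b) :=
      IsPGroup.of_card (n := 1) (by rw [Nat.card_zpowers, hb, pow_one])
    obtain ⟨c, hc'⟩ := Cls.exists_conj_mem_sylow (hQ.toSylow (by
      rw [hcompl.index_eq_card, hcardA]
      exact fun h => hpq ((Nat.prime_dvd_prime_iff_eq hq hp).1 (hq.dvd_of_dvd_pow h)).symm))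
      (x := g) ⟨1, by rw [hg, pow_one]⟩
    obtain ⟨i, hi⟩ := mem_powers_iff_mem_zpowers.2 hc'
    have hi' : b ^ i = c⁻¹ * g * c := hi
    have h1 : orderOf (b ^ i) = q := by
      rw [hi', ← hg, ← (MulAut.conj c⁻¹).orderOf_eq g]; simp
    obtain ⟨e, h2, -⟩ := GA hc (fun x => Subtype.ext (he x x.2)) hpq ho (hf2 b hb) (hf2 _ h1)
        (hf b hb) (hf _ h1) ha1 ha1
    obtain ⟨α, -, hα⟩ := ext_aut hcompl e i (by
      have : Subgroup.zpowers (b ^ i) = Subgroup.zpowers b := Subgroup.eq_of_le_of_card_ge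
        (Subgroup.zpowers_le.2 (Subgroup.pow_mem _ (Subgroup.mem_zpowers b) i))
        (by rw [Nat.card_zpowers, Nat.card_zpowers, h1, hb])
      rw [this]; exact Subgroup.mem_zpowers b) h2
    exact ⟨MulAut.conj c * α, by simp [hα, hi', mul_assoc]⟩

end Cfsg.Agent.S4081
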