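import Mathlib
import Cfsg.Statements.S4082
import Cfsg.Agent.Lib.Transfer.PByCyclic
import Cfsg.Agent.Lib.Schur.CyclicSylow
import Cfsg.Agent.Lib.PGrp.ConjOrder

set_option autoImplicit false
open Cfsg

namespace Cfsg.Agent.S4082

open Subgroup
open scoped Pointwise

theorem key {G : Type*} [Group G] [Finite G] {p : ℕ} [hp : Fact p.Prime] (hp2 : p ≠ 2)
    (h : ∀ H : Subgroup G, (∀ S : Sylow p ↥H, (S : Subgroup ↥H).Normal) →
        (∀ (S : Sylow p ↥H) [(S : Subgroup ↥H).Normal], IsCyclic (↥H ⧸ (S : Subgroup ↥H))) →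
        IsCyclic H ∨ (∃ n : ℕ, Nonempty (H ≃* DihedralGroup (p ^ n))))
    {A : Subgroup G} (hA : IsPGroup p A) {x : G} (hx : x ∈ normalizer (A : Set G))
    (hxc : x ∉ centralizer (A : Set G)) : orderOf x = 2 ∧ ∀ a ∈ A, x * a * x⁻¹ = a⁻¹ := by
  obtain ⟨h1, h2⟩ := Transfer.pByCyclic_of_mem_normalizer hA hx
  rcases h _ h1 h2 with hc | ⟨n, ⟨e⟩⟩
  · refine absurd (mem_centralizer_iff.2 fun a ha => ?_) hxc
    exact PGrp.isMulCommutative_iff_mem.1 inferInstance a (mem_sup_left ha) x
      (mem_sup_right (mem_zpowers x))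
  · obtain ⟨R, -, hRc, -, -, hR⟩ := Transfer.exists_rotation e
    have hAR : A ≤ R := fun a ha => by
      by_contra haR
      obtain ⟨k, hk⟩ := hA ⟨a, ha⟩
      have h3 := orderOf_dvd_of_pow_eq_one (show a ^ p ^ k = 1 from congrArg Subtype.val hk)
      rw [(hR a (mem_sup_left ha) haR).1] at h3
      exact hp2 ((Nat.prime_dvd_prime_iff_eq Nat.prime_two hp.out).1
        (Nat.prime_two.dvd_of_dvd_pow h3)).symm
    have hxR : x ∉ R := fun hxR => hxc (mem_centralizer_iff.2 fun a ha =>
      PGrp.isMulCommutative_iff_mem.1 inferInstance a (hAR ha) x hxR)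
    obtain ⟨h3, h4⟩ := hR x (mem_sup_right (mem_zpowers x)) hxR
    exact ⟨h3, fun a ha => h4 a (hAR ha)⟩

/-- Let p be an odd prime and G a finite group with Sylow p-subgroup P. Say that G has restricted p-by-cyclic subgroups when every subgroup H of G whose Sylow p-subgroup is normal in H with cyclic quotient is itself cyclic or dihedral of order 2pⁿ for some n. Then G has restricted p-by-cyclic subgroups if and only if P is cyclic and one of the following holds: (1) N_G(P) = C_G(P); or (2) N_G(P)/C_G(P) has order 2 and, for the subgroup Q of order p of P, the centralizer C_G(Q) is abelian and every element of N_G(Q) outside C_G(Q) is an involution inverting every element of C_G(Q). -/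
theorem result {G : Type*} [Group G] [Finite G] {p : ℕ}
    [Fact p.Prime] (hp : p ≠ 2) (P : Sylow p G) :
    (∀ H : Subgroup G, (∀ S : Sylow p ↥H, (S : Subgroup ↥H).Normal) →
        (∀ (S : Sylow p ↥H) [(S : Subgroup ↥H).Normal], IsCyclic (↥H ⧸ (S : Subgroup ↥H))) →
        IsCyclic H ∨ (∃ n : ℕ, Nonempty (H ≃* DihedralGroup (p ^ n)))) ↔
    (IsCyclic P ∧
      (Subgroup.normalizer ((P : Subgroup G) : Set G) = Subgroup.centralizer ((P : Subgroup G) : Set G) ∨
       ((Subgroup.centralizer ((P : Subgroup G) : Set G)).relIndex (Subgroup.normalizer ((P : Subgroup G) : Set G)) = 2 ∧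
        ∀ Q : Subgroup G, Q ≤ P → Nat.card Q = p →
          IsMulCommutative ↥(Subgroup.centralizer (Q : Set G)) ∧
          ∀ x : G, x ∈ Subgroup.normalizer (Q : Set G) → x ∉ Subgroup.centralizer (Q : Set G) →
            orderOf x = 2 ∧ ∀ c : G, c ∈ Subgroup.centralizer (Q : Set G) → x * c * x⁻¹ = c⁻¹))) := by
  have hpp : p.Prime := Fact.out
  constructor
  · intro h
    have hPc : IsCyclic P := by
      obtain ⟨h1, h2⟩ := Transfer.pByCyclic_of_mem_normalizer P.2 (one_mem _)
      rw [zpowers_one_eq_bot, sup_bot_eq] at h1 h2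
      rcases h _ h1 h2 with hc | ⟨n, ⟨e⟩⟩
      · exact hc
      · obtain ⟨R, -, -, -, hc, -⟩ := Transfer.exists_rotation e
        obtain ⟨k, hk⟩ := P.2.exists_card_eq
        have : 2 ∣ p ^ k := ⟨_, hk.symm.trans hc⟩
        exact absurd ((Nat.prime_dvd_prime_iff_eq Nat.prime_two hpp).1
          (Nat.prime_two.dvd_of_dvd_pow this)).symm hp
    refine ⟨hPc, ?_⟩
    by_cases hNC : normalizer ((P : Subgroup G) : Set G) = centralizer ((P : Subgroup G) : Set G)
    · exact Or.inl hNC
    obtain ⟨g, hg, hgc⟩ := SetLike.exists_of_lt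
      (lt_of_le_of_ne (centralizer_le_normalizer _) (Ne.symm hNC))
    have hginv := (key hp h P.2 hg hgc).2
    refine Or.inr ⟨?_, fun Q hQP hQ => ?_⟩
    · refine relIndex_eq_two_iff_exists_notMem_and'.2 ⟨g, hg, hgc, fun b hb => ?_⟩
      by_cases hbc : b ∈ centralizer ((P : Subgroup G) : Set G)
      · exact Or.inr hbc
      · refine Or.inl (mem_centralizer_iff.2 fun a ha => ?_)
        have h1 := (key hp h P.2 hb hbc).2 a ha
        have h2 := hginv _ (inv_mem ha)
        rw [inv_inv, ← h1] at h2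
        calc a * (g * b) = g * (b * a * b⁻¹) * g⁻¹ * (g * b) := by rw [h2]
          _ = _ := by group
    · have hQp : IsPGroup p Q := P.2.to_le hQP
      have hinv : ∀ x ∈ normalizer (Q : Set G), x ∉ centralizer (Q : Set G) →
          orderOf x = 2 ∧ ∀ c ∈ centralizer (Q : Set G), x * c * x⁻¹ = c⁻¹ := by
        intro x hx hxc
        have h1 := (key hp h hQp hx hxc).1
        refine ⟨h1, fun c hc => ?_⟩
        have h2 := (key hp h hQp (mul_mem hx (centralizer_le_normalizer _ hc)) (fun h' => hxc (by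
          simpa using mul_mem h' (inv_mem hc)))).1
        have h3 := pow_orderOf_eq_one x
        have h4 := pow_orderOf_eq_one (x * c)
        rw [h1, sq] at h3
        rw [h2, sq, ← mul_assoc] at h4
        rw [inv_eq_of_mul_eq_one_right h3]
        exact eq_inv_of_mul_eq_one_left h4
      refine ⟨?_, hinv⟩
      have hgQ : g ∈ normalizer (Q : Set G) := Transfer.mem_normalizer_of_conj_mem fun a ha => by
        rw [hginv a (hQP ha)]; exact inv_mem ha
      have hgQc : g ∉ centralizer (Q : Set G) := fun hc => by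
        obtain ⟨a, ha, hao⟩ := PGrp.exists_orderOf_eq_prime_of_ne_bot hQp
          (fun h0 => by rw [h0, card_bot] at hQ; exact hpp.one_lt.ne hQ)
        have h1 := hginv a (hQP ha)
        rw [← mem_centralizer_iff.1 hc a ha, mul_inv_cancel_right] at h1
        have h2 : a ^ 2 = 1 := by rw [sq]; exact mul_eq_one_iff_eq_inv.2 h1
        exact hp ((Nat.prime_dvd_prime_iff_eq hpp Nat.prime_two).1
          (hao ▸ orderOf_dvd_of_pow_eq_one h2))
      refine PGrp.isMulCommutative_iff_mem.2 fun a ha b hb => ?_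
      have h1 := (hinv g hgQ hgQc).2
      have h2 := h1 _ (mul_mem ha hb)
      have h3 : g * (a * b) * g⁻¹ = (g * a * g⁻¹) * (g * b * g⁻¹) := by group
      rw [h3, h1 a ha, h1 b hb, ← mul_inv_rev] at h2
      exact (inv_injective h2).symm
  · rintro ⟨hPc, h⟩ H h1 h2
    obtain ⟨T, y, hT, hy, hyp, rfl⟩ := Transfer.exists_of_pByCyclic h1 h2
    have hTc : IsCyclic T := Schur.isCyclic_of_isPGroup_of_sylow P hPc hT
    by_cases hyc : y ∈ centralizer (T : Set G)
    · exact Or.inl (Transfer.isCyclic_sup_zpowers hT hTc hyc hyp)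
    rcases h with h | ⟨-, h⟩
    · exact absurd (Transfer.mem_centralizer_of_hasNormalPComplement hT le_top
        (Transfer.hasNormalPComplement_top_iff.2
          (Transfer.burnside_of_normalizer_le_centralizer P h.le)) (mem_top y) hy hyp) hyc
    right
    obtain ⟨z, hz, hzo⟩ := PGrp.exists_orderOf_eq_prime_of_ne_bot hT (by
      rintro rfl
      exact hyc (mem_centralizer_iff.2 fun a ha => by rw [mem_bot.1 ha]; simp))
    obtain ⟨g, -, hg⟩ := (Transfer.isSylowIn_top P).exists_conj_le hT le_top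
    obtain ⟨-, h3⟩ := h (MulAut.conj g • zpowers z)
      ((Transfer.conj_smul_mono g (zpowers_le.2 hz)).trans hg)
      (by rw [Transfer.card_conj_smul, Nat.card_zpowers, hzo])
    rw [Transfer.normalizer_conj_smul, Transfer.centralizer_conj_smul] at h3
    have hyz : y ∈ normalizer (zpowers z : Set G) := by
      rw [← Transfer.conj_smul_eq_iff_mem_normalizer]
      refine PGrp.eq_of_card_eq_of_isCyclic (P := T) ?_ (zpowers_le.2 hz)
        (Transfer.card_conj_smul _ _)
      rw [← Transfer.conj_smul_eq_iff_mem_normalizer.2 hy]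
      exact Transfer.conj_smul_mono y (zpowers_le.2 hz)
    have hyzc : y ∉ centralizer (zpowers z : Set G) := fun h' => hyc
      (Schur.mem_centralizer_of_isCyclic hT hy hyp hz
        (fun h0 => by rw [h0, orderOf_one] at hzo; exact hpp.one_lt.ne hzo)
        (mem_centralizer_iff.1 h' z (mem_zpowers z)).symm)
    obtain ⟨h4, h5⟩ := h3 (g * y * g⁻¹) (Transfer.conj_mem_conj_smul hyz) (fun h' => hyzc (by
      simpa [mul_assoc] using Transfer.mem_conj_smul_iff.1 h'))
    rw [← MulAut.conj_apply, MulEquiv.orderOf_eq] at h4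
    obtain ⟨n, hn⟩ := hT.exists_card_eq
    refine ⟨n, hn ▸ Transfer.dihedral_of_inverts hTc (fun h' => hyc (mem_centralizer_iff.2
      fun a ha => PGrp.isMulCommutative_iff_mem.1 inferInstance a ha y h'))
      (h4 ▸ pow_orderOf_eq_one y) fun t ht => ?_⟩
    have h6 := h5 (g * t * g⁻¹) (Transfer.conj_mem_conj_smul (mem_centralizer_iff.2 fun a ha =>
      PGrp.isMulCommutative_iff_mem.1 inferInstance a (zpowers_le.2 hz ha) t ht))
    refine (MulAut.conj g).injective ?_
    simp only [MulAut.conj_apply]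
    rw [← conj_inv, ← h6]
    group

end Cfsg.Agent.S4082
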