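import Mathlib
import Cfsg.Statements.S4083
import Cfsg.Agent.Lib.Transfer.PByCyclic
import Cfsg.Agent.Lib.Schur.CyclicSylow
import Cfsg.Agent.Lib.Coprime.Generate

set_option autoImplicit false
open Cfsg

namespace Cfsg.Agent.S4083

open Subgroup
open scoped Pointwise commutatorElement

theorem main {G : Type*} [Group G] [Finite G] {S T : Subgroup G} {m : ℕ}
    (e : S ≃* DihedralGroup m)
    (hK : ∀ K : Subgroup G, K ≤ S → Nat.card K = 4 → (∀ k ∈ K, k ^ 2 = 1) →
      centralizer (K : Set G) = K) (hTS : T ≤ S) (hT : IsPGroup 2 T) {y : G}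
    (hy : y ∈ normalizer (T : Set G)) (hyp : (orderOf y).Coprime 2) :
    IsCyclic ↥(T ⊔ zpowers y) ∨ (∃ n : ℕ, Nonempty (↥(T ⊔ zpowers y) ≃* DihedralGroup (2 ^ n))) ∨
      Nonempty (↥(T ⊔ zpowers y) ≃* alternatingGroup (Fin 4)) := by
  by_cases hTc : IsCyclic T
  · exact Or.inl (Transfer.isCyclic_sup_zpowers hT hTc
      (Transfer.mem_centralizer_of_isCyclic_two hT hTc hy hyp) hyp)
  right
  obtain ⟨R, hRS, hRc, hRm, hSm, hR⟩ := Transfer.exists_rotation e
  have hT0c : IsCyclic (T ⊓ R : Subgroup G) := isCyclic_of_le inf_le_right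
  obtain ⟨t, ht, htR⟩ : ∃ t ∈ T, t ∉ R := by
    by_contra h
    push Not at h
    exact hTc (isCyclic_of_le h)
  obtain ⟨ht2, htinv⟩ := hR t (hTS ht) htR
  have ht2' : t ^ 2 = 1 := ht2 ▸ pow_orderOf_eq_one t
  have hidx : R.relIndex S = 2 := by
    have := Core.card_mul_relIndex_of_le hRS
    rw [hSm, hRm, mul_comm 2] at this
    exact Nat.eq_of_mul_eq_mul_left (hRm ▸ Nat.card_pos) this
  have hmul : ∀ a ∈ T, ∀ b ∈ T, a ∉ R → b ∉ R → a * b ∈ R := fun a ha b hb haR hbR =>
    (mul_mem_iff_of_index_two (H := R.subgroupOf S) hidx (a := ⟨a, hTS ha⟩)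
      (b := ⟨b, hTS hb⟩)).2 (iff_of_false haR hbR)
  have hTeq : T ⊓ R ⊔ zpowers t = T := by
    refine le_antisymm (sup_le inf_le_left (zpowers_le.2 ht)) fun a ha => ?_
    by_cases haR : a ∈ R
    · exact mem_sup_left ⟨ha, haR⟩
    · have h1 : a * t ∈ T ⊓ R := ⟨T.mul_mem ha ht, hmul a ha t ht haR htR⟩
      simpa using (T ⊓ R ⊔ zpowers t).mul_mem (mem_sup_left h1)
        (mem_sup_right (inv_mem (mem_zpowers t)))
  have hT0 : T ⊓ R ≠ ⊥ := fun h0 => hTc (by rw [← hTeq, h0, bot_sup_eq]; infer_instance)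
  obtain ⟨z, hz, hzo⟩ := PGrp.exists_orderOf_eq_prime_of_ne_bot (hT.to_le inf_le_left) hT0
  have hz2 : z ^ 2 = 1 := hzo ▸ pow_orderOf_eq_one z
  have hzt : Commute z t := by
    have h1 := htinv z hz.2
    rw [inv_eq_of_mul_eq_one_right (show z * z = 1 by rw [← sq, hz2])] at h1
    exact (mul_inv_eq_iff_eq_mul.1 h1).symm
  obtain ⟨hKe, hKc⟩ := PGrp.elemAb_sq_of_commute hzo ht2' (fun h => htR (zpowers_le.2 hz.2 h)) hzt
  have hKT : zpowers z ⊔ zpowers t ≤ T := sup_le (zpowers_le.2 hz.1) (zpowers_le.2 ht)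
  have hK' := hK _ (hKT.trans hTS) hKc (PGrp.isElementaryAbelian_iff.1 hKe).2
  have hodd : ∀ w : G, (orderOf w).Coprime 2 → w ∈ centralizer (T : Set G) → w = 1 :=
    fun w hw hwc => Transfer.eq_one_of_coprime_of_mem_isPGroup hT hw
      (hKT (hK' ▸ centralizer_le hKT hwc))
  by_cases hyc : y ∈ centralizer (T : Set G)
  · left
    obtain ⟨n, hn⟩ := (hT.to_le (inf_le_left : T ⊓ R ≤ T)).exists_card_eq
    rw [hodd y hyp hyc, zpowers_one_eq_bot, sup_bot_eq]
    have := Transfer.dihedral_of_inverts hT0c (fun h => htR h.2) ht2' fun a ha => htinv a ha.2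
    rw [hTeq, hn] at this
    exact ⟨n, this⟩
  right
  obtain ⟨s, hs⟩ := (Subgroup.isCyclic_iff_exists_zpowers_eq_top _).1 hT0c
  have hsm : s ∈ T ⊓ R := hs ▸ mem_zpowers s
  have hcop : (Nat.card (zpowers y)).Coprime 2 := by rwa [Nat.card_zpowers]
  by_cases hs2 : orderOf s = 2
  · have hTcard : Nat.card T = 2 ^ 2 := by
      rw [← hTeq, PGrp.card_sup_zpowers (p := 2) (H := T ⊓ R) (y := t)
        (Transfer.mem_normalizer_of_conj_mem fun a ha => by
        rw [htinv a ha.2]; exact inv_mem ha) (fun h => htR h.2) (by rw [ht2']; exact one_mem _),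
        ← hs, Nat.card_zpowers, hs2]
      rfl
    have hKT' : zpowers z ⊔ zpowers t = T := Core.eq_of_le_of_card_eq hKT (hKc.trans hTcard.symm)
    rw [hKT', PGrp.isElementaryAbelian_iff_subtype] at hKe
    have hA := PGrp.card_mulAut_of_elemAb hKe.1 hKe.2 hTcard
    let f := Coprime.conjHom (zpowers_le.2 hy)
    have h3 : orderOf (f ⟨y, mem_zpowers y⟩) ∣ 3 := by
      have h1 := orderOf_dvd_natCard (f ⟨y, mem_zpowers y⟩)
      rw [hA, show ∏ i ∈ Finset.range 2, (2 ^ 2 - 2 ^ i) = 2 * 3 by decide] at h1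
      refine Nat.Coprime.dvd_of_dvd_mul_left ?_ h1
      refine Nat.Coprime.coprime_dvd_left (orderOf_map_dvd f _) ?_
      rwa [← orderOf_coe]
    have h4 : y ^ 3 = 1 := by
      refine hodd _ (Nat.Coprime.coprime_dvd_left (orderOf_pow_dvd 3) hyp) ?_
      refine (Coprime.mem_ker_conjHom (zpowers_le.2 hy) (⟨y, mem_zpowers y⟩ ^ 3)).1 ?_
      rw [MonoidHom.mem_ker, map_pow]
      exact orderOf_dvd_iff_pow_eq_one.1 h3
    have hy1 : y ≠ 1 := by rintro rfl; exact hyc (one_mem _)
    have : Fact (Nat.Prime 3) := ⟨by norm_num⟩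
    have hyT : y ∉ T := fun h => hy1 (Transfer.eq_one_of_coprime_of_mem_isPGroup hT hyp h)
    refine Transfer.nonempty_mulEquiv_alternating_four (Y := (zpowers y).subgroupOf _) ?_ ?_ ?_
    · rw [PGrp.card_sup_zpowers (p := 3) hy hyT (by rw [h4]; exact one_mem _), hTcard]
      rfl
    · rw [Core.card_subgroupOf_of_le le_sup_right, Nat.card_zpowers, orderOf_eq_prime h4 hy1]
    · intro hn
      refine hyc (mem_centralizer_iff.2 fun a ha => ?_)
      have h5 : a * y * a⁻¹ ∈ zpowers y := hn.conj_mem ⟨y, mem_sup_right (mem_zpowers y)⟩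
        (mem_zpowers y) ⟨a, mem_sup_left ha⟩
      have h6 : a * y * a⁻¹ * y⁻¹ ∈ T ⊓ zpowers y := by
        refine ⟨?_, (zpowers y).mul_mem h5 (inv_mem (mem_zpowers y))⟩
        simpa [mul_assoc] using T.mul_mem ha ((mem_normalizer_iff.1 hy _).1 (inv_mem ha))
      rw [PGrp.inf_zpowers_eq_bot hyT h4, mem_bot] at h6
      exact commutatorElement_eq_one_iff_mul_comm.1 h6
  · exfalso
    have hconj : ∀ a ∈ T, a ∈ R → ∀ w ∈ zpowers y, w * a * w⁻¹ ∈ R := by
      intro a ha haR w hw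
      have h1 : w * s * w⁻¹ ∈ R := by
        by_contra h
        have := (hR _ (hTS ((mem_normalizer_iff.1 (zpowers_le.2 hy hw) s).1 hsm.1)) h).1
        rw [← MulAut.conj_apply, MulEquiv.orderOf_eq] at this
        exact hs2 this
      obtain ⟨k, rfl⟩ : a ∈ zpowers s := hs ▸ ⟨ha, haR⟩
      simp only
      rw [← conj_zpow]
      exact zpow_mem h1 k
    have hyn : y ∈ normalizer ((T ⊓ R : Subgroup G) : Set G) :=
      Transfer.mem_normalizer_of_conj_mem fun a ha =>
        ⟨(mem_normalizer_iff.1 hy a).1 ha.1, hconj a ha.1 ha.2 y (mem_zpowers y)⟩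
    have hyc' := Transfer.mem_centralizer_of_isCyclic_two (hT.to_le inf_le_left) hT0c hyn hyp
    refine hyc (zpowers_le.1 (Coprime.le_centralizer_of_commutator_le (N := T ⊓ R) ?_
      (zpowers_le.2 hyc') (Coprime.coprime_card_of_isPGroup hcop (hT.to_le inf_le_left))))
    refine commutator_le.2 fun a ha w hw => ?_
    have h1 : w * a⁻¹ * w⁻¹ ∈ T := (mem_normalizer_iff.1 (zpowers_le.2 hy hw) _).1 (inv_mem ha)
    have h2 : ⁅a, w⁆ = a * (w * a⁻¹ * w⁻¹) := by rw [commutatorElement_def]; group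
    rw [h2]
    refine ⟨T.mul_mem ha h1, ?_⟩
    by_cases haR : a ∈ R
    · exact R.mul_mem haR (hconj _ (inv_mem ha) (inv_mem haR) w hw)
    · refine hmul a ha _ h1 haR fun h => haR ?_
      simpa [mul_assoc] using inv_mem (hconj _ h1 h w⁻¹ (inv_mem hw))

/-- Let G be a finite group with Sylow 2-subgroup P. Every subgroup H of G whose Sylow 2-subgroup is normal in H with cyclic quotient is cyclic, dihedral of 2-power order, or isomorphic to the alternating group of degree 4, if and only if either P is cyclic, or P is dihedral (of order at least 4) and every elementary abelian subgroup K of order 4 of P satisfies C_G(K) = K. -/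
theorem result {G : Type*} [Group G] [Finite G] (P : Sylow 2 G) :
    (∀ H : Subgroup G, (∀ S : Sylow 2 ↥H, (S : Subgroup ↥H).Normal) →
        (∀ (S : Sylow 2 ↥H) [(S : Subgroup ↥H).Normal], IsCyclic (↥H ⧸ (S : Subgroup ↥H))) →
        IsCyclic H ∨ (∃ n : ℕ, Nonempty (H ≃* DihedralGroup (2 ^ n))) ∨ Nonempty (H ≃* alternatingGroup (Fin 4))) ↔
    (IsCyclic P ∨
      ((∃ n : ℕ, 1 ≤ n ∧ Nonempty ((P : Subgroup G) ≃* DihedralGroup (2 ^ n))) ∧
        ∀ K : Subgroup G, K ≤ P → Nat.card K = 4 → (∀ k ∈ K, k ^ 2 = 1) → Subgroup.centralizer (K : Set G) = K)) := by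
  constructor
  · intro h
    obtain ⟨h1, h2⟩ := Transfer.pByCyclic_of_mem_normalizer P.2 (one_mem _)
    rw [zpowers_one_eq_bot, sup_bot_eq] at h1 h2
    by_cases hPc : IsCyclic P
    · exact Or.inl hPc
    refine Or.inr ⟨?_, fun K hKP hK hK2 => ?_⟩
    · rcases h _ h1 h2 with hc | ⟨n, ⟨e⟩⟩ | ⟨⟨e⟩⟩
      · exact absurd hc hPc
      · refine ⟨n, Nat.one_le_iff_ne_zero.2 ?_, ⟨e⟩⟩
        rintro rfl
        exact hPc (e.isCyclic.2 (DihedralGroup.isCyclic_iff.2 rfl))
      · obtain ⟨k, hk⟩ := P.2.exists_card_eq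
        rw [Nat.card_congr e.toEquiv, alternatingGroup.card_of_card_eq_four (by simp)] at hk
        have : 3 ∣ 2 ^ k := hk ▸ (by norm_num)
        exact absurd (Nat.prime_three.dvd_of_dvd_pow this) (by norm_num)
    · have hKc : IsMulCommutative K := IsPGroup.isMulCommutative_of_card_eq_prime_sq (p := 2) hK
      refine le_antisymm (fun c hc => ?_) (le_centralizer_iff_isMulCommutative.2 hKc)
      obtain ⟨h3, h4⟩ := Transfer.pByCyclic_of_mem_normalizer (P.2.to_le hKP)
        (centralizer_le_normalizer _ hc)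
      have hab : IsMulCommutative ↥(K ⊔ zpowers c) := PGrp.isMulCommutative_sup hKc inferInstance
        (le_centralizer_iff.1 (zpowers_le.2 hc))
      rcases h _ h3 h4 with hc | ⟨n, ⟨e⟩⟩ | ⟨⟨e⟩⟩
      · exact absurd (isCyclic_of_le (le_sup_left : K ≤ K ⊔ zpowers c))
          (PGrp.not_isCyclic_of_elemAb (p := 2) hK2 (by omega))
      · have h5 : IsMulCommutative (DihedralGroup (2 ^ n)) := ⟨⟨fun a b => by
          obtain ⟨a, rfl⟩ := e.surjective a
          obtain ⟨b, rfl⟩ := e.surjective b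
          rw [← map_mul, ← map_mul, hab.is_comm.comm]⟩⟩
        have h6 : Nat.card ↥(K ⊔ zpowers c) ≤ Nat.card K := by
          rw [Nat.card_congr e.toEquiv, DihedralGroup.nat_card, hK]
          rcases DihedralGroup.commutative_iff.1 h5 with h | h <;> omega
        rw [eq_of_le_of_card_ge le_sup_left h6]
        exact mem_sup_right (mem_zpowers c)
      · exfalso
        have h5 : ∀ a b : alternatingGroup (Fin 4), a * b = b * a := fun a b => by
          obtain ⟨a, rfl⟩ := e.surjective a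
          obtain ⟨b, rfl⟩ := e.surjective b
          rw [← map_mul, ← map_mul, hab.is_comm.comm]
        have := congrArg Subtype.val (h5 ⟨Equiv.swap 0 1 * Equiv.swap 1 2, Equiv.Perm.mem_alternatingGroup.2 (by decide)⟩
          ⟨Equiv.swap 1 2 * Equiv.swap 2 3, Equiv.Perm.mem_alternatingGroup.2 (by decide)⟩)
        revert this
        decide
  · rintro h H h1 h2
    obtain ⟨T, y, hT, hy, hyp, rfl⟩ := Transfer.exists_of_pByCyclic h1 h2
    rcases h with h | ⟨⟨n, -, ⟨e⟩⟩, hK⟩
    · have hTc := Schur.isCyclic_of_isPGroup_of_sylow P h hT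
      exact Or.inl (Transfer.isCyclic_sup_zpowers hT hTc
        (Transfer.mem_centralizer_of_isCyclic_two hT hTc hy hyp) hyp)
    obtain ⟨g, -, hg⟩ := (Transfer.isSylowIn_top P).exists_conj_le hT le_top
    refine main (S := MulAut.conj g⁻¹ • (P : Subgroup G))
      ((equivSMul (MulAut.conj g⁻¹) (P : Subgroup G)).symm.trans e) (fun K hKS hK4 hK2 => ?_) ?_
      hT hy hyp
    · have := hK (MulAut.conj g • K) (by
        simpa only [Transfer.conj_smul_conj_inv_smul] using Transfer.conj_smul_mono g hKS)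
        (by rw [Transfer.card_conj_smul, hK4]) (fun k hk => by
          have := hK2 _ (Transfer.mem_conj_smul_iff.1 hk)
          have h3 : g⁻¹ * k * g = g⁻¹ * k * g⁻¹⁻¹ := by rw [inv_inv]
          rw [h3, conj_pow] at this
          exact conj_eq_one_iff.1 this)
      rw [Transfer.centralizer_conj_smul] at this
      exact MulAction.injective _ this
    · simpa only [Transfer.conj_inv_smul_conj_smul] using Transfer.conj_smul_mono g⁻¹ hg

end Cfsg.Agent.S4083
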