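import Cfsg.Statements.S4084
import Mathlib

set_option autoImplicit false
open Cfsg

namespace Cfsg.Agent.S4084

open Subgroup

theorem aux {G H : Type*} [Group G] [Finite G] [Group H] [Finite H] (e : G ≃ H)
    (he : ∀ x y : G, Commute x y ↔ Commute (e x) (e y))
    {p q : ℕ} (hp : p.Prime) (hq : q.Prime) (hpq : p ≠ q) (g : G) (hg : orderOf g = p * q) :
    ∃ h : H, orderOf h = p * q := by
  have := Fact.mk hp
  have := Fact.mk hq
  let A := centralizer (centralizer ({g} : Set G) : Set G)
  let B := centralizer (centralizer ({e g} : Set H) : Set H)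
  have hAB : ∀ x, x ∈ A ↔ e x ∈ B := fun x => by
    simp only [A, B, mem_centralizer_iff, SetLike.mem_coe, Set.mem_singleton_iff, forall_eq]
    constructor
    · intro h y hy
      obtain ⟨y, rfl⟩ := e.surjective y
      exact (he y x).mp (h y ((he g y).mpr hy))
    · intro h y hy
      exact (he y x).mpr (h _ ((he g y).mp hy))
  have hcard : Nat.card A = Nat.card B := Nat.card_congr (e.subtypeEquiv hAB)
  have hgA : g ∈ A := fun y hy => (mem_centralizer_singleton_iff.mp hy)
  have hdvd : p * q ∣ Nat.card B := by
    rw [← hcard, ← hg]; exact orderOf_dvd_natCard A hgA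
  obtain ⟨a, ha⟩ := exists_prime_orderOf_dvd_card' p ((Dvd.intro _ rfl).trans hdvd)
  obtain ⟨b, hb⟩ := exists_prime_orderOf_dvd_card' q ((Dvd.intro_left _ rfl).trans hdvd)
  have hB : B ≤ centralizer ({e g} : Set H) :=
    centralizer_le (Set.singleton_subset_iff.mpr (mem_centralizer_singleton_iff.mpr rfl))
  have hab : Commute (a : H) b := b.2 a (hB a.2)
  refine ⟨a * b, ?_⟩
  rw [hab.orderOf_mul_eq_mul_orderOf_of_coprime, orderOf_coe, orderOf_coe, ha, hb]
  rw [orderOf_coe, orderOf_coe, ha, hb]
  exact (Nat.coprime_primes hp hq).mpr hpq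

/-- Let G and H be finite groups whose commuting graphs are isomorphic: there is a bijection e : G → H with x, y commuting exactly when e(x), e(y) commute. Then G and H have the same prime graph: for distinct primes p, q, G has an element of order pq if and only if H does (and #G = #H, so the prime divisors agree). -/
theorem result {G H : Type*} [Group G] [Finite G] [Group H] [Finite H] (e : G ≃ H)
    (he : ∀ x y : G, Commute x y ↔ Commute (e x) (e y))
    {p q : ℕ} (hp : p.Prime) (hq : q.Prime) (hpq : p ≠ q) :
    (∃ g : G, orderOf g = p * q) ↔ (∃ h : H, orderOf h = p * q) := by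
  refine ⟨fun ⟨g, hg⟩ => aux e he hp hq hpq g hg, fun ⟨h, hh⟩ => aux e.symm ?_ hp hq hpq h hh⟩
  intro x y
  rw [he]; simp

end Cfsg.Agent.S4084
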