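import Cfsg.Statements.S4085
import Mathlib
import Cfsg.Agent.Lib.PGrp.Count
import Cfsg.Agent.Lib.Cls.Basic

set_option autoImplicit false
open Cfsg

namespace Cfsg.Agent.S4085

open Subgroup
open scoped IsMulCommutative

def cmp (a b : ℕ) : Prop := a ∣ b ∨ b ∣ a

theorem numN {n d d' : ℕ} (hn : n ≠ 0) (h1 : d ∣ d') (h2 : d' ∣ n) (h3 : d ≠ d') (h4 : d' ≠ n)
    (h : ∀ c, c ∣ n → (cmp c d ↔ cmp c d')) : ∃ t k, t.Prime ∧ n = t ^ k := by
  obtain ⟨a, rfl⟩ := h1
  obtain ⟨b, rfl⟩ := h2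
  have hd : d ≠ 0 := by rintro rfl; simp at hn
  have ha : a ≠ 0 := by rintro rfl; simp at hn
  have hb : b ≠ 0 := by rintro rfl; simp at hn
  obtain ⟨t, ht, hta⟩ := Nat.exists_prime_and_dvd (n := a) (by rintro rfl; simp at h3)
  have key1 : ∀ r, r.Prime → r ∣ b → ∀ u, u.Prime → u ∣ a → u = r := fun r hr hrb u hu hua => by
    obtain ⟨k, m, hm, hk⟩ := Nat.exists_eq_pow_mul_and_not_dvd (mul_ne_zero ha hb) r hr.ne_one
    rcases (h (d * r ^ k) ⟨m, by rw [mul_assoc, hk, mul_assoc]⟩).mp (Or.inr (dvd_mul_right _ _))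
      with h5 | h5
    · obtain ⟨c, rfl⟩ := Nat.dvd_of_mul_dvd_mul_left (Nat.pos_of_ne_zero hd) h5
      rw [mul_assoc] at hk
      exact absurd (Nat.eq_of_mul_eq_mul_left (pow_pos hr.pos _) hk ▸ hrb.mul_left c) hm
    · exact (Nat.prime_dvd_prime_iff_eq hu hr).mp (hu.dvd_of_dvd_pow
        (hua.trans (Nat.dvd_of_mul_dvd_mul_left (Nat.pos_of_ne_zero hd) h5)))
  have key2 : ∀ s, s.Prime → s ∣ d → t = s := fun s hs hsd => by
    obtain ⟨k, m, hm, hk⟩ := Nat.exists_eq_pow_mul_and_not_dvd (mul_ne_zero hd ha) s hs.ne_one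
    have h5 : m ∣ d * a := ⟨s ^ k, by rw [hk, mul_comm]⟩
    rcases (h m (h5.mul_right b)).mpr (Or.inl h5) with h6 | h6
    · obtain ⟨c, rfl⟩ := h6
      have hm0 : m ≠ 0 := by rintro rfl; simp at hd
      rw [mul_assoc, mul_comm _ m] at hk
      exact (Nat.prime_dvd_prime_iff_eq ht hs).mp (ht.dvd_of_dvd_pow
        (Nat.eq_of_mul_eq_mul_left (Nat.pos_of_ne_zero hm0) hk ▸ hta.mul_left c))
    · exact absurd (hsd.trans h6) hm
  obtain ⟨r, hr, hrb⟩ := Nat.exists_prime_and_dvd (n := b) (by rintro rfl; simp at h4)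
  obtain ⟨k, hk⟩ := Cls.eq_pow_of_forall_prime_eq (p := t) hn fun u hu h5 => by
    rw [hu.dvd_mul, hu.dvd_mul] at h5
    rcases h5 with (h5 | h5) | h5
    · exact (key2 u hu h5).symm
    · exact (key1 r hr hrb u hu h5).trans (key1 r hr hrb t ht hta).symm
    · exact (key1 u hu h5 t ht hta).symm
  exact ⟨t, k, ht, hk⟩

theorem cmp_of_pow {t k a b : ℕ} (ht : t.Prime) (ha : a ∣ t ^ k) (hb : b ∣ t ^ k) : cmp a b := by
  obtain ⟨i, -, rfl⟩ := (Nat.dvd_prime_pow ht).mp ha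
  obtain ⟨j, -, rfl⟩ := (Nat.dvd_prime_pow ht).mp hb
  exact (le_total i j).imp (pow_dvd_pow _) (pow_dvd_pow _)

theorem numP {n a b : ℕ} (ha : a ∣ n) (hab : ¬ cmp a b)
    (h : ∀ c, c ∣ n → (cmp c a ∧ cmp c b) ∨ c = a ∨ c = b) :
    (∀ c, c ∣ a → ¬ c ∣ b → c = a) ∧ ∃ r k, r.Prime ∧ a = r ^ k := by
  obtain ⟨r, k, hr, h1, h2⟩ : ∃ r k, r.Prime ∧ r ^ k ∣ a ∧ ¬ r ^ k ∣ b := by
    by_contra h1
    push Not at h1
    exact hab (Or.inl ((Nat.dvd_iff_prime_pow_dvd_dvd _ _).mpr h1))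
  have key : ∀ c, c ∣ a → ¬ c ∣ b → c = a := fun c h1 h2 => by
    rcases h c (h1.trans ha) with ⟨-, h3 | h3⟩ | h3 | h3
    · exact absurd h3 h2
    · exact absurd (Or.inr (h3.trans h1)) hab
    · exact h3
    · exact absurd (h3 ▸ dvd_rfl) h2
  exact ⟨key, r, k, hr, (key _ h1 h2).symm⟩

theorem numM {n a b : ℕ} (ha : a ∣ n) (hb : b ∣ n) (hab : ¬ cmp a b)
    (h : ∀ c, c ∣ n → (cmp c a ∧ cmp c b) ∨ c = a ∨ c = b) : a.Prime := by
  obtain ⟨key, r, k, hr, rfl⟩ := numP ha hab h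
  obtain ⟨-, s, j, hs, rfl⟩ := numP hb (fun h => hab h.symm) fun c hc => by
    have := h c hc; tauto
  have hk : k ≠ 0 := by rintro rfl; exact hab (Or.inl (by simp))
  refine key r (dvd_pow_self r hk) (fun h1 => hab ?_) ▸ hr
  obtain rfl := (Nat.prime_dvd_prime_iff_eq hr hs).mp (hr.dvd_of_dvd_pow h1)
  exact (le_total k j).imp (pow_dvd_pow _) (pow_dvd_pow _)

variable {G : Type*} [Group G] [Finite G]

def adj (x y : G) : Prop := x ∈ zpowers y ∨ y ∈ zpowers x

def tw (x : G) : Set G := {y | ∀ z, adj z y ↔ adj z x}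

theorem mem_zpowers_of_dvd {a x y : G} (hx : x ∈ zpowers a) (hy : y ∈ zpowers a)
    (h : orderOf x ∣ orderOf y) : x ∈ zpowers y := by
  have h1 : zpowers (⟨y, hy⟩ : zpowers a) = (powMonoidHom (orderOf y)).ker := by
    refine eq_of_le_of_card_ge (zpowers_le.mpr (Subtype.ext (pow_orderOf_eq_one y))) ?_
    rw [IsCyclic.card_powMonoidHom_ker, Nat.card_zpowers, Nat.card_zpowers, orderOf_mk]
    exact Nat.gcd_le_right _ (orderOf_pos y)
  obtain ⟨k, hk⟩ : (⟨x, hx⟩ : zpowers a) ∈ zpowers (⟨y, hy⟩ : zpowers a) :=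
    h1 ▸ Subtype.ext (orderOf_dvd_iff_pow_eq_one.mp h)
  exact ⟨k, congrArg Subtype.val hk⟩

theorem adj_iff {a x y : G} (hx : x ∈ zpowers a) (hy : y ∈ zpowers a) :
    adj x y ↔ cmp (orderOf x) (orderOf y) :=
  ⟨Or.imp orderOf_dvd_of_mem_zpowers orderOf_dvd_of_mem_zpowers,
    Or.imp (mem_zpowers_of_dvd hx hy) (mem_zpowers_of_dvd hy hx)⟩

theorem exists_order {a : G} {c : ℕ} (h : c ∣ orderOf a) : ∃ x ∈ zpowers a, orderOf x = c :=
  ⟨a ^ (orderOf a / c), pow_mem (mem_zpowers a) _, orderOf_pow_orderOf_div (orderOf_pos a).ne' h⟩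

theorem pow_of_tw {a x y : G} (hx : x ∈ zpowers a) (hy : y ∈ zpowers a) (hx' : a ∉ zpowers x)
    (hy' : a ∉ zpowers y) (h : ∀ z ∈ zpowers a, adj z x ↔ adj z y) (hne : orderOf x ≠ orderOf y) :
    ∃ t k, t.Prime ∧ orderOf a = t ^ k := by
  have h1 : ∀ c, c ∣ orderOf a → (cmp c (orderOf x) ↔ cmp c (orderOf y)) := fun c hc => by
    obtain ⟨z, hz, rfl⟩ := exists_order hc
    rw [← adj_iff hz hx, ← adj_iff hz hy, h z hz]
  rcases (h1 _ (orderOf_dvd_of_mem_zpowers hx)).mp (Or.inl dvd_rfl) with h2 | h2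
  · exact numN (orderOf_pos a).ne' h2 (orderOf_dvd_of_mem_zpowers hy) hne
      (fun h => hy' (mem_zpowers_of_dvd (mem_zpowers a) hy h.symm.dvd)) h1
  · exact numN (orderOf_pos a).ne' h2 (orderOf_dvd_of_mem_zpowers hx) hne.symm
      (fun h => hx' (mem_zpowers_of_dvd (mem_zpowers a) hx h.symm.dvd)) fun c hc => (h1 c hc).symm

omit [Finite G] in
theorem mem_tw_of_zpowers_eq {x y : G} (h : zpowers y = zpowers x) : y ∈ tw x := fun z => by
  rw [adj, adj, h, ← zpowers_le (g := y), h, zpowers_le]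

theorem totient_le_ncard_tw (x : G) : (orderOf x).totient ≤ (tw x).ncard := by
  rw [← Nat.card_zpowers, ← PGrp.card_generators]
  exact Set.ncard_le_ncard (s := {y | zpowers y = zpowers x}) fun _ => mem_tw_of_zpowers_eq

theorem ncard_le_totient {a y : G} (hy : y ∈ zpowers a)
    (h : ∀ x ∈ tw y, x ∈ zpowers a ∧ a ∉ zpowers x) : (tw y).ncard ≤ (orderOf a).totient := by
  have hyy : y ∈ tw y := fun _ => Iff.rfl
  by_cases h1 : ∀ x ∈ tw y, orderOf x = orderOf y
  · refine le_trans ?_ (Nat.le_of_dvd (Nat.totient_pos.mpr (orderOf_pos a))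
      (Nat.totient_dvd_of_dvd (orderOf_dvd_of_mem_zpowers hy)))
    rw [← Nat.card_zpowers, ← PGrp.card_generators]
    exact Set.ncard_le_ncard (t := {x | zpowers x = zpowers y}) fun x hx => le_antisymm
      (zpowers_le.mpr (mem_zpowers_of_dvd (h x hx).1 hy (h1 x hx).dvd))
      (zpowers_le.mpr (mem_zpowers_of_dvd hy (h x hx).1 (h1 x hx).symm.dvd))
  · push Not at h1
    obtain ⟨x, hx, h1⟩ := h1
    obtain ⟨t, k, ht, hk⟩ := pow_of_tw (h x hx).1 hy (h x hx).2 (h y hyy).2 (fun z _ => hx z) h1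
    rcases k with _ | k
    · rw [pow_zero, orderOf_eq_one_iff] at hk
      exact absurd (hk ▸ one_mem _) (h y hyy).2
    obtain ⟨w, hw, hwo⟩ := exists_order (a := a) (c := t ^ k) (hk ▸ pow_dvd_pow _ k.le_succ)
    have h2 : (tw y).ncard ≤ (zpowers w : Set G).ncard := Set.ncard_le_ncard fun z hz => by
      refine mem_zpowers_of_dvd (h z hz).1 hw ?_
      obtain ⟨j, hj, h3⟩ := (Nat.dvd_prime_pow ht).mp (hk ▸ orderOf_dvd_of_mem_zpowers (h z hz).1)
      rw [h3, hwo]
      refine pow_dvd_pow _ (Nat.lt_succ_iff.mp (lt_of_le_of_ne hj ?_))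
      rintro rfl
      exact (h z hz).2 (mem_zpowers_of_dvd (mem_zpowers a) (h z hz).1 (by rw [hk, h3]))
    refine h2.trans ?_
    rw [show (zpowers w : Set G).ncard = orderOf w from Nat.card_zpowers w, hwo, hk,
      Nat.totient_prime_pow_succ ht]
    exact Nat.le_mul_of_pos_right _ (by have := ht.two_le; omega)

theorem ncard_tw_prime {y a b : G} (ha : a ∈ zpowers y) (hb : b ∈ zpowers y)
    (hr : (orderOf a).Prime) (hs : (orderOf b).Prime) (hab : ¬ adj a b) :
    (tw a).ncard = orderOf a - 1 := by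
  have hne : orderOf a ≠ orderOf b := fun h => hab ((adj_iff ha hb).mpr (Or.inl h.dvd))
  obtain ⟨w, hw, hwo⟩ := exists_order (a := y) (Nat.Coprime.mul_dvd_of_dvd_of_dvd
    ((Nat.coprime_primes hr hs).mpr hne) (orderOf_dvd_of_mem_zpowers ha)
    (orderOf_dvd_of_mem_zpowers hb))
  have haw := mem_zpowers_of_dvd ha hw (hwo ▸ dvd_mul_right _ _)
  have hbw := mem_zpowers_of_dvd hb hw (hwo ▸ dvd_mul_left _ _)
  refine le_antisymm ?_ (Nat.totient_prime hr ▸ totient_le_ncard_tw a)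
  rw [← show (zpowers a : Set G).ncard = orderOf a from Nat.card_zpowers a,
    ← Set.ncard_sdiff_singleton_of_mem (s := (zpowers a : Set G)) (one_mem _)]
  refine Set.ncard_le_ncard fun x hx => ?_
  have h1 : b ∉ zpowers x := fun h => hab ((hx b).mp (Or.inl h)).symm
  have h2 : x ∈ zpowers w :=
    ((hx w).mpr (Or.inr haw)).resolve_left fun h => h1 (zpowers_le.mpr h hbw)
  refine ⟨?_, fun h => hab ((hx b).mp (Or.inr (h ▸ one_mem _))).symm⟩
  refine ((hx a).mpr (Or.inl (mem_zpowers a))).elim (fun h => ?_) id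
  obtain ⟨c, hc⟩ := orderOf_dvd_of_mem_zpowers h
  have h3 := orderOf_dvd_of_mem_zpowers h2
  rw [hwo, hc] at h3
  rcases (Nat.dvd_prime hs).mp (Nat.dvd_of_mul_dvd_mul_left hr.pos h3) with rfl | rfl
  · exact mem_zpowers_of_dvd h2 haw (by rw [hc, mul_one])
  · exact absurd (mem_zpowers_of_dvd hbw h2 (hc ▸ dvd_mul_left _ _)) h1

theorem main {g a b : G} {p q : ℕ} (hp : p.Prime) (hq : q.Prime) (hpq : p ≠ q) (hg : g ≠ 1)
    (hag : adj a g) (hbg : adj b g) (hab : ¬ adj a b) (ha : (tw a).ncard = p - 1)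
    (hb : (tw b).ncard = q - 1) (hgt : (p - 1) * (q - 1) ≤ (tw g).ncard)
    (h : ∀ z, adj z g → (adj z a ∧ adj z b) ∨ z ∈ tw a ∨ z ∈ tw b) :
    ∃ x : G, orderOf x = p * q := by
  have hpp : ∀ x : G, a ∈ zpowers x → b ∈ zpowers x → ¬ ∃ t k, t.Prime ∧ orderOf x = t ^ k := by
    rintro x h1 h2 ⟨t, k, ht, hk⟩
    exact hab ((adj_iff h1 h2).mpr (cmp_of_pow ht (hk ▸ orderOf_dvd_of_mem_zpowers h1)
      (hk ▸ orderOf_dvd_of_mem_zpowers h2)))
  rcases hag with hag | hag <;> rcases hbg with hbg | hbg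
  · have hab' : ¬ cmp (orderOf a) (orderOf b) := fun h => hab ((adj_iff hag hbg).mpr h)
    have hga : g ∉ zpowers a := fun h => hab (Or.inr (zpowers_le.mpr h hbg))
    have hgb : g ∉ zpowers b := fun h => hab (Or.inl (zpowers_le.mpr h hag))
    have h1 : ∀ c, c ∣ orderOf g → (cmp c (orderOf a) ∧ cmp c (orderOf b)) ∨
        c = orderOf a ∨ c = orderOf b := fun c hc => by
      obtain ⟨z, hz, rfl⟩ := exists_order hc
      rcases h z (Or.inl hz) with h2 | h2 | h2
      · exact Or.inl ⟨(adj_iff hz hag).mp h2.1, (adj_iff hz hbg).mp h2.2⟩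
      · refine Or.inr (Or.inl (by_contra fun h3 => hpp g hag hbg (pow_of_tw hz hag (fun h4 => ?_)
          hga (fun w _ => h2 w) h3)))
        exact hab ((h2 b).mp (Or.inl (zpowers_le.mpr h4 hbg))).symm
      · refine Or.inr (Or.inr (by_contra fun h3 => hpp g hag hbg (pow_of_tw hz hbg (fun h4 => ?_)
          hgb (fun w _ => h2 w) h3)))
        exact hab ((h2 a).mp (Or.inl (zpowers_le.mpr h4 hag)))
    have hr := numM (orderOf_dvd_of_mem_zpowers hag)
      (orderOf_dvd_of_mem_zpowers hbg) hab' h1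
    have hs := numM (orderOf_dvd_of_mem_zpowers hbg)
      (orderOf_dvd_of_mem_zpowers hag) (fun h => hab' h.symm) fun c hc => by
        have := h1 c hc; tauto
    have h2 := ncard_tw_prime hag hbg hr hs hab
    have h3 := ncard_tw_prime hbg hag hs hr fun h => hab h.symm
    have h4 : orderOf a = p := by have := hr.pos; have := hp.pos; omega
    have h5 : orderOf b = q := by have := hs.pos; have := hq.pos; omega
    obtain ⟨w, -, hw⟩ := exists_order (a := g) (Nat.Coprime.mul_dvd_of_dvd_of_dvd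
      ((Nat.coprime_primes hp hq).mpr hpq) (h4 ▸ orderOf_dvd_of_mem_zpowers hag)
      (h5 ▸ orderOf_dvd_of_mem_zpowers hbg))
    exact ⟨w, hw⟩
  · exact absurd (Or.inl (zpowers_le.mpr hbg hag)) hab
  · exact absurd (Or.inr (zpowers_le.mpr hag hbg)) hab
  · exfalso
    have h1 : ∀ x ∈ tw g, x ∈ zpowers a ∧ x ∈ zpowers b := fun x hx => by
      rcases (hx a).mpr (Or.inr hag) with h1 | h1 <;> rcases (hx b).mpr (Or.inr hbg) with h2 | h2
      · have h3 : g ∈ zpowers x := zpowers_le.mpr h1 hag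
        refine absurd (pow_of_tw (one_mem _) h3 (fun h4 => ?_) (fun h4 => ?_) (fun z hz => ?_) ?_)
          (hpp x h1 h2)
        · rw [zpowers_one_eq_bot, mem_bot] at h4
          exact hg (by simpa [h4] using h3)
        · exact hab (Or.inr (zpowers_le.mpr hag (zpowers_le.mpr h4 h2)))
        · exact iff_of_true (Or.inr (one_mem _)) ((hx z).mp (Or.inl hz))
        · exact fun h => hg (orderOf_eq_one_iff.mp (h.symm.trans orderOf_one))
      · exact absurd (Or.inl (zpowers_le.mpr h2 h1)) hab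
      · exact absurd (Or.inr (zpowers_le.mpr h1 h2)) hab
      · exact ⟨h1, h2⟩
    have h2 := (ncard_le_totient hag fun x hx => ⟨(h1 x hx).1, fun h =>
      hab (Or.inl (zpowers_le.mpr (h1 x hx).2 h))⟩).trans (totient_le_ncard_tw a)
    have h3 := (ncard_le_totient hbg fun x hx => ⟨(h1 x hx).2, fun h =>
      hab (Or.inr (zpowers_le.mpr (h1 x hx).1 h))⟩).trans (totient_le_ncard_tw b)
    have := hp.two_le
    have := hq.two_le
    obtain ⟨p, rfl⟩ : ∃ k, p = k + 2 := ⟨p - 2, by omega⟩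
    obtain ⟨q, rfl⟩ : ∃ k, q = k + 2 := ⟨q - 2, by omega⟩
    simp only [Nat.add_succ_sub_one] at *
    have : p = 0 := by nlinarith
    have : q = 0 := by nlinarith
    omega

theorem transfer {H : Type*} [Group H] [Finite H] (e : G ≃ H)
    (he : ∀ x y : G, adj x y ↔ adj (e x) (e y)) {p q : ℕ} (hp : p.Prime) (hq : q.Prime)
    (hpq : p ≠ q) (h : ∃ g : G, orderOf g = p * q) : ∃ h : H, orderOf h = p * q := by
  obtain ⟨g, hg, hg1⟩ : ∃ g : G, orderOf g = p * q ∧ e g ≠ 1 := by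
    obtain ⟨g, hg⟩ := h
    by_contra h
    push Not at h
    have h1 : g⁻¹ = g := e.injective ((h _ (by rw [orderOf_inv, hg])).trans (h g hg).symm)
    have h2 : p * q ∣ 2 := hg ▸ orderOf_dvd_of_pow_eq_one (by
      rw [sq]; nth_rw 1 [← h1]; exact inv_mul_cancel g)
    have := Nat.le_of_dvd two_pos h2
    nlinarith [hp.two_le, hq.two_le]
  obtain ⟨a, ha, hao⟩ := exists_order (a := g) (hg ▸ dvd_mul_right p q)
  obtain ⟨b, hb, hbo⟩ := exists_order (a := g) (hg ▸ dvd_mul_left q p)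
  have hab : ¬ adj a b := fun h => by
    rcases (adj_iff ha hb).mp h with h | h <;> rw [hao, hbo] at h
    · exact hpq ((Nat.prime_dvd_prime_iff_eq hp hq).mp h)
    · exact hpq ((Nat.prime_dvd_prime_iff_eq hq hp).mp h).symm
  have htw : ∀ x y, y ∈ tw x ↔ e y ∈ tw (e x) := fun x y =>
    ⟨fun h z => by rw [← e.apply_symm_apply z, ← he, ← he, h], fun h z => by rw [he, he, h]⟩
  have hc : ∀ x, (tw (e x)).ncard = (tw x).ncard := fun x =>
    (Set.ncard_congr (fun y _ => e y) (fun y hy => (htw x y).mp hy) (fun _ _ _ _ h => e.injective h)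
      fun y hy => ⟨e.symm y, (htw _ _).mpr (by simpa using hy), by simp⟩).symm
  refine main hp hq hpq hg1 ((he a g).mp (Or.inl ha)) ((he b g).mp (Or.inl hb))
    (fun h => hab ((he a b).mpr h)) ?_ ?_ ?_ fun z hz => ?_
  · rw [hc, ncard_tw_prime ha hb (hao ▸ hp) (hbo ▸ hq) hab, hao]
  · rw [hc, ncard_tw_prime hb ha (hbo ▸ hq) (hao ▸ hp) fun h => hab h.symm, hbo]
  · rw [hc, ← Nat.totient_prime hp, ← Nat.totient_prime hq,
      ← Nat.totient_mul ((Nat.coprime_primes hp hq).mpr hpq), ← hg]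
    exact totient_le_ncard_tw g
  · obtain ⟨z, rfl⟩ := e.surjective z
    rw [← he, ← he, ← htw, ← htw]
    rcases (he z g).mpr hz with h | h
    · have h1 := orderOf_dvd_of_mem_zpowers h
      rw [hg] at h1
      obtain ⟨u, v, hu, hv, h2⟩ := exists_dvd_and_dvd_of_dvd_mul h1
      rcases (Nat.dvd_prime hp).mp hu with hu | hu <;>
        rcases (Nat.dvd_prime hq).mp hv with hv | hv <;> rw [hu, hv] at h2
      · exact Or.inl ⟨(adj_iff h ha).mpr (Or.inl (by simp [h2])),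
          (adj_iff h hb).mpr (Or.inl (by simp [h2]))⟩
      · exact Or.inr (Or.inr (mem_tw_of_zpowers_eq (le_antisymm
          (zpowers_le.mpr (mem_zpowers_of_dvd h hb (by simp [h2, hbo])))
          (zpowers_le.mpr (mem_zpowers_of_dvd hb h (by simp [h2, hbo]))))))
      · exact Or.inr (Or.inl (mem_tw_of_zpowers_eq (le_antisymm
          (zpowers_le.mpr (mem_zpowers_of_dvd h ha (by simp [h2, hao])))
          (zpowers_le.mpr (mem_zpowers_of_dvd ha h (by simp [h2, hao]))))))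
      · exact Or.inl ⟨(adj_iff h ha).mpr (Or.inr (by simp [h2, hao])),
          (adj_iff h hb).mpr (Or.inr (by simp [h2, hbo]))⟩
    · exact Or.inl ⟨Or.inr (zpowers_le.mpr h ha), Or.inr (zpowers_le.mpr h hb)⟩

/-- Let G and H be finite groups whose power graphs are isomorphic: there is a bijection e : G → H such that, for all x, y, one of x, y is a power of the other exactly when one of e(x), e(y) is a power of the other. Then G and H have the same prime graph: for distinct primes p, q, G has an element of order pq if and only if H does. -/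
theorem result {G H : Type*} [Group G] [Finite G] [Group H] [Finite H] (e : G ≃ H)
    (he : ∀ x y : G, (x ∈ Subgroup.zpowers y ∨ y ∈ Subgroup.zpowers x) ↔
      (e x ∈ Subgroup.zpowers (e y) ∨ e y ∈ Subgroup.zpowers (e x)))
    {p q : ℕ} (hp : p.Prime) (hq : q.Prime) (hpq : p ≠ q) :
    (∃ g : G, orderOf g = p * q) ↔ (∃ h : H, orderOf h = p * q) := by
  exact ⟨transfer e he hp hq hpq, transfer e.symm (fun x y => by
    simpa [adj] using (he (e.symm x) (e.symm y)).symm) hp hq hpq⟩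

end Cfsg.Agent.S4085
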