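import Cfsg.Statements.S4086
import Mathlib

set_option autoImplicit false
open Cfsg

namespace Cfsg.Agent.S4086

theorem aux {G : Type*} [Group G] [Finite G] (g x y : G) (hx : x ∈ Subgroup.zpowers g)
    (hy : y ∈ Subgroup.zpowers g) (h : orderOf x ∣ orderOf y) : x ∈ Subgroup.zpowers y := by
  let x' : Subgroup.zpowers g := ⟨x, hx⟩
  let y' : Subgroup.zpowers g := ⟨y, hy⟩
  have h1 : orderOf x' ∣ orderOf y' := by
    simpa [x', y', ← Subgroup.orderOf_coe] using h
  have h2 : x' ∈ Subgroup.zpowers y' := by
    classical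
    have : Fintype (Subgroup.zpowers g) := Fintype.ofFinite _
    have h3 := IsCyclic.card_pow_eq_one_le (α := Subgroup.zpowers g) (orderOf_pos y')
    have h4 : (Subgroup.zpowers y' : Set (Subgroup.zpowers g)).toFinset =
        Finset.univ.filter (fun a : Subgroup.zpowers g => a ^ orderOf y' = 1) := by
      apply Finset.eq_of_subset_of_card_le
      · intro z hz
        simp only [Set.mem_toFinset, SetLike.mem_coe] at hz
        simp only [Finset.mem_filter, Finset.mem_univ, true_and]
        exact orderOf_dvd_iff_pow_eq_one.1 (orderOf_dvd_of_mem_zpowers hz)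
      · refine h3.trans (le_of_eq ?_)
        rw [Set.toFinset_card, ← Nat.card_eq_fintype_card]
        exact (Nat.card_zpowers y').symm
    have h5 : x' ∈ (Subgroup.zpowers y' : Set (Subgroup.zpowers g)).toFinset := by
      rw [h4]
      simp only [Finset.mem_filter, Finset.mem_univ, true_and]
      exact orderOf_dvd_iff_pow_eq_one.1 h1
    simpa using h5
  obtain ⟨n, hn⟩ := h2
  exact ⟨n, by simpa [x', y'] using congrArg Subtype.val hn⟩


/-- For a finite group G the following are equivalent: every non-identity element has prime-power order; whenever two elements generate a cyclic subgroup, one of them is a power of the other (the enhanced power graph of G coincides with its power graph). -/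
theorem result {G : Type*} [Group G] [Finite G] :
    (∀ g : G, g ≠ 1 → IsPrimePow (orderOf g)) ↔
    (∀ x y : G, IsCyclic ↥(Subgroup.closure ({x, y} : Set G)) → (x ∈ Subgroup.zpowers y ∨ y ∈ Subgroup.zpowers x)) := by
  constructor
  · intro h x y hc
    obtain ⟨g, hg⟩ := hc.exists_generator
    have hx : x ∈ Subgroup.closure ({x, y} : Set G) := Subgroup.subset_closure (by simp)
    have hy : y ∈ Subgroup.closure ({x, y} : Set G) := Subgroup.subset_closure (by simp)
    have hx' : x ∈ Subgroup.zpowers (g : G) := by
      obtain ⟨n, hn⟩ := hg ⟨x, hx⟩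
      exact ⟨n, by simpa using congrArg Subtype.val hn⟩
    have hy' : y ∈ Subgroup.zpowers (g : G) := by
      obtain ⟨n, hn⟩ := hg ⟨y, hy⟩
      exact ⟨n, by simpa using congrArg Subtype.val hn⟩
    by_cases h1 : (g : G) = 1
    · left
      rw [h1] at hx'
      simp at hx'
      simp [hx']
    obtain ⟨p, k, hp, hk, hpk⟩ := (isPrimePow_nat_iff _).1 (h g h1)
    have hox : orderOf x ∣ p ^ k := hpk ▸ orderOf_dvd_of_mem_zpowers hx'
    have hoy : orderOf y ∣ p ^ k := hpk ▸ orderOf_dvd_of_mem_zpowers hy'
    obtain ⟨i, -, hi⟩ := (Nat.dvd_prime_pow hp).1 hox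
    obtain ⟨j, -, hj⟩ := (Nat.dvd_prime_pow hp).1 hoy
    rcases le_total i j with hij | hij
    · left
      exact aux (g : G) x y hx' hy' (by rw [hi, hj]; exact pow_dvd_pow _ hij)
    · right
      exact aux (g : G) y x hy' hx' (by rw [hi, hj]; exact pow_dvd_pow _ hij)
  · intro h g hg
    have ho : orderOf g ≠ 1 := by simpa using hg
    have h0 : orderOf g ≠ 0 := (orderOf_pos g).ne'
    by_contra hnp
    -- two distinct primes dividing the order
    obtain ⟨p, hp, hpd⟩ := Nat.exists_prime_and_dvd ho
    have : ∃ q, q.Prime ∧ q ∣ orderOf g ∧ q ≠ p := by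
      by_contra hq
      push Not at hq
      apply hnp
      rw [isPrimePow_iff_unique_prime_dvd]
      exact ⟨p, ⟨hp, hpd⟩, fun q hq' => hq q hq'.1 hq'.2⟩
    obtain ⟨q, hq, hqd, hqp⟩ := this
    have hx : orderOf (g ^ (orderOf g / p)) = p := orderOf_pow_orderOf_div h0 hpd
    have hy : orderOf (g ^ (orderOf g / q)) = q := orderOf_pow_orderOf_div h0 hqd
    have hc : IsCyclic ↥(Subgroup.closure ({g ^ (orderOf g / p), g ^ (orderOf g / q)} : Set G)) := by
      apply Subgroup.isCyclic_of_le (H' := Subgroup.zpowers g)
      rw [Subgroup.closure_le]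
      intro z hz
      simp only [Set.mem_insert_iff, Set.mem_singleton_iff] at hz
      rcases hz with rfl | rfl <;> exact Subgroup.npow_mem_zpowers _ _
    rcases h _ _ hc with h1 | h1
    · have := orderOf_dvd_of_mem_zpowers h1
      rw [hx, hy] at this
      exact hqp ((Nat.prime_dvd_prime_iff_eq hp hq).1 this).symm
    · have := orderOf_dvd_of_mem_zpowers h1
      rw [hx, hy] at this
      exact hqp ((Nat.prime_dvd_prime_iff_eq hq hp).1 this)

end Cfsg.Agent.S4086
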