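import Cfsg.Statements.S4088
import Mathlib
import Cfsg.Agent.Lib.Core.Subnormalizer

set_option autoImplicit false
open Cfsg

namespace Cfsg.Agent.S4088

open Subgroup Cfsg.Agent.Core Cfsg.Agent.Coprime

/-- Let G be a finite group, p a prime dividing the order of G, H a p-subgroup of G and P a Sylow p-subgroup of G. Call the subnormalizer of H the set of elements g of G such that H is subnormal in the subgroup generated by H and g. Then the number of elements of the subnormalizer of H equals the number of Sylow p-subgroups of G containing H times the order of N_G(P), and also equals the number of conjugates of H contained in P times the order of N_G(H). -/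
theorem result {G : Type*} [Group G] [Finite G] (p : ℕ) [Fact p.Prime]
    (hp : p ∣ Nat.card G) (H : Subgroup G) (hH : IsPGroup p H) (P : Sylow p G) :
    Nat.card {g : G // ((H).subgroupOf (H ⊔ Subgroup.zpowers g)).IsSubnormal} =
        Nat.card {Q : Sylow p G // H ≤ (Q : Subgroup G)} * Nat.card (Subgroup.normalizer ((P : Subgroup G) : Set G)) ∧
    Nat.card {g : G // ((H).subgroupOf (H ⊔ Subgroup.zpowers g)).IsSubnormal} =
        Nat.card {K : Subgroup G // K ≤ (P : Subgroup G) ∧ ∃ g : G, K = H.map (MulAut.conj g).toMonoidHom} *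
          Nat.card (Subgroup.normalizer (H : Set G)) := by
  have h1 : Nat.card {g : G // ((H).subgroupOf (H ⊔ Subgroup.zpowers g)).IsSubnormal} =
      Nat.card {x : G // H ≤ (P : Subgroup G).map (MulAut.conj x).toMonoidHom} := by
    rw [← card_subnormalizer]
    exact Nat.card_congr (Equiv.subtypeEquivRight fun g => isSubnormal_sup_zpowers_iff hH)
  rw [h1]
  constructor
  · have h2 := card_isSylowIn_mul_card (isSylowIn_top P) (fun Q => H ≤ Q)
    simp only [top_inf_eq, mem_top, true_and] at h2
    rw [← h2]
    congr 1
    refine (Nat.card_congr (Equiv.ofBijective (fun Q => ⟨Q.1, Q.2, isSylowIn_top Q.1⟩) ⟨?_, ?_⟩)).symm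
    · intro Q R h
      exact Subtype.ext (Sylow.ext (congrArg Subtype.val h))
    · rintro ⟨B, hB, hB'⟩
      obtain ⟨S, rfl⟩ := hB'.exists_sylow_top
      exact ⟨⟨S, hB⟩, rfl⟩
  · have h2 := card_conj_prop ⊤ H (fun K => K ≤ P)
    simp only [top_inf_eq, mem_top, true_and] at h2
    rw [← h2]
    refine Nat.card_congr ((Equiv.inv G).subtypeEquiv fun x => ?_)
    rw [map_conj_le_iff, Equiv.inv_apply, inv_inv]

end Cfsg.Agent.S4088
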