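import Cfsg.Statements.S4089
import Mathlib
import Cfsg.Agent.Lib.Core.Subnormalizer

set_option autoImplicit false
open Cfsg

namespace Cfsg.Agent.S4089

open Subgroup Cfsg.Agent.Core Cfsg.Agent.Coprime

theorem exists_radical {G : Type*} [Group G] [Finite G] {p : ℕ} {R : Subgroup G}
    (hR : IsPGroup p R) {g : G} (hg : g ∈ normalizer (R : Set G)) :
    ∃ S : Subgroup G, R ≤ S ∧ pCoreOf p (normalizer (S : Set G)) = S ∧
      g ∈ normalizer (S : Set G) := by
  obtain ⟨S, hRS, ⟨h1, h2⟩, hmax⟩ := exists_maximal_ge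
    (P := fun S => IsPGroup p S ∧ g ∈ normalizer (S : Set G)) ⟨hR, hg⟩
  exact ⟨S, hRS, hmax _ ⟨isPGroup_pCoreOf _, le_normalizer_pCoreOf _ h2⟩
    (le_pCoreOf le_normalizer le_rfl h1), h2⟩

/-- Let G be a finite group, p a prime and H a p-subgroup of G. Then the set of elements g of G such that H is subnormal in the subgroup generated by H and g is the union of the normalizers N_G(R) over the subgroups R of G containing H with R = O_p(N_G(R)); and this set does not change when H is replaced by the intersection of all Sylow p-subgroups of G containing H. -/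
theorem result {G : Type*} [Group G] [Finite G] (p : ℕ) [Fact p.Prime]
    (H : Subgroup G) (hH : IsPGroup p H) :
    {g : G | ((H).subgroupOf (H ⊔ Subgroup.zpowers g)).IsSubnormal} =
      {g : G | ∃ R : Subgroup G, H ≤ R ∧ (Cfsg.pCore p (Subgroup.normalizer (R : Set G))).map (Subgroup.normalizer (R : Set G)).subtype = R ∧ g ∈ Subgroup.normalizer (R : Set G)} ∧
    ∀ g : G, (((H).subgroupOf (H ⊔ Subgroup.zpowers g)).IsSubnormal ↔
      (((sInf {K : Subgroup G | ∃ Q : Sylow p G, H ≤ (Q : Subgroup G) ∧ K = (Q : Subgroup G)})).subgroupOf ((sInf {K : Subgroup G | ∃ Q : Sylow p G, H ≤ (Q : Subgroup G) ∧ K = (Q : Subgroup G)}) ⊔ Subgroup.zpowers g)).IsSubnormal) := by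
  constructor
  · ext g
    simp only [Set.mem_setOf_eq, isSubnormal_sup_zpowers_iff hH]
    constructor
    · rintro ⟨R, h1, h2, h3⟩
      obtain ⟨S, h4, h5, h6⟩ := exists_radical h2 h3
      exact ⟨S, h1.trans h4, h5, h6⟩
    · rintro ⟨R, h1, h2, h3⟩
      exact ⟨R, h1, h2 ▸ isPGroup_pCoreOf _, h3⟩
  · intro g
    set D := sInf {K : Subgroup G | ∃ Q : Sylow p G, H ≤ (Q : Subgroup G) ∧ K = (Q : Subgroup G)}
    have hDQ : ∀ Q : Sylow p G, H ≤ Q → D ≤ Q := fun Q hQ => sInf_le ⟨Q, hQ, rfl⟩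
    have hHD : H ≤ D := le_sInf (by rintro _ ⟨Q, hQ, rfl⟩; exact hQ)
    obtain ⟨Q₀, hQ₀⟩ := hH.exists_le_sylow
    have hD : IsPGroup p D := Q₀.isPGroup'.to_le (hDQ Q₀ hQ₀)
    rw [isSubnormal_sup_zpowers_iff hH, isSubnormal_sup_zpowers_iff hD]
    refine ⟨?_, fun ⟨R, h1, h2⟩ => ⟨R, hHD.trans h1, h2⟩⟩
    rintro ⟨R, h1, h2, h3⟩
    obtain ⟨S, h4, h5, h6⟩ := exists_radical h2 h3
    have hS : IsPGroup p S := h5 ▸ isPGroup_pCoreOf _
    refine ⟨S, ?_, hS, h6⟩
    -- every Sylow subgroup containing `S` contains `D ⊔ S`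
    have hE : ∀ Q : Sylow p G, S ≤ Q → D ⊔ S ≤ Q := fun Q hQ =>
      sup_le (hDQ Q (h1.trans (h4.trans hQ))) hQ
    obtain ⟨Q₁, hQ₁⟩ := hS.exists_le_sylow
    by_contra hne
    have hlt : S < D ⊔ S := right_lt_sup.2 hne
    have h7 := lt_inf_normalizer_of_isNilpotent (Q₁.isPGroup'.to_le (hE Q₁ hQ₁)).isNilpotent hlt
    refine not_le_of_gt h7 fun x hx => ?_
    rw [← h5]
    refine ⟨⟨x, hx.2⟩, mem_pCore_iff_forall_sylow.2 fun T => ?_, rfl⟩
    have hT := isSylowIn_map_subtype T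
    obtain ⟨Q, hQ⟩ := hT.2.1.exists_le_sylow
    have hST : S ≤ (T : Subgroup _).map (normalizer (S : Set G)).subtype :=
      hT.le_of_le_normalizer le_normalizer hS hT.1
    have h8 : (Q : Subgroup G) ⊓ normalizer (S : Set G) = _ :=
      hT.eq_of_le (le_inf hQ hT.1) inf_le_right (Q.isPGroup'.to_le inf_le_left)
    obtain ⟨y, hy, hyx⟩ := h8.le ⟨hE Q (hST.trans hQ) hx.1, hx.2⟩
    obtain rfl : y = ⟨x, hx.2⟩ := Subtype.ext hyx
    exact hy

end Cfsg.Agent.S4089
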