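import Cfsg.Statements.S4090
import Mathlib
import Cfsg.Agent.Lib.Core.Subnormalizer2

set_option autoImplicit false
open scoped BigOperators
open Cfsg

namespace Cfsg.Agent.S4090

open Subgroup Cfsg.Agent.Core Cfsg.Agent.Coprime

theorem aux {G : Type*} [Group G] [Finite G] (p : ℕ) [Fact p.Prime]
    (H : Subgroup G) (hH : IsPGroup p H) (P : Sylow p G) :
    ∀ (n : ℕ) (M : Fin (n + 1) → Subgroup G) (_ : M (Fin.last n) = ⊤) (_ : Monotone M)
    (_ : ∀ i, (M i).Normal)
    (_ : ∀ i : Fin n, (∃ m : ℕ, (M i.castSucc).relIndex (M i.succ) = p ^ m) ∨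
      ((M i.castSucc).relIndex (M i.succ)).Coprime p),
    Nat.card {x : G // H.map (MulAut.conj x).toMonoidHom ≤ (P : Subgroup G) ⊔ M 0} =
      Nat.card ↥((P : Subgroup G) ⊔ M 0) *
        ∏ i : Fin n, (if ((M i.castSucc).relIndex (M i.succ)).Coprime p then
          Nat.card {u : G // u ∈ M i.succ ∧ ∀ h ∈ H, h * u * h⁻¹ * u⁻¹ ∈ M i.castSucc} /
            Nat.card (M i.castSucc) else 1) := by
  intro n
  induction n with
  | zero =>
    intro M hn _ _ _
    have : M 0 = ⊤ := hn
    simp [this]
  | succ n ih =>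
    intro M hn hmono hnormal hfac
    have h1 := ih (fun i => M i.succ) (by simpa using hn)
      (hmono.comp Fin.strictMono_succ.monotone) (fun i => hnormal _) fun i => by
        simpa only [Fin.succ_castSucc] using hfac i.succ
    simp only [Fin.succ_castSucc] at h1
    rw [Fin.prod_univ_succ, Fin.castSucc_zero]
    have hle : M 0 ≤ M (Fin.succ 0) := hmono (Fin.zero_le _)
    split_ifs with hc
    · have h2 := card_conj_le_sup_mul' P hle hc hH
      have h3 : Nat.card {u : G // u ∈ M (Fin.succ 0) ∧ ∀ h ∈ H, h * u * h⁻¹ * u⁻¹ ∈ M 0} /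
          Nat.card (M 0) = (M 0).relIndex (secCentralizer H (M (Fin.succ 0)) (M 0)) := by
        refine Nat.div_eq_of_eq_mul_right Nat.card_pos ?_
        rw [← Nat.card_congr (Equiv.subtypeEquivRight fun u => mem_secCentralizer),
          ← relIndex_bot_left, ← relIndex_bot_left]
        exact (relIndex_mul_relIndex _ _ _ bot_le (le_secCentralizer H hle)).symm
      rw [h3]
      refine Nat.eq_of_mul_eq_mul_right
        (Nat.card_pos (α := ↥((P : Subgroup G) ⊔ M (Fin.succ 0)))) ?_
      rw [h2, h1]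
      ring
    · obtain ⟨m, hm⟩ := (hfac 0).resolve_right hc
      rw [sylow_sup_eq_of_relIndex_pow P hle hm, h1, one_mul]

/-- Let G be a finite p-solvable group, H a p-subgroup of G and P a Sylow p-subgroup, and fix a chain of normal subgroups 1 = M₀ ≤ M₁ ≤ ⋯ ≤ Mₙ = G of G each of whose factors is a p-group or a p'-group. Then the number of elements g of G such that H is subnormal in the subgroup generated by H and g equals the order of P times the product, over the factors Mᵢ₊₁/Mᵢ of order prime to p, of the order of the centralizer of H in Mᵢ₊₁/Mᵢ (counted as the number of u ∈ Mᵢ₊₁ with [h, u] ∈ Mᵢ for all h ∈ H, divided by the order of Mᵢ). -/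
theorem result {G : Type*} [Group G] [Finite G] (p : ℕ) [Fact p.Prime]
    (hG : Cfsg.IsPSolvable p G) (H : Subgroup G) (hH : IsPGroup p H) (P : Sylow p G)
    (n : ℕ) (M : Fin (n + 1) → Subgroup G) (h0 : M 0 = ⊥) (hn : M (Fin.last n) = ⊤) (hmono : Monotone M)
    (hnormal : ∀ i, (M i).Normal)
    (hfac : ∀ i : Fin n, (∃ m : ℕ, (M i.castSucc).relIndex (M i.succ) = p ^ m) ∨ ((M i.castSucc).relIndex (M i.succ)).Coprime p) :
    Nat.card {g : G // ((H).subgroupOf (H ⊔ Subgroup.zpowers g)).IsSubnormal} =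
      Nat.card (P : Subgroup G) *
        ∏ i : Fin n, (if ((M i.castSucc).relIndex (M i.succ)).Coprime p then
          Nat.card {u : G // u ∈ M i.succ ∧ ∀ h ∈ H, h * u * h⁻¹ * u⁻¹ ∈ M i.castSucc} / Nat.card (M i.castSucc)
          else 1) := by
  have h1 := aux p H hH P n M hn hmono hnormal hfac
  rw [h0, sup_bot_eq] at h1
  rw [← h1, Nat.card_congr (Equiv.subtypeEquivRight fun g => isSubnormal_sup_zpowers_iff hH),
    card_subnormalizer H P]
  refine Nat.card_congr ((Equiv.inv G).subtypeEquiv fun x => ?_)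
  rw [map_conj_le_iff, Equiv.inv_apply, inv_inv]

end Cfsg.Agent.S4090
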