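import Cfsg.Statements.S4091
import Mathlib
import Cfsg.Agent.Lib.Core.FixCount
import Cfsg.Agent.Lib.Core.Subnormalizer2

set_option autoImplicit false
open Cfsg

namespace Cfsg.Agent.S4091

open Subgroup Cfsg.Agent.Core Cfsg.Agent.Coprime

variable {G : Type*} [Group G] [Finite G] {p : ℕ} [Fact p.Prime]

/-- number of `g` conjugating `H` into `P V` -/
noncomputable def cnt (P : Sylow p G) (V H : Subgroup G) : ℕ :=
  Nat.card {x : G // H.map (MulAut.conj x).toMonoidHom ≤ (P : Subgroup G) ⊔ V}

theorem cnt_pos (P : Sylow p G) (V : Subgroup G) {H : Subgroup G} (hH : IsPGroup p H) :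
    0 < cnt P V H := by
  obtain ⟨g, -, hg⟩ := (isSylowIn_top P).exists_le_conj le_top hH
  have : Nonempty {x : G // H.map (MulAut.conj x).toMonoidHom ≤ (P : Subgroup G) ⊔ V} :=
    ⟨⟨g⁻¹, le_trans (by rw [map_conj_le_iff, inv_inv]; exact hg) le_sup_left⟩⟩
  exact Nat.card_pos

theorem card_secCentralizer (P : Subgroup G) {U V : Subgroup G} [U.Normal] [V.Normal] (h : V ≤ U)
    [(U.map (QuotientGroup.mk' V)).Normal] (B : Subgroup P) :
    Nat.card (secCentralizer (B.map P.subtype) U V) = Nat.card V * Nat.card (fixedSub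
      ((MulAut.conjNormal (H := U.map (QuotientGroup.mk' V))).comp
        ((QuotientGroup.mk' V).comp P.subtype)) B) := by
  have h1 : secCentralizer (B.map P.subtype) U V = (Subgroup.map (U.map (QuotientGroup.mk' V)).subtype
      (fixedSub ((MulAut.conjNormal (H := U.map (QuotientGroup.mk' V))).comp
        ((QuotientGroup.mk' V).comp P.subtype)) B)).comap (QuotientGroup.mk' V) := by
    ext u
    simp only [secCentralizer, mem_inf, mem_comap, mem_centralizer_iff]
    constructor
    · rintro ⟨h1, h2⟩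
      refine ⟨⟨_, mem_map_of_mem _ h1⟩, fun b hb => Subtype.ext ?_, rfl⟩
      have := h2 _ (mem_map_of_mem _ (mem_map_of_mem P.subtype hb))
      exact mul_inv_eq_iff_eq_mul.2 this
    · rintro ⟨⟨n, hn⟩, h1, rfl : n = _⟩
      refine ⟨?_, ?_⟩
      · have : u ∈ (U.map (QuotientGroup.mk' V)).comap (QuotientGroup.mk' V) := hn
        rwa [comap_map_mk, sup_eq_left.2 h] at this
      · rintro _ ⟨_, ⟨b, hb, rfl⟩, rfl⟩
        exact mul_inv_eq_iff_eq_mul.1 (congrArg Subtype.val (h1 b hb))
  rw [h1, card_comap_mk, card_map_of_injective (subtype_injective _), mul_comm]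

theorem ineq (hG : IsPSolvable p G) (P : Sylow p G) [Fintype (P : Subgroup G)] (V : Subgroup G) (hV : V.Normal) :
    p * ∑ x : (P : Subgroup G), Real.log (cnt P V (zpowers (x : G))) + Nat.card (P : Subgroup G) * Real.log (cnt P V P) ≤
      Nat.card (P : Subgroup G) * Real.log (Nat.card G) + p * (Nat.card (P : Subgroup G) * Real.log (cnt P V P)) := by
  induction V using subgroup_induction_gt with
  | h V ih =>
    by_cases ht : V = ⊤
    · have : ∀ H, cnt P V H = Nat.card G := fun H => by simp [cnt, ht]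
      simp only [this, Finset.sum_const, Finset.card_univ, nsmul_eq_mul,
        Nat.card_eq_fintype_card (α := (P : Subgroup G))]
      linarith
    obtain ⟨U, hU, hVU, h⟩ := (isPSolvable_iff.1 hG).exists_normal_gt V ht
    have h1 := ih U hVU hU
    rcases h with h | h
    · obtain ⟨m, hm⟩ := (isPiNum_singleton_iff Fact.out index_ne_zero_of_finite).1 h
      simpa only [cnt, sylow_sup_eq_of_relIndex_pow P hVU.le hm] using h1
    · have hc := (isPiNum_compl_singleton_iff Fact.out).1 h
      have : (U.map (QuotientGroup.mk' V)).Normal :=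
        Normal.map inferInstance _ (QuotientGroup.mk'_surjective V)
      set φ := (MulAut.conjNormal (H := U.map (QuotientGroup.mk' V))).comp
        ((QuotientGroup.mk' V).comp (P : Subgroup G).subtype) with hφ
      have h2 := sum_log_card_fixedSub_le P.isPGroup' _ φ (by
        rw [card_map_mk_eq_relIndex]
        exact (Nat.Prime.coprime_iff_not_dvd Fact.out).1 hc.symm)
      have h3 : ∀ B : Subgroup P, Real.log (cnt P V (B.map (P : Subgroup G).subtype)) =
          Real.log (cnt P U (B.map (P : Subgroup G).subtype)) +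
            Real.log (Nat.card (fixedSub φ B)) -
              Real.log (Nat.card (U.map (QuotientGroup.mk' V))) := by
        intro B
        have hB : IsPGroup p (B.map (P : Subgroup G).subtype) :=
          P.isPGroup'.to_le (map_subtype_le B)
        have h4 := card_conj_le_sup_mul P hVU.le hc hB
        have h5 : Nat.card U = Nat.card V * Nat.card (U.map (QuotientGroup.mk' V)) := by
          rw [card_map_mk_eq_relIndex, ← relIndex_bot_left, ← relIndex_bot_left,
            relIndex_mul_relIndex _ _ _ bot_le hVU.le]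
        rw [card_secCentralizer _ hVU.le, h5, mul_left_comm, mul_left_comm _ (Nat.card V)] at h4
        have h6 := Nat.eq_of_mul_eq_mul_left Nat.card_pos h4
        rw [eq_sub_iff_add_eq, ← Real.log_mul (Nat.cast_ne_zero.2 (cnt_pos P V hB).ne')
          (Nat.cast_ne_zero.2 Nat.card_pos.ne'), ← Real.log_mul
          (Nat.cast_ne_zero.2 (cnt_pos P U hB).ne') (Nat.cast_ne_zero.2 Nat.card_pos.ne'),
          ← Nat.cast_mul, ← Nat.cast_mul]
        exact congrArg (fun n : ℕ => Real.log n) h6
      have h4 : ∀ x : (P : Subgroup G), Real.log (cnt P V (zpowers (x : G))) =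
          Real.log (cnt P U (zpowers (x : G))) + Real.log (Nat.card (fixedSub φ (zpowers x))) -
              Real.log (Nat.card (U.map (QuotientGroup.mk' V))) := fun x => by
        have h7 := h3 (zpowers x)
        rwa [MonoidHom.map_zpowers] at h7
      have h5 := h3 ⊤
      rw [← MonoidHom.range_eq_map, range_subtype] at h5
      simp only [h4, h5, Finset.sum_sub_distrib, Finset.sum_add_distrib, Finset.sum_const,
        Finset.card_univ, nsmul_eq_mul, ← Nat.card_eq_fintype_card (α := (P : Subgroup G))]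
      linarith

theorem card_pelts (P : Sylow p G) [Fintype (P : Subgroup G)] :
    (Nat.card {g : G // ∃ k : ℕ, orderOf g = p ^ k} : ℝ) =
      ∑ x : (P : Subgroup G), (Nat.card G : ℝ) / cnt P ⊥ (zpowers (x : G)) := by
  classical
  have := Fintype.ofFinite G
  have hc : ∀ y : G, (cnt P ⊥ (zpowers y) : ℝ) =
      ∑ g : G, if g * y * g⁻¹ ∈ (P : Subgroup G) then 1 else 0 := by
    intro y
    rw [Finset.sum_boole, cnt, Nat.card_eq_fintype_card, Fintype.card_subtype]
    simp only [sup_bot_eq, MonoidHom.map_zpowers, zpowers_le]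
    rfl
  have hconj : ∀ g y : G, cnt P ⊥ (zpowers (g * y * g⁻¹)) = cnt P ⊥ (zpowers y) := by
    intro g y
    refine Nat.card_congr ((Equiv.mulRight g).subtypeEquiv fun x => ?_)
    rw [Equiv.coe_mulRight, ← Core.map_conj_map_conj, MonoidHom.map_zpowers (x := y)]
    rfl
  have h1 : ∀ y : G, (if ∃ k : ℕ, orderOf y = p ^ k then (1 : ℝ) else 0) =
      ∑ g : G, if g * y * g⁻¹ ∈ (P : Subgroup G) then
        (cnt P ⊥ (zpowers (g * y * g⁻¹)) : ℝ)⁻¹ else 0 := by
    intro y
    split_ifs with h
    · obtain ⟨k, hk⟩ := h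
      have h2 : (cnt P ⊥ (zpowers y) : ℝ) ≠ 0 :=
        Nat.cast_ne_zero.2 (cnt_pos P ⊥ (isPGroup_zpowers_of_orderOf hk)).ne'
      rw [← mul_inv_cancel₀ h2]
      nth_rewrite 1 [hc]
      simp only [hconj, Finset.sum_mul, ite_mul, one_mul, zero_mul]
    · refine (Finset.sum_eq_zero fun g _ => if_neg fun hg => h ?_).symm
      have := exists_orderOf_eq_pow_of_mem P.isPGroup' hg
      rwa [← MulAut.conj_apply, MulEquiv.orderOf_eq] at this
  rw [Nat.card_eq_fintype_card, Fintype.card_subtype, ← Finset.sum_boole,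
    Finset.sum_congr rfl fun y _ => h1 y, Finset.sum_comm]
  have h2 : ∀ g : G, (∑ y : G, if g * y * g⁻¹ ∈ (P : Subgroup G) then
      (cnt P ⊥ (zpowers (g * y * g⁻¹)) : ℝ)⁻¹ else 0) =
      ∑ x : (P : Subgroup G), (cnt P ⊥ (zpowers (x : G)) : ℝ)⁻¹ := by
    intro g
    rw [← Finset.sum_subtype (Finset.univ.filter (· ∈ (P : Subgroup G))) (by simp)
      fun x => (cnt P ⊥ (zpowers x) : ℝ)⁻¹, Finset.sum_filter]
    exact Equiv.sum_comp (MulAut.conj g).toEquiv
      fun x => if x ∈ (P : Subgroup G) then (cnt P ⊥ (zpowers x) : ℝ)⁻¹ else 0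
  simp only [h2, Finset.sum_const, Finset.card_univ, nsmul_eq_mul, Finset.mul_sum, div_eq_mul_inv,
    Nat.card_eq_fintype_card (α := G)]

/-- Let G be a finite p-solvable group, P a Sylow p-subgroup of G, u the number of p-elements of G (elements of p-power order, the identity included) and n the number of Sylow p-subgroups of G. Then u/#P ≥ n^((p−1)/p), stated as u^p ≥ #P^p · n^(p−1). -/
theorem result {G : Type*} [Group G] [Finite G] (p : ℕ) [Fact p.Prime]
    (hG : Cfsg.IsPSolvable p G) (P : Sylow p G) :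
    Nat.card (P : Subgroup G) ^ p * Nat.card (Sylow p G) ^ (p - 1) ≤ Nat.card {g : G // ∃ k : ℕ, orderOf g = p ^ k} ^ p := by
  classical
  have := Fintype.ofFinite (P : Subgroup G)
  have hp : p.Prime := Fact.out
  have h1 := ineq hG P ⊥ inferInstance
  have h2 := card_pelts P
  set u := Nat.card {g : G // ∃ k : ℕ, orderOf g = p ^ k}
  have hP : (0 : ℝ) < Nat.card (P : Subgroup G) := Nat.cast_pos.2 Nat.card_pos
  have hG0 : (0 : ℝ) < Nat.card G := Nat.cast_pos.2 Nat.card_pos
  have hn : (0 : ℝ) < Nat.card (Sylow p G) := Nat.cast_pos.2 Nat.card_pos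
  have hcx : ∀ x : (P : Subgroup G), (0 : ℝ) < cnt P ⊥ (zpowers (x : G)) := fun x =>
    Nat.cast_pos.2 (cnt_pos P ⊥ (P.isPGroup'.to_le (zpowers_le.2 x.2)))
  have hcP : (0 : ℝ) < cnt P ⊥ P := Nat.cast_pos.2 (cnt_pos P ⊥ P.isPGroup')
  have h3 : Nat.card G = Nat.card (Sylow p G) * cnt P ⊥ P := by
    rw [P.card_eq_index_normalizer, ← index_mul_card (normalizer ((P : Subgroup G) : Set G))]
    congr 1
    refine Nat.card_congr (Equiv.subtypeEquivRight fun x => ?_)
    rw [sup_bot_eq]
    exact ⟨fun h => (map_conj_eq_iff.2 h).le, mem_normalizer_of_map_conj_le⟩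
  have h4 : Real.log (Nat.card G) = Real.log (Nat.card (Sylow p G)) + Real.log (cnt P ⊥ P) := by
    rw [h3, Nat.cast_mul, Real.log_mul hn.ne' hcP.ne']
  have h5 := strictConcaveOn_log_Ioi.concaveOn.le_map_sum (t := Finset.univ)
    (w := fun _ : (P : Subgroup G) => (Nat.card (P : Subgroup G) : ℝ)⁻¹)
    (p := fun x => (Nat.card G : ℝ) / cnt P ⊥ (zpowers (x : G))) (fun _ _ => by positivity)
    (by rw [Finset.sum_const, Finset.card_univ, ← Nat.card_eq_fintype_card, nsmul_eq_mul,
      mul_inv_cancel₀ hP.ne']) fun x _ => div_pos hG0 (hcx x)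
  have hu : (0 : ℝ) < u := by
    rw [h2]
    exact Finset.sum_pos (fun x _ => div_pos hG0 (hcx x)) Finset.univ_nonempty
  simp only [smul_eq_mul, ← Finset.mul_sum, ← h2] at h5
  rw [Finset.sum_congr rfl fun x _ => Real.log_div hG0.ne' (hcx x).ne', Finset.sum_sub_distrib,
    Finset.sum_const, Finset.card_univ, ← Nat.card_eq_fintype_card, nsmul_eq_mul,
    Real.log_mul (inv_ne_zero hP.ne') hu.ne', Real.log_inv, inv_mul_le_iff₀ hP] at h5
  have h6 : (p : ℝ) * Real.log (Nat.card (P : Subgroup G)) + ((p - 1 : ℕ) : ℝ) * Real.log (Nat.card (Sylow p G)) ≤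
      p * Real.log u := by
    rw [Nat.cast_pred hp.pos]
    refine le_of_mul_le_mul_left ?_ hP
    have h7 := mul_le_mul_of_nonneg_left h5 (Nat.cast_nonneg p)
    rw [h4] at h1 h7
    linarith
  rw [← Real.log_pow, ← Real.log_pow, ← Real.log_pow, ← Real.log_mul (by positivity)
    (by positivity), Real.log_le_log_iff (by positivity) (by positivity)] at h6
  exact_mod_cast h6

end Cfsg.Agent.S4091
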