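import Cfsg.Statements.S4092
import Mathlib
import Cfsg.Agent.Lib.Core.Subnormalizer

set_option autoImplicit false
open Cfsg

namespace Cfsg.Agent.S4092

open Subgroup Cfsg.Agent.Core Cfsg.Agent.Coprime

/-- Let G be a finite group, p a prime and P a Sylow p-subgroup of G that is not normal in G. Then G has at least p·#P elements of p-power order (the identity included). -/
theorem result {G : Type*} [Group G] [Finite G] (p : ℕ) [Fact p.Prime]
    (P : Sylow p G) (hP : ¬ (P : Subgroup G).Normal) :
    p * Nat.card (P : Subgroup G) ≤ Nat.card {g : G // ∃ k : ℕ, orderOf g = p ^ k} := by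
  classical
  have hp : p.Prime := Fact.out
  -- a maximal intersection of two distinct Sylow subgroups
  have hex : ∃ Q : Sylow p G, Q ≠ P := by
    by_contra h
    push Not at h
    have : Subsingleton (Sylow p G) := ⟨fun a b => (h a).trans (h b).symm⟩
    exact hP (Sylow.normal_of_subsingleton P)
  obtain ⟨Q₀, hQ₀⟩ := hex
  obtain ⟨D, -, ⟨A, B, hAB, hD⟩, hmax⟩ := exists_maximal_ge
    (P := fun D : Subgroup G => ∃ A B : Sylow p G, A ≠ B ∧ D = (A : Subgroup G) ⊓ B)
    ⟨Q₀, P, hQ₀, rfl⟩
  have hint : ∀ S T : Sylow p G, S ≠ T → D ≤ S → D ≤ T → (S : Subgroup G) ⊓ T = D :=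
    fun S T h h1 h2 => hmax _ ⟨S, T, h, rfl⟩ (le_inf h1 h2)
  have hlt : ∀ S : Sylow p G, D ≤ S → D < S := fun S h => lt_of_le_of_ne h fun he => by
    have h1 : (A : Subgroup G) = S :=
      S.is_maximal' A.isPGroup' (he.ge.trans (hD.le.trans inf_le_left))
    have h2 : (B : Subgroup G) = S :=
      S.is_maximal' B.isPGroup' (he.ge.trans (hD.le.trans inf_le_right))
    exact hAB (Sylow.ext (h1.trans h2.symm))
  have hDA : D ≤ A := hD.le.trans inf_le_left
  have hDB : D ≤ B := hD.le.trans inf_le_right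
  -- the number of Sylow subgroups containing `D` is at least `p + 1`
  let X := {S : Sylow p G // D ≤ S}
  have hX : p + 1 ≤ Nat.card X := by
    set N := (A : Subgroup G) ⊓ normalizer (D : Set G) with hN
    have hDN : D < N := lt_inf_normalizer_of_isNilpotent A.isPGroup'.isNilpotent (hlt A hDA)
    have hNp : IsPGroup p N := A.isPGroup'.to_le inf_le_left
    let _ : MulAction N X :=
      { smul := fun n S => ⟨(n : G) • S.1, by
          rw [Sylow.coe_subgroup_smul, smul_eq_map_conj]
          exact (map_conj_eq_iff.2 n.2.2).ge.trans (map_mono S.2)⟩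
        one_smul := fun S => Subtype.ext (one_smul G S.1)
        mul_smul := fun a b S => Subtype.ext (mul_smul (a : G) (b : G) S.1) }
    have h1 := hNp.card_modEq_card_fixedPoints X
    have h2 : MulAction.fixedPoints N X = {⟨A, hDA⟩} := by
      ext S
      rw [Set.mem_singleton_iff, MulAction.mem_fixedPoints]
      constructor
      · intro h
        have h3 : N ≤ normalizer ((S.1 : Subgroup G) : Set G) := fun n hn =>
          Sylow.smul_eq_iff_mem_normalizer.1 (congrArg Subtype.val (h ⟨n, hn⟩))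
        have h4 := le_sylow_of_le_normalizer hNp S.1 h3
        by_contra hne
        have h5 := hint S.1 A (fun h => hne (Subtype.ext h)) S.2 hDA
        exact not_le_of_gt hDN (h5 ▸ le_inf h4 inf_le_left)
      · rintro rfl n
        exact Subtype.ext (Sylow.smul_eq_iff_mem_normalizer.2 (le_normalizer n.2.1))
    rw [h2, Nat.card_unique (α := ({⟨A, hDA⟩} : Set X))] at h1
    have h3 : 1 < Nat.card X := Finite.one_lt_card_iff_nontrivial.2
      ⟨⟨A, hDA⟩, ⟨B, hDB⟩, fun h => hAB (congrArg Subtype.val h)⟩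
    have h4 := Nat.le_of_dvd (by omega) ((Nat.modEq_iff_dvd' h3.le).1 h1.symm)
    omega
  -- injection of `D ⊔ Σ_{S ∈ X} (S \ D)` into the `p`-elements
  have hcard : ∀ S : Sylow p G, Nat.card S = Nat.card P := fun S =>
    Nat.card_congr (S.equiv P).toEquiv
  let f : D ⊕ (Σ S : X, {x : S.1 // (x : G) ∉ D}) → {g : G // ∃ k : ℕ, orderOf g = p ^ k} :=
    Sum.elim (fun d => ⟨d, exists_orderOf_eq_pow_of_mem A.isPGroup' (hDA d.2)⟩)
      (fun y => ⟨y.2.1, exists_orderOf_eq_pow_of_mem y.1.1.isPGroup' y.2.1.2⟩)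
  have hf : Function.Injective f := by
    rintro (d | ⟨S, x, hx⟩) (e | ⟨T, y, hy⟩) h
    · have h1 := congrArg Subtype.val h
      exact congrArg Sum.inl (Subtype.ext h1)
    · exact absurd ((congrArg Subtype.val h : (d : G) = y) ▸ d.2) hy
    · exact absurd ((congrArg Subtype.val h.symm : (e : G) = x) ▸ e.2) hx
    · have h1 : (x : G) = y := congrArg Subtype.val h
      obtain rfl : S = T := by
        by_contra hne
        have h2 := hint S.1 T.1 (fun h => hne (Subtype.ext h)) S.2 T.2
        exact hx (h2.le ⟨x.2, by rw [h1]; exact y.2⟩)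
      obtain rfl : x = y := Subtype.ext h1
      rfl
  have h1 := Nat.card_le_card_of_injective f hf
  have h2 : ∀ S : X, Nat.card {x : S.1 // (x : G) ∉ D} + Nat.card D = Nat.card P := by
    intro S
    rw [← hcard S.1, ← Nat.card_congr (subgroupOfEquivOfLe S.2).toEquiv, add_comm, ← Nat.card_sum]
    exact Nat.card_congr (Equiv.sumCompl fun x : S.1 => (x : G) ∈ D)
  have := Fintype.ofFinite X
  rw [Nat.card_sum, Nat.card_sigma, Finset.sum_congr rfl (g := fun _ => Nat.card P - Nat.card D)
    (fun S _ => by rw [← h2 S]; simp), Finset.sum_const, smul_eq_mul, Finset.card_univ,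
    ← Nat.card_eq_fintype_card] at h1
  have h3 : p * Nat.card D ≤ Nat.card P := by
    rw [← hcard A, ← card_mul_index (D.subgroupOf A),
      Nat.card_congr (subgroupOfEquivOfLe hDA).toEquiv, mul_comm]
    refine Nat.mul_le_mul_left _ (Nat.le_of_dvd (Nat.pos_of_ne_zero index_ne_zero_of_finite) ?_)
    obtain ⟨k, hk⟩ := A.isPGroup'.index (D.subgroupOf A)
    rw [hk]
    refine dvd_pow_self p fun h0 => (hlt A hDA).ne (le_antisymm hDA ?_)
    rw [h0, pow_zero, index_eq_one, subgroupOf_eq_top] at hk
    exact hk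
  have h4 : Nat.card D ≤ Nat.card P := le_trans (Nat.le_mul_of_pos_left _ hp.pos) h3
  obtain ⟨c, hc⟩ := Nat.exists_eq_add_of_le h4
  rw [hc, Nat.add_sub_cancel_left] at h1
  rw [hc] at h3 ⊢
  have h5 := Nat.mul_le_mul_right c hX
  nlinarith

end Cfsg.Agent.S4092
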