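import Cfsg.Statements.S4093
import Mathlib

set_option autoImplicit false
open scoped BigOperators
open Cfsg

namespace Cfsg.Agent.S4093

open Subgroup

/-- Let G be a finite group with a normal subgroup N complementing a Sylow p-subgroup P (a normal p-complement). Then the number of elements of G of p-power order equals the sum over x ∈ P of the index of C_N(x) in N. -/
theorem result {G : Type*} [Group G] [Finite G] (p : ℕ) [Fact p.Prime]
    (P : Sylow p G) (N : Subgroup G) [N.Normal] (hNP : N.IsComplement' (P : Subgroup G)) :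
    Nat.card {g : G // ∃ k : ℕ, orderOf g = p ^ k} =
      ∑ᶠ x : (P : Subgroup G), Nat.card N / Nat.card ↥(N ⊓ Subgroup.centralizer ({(x : G)} : Set G)) := by
  classical
  have := Fintype.ofFinite G
  have hinj : ∀ x y : (P : Subgroup G), ((x : G) : G ⧸ N) = (y : G) → x = y := fun x y h => by
    have h1 : (x : G)⁻¹ * y ∈ N ⊓ (P : Subgroup G) :=
      ⟨QuotientGroup.eq.mp h, (x⁻¹ * y).2⟩
    rw [hNP.disjoint.eq_bot, mem_bot, inv_mul_eq_one] at h1
    exact Subtype.ext h1
  have hmk : ∀ (n : N) (x : G), ((n * x * (n : G)⁻¹ : G) : G ⧸ N) = x := fun n x => by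
    have : ((n : G) : G ⧸ N) = 1 := (QuotientGroup.eq_one_iff _).mpr n.2
    simp [this]
  let f : (Σ x : (P : Subgroup G), {g : G // ∃ n : N, n * (x : G) * (n : G)⁻¹ = g}) →
      {g : G // ∃ k : ℕ, orderOf g = p ^ k} := fun y => ⟨y.2.1, by
        obtain ⟨n, hn⟩ := y.2.2
        obtain ⟨k, hk⟩ := IsPGroup.iff_orderOf.mp P.isPGroup' y.1
        refine ⟨k, ?_⟩
        rw [← hn, ← hk, ← orderOf_coe]
        exact (MulAut.conj (n : G)).orderOf_eq _⟩
  have hf : Function.Bijective f := by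
    constructor
    · rintro ⟨x, g, n, rfl⟩ ⟨y, h, m, rfl⟩ hxy
      have h1 : n * (x : G) * (n : G)⁻¹ = m * (y : G) * (m : G)⁻¹ := congrArg Subtype.val hxy
      have h2 : x = y := hinj x y (by rw [← hmk n, h1, hmk])
      subst h2
      simp only [Sigma.mk.injEq, heq_eq_eq, true_and]
      exact Subtype.ext h1
    · rintro ⟨g, k, hk⟩
      have h1 : IsPGroup p (zpowers g) := IsPGroup.of_card (by rw [Nat.card_zpowers, hk])
      obtain ⟨Q, hQ⟩ := h1.exists_le_sylow
      obtain ⟨c, rfl⟩ := MulAction.exists_smul_eq G P Q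
      obtain ⟨y, hy, rfl⟩ := hQ (mem_zpowers g)
      obtain ⟨⟨n, u⟩, rfl⟩ := hNP.2 c
      exact ⟨⟨⟨u * y * (u : G)⁻¹, mul_mem (mul_mem u.2 hy) (inv_mem u.2)⟩, _, n, rfl⟩,
        Subtype.ext (by simp [f, mul_assoc])⟩
  rw [← Nat.card_congr (Equiv.ofBijective f hf), Nat.card_sigma, finsum_eq_sum_of_fintype]
  refine Finset.sum_congr rfl fun x _ => ?_
  let C := (centralizer ({(x : G)} : Set G)).subgroupOf N
  have h1 : Nat.card ↥(N ⊓ centralizer ({(x : G)} : Set G)) = Nat.card C := by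
    simp only [C]
    rw [← inf_subgroupOf_left]
    exact Nat.card_congr (subgroupOfEquivOfLe inf_le_left).symm.toEquiv
  rw [h1, ← C.index_mul_card, Nat.mul_div_cancel _ Nat.card_pos, index]
  refine (Nat.card_congr (Equiv.ofBijective (Quotient.lift
    (fun n : N => (⟨_, n, rfl⟩ : {g : G // ∃ n : N, n * (x : G) * (n : G)⁻¹ = g})) ?_) ?_)).symm
  · intro a b hab
    have h2 : (a : G)⁻¹ * b * x = x * ((a : G)⁻¹ * b) :=
      mem_centralizer_singleton_iff.mp ((QuotientGroup.leftRel_apply (s := C)).mp hab)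
    apply Subtype.ext
    show (a : G) * x * (a : G)⁻¹ = b * x * (b : G)⁻¹
    calc (a : G) * x * (a : G)⁻¹ = a * (x * ((a : G)⁻¹ * b)) * (b : G)⁻¹ := by group
      _ = _ := by rw [← h2]; group
  · constructor
    · rintro ⟨a⟩ ⟨b⟩ h
      have h2 : (a : G) * x * (a : G)⁻¹ = b * x * (b : G)⁻¹ := congrArg Subtype.val h
      apply Quotient.sound
      refine (QuotientGroup.leftRel_apply (s := C)).mpr (mem_centralizer_singleton_iff.mpr ?_)
      show (a : G)⁻¹ * b * x = x * ((a : G)⁻¹ * b)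
      calc (a : G)⁻¹ * b * x = (a : G)⁻¹ * (b * x * (b : G)⁻¹) * b := by group
        _ = _ := by rw [← h2]; group
    · rintro ⟨_, n, rfl⟩
      exact ⟨Quotient.mk _ n, rfl⟩

end Cfsg.Agent.S4093
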