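import Cfsg.Statements.S4097
import Cfsg.Agent.Lib.OO.BG3

set_option autoImplicit false
open Cfsg

namespace Cfsg.Agent.S4097

open Subgroup Cfsg.Agent.OO
open scoped commutatorElement Pointwise

universe u

theorem step {G : Type u} [Group G] [Finite G] {A : Subgroup G} (hA : Sol A)
    (hc : ∀ S : Subgroup G, A ≤ S → Sol S → S ≤ 𝐂(A))
    (ih : ∀ M : Subgroup G, A ≤ M → M ≠ ⊤ → M ≤ 𝐂(A)) : A ≤ center G := by
  by_contra h0
  obtain ⟨a, ha, haZ⟩ := SetLike.not_le_iff_exists.1 h0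
  have h1 := hc A le_rfl hA
  have h2 : ∀ y ∈ 𝐂(A), y ∉ center G → 𝐂[y] ≤ 𝐂(A) := fun y hy hZ => ih _ (le_cent1_iff.2 hy)
    fun e => hZ (mem_center_iff.2 fun g => mem_cent1.1 (e.ge (mem_top g)))
  have h3 : ∀ g : G, g ∉ 𝐂(A) → ∀ x ∈ 𝐂(A), g⁻¹ * x * g ∈ 𝐂(A) → x ∈ center G := fun g hg x hx hx' => by
    by_contra hZ
    have e1 : g * a * g⁻¹ ∈ 𝐂(A) := h2 x hx hZ (mem_cent1_comm.1 (by
      rw [cent1_conj, mem_conj]; exact cent_le_cent1 ha hx'))
    have e2 : g ∈ 𝐍(𝐂(A)) := mem_norm_of_conj_le ((conj_mono g (cent_le_cent1 ha)).trans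
      (cent1_conj g a ▸ h2 _ e1 fun e => haZ (by
        simpa [mul_assoc] using (inferInstance : (center G).Normal).conj_mem _ e g⁻¹)))
    exact hg (hc _ (le_sup_of_le_right (le_inf h1 (le_cent_symm le_rfl))) (sol_sup (zpowers_le.2
      (norm_le_norm_Zc _ e2)) (sol_of_ab (ab_of_isCyclic inferInstance)) (sol_of_ab (Zc_ab _)))
      (mem_sup_left (mem_zpowers g)))
  obtain ⟨N, hN, -, h4, h5⟩ := Frob.wielandt 𝐂(A) (center G) (center_le_centralizer _)
    (fun h _ l hl => (inferInstance : (center G).Normal).conj_mem l hl h) h3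
  have h6 : ∀ X : Subgroup G, X ≤ 𝐍(center G) := fun X => le_normalizer_of_normal
  have h7 : ¬ N ≤ 𝐂(A) := fun e => haZ (mem_center_iff.2 fun g =>
    (mem_centralizer_iff.1 ((h5.ge.trans (sup_le e le_rfl)) (mem_top g)) a ha).symm)
  have h8 : Semiregular (N ⁒ center G) (𝐂(A) ⁒ center G) := fun x hx x1 => eq_bot_iff.2 fun y hy => by
    obtain ⟨c, hc', rfl⟩ := (mem_quo_of_le (h6 _)).1 hx
    obtain ⟨n, hn, rfl⟩ := (mem_quo_of_le (h6 _)).1 hy.1
    refine (coset_eq_one_iff (h6 ⊤ trivial)).2 (h4.le ⟨hn, by_contra fun e => x1 ((coset_eq_one_iff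
      (h6 ⊤ trivial)).2 (h3 n⁻¹ (mt inv_mem_iff.1 e) c hc' ?_))⟩)
    have := mul_mem (center_le_centralizer _ ((coset_commute_iff (h6 ⊤ trivial) (h6 ⊤ trivial)).1
      (mem_cent1.1 hy.2))) hc'
    simpa [commutatorElement_def] using this
  refine h7 (le_sup_right.trans (hc _ le_sup_left (sol_sup le_normalizer_of_normal hA (sol_of_quo (h6 N)
    (sol_of_ab (ab_iff_le_cent.2 (inf_le_left.trans (center_le_centralizer _)))) (sol_of_nil
      (Frobenius_sol_kernel_nil (h8.isFrob (quo_le_norm _ le_normalizer_of_normal) (quo_ne_bot (h6 _)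
        fun e => h7 (e.trans (center_le_centralizer _))) (quo_ne_bot (h6 _) fun e => haZ (e (h1 ha))))))))))

theorem aux (n : ℕ) : ∀ (G : Type u) [Group G] [Finite G] (A : Subgroup G), Nat.card G = n → Sol A →
    (∀ S : Subgroup G, A ≤ S → Sol S → S ≤ 𝐂(A)) → A ≤ center G := by
  induction n using Nat.strong_induction_on with
  | _ n ih =>
  intro G _ _ A hn hA hc
  refine step hA hc fun M h1 h2 g hg => mem_centralizer_iff.2 fun a ha => ?_
  have h3 := ih _ (hn ▸ card_top (G := G) ▸ card_lt h2.lt_top) M (A.subgroupOf M) rfl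
    (solvable_of_surjective (f := (subgroupOfEquivOfLe h1).symm.toMonoidHom)
      (subgroupOfEquivOfLe h1).symm.surjective) fun S h4 h5 s hs => mem_centralizer_iff.2 fun b hb =>
    Subtype.ext (mem_centralizer_iff.1 (hc (S.map M.subtype) (fun x hx => ⟨⟨x, h1 hx⟩, h4 hx, rfl⟩)
      (solvable_of_surjective (M.subtype.subgroupMap_surjective S)) (mem_map_of_mem _ hs)) b hb)
  exact congrArg Subtype.val (mem_center_iff.1 (h3 (show ⟨a, h1 ha⟩ ∈ A.subgroupOf M from ha))
    ⟨g, hg⟩).symm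

/-- Let A be a solvable subgroup of a finite group G such that A lies in the centre of every solvable subgroup of G containing A. Then A lies in the centre of G. -/
theorem result {G : Type*} [Group G] [Finite G]
    (A : Subgroup G) (hA : Group.IsSolvable A)
    (hc : ∀ S : Subgroup G, A ≤ S → Group.IsSolvable S → ∀ a ∈ A, ∀ s ∈ S, a * s = s * a) : A ≤ Subgroup.center G := by
  exact aux _ G A rfl hA fun S h1 h2 s hs => mem_centralizer_iff.2 fun a ha => hc S h1 h2 a ha s hs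

end Cfsg.Agent.S4097
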