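import Cfsg.Statements.S4104
import Cfsg.Agent.Lib.Cls.ManyClasses

set_option autoImplicit false
open Cfsg

namespace Cfsg.Agent.S4104

theorem aux {G : Type*} [Group G] [Finite G]
    (π : Set ℕ) (p : ℕ) (hmin : ∀ q ∈ π, p ≤ q)
    (m : ℕ) (hm : m ∣ Nat.card G) (hmπ : ∀ q : ℕ, q.Prime → q ∣ m → q ∈ π)
    (hm' : ∀ q ∈ π, ¬ q ∣ Nat.card G / m)
    (k : ℕ) (hk : k = Nat.card {C : ConjClasses G // ∀ q : ℕ, q.Prime → (∃ g : G, ConjClasses.mk g = C ∧ q ∣ orderOf g) → q ∈ π})
    (hmany : m < p * k) :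
    ∃ H : Subgroup G, Nat.card H = m ∧ Group.IsNilpotent H ∧
      k ≤ (Set.range fun x : H => ConjClasses.mk (x : G)).ncard := by
  classical
  have hm0 : m ≠ 0 := fun h => Nat.card_pos.ne' (Nat.eq_zero_of_zero_dvd (h ▸ hm))
  have h1 : k = (Cls.piClasses π G).ncard := by
    rw [hk, ← Nat.card_coe_set_eq]
    refine Nat.card_congr (Equiv.subtypeEquivRight fun c => ?_)
    constructor
    · intro h x hx r hr hd
      exact h r hr ⟨x, ConjClasses.mem_carrier_iff_mk_eq.1 hx, hd⟩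
    · rintro h r hr ⟨x, hx, hd⟩
      exact h x (ConjClasses.mem_carrier_iff_mk_eq.2 hx) r hr hd
  obtain ⟨n, hn⟩ := hm
  have hn' : Nat.card G / m = n := by rw [hn, Nat.mul_div_cancel_left _ (Nat.pos_of_ne_zero hm0)]
  rw [hn'] at hm'
  have hn0 : n ≠ 0 := by rintro rfl; exact Nat.card_pos.ne' (by simpa using hn)
  have h2 : Cls.piClasses π G ⊆ Cls.piClasses (m.primeFactors : Set ℕ) G := by
    refine Cls.piClasses_mono fun r hr hp hd => ?_
    rw [hn] at hd
    simpa [hp, hm0] using (hp.dvd_mul.1 hd).resolve_right (hm' r hr)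
  have h3 : k ≤ (Cls.piClasses (m.primeFactors : Set ℕ) G).ncard := h1 ▸ Set.ncard_le_ncard h2
  have hpr : ∀ r ∈ m.primeFactors, r.Prime := fun r hr => Nat.prime_of_mem_primeFactors hr
  have h4 : Cls.piPart m.primeFactors (Nat.card G) = m := by
    rw [hn]
    refine Cls.piPart_eq_of_mul hpr hm0 hn0 (fun q hq hd => by simpa [hq, hm0] using hd)
      fun q hq hd hq' => hm' q (hmπ q hq (Nat.dvd_of_mem_primeFactors hq')) hd
  obtain ⟨H, hH, hHn⟩ := Cls.exists_nilpHall_of_many_classes (p := p) m.primeFactors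
    (fun s hs => ⟨hpr s hs, hmin s (hmπ s (hpr s hs) (Nat.dvd_of_mem_primeFactors hs))⟩) G
    (by rw [h4]; exact hmany.trans_le (Nat.mul_le_mul_left _ h3))
  refine ⟨H, by rw [Cls.card_eq_piPart_of_isPiHall hpr hH, h4], hHn, ?_⟩
  rwa [← Cls.piClasses_eq_range hH hHn]

/-- Let G be a finite group, π a set of primes with least member p, m the π-part of the order of G and k the number of conjugacy classes of G consisting of π-elements (elements whose order is divisible only by primes in π). If k > m/p, then G has a nilpotent Hall π-subgroup (a nilpotent subgroup of order m) whose derived subgroup has order at most p. -/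
theorem result {G : Type*} [Group G] [Finite G]
    (π : Set ℕ) (hπ : ∀ q ∈ π, q.Prime) (p : ℕ) (hp : p ∈ π) (hmin : ∀ q ∈ π, p ≤ q)
    (m : ℕ) (hm : m ∣ Nat.card G) (hmπ : ∀ q : ℕ, q.Prime → q ∣ m → q ∈ π)
    (hm' : ∀ q ∈ π, ¬ q ∣ Nat.card G / m)
    (k : ℕ) (hk : k = Nat.card {C : ConjClasses G // ∀ q : ℕ, q.Prime → (∃ g : G, ConjClasses.mk g = C ∧ q ∣ orderOf g) → q ∈ π})
    (hmany : m < p * k) :
    ∃ H : Subgroup G, Nat.card H = m ∧ Group.IsNilpotent H ∧ Nat.card (commutator H) ≤ p := by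
  obtain ⟨H, h1, h2, h3⟩ := aux π p hmin m hm hmπ hm' k hk hmany
  refine ⟨H, h1, h2, Cls.card_commutator_le_of_many_classes p
    (fun q hq hd => hmin q (hmπ q hq (h1 ▸ hd))) ?_⟩
  rw [h1]
  exact hmany.trans_le (Nat.mul_le_mul_left _ (h3.trans (Cls.ncard_range_mk_le H)))

end Cfsg.Agent.S4104
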