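import Cfsg.Statements.S4105
import Cfsg.Agent.S4104

set_option autoImplicit false
open Cfsg

namespace Cfsg.Agent.S4105

/-- Let G be a finite group, π a set of primes with least member p, m the π-part of the order of G and k the number of conjugacy classes of G consisting of π-elements. If k > m·(p² + p − 1)/p³, then G has an abelian Hall π-subgroup (an abelian subgroup of order m). -/
theorem result {G : Type*} [Group G] [Finite G]
    (π : Set ℕ) (hπ : ∀ q ∈ π, q.Prime) (p : ℕ) (hp : p ∈ π) (hmin : ∀ q ∈ π, p ≤ q)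
    (m : ℕ) (hm : m ∣ Nat.card G) (hmπ : ∀ q : ℕ, q.Prime → q ∣ m → q ∈ π)
    (hm' : ∀ q ∈ π, ¬ q ∣ Nat.card G / m)
    (k : ℕ) (hk : k = Nat.card {C : ConjClasses G // ∀ q : ℕ, q.Prime → (∃ g : G, ConjClasses.mk g = C ∧ q ∣ orderOf g) → q ∈ π})
    (hmany : m * (p ^ 2 + p - 1) < p ^ 3 * k) :
    ∃ H : Subgroup G, Nat.card H = m ∧ IsMulCommutative H := by
  have hp1 : 1 ≤ p := (hπ p hp).one_le
  obtain ⟨q, rfl⟩ : ∃ q, p = q + 1 := ⟨p - 1, by omega⟩
  have e : (q + 1) ^ 2 + (q + 1) - 1 = (q + 1) ^ 2 + q := by omega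
  rw [e] at hmany
  have hmany' : m < (q + 1) * k := by
    refine lt_of_mul_lt_mul_left (a := (q + 1) ^ 2) ?_ (Nat.zero_le _)
    nlinarith [Nat.zero_le (m * q)]
  obtain ⟨H, h1, -, h3⟩ := S4104.aux π (q + 1) hmin m hm hmπ hm' k hk hmany'
  refine ⟨H, h1, by_contra fun hc => ?_⟩
  have hH : ∀ r, r.Prime → r ∣ Nat.card H → q + 1 ≤ r := fun r hr hd => hmin r (hmπ r hr (h1 ▸ hd))
  have h4 := Cls.mul_ncard_classes_le' (H := H) (R := H) Subgroup.le_normalizer (q + 1) hH
  have h5 := Core.card_inf_mul_relIndex (Subgroup.centralizer (H : Set G)) H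
  rw [inf_comm] at h5
  have h6 := Cls.sq_le_of_not_prime
    (fun h => hc (Cls.isMulCommutative_of_le_centralizer (Subgroup.relIndex_eq_one.1 h)))
    Subgroup.index_ne_zero_of_finite (Cls.not_prime_relIndex_centralizer (H := H))
    fun r hr hd => hH r hr (hd.trans (Subgroup.relIndex_dvd_card _ _))
  have h7 := Nat.mul_le_mul_left (Nat.card ↥(H ⊓ Subgroup.centralizer (H : Set G))) h6
  rw [h5, h1] at h7
  rw [h1] at h4
  set f := Nat.card ↥(H ⊓ Subgroup.centralizer (H : Set G))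
  have h8 : (q + 1) * k ≤ q * f + m := by nlinarith [Nat.mul_le_mul_left (q + 1) h3]
  nlinarith [Nat.mul_le_mul_left ((q + 1) ^ 2) h8, Nat.mul_le_mul_left q h7]

end Cfsg.Agent.S4105
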