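import Cfsg.Statements.S4106
import Cfsg.Agent.Lib.Cls.PiClasses

set_option autoImplicit false
open Cfsg

namespace Cfsg.Agent.S4106

/-- Let G be a finite group, π a set of primes and m the π-part of the order of G. Then the number of conjugacy classes of G consisting of π-elements (elements whose order is divisible only by primes in π) is at most m. -/
theorem result {G : Type*} [Group G] [Finite G]
    (π : Set ℕ) (hπ : ∀ q ∈ π, q.Prime)
    (m : ℕ) (hm : m ∣ Nat.card G) (hmπ : ∀ q : ℕ, q.Prime → q ∣ m → q ∈ π)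
    (hm' : ∀ q ∈ π, ¬ q ∣ Nat.card G / m) :
    Nat.card {C : ConjClasses G // ∀ q : ℕ, q.Prime → (∃ g : G, ConjClasses.mk g = C ∧ q ∣ orderOf g) → q ∈ π} ≤ m := by
  classical
  have hm0 : m ≠ 0 := fun h => Nat.card_pos.ne' (Nat.eq_zero_of_zero_dvd (h ▸ hm))
  have h1 : Nat.card {C : ConjClasses G // ∀ q : ℕ, q.Prime →
      (∃ g : G, ConjClasses.mk g = C ∧ q ∣ orderOf g) → q ∈ π} = (Cls.piClasses π G).ncard := by
    rw [← Nat.card_coe_set_eq]
    refine Nat.card_congr (Equiv.subtypeEquivRight fun c => ?_)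
    constructor
    · intro h x hx r hr hd
      exact h r hr ⟨x, ConjClasses.mem_carrier_iff_mk_eq.1 hx, hd⟩
    · rintro h r hr ⟨x, hx, hd⟩
      exact h x (ConjClasses.mem_carrier_iff_mk_eq.2 hx) r hr hd
  obtain ⟨n, hn⟩ := hm
  have hn' : Nat.card G / m = n := by rw [hn, Nat.mul_div_cancel_left _ (Nat.pos_of_ne_zero hm0)]
  rw [hn'] at hm'
  have hn0 : n ≠ 0 := by rintro rfl; exact Nat.card_pos.ne' (by simpa using hn)
  have h2 : Cls.piClasses π G ⊆ Cls.piClasses (m.primeFactors : Set ℕ) G := by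
    refine Cls.piClasses_mono fun r hr hp hd => ?_
    rw [hn] at hd
    simpa [hp, hm0] using (hp.dvd_mul.1 hd).resolve_right (hm' r hr)
  rw [h1]
  refine (Set.ncard_le_ncard h2).trans ((Cls.ncard_piClasses_le m.primeFactors
    (fun r hr => Nat.prime_of_mem_primeFactors hr) G).trans (le_of_eq ?_))
  conv_rhs => rw [← Nat.prod_factorization_pow_eq_self hm0]
  rw [Finsupp.prod, Nat.support_factorization]
  refine Finset.prod_congr rfl fun r hr => ?_
  have hp := Nat.prime_of_mem_primeFactors hr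
  rw [hn, Nat.factorization_mul hm0 hn0, Finsupp.add_apply,
    Nat.factorization_eq_zero_of_not_dvd (hm' r (hmπ r hp (Nat.dvd_of_mem_primeFactors hr))), add_zero]

end Cfsg.Agent.S4106
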