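import Cfsg.Statements.S4107
import Cfsg.Agent.Lib.Frob.EqOrder

set_option autoImplicit false
open Cfsg

namespace Cfsg.Agent.S4107

/-- Let G be a finite group and N a proper non-trivial normal subgroup such that for every x outside N all elements of the coset xN have the same order as x. Then N ≤ F(G) or F(G) ≤ N, where F(G) is the Fitting subgroup; and if N is properly contained in F(G) then F(G) has prime-power order. -/
theorem result {G : Type*} [Group G] [Finite G] (N : Subgroup G) [N.Normal] (hN1 : N ≠ ⊥) (hN2 : N ≠ ⊤)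
    (heq : ∀ x : G, x ∉ N → ∀ n ∈ N, orderOf (x * n) = orderOf x) :
    (N ≤ Cfsg.fittingSubgroup G ∨ Cfsg.fittingSubgroup G ≤ N) ∧
    (N < Cfsg.fittingSubgroup G → IsPrimePow (Nat.card (Cfsg.fittingSubgroup G))) := by
  have key : ¬ fittingSubgroup G ≤ N → ∃ (q : ℕ) (_ : Fact q.Prime), IsPGroup q N := fun h => by
    by_contra hcon
    push Not at hcon
    exact h (Core.fitting_le_of_forall_pCore_le fun q hq => by
      by_contra h1
      exact hcon q hq (Frob.isPGroup_of_eqOrder heq h1))
  refine ⟨?_, fun hlt => ?_⟩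
  · by_cases h : fittingSubgroup G ≤ N
    · exact Or.inr h
    · obtain ⟨q, _, hq⟩ := key h
      exact Or.inl ((Core.le_pCore hq).trans (Core.pCore_le_fitting q))
  · obtain ⟨q, _, hq⟩ := key hlt.not_ge
    have : Nontrivial (fittingSubgroup G) :=
      (Subgroup.nontrivial_iff_ne_bot _).2 (ne_bot_of_gt hlt)
    refine Frob.isPrimePow_card_of_isPGroup (p := q) ((Core.isPGroup_pCore q).to_le
      (Core.fitting_le_of_forall_pCore_le fun r hr => ?_))
    by_cases hrq : r = q
    · rw [hrq]
    by_cases h : pCore r G ≤ N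
    · exact h.trans (Core.le_pCore hq)
    · exact absurd (disjoint_self.1 (IsPGroup.disjoint_of_ne r q hrq _ _
        (Frob.isPGroup_of_eqOrder heq h) hq)) hN1

end Cfsg.Agent.S4107
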