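import Cfsg.Statements.S4108
import Cfsg.Agent.Lib.Frob.Basic

set_option autoImplicit false
open Cfsg

namespace Cfsg.Agent.S4108

/-- Let G be a finite group, p a prime and N a proper non-trivial normal p-subgroup such that for every x outside N all elements of the coset xN have the same order as x. Then every non-trivial subgroup H of G of order prime to p acts fixed-point-freely on N: NH is a Frobenius group with complement H and kernel N. -/
theorem result {G : Type*} [Group G] [Finite G] (N : Subgroup G) [N.Normal] (hN1 : N ≠ ⊥) (hN2 : N ≠ ⊤)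
    (heq : ∀ x : G, x ∉ N → ∀ n ∈ N, orderOf (x * n) = orderOf x)
    (p : ℕ) [Fact p.Prime] (hNp : IsPGroup p N) :
    ∀ H : Subgroup G, H ≠ ⊥ → (Nat.card H).Coprime p →
      Cfsg.IsFrobeniusComplement (H.subgroupOf (N ⊔ H)) ∧ Cfsg.frobeniusKernel (H.subgroupOf (N ⊔ H)) = (N.subgroupOf (N ⊔ H) : Set ↥(N ⊔ H)) := by
  intro H hH hcop
  refine Frob.IsFrobPair.frobenius_subgroupOf
    ⟨Subgroup.le_normalizer_of_normal, hN1, hH, fun h hh h1 k hk hc => ?_⟩
  obtain ⟨a, ha⟩ := IsPGroup.iff_card.1 hNp
  have hcop' : (Nat.card H).Coprime (Nat.card N) := by rw [ha]; exact hcop.pow_right a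
  have hhN : h ∉ N := fun hN =>
    h1 (Subgroup.mem_bot.1 (Core.inf_eq_bot_of_coprime_card hcop' ▸ Subgroup.mem_inf.2 ⟨hh, hN⟩))
  have hco : (orderOf h).Coprime (orderOf k) :=
    (hcop'.coprime_dvd_left (H.orderOf_dvd_natCard hh)).coprime_dvd_right
      (N.orderOf_dvd_natCard hk)
  have e := Commute.orderOf_mul_eq_mul_orderOf_of_coprime hc hco
  rw [heq h hhN k hk] at e
  have := orderOf_pos h
  rw [← orderOf_eq_one_iff]
  nlinarith

end Cfsg.Agent.S4108
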