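import Cfsg.Statements.S4112
import Mathlib

set_option autoImplicit false
open Cfsg

namespace Cfsg.Agent.S4112

theorem eq_top_of_forall_sylow_le {G : Type*} [Group G] [Finite G] (H : Subgroup G)
    (h : ∀ (q : ℕ) [Fact q.Prime], ∃ Q : Sylow q G, (Q : Subgroup G) ≤ H) : H = ⊤ := by
  rw [← Subgroup.index_eq_one]
  by_contra hne
  obtain ⟨q, hq, hdvd⟩ := Nat.exists_prime_and_dvd hne
  have := Fact.mk hq
  obtain ⟨Q, hQ⟩ := h q
  exact Q.not_dvd_index (hdvd.trans (Subgroup.index_dvd_of_le hQ))

theorem mem_of_pow_eq_one {G : Type*} [Group G] [Finite G] (N : Subgroup G) [N.Normal]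
    {q k : ℕ} (hq : q.Prime) (hN : ¬ q ∣ N.index) {g : G} (hg : g ^ q ^ k = 1) : g ∈ N := by
  have h1 : orderOf (QuotientGroup.mk g : G ⧸ N) ∣ q ^ k := by
    apply orderOf_dvd_of_pow_eq_one
    rw [← QuotientGroup.mk_pow, hg, QuotientGroup.mk_one]
  have h2 : orderOf (QuotientGroup.mk g : G ⧸ N) ∣ N.index := orderOf_dvd_natCard _
  have hcop : (q ^ k).Coprime N.index :=
    Nat.Coprime.pow_left _ ((Nat.Prime.coprime_iff_not_dvd hq).2 hN)
  have h3 := Nat.eq_one_of_dvd_coprimes hcop h1 h2
  rwa [orderOf_eq_one_iff, QuotientGroup.eq_one_iff] at h3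

theorem not_dvd_card_of_minimal {G : Type*} [Group G] [Finite G] (N : Subgroup G) [N.Normal]
    (hmin : ∀ K : Subgroup G, K ⊔ N = ⊤ → K = ⊤) {p : ℕ} (hp : p.Prime) (hN : ¬ p ∣ N.index) :
    ¬ p ∣ Nat.card G := by
  have := Fact.mk hp
  obtain ⟨P⟩ : Nonempty (Sylow p G) := inferInstance
  have hPN : (P : Subgroup G) ≤ N := by
    intro g hg
    obtain ⟨k, hk⟩ := P.isPGroup' ⟨g, hg⟩
    exact mem_of_pow_eq_one N hp hN (k := k) (by simpa using congrArg Subtype.val hk)
  have hn : (P : Subgroup G).Normal := by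
    rw [← Subgroup.normalizer_eq_top_iff]
    exact hmin _ (Sylow.normalizer_sup_eq_top' P hPN)
  obtain ⟨L, hL⟩ := Subgroup.exists_right_complement'_of_coprime P.card_coprime_index
  have hLtop : L = ⊤ := by
    apply hmin
    rw [eq_top_iff, ← hL.sup_eq_top, sup_comm]
    exact sup_le_sup_left hPN _
  have hPbot : (P : Subgroup G) = ⊥ := by
    have := hL.disjoint
    rwa [hLtop, disjoint_top] at this
  intro hdvd
  exact P.ne_bot_of_dvd_card hdvd hPbot


/-- Let G be a finite group and M ≤ N non-trivial proper normal subgroups such that for every g outside N the conjugacy class of g is a union of cosets of M (equivalently gm is conjugate to g for every m ∈ M). Then (1) and (2) below are equivalent, and they imply (3): (1) every g outside N acts fixed-point-freely on M, that is C_G(x) ≤ N for every x ∈ M, x ≠ 1; (2) the index of N in G is coprime to the order of M; (3) there is a subgroup H of G with HN = G and H ∩ M = 1. -/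
theorem result {G : Type*} [Group G] [Finite G] (N M : Subgroup G) [N.Normal] [M.Normal] (hMN : M ≤ N) (hM1 : M ≠ ⊥) (hN2 : N ≠ ⊤)
    (hcam : ∀ g : G, g ∉ N → ∀ m ∈ M, ∃ x : G, x * g * x⁻¹ = g * m) :
    ((∀ x ∈ M, x ≠ 1 → Subgroup.centralizer ({x} : Set G) ≤ N) ↔ N.index.Coprime (Nat.card M)) ∧
    ((∀ x ∈ M, x ≠ 1 → Subgroup.centralizer ({x} : Set G) ≤ N) → ∃ H : Subgroup G, H ⊔ N = ⊤ ∧ H ⊓ M = ⊥) := by
  classical
  have h12 : (∀ x ∈ M, x ≠ 1 → Subgroup.centralizer ({x} : Set G) ≤ N) →
      N.index.Coprime (Nat.card M) := by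
    intro h
    apply Nat.Coprime.symm
    apply Nat.coprime_of_dvd
    intro p hp hpM hpN
    have := Fact.mk hp
    obtain ⟨P⟩ : Nonempty (Sylow p G) := inferInstance
    let act : MulAction (P : Subgroup G) M :=
      MulAction.compHom M ((MulAut.conjNormal (H := M)).comp (P : Subgroup G).subtype)
    have hsmul : ∀ (g : (P : Subgroup G)) (m : M), ((g • m : M) : G) = g * m * (g : G)⁻¹ :=
      fun g m => rfl
    have h1 : (1 : M) ∈ MulAction.fixedPoints (P : Subgroup G) M := by
      intro g
      apply Subtype.ext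
      rw [hsmul]
      simp
    obtain ⟨b, hb, hb1⟩ := P.isPGroup'.exists_fixed_point_of_prime_dvd_card_of_fixed_point M hpM h1
    have hPC : (P : Subgroup G) ≤ Subgroup.centralizer ({(b : G)} : Set G) := by
      intro g hg
      rw [Subgroup.mem_centralizer_singleton_iff]
      have := congrArg Subtype.val (hb ⟨g, hg⟩)
      rw [hsmul] at this
      simp only at this
      rw [mul_inv_eq_iff_eq_mul] at this
      exact this
    have hPN := hPC.trans (h b b.2 (fun hb' => hb1 (Subtype.ext hb'.symm)))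
    exact P.not_dvd_index (hpN.trans (Subgroup.index_dvd_of_le hPN))
  refine ⟨⟨h12, ?_⟩, ?_⟩
  · intro hcop x hxM hx1
    rw [← Subgroup.subgroupOf_eq_top]
    apply eq_top_of_forall_sylow_le
    intro q hq
    obtain ⟨Q⟩ : Nonempty (Sylow q (Subgroup.centralizer ({x} : Set G))) := inferInstance
    refine ⟨Q, fun g hg => ?_⟩
    rw [Subgroup.mem_subgroupOf]
    by_contra hgN
    obtain ⟨k, hk⟩ := Q.isPGroup' ⟨g, hg⟩
    have hk' : (g : G) ^ q ^ k = 1 := by
      have := congrArg (fun z : (Q : Subgroup (Subgroup.centralizer ({x} : Set G))) =>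
        ((z : Subgroup.centralizer ({x} : Set G)) : G)) hk
      simpa using this
    have hqN : q ∣ N.index := by
      by_contra hqN
      exact hgN (mem_of_pow_eq_one N hq.out hqN hk')
    obtain ⟨y, hy⟩ := hcam g hgN x hxM
    have hcomm : Commute (g : G) x := Subgroup.mem_centralizer_singleton_iff.1 g.2
    have h1 : ((g : G) * x) ^ q ^ k = 1 := by
      rw [← hy, conj_pow, hk']
      simp
    rw [hcomm.mul_pow, hk', one_mul] at h1
    have h2 : orderOf x ∣ Nat.card M := by
      have := orderOf_dvd_natCard (⟨x, hxM⟩ : M)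
      rwa [Subgroup.orderOf_mk] at this
    have hc : (q ^ k).Coprime (Nat.card M) :=
      Nat.Coprime.pow_left _ (Nat.Coprime.coprime_dvd_left hqN hcop)
    have h3 := Nat.eq_one_of_dvd_coprimes hc (orderOf_dvd_of_pow_eq_one h1) h2
    exact hx1 (orderOf_eq_one_iff.1 h3)
  · intro h
    have hcop := h12 h
    obtain ⟨H, hH, hmin⟩ := (wellFounded_lt (α := Subgroup G)).has_min
      {H : Subgroup G | H ⊔ N = ⊤} ⟨⊤, by simp⟩
    refine ⟨H, hH, ?_⟩
    have hmin' : ∀ K : Subgroup H, K ⊔ N.subgroupOf H = ⊤ → K = ⊤ := by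
      intro K hK
      have h1 : K.map H.subtype ⊔ N = ⊤ := by
        rw [eq_top_iff, ← (show H ⊔ N = ⊤ from hH), sup_le_iff]
        refine ⟨?_, le_sup_right⟩
        have h2 := congrArg (Subgroup.map H.subtype) hK
        rw [Subgroup.map_sup, ← MonoidHom.range_eq_map, Subgroup.range_subtype,
          Subgroup.subgroupOf_map_subtype] at h2
        exact h2.ge.trans (sup_le_sup_left inf_le_left _)
      have h2 : K.map H.subtype = H := by
        by_contra hne
        exact hmin _ h1 (lt_of_le_of_ne (Subgroup.map_subtype_le K) hne)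
      apply Subgroup.map_injective H.subtype_injective
      rw [h2, ← MonoidHom.range_eq_map, Subgroup.range_subtype]
    rw [← Subgroup.card_eq_one]
    by_contra hne
    obtain ⟨p, hp, hdvd⟩ := Nat.exists_prime_and_dvd hne
    have hpM : p ∣ Nat.card M := hdvd.trans (Subgroup.card_dvd_of_le inf_le_right)
    have hpH : p ∣ Nat.card H := hdvd.trans (Subgroup.card_dvd_of_le inf_le_left)
    refine not_dvd_card_of_minimal (N.subgroupOf H) hmin' hp ?_ hpH
    intro hpN
    have hpN' : p ∣ N.index := hpN.trans (Subgroup.relIndex_dvd_index_of_normal N H)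
    exact hp.one_lt.ne' (Nat.eq_one_of_dvd_coprimes hcop hpN' hpM)

end Cfsg.Agent.S4112
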