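import Cfsg.Statements.S4115
import Cfsg.Agent.Lib.Frob.SameFixed
import Cfsg.Agent.Lib.Coprime.SylowCount

set_option autoImplicit false
universe u
open Cfsg

namespace Cfsg.Agent.S4115

/-- Let G be a finite group and H a subgroup that meets each of its conjugates by elements outside N_G(H) trivially and whose order is coprime to its index in N_G(H). Then H has a normal complement in N_G(H) if and only if H has a normal complement in G. Moreover, if H is not normal in G and has a normal complement in N_G(H), then H is isomorphic to a Frobenius complement of some finite Frobenius group. -/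
theorem result {G : Type u} [Group G] [Finite G] (H : Subgroup G)
    (hTI : Cfsg.IsTISubset (H : Set G)) (hHall : (Nat.card H).Coprime (H.subgroupOf (Subgroup.normalizer (H : Set G))).index) :
    ((∃ K : Subgroup (Subgroup.normalizer (H : Set G)), K.Normal ∧ K.IsComplement' (H.subgroupOf (Subgroup.normalizer (H : Set G)))) ↔
      (∃ N : Subgroup G, N.Normal ∧ N.IsComplement' H)) ∧
    (¬ H.Normal → (∃ K : Subgroup (Subgroup.normalizer (H : Set G)), K.Normal ∧ K.IsComplement' (H.subgroupOf (Subgroup.normalizer (H : Set G)))) →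
      ∃ (F : Type u) (_ : Group F) (_ : Finite F) (C : Subgroup F), Cfsg.IsFrobeniusComplement C ∧ Nonempty (H ≃* C)) := by
  set M := Subgroup.normalizer (H : Set G) with hM
  have hHM : H ≤ M := Subgroup.le_normalizer
  have hHn : (H.subgroupOf M).Normal := Subgroup.normal_in_normalizer
  have main : ∀ K : Subgroup M, K.Normal → K.IsComplement' (H.subgroupOf M) →
      ∃ N : Subgroup G, N.Normal ∧ N ⊓ M = K.map M.subtype ∧ N ⊓ H = ⊥ ∧ N ⊔ H = ⊤ := by
    intro K hK hc
    have hi1 : (H.subgroupOf M).index = Nat.card K := hc.index_eq_card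
    have hi2 : K.index = Nat.card H := by
      rw [hc.symm.index_eq_card, Core.card_subgroupOf_of_le hHM]
    have hsup : K.map M.subtype ⊔ H = M := by
      conv_lhs => rw [← Subgroup.map_subgroupOf_eq_of_le hHM]
      rw [← Subgroup.map_sup, hc.sup_eq_top, ← MonoidHom.range_eq_map, Subgroup.range_subtype]
    have hinf : K.map M.subtype ⊓ H = ⊥ := by
      conv_lhs => rw [← Subgroup.map_subgroupOf_eq_of_le hHM]
      rw [← Subgroup.map_inf _ _ _ M.subtype_injective, hc.disjoint.eq_bot, Subgroup.map_bot]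
    obtain ⟨N, hN, -, h1, h2⟩ := Frob.wielandt M (K.map M.subtype) (Subgroup.map_subtype_le _)
      (by
        rintro h hh _ ⟨l, hl, rfl⟩
        exact ⟨_, hK.conj_mem l hl ⟨h, hh⟩, rfl⟩)
      (fun g hg x hx hgx => by
        have hp : ∀ y ∈ M, y ^ Nat.card K ∈ H := fun y hy => by
          have := (H.subgroupOf M).pow_index_mem ⟨y, hy⟩
          rwa [hi1] at this
        have h3 : x ^ Nat.card K = 1 := hTI g⁻¹ (fun e => hg (by simpa using M.inv_mem e)) _
          (hp x hx) (by
            rw [← conj_pow, inv_inv]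
            exact hp _ hgx)
        have h4 := K.pow_index_mem ⟨x, hx⟩
        rw [hi2] at h4
        have h5 : (orderOf (⟨x, hx⟩ : M)).Coprime (Nat.card H) := by
          rw [hi1] at hHall
          exact hHall.symm.coprime_dvd_left (orderOf_dvd_of_pow_eq_one (Subtype.ext h3))
        exact ⟨⟨x, hx⟩, (Subgroup.zpowers_le.2 h4)
          (mem_zpowers_pow_iff.2 (by rw [Nat.gcd_comm]; exact h5)), rfl⟩)
    refine ⟨N, hN, h1, ?_, ?_⟩
    · rw [← inf_eq_right.2 hHM, ← inf_assoc, h1, hinf]
    · rw [eq_top_iff, ← h2, ← hsup]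
      exact sup_le le_sup_left (sup_le ((h1 ▸ inf_le_left).trans le_sup_left) le_sup_right)
  refine ⟨⟨fun ⟨K, hK, hc⟩ => ?_, fun ⟨N, hN, hc⟩ => ⟨N.subgroupOf M, inferInstance, ?_⟩⟩,
    fun hnn ⟨K, hK, hc⟩ => ?_⟩
  · obtain ⟨N, hN, -, h1, h2⟩ := main K hK hc
    refine ⟨N, hN, Subgroup.isComplement'_of_disjoint_and_mul_eq_univ (disjoint_iff.2 h1) ?_⟩
    rw [← Subgroup.normal_mul, h2, Subgroup.coe_top]
  · refine Subgroup.isComplement'_of_disjoint_and_mul_eq_univ (disjoint_iff.2 ?_) ?_
    · rw [Subgroup.subgroupOf, Subgroup.subgroupOf, ← Subgroup.comap_inf, hc.disjoint.eq_bot]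
      exact Subgroup.bot_subgroupOf M
    · rw [Set.eq_univ_iff_forall]
      intro m
      obtain ⟨⟨n, h⟩, e⟩ := hc.2 (m : G)
      have hn : (n : G) ∈ M := by
        have : (n : G) = m * (h : G)⁻¹ := eq_mul_inv_of_mul_eq e
        rw [this]; exact M.mul_mem m.2 (M.inv_mem (hHM h.2))
      exact ⟨⟨n, hn⟩, n.2, ⟨h, hHM h.2⟩, h.2, Subtype.ext e⟩
  · obtain ⟨N, hN, h1, h2, h3⟩ := main K hK hc
    have hi1 : (H.subgroupOf M).index = Nat.card K := hc.index_eq_card
    have hNM : N ⊓ M ≤ Subgroup.centralizer (H : Set G) := fun r hr h hh => by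
      have h4 : h * r * h⁻¹ * r⁻¹ ∈ N ⊓ H :=
        ⟨N.mul_mem (hN.conj_mem r hr.1 h) (N.inv_mem hr.1), by
          have := H.mul_mem hh ((Subgroup.mem_normalizer_iff.1 hr.2 _).1 (H.inv_mem hh))
          simpa [mul_assoc] using this⟩
      rwa [h2, Subgroup.mem_bot, mul_inv_eq_one, mul_inv_eq_iff_eq_mul] at h4
    have hf : ∀ h ∈ H, h ≠ 1 → ∀ r ∈ N, h * r = r * h → r ∈ M := fun h hh h1 r _ hc => by
      by_contra hr
      exact h1 (hTI r hr h hh (by rw [← hc]; simpa using hh))
    have hH : H ≠ ⊥ := by rintro rfl; exact hnn inferInstance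
    have := (Subgroup.nontrivial_iff_ne_bot H).2 hH
    refine (Frob.isFC_of_same_centralizer (N := N) Subgroup.le_normalizer_of_normal ?_
      (fun e => hnn ?_) fun h hh h1 r hr hc => hNM ⟨hr, hf h hh h1 r hr hc⟩).exists_frobenius
    · refine Nat.coprime_of_dvd fun p hp hp1 hp2 => ?_
      have := Fact.mk hp
      obtain ⟨h, hh, ho⟩ := Core.exists_mem_orderOf_eq_of_dvd_card hp2
      have h4 := Coprime.card_modEq_card_inf_centralizer (p := p) (P := Subgroup.zpowers h) (Q := N)
        (IsPGroup.of_card (n := 1) (by rw [Nat.card_zpowers, ho, pow_one]))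
        Subgroup.le_normalizer_of_normal
      have h5 : N ⊓ Subgroup.centralizer ((Subgroup.zpowers h : Subgroup G) : Set G) ≤ N ⊓ M :=
        fun r hr => ⟨hr.1, hf h hh (by rintro rfl; exact hp.one_lt.ne (by simpa using ho)) r hr.1
          (hr.2 h (Subgroup.mem_zpowers h))⟩
      have h6 := ((h4.dvd_iff dvd_rfl).1 hp1).trans (Subgroup.card_dvd_of_le h5)
      rw [h1, Core.card_map_subtype, ← hi1] at h6
      exact hp.one_lt.ne' (Nat.eq_one_of_dvd_coprimes hHall hp2 h6)
    · rw [← Subgroup.normalizer_eq_top_iff, eq_top_iff, ← h3]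
      exact sup_le (e.trans (Subgroup.centralizer_le_normalizer _)) hHM

end Cfsg.Agent.S4115
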