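import Cfsg.Statements.S4117
import Cfsg.Agent.Lib.Coprime.TIHall

set_option autoImplicit false
open Cfsg

namespace Cfsg.Agent.S4117

/-- Let A be a finite group acting on the finite group G by automorphisms with the orders of A and G coprime, and suppose every Sylow subgroup of G is cyclic. Then the fixed-point subgroup C_G(A) is a Hall subgroup of G (its order is coprime to its index), the subgroup [G, A] generated by the elements g⁻¹·a(g) is cyclic and normal with [G, A] ∩ C_G(A) = 1 and [G, A]·C_G(A) = G. -/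
theorem result {G A : Type*} [Group G] [Finite G] [Group A] [Finite A]
    [MulDistribMulAction A G] (hcop : (Nat.card A).Coprime (Nat.card G))
    (hcyc : ∀ (p : ℕ) [Fact p.Prime] (P : Sylow p G), IsCyclic (P : Subgroup G)) :
    (Nat.card (MulAction.fixedPoints A G : Set G)).Coprime (Nat.card G / Nat.card (MulAction.fixedPoints A G : Set G)) ∧
    IsCyclic (Subgroup.closure {y : G | ∃ (a : A) (g : G), y = g⁻¹ * a • g}) ∧
    (Subgroup.closure {y : G | ∃ (a : A) (g : G), y = g⁻¹ * a • g}).Normal ∧
    (Subgroup.closure {y : G | ∃ (a : A) (g : G), y = g⁻¹ * a • g} : Set G) ∩ MulAction.fixedPoints A G = {1} ∧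
    Subgroup.closure {y : G | ∃ (a : A) (g : G), y = g⁻¹ * a • g} ⊔ Subgroup.closure (MulAction.fixedPoints A G) = ⊤ := by
  have hZ : IsZGroup G := ⟨fun p hp P => have := Fact.mk hp; hcyc p P⟩
  set φ := MulDistribMulAction.toMulAut A G with hφ
  have e1 : Subgroup.closure {y : G | ∃ (a : A) (g : G), y = g⁻¹ * a • g} =
      Coprime.commSub φ ⊤ ⊤ := (Coprime.commSub_top_top φ).symm
  have e2 : MulAction.fixedPoints A G = (Coprime.fixedSub φ ⊤ : Set G) :=
    Set.ext fun g => (Coprime.mem_fixedSub_top φ).symm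
  have hinv : Coprime.InvBy φ ⊤ ⊤ := fun _ _ _ _ => trivial
  have hn := (Coprime.map_inr_le_normalizer_iff φ).mpr hinv
  have hc := Coprime.coprime_map_inr_map_inl φ (B := ⊤) (H := ⊤) (by simpa using hcop)
  have hinj := SemidirectProduct.inl_injective (φ := φ)
  have : IsZGroup ((⊤ : Subgroup G).map (SemidirectProduct.inl : G →* G ⋊[φ] A)) :=
    IsZGroup.of_surjective (f := (SemidirectProduct.inl : G →* G ⋊[φ] A).subgroupMap ⊤)
      (MonoidHom.subgroupMap_surjective _ _)
  have h1 := Coprime.coprime_centralizer_relIndex_of_isZGroup hn hc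
  have h2 := Coprime.isCyclic_commutator_of_isZGroup hn
  have h3 := Coprime.inf_centralizer_inf_commutator_of_isZGroup hn hc
  have h4 := Coprime.act_fixedSub_sup_commSub φ hinv (by simpa using hcop) (Or.inr inferInstance)
  rw [← Subgroup.inf_relIndex_left, Coprime.map_inl_inf_centralizer, Coprime.card_map_inl,
    Subgroup.relIndex_map_map_of_injective _ _ hinj, top_inf_eq, Subgroup.relIndex_top_right] at h1
  rw [Coprime.commutator_map_inl_map_inr] at h2
  rw [Coprime.map_inl_inf_centralizer, Coprime.commutator_map_inl_map_inr,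
    ← Subgroup.map_inf _ _ _ hinj, Subgroup.map_eq_bot_iff_of_injective _ hinj, top_inf_eq] at h3
  rw [e1, e2]
  refine ⟨?_, isCyclic_of_surjective _ (Subgroup.equivMapOfInjective _ _ hinj).symm.surjective,
    inferInstance, ?_, ?_⟩
  · rwa [← (Coprime.fixedSub φ ⊤).card_mul_index, SetLike.coe_sort_coe,
      Nat.mul_div_cancel_left _ Nat.card_pos]
  · rw [← Subgroup.coe_inf, inf_comm, h3, Subgroup.coe_bot]
  · rwa [Subgroup.closure_eq, sup_comm, ← top_inf_eq (Coprime.fixedSub φ ⊤)]

end Cfsg.Agent.S4117
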