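import Cfsg.Statements.S4118
import Mathlib
import Cfsg.Agent.Lib.Schur.Zassenhaus
import Cfsg.Agent.Lib.Coprime.TIHall
import Cfsg.Agent.Lib.Frob.SameFixed
import Cfsg.Agent.Lib.Core.Component

set_option autoImplicit false
open Cfsg

namespace Cfsg.Agent.S4118

open Subgroup Cfsg.Agent.Schur

theorem isSolvable_of_normal_isFC {X : Type*} [Group X] [Finite X] {π : Set ℕ}
    (hsep : Coprime.IsPiSeparable π X) (h0 : piCore πᶜ X = ⊥) (h : Frob.IsFC (piCore π X))
    (hs : Group.IsSolvable (piCore π X)) : Group.IsSolvable X := by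
  have hC := Coprime.centralizer_piCore_le hsep h0
  rw [Group.isSolvable_iff_commutator_lt]
  intro P hP
  refine lt_of_le_of_ne (commutator_le_self P) fun hPP => ?_
  have h1 : P ≤ centralizer (fittingSubgroup X : Set X) := by
    rw [le_centralizer_iff]
    refine Core.fitting_le_of_forall_pCore_le fun p hp => le_centralizer_iff.1 ?_
    by_cases hπ : p ∈ π
    swap
    · have : pCore p X = ⊥ := le_bot_iff.1 (h0 ▸ Core.pCore_le_piCore (π := πᶜ) hπ)
      rw [this]
      exact le_centralizer_iff.1 bot_le
    have h2 := h.of_le (Core.pCore_le_piCore hπ)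
    have hp' := Core.isPGroup_pCore (G := X) p
    by_cases h3 : p = 2
    · subst h3
      obtain ⟨k, hk⟩ := card_mulAut_dvd_of_rank_le hp' (d := 2)
        ((Group.rank_congr topEquiv).symm.trans_le (rank_le_two_of_isFC h2 (hp'.to_subgroup ⊤)))
      have := Char.solvable_of_card_dvd_pow_mul_pow (b := 1) Nat.prime_two Nat.prime_three hk
      have h4 : P.map (MulAut.conjNormal : X →* MulAut (pCore 2 X)) = ⊥ := by
        by_contra h4
        have := Group.IsSolvable.commutator_lt_of_ne_bot h4
        rw [← map_commutator, hPP] at this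
        exact this.false
      intro g hg z hz
      have := congrArg (fun φ => (φ ⟨z, hz⟩ : X))
        (MonoidHom.mem_ker.1 ((Subgroup.map_eq_bot_iff _).1 h4 hg))
      exact (mul_inv_eq_iff_eq_mul.1 this).symm
    · have := h2.isCyclic_of_odd h3 (hp'.to_subgroup ⊤)
      have := isCyclic_of_surjective _ (topEquiv (G := pCore p X)).surjective
      rw [← hPP]
      exact (commutator_mono le_top le_top).trans (commutator_le_centralizer_of_isCyclic _)
  by_cases h2 : centralizer (fittingSubgroup X : Set X) ≤ fittingSubgroup X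
  · have h3 : Group.IsSolvable P := Coprime.isSolvable_of_le (h1.trans h2)
      (have := Core.isNilpotent_fitting (G := X); inferInstance)
    have h4 := Group.IsSolvable.commutator_lt_of_ne_bot (G := P) (H := ⊤) (by
      rwa [Ne, ← Subgroup.map_eq_bot_iff_of_injective _ P.subtype_injective,
        ← MonoidHom.range_eq_map, range_subtype])
    have h5 := (Subgroup.map_subtype_lt_map_subtype).2 h4
    rw [map_commutator, ← MonoidHom.range_eq_map, range_subtype, hPP] at h5
    exact h5.false
  · obtain ⟨K, hK, -⟩ := Core.exists_component_le_of_not_le_fitting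
      (Subgroup.Normal.isSubnormal inferInstance) le_rfl h2
    exact Core.component_not_isSolvable hK (Coprime.isSolvable_of_le
      ((Core.component_le_centralizer_of_isSolvable hK
        (Subgroup.Normal.isSubnormal inferInstance) hs).trans hC) hs)

/-- Let G be a finite group and H a non-normal subgroup meeting each of its conjugates by elements outside N_G(H) trivially, with the order of H coprime to its index in N_G(H); let π be the set of primes dividing the order of H and suppose G is π-separable (it has a chain of normal subgroups from 1 to G each of whose factors has order divisible only by primes in π or coprime to the order of H). Let O be the largest normal subgroup of G of order coprime to the order of H. Then G = O·N_G(H), O·H is normal in G, and G is solvable if and only if O is solvable and H has no subgroup isomorphic to SL₂(5). -/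
theorem result {G : Type*} [Group G] [Finite G] (H : Subgroup G)
    (hTI : Cfsg.IsTISubset (H : Set G)) (hnn : ¬ H.Normal)
    (hHall : (Nat.card H).Coprime (H.subgroupOf (Subgroup.normalizer (H : Set G))).index)
    (hsep : ∃ (n : ℕ) (M : Fin (n + 1) → Subgroup G), M 0 = ⊥ ∧ M (Fin.last n) = ⊤ ∧ Monotone M ∧ (∀ i, (M i).Normal) ∧
      ∀ i : Fin n, (∀ q : ℕ, q.Prime → q ∣ (M i.castSucc).relIndex (M i.succ) → q ∣ Nat.card H) ∨
        ((M i.castSucc).relIndex (M i.succ)).Coprime (Nat.card H))
    (O : Subgroup G) (hO : O = sSup {K : Subgroup G | K.Normal ∧ (Nat.card K).Coprime (Nat.card H)}) :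
    O ⊔ Subgroup.normalizer (H : Set G) = ⊤ ∧ (O ⊔ H).Normal ∧
    (Group.IsSolvable G ↔ Group.IsSolvable O ∧
      ∀ K : Subgroup G, K ≤ H → ¬ Nonempty (K ≃* Matrix.SpecialLinearGroup (Fin 2) (ZMod 5))) := by
  have hH := Coprime.coprime_index_of_isTISubset hTI hHall
  have hsep' := Coprime.isPiSeparable_of_coprime_chain hsep
  have h1 := Coprime.piCore_sup_normalizer_of_isTISubset hH hTI hsep'
  have h3 := Coprime.coprime_card_piCore_compl H
  obtain rfl : O = piCore {q | q ∣ Nat.card H}ᶜ G := by
    rw [hO]
    refine le_antisymm (sSup_le fun K hK => ?_) (le_sSup ⟨inferInstance, h3.symm⟩)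
    have := hK.1
    exact Core.le_piCore fun p hp h1 h2 =>
      hp.ne_one (Nat.eq_one_of_dvd_coprimes hK.2 h1 h2)
  clear hO
  set O := piCore {q | q ∣ Nat.card H}ᶜ G with hO
  have hn : (O ⊔ H).Normal := by
    rw [← normalizer_eq_top_iff, eq_top_iff, ← h1]
    exact sup_le (le_sup_left.trans le_normalizer)
      (Core.le_normalizer_sup le_normalizer_of_normal le_rfl)
  have hd : O ⊓ H = ⊥ := Core.inf_eq_bot_of_coprime_card h3.symm
  have hFC : Frob.IsFC H := by
    refine Frob.isFC_of_same_centralizer (N := O) le_normalizer_of_normal h3.symm (fun h => hnn ?_)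
      fun h hh h1 r hr e x hx => ?_
    · rw [← normalizer_eq_top_iff, ← h1, sup_eq_right.2 (h.trans (centralizer_le_normalizer _))]
    · have h4 : r ∈ normalizer (H : Set G) := Coprime.centralizer_le_of_isTISubset hTI hh h1
        (mem_centralizer_singleton_iff.2 e.symm)
      have h5 : x * r * x⁻¹ * r⁻¹ ∈ O ⊓ H :=
        ⟨O.mul_mem (Subgroup.Normal.conj_mem inferInstance _ hr x) (O.inv_mem hr), by
          rw [mul_assoc, mul_assoc, ← mul_assoc r]
          exact mul_mem hx ((mem_normalizer_iff.1 h4 _).1 (inv_mem hx))⟩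
      rw [hd, mem_bot, mul_inv_eq_one, mul_inv_eq_iff_eq_mul] at h5
      exact h5
  refine ⟨h1, hn, fun hs => ⟨inferInstance, fun K _ ⟨e⟩ => not_isSolvable_of_equiv_SL5 e hs⟩,
    fun ⟨hO', hK⟩ => ?_⟩
  have hs : Group.IsSolvable H := (isSolvable_iff_no_SL5 hFC).2 fun K ⟨e⟩ =>
    hK (K.map H.subtype) (map_subtype_le K)
      ⟨(K.equivMapOfInjective _ H.subtype_injective).symm.trans e⟩
  have hinj : Function.Injective ((QuotientGroup.mk' O).subgroupMap H) := by
    rw [injective_iff_map_eq_one]
    intro x hx
    have : (x : G) ∈ O ⊓ H := ⟨(QuotientGroup.eq_one_iff _).1 (congrArg Subtype.val hx), x.2⟩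
    rw [hd] at this
    exact Subtype.ext this
  let e := MulEquiv.ofBijective _ ⟨hinj, (QuotientGroup.mk' O).subgroupMap_surjective H⟩
  have hc : Nat.card (H.map (QuotientGroup.mk' O)) = Nat.card H := (Nat.card_congr e.toEquiv).symm
  have hn' : (H.map (QuotientGroup.mk' O)).Normal := by
    have := hn.map _ (QuotientGroup.mk'_surjective O)
    rwa [Subgroup.map_sup, QuotientGroup.map_mk'_self, bot_sup_eq] at this
  have hpi : piCore {q | q ∣ Nat.card H} (G ⧸ O) = H.map (QuotientGroup.mk' O) := by
    refine le_antisymm (Coprime.le_of_le_normalizer_of_coprime le_normalizer_of_normal ?_)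
      (Core.le_piCore fun p _ h => hc ▸ h)
    rw [normalizer_eq_top, relIndex_top_right]
    refine Nat.coprime_of_dvd fun p hp h1 h2 => hp.ne_one (Nat.eq_one_of_dvd_coprimes hH
      (Core.mem_of_dvd_card_piCore _ p hp h1)
      (h2.trans (H.index_map_dvd (QuotientGroup.mk'_surjective O))))
  refine Cls.isSolvable_of_normal_of_quotient O hO' (isSolvable_of_normal_isFC (hsep'.quotient O)
    Core.piCore_quotient_piCore ?_ ?_)
  · rw [hpi]
    exact hFC.of_mulEquiv e.symm
  · rw [hpi]
    exact Coprime.isSolvable_map _ _ hs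

end Cfsg.Agent.S4118
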