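import Cfsg.Statements.S4120
import Cfsg.Agent.Lib.Mod.FrobAut
import Cfsg.Agent.Lib.Coprime.Semidirect

set_option autoImplicit false
open Cfsg

namespace Cfsg.Agent.S4120


/-- Let the finite group A act faithfully on the finite group G by automorphisms, and suppose A is a Frobenius group with kernel F and complement H such that F fixes only the identity of G. If the fixed-point subgroup C_G(H) is nilpotent, then G is nilpotent. -/
theorem result {G A : Type*} [Group G] [Finite G] [Group A] [Finite A] [MulDistribMulAction A G] [FaithfulSMul A G]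
    (Fk Hc : Subgroup A) [Fk.Normal] (hHc : Cfsg.IsFrobeniusComplement Hc) (hker : Cfsg.frobeniusKernel Hc = (Fk : Set A))
    (hCF : ∀ g : G, (∀ f ∈ Fk, f • g = g) → g = 1) (hnil : Group.IsNilpotent (Subgroup.closure {g : G | ∀ h ∈ Hc, h • g = g})) : Group.IsNilpotent G := by
  let φ := MulDistribMulAction.toMulAut A G
  obtain ⟨hF, htop⟩ := Frob.isFrobPair_of_kernel_eq hHc hker
  have h1 : Mod.NilFrob Fk Hc :=
    ⟨Transfer.isNilpotent_of_isFrobPair hF, hF.le_normalizer, hF.fpf⟩
  haveI : ((⊤ : Subgroup G).map (SemidirectProduct.inl : G →* G ⋊[φ] A)).Normal := by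
    rw [← MonoidHom.range_eq_map, SemidirectProduct.range_inl_eq_ker_rightHom]
    infer_instance
  have h2 := (h1.map (SemidirectProduct.inr : A →* G ⋊[φ] A)).isNilpotent
    (G := (⊤ : Subgroup G).map SemidirectProduct.inl) Subgroup.le_normalizer_of_normal
    (by
      rw [Coprime.map_inl_inf_centralizer, top_inf_eq, Subgroup.map_eq_bot_iff_of_injective _
        SemidirectProduct.inl_injective, eq_bot_iff]
      exact fun g hg => hCF g hg)
    (by
      rw [Coprime.map_inl_inf_centralizer, top_inf_eq]
      refine Core.isNilpotent_map (Core.isNilpotent_of_le hnil fun g hg => ?_) _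
      exact Subgroup.subset_closure hg)
  rw [← MonoidHom.range_eq_map] at h2
  exact (Group.isNilpotent_congr (MonoidHom.ofInjective SemidirectProduct.inl_injective)).mpr h2

end Cfsg.Agent.S4120
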