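import Cfsg.Statements.S4122
import Cfsg.Agent.Lib.FA.Act

set_option autoImplicit false
open Cfsg

namespace Cfsg.Agent.S4122

/-- Let the finite group A act faithfully on the finite group G by automorphisms, A a Frobenius group with kernel F and complement H such that F fixes only the identity of G. Then G is generated by the images under elements of F of the fixed-point subgroup C_G(H). -/
theorem result {G A : Type*} [Group G] [Finite G] [Group A] [Finite A] [MulDistribMulAction A G] [FaithfulSMul A G]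
    (Fk Hc : Subgroup A) [Fk.Normal] (hHc : Cfsg.IsFrobeniusComplement Hc) (hker : Cfsg.frobeniusKernel Hc = (Fk : Set A))
    (hCF : ∀ g : G, (∀ f ∈ Fk, f • g = g) → g = 1) : Subgroup.closure {x : G | ∃ f ∈ Fk, ∃ c : G, (∀ h ∈ Hc, h • c = c) ∧ x = f • c} = ⊤ := by
  let φ := MulDistribMulAction.toMulAut A G
  have hf := FA.nilFrob_of hHc hker
  have h := FA.nf_map φ (N := ⊤) hf.nil (fun _ _ _ _ => trivial) fun g _ => hCF g
  have key : ∀ a : A, (∀ f ∈ Fk, ∃ f' ∈ Fk, ∃ b ∈ Hc, a * f = f' * b) → ∀ x ∈ Subgroup.closure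
      {x : G | ∃ f ∈ Fk, ∃ c : G, (∀ h ∈ Hc, h • c = c) ∧ x = f • c}, φ a x ∈ Subgroup.closure
      {x : G | ∃ f ∈ Fk, ∃ c : G, (∀ h ∈ Hc, h • c = c) ∧ x = f • c} := fun a ha x hx => by
    refine Subgroup.mem_comap (f := (φ a).toMonoidHom) |>.1 ((Subgroup.closure_le _).2 ?_ hx)
    rintro _ ⟨f, hf, c, hc, rfl⟩
    obtain ⟨f', hf', b, hb, e⟩ := ha f hf
    exact Subgroup.subset_closure ⟨f', hf', c, hc, by
      change a • f • c = _
      rw [smul_smul, e, mul_smul, hc b hb]⟩
  rw [eq_top_iff, ← Coprime.map_inl_le_map_inl_iff φ]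
  refine h.le_of_cent_le (hf.map SemidirectProduct.inr)
    ((Coprime.map_inr_le_normalizer_iff φ).2 fun _ _ _ _ => trivial)
    ((Coprime.map_inr_le_normalizer_iff φ).2 fun a ha => key a fun f hf =>
      ⟨a * f, mul_mem ha hf, 1, one_mem _, (mul_one _).symm⟩)
    ((Coprime.map_inr_le_normalizer_iff φ).2 fun a ha => key a fun f hf =>
      ⟨a * f * a⁻¹, Subgroup.Normal.conj_mem inferInstance f hf a, a, ha, by group⟩) ?_
  rw [Coprime.map_inl_inf_centralizer]
  exact Subgroup.map_mono fun c hc => Subgroup.subset_closure ⟨1, one_mem _, c, hc.2, by simp⟩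

end Cfsg.Agent.S4122
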