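import Cfsg.Statements.S4123
import Cfsg.Agent.Lib.FA.Act

set_option autoImplicit false
open Cfsg

namespace Cfsg.Agent.S4123

/-- Let the finite group A act faithfully on the finite group G by automorphisms, A a Frobenius group with kernel F and complement H such that F fixes only the identity of G. Then for every prime p there is exactly one A-invariant Sylow p-subgroup of G. -/
theorem result {G A : Type*} [Group G] [Finite G] [Group A] [Finite A] [MulDistribMulAction A G] [FaithfulSMul A G]
    (Fk Hc : Subgroup A) [Fk.Normal] (hHc : Cfsg.IsFrobeniusComplement Hc) (hker : Cfsg.frobeniusKernel Hc = (Fk : Set A))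
    (hCF : ∀ g : G, (∀ f ∈ Fk, f • g = g) → g = 1) (p : ℕ) [Fact p.Prime] : ∃! P : Sylow p G, ∀ (a : A) (x : G), x ∈ (P : Subgroup G) → a • x ∈ (P : Subgroup G) := by
  let φ := MulDistribMulAction.toMulAut A G
  have h := FA.nf_map φ (N := ⊤) (FA.nilFrob_of hHc hker).nil (fun _ _ _ _ => trivial)
    fun g _ => hCF g
  obtain ⟨P, hP, hF⟩ := h.exists_syl p
  have hA := h.norm_syl (H := (⊤ : Subgroup A).map SemidirectProduct.inr) hP hF
    ((Coprime.map_inr_le_normalizer_iff φ).2 fun _ _ _ _ => trivial)
    (OO.map_le_norm _ Subgroup.le_normalizer_of_normal)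
  obtain ⟨Q, -, rfl⟩ := Coprime.exists_map_inl_eq φ hP.le
  have hQ := (Coprime.isSylowIn_map_iff_of_injective SemidirectProduct.inl_injective).1 hP
  refine ⟨hQ.2.1.toSylow (by simpa using hQ.2.2), fun a x hx =>
    (Coprime.map_inr_le_normalizer_iff φ).1 hA a trivial x hx, fun S hS => Sylow.ext ?_⟩
  refine Subgroup.map_injective (SemidirectProduct.inl_injective (φ := φ)) ?_
  exact h.syl_eq hP ((Coprime.isSylowIn_map_iff_of_injective SemidirectProduct.inl_injective).2
    ⟨le_top, S.isPGroup', by simpa using S.not_dvd_index⟩) hF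
    ((Coprime.map_inr_le_normalizer_iff φ).2 fun a _ x hx => hS a x hx)

end Cfsg.Agent.S4123
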