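import Mathlib
import Cfsg.Statements.S4126
import Cfsg.Agent.Lib.Transfer.Camina

set_option autoImplicit false
open Cfsg

namespace Cfsg.Agent.S4126



/-- Let G be a finite group and p a prime. Suppose every element of order p, and when p = 2 also every element of order 4, has a conjugacy class of p-power size. Then G has a normal p-complement. -/
theorem result {G : Type*} [Group G] [Finite G] (p : ℕ) [Fact p.Prime]
    (h : ∀ x : G, (orderOf x = p ∨ (p = 2 ∧ orderOf x = 4)) → ∃ a : ℕ, (Subgroup.centralizer ({x} : Set G)).index = p ^ a) :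
    Cfsg.HasNormalPComplement p G := by
  have hp : p.Prime := Fact.out
  obtain ⟨q, hq1, hq2, hq3⟩ : ∃ q : ℕ, p ∣ q.choose 2 ∧ p ∣ q ∧
      ∀ x : G, x ^ q = 1 → ∃ a : ℕ, (Subgroup.centralizer ({x} : Set G)).index = p ^ a := by
    have h1 : ∀ x : G, x ^ p = 1 → ∃ a : ℕ, (Subgroup.centralizer ({x} : Set G)).index = p ^ a :=
      fun x hx => by
        by_cases hx1 : x = 1
        · exact ⟨0, Cls.index_centralizer_eq_one_iff.mpr (hx1 ▸ one_mem _)⟩
        · exact h x (Or.inl (orderOf_eq_prime hx hx1))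
    by_cases hp2 : p = 2
    · subst hp2
      refine ⟨4, by decide, by decide, fun x hx => ?_⟩
      by_cases hx2 : x ^ 2 = 1
      · exact h1 x hx2
      · exact h x (Or.inr ⟨rfl, orderOf_eq_prime_pow (p := 2) (n := 1) (by simpa using hx2) hx⟩)
    · exact ⟨p, PGrp.dvd_choose_two_of_odd (hp.odd_of_ne_two hp2), dvd_rfl, h1⟩
  obtain ⟨C, hCO, hCn, hC1, hC2, -, hC⟩ := PGrp.exists_critical_subgroup (Core.isPGroup_pCore (G := G) p)
  have hCC : ⁅C, C⁆ ≤ Subgroup.centralizer (C : Set G) :=
    (Subgroup.commutator_mono le_rfl hCO).trans hC1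
  have hCN : C.Normal := Core.normal_iff_top_le_normalizer.mpr
    (Subgroup.le_normalizer_of_normal.trans hCn)
  let D : Subgroup G :=
    { carrier := {x | x ∈ C ∧ x ^ q = 1}
      mul_mem' := fun ha hb => ⟨mul_mem ha.1 hb.1, by
        rw [PGrp.mul_pow_of_critical hCC hC2 hq1 ha.1 hb.1, ha.2, hb.2, one_mul]⟩
      one_mem' := ⟨one_mem _, one_pow _⟩
      inv_mem' := fun ha => ⟨inv_mem ha.1, by rw [inv_pow, ha.2, inv_one]⟩ }
  have hDn : D.Normal := ⟨fun x hx g => ⟨hCN.conj_mem x hx.1 g, by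
    rw [conj_pow, hx.2, mul_one, mul_inv_cancel]⟩⟩
  have hCp : IsPGroup p C := (Core.isPGroup_pCore p).to_le hCO
  have hDp : IsPGroup p D := hCp.to_le fun x hx => hx.1
  have key : ∀ g : G, (orderOf g).Coprime p → g ∈ Subgroup.centralizer (pCore p G : Set G) := by
    intro g hg
    have hco : ∀ K : Subgroup G, IsPGroup p K → (Nat.card (Subgroup.zpowers g)).Coprime (Nat.card K) :=
      fun K hK => by
        rw [Nat.card_zpowers]
        exact (Core.coprime_card_of_isPGroup hK hg).symm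
    refine hC (Subgroup.zpowers g) Subgroup.le_normalizer_of_normal (hco _ (Core.isPGroup_pCore p))
      (PGrp.le_centralizer_of_pow_eq_one hq1 hq2 hCp Subgroup.le_normalizer_of_normal (hco _ hCp)
        fun x hx hxq => ?_) (Subgroup.mem_zpowers g)
    exact Subgroup.le_centralizer_iff.mp (Subgroup.zpowers_le.mpr
      (Transfer.mem_centralizer_of_index_eq_pow hDp (fun y hy => hq3 y hy.2) hg)) (⟨hx, hxq⟩ : x ∈ D)
  obtain ⟨P⟩ : Nonempty (Sylow p G) := inferInstance
  refine Transfer.frobenius_of_omega P fun X _ g _ hg x _ hx => key g hg x ?_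
  obtain ⟨a, ha⟩ := h x hx
  rcases hx with hx | ⟨rfl, hx⟩
  · exact Transfer.mem_pCore_of_index_eq_pow (k := 1) (by rw [hx, pow_one]) ha
  · exact Transfer.mem_pCore_of_index_eq_pow (k := 2) hx ha

end Cfsg.Agent.S4126
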