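import Mathlib
import Cfsg.Statements.S4127
import Cfsg.Agent.Lib.Transfer.Camina

set_option autoImplicit false
open Cfsg

namespace Cfsg.Agent.S4127



/-- Let G be a finite group, p a prime and p^a the largest power of p dividing the size of any conjugacy class of G. If some element of p-power order has a conjugacy class of size exactly p^a, then G has a normal p-complement. -/
theorem result {G : Type*} [Group G] [Finite G] (p : ℕ) [Fact p.Prime]
    (a : ℕ) (hmax : ∀ y : G, ¬ p ^ (a + 1) ∣ (Subgroup.centralizer ({y} : Set G)).index)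
    (hx : ∃ x : G, (∃ k : ℕ, orderOf x = p ^ k) ∧ (Subgroup.centralizer ({x} : Set G)).index = p ^ a) :
    Cfsg.HasNormalPComplement p G := by
  have hp : p.Prime := Fact.out
  obtain ⟨x, ⟨k, hk⟩, ha⟩ := hx
  have hxO := Transfer.mem_pCore_of_index_eq_pow hk ha
  set C := Subgroup.centralizer ({x} : Set G) with hC
  obtain ⟨S⟩ : Nonempty (Sylow p C) := inferInstance
  obtain ⟨hSn, hS⟩ := Transfer.sylow_normal_of_not_dvd_index (G := C) (p := p) (fun y hy hd => by
    rw [Cls.index_centralizer_subgroup] at hd
    have hy' : (orderOf (y : G)).Coprime p := by simpa using hy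
    refine hmax (x * y) ?_
    rw [Cls.centralizer_single_mul (Subgroup.mem_centralizer_singleton_iff.mp y.2).symm
      (hk ▸ Nat.Coprime.pow_left _ hy'.symm), ← Subgroup.relIndex_mul_index inf_le_left,
      Subgroup.inf_relIndex_left, ha, pow_succ']
    exact Nat.mul_dvd_mul_right hd _) S
  set R := (S : Subgroup C).map C.subtype with hR
  have hRS : Transfer.IsSylowIn p R C := Transfer.isSylowIn_map_subtype S
  have hCR : C ≤ Subgroup.normalizer (R : Set G) := Core.le_normalizer_map_subtype C _
  have hle : ∀ Y : Subgroup G, IsPGroup p Y → Y ≤ C → Y ≤ R := fun Y hY hYC => by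
    have := hRS.eq_of_le (hRS.isPGroup.to_sup_of_normal_left' hY (hYC.trans hCR)) le_sup_left
      (sup_le hRS.le hYC)
    exact this ▸ le_sup_right
  have hxR : x ∈ R := hle _ (Core.isPGroup_zpowers_of_orderOf hk) (Cls.zpowers_le_centralizer_single x)
    (Subgroup.mem_zpowers x)
  have hcen : ∀ y ∈ C, (orderOf y).Coprime p → y ∈ Subgroup.centralizer (R : Set G) := by
    rintro y hy hyp _ ⟨s, hs, rfl⟩
    exact congrArg Subtype.val (hS ⟨y, hy⟩ (by simpa using hyp) s hs)
  have hO : ∀ y ∈ C, (orderOf y).Coprime p → y ∈ Subgroup.centralizer (pCore p G : Set G) := by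
    intro y hy hyp
    have h1 : R ≤ Subgroup.centralizer (Subgroup.zpowers y : Set G) :=
      Subgroup.le_centralizer_iff.mp (Subgroup.zpowers_le.mpr (hcen y hy hyp))
    refine Coprime.thompson_AxB hRS.isPGroup (Q := Subgroup.zpowers y)
      (by rwa [Nat.card_zpowers]) h1 (Core.isPGroup_pCore p) Subgroup.le_normalizer_of_normal
      Subgroup.le_normalizer_of_normal (le_trans (hle _ (Core.isPGroup_pCore p).to_inf_left ?_) h1)
      (Subgroup.mem_zpowers y)
    exact fun u hu => Subgroup.mem_centralizer_singleton_iff.mpr (hu.2 x hxR).symm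
  set K := Subgroup.centralizer (pCore p G : Set G) with hK
  have hKC : K ≤ C := fun u hu => Subgroup.mem_centralizer_singleton_iff.mpr (hu x hxO).symm
  have hCp := Transfer.hasNormalPComplement_of_forall_mem_centralizer S hS
  refine Transfer.hasNormalPComplement_of_normal_of_isPGroup_quotient K ?_
    (Transfer.hasNormalPComplement_of_le hKC hCp)
  have h1 : IsPGroup p (C ⧸ K.subgroupOf C) := Transfer.isPGroup_quotient_of_coprime_mem hO
  obtain ⟨n, hn⟩ := h1.exists_card_eq
  refine IsPGroup.of_card (n := n + a) ?_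
  rw [← Subgroup.index_eq_card, ← Subgroup.relIndex_mul_index hKC, ha, pow_add, ← hn]
  rfl

end Cfsg.Agent.S4127
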