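import Cfsg.Statements.S4134
import Mathlib
import Cfsg.Agent.Lib.Reg.SmallClasses
import Cfsg.Agent.Lib.PGrp.ClassTwo

set_option autoImplicit false
open Cfsg

namespace Cfsg.Agent.S4134

open scoped commutatorElement

section
open Subgroup

variable {G : Type*} [Group G] [Finite G]

theorem exists_p_elem {Z H : Subgroup G} [Z.Normal] {r : ℕ} (hr : r.Prime) (h : r ∣ Z.relIndex H) :
    ∃ w ∈ H, w ∉ Z ∧ ∃ k, orderOf w = r ^ k := by
  have : Fact r.Prime := ⟨hr⟩
  obtain ⟨u, hu⟩ := exists_prime_orderOf_dvd_card' (G := H ⧸ Z.subgroupOf H) r h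
  obtain ⟨v, rfl⟩ := QuotientGroup.mk'_surjective _ u
  obtain ⟨w, -, hw, k, hk⟩ := Cls.exists_p_lift hr (QuotientGroup.mk' (Z.subgroupOf H)) v
    ⟨1, by rw [hu, pow_one]⟩
  refine ⟨w, w.2, fun hZ => ?_, k, by rw [← hk, orderOf_coe]⟩
  have : QuotientGroup.mk' (Z.subgroupOf H) w = 1 := (QuotientGroup.eq_one_iff _).mpr hZ
  rw [← hw, this, orderOf_one] at hu
  exact hr.ne_one hu.symm

theorem dvd_relIndex_of_p_elem {Z H : Subgroup G} [Z.Normal] {r : ℕ} (hr : r.Prime) {w : G}
    (hw : w ∈ H) (hZ : w ∉ Z) {k : ℕ} (hk : orderOf w = r ^ k) : r ∣ Z.relIndex H := by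
  have h1 : orderOf (QuotientGroup.mk' (Z.subgroupOf H) ⟨w, hw⟩) ∣ r ^ k := by
    rw [← hk, ← orderOf_mk w hw]; exact orderOf_map_dvd _ _
  obtain ⟨j, -, hj⟩ := (Nat.dvd_prime_pow hr).mp h1
  refine dvd_trans ?_ (orderOf_dvd_natCard (QuotientGroup.mk' (Z.subgroupOf H) ⟨w, hw⟩))
  rw [hj]
  refine dvd_pow_self r fun h0 => hZ ?_
  rw [h0, pow_zero, orderOf_eq_one_iff] at hj
  exact (QuotientGroup.eq_one_iff (⟨w, hw⟩ : H)).mp hj

variable {n : ℕ} (h : ∀ x : G, x ∉ center G → (centralizer ({x} : Set G)).index = n)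
include h

theorem cent_eq {x y : G} (hx : x ∉ center G) (hy : y ∉ center G)
    (hle : centralizer ({x} : Set G) ≤ centralizer {y}) :
    centralizer ({x} : Set G) = centralizer {y} := by
  have h1 := relIndex_mul_index hle
  rw [h x hx, ← h y hy, Nat.mul_eq_right index_ne_zero_of_finite, relIndex_eq_one] at h1
  exact le_antisymm hle h1

theorem cent_le_of_coprime {u v : G} (hu : u ∉ center G) (hc : Commute u v)
    (hco : (orderOf u).Coprime (orderOf v)) : centralizer ({u} : Set G) ≤ centralizer {v} := by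
  have h1 := Cls.centralizer_single_mul hc hco
  have h2 : u * v ∉ center G := fun h2 => hu (Cls.centralizer_single_eq_top_iff.mp
    (eq_top_iff.mpr ((Cls.centralizer_single_eq_top_iff.mpr h2).ge.trans (h1.le.trans inf_le_left))))
  rw [← cent_eq h h2 hu (h1.le.trans inf_le_left)]
  exact h1.le.trans inf_le_right

theorem relIndex_mul {x : G} (hx : x ∉ center G) :
    (center G).relIndex (centralizer {x}) * n = (center G).index := by
  rw [← h x hx, relIndex_mul_index (Cls.center_le_centralizer_single x)]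

theorem relIndex_eq {x y : G} (hx : x ∉ center G) (hy : y ∉ center G) :
    (center G).relIndex (centralizer {x}) = (center G).relIndex (centralizer {y}) :=
  Nat.eq_of_mul_eq_mul_right (h x hx ▸ Nat.pos_of_ne_zero index_ne_zero_of_finite)
    ((relIndex_mul h hx).trans (relIndex_mul h hy).symm)

theorem dvd_relIndex {x : G} (hx : x ∉ center G) {r : ℕ} (hr : r.Prime)
    (hd : r ∣ (center G).index) : r ∣ (center G).relIndex (centralizer {x}) := by
  obtain ⟨w, -, hw, k, hk⟩ := exists_p_elem (Z := center G) (H := ⊤) hr (by simpa using hd)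
  rw [relIndex_eq h hx hw]
  exact dvd_relIndex_of_p_elem hr (Cls.self_mem_centralizer_single w) hw hk

omit h in
theorem exists_part {x : G} (hx : x ∉ center G) :
    ∃ r : ℕ, r.Prime ∧ ∃ u ∈ zpowers x, u ∉ center G ∧ ∃ k, orderOf u = r ^ k := by
  by_contra hne
  push Not at hne
  exact hx (Cls.mem_of_forall_prime_pow fun r hr u hu ⟨k, hk⟩ => by
    by_contra h1
    exact hne r hr u hu h1 k hk)

theorem cent_le_of_two_primes {p q : ℕ} (hp : p.Prime) (hq : q.Prime) (hpq : p ≠ q)
    (hp' : p ∣ (center G).index) (hq' : q ∣ (center G).index) {x : G} (hx : x ∉ center G) {g : G}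
    (hg : g ∈ centralizer ({x} : Set G)) : centralizer ({x} : Set G) ≤ centralizer {g} := by
  obtain ⟨r, hr, u, hu, huZ, k, hk⟩ := exists_part hx
  rw [cent_eq h hx huZ (Cls.centralizer_single_le_of_mem_zpowers hu)] at hg ⊢
  obtain ⟨s, hs, hsr, hs'⟩ : ∃ s : ℕ, s.Prime ∧ s ≠ r ∧ s ∣ (center G).index := by
    by_cases h1 : p = r
    · exact ⟨q, hq, fun h2 => hpq (h1.trans h2.symm), hq'⟩
    · exact ⟨p, hp, h1, hp'⟩
  obtain ⟨w, hw, hwZ, l, hl⟩ := exists_p_elem hs (dvd_relIndex h huZ hs hs')
  have hrs : ∀ i j, (r ^ i).Coprime (s ^ j) := fun i j =>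
    Nat.coprime_pow_primes i j hr hs hsr.symm
  have e : centralizer ({u} : Set G) = centralizer {w} := cent_eq h huZ hwZ
    (cent_le_of_coprime h huZ (Cls.mem_centralizer_single_commute.mp hw).symm
      (by rw [hk, hl]; exact hrs _ _))
  obtain ⟨a, ha, b, hb, rfl, ⟨j, hj⟩, hb'⟩ := Cls.exists_p_part hr g
  have h1 : centralizer ({u} : Set G) ≤ centralizer {b} := cent_le_of_coprime h huZ
    (Cls.mem_centralizer_single_commute.mp (zpowers_le.mpr hg hb)).symm
    (by rw [hk]; exact hb'.symm.pow_left _)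
  have h2 : centralizer ({w} : Set G) ≤ centralizer {a} := cent_le_of_coprime h hwZ
    (Cls.mem_centralizer_single_commute.mp (zpowers_le.mpr (e ▸ hg) ha)).symm
    (by rw [hl, hj]; exact (hrs _ _).symm)
  intro c hc
  exact Cls.mem_centralizer_single_commute.mpr
    ((Cls.mem_centralizer_single_commute.mp (h2 (e ▸ hc))).mul_right
      (Cls.mem_centralizer_single_commute.mp (h1 hc)))

theorem pow_lt_pow {p q : ℕ} (hp : p.Prime) (hq : q.Prime) (hpq : p ≠ q)
    (hp' : p ∣ (center G).index) (hq' : q ∣ (center G).index) {x₀ : G} (hx₀ : x₀ ∉ center G) :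
    p ^ n.factorization p < q ^ ((center G).relIndex (centralizer {x₀})).factorization q := by
  have : Fact p.Prime := ⟨hp⟩
  have : Fact q.Prime := ⟨hq⟩
  obtain ⟨P⟩ : Nonempty (Sylow p G) := inferInstance
  obtain ⟨x, hxZ, hx⟩ : ∃ x : G, x ∉ center G ∧ ∀ g ∈ (P : Subgroup G), ⁅g, x⁆ ∈ center G := by
    have h1 : (P : Subgroup G).map (QuotientGroup.mk' (center G)) ≠ ⊥ := by
      rw [Ne, Subgroup.map_eq_bot_iff, QuotientGroup.ker_mk']
      exact fun h2 => P.not_dvd_index (hp'.trans (index_dvd_of_le h2))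
    have h2 := PGrp.inf_centralizer_ne_bot (P.isPGroup'.map _) (P.isPGroup'.map _) le_normalizer h1
    obtain ⟨⟨y, hy⟩, hy1⟩ := ne_bot_iff_exists_ne_one.mp h2
    obtain ⟨x, rfl⟩ := QuotientGroup.mk'_surjective _ y
    refine ⟨x, fun h3 => hy1 (Subtype.ext ((QuotientGroup.eq_one_iff _).mpr h3)), fun g hg => ?_⟩
    rw [← QuotientGroup.eq_one_iff]
    exact commutatorElement_eq_one_iff_mul_comm.mpr (hy.2 _ (mem_map_of_mem _ hg))
  rw [relIndex_eq h hx₀ hxZ]
  set A := centralizer ({x} : Set G) with hA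
  have hab := fun g => cent_le_of_two_primes h hp hq hpq hp' hq' hxZ (g := g)
  obtain ⟨a, ha, haZ, k, hk⟩ := exists_p_elem hq (dvd_relIndex h hxZ hq hq')
  have hconj : ∀ g ∈ (P : Subgroup G), ∀ t ∈ A, g * t * g⁻¹ ∈ A := by
    intro g hg t ht
    have h1 := mem_center_iff.mp (hx g⁻¹ (inv_mem hg)) t
    have h2 : g⁻¹ * x * g = ⁅g⁻¹, x⁆ * x := by simp [commutatorElement_def]
    have h3 : t * (g⁻¹ * x * g) = (g⁻¹ * x * g) * t := by
      rw [h2, ← mul_assoc, h1, mul_assoc, Cls.mem_centralizer_single.mp ht, mul_assoc]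
    rw [Cls.mem_centralizer_single]
    calc g * t * g⁻¹ * x = g * (t * (g⁻¹ * x * g)) * g⁻¹ := by group
      _ = x * (g * t * g⁻¹) := by rw [h3]; group
  let T : Subgroup G :=
    { carrier := {t | t ∈ A ∧ t ^ q ^ k ∈ center G}
      one_mem' := ⟨A.one_mem, by simp⟩
      mul_mem' := by
        rintro s t ⟨hs, hs'⟩ ⟨ht, ht'⟩
        refine ⟨A.mul_mem hs ht, ?_⟩
        rw [(Cls.mem_centralizer_single_commute.mp (hab t ht hs)).mul_pow]
        exact mul_mem hs' ht'
      inv_mem' := by
        rintro s ⟨hs, hs'⟩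
        exact ⟨A.inv_mem hs, by rw [inv_pow]; exact inv_mem hs'⟩ }
  have hTA : T ≤ A := fun t ht => ht.1
  have hZT : center G ≤ T := fun z hz => ⟨Cls.center_le_centralizer_single x hz, pow_mem hz _⟩
  have h1 : (center G).relIndex T ≤ q ^ ((center G).relIndex A).factorization q := by
    have h2 : IsPGroup q (T ⧸ (center G).subgroupOf T) := by
      intro t
      obtain ⟨t, rfl⟩ := QuotientGroup.mk_surjective t
      exact ⟨k, by rw [← QuotientGroup.mk_pow, QuotientGroup.eq_one_iff]; exact t.2.2⟩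
    obtain ⟨j, hj⟩ := IsPGroup.iff_card.mp h2
    have h3 : (center G).relIndex T ∣ (center G).relIndex A :=
      Dvd.intro _ (relIndex_mul_relIndex _ _ _ hZT hTA)
    change Nat.card (T ⧸ (center G).subgroupOf T) ∣ _ at h3
    change Nat.card (T ⧸ (center G).subgroupOf T) ≤ _
    rw [hj] at h3 ⊢
    exact Nat.pow_le_pow_right hq.pos
      ((hq.pow_dvd_iff_le_factorization index_ne_zero_of_finite).mp h3)
  have h2 : p ^ n.factorization p ≤ A.relIndex P := by
    refine Nat.le_of_dvd (Nat.pos_of_ne_zero index_ne_zero_of_finite) ?_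
    have h3 : n ∣ A.relIndex P * (P : Subgroup G).index := by
      rw [← inf_relIndex_right, relIndex_mul_index inf_le_right, ← h x hxZ]
      exact index_dvd_of_le inf_le_left
    exact (Nat.Coprime.pow_left _ ((Nat.Prime.coprime_iff_not_dvd hp).mpr
      P.not_dvd_index)).dvd_of_dvd_mul_right ((Nat.ordProj_dvd n p).trans h3)
  refine h2.trans_lt (lt_of_lt_of_le ?_ h1)
  have hak : a ^ q ^ k = 1 := by rw [← hk, pow_orderOf_eq_one]
  let f : ↥(P : Subgroup G) → T ⧸ (center G).subgroupOf T := fun g =>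
    QuotientGroup.mk ⟨(g : G) * a * (g : G)⁻¹, hconj g g.2 a ha, by rw [conj_pow, hak]; simp⟩
  refine Reg.card_lt_of_injective_not_surjective
    (fun c : ↥(P : Subgroup G) ⧸ A.subgroupOf P => f c.out) (fun c d hcd => ?_) fun hs => ?_
  · rw [← c.out_eq, ← d.out_eq]
    change f c.out = f d.out at hcd
    generalize c.out = g at hcd ⊢
    generalize d.out = g' at hcd ⊢
    refine QuotientGroup.eq.mpr ?_
    have h3 : ((g : G) * a * (g : G)⁻¹)⁻¹ * ((g' : G) * a * (g' : G)⁻¹) ∈ center G :=
      (QuotientGroup.eq (s := (center G).subgroupOf T)).mp hcd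
    set u : G := (g : G)⁻¹ * g' with hu
    have h4 : ⁅u, a⁆ ∈ center G := by
      have := Normal.conj_mem inferInstance _ h3 (a * (g : G)⁻¹)
      convert this using 1
      simp only [hu, commutatorElement_def]
      group
    obtain ⟨j, hj⟩ := P.isPGroup' (g⁻¹ * g')
    have hj' : u ^ p ^ j = 1 := congrArg Subtype.val hj
    have h5 : ⁅u, a⁆ ^ p ^ j = 1 := by
      rw [← PGrp.commutatorElement_pow_left_of_commute (PGrp.commute_of_mem_center h4 _), hj',
        commutatorElement_one_left]
    have h6 : ⁅u, a⁆ ^ q ^ k = 1 := by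
      rw [← PGrp.commutatorElement_pow_right_of_commute (PGrp.commute_of_mem_center h4 _), hak,
        commutatorElement_one_right]
    have h7 : ⁅u, a⁆ = 1 := by
      have := pow_gcd_eq_one.mpr ⟨h5, h6⟩
      rwa [Nat.coprime_pow_primes j k hp hq hpq, pow_one] at this
    change u ∈ A
    rw [hA, cent_eq h hxZ haZ (hab a ha)]
    exact Cls.mem_centralizer_single.mpr (commutatorElement_eq_one_iff_mul_comm.mp h7)
  · obtain ⟨c, hc⟩ := hs 1
    have h3 : (c.out : G) * a * (c.out : G)⁻¹ ∈ center G :=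
      (QuotientGroup.eq_one_iff (N := (center G).subgroupOf T) _).mp hc
    exact haZ (by simpa [mul_assoc] using Normal.conj_mem inferInstance _ h3 (c.out : G)⁻¹)

theorem eq_of_dvd_index {p q : ℕ} (hp : p.Prime) (hq : q.Prime)
    (hp' : p ∣ (center G).index) (hq' : q ∣ (center G).index) : p = q := by
  classical
  by_contra hpq
  obtain ⟨x, -, hx, -⟩ := exists_p_elem (Z := center G) (H := ⊤) hp (by simpa using hp')
  set m := (center G).relIndex (centralizer {x}) with hm
  have hm0 : m ≠ 0 := index_ne_zero_of_finite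
  have hn0 : n ≠ 0 := h x hx ▸ index_ne_zero_of_finite
  have h1 : m ≤ n := by
    obtain ⟨y, hy⟩ : ∃ y, y ∉ centralizer ({x} : Set G) := by
      by_contra h2
      push Not at h2
      exact hx (Cls.centralizer_single_eq_top_iff.mp ((eq_top_iff' _).mpr h2))
    have hyZ : y ∉ center G := fun h2 => hy (Cls.center_le_centralizer_single x h2)
    have h2 : centralizer ({x} : Set G) ⊓ centralizer {y} = center G := by
      refine le_antisymm (fun a ha => ?_)
        (le_inf (Cls.center_le_centralizer_single x) (Cls.center_le_centralizer_single y))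
      by_contra haZ
      apply hy
      rw [cent_eq h hx haZ (cent_le_of_two_primes h hp hq hpq hp' hq' hx ha.1),
        ← cent_eq h hyZ haZ (cent_le_of_two_primes h hp hq hpq hp' hq' hyZ ha.2)]
      exact Cls.self_mem_centralizer_single y
    rw [hm, relIndex_eq h hx hyZ, ← h2, inf_relIndex_right, ← h x hx, ← relIndex_top_right]
    exact relIndex_le_of_le_right le_top index_ne_zero_of_finite
  have hmem : ∀ r, r ∈ m.primeFactors ↔ r.Prime ∧ r ∣ (center G).index := fun r => by
    rw [Nat.mem_primeFactors_of_ne_zero hm0]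
    exact and_congr_right fun hr => ⟨fun h2 => h2.trans (Dvd.intro _ (relIndex_mul h hx)),
      dvd_relIndex h hx hr⟩
  obtain ⟨σ, hσ, -⟩ := m.primeFactors.countable_toSet.exists_cycleOn
  have hnt : (m.primeFactors : Set ℕ).Nontrivial :=
    ⟨p, (hmem p).mpr ⟨hp, hp'⟩, q, (hmem q).mpr ⟨hq, hq'⟩, hpq⟩
  have e1 : n = ∏ r ∈ m.primeFactors, r ^ n.factorization r := by
    conv_lhs => rw [← Nat.prod_factorization_pow_eq_self hn0]
    refine Finsupp.prod_of_support_subset _ (fun r hr => ?_) _ (by simp)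
    rw [Nat.support_factorization, Nat.mem_primeFactors_of_ne_zero hn0] at hr
    exact (hmem r).mpr ⟨hr.1, hr.2.trans (Dvd.intro_left _ (relIndex_mul h hx))⟩
  have e2 : m = ∏ r ∈ m.primeFactors, σ r ^ m.factorization (σ r) := by
    conv_lhs => rw [← Nat.prod_factorization_pow_eq_self hm0]
    exact (Finset.prod_nbij σ hσ.1.mapsTo hσ.1.injOn hσ.1.surjOn fun _ _ => rfl).symm
  refine absurd h1 (not_le.mpr ?_)
  refine e1.trans_lt (lt_of_lt_of_eq ?_ e2.symm)
  refine Finset.prod_lt_prod_of_nonempty (fun r hr => pow_pos ((hmem r).mp hr).1.pos _)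
    (fun r hr => ?_) ⟨p, (hmem p).mpr ⟨hp, hp'⟩⟩
  have h2 := (hmem _).mp (hσ.1.mapsTo hr)
  exact pow_lt_pow h ((hmem r).mp hr).1 h2.1 (hσ.apply_ne hnt hr).symm ((hmem r).mp hr).2 h2.2 hx

theorem pow_mem_center {p : ℕ} {t : G} {k : ℕ} (hk : t ^ p ^ k = 1)
    (ht : ∀ g, ⁅t, g⁆ ∈ center G) : t ^ p ∈ center G := by
  by_contra h1
  have h2 : t ∉ center G := fun h2 => h1 (pow_mem h2 _)
  have e := cent_eq h h2 h1 (Cls.centralizer_single_le_pow t p)
  have key : ∀ (j : ℕ) (g : G), ⁅t, g⁆ ^ p ^ j = 1 → ⁅t, g⁆ = 1 := by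
    intro j
    induction j with
    | zero => simp
    | succ j ih =>
      intro g hg
      rw [pow_succ', pow_mul, ← PGrp.commutatorElement_pow_right_of_commute
        (PGrp.commute_of_mem_center (ht g) _)] at hg
      have h3 := ih _ hg
      rw [PGrp.commutatorElement_pow_right_of_commute (PGrp.commute_of_mem_center (ht g) _),
        ← PGrp.commutatorElement_pow_left_of_commute (PGrp.commute_of_mem_center (ht g) _),
        commutatorElement_eq_one_iff_mul_comm, eq_comm, ← Cls.mem_centralizer_single, ← e,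
        Cls.mem_centralizer_single, eq_comm] at h3
      exact commutatorElement_eq_one_iff_mul_comm.mpr h3
  refine h2 (mem_center_iff.mpr fun g => (commutatorElement_eq_one_iff_mul_comm.mp
    (key k g ?_)).symm)
  rw [← PGrp.commutatorElement_pow_left_of_commute (PGrp.commute_of_mem_center (ht g) _), hk,
    commutatorElement_one_left]

end

/-- Let G be a finite group whose conjugacy classes have exactly two sizes, 1 and n > 1. Then n is a power of a prime p and G is the direct product of a p-group and an abelian group of order prime to p: its Sylow p-subgroup P is normal with an abelian normal complement centralizing it; moreover P has an abelian normal subgroup A with P/A of exponent dividing p. -/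
theorem result {G : Type*} [Group G] [Finite G] (n : ℕ) (hn : 1 < n)
    (h : ∀ x : G, (Subgroup.centralizer ({x} : Set G)).index = 1 ∨ (Subgroup.centralizer ({x} : Set G)).index = n) (hex : ∃ x : G, (Subgroup.centralizer ({x} : Set G)).index = n) :
    ∃ (p : ℕ) (_ : Fact p.Prime) (a : ℕ), n = p ^ a ∧ ∀ P : Sylow p G, (P : Subgroup G).Normal ∧
      (∃ N : Subgroup G, N.Normal ∧ N.IsComplement' (P : Subgroup G) ∧ IsMulCommutative N ∧
        ∀ x ∈ N, ∀ y ∈ (P : Subgroup G), x * y = y * x) ∧
      ∃ A : Subgroup (P : Subgroup G), A.Normal ∧ IsMulCommutative A ∧ ∀ y : (P : Subgroup G), y ^ p ∈ A := by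
  have h' : ∀ x : G, x ∉ Subgroup.center G → (Subgroup.centralizer ({x} : Set G)).index = n :=
    fun x hx => (h x).resolve_left (mt Cls.index_centralizer_eq_one_iff.mp hx)
  obtain ⟨x, hx⟩ := hex
  have hnd : n ∣ (Subgroup.center G).index :=
    hx ▸ Subgroup.index_dvd_of_le (Cls.center_le_centralizer_single x)
  have hp := Nat.minFac_prime hn.ne'
  set p := n.minFac
  have hp' : p ∣ (Subgroup.center G).index := (Nat.minFac_dvd n).trans hnd
  obtain ⟨b, hb⟩ := Cls.eq_pow_of_forall_prime_eq (p := p) Subgroup.index_ne_zero_of_finite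
    fun q hq hq' => eq_of_dvd_index h' hq hp hq' hp'
  obtain ⟨a, -, ha⟩ := (Nat.dvd_prime_pow hp).mp (hb ▸ hnd)
  have : Fact p.Prime := ⟨hp⟩
  refine ⟨p, this, a, ha, fun P => ?_⟩
  have hsup : (P : Subgroup G) ⊔ Subgroup.center G = ⊤ := by
    rw [← Subgroup.index_eq_one]
    refine Nat.eq_one_of_dvd_coprimes (Nat.Coprime.pow_left b
      ((Nat.Prime.coprime_iff_not_dvd hp).mpr P.not_dvd_index)) ?_ ?_
    · exact hb ▸ Subgroup.index_dvd_of_le le_sup_right
    · exact Subgroup.index_dvd_of_le le_sup_left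
  have hnorm : ∀ K : Subgroup G, (P : Subgroup G) ≤ Subgroup.normalizer (K : Set G) → K.Normal := by
    intro K hK
    rw [← Subgroup.normalizer_eq_top_iff, eq_top_iff, ← hsup]
    exact sup_le hK (Subgroup.center_le_normalizer _)
  have hPn := hnorm P Subgroup.le_normalizer
  refine ⟨hPn, ?_, ?_⟩
  · obtain ⟨N, hN⟩ := Subgroup.exists_right_complement'_of_coprime P.card_coprime_index
    have hNZ : N ≤ Subgroup.center G := by
      rw [← Subgroup.relIndex_eq_one]
      refine Nat.eq_one_of_dvd_coprimes (Nat.Coprime.pow_left b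
        ((Nat.Prime.coprime_iff_not_dvd hp).mpr P.not_dvd_index)) ?_ ?_
      · exact hb ▸ Subgroup.relIndex_dvd_index_of_normal _ _
      · rw [hN.symm.index_eq_card]
        exact Subgroup.relIndex_dvd_card _ _
    refine ⟨N, PGrp.normal_of_le_center hNZ, hN.symm, ?_, fun x hx y _ =>
      (Subgroup.mem_center_iff.mp (hNZ hx) y).symm⟩
    exact ⟨⟨fun a b => Subtype.ext (Subgroup.mem_center_iff.mp (hNZ b.2) a)⟩⟩
  · obtain ⟨A, hA, hA1, -, hA2⟩ := PGrp.exists_SCN_ge P.isPGroup' ⊥ inferInstance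
    refine ⟨A, hA, hA1, fun y => ?_⟩
    have hK : (A.map (P : Subgroup G).subtype).Normal := hnorm _ (by
      have := A.le_normalizer_map (P : Subgroup G).subtype
      rwa [Subgroup.normalizer_eq_top, ← MonoidHom.range_eq_map, Subgroup.range_subtype] at this)
    rw [← hA2, Subgroup.mem_centralizer_iff]
    intro t ht
    have h1 : ∀ g : G, ⁅(t : G), g⁆ ∈ Subgroup.center G := fun g =>
      Reg.commutator_mem_center_of_small_class (A.map (P : Subgroup G).subtype) inferInstance
        (fun y hy => by rcases h g with h1 | h1 <;> rcases h y with h2 | h2 <;> omega)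
        (Subgroup.mem_map_of_mem _ ht)
    obtain ⟨k, hk⟩ := P.isPGroup' t
    have h2 := pow_mem_center h' (congrArg Subtype.val hk) h1
    apply Subtype.ext
    change (t : G) * (y : G) ^ p = (y : G) ^ p * t
    rw [← commutatorElement_eq_one_iff_mul_comm,
      PGrp.commutatorElement_pow_right_of_commute (PGrp.commute_of_mem_center (h1 _) _),
      ← PGrp.commutatorElement_pow_left_of_commute (PGrp.commute_of_mem_center (h1 _) _),
      commutatorElement_eq_one_iff_mul_comm]
    exact (Subgroup.mem_center_iff.mp h2 y).symm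

end Cfsg.Agent.S4134
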