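import Cfsg.Statements.S4135
import Mathlib
import Cfsg.Agent.S4134
import Cfsg.Agent.Lib.Reg.FrobCount
import Cfsg.Agent.Lib.Reg.MaxClassPow

set_option autoImplicit false
open Cfsg

namespace Cfsg.Agent.S4135

open Subgroup Cfsg.Agent.Reg
open scoped commutatorElement

variable {G : Type*} [Group G] [Finite G]

theorem relIndex_lt {H T D A : Subgroup G} {a : G} (hH : H ≤ normalizer (D : Set G))
    (ha : a ∈ normalizer (D : Set G)) (haD : a ∉ D) (hT : ∀ g ∈ H, g * a * g⁻¹ ∈ T)
    (h : ∀ g ∈ H, ⁅g, a⁆ ∈ D → g ∈ A) : A.relIndex H < D.relIndex T := by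
  let f : H → T ⧸ D.subgroupOf T := fun g => QuotientGroup.mk ⟨(g : G) * a * (g : G)⁻¹, hT g g.2⟩
  refine Reg.card_lt_of_injective_not_surjective
    (fun c : H ⧸ A.subgroupOf H => f c.out) (fun c d hcd => ?_) fun hs => ?_
  · rw [← c.out_eq, ← d.out_eq]
    change f c.out = f d.out at hcd
    generalize c.out = g at hcd ⊢
    generalize d.out = g' at hcd ⊢
    refine QuotientGroup.eq.mpr (h _ (g⁻¹ * g').2 ?_)
    have h3 : ((g : G) * a * (g : G)⁻¹)⁻¹ * ((g' : G) * a * (g' : G)⁻¹) ∈ D :=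
      (QuotientGroup.eq (s := D.subgroupOf T)).mp hcd
    convert conj_mem_of_mem_normalizer (mul_mem ha (inv_mem (hH g.2))) h3 using 1
    change ⁅(g : G)⁻¹ * g', a⁆ = _
    rw [commutatorElement_def]
    group
  · obtain ⟨c, hc⟩ := hs (QuotientGroup.mk 1)
    have h3 : ((c.out : G) * a * (c.out : G)⁻¹)⁻¹ * 1 ∈ D :=
      (QuotientGroup.eq (s := D.subgroupOf T)).mp hc
    rw [mul_one, inv_mem_iff] at h3
    exact haD (by simpa [mul_assoc] using conj_mem_of_mem_normalizer (inv_mem (hH c.out.2)) h3)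

omit [Finite G] in
theorem commute_of_coprime {u v : G} (h : ⁅u, v⁆ ∈ center G) {a b : ℕ} (hab : a.Coprime b)
    (hu : Commute (u ^ a) v) (hv : Commute u (v ^ b)) : Commute u v := by
  rw [← commutatorElement_eq_one_iff_commute] at hu hv ⊢
  rw [PGrp.commutatorElement_pow_left_of_commute (PGrp.commute_of_mem_center h _)] at hu
  rw [PGrp.commutatorElement_pow_right_of_commute (PGrp.commute_of_mem_center h _)] at hv
  simpa [hab.gcd_eq_one] using pow_gcd_eq_one.2 ⟨hu, hv⟩

omit [Finite G] in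
theorem mem_normalizer_of_commutator {t z : G} (h : ⁅t, z⁆ ∈ center G) :
    t ∈ normalizer (centralizer ({z} : Set G) : Set G) := by
  refine mem_normalizer_iff_map_conj_eq.2 ((Cls.centralizer_single_conj z t).symm.trans ?_)
  rw [show t * z * t⁻¹ = ⁅t, z⁆ * z by simp [commutatorElement_def], ← mem_center_iff.1 h z,
    Cls.centralizer_single_mul_center h]

theorem exists_center_mod {s : ℕ} [hs : Fact s.Prime] (S : Sylow s G) {N : Subgroup G} [N.Normal]
    (h : s ∣ (center G).relIndex N) :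
    ∃ z ∈ N, z ∈ (S : Subgroup G) ∧ z ∉ center G ∧ ∀ g ∈ (S : Subgroup G), ⁅g, z⁆ ∈ center G := by
  obtain ⟨w, hw, hwZ, hw'⟩ := S4134.exists_p_elem hs.out h
  obtain ⟨g, hg⟩ := Cls.exists_conj_mem_sylow S hw'
  have h1 : (N ⊓ S).map (QuotientGroup.mk' (center G)) ≠ ⊥ := by
    rw [Ne, Subgroup.map_eq_bot_iff, QuotientGroup.ker_mk']
    intro h2
    have := Normal.conj_mem inferInstance _ (h2 ⟨Normal.conj_mem' inferInstance _ hw g, hg⟩) g
    exact hwZ (by simpa [mul_assoc] using this)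
  have h2 := PGrp.inf_centralizer_ne_bot (S.isPGroup'.map (QuotientGroup.mk' (center G)))
    ((S.isPGroup'.to_le inf_le_right).map _) ((map_mono (le_trans (le_inf
      (le_top.trans (normalizer_eq_top N).ge) le_normalizer)
        inf_normalizer_le_normalizer_inf)).trans (le_normalizer_map _)) h1
  obtain ⟨⟨_, ⟨x, hx, rfl⟩, hy⟩, hy1⟩ := ne_bot_iff_exists_ne_one.mp h2
  refine ⟨x, hx.1, hx.2, fun h3 => hy1 (Subtype.ext ((QuotientGroup.eq_one_iff _).mpr h3)),
    fun g hg => ?_⟩
  rw [← QuotientGroup.eq_one_iff]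
  exact commutatorElement_eq_one_iff_mul_comm.mpr (hy _ (mem_map_of_mem _ hg))

theorem relIndex_dvd_index {T : Subgroup G} {x : G}
    (h : ∀ g : G, T ⊓ centralizer {g * x * g⁻¹} ≤ center G) :
    (center G).relIndex T ∣ (centralizer ({x} : Set G)).index := by
  rw [← Cls.ncard_conjugatesOf, ← Nat.card_coe_set_eq]
  let _ : MulAction T (conjugatesOf x) :=
    { smul := fun t z => ⟨t * z * (t : G)⁻¹, z.2.trans (isConj_iff.2 ⟨_, rfl⟩)⟩
      one_smul := fun z => Subtype.ext (by change ((1 : T) : G) * z * ((1 : T) : G)⁻¹ = z; simp)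
      mul_smul := fun a b z => Subtype.ext (by
        change ((a * b : T) : G) * z * ((a * b : T) : G)⁻¹ = a * (b * z * (b : G)⁻¹) * (a : G)⁻¹
        simp [mul_assoc]) }
  refine dvd_card_of_fibers (Quotient.mk (MulAction.orbitRel T (conjugatesOf x))) fun z => ?_
  have h1 : MulAction.stabilizer T z = (center G).subgroupOf T := by
    obtain ⟨z, hz⟩ := z
    obtain ⟨g, rfl⟩ := isConj_iff.1 hz
    ext t
    rw [MulAction.mem_stabilizer_iff, Subtype.ext_iff, mem_subgroupOf]
    exact ⟨fun e => h g ⟨t.2, mem_centralizer_singleton_iff.2 (mul_inv_eq_iff_eq_mul.1 e)⟩,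
      fun e => mul_inv_eq_iff_eq_mul.2 (mem_center_iff.1 e _).symm⟩
  rw [relIndex, ← h1, MulAction.index_stabilizer, ← Nat.card_coe_set_eq]
  exact (Nat.card_congr (Equiv.subtypeEquivRight fun w => Quotient.eq.trans
    MulAction.orbitRel_apply)).symm.dvd

theorem pow_le_relIndex {s : ℕ} [hs : Fact s.Prime] (S : Sylow s G) {A : Subgroup G} {i : ℕ}
    (h : s ^ i ∣ A.index) : s ^ i ≤ A.relIndex S := by
  refine Nat.le_of_dvd (Nat.pos_of_ne_zero index_ne_zero_of_finite) ?_
  have h3 : A.index ∣ A.relIndex S * (S : Subgroup G).index := by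
    rw [← inf_relIndex_right, relIndex_mul_index inf_le_right]
    exact index_dvd_of_le inf_le_left
  exact (Nat.Coprime.pow_left _ (hs.out.coprime_iff_not_dvd.mpr
    S.not_dvd_index)).dvd_of_dvd_mul_right (h.trans h3)

/-- Let G be a finite group, r a prime and R a Sylow r-subgroup of G that is not central, N a normal subgroup of G containing R, and m a natural number such that every element of N has a conjugacy class in G of size 1 or m. Then N is nilpotent. -/
theorem result {G : Type*} [Group G] [Finite G] (r : ℕ) [Fact r.Prime]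
    (R : Sylow r G) (hR : ¬ (R : Subgroup G) ≤ Subgroup.center G) (N : Subgroup G) [N.Normal] (hRN : (R : Subgroup G) ≤ N)
    (m : ℕ) (h : ∀ x ∈ N, (Subgroup.centralizer ({x} : Set G)).index = 1 ∨ (Subgroup.centralizer ({x} : Set G)).index = m) : Group.IsNilpotent N := by
  replace h : ∀ x ∈ N, x ∉ center G → (centralizer ({x} : Set G)).index = m :=
    fun x hx hx' => (h x hx).resolve_left (mt Cls.index_centralizer_eq_one_iff.mp hx')
  have hr : r.Prime := Fact.out
  have hceq : ∀ x ∈ N, ∀ y ∈ N, x ∉ center G → y ∉ center G →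
      centralizer ({x} : Set G) ≤ centralizer {y} → centralizer ({x} : Set G) = centralizer {y} := by
    intro x hxN y hyN hx hy hle
    have h1 := relIndex_mul_index hle
    rw [h x hxN hx, ← h y hyN hy, Nat.mul_eq_right index_ne_zero_of_finite, relIndex_eq_one] at h1
    exact le_antisymm hle h1
  have hcle : ∀ u ∈ N, ∀ v ∈ N, u ∉ center G → Commute u v → (orderOf u).Coprime (orderOf v) →
      centralizer ({u} : Set G) ≤ centralizer {v} := by
    intro u huN v hvN hu hc hco
    have h1 := Cls.centralizer_single_mul hc hco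
    rw [← hceq _ (mul_mem huN hvN) u huN (fun h2 => hu (Cls.centralizer_single_eq_top_iff.mp
      (eq_top_iff.mpr ((Cls.centralizer_single_eq_top_iff.mpr h2).ge.trans
        (h1.le.trans inf_le_left))))) hu (h1.le.trans inf_le_left)]
    exact h1.le.trans inf_le_right
  have hrN : ∀ x : G, (∃ k, orderOf x = r ^ k) → x ∈ N := fun x hx => by
    obtain ⟨g, hg⟩ := Cls.exists_conj_mem_sylow R hx
    simpa [mul_assoc] using Normal.conj_mem inferInstance _ (hRN hg) g
  have hord : ∀ {s : ℕ} [Fact s.Prime] (S : Sylow s G), ∀ x ∈ (S : Subgroup G),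
      ∃ k, orderOf x = s ^ k := fun S x hx => by
    simpa [← orderOf_coe] using IsPGroup.iff_orderOf.1 S.isPGroup' ⟨x, hx⟩
  by_cases hq : ∃ q, q.Prime ∧ q ≠ r ∧ q ∣ (center G).relIndex N
  swap
  · push Not at hq
    obtain ⟨k, hk⟩ := Cls.eq_pow_of_forall_prime_eq (p := r) index_ne_zero_of_finite
      fun q h1 h2 => by_contra fun e => hq q h1 e h2
    have := (IsPGroup.of_card hk).isNilpotent
    exact Subgroup.isNilpotent_of_ker_le_center (QuotientGroup.mk' ((center G).subgroupOf N))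
      fun x hx => mem_center_iff.2 fun g => Subtype.ext (mem_center_iff.1
        (mem_subgroupOf.1 ((QuotientGroup.eq_one_iff x).1 hx)) g)
  obtain ⟨q, hq, hqr, hqd⟩ := hq
  have := Fact.mk hq
  have hcop : ∀ i j, (q ^ i).Coprime (r ^ j) := fun i j => Nat.coprime_pow_primes i j hq hr hqr
  obtain ⟨Q⟩ : Nonempty (Sylow q G) := inferInstance
  obtain ⟨y, hyN, hyQ, hyZ, hy⟩ := exists_center_mod Q hqd
  obtain ⟨l, hl⟩ := hord Q y hyQ
  set A := centralizer ({y} : Set G) with hA
  have hm : A.index = m := h y hyN hyZ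
  obtain ⟨x₀, hx₀, hx₀Z⟩ := SetLike.not_le_iff_exists.1 hR
  obtain ⟨a, haA, haZ, k, hk⟩ := S4134.exists_p_elem (Z := center G) (H := A) hr (by
    obtain ⟨k, hk⟩ := hord R x₀ hx₀
    have h1 := relIndex_mul_index (Cls.center_le_centralizer_single x₀)
    rw [h x₀ (hRN hx₀) hx₀Z, ← relIndex_mul_index (Cls.center_le_centralizer_single y), hm,
      Nat.mul_left_inj (hm ▸ index_ne_zero_of_finite)] at h1
    exact h1 ▸ S4134.dvd_relIndex_of_p_elem hr (Cls.self_mem_centralizer_single x₀) hx₀Z hk)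
  have haN := hrN a ⟨k, hk⟩
  have hAa : A = centralizer {a} := hceq y hyN a haN hyZ haZ (hcle y hyN a haN hyZ
    (Cls.mem_centralizer_single_commute.1 haA).symm (hl ▸ hk ▸ hcop l k))
  have hB : ∀ b ∈ A, b ∈ N → A ≤ centralizer {b} := fun b hb hbN => by
    obtain ⟨u, hu, v, hv, rfl, ⟨j, hj⟩, hv'⟩ := Cls.exists_p_part hq b
    have h1 := hcle y hyN v (zpowers_le.2 hbN hv) hyZ (Cls.mem_centralizer_single_commute.1
      (zpowers_le.2 hb hv)).symm (hl ▸ hv'.symm.pow_left l)
    have h2 := hcle a haN u (zpowers_le.2 hbN hu) haZ (Cls.mem_centralizer_single_commute.1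
      (hAa ▸ zpowers_le.2 hb hu)).symm (hj ▸ hk ▸ (hcop j k).symm)
    exact fun c hc => Cls.mem_centralizer_single_commute.mpr
      ((Cls.mem_centralizer_single_commute.mp (h2 (hAa ▸ hc))).mul_right
        (Cls.mem_centralizer_single_commute.mp (h1 hc)))
  have hB' : ∀ b ∈ A, b ∈ N → b ∉ center G → centralizer {b} = A := fun b hb hbN hbZ =>
    (hceq y hyN b hbN hyZ hbZ (hB b hb hbN)).symm
  have hap : ∀ g : G, Commute g (a ^ r ^ k) := fun g => by
    rw [← hk, pow_orderOf_eq_one]; exact Commute.one_right g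
  have hyp : ∀ g : G, Commute g (y ^ q ^ l) := fun g => by
    rw [← hl, pow_orderOf_eq_one]; exact Commute.one_right g
  by_cases hcase : ∀ x ∈ N, x ∉ center G → ∃ g : G, g * x * g⁻¹ ∈ A
  · have h1 : N ≤ normalizer (A : Set G) := by
      refine relIndex_eq_one.1 (Nat.eq_one_of_dvd_coprimes (Nat.coprime_of_dvd fun s hs h1 h2 => ?_)
        (relIndex_dvd_of_le_left N (center_le_normalizer _)) (Cls.relIndex_dvd_index_of_normal' _ N))
      have := Fact.mk hs
      obtain ⟨S⟩ : Nonempty (Sylow s G) := inferInstance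
      obtain ⟨z, hzN, -, hzZ, hz⟩ := exists_center_mod S h1
      obtain ⟨g, hg⟩ := hcase z hzN hzZ
      refine Cls.not_dvd_index_of_sylow_le (Q := g • S) (fun t ht => ?_) h2
      rw [← hB' _ hg (Normal.conj_mem inferInstance _ hzN g) fun e => hzZ (by
        simpa [mul_assoc] using Normal.conj_mem inferInstance _ e g⁻¹)]
      refine mem_normalizer_of_commutator ?_
      convert Normal.conj_mem inferInstance _ (hz _ (Cls.mem_smul_sylow_iff.1 ht)) g using 1
      simp only [commutatorElement_def]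
      group
    have h2 : ∀ g : G, g * y * g⁻¹ ∈ A := fun g => by
      have h3 : g⁻¹ * a * g ∈ N := Normal.conj_mem' inferInstance a haN g
      have h4 : ⁅g * y * g⁻¹, a⁆ ∈ A ⊓ N := ⟨by
        simpa [commutatorElement_def] using mul_mem (conj_mem_of_mem_normalizer
          (h1 (Normal.conj_mem inferInstance y hyN g)) haA) (inv_mem haA),
        commutator_le_right ⊤ N (commutator_mem_commutator (mem_top _) haN)⟩
      have h5 : g⁻¹ * ⁅g * y * g⁻¹, a⁆ * g ∈ A := by
        convert mul_mem (Cls.self_mem_centralizer_single y) (conj_mem_of_mem_normalizer (h1 h3)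
          (inv_mem (Cls.self_mem_centralizer_single y))) using 1
        simp only [commutatorElement_def]
        group
      by_cases h6 : ⁅g * y * g⁻¹, a⁆ ∈ center G
      · rw [hAa, Cls.mem_centralizer_single_commute]
        refine commute_of_coprime h6 (hcop l k) ?_ (hap _)
        rw [conj_pow, ← hl, pow_orderOf_eq_one]
        simp
      rw [← hB' _ h4.1 h4.2 h6, mem_centralizer_singleton_iff]
      have h7 := mem_centralizer_singleton_iff.1 h5
      generalize ⁅g * y * g⁻¹, a⁆ = c at h7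
      calc _ = g * (y * (g⁻¹ * c * g)) * g⁻¹ := by group
        _ = _ := by rw [← h7]; group
    have h3 : N ≤ A := fun x hx => by
      by_cases hxZ : x ∈ center G
      · exact center_le_centralizer _ hxZ
      obtain ⟨g, hg⟩ := hcase x hx hxZ
      have h4 := mem_centralizer_singleton_iff.1
        (hB _ hg (Normal.conj_mem inferInstance x hx g) (h2 g))
      refine mem_centralizer_singleton_iff.2 ?_
      calc x * y = g⁻¹ * (g * x * g⁻¹ * (g * y * g⁻¹)) * g := by group
        _ = _ := by rw [← h4]; group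
    have : IsMulCommutative N :=
      ⟨⟨fun u v => Subtype.ext (mem_centralizer_singleton_iff.1 (hB _ (h3 v.2) v.2 (h3 u.2)))⟩⟩
    exact Subgroup.isNilpotent_of_ker_le_center (1 : N →* Unit) (le_top.trans center_eq_top.ge)
  exfalso
  push Not at hcase
  obtain ⟨w, hwN, hwZ, hw⟩ := hcase
  let T : ℕ → Subgroup G := fun s =>
    { carrier := {t | t ∈ A ⊓ N ∧ ∃ j, t ^ s ^ j = 1}
      one_mem' := ⟨one_mem _, 0, one_pow _⟩
      mul_mem' := by
        rintro u v ⟨hu, i, hi⟩ ⟨hv, j, hj⟩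
        refine ⟨mul_mem hu hv, i + j, ?_⟩
        rw [(Cls.mem_centralizer_single_commute.mp (hB v hv.1 hv.2 hu.1)).mul_pow, pow_add, pow_mul,
          hi, mul_comm (s ^ i), pow_mul, hj, one_pow, one_pow, one_mul]
      inv_mem' := by
        rintro u ⟨hu, i, hi⟩
        exact ⟨inv_mem hu, i, by rw [inv_pow, hi, inv_one]⟩ }
  have hT : ∀ s, IsPGroup s (T s) := fun s t => t.2.2.imp fun _ h => Subtype.ext h
  have hT1 : ∀ (s : ℕ) [Fact s.Prime] (S : Sylow s G),
      (center G).relIndex (T s) ≤ A.relIndex S := fun s _ S => by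
    obtain ⟨i, hi⟩ := (hT s).index ((center G).subgroupOf (T s))
    rw [relIndex, hi]
    refine pow_le_relIndex S (hi ▸ hm ▸ h w hwN hwZ ▸ relIndex_dvd_index fun g t ht => ?_)
    by_contra htZ
    exact hw g (hB' t ht.1.1.1 ht.1.1.2 htZ ▸ mem_centralizer_singleton_iff.2
      (mem_centralizer_singleton_iff.1 ht.2).symm)
  have hT2 : ∀ s, ∀ g ∈ normalizer (A : Set G), ∀ t ∈ T s, g * t * g⁻¹ ∈ T s :=
    fun s g hg t ht => ⟨⟨conj_mem_of_mem_normalizer hg ht.1.1,
      Normal.conj_mem inferInstance t ht.1.2 g⟩, ht.2.imp fun j hj => by rw [conj_pow, hj]; simp⟩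
  have haT : a ∈ T r := ⟨⟨haA, haN⟩, k, hk ▸ pow_orderOf_eq_one a⟩
  have hyT : y ∈ T q := ⟨⟨Cls.self_mem_centralizer_single y, hyN⟩, l, hl ▸ pow_orderOf_eq_one y⟩
  have hZn : ∀ K : Subgroup G, K ≤ normalizer (center G : Set G) := fun K =>
    le_top.trans (normalizer_eq_top _).ge
  have hQA : (Q : Subgroup G) ≤ normalizer (A : Set G) := fun g hg =>
    mem_normalizer_of_commutator (hy g hg)
  have hQa : ∀ g ∈ (Q : Subgroup G), ⁅g, a⁆ ∈ center G → g ∈ A := fun g hg h1 => by
    obtain ⟨j, hj⟩ := hord Q g hg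
    rw [hAa, Cls.mem_centralizer_single_commute]
    exact commute_of_coprime h1 (hcop j k)
      (by rw [← hj, pow_orderOf_eq_one]; exact Commute.one_left a) (hap g)
  have h1 : ∀ H : Subgroup G, H ≤ normalizer (A : Set G) → (∀ g ∈ H, ∃ j, g ^ r ^ j ∈ A) →
      A.relIndex H < A.relIndex Q := fun H hH hH' =>
    (relIndex_lt (hZn H) (hZn ⊤ trivial) hyZ (fun g hg => hT2 q g (hH hg) y hyT) fun g hg h1 => by
      obtain ⟨j, hj⟩ := hH' g hg
      exact Cls.mem_centralizer_single_commute.2 (commute_of_coprime h1 (hcop l j).symm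
        (Cls.mem_centralizer_single_commute.1 hj) (hyp g))).trans_le (hT1 q Q)
  obtain ⟨S, hS⟩ := (hT r).exists_le_sylow
  obtain ⟨x, hxN, hxS, hxZ, hx⟩ := exists_center_mod S
    (S4134.dvd_relIndex_of_p_elem hr haN haZ hk)
  by_cases hxA : x ∈ A
  · refine (h1 S (fun g hg => hB' x hxA hxN hxZ ▸ mem_normalizer_of_commutator (hx g hg))
      fun g hg => (hord S g hg).imp fun j hj => by
        rw [← hj, pow_orderOf_eq_one]; exact one_mem _).not_gt
        ((relIndex_lt (hZn Q) (hZn ⊤ trivial) haZ (fun g hg => hT2 r g (hQA hg) a haT) hQa).trans_le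
          (hT1 r S))
  let W : Subgroup G := ⨅ t ∈ T r, commIn (center G) t
  have hW : ∀ g, g ∈ W ↔ ∀ t ∈ T r, ⁅g, t⁆ ∈ center G := fun g => by
    simp only [W, mem_iInf, mem_commIn]
  have hWA : W ≤ normalizer (A : Set G) := fun g hg =>
    hAa ▸ mem_normalizer_of_commutator ((hW g).1 hg a haT)
  have hxW : x ∈ W := (hW x).2 fun t ht => commutatorElement_mem_comm.1 (hx t (hS ht))
  refine (h1 W hWA fun g hg => ⟨k, ?_⟩).not_gt
    (relIndex_lt hQA (hWA hxW) hxA (fun g hg => (hW _).2 fun t ht => ?_) fun g hg h2 => ?_)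
  · rw [hAa, Cls.mem_centralizer_single_commute, ← commutatorElement_eq_one_iff_commute,
      PGrp.commutatorElement_pow_left_of_commute
        (PGrp.commute_of_mem_center ((hW g).1 hg a haT) _),
      ← PGrp.commutatorElement_pow_right_of_commute
        (PGrp.commute_of_mem_center ((hW g).1 hg a haT) _), commutatorElement_eq_one_iff_commute]
    exact hap g
  · convert Normal.conj_mem inferInstance _ ((hW x).1 hxW _ (hT2 r _ (inv_mem (hQA hg)) t ht)) g
      using 1
    simp only [commutatorElement_def]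
    group
  have h3 := hT2 r g (hQA hg) a haT
  refine hQa g hg (by_contra fun h4 => hxA ?_)
  have h5 := mul_mem h3 (inv_mem haT)
  rw [← hB' _ h5.1.1 h5.1.2 h4, mem_centralizer_singleton_iff]
  have h6 := mem_center_iff.1 ((hW x).1 hxW a haT)
  have h7 := mem_center_iff.1 ((hW x).1 hxW _ h3)
  have h8 := mem_centralizer_singleton_iff.1 (hB _ h3.1.1 h3.1.2 h2)
  have h9 : ⁅x, g * a * g⁻¹⁆ = ⁅x, a⁆ := by
    calc _ = ⁅g, x⁆ * ⁅x, g * a * g⁻¹⁆ * ⁅g, x⁆⁻¹ := by rw [h7, mul_inv_cancel_right]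
      _ = ⁅g, x⁆ * (x * (g * a * g⁻¹) * x⁻¹) * (⁅g, x⁆ * (g * a * g⁻¹))⁻¹ := by
        rw [commutatorElement_def x]; group
      _ = g * ⁅x, a⁆ * g⁻¹ := by rw [h8]; simp only [commutatorElement_def]; group
      _ = _ := by rw [h6, mul_inv_cancel_right]
  calc x * (g * a * g⁻¹ * a⁻¹) = ⁅x, g * a * g⁻¹⁆ * (g * a * g⁻¹ * a⁻¹) * ⁅x, a⁆⁻¹ * x := by
        simp only [commutatorElement_def]; group
    _ = _ := by rw [h9, ← h6, mul_inv_cancel_right]

end Cfsg.Agent.S4135
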