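import Cfsg.Statements.S4138
import Mathlib
import Cfsg.Agent.Lib.Perm.ClassGraph
import Cfsg.Agent.Lib.Coprime.Generate
import Cfsg.Agent.Lib.Cls.Count
import Cfsg.Agent.Lib.PGrp.Omega

set_option autoImplicit false
open Cfsg

namespace Cfsg.Agent.S4138

open Subgroup
open scoped IsMulCommutative commutatorElement Pointwise

section

variable {G : Type*} [Group G] [Finite G]

omit [Finite G] in
theorem eq_one_of_isConj {c w : G} (hc : Commute c w) (h : (orderOf c).Coprime (orderOf w))
    (h' : IsConj w (c * w)) : c = 1 := by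
  obtain ⟨g, hg⟩ := isConj_iff.1 h'
  have h1 := orderOf_dvd_of_mem_zpowers (Cls.mem_zpowers_mul_left hc h)
  rw [← hg, show orderOf (g * w * g⁻¹) = orderOf w from (MulAut.conj g).orderOf_eq w] at h1
  exact orderOf_eq_one_iff.1 (h.eq_one_of_dvd h1)

theorem eq_of_le_of_index_le {H K : Subgroup G} (h : H ≤ K) (h' : H.index ≤ K.index) : H = K := by
  refine le_antisymm h (relIndex_eq_one.1 ?_)
  have h1 := relIndex_mul_index h
  have h2 : 0 < K.index := Nat.pos_of_ne_zero FiniteIndex.index_ne_zero
  have h3 : H.relIndex K ≠ 0 := fun h3 => FiniteIndex.index_ne_zero (H := H) (by rw [← h1, h3, zero_mul])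
  by_contra h4
  have : 2 ≤ H.relIndex K := by omega
  nlinarith

variable {x y : G} (hy : ∀ z : G, (centralizer ({z} : Set G)).index ≤ (centralizer ({y} : Set G)).index) (hx : ∀ z : G, (centralizer ({z} : Set G)).index < (centralizer ({y} : Set G)).index → (centralizer ({z} : Set G)).index ≤ (centralizer ({x} : Set G)).index)
  (hcop : (centralizer ({x} : Set G)).index.Coprime (centralizer ({y} : Set G)).index) (hn : 1 < (centralizer ({x} : Set G)).index) (hmn : (centralizer ({x} : Set G)).index < (centralizer ({y} : Set G)).index)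

include hy hx hcop in
theorem central_or_eq {z : G} (hz : (centralizer ({z} : Set G)).index ∣ (centralizer ({y} : Set G)).index) : z ∈ center G ∨ (centralizer ({z} : Set G)).index = (centralizer ({y} : Set G)).index := by
  refine or_iff_not_imp_right.2 fun h => mem_center_iff.2 fun g => ?_
  have hlt := (hy z).lt_of_ne h
  have h1 : (centralizer ({z} : Set G)).index.Coprime (centralizer ({x} : Set G)).index := (hcop.coprime_dvd_right hz).symm
  have h2 := Perm.mem_stabilizer_of_coprime h1 (hx _ ((hy _).lt_of_ne fun h2 => ?_)) g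
  · obtain ⟨a, ha⟩ := isConj_iff.1 (Perm.isConj_mul_of_mem_stabilizer h2 (IsConj.refl x))
    have := Perm.stabilizer_conjugatesOf_normal y
    have h3 := this.conj_mem _ (Perm.mem_stabilizer_of_coprime hcop (hy _) a) x
    rw [← mul_assoc, mul_inv_cancel, one_mul, ha, mul_inv_cancel_right] at h3
    have h4 := orderOf_eq_one_iff.1 (Nat.eq_one_of_dvd_coprimes hcop
      ((Subgroup.orderOf_dvd_natCard _ h2).trans (Perm.card_stabilizer_conjugatesOf_dvd x))
      ((Subgroup.orderOf_dvd_natCard _ h3).trans (Perm.card_stabilizer_conjugatesOf_dvd y)))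
    rw [inv_mul_eq_one, eq_mul_inv_iff_mul_eq] at h4
    exact h4.symm
  · exact hlt.not_ge (Nat.le_of_dvd (Nat.pos_of_ne_zero FiniteIndex.index_ne_zero)
      (hcop.symm.dvd_of_dvd_mul_right (h2 ▸ Perm.index_mul_dvd_of_coprime h1)))

include hy in
theorem le_centralizer_of_max {b v : G} (hb : (centralizer ({b} : Set G)).index = (centralizer ({y} : Set G)).index) (hc : Commute b v)
    (h : (orderOf b).Coprime (orderOf v)) : centralizer {b} ≤ centralizer {v} := by
  have h1 := hy (b * v)
  rw [Cls.centralizer_single_mul hc h, ← hb] at h1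
  exact inf_eq_left.1 (eq_of_le_of_index_le inf_le_left h1)

include hy in
theorem ne_of_mem {k z : G} (hk : k ∈ Perm.coprimeClosure G (centralizer ({y} : Set G)).index) (hz : (centralizer ({z} : Set G)).index ≠ (centralizer ({y} : Set G)).index) :
    (centralizer ({k * z} : Set G)).index ≠ (centralizer ({y} : Set G)).index := fun h => hz (by
  simpa using Perm.index_mul_eq_of_mem_coprimeClosure hy (inv_mem hk) h)

include hy in
theorem central_of_pow {p : ℕ} (hp : p.Prime) (hpm : ¬ p ∣ (centralizer ({y} : Set G)).index) {a : G} (ha : ∃ k, orderOf a = p ^ k)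
    (h : (centralizer ({a} : Set G)).index.Coprime (centralizer ({y} : Set G)).index) : a ∈ center G := mem_center_iff.2 fun g => by
  have := Perm.coprimeClosure_normal (G := G) (centralizer ({y} : Set G)).index
  have := Perm.coprimeClosure_isMulCommutative hy
  obtain ⟨k, hk⟩ := ha
  have h1 := Perm.mem_coprimeClosure h
  have h2 := Perm.mem_stabilizer_of_coprime h (hy _) g
  have h3 := eq_one_of_isConj (c := a⁻¹ * (g * a * g⁻¹)) (w := a) (setLike_mul_comm
    (mul_mem (inv_mem h1) (Normal.conj_mem inferInstance a h1 g)) h1) (by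
      rw [hk]
      exact (((Nat.Prime.coprime_iff_not_dvd hp).2 hpm).symm.coprime_dvd_left
        ((Subgroup.orderOf_dvd_natCard _ h2).trans
          (Perm.card_stabilizer_conjugatesOf_dvd y))).pow_right k)
    (isConj_iff.2 ⟨a⁻¹ * g, by group⟩)
  rw [inv_mul_eq_one, eq_mul_inv_iff_mul_eq] at h3
  exact h3.symm

include hy hx hcop in
theorem index_eq_of_mem {p : ℕ} (hp : p.Prime) (hpm : ¬ p ∣ (centralizer ({y} : Set G)).index) (hyp : ∃ k, orderOf y = p ^ k)
    (hxp : (orderOf x).Coprime p) {w : G} (hw : ∃ k, orderOf w = p ^ k) (hwy : Commute w y) :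
    w ∈ center G ∨ (centralizer ({w} : Set G)).index = (centralizer ({y} : Set G)).index := by
  refine or_iff_not_imp_right.2 fun hwm => ?_
  have := Perm.coprimeClosure_normal (G := G) (centralizer ({y} : Set G)).index
  have := Perm.coprimeClosure_isMulCommutative hy
  have := Perm.stabilizer_conjugatesOf_normal y
  obtain ⟨k, hk⟩ := hw
  obtain ⟨l, hl⟩ := hyp
  have hxK := Perm.mem_coprimeClosure hcop
  have hE := fun k z => ne_of_mem hy (k := k) (z := z)
  set K := Perm.coprimeClosure G (centralizer ({y} : Set G)).index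
  suffices h : Commute x w by
    refine central_of_pow hy hp hpm ⟨k, hk⟩ (hcop.coprime_dvd_left (index_dvd_of_le ?_))
    have h1 := hx _ ((hy _).lt_of_ne (hE x w hxK hwm))
    rw [Cls.centralizer_single_mul h (hk ▸ hxp.pow_right k)] at h1
    exact inf_eq_left.1 (eq_of_le_of_index_le inf_le_left h1)
  set W := MulAction.stabilizer G (conjugatesOf y) ⊓ K
  have hW : (Nat.card W).Coprime p := ((Nat.Prime.coprime_iff_not_dvd hp).2 hpm).symm.coprime_dvd_left
    ((card_dvd_of_le inf_le_left).trans (Perm.card_stabilizer_conjugatesOf_dvd y))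
  have hW' : ∀ u ∈ W, (orderOf u).Coprime p := fun u hu =>
    hW.coprime_dvd_left (Subgroup.orderOf_dvd_natCard _ hu)
  have hA : (Nat.card (zpowers w)).Coprime (Nat.card W) := by
    rw [Nat.card_zpowers, hk]; exact hW.symm.pow_left k
  obtain ⟨u, hu, hu'⟩ := Coprime.exists_mul_mem_centralizer (A := zpowers w) (N := W) (g := x)
    le_normalizer_of_normal hA (Or.inl inferInstance) fun a _ =>
      ⟨Perm.mem_stabilizer_of_coprime hcop (hy _) a,
        K.mul_mem (inv_mem hxK) (Normal.conj_mem inferInstance x hxK a)⟩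
  have hT : ⁅W, zpowers w⁆ ≤ W := commutator_le_left _ _
  obtain ⟨c, hc, t, ht, rfl⟩ := Coprime.exists_centralizer_mul hT le_rfl
    (hA.coprime_dvd_right (card_dvd_of_le hT)) (Or.inl inferInstance) hu
  have hTC := Coprime.centralizer_inf_commutator_eq_bot (A := zpowers w) (V := W)
    le_normalizer_of_normal hA (PGrp.isMulCommutative_of_le inferInstance inf_le_right)
  rw [Cls.centralizer_zpowers] at hu' hc hTC
  set T := ⁅W, zpowers w⁆
  obtain ⟨v, hv⟩ : ∃ v, v = x * t := ⟨_, rfl⟩
  have hvK : v ∈ K := hv ▸ mul_mem hxK (hT ht).2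
  have hvw : v ∈ centralizer {w} := by
    rw [setLike_mul_comm (s := K) hc.1.2 (hT ht).2, ← mul_assoc, ← hv] at hu'
    exact (Subgroup.mul_mem_cancel_right _ hc.2).1 hu'
  have hvp : (orderOf v).Coprime (orderOf w) := by
    rw [hk, hv]
    exact ((hxp.mul_left (hW' t (hT ht))).coprime_dvd_left (Commute.orderOf_mul_dvd_mul_orderOf
      (setLike_mul_comm (s := K) hxK (hT ht).2))).pow_right k
  by_cases ht1 : t = 1
  · rw [hv, ht1, mul_one] at hvw
    exact mem_centralizer_singleton_iff.1 hvw
  exfalso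
  set D := centralizer ({y} : Set G) with hD
  let Q := D ⊓ (centralizer {v} ⊓ centralizer {w})
  have h1 : (centralizer ({x} : Set G)).index ≤ (centralizer {t}).relIndex Q * Q.relIndex D := by
    have h2 := relIndex_mul_index (inf_le_right : centralizer {x} ⊓ D ≤ D)
    rw [Perm.index_inf_eq hcop, inf_relIndex_right] at h2
    rw [← Nat.eq_of_mul_eq_mul_right (Nat.pos_of_ne_zero FiniteIndex.index_ne_zero) h2,
      ← inf_relIndex_right (centralizer {t}), relIndex_mul_relIndex _ _ _ inf_le_right inf_le_left]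
    refine Nat.le_of_dvd (Nat.pos_of_ne_zero FiniteIndex.index_ne_zero) (relIndex_dvd_of_le_left _ ?_)
    intro a ha
    rw [mem_centralizer_singleton_iff, eq_mul_inv_of_mul_eq hv.symm]
    exact Commute.mul_right (mem_centralizer_singleton_iff.1 ha.2.2.1)
      (Commute.inv_right (mem_centralizer_singleton_iff.1 ha.1))
  have h2 : (centralizer {t}).relIndex Q < Nat.card T := by
    rw [← Cls.ncard_conjOrbit]
    refine lt_of_lt_of_eq (Set.ncard_lt_ncard ⟨?_, fun h => ?_⟩) (Nat.card_coe_set_eq (T : Set G)).symm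
    · rintro _ ⟨a, ha, rfl⟩
      refine (mem_normalizer_iff.1 (Core.le_normalizer_commutator le_normalizer_of_normal
        ((centralizer_le_normalizer _).trans' ?_) ha) t).1 ht
      rw [Cls.centralizer_zpowers]
      exact inf_le_right.trans inf_le_right
    · obtain ⟨a, -, ha⟩ := h T.one_mem
      exact ht1 (by simpa using ha)
  have h3 : Nat.card T * Q.relIndex D ≤ (centralizer ({v * w} : Set G)).index := by
    rw [relIndex, index, index, ← Nat.card_prod]
    refine Nat.card_le_card_of_injective (fun a => ((a.2.out * a.1 : G) : G ⧸ _)) ?_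
    rintro ⟨⟨t1, ht1⟩, d1⟩ ⟨⟨t2, ht2⟩, d2⟩ h
    rw [QuotientGroup.eq, Cls.centralizer_single_mul (mem_centralizer_singleton_iff.1 hvw) hvp] at h
    obtain ⟨d, hd⟩ : ∃ d : G, d = (d1.out⁻¹ * d2.out : D) := ⟨_, rfl⟩
    have hdD : d ∈ D := hd ▸ Subtype.property _
    replace h : t1⁻¹ * d * t2 ∈ centralizer {v} ⊓ centralizer {w} := by
      simpa [hd, mul_assoc] using h
    have h4 : d ∈ centralizer {w} := by
      have h5 : d * w * d⁻¹ * w⁻¹ ∈ W := by
        rw [← QuotientGroup.eq_one_iff]
        have h6 := congrArg (QuotientGroup.mk' W) (mem_centralizer_singleton_iff.1 h.2)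
        simp only [map_mul, map_inv, QuotientGroup.mk'_apply, (QuotientGroup.eq_one_iff _).2 (hT ht1),
          (QuotientGroup.eq_one_iff _).2 (hT ht2), inv_one, one_mul, mul_one] at h6
        simp [h6]
      have hwD : w ∈ D := mem_centralizer_singleton_iff.2 hwy
      have h6 := le_centralizer_of_max hy rfl (mem_centralizer_singleton_iff.1
        (mul_mem (mul_mem (mul_mem hdD hwD) (inv_mem hdD)) (inv_mem hwD))).symm
        (hl ▸ (hW' _ h5).symm.pow_left l) hwD
      have h7 := eq_one_of_isConj (mem_centralizer_singleton_iff.1 h6).symm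
        (hk ▸ (hW' _ h5).pow_right k) (isConj_iff.2 ⟨d, by group⟩)
      rwa [mul_inv_eq_one, mul_inv_eq_iff_eq_mul, ← mem_centralizer_singleton_iff] at h7
    have h5 : ∀ s ∈ T, s ∈ centralizer {v} := fun s hs =>
      mem_centralizer_singleton_iff.2 (setLike_mul_comm (s := K) (hT hs).2 hvK)
    have h6 : d ∈ centralizer {v} := (mul_mem_cancel_left (inv_mem (h5 _ ht1))).1
      ((mul_mem_cancel_right (h5 _ ht2)).1 h.1)
    obtain rfl : d1 = d2 := by
      rw [← d1.out_eq', ← d2.out_eq', QuotientGroup.eq, mem_subgroupOf, ← hd]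
      exact ⟨hdD, h6, h4⟩
    rw [hd, inv_mul_cancel, OneMemClass.coe_one, mul_one] at h
    obtain rfl : t1 = t2 := inv_mul_eq_one.1 (mem_bot.1 (hTC ▸ mem_inf.2
      ⟨⟨hT (mul_mem (inv_mem ht1) ht2), h.2⟩, mul_mem (inv_mem ht1) ht2⟩))
    rfl
  have h4 := hx _ ((hy _).lt_of_ne (hE v w hvK hwm))
  have h5 : 0 < Q.relIndex D := Nat.pos_of_ne_zero FiniteIndex.index_ne_zero
  nlinarith

include hy hx hcop hn hmn in
theorem le_centralizer_of_mem {p : ℕ} (hp : p.Prime) (hpm : ¬ p ∣ (centralizer ({y} : Set G)).index)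
    (hyp : ∃ k, orderOf y = p ^ k) (hxp : (orderOf x).Coprime p) (hpn : p ∣ (centralizer ({x} : Set G)).index) {w : G}
    (hw : ∃ k, orderOf w = p ^ k) (hwy : Commute w y) : centralizer {y} ≤ centralizer {w} := by
  have := Fact.mk hp
  have := Perm.coprimeClosure_normal (G := G) (centralizer ({y} : Set G)).index
  have := Perm.stabilizer_conjugatesOf_normal y
  have hxK := Perm.mem_coprimeClosure hcop
  have hE : ∀ k ∈ Perm.coprimeClosure G (centralizer ({y} : Set G)).index, (centralizer ({k} : Set G)).index ≠ (centralizer ({y} : Set G)).index := fun k hk => by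
    have := ne_of_mem hy hk (z := 1) (by
      rw [Cls.index_centralizer_eq_one_iff.2 (one_mem _)]; omega)
    rwa [mul_one] at this
  set K := Perm.coprimeClosure G (centralizer ({y} : Set G)).index
  set W := MulAction.stabilizer G (conjugatesOf y) ⊓ K
  have hW : (Nat.card W).Coprime p := ((Nat.Prime.coprime_iff_not_dvd hp).2 hpm).symm.coprime_dvd_left
    ((card_dvd_of_le inf_le_left).trans (Perm.card_stabilizer_conjugatesOf_dvd y))
  have hW' : ∀ u ∈ W, (orderOf u).Coprime p := fun u hu =>
    hW.coprime_dvd_left (Subgroup.orderOf_dvd_natCard _ hu)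
  have hWZ : ¬ W ≤ center G := fun h => by
    obtain ⟨P⟩ : Nonempty (Sylow p G) := inferInstance
    refine Cls.not_dvd_index_of_sylow_le (Q := P) (fun g hg => ?_) hpn
    have h1 : x⁻¹ * (g * x * g⁻¹) ∈ W := ⟨Perm.mem_stabilizer_of_coprime hcop (hy _) g,
      K.mul_mem (inv_mem hxK) (Normal.conj_mem inferInstance x hxK g)⟩
    obtain ⟨k, hk⟩ := Core.exists_orderOf_eq_pow_of_mem P.isPGroup' hg
    have h2 := eq_one_of_isConj (w := g) (mem_center_iff.1 (h h1) g).symm
      (hk ▸ (hW' _ h1).pow_right k) (isConj_iff.2 ⟨x⁻¹, by group⟩)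
    rw [inv_mul_eq_one, eq_mul_inv_iff_mul_eq] at h2
    exact mem_centralizer_singleton_iff.2 h2.symm
  have hwy' : zpowers w ≤ centralizer (zpowers y : Set G) := by
    rw [Cls.centralizer_zpowers]; exact zpowers_le.2 (mem_centralizer_singleton_iff.2 hwy)
  have hA : IsPGroup p (zpowers w ⊔ zpowers y : Subgroup G) :=
    (Core.isPGroup_zpowers_of_orderOf hw.choose_spec).to_sup_of_normal_right'
      (Core.isPGroup_zpowers_of_orderOf hyp.choose_spec) (hwy'.trans (centralizer_le_normalizer _))
  have hA' : zpowers w ⊔ zpowers y ≤ centralizer {y} := sup_le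
    (zpowers_le.2 (mem_centralizer_singleton_iff.2 hwy)) (Cls.zpowers_le_centralizer_single y)
  have hA2 := fun a ha => index_eq_of_mem hy hx hcop hp hpm hyp hxp
    (Core.exists_orderOf_eq_pow_of_mem hA (x := a) ha) (mem_centralizer_singleton_iff.1 (hA' ha))
  by_contra h
  obtain ⟨k, hk⟩ := hA.exists_card_eq
  refine hWZ (Coprime.le_of_forall_cyclic_quotient (A := zpowers w ⊔ zpowers y)
    (PGrp.isMulCommutative_sup inferInstance inferInstance hwy') le_normalizer_of_normal
    (hk ▸ hW.symm.pow_left k) ?_)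
  rintro B hB ⟨t, ht, hBt⟩ u hu
  by_contra huZ
  have h1 : B ≤ center G := fun b hb => (hA2 b (hB hb)).resolve_right fun h1 => by
    obtain ⟨l, hl⟩ := Core.exists_orderOf_eq_pow_of_mem hA (hB hb)
    have h2 := index_dvd_of_le (le_centralizer_of_max hy h1 (hu.2 b hb)
      (hl ▸ (hW' u hu.1).symm.pow_left l))
    exact hE u hu.1.2 ((central_or_eq hy hx hcop (h1 ▸ h2)).resolve_left huZ)
  have h2 : ∀ a ∈ zpowers w ⊔ zpowers y, centralizer {t} ≤ centralizer {a} := fun a ha c hc => by
    have h3 : B ⊔ zpowers t ≤ centralizer {c} := sup_le (h1.trans (center_le_centralizer _))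
      (zpowers_le.2 (mem_centralizer_singleton_iff.2 (mem_centralizer_singleton_iff.1 hc).symm))
    exact mem_centralizer_singleton_iff.2 (mem_centralizer_singleton_iff.1 (h3 (hBt ▸ ha))).symm
  exact h (eq_of_le_of_index_le (h2 y (mem_sup_right (mem_zpowers y))) (hy t) ▸
    h2 w (mem_sup_left (mem_zpowers w)))

include hy hx hcop hn hmn in
theorem index_eq {p : ℕ} (hp : p.Prime) (hpm : ¬ p ∣ (centralizer ({y} : Set G)).index)
    (hyp : ∃ k, orderOf y = p ^ k) (hxp : (orderOf x).Coprime p) (hpn : p ∣ (centralizer ({x} : Set G)).index) {z : G}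
    (hz : z ∉ center G) (hz' : (centralizer ({z} : Set G)).index ≠ (centralizer ({y} : Set G)).index) : (centralizer ({z} : Set G)).index = (centralizer ({x} : Set G)).index := by
  have h1 : ∀ d ∈ centralizer ({y} : Set G), centralizer {y} ≤ centralizer {d} := fun d hd => by
    obtain ⟨u, hu, v, hv, rfl, hu', hv'⟩ := Cls.exists_p_part hp d
    have h2 := le_centralizer_of_mem hy hx hcop hn hmn hp hpm hyp hxp hpn hu'
      (mem_centralizer_singleton_iff.1 (zpowers_le.2 hd hu))
    have h3 := le_centralizer_of_max hy rfl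
      (mem_centralizer_singleton_iff.1 (zpowers_le.2 hd hv)).symm
      (hyp.choose_spec ▸ hv'.symm.pow_left _)
    exact fun c hc => mem_centralizer_singleton_iff.2 (Commute.mul_right
      (mem_centralizer_singleton_iff.1 (h2 hc)) (mem_centralizer_singleton_iff.1 (h3 hc)))
  have h2 : ∀ d ∈ centralizer ({y} : Set G), d ∉ center G → centralizer {y} = centralizer {d} :=
    fun d hd hdZ => eq_of_le_of_index_le (h1 d hd)
      ((central_or_eq hy hx hcop (index_dvd_of_le (h1 d hd))).resolve_left hdZ).ge
  have h3 : center G = centralizer {x} ⊓ centralizer {y} := by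
    refine le_antisymm (le_inf (center_le_centralizer _) (center_le_centralizer _)) fun d hd => ?_
    by_contra hdZ
    have h4 : x ∈ centralizer {y} := h2 d hd.2 hdZ ▸
      mem_centralizer_singleton_iff.2 (mem_centralizer_singleton_iff.1 hd.1).symm
    exact hn.ne' (hcop.eq_one_of_dvd (index_dvd_of_le (h1 x h4)))
  have h4 := relIndex_mul_index (Cls.center_le_centralizer_single z)
  nth_rw 2 [h3] at h4
  rw [Perm.index_inf_eq hcop] at h4
  refine le_antisymm (hx z ((hy z).lt_of_ne hz')) (Nat.le_of_dvd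
    (Nat.pos_of_ne_zero FiniteIndex.index_ne_zero) (Nat.Coprime.dvd_of_dvd_mul_left
      (Nat.coprime_of_dvd fun r hr h5 h6 => ?_) (Dvd.intro _ h4.symm)))
  have := Fact.mk hr
  obtain ⟨R, hR⟩ := Cls.exists_sylow_le_of_not_dvd_index (p := r) (H := centralizer {y})
    fun h => hr.ne_one (Nat.eq_one_of_dvd_coprimes hcop h5 h)
  obtain ⟨S⟩ : Nonempty (Sylow r (centralizer ({z} : Set G))) := inferInstance
  refine Cls.not_dvd_index_of_sylow_le (Q := S) (fun u hu => ?_) h6
  by_contra huZ
  obtain ⟨g, hg⟩ := Cls.exists_conj_mem_sylow R (x := u)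
    (orderOf_coe u ▸ Core.exists_orderOf_eq_pow_of_mem S.isPGroup' hu)
  have h7 := h2 _ (hR hg) fun h => huZ (by
    simpa [mem_subgroupOf, mul_assoc] using Normal.conj_mem inferInstance _ h g)
  have h8 : g⁻¹ * z * g ∈ centralizer {y} := h7 ▸ mem_centralizer_singleton_iff.2 (by
    simpa [mul_assoc] using (Commute.symm (mem_centralizer_singleton_iff.1 u.2)).map
      (MulAut.conj g⁻¹) |>.eq)
  refine hz' ?_
  rw [← Cls.index_centralizer_conj z g⁻¹, inv_inv, h2 _ h8 fun h => hz (by
    simpa [mul_assoc] using Normal.conj_mem inferInstance _ h g)]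

end


/-- Let G be a finite group whose two largest conjugacy class sizes m > n > 1 are coprime, and let x, y ∈ G have classes of sizes n and m respectively. Then C_G(x) and C_G(y) are abelian, and G/Z(G) is a Frobenius group with kernel C_G(x)/Z(G) and complement C_G(y)/Z(G). -/
theorem result {G : Type*} [Group G] [Finite G] (m n : ℕ) (hmn : n < m) (hn : 1 < n)
    (hcop : m.Coprime n) (htop : ∀ z : G, (Subgroup.centralizer ({z} : Set G)).index ≤ m) (hsecond : ∀ z : G, (Subgroup.centralizer ({z} : Set G)).index < m → (Subgroup.centralizer ({z} : Set G)).index ≤ n)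
    (x y : G) (hx : (Subgroup.centralizer ({x} : Set G)).index = n) (hy : (Subgroup.centralizer ({y} : Set G)).index = m) :
    IsMulCommutative (Subgroup.centralizer ({x} : Set G)) ∧ IsMulCommutative (Subgroup.centralizer ({y} : Set G)) ∧
    Cfsg.IsFrobeniusComplement ((Subgroup.centralizer ({y} : Set G)).map (QuotientGroup.mk' (Subgroup.center G))) ∧
    Cfsg.frobeniusKernel ((Subgroup.centralizer ({y} : Set G)).map (QuotientGroup.mk' (Subgroup.center G))) =
      ((Subgroup.centralizer ({x} : Set G)).map (QuotientGroup.mk' (Subgroup.center G)) : Set (G ⧸ Subgroup.center G)) := by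
  subst hx hy
  obtain ⟨p, hp, hpn⟩ := Nat.exists_prime_and_dvd hn.ne'
  have := Fact.mk hp
  have hpm : ¬ p ∣ (centralizer ({y} : Set G)).index := fun h =>
    hp.ne_one (Nat.eq_one_of_dvd_coprimes hcop h hpn)
  obtain ⟨P, hP⟩ := Cls.exists_sylow_le_of_not_dvd_index hpm
  obtain ⟨x', hx', hx''⟩ : ∃ x' : G, centralizer {x'} = centralizer {x} ∧ (orderOf x').Coprime p := by
    obtain ⟨u, hu, v, hv, h, hu', hv'⟩ := Cls.exists_p_part hp x
    have h1 := central_of_pow htop hp hpm hu' (hcop.symm.coprime_dvd_left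
      (index_dvd_of_le (Cls.centralizer_single_le_of_mem_zpowers hu)))
    exact ⟨v, by rw [h, ← mem_center_iff.1 h1, Cls.centralizer_single_mul_center h1], hv'⟩
  obtain ⟨y', hy', hy''⟩ : ∃ y' : G, centralizer {y'} = centralizer {y} ∧
      ∃ k, orderOf y' = p ^ k := by
    obtain ⟨u, hu, v, hv, h, hu', hv'⟩ := Cls.exists_p_part hp y
    have h0 := Cls.centralizer_single_le_of_mem_zpowers hv
    rcases central_or_eq htop hsecond hcop.symm (index_dvd_of_le h0) with h1 | h1
    · exact ⟨u, by rw [h, Cls.centralizer_single_mul_center h1], hu'⟩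
    obtain ⟨w, hw, hwZ⟩ := SetLike.not_le_iff_exists.1 fun h : (P : Subgroup G) ≤ center G =>
      Cls.not_dvd_index_of_sylow_le (h.trans (center_le_centralizer _)) hpn
    obtain ⟨k, hk⟩ := Core.exists_orderOf_eq_pow_of_mem P.isPGroup' hw
    have h2 := h0.trans (le_centralizer_of_max htop h1
      (mem_centralizer_singleton_iff.1 (h0 (hP hw))).symm (hk ▸ hv'.pow_right k))
    exact ⟨w, (eq_of_le_of_index_le h2 ((central_or_eq htop hsecond hcop.symm
      (index_dvd_of_le h2)).resolve_left hwZ).ge).symm, k, hk⟩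
  have h1 : ∀ z ∉ center G, (centralizer ({z} : Set G)).index ≠ (centralizer ({y} : Set G)).index →
      (centralizer ({z} : Set G)).index = (centralizer ({x} : Set G)).index := by
    rw [← hx', ← hy'] at hsecond hcop hmn ⊢
    rw [← hx'] at hn hpn
    rw [← hy'] at htop hpm
    exact fun z => index_eq htop hsecond hcop.symm hn hmn hp hpm hy'' hx'' hpn
  have := Perm.coprimeClosure_normal (G := G) (centralizer ({y} : Set G)).index
  have := Perm.coprimeClosure_isMulCommutative htop
  have hE : ∀ k ∈ Perm.coprimeClosure G (centralizer ({y} : Set G)).index,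
      (centralizer ({k} : Set G)).index ≠ (centralizer ({y} : Set G)).index := fun k hk => by
    have := ne_of_mem htop hk (z := 1) (by
      rw [Cls.index_centralizer_eq_one_iff.2 (one_mem _)]; omega)
    rwa [mul_one] at this
  have h2 : ∀ g ∉ Perm.coprimeClosure G (centralizer ({y} : Set G)).index,
      (centralizer ({g} : Set G)).index = (centralizer ({y} : Set G)).index := fun g hg => by
    by_contra h
    exact hg (Perm.mem_coprimeClosure
      (h1 g (fun h => hg (Perm.center_le_coprimeClosure h)) h ▸ hcop.symm))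
  have h3 := fun g hg => h2 g hg ▸ hpm
  have hK := Perm.centralizer_eq_of_dvd h3 hpn
  obtain ⟨h5, h6, h7, h8⟩ := Perm.quasiFrobenius h3 P hpn (fun g hg => by rwa [h2 g hg, ← hK])
    fun a ha haZ => h1 a haZ (hE a ha) ▸ hpn
  rw [← h6 y (fun a ha => mem_centralizer_singleton_iff.1 (hP ha)) fun h => hE y h rfl] at h5 h7 h8
  rw [hK]
  exact ⟨inferInstance, h5, h7.isFrobeniusComplement h8, h7.frobeniusKernel_eq h8⟩

end Cfsg.Agent.S4138
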