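import Cfsg.Statements.S4139
import Mathlib
import Cfsg.Agent.Lib.Cls.Basic
import Cfsg.Agent.Lib.Core.Fitting
import Cfsg.Agent.Lib.PGrp.Basic

set_option autoImplicit false
open Cfsg

namespace Cfsg.Agent.S4139

open scoped commutatorElement

section
open Subgroup
universe u

theorem dvd_ncard {G : Type*} [Group G] [Finite G] {p : ℕ} (T : Set G)
    (hT : ∀ x ∈ T, p ∣ (centralizer ({x} : Set G)).index ∧ ∀ y, IsConj x y → y ∈ T) :
    p ∣ T.ncard := by
  classical
  have := Fintype.ofFinite G
  have := Fintype.ofFinite (ConjClasses G)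
  rw [Set.ncard_eq_toFinset_card', Finset.card_eq_sum_card_fiberwise (t := Finset.univ)
    (f := ConjClasses.mk) (fun _ _ => Finset.mem_univ _)]
  refine Finset.dvd_sum fun C _ => ?_
  rcases (T.toFinset.filter fun x => ConjClasses.mk x = C).eq_empty_or_nonempty with h | ⟨x, hx⟩
  · simp [h]
  · rw [Finset.mem_filter, Set.mem_toFinset] at hx
    obtain ⟨hx, rfl⟩ := hx
    refine (hT x hx).1.trans (dvd_of_eq (Eq.symm ?_))
    rw [← Cls.card_isConj, Nat.card_eq_fintype_card, Fintype.card_subtype]
    congr 1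
    ext y
    simp only [Finset.mem_filter, Set.mem_toFinset, Finset.mem_univ, true_and,
      ConjClasses.mk_eq_mk_iff_isConj]
    exact ⟨fun h => h.2.symm, fun h => ⟨(hT x hx).2 y h, h.symm⟩⟩

/-- Elements whose class size is a power of `p`. -/
def pSet (p : ℕ) (G : Type*) [Group G] : Set G :=
  {x | ∃ k, (centralizer ({x} : Set G)).index = p ^ k}

theorem dvd_card_center {G : Type*} [Group G] [Finite G] {p : ℕ} (h : p ∣ (pSet p G).ncard) :
    p ∣ Nat.card (center G) := by
  have h1 : (center G : Set G) ⊆ pSet p G := fun x hx =>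
    ⟨0, Cls.index_centralizer_eq_one_iff.mpr hx⟩
  have h2 : p ∣ (pSet p G \ center G).ncard := by
    refine dvd_ncard _ ?_
    rintro x ⟨⟨k, hk⟩, hx⟩
    refine ⟨hk ▸ dvd_pow_self p fun h0 => hx (Cls.index_centralizer_eq_one_iff.mp
      (by rw [hk, h0, pow_zero])), fun y hy => ⟨⟨k, ?_⟩, fun h3 => hx ?_⟩⟩
    · rw [← hk, Cls.index_centralizer_of_isConj hy]
    · refine Cls.index_centralizer_eq_one_iff.mp ?_
      rw [← Cls.index_centralizer_of_isConj hy]
      exact Cls.index_centralizer_eq_one_iff.mpr h3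
  rw [← Set.ncard_sdiff_add_ncard_of_subset h1] at h
  exact (Nat.dvd_add_right h2).mp h

theorem ncard_pSet {G : Type*} [Group G] [Finite G] {p : ℕ} (hp : p.Prime) (Y : Subgroup G)
    [Y.Normal] (hY : Y ≤ center G) (hc : Nat.card Y = p) :
    (pSet p G).ncard = (pSet p (G ⧸ Y)).ncard * p := by
  have h1 : pSet p G = QuotientGroup.mk ⁻¹' pSet p (G ⧸ Y) := by
    ext x
    refine ⟨fun ⟨k, hk⟩ => ?_, fun ⟨k, hk⟩ => ?_⟩
    · obtain ⟨j, -, hj⟩ := (Nat.dvd_prime_pow hp).mp (hk ▸ Cls.index_centralizer_mk_dvd Y x)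
      exact ⟨j, hj⟩
    · set D := (centralizer ({(x : G ⧸ Y)} : Set (G ⧸ Y))).comap (QuotientGroup.mk' Y) with hD
      have hDi : D.index = p ^ k := by
        rw [hD, index_comap_of_surjective _ (QuotientGroup.mk'_surjective Y), hk]
      have hmem : ∀ d ∈ D, ⁅d, x⁆ ∈ Y := fun d hd => by
        rw [← QuotientGroup.eq_one_iff]
        exact commutatorElement_eq_one_iff_mul_comm.mpr (Cls.mem_centralizer_single.mp hd)
      let f : D →* Y := MonoidHom.mk' (fun d => ⟨⁅(d : G), x⁆, hmem d d.2⟩) fun a b => by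
        apply Subtype.ext
        change ⁅(a : G) * b, x⁆ = ⁅(a : G), x⁆ * ⁅(b : G), x⁆
        rw [commutatorElement_mul_left_eq_conj_mul, mem_center_iff.mp (hY (hmem b b.2)),
          mem_center_iff.mp (hY (hmem b b.2))]
        group
      have hker : f.ker = (centralizer ({x} : Set G)).subgroupOf D := by
        ext d
        rw [MonoidHom.mem_ker, mem_subgroupOf, Cls.mem_centralizer_single,
          ← commutatorElement_eq_one_iff_mul_comm]
        exact Subtype.ext_iff
      have hle : centralizer ({x} : Set G) ≤ D := fun g hg =>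
        Cls.map_centralizer_single_le (QuotientGroup.mk' Y) x (mem_map_of_mem _ hg)
      have h2 : (centralizer ({x} : Set G)).relIndex D ∣ p ^ 1 := by
        rw [relIndex, ← hker, index_ker, pow_one, ← hc]
        exact card_subgroup_dvd_card _
      obtain ⟨j, -, hj⟩ := (Nat.dvd_prime_pow hp).mp h2
      exact ⟨j + k, by rw [← relIndex_mul_index hle, hj, hDi, pow_add]⟩
  rw [h1, ← Nat.card_coe_set_eq, ← Nat.card_coe_set_eq,
    Nat.card_congr (QuotientGroup.preimageMkEquivSubgroupProdSet Y _), Nat.card_prod, hc, mul_comm]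

theorem exists_central {G : Type*} [Group G] [Finite G] {p : ℕ} [Fact p.Prime]
    (h : p ∣ Nat.card (center G)) : ∃ Y : Subgroup G, Y ≤ center G ∧ Nat.card Y = p := by
  obtain ⟨z, hz⟩ := exists_prime_orderOf_dvd_card' p h
  exact ⟨zpowers (z : G), zpowers_le.mpr z.2, by rw [Nat.card_zpowers, orderOf_coe, hz]⟩

theorem sylow_normal {p : ℕ} [hp : Fact p.Prime] (k : ℕ) : ∀ (G : Type u) [Group G] [Finite G],
    (Nat.card G).factorization p = k → p ^ k ∣ (pSet p G).ncard →
    ∃ P : Sylow p G, (P : Subgroup G).Normal := by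
  induction k with
  | zero =>
    intro G _ _ h _
    obtain ⟨P⟩ : Nonempty (Sylow p G) := inferInstance
    refine ⟨P, ?_⟩
    have : (P : Subgroup G) = ⊥ := by
      rw [← card_eq_one, P.card_eq_multiplicity, h, pow_zero]
    rw [this]; infer_instance
  | succ k ih =>
    intro G _ _ h h'
    obtain ⟨Y, hY, hc⟩ := exists_central (dvd_card_center ((dvd_pow_self p k.succ_ne_zero).trans h'))
    have := PGrp.normal_of_le_center hY
    have h1 : (Nat.card (G ⧸ Y)).factorization p = k := by
      rw [card_eq_card_quotient_mul_card_subgroup Y, hc,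
        Nat.factorization_mul Nat.card_pos.ne' hp.out.ne_zero] at h
      simpa [hp.out.factorization_self] using h
    rw [ncard_pSet hp.out Y hY hc, pow_succ, Nat.mul_dvd_mul_iff_right hp.out.pos] at h'
    obtain ⟨Q, hQ⟩ := ih (G ⧸ Y) h1 h'
    refine ⟨Q.comapOfKerIsPGroup (QuotientGroup.mk' Y) ?_ (by simp), ?_⟩
    · rw [QuotientGroup.ker_mk']
      exact IsPGroup.of_card (n := 1) (by rw [hc, pow_one])
    · exact hQ.comap _

theorem dvd_of_nilpotent {p : ℕ} [hp : Fact p.Prime] (k : ℕ) : ∀ (G : Type u) [Group G] [Finite G],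
    Group.IsNilpotent G → p ^ k ∣ Nat.card G → p ^ k ∣ (pSet p G).ncard := by
  induction k with
  | zero => intros; simp
  | succ k ih =>
    intro G _ _ hG h
    have h0 : p ∣ Nat.card (center G) := by
      obtain ⟨P⟩ : Nonempty (Sylow p G) := inferInstance
      have hP := Core.isNilpotent_iff_sylow_normal.mp hG p hp P
      have h1 : (P : Subgroup G) ≠ ⊥ := P.ne_bot_of_dvd_card ((dvd_pow_self p k.succ_ne_zero).trans h)
      have h2 := PGrp.inf_center_ne_bot_of_nilpotent h1
      have h3 : IsPGroup p ↥((P : Subgroup G) ⊓ center G) := P.isPGroup'.to_inf_left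
      obtain ⟨j, hj⟩ := IsPGroup.iff_card.mp h3
      refine dvd_trans ?_ (card_dvd_of_le (inf_le_right : (P : Subgroup G) ⊓ center G ≤ _))
      rw [hj]
      exact dvd_pow_self p fun h4 => h2 (by rw [← card_eq_one, hj, h4, pow_zero])
    obtain ⟨Y, hY, hc⟩ := exists_central h0
    have := PGrp.normal_of_le_center hY
    rw [card_eq_card_quotient_mul_card_subgroup Y, hc, pow_succ,
      Nat.mul_dvd_mul_iff_right hp.out.pos] at h
    rw [ncard_pSet hp.out Y hY hc, pow_succ, Nat.mul_dvd_mul_iff_right hp.out.pos]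
    exact ih _ inferInstance h

end


/-- Let G and H be finite groups such that for every natural number k, G and H have the same number of conjugacy classes of size k. If H is nilpotent then G is nilpotent. -/
theorem result {G H : Type*} [Group G] [Finite G] [Group H] [Finite H]
    (hH : Group.IsNilpotent H)
    (h : ∀ k : ℕ, Nat.card {C : ConjClasses G // Nat.card C.carrier = k} = Nat.card {C : ConjClasses H // Nat.card C.carrier = k}) :
    Group.IsNilpotent G := by
  let e : ConjClasses G ≃ ConjClasses H := Equiv.ofFiberEquiv (f := fun C => Nat.card C.carrier)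
    (g := fun C => Nat.card C.carrier) fun k => (Finite.card_eq.mp (h k)).some
  have he : ∀ C, Nat.card (e C).carrier = Nat.card C.carrier := fun C =>
    Equiv.ofFiberEquiv_map (f := fun C : ConjClasses G => Nat.card C.carrier)
      (g := fun C : ConjClasses H => Nat.card C.carrier) _ C
  have h1 : ∀ D, Nat.card {x : G // e (ConjClasses.mk x) = D} =
      Nat.card {y : H // ConjClasses.mk y = D} := by
    intro D
    obtain ⟨C, rfl⟩ := e.surjective D
    simp only [e.apply_eq_iff_eq, ← ConjClasses.mem_carrier_iff_mk_eq]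
    exact (he C).symm
  let f : G ≃ H := Equiv.ofFiberEquiv (f := fun x => e (ConjClasses.mk x))
    (g := ConjClasses.mk) fun D => (Finite.card_eq.mp (h1 D)).some
  have hf : ∀ x, (Subgroup.centralizer ({f x} : Set H)).index =
      (Subgroup.centralizer ({x} : Set G)).index := fun x => by
    rw [← Cls.card_carrier_mk, ← Cls.card_carrier_mk, ← he]
    congr 3
    exact Equiv.ofFiberEquiv_map _ x
  refine Core.isNilpotent_of_exists_sylow_normal fun p hp => sylow_normal _ G rfl ?_
  have h2 : pSet p G = f ⁻¹' pSet p H := by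
    ext x
    simp only [pSet, Set.mem_ofPred_eq, Set.mem_preimage, hf]
  rw [h2, Set.ncard_preimage_of_injective_subset_range f.injective (by simp), Nat.card_congr f]
  exact dvd_of_nilpotent _ H hH (Nat.ordProj_dvd _ _)

end Cfsg.Agent.S4139
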