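import Cfsg.Statements.S4142
import Cfsg.Agent.Lib.Cls.Basic

set_option autoImplicit false
open Cfsg

namespace Cfsg.Agent.S4142

theorem aux {G : Type*} [Group G] [Finite G] (N : Subgroup G) [N.Normal] (g : G) :
    (∀ n ∈ N, ∃ x : G, x * g * x⁻¹ = g * n) ↔ Nat.card (Subgroup.centralizer ({g} : Set G)) =
        Nat.card (Subgroup.centralizer ({(QuotientGroup.mk g : G ⧸ N)} : Set (G ⧸ N))) := by
  set C := Subgroup.centralizer ({(QuotientGroup.mk g : G ⧸ N)} : Set (G ⧸ N)) with hC
  set D := C.comap (QuotientGroup.mk' N) with hD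
  have hmem : ∀ x, x ∈ D ↔ g⁻¹ * (x * g * x⁻¹) ∈ N := fun x => by
    rw [hD, Subgroup.mem_comap, hC, Subgroup.mem_centralizer_singleton_iff, ← QuotientGroup.eq,
      QuotientGroup.mk_mul, QuotientGroup.mk_mul, QuotientGroup.mk_inv, eq_mul_inv_iff_mul_eq,
      eq_comm]
    rfl
  have hg : g ∈ D := (hmem g).2 (by simp [N.one_mem])
  have hle : Subgroup.centralizer ({g} : Set G) ≤ D := fun x hx => (hmem x).2 (by
    rw [Subgroup.mem_centralizer_singleton_iff.1 hx]; simp [N.one_mem])
  have h1 : Nat.card D = Nat.card N * Nat.card C := by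
    have h2 := D.index_mul_card
    have h3 := C.index_mul_card
    have h4 := N.card_mul_index
    rw [hD, Subgroup.index_comap_of_surjective _ (QuotientGroup.mk'_surjective N)] at h2
    rw [Subgroup.index_eq_card, ← h3, ← h2] at h4
    refine Nat.eq_of_mul_eq_mul_left (Nat.pos_of_ne_zero (C.index_ne_zero_of_finite)) ?_
    rw [hD, ← h4]; ring
  have h2 : Nat.card {y : D // IsConj (⟨g, hg⟩ : D) y} *
      Nat.card (Subgroup.centralizer ({g} : Set G)) = Nat.card D := by
    rw [Cls.card_isConj, ← Cls.centralizer_single_subgroupOf,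
      ← Core.card_subgroupOf_of_le hle, Subgroup.index_mul_card]
  let f : {y : D // IsConj (⟨g, hg⟩ : D) y} → N := fun y => ⟨g⁻¹ * y, by
    obtain ⟨x, hx⟩ := isConj_iff.1 y.2
    rw [← hx]
    exact (hmem x).1 x.2⟩
  have hf : Function.Injective f := fun a b h =>
    Subtype.ext (Subtype.ext (mul_left_cancel (congrArg Subtype.val h)))
  have h3 : (∀ n ∈ N, ∃ x : G, x * g * x⁻¹ = g * n) ↔ Function.Surjective f := by
    constructor
    · intro h n
      obtain ⟨x, hx⟩ := h n n.2
      have hxD : x ∈ D := (hmem x).2 (by rw [hx]; simp)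
      exact ⟨⟨⟨x, hxD⟩ * ⟨g, hg⟩ * ⟨x, hxD⟩⁻¹, isConj_iff.2 ⟨_, rfl⟩⟩,
        Subtype.ext (by simp [f, hx])⟩
    · intro h n hn
      obtain ⟨y, hy⟩ := h ⟨n, hn⟩
      obtain ⟨x, hx⟩ := isConj_iff.1 y.2
      refine ⟨x, ?_⟩
      have h5 : g⁻¹ * y = n := congrArg Subtype.val hy
      rw [← h5, mul_inv_cancel_left, ← hx]
      rfl
  rw [h3]
  constructor
  · intro h
    rw [Nat.card_eq_of_bijective f ⟨hf, h⟩, h1] at h2
    exact Nat.eq_of_mul_eq_mul_left Nat.card_pos h2
  · intro h
    rw [h, h1] at h2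
    exact (hf.bijective_of_nat_card_le (Nat.eq_of_mul_eq_mul_right Nat.card_pos h2).ge).2


/-- Let G be a finite group and N a normal subgroup. Then the conjugacy class of every element g outside N is a union of cosets of N (gn is conjugate to g for all n ∈ N) if and only if for every g outside N the centralizer of g in G has the same order as the centralizer of gN in G/N. -/
theorem result {G : Type*} [Group G] [Finite G] (N : Subgroup G) [N.Normal] :
    (∀ g : G, g ∉ N → ∀ n ∈ N, ∃ x : G, x * g * x⁻¹ = g * n) ↔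
      ∀ g : G, g ∉ N → Nat.card (Subgroup.centralizer ({g} : Set G)) =
        Nat.card (Subgroup.centralizer ({(QuotientGroup.mk g : G ⧸ N)} : Set (G ⧸ N))) := by
  exact forall₂_congr fun g _ => aux N g

end Cfsg.Agent.S4142
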