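import Cfsg.Statements.S4143
import Cfsg.Agent.Lib.PGrp.MaxClass

set_option autoImplicit false
open Cfsg

namespace Cfsg.Agent.S4143

/-- Let X be a finite p-group of order p^n containing a non-abelian subgroup B of order p³ with C_X(B) ≤ B. Then X has nilpotency class n − 1 (maximal class). -/
theorem result {X : Type*} [Group X] [Finite X] {p : ℕ} [Fact p.Prime] (n : ℕ) (hX : Nat.card X = p ^ n)
    (B : Subgroup X) (hB : Nat.card B = p ^ 3) (hBna : ¬ IsMulCommutative B) (hC : Subgroup.centralizer (B : Set X) ≤ B) :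
    Group.nilpotencyClass X = n - 1 := by
  have hp : p.Prime := Fact.out
  have hP : IsPGroup p X := IsPGroup.of_card hX
  have hE := PGrp.isExtraspecial_of_card_eq_cube hB hBna
  have hn : 3 ≤ n := by
    rw [← Nat.pow_dvd_pow_iff_le_right hp.one_lt, ← hB, ← hX]
    exact B.card_subgroup_dvd_card
  obtain ⟨n, rfl⟩ := Nat.exists_eq_add_of_le' hn
  have := PGrp.nontrivial_of_card_eq_pow_succ hX
  have := hP.isNilpotent
  have h1 := PGrp.IsExtraspecial.card_inf_centralizer hE
  rw [inf_eq_right.mpr hC] at h1
  have h2 : Subgroup.center X = Subgroup.centralizer (B : Set X) :=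
    PGrp.eq_of_le_of_card_prime (Subgroup.center_le_centralizer _) h1
      ((Subgroup.center X).nontrivial_iff_ne_bot.mp hP.center_nontrivial)
  have hZ : Nat.card (Subgroup.center X) = p := h2 ▸ h1
  have hZB : Subgroup.center X ≤ B := h2.le.trans hC
  have := isCyclic_of_prime_card hZ
  let π := QuotientGroup.mk' (Subgroup.center X)
  have h3 : Nat.card (B.map π) = p ^ 2 := by
    have := PGrp.card_map_mk'_mul (Subgroup.center X) B
    rw [sup_eq_left.mpr hZB, hB, hZ, pow_succ] at this
    exact Nat.eq_of_mul_eq_mul_right hp.pos this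
  rw [Group.nilpotencyClass_eq_quotient_center_plus_one, PGrp.nilpotencyClass_eq_of_centralizer_le
    (PGrp.card_quotient_of_card_prime hX hZ) h3]
  · rfl
  let W := (Subgroup.centralizer (B.map π : Set (X ⧸ Subgroup.center X))).comap π
  have h4 : ⁅B, W⁆ ≤ Subgroup.center X := Subgroup.commutator_le.mpr fun b hb w hw => by
    rw [← QuotientGroup.eq_one_iff]
    exact (map_commutatorElement π b w).trans (commutatorElement_eq_one_iff_mul_comm.mpr
      (hw _ (Subgroup.mem_map_of_mem π hb)))
  have h5 := PGrp.relIndex_centralizer_symm h4 (Subgroup.center_le_centralizer _)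
    (Subgroup.center_le_centralizer _)
  have h6 : B ≤ W := by
    rintro b hb _ ⟨c, hc, rfl⟩
    rw [← commutatorElement_eq_one_iff_mul_comm, ← map_commutatorElement]
    refine (QuotientGroup.eq_one_iff _).mpr (h2.ge ?_)
    exact ((PGrp.IsExtraspecial.commutator_eq hE).le (Subgroup.commutator_mem_commutator hc hb)).2
  have h7 := PGrp.card_mul_relIndex (hZB.trans h6)
  have h8 := PGrp.card_mul_relIndex hZB
  have h9 : (Subgroup.centralizer (W : Set X)).relIndex B ≤ (Subgroup.center X).relIndex B :=
    Subgroup.relIndex_le_of_le_left (Subgroup.center_le_centralizer _)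
      Subgroup.FiniteIndex.index_ne_zero
  rw [h5, ← h2] at h9
  have h10 : B = W := Subgroup.eq_of_le_of_card_ge h6 (h7 ▸ h8 ▸ Nat.mul_le_mul_left _ h9)
  intro g hg
  obtain ⟨g, rfl⟩ := QuotientGroup.mk'_surjective _ g
  exact Subgroup.mem_map_of_mem π (h10.ge hg)

end Cfsg.Agent.S4143
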