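import Cfsg.Statements.S4144
import Mathlib
import Cfsg.Agent.Lib.Reg.MaxClassPow

set_option autoImplicit false
open Cfsg

namespace Cfsg.Agent.S4144

open Subgroup Cfsg.Agent.Reg

/-- Let X be a finite p-group of order p^n, n ≥ 2, of nilpotency class n − 1 (maximal class), and H any subgroup of X. Then the index in H of the subgroup generated by the p-th powers of elements of H is at most p^p. -/
theorem result {X : Type*} [Group X] [Finite X] {p : ℕ} [Fact p.Prime] (n : ℕ) (hn : 2 ≤ n) (hX : Nat.card X = p ^ n)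
    (hmax : Group.nilpotencyClass X = n - 1) (H : Subgroup X) :
    (Subgroup.closure {y : X | ∃ h ∈ H, y = h ^ p}).relIndex H ≤ p ^ p := by
  have hp : p.Prime := Fact.out
  have hp2 := hp.two_le
  have hP := IsPGroup.of_card hX
  change (powClosure p H).relIndex H ≤ p ^ p
  have h0 := PGrp.card_mul_relIndex (powClosure_le p H)
  refine Nat.le_of_mul_le_mul_left ?_ (Nat.card_pos (α := powClosure p H))
  rw [h0]
  by_cases hnp : n ≤ p
  · exact (H.card_le_card_group.trans (hX.le.trans (Nat.pow_le_pow_right hp.pos hnp))).trans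
      (Nat.le_mul_of_pos_left _ Nat.card_pos)
  obtain ⟨n, rfl⟩ := Nat.exists_eq_add_of_le' hn
  replace hmax : Group.nilpotencyClass X = n + 1 := hmax
  by_cases hH : H = ⊤
  · subst hH
    obtain ⟨k, hk⟩ := PGrp.exists_card_eq_pow hP (powClosure p (⊤ : Subgroup X))
    rw [card_top, hX, hk, ← pow_add, Nat.pow_le_pow_iff_right hp.one_lt]
    by_contra hlt
    have h1 := PGrp.eq_lowerCentralSeries_of_maxClass hX hmax (N := powClosure p ⊤)
      (Nat.sub_le n k) (by rw [hk]; congr 1; omega)
    have h2 := index_lcs_of_maxClass hX hmax (show p - 1 ≤ n by omega)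
    obtain ⟨g, hg⟩ := exists_pow_ne_one_of_maxClass h2
      (PGrp.nilpotencyClass_quotient_of_maxClass hX hmax _ h2) (by omega)
    obtain ⟨g, rfl⟩ := QuotientGroup.mk_surjective g
    exact hg ((QuotientGroup.eq_one_iff (g ^ p)).2 ((⊤ : Subgroup X).lowerCentralSeries_antitone
      (by omega) (h1.le (pow_mem_powClosure (mem_top g)))))
  have h1 : ∀ m i, n ≤ i + m → Nat.card ↥((⊤ : Subgroup X).lowerCentralSeries (i + 1) ⊓ H) ≤
      Nat.card ↥((⊤ : Subgroup X).lowerCentralSeries (i + p) ⊓ powClosure p H) * p ^ (p - 1) := by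
    intro m
    induction m with
    | zero =>
      intro i hi
      rw [lcs_eq_bot_of_maxClass hX hmax (by omega), bot_inf_eq, card_bot]
      exact Nat.mul_pos Nat.card_pos (pow_pos hp.pos _)
    | succ m ih =>
      intro i hi
      by_cases h2 : n < i + p
      · refine (card_le_of_le inf_le_left).trans (le_trans ?_ (Nat.le_mul_of_pos_left _ Nat.card_pos))
        by_cases h3 : n ≤ i
        · rw [lcs_eq_bot_of_maxClass hX hmax (by omega), card_bot]
          exact pow_pos hp.pos _
        rw [PGrp.card_lowerCentralSeries_of_maxClass hX hmax (by omega)]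
        exact Nat.pow_le_pow_right hp.pos (by omega)
      have h3 := ih (i + 1) (by omega)
      have h4 : (⊤ : Subgroup X).lowerCentralSeries (i + 1 + p) ⊓ powClosure p H ≤
          (⊤ : Subgroup X).lowerCentralSeries (i + p) ⊓ powClosure p H :=
        inf_le_inf_right _ ((⊤ : Subgroup X).lowerCentralSeries_antitone (by omega))
      by_cases h5 : (⊤ : Subgroup X).lowerCentralSeries (i + 1) ⊓ H ≤
          (⊤ : Subgroup X).lowerCentralSeries (i + 2)
      · exact (card_le_of_le (le_inf h5 inf_le_right)).trans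
          (h3.trans (Nat.mul_le_mul_right _ (card_le_of_le h4)))
      obtain ⟨y, hy, hy'⟩ := SetLike.not_le_iff_exists.1 h5
      have h6 := Nat.le_of_dvd Nat.card_pos (PGrp.mul_card_dvd_of_lt (hP.to_subgroup _)
        (lt_of_le_of_ne h4 fun e => hy' (mem_lcs_of_pow_mem n hX hmax i (by omega) y hy.1
          (e.ge ⟨pow_mem_lcs_of_maxClass hX hmax hy.1, pow_mem_powClosure hy.2⟩).1)))
      refine le_trans ?_ (Nat.mul_le_mul_right _ h6)
      rw [mul_right_comm]
      refine le_trans ?_ (Nat.mul_le_mul_right _ h3)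
      have h7 := (⊤ : Subgroup X).lowerCentralSeries_antitone (Nat.le_succ (i + 1))
      rw [← PGrp.card_inf_mul_relIndex ((⊤ : Subgroup X).lowerCentralSeries (i + 1 + 1)),
        ← inf_assoc, inf_eq_left.2 h7]
      refine Nat.mul_le_mul_left _ ((relIndex_le_of_le_right inf_le_left
        FiniteIndex.index_ne_zero).trans ?_)
      have h8 := PGrp.card_mul_relIndex h7
      rw [PGrp.card_lowerCentralSeries_of_maxClass hX hmax (by omega),
        PGrp.card_lowerCentralSeries_of_maxClass hX hmax (by omega),
        show n - i = n - (i + 1) + 1 by omega, pow_succ] at h8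
      exact (Nat.eq_of_mul_eq_mul_left (pow_pos hp.pos _) h8).le
  rw [← PGrp.card_inf_mul_relIndex ((⊤ : Subgroup X).lowerCentralSeries 1) H]
  refine (Nat.mul_le_mul ((h1 n 0 (by omega)).trans (Nat.mul_le_mul_right _
    (card_le_of_le inf_le_right))) (Nat.le_of_dvd hp.pos
      (relIndex_commutator_dvd hX hmax hH))).trans ?_
  rw [mul_assoc, ← pow_succ, Nat.sub_add_cancel hp.one_le]

end Cfsg.Agent.S4144
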