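import Cfsg.Statements.S4145
import Mathlib
import Cfsg.Agent.Lib.Schur.CyclicSylow

set_option autoImplicit false
open Cfsg

namespace Cfsg.Agent.S4145

open Subgroup

/-- Let G be a finite group with a cyclic Sylow p-subgroup and H a normal subgroup such that p divides both the order of H and the index of H. Then H has a normal p-complement and G is p-solvable. -/
theorem result {G : Type*} [Group G] [Finite G] (p : ℕ) [Fact p.Prime]
    (P : Sylow p G) (hP : IsCyclic (P : Subgroup G)) (H : Subgroup G) [H.Normal] (h1 : p ∣ Nat.card H) (h2 : p ∣ H.index) :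
    Cfsg.HasNormalPComplement p H ∧ Cfsg.IsPSolvable p G := by
  have h := Schur.hasNormalPComplement_of_isCyclic_of_dvd_index P hP H h2
  refine ⟨h, ?_⟩
  set K := (pResidual p H).map H.subtype with hK
  have hKc : (Nat.card K).Coprime p := by
    rw [hK, card_map_of_injective H.subtype_injective]
    exact Transfer.hasNormalPComplement_iff_coprime_pResidual.mp h
  refine Coprime.isPSolvable_of_normal_of_quotient K (Coprime.isPSolvable_of_coprime hKc) ?_
  obtain ⟨R⟩ : Nonempty (Sylow p (G ⧸ K)) := inferInstance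
  have := (inferInstance : H.Normal).map _ (QuotientGroup.mk'_surjective K)
  refine Schur.isPSolvable_of_isCyclic_of_normal R (Schur.isCyclic_sylow_quotient P hP K R)
    (H.map (QuotientGroup.mk' K)) ?_ ?_
  · rintro ⟨_, x, hx, rfl⟩
    obtain ⟨k, hk⟩ := Transfer.isPGroup_quotient_pResidual (p := p) ((⟨x, hx⟩ : H) : H ⧸ _)
    refine ⟨k, Subtype.ext ?_⟩
    rw [← QuotientGroup.mk_pow, QuotientGroup.eq_one_iff] at hk
    change QuotientGroup.mk' K x ^ p ^ k = 1
    rw [← map_pow]
    exact (QuotientGroup.eq_one_iff _).mpr ⟨_, hk, rfl⟩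
  · rw [Ne, Subgroup.map_eq_bot_iff, QuotientGroup.ker_mk']
    intro h3
    exact (Fact.out : p.Prime).one_lt.ne' (Nat.eq_one_of_dvd_coprimes hKc
      (h1.trans (card_dvd_of_le h3)) dvd_rfl)

end Cfsg.Agent.S4145
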