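import Cfsg.Statements.S4146
import Cfsg.Agent.Lib.Cls.Split2
import Cfsg.Agent.Lib.Core.PCore
import Cfsg.Agent.Lib.Perm.ClassGraph
import Cfsg.Agent.S4134

set_option autoImplicit false
open Cfsg

namespace Cfsg.Agent.S4146

open Subgroup Cfsg.Agent.Coprime Cfsg.Agent.Split
open scoped commutatorElement Pointwise
set_option linter.unusedSectionVars false

local notation "𝐂[" x "]" => Subgroup.centralizer ({x} : Set _)

section
variable {G : Type*} [Group G] [Finite G] {m n : ℕ}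

structure Hyp (G : Type*) [Group G] (m n : ℕ) : Prop where
  hm : 1 < m
  hn : 1 < n
  cop : m.Coprime n
  idx : ∀ x : G, x ∉ center G → 𝐂[x].index = m ∨ 𝐂[x].index = n ∨ 𝐂[x].index = m * n
  exm : ∃ x : G, 𝐂[x].index = m
  exn : ∃ x : G, 𝐂[x].index = n
  exmn : ∃ x : G, 𝐂[x].index = m * n

namespace Hyp

theorem symm (h : Hyp G m n) : Hyp G n m :=
  ⟨h.hn, h.hm, h.cop.symm, fun x hx => by rw [mul_comm n m]; have := h.idx x hx; tauto, h.exn,
    h.exm, mul_comm m n ▸ h.exmn⟩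

theorem not_dvd (h : Hyp G m n) : ¬ m ∣ n := fun h' =>
  h.hm.ne' (Nat.eq_one_of_dvd_coprimes h.cop dvd_rfl h')

theorem not_dvd_n (h : Hyp G m n) {p : ℕ} (hp : p.Prime) (hpm : p ∣ m) : ¬ p ∣ n := fun h' =>
  hp.one_lt.ne' (Nat.eq_one_of_dvd_coprimes h.cop hpm h')

theorem nc (h : Hyp G m n) {x : G} (hx : m ∣ 𝐂[x].index) : x ∉ center G := fun hZ => by
  rw [Cls.index_centralizer_eq_one_iff.mpr hZ, Nat.dvd_one] at hx
  exact h.hm.ne' hx

theorem idx' (h : Hyp G m n) {x : G} (hx : m ∣ 𝐂[x].index) :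
    𝐂[x].index = m ∨ 𝐂[x].index = m * n := by
  rcases h.idx x (h.nc hx) with e | e | e
  · exact Or.inl e
  · exact absurd (e ▸ hx) h.not_dvd
  · exact Or.inr e

theorem eq_m (h : Hyp G m n) {x : G} (hx : x ∉ center G) (hd : 𝐂[x].index ∣ m) :
    𝐂[x].index = m := by
  rcases h.idx x hx with e | e | e
  · exact e
  · exact absurd (e ▸ hd) h.symm.not_dvd
  · exact absurd ((Dvd.intro_left m rfl).trans (e ▸ hd)) h.symm.not_dvd

theorem eq_mn (h : Hyp G m n) {x : G} (h1 : m ∣ 𝐂[x].index) (h2 : n ∣ 𝐂[x].index) :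
    𝐂[x].index = m * n :=
  (h.idx' h1).resolve_left fun e => h.symm.not_dvd (e ▸ h2)

theorem dvd_mn (h : Hyp G m n) (x : G) : 𝐂[x].index ∣ m * n := by
  by_cases hx : x ∈ center G
  · rw [Cls.index_centralizer_eq_one_iff.mpr hx]; exact one_dvd _
  rcases h.idx x hx with e | e | e <;> rw [e]
  · exact Dvd.intro _ rfl
  · exact Dvd.intro_left _ rfl

theorem exists_elt (h : Hyp G m n) :
    ∃ r : ℕ, r.Prime ∧ ∃ u : G, (∃ k, orderOf u = r ^ k) ∧ 𝐂[u].index = m := by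
  obtain ⟨x, hx⟩ := h.exm
  obtain ⟨r, hr, u, hu, ho, hZ⟩ := exists_prime_pow_not_mem (h.nc hx.symm.dvd)
  exact ⟨r, hr, u, ho, h.eq_m hZ
    (hx ▸ index_dvd_of_le (Cls.centralizer_single_le_of_mem_zpowers hu))⟩

theorem mem_center (h : Hyp G m n) {q : ℕ} (hq : q.Prime) (h1 : ¬ q ∣ m) (h2 : ¬ q ∣ n) {x : G}
    (ho : ∃ k, orderOf x = q ^ k) : x ∈ center G := by
  have := Fact.mk hq
  refine mem_center_of_forall_not_dvd (fun y hd => ?_) ho
  exact ((Nat.Prime.dvd_mul hq).mp (hd.trans (h.dvd_mn y))).elim h1 h2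

theorem dvd_or_dvd (h : Hyp G m n) {q : ℕ} (hq : q.Prime) {x : G}
    (ho : ∃ k, orderOf x = q ^ k) (hx : x ∉ center G) : q ∣ m ∨ q ∣ n := by
  by_contra hc
  push Not at hc
  exact hx (h.mem_center hq hc.1 hc.2 ho)

theorem fact (h : Hyp G m n) {p : ℕ} (hp : p.Prime) (hpm : p ∣ m) {x : G}
    (hx : m ∣ 𝐂[x].index) : 𝐂[x].index.factorization p = m.factorization p := by
  rcases h.idx' hx with e | e <;> rw [e]
  rw [Nat.factorization_mul (by have := h.hm; omega) (by have := h.hn; omega)]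
  simp [Nat.factorization_eq_zero_of_not_dvd (h.not_dvd_n hp hpm)]

theorem sylow_of_le (h : Hyp G m n) {p : ℕ} [hp : Fact p.Prime] (hpm : p ∣ m) {x z : G}
    (hx : m ∣ 𝐂[x].index) (hz : m ∣ 𝐂[z].index) {Q : Subgroup G} (hQ : IsSylowIn p Q 𝐂[x])
    (hle : Q ≤ 𝐂[z]) : IsSylowIn p Q 𝐂[z] :=
  isSylowIn_of_factorization hQ hle ((h.fact hp.out hpm hx).trans (h.fact hp.out hpm hz).symm)

theorem relM (h : Hyp G m n) {b v : G} (hb : 𝐂[b].index = m) (hv : v ∈ 𝐂[b])
    (hc : (orderOf b).Coprime (orderOf v)) :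
    𝐂[v].relIndex 𝐂[b] = 1 ∨ 𝐂[v].relIndex 𝐂[b] = n := by
  have e := Cls.centralizer_single_mul (Cls.mem_centralizer_single_commute.mp hv).symm hc
  have hle : 𝐂[b * v] ≤ 𝐂[b] := e ▸ inf_le_left
  have h1 := relIndex_mul_index hle
  have hm := h.hm
  rw [e, inf_relIndex_left, ← e, hb] at h1
  rcases h.idx' (hb ▸ index_dvd_of_le hle) with e' | e' <;> rw [e'] at h1
  · left; exact Nat.eq_of_mul_eq_mul_right (by omega) (h1.trans (one_mul m).symm)
  · right; exact Nat.eq_of_mul_eq_mul_right (by omega) (h1.trans (mul_comm m n))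

theorem not_dvd_relM (h : Hyp G m n) {t : ℕ} (ht : t.Prime) (htn : ¬ t ∣ n) {b v : G}
    (hb : 𝐂[b].index = m) (hv : v ∈ 𝐂[b]) (hc : (orderOf b).Coprime (orderOf v)) :
    ¬ t ∣ 𝐂[v].relIndex 𝐂[b] := by
  rcases h.relM hb hv hc with e | e <;> rw [e]
  · exact ht.one_lt.ne' ∘ Nat.dvd_one.mp
  · exact htn

theorem centT (h : Hyp G m n) {x v : G} (hx : 𝐂[x].index = m * n) (hv : v ∈ 𝐂[x])
    (hc : (orderOf x).Coprime (orderOf v)) : 𝐂[x] ≤ 𝐂[v] := by
  have e := Cls.centralizer_single_mul (Cls.mem_centralizer_single_commute.mp hv).symm hc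
  have hle : 𝐂[x * v] ≤ 𝐂[x] := e ▸ inf_le_left
  have := eq_of_le_of_index_eq hle
    (Nat.dvd_antisymm (hx ▸ h.dvd_mn _) (index_dvd_of_le hle))
  rw [← this, e]; exact inf_le_right

theorem split (h : Hyp G m n) {p : ℕ} [hp : Fact p.Prime] (hpm : p ∣ m) {b : G}
    (hb : 𝐂[b].index = m) (ho : ∃ k, orderOf b = p ^ k) : ∃ B H, IsSplit p 𝐂[b] B H := by
  obtain ⟨k, hk⟩ := ho
  exact exists_isSplit fun v hv hc => h.not_dvd_relM hp.out (h.not_dvd_n hp.out hpm) hb hv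
    (hk ▸ coprime_pow_of_coprime hc)

/-- A bad element of size `n` and a good element of size `m` do not coexist. -/
theorem not_good_bad (h : Hyp G m n) {p s : ℕ} (hp : p.Prime) (hs : s.Prime) (hpm : p ∣ m)
    (hsm : s ∣ m) {b c : G} (hb : 𝐂[b].index = m) (hob : ∃ k, orderOf b = p ^ k)
    (hc : 𝐂[c].index = n) (hoc : ∃ k, orderOf c = s ^ k) : False := by
  have := Fact.mk hp
  have := Fact.mk hs
  obtain ⟨g, hg⟩ := exists_conj_mem_of_not_dvd (D := 𝐂[c]) (hc ▸ h.not_dvd_n hp hpm) hob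
  rw [← index_conj' g] at hb
  rw [← orderOf_conj' g] at hob
  generalize g⁻¹ * b * g = b at hb hob hg
  obtain ⟨B, H, hS⟩ := h.split hpm hb hob
  by_cases hsp : s = p
  · subst hsp
    obtain ⟨r, hr, hrn⟩ := Nat.exists_prime_and_dvd h.hn.ne'
    have := Fact.mk hr
    have hrm := h.symm.not_dvd_n hr hrn
    obtain ⟨R, hR⟩ := exists_isSylowIn r 𝐂[b]
    refine not_dvd_index_of_isSylowIn_le (isSylowIn_top_of_not_dvd hR (hb ▸ hrm))
      ((hS.le_H_of_isPGroup (fun e : r = s => hrm (e ▸ hpm)) hR.1 hR.2.1).trans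
        (hS.H_le_centralizer ((hS.memB c).mpr ⟨mem_comm hg, hoc⟩))) (hc ▸ hrn)
  · obtain ⟨k, hk⟩ := hob
    have := hS.le_centralizer hsp (fun v hv => h.not_dvd_relM hs (h.not_dvd_n hs hsm) hb
      (hS.H_le hv) (hk ▸ coprime_pow_of_coprime ((hS.memH v).mp hv).2)) (mem_comm hg) hoc
    exact h.symm.not_dvd (hb ▸ hc ▸ index_dvd_of_le this)

section Good

theorem good_pow (h : Hyp G m n) {p r : ℕ} (hp : p.Prime) (hr : r.Prime) (hpm : p ∣ m)
    (hrn : r ∣ n) {b c : G} (hb : 𝐂[b].index = m) (hob : ∃ k, orderOf b = p ^ k)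
    (hc : 𝐂[c].index = n) (hoc : ∃ k, orderOf c = r ^ k) : ∃ k, n = r ^ k := by
  have := Fact.mk hp
  have := Fact.mk hr
  have hrm := h.symm.not_dvd_n hr hrn
  have hrp : r ≠ p := fun e => hrm (e ▸ hpm)
  obtain ⟨g, hg⟩ := exists_conj_mem_of_not_dvd (D := 𝐂[b]) (hb ▸ hrm) hoc
  rw [← index_conj' g] at hc
  rw [← orderOf_conj' g] at hoc
  generalize g⁻¹ * c * g = c at hc hoc hg
  obtain ⟨B, H, hS⟩ := h.split hpm hb hob
  obtain ⟨k, hk⟩ := hob
  have key : ∀ x : H, 𝐂[x].index = 𝐂[(x : G)].relIndex 𝐂[b] := fun x => by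
    rw [Cls.index_centralizer_subgroup, hS.relIndex_eq (hS.B_le_centralizer x.2)]
  have key2 : ∀ x : H, 𝐂[x].index = 1 ∨ 𝐂[x].index = n := fun x => by
    rw [key]
    exact h.relM hb (hS.H_le x.2) (hk ▸ coprime_pow_of_coprime ((hS.memH x).mp x.2).2)
  obtain ⟨j, hj⟩ := hoc
  have hcH : c ∈ H := (hS.memH c).mpr ⟨hg, hj ▸ coprime_of_ne_prime hr hrp⟩
  obtain ⟨q, hq, a, ha, -⟩ := S4134.result n h.hn key2 ⟨⟨c, hcH⟩, (key2 _).resolve_left (by
    rw [key]
    intro e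
    exact h.symm.not_dvd (hb ▸ hc ▸ index_dvd_of_le (relIndex_eq_one.mp e)))⟩
  refine ⟨a, ?_⟩
  rw [ha] at hrn
  rw [(Nat.prime_dvd_prime_iff_eq hr hq.out).mp (hr.dvd_of_dvd_pow hrn), ha]

theorem good_cent (h : Hyp G m n) {p r : ℕ} [hp : Fact p.Prime] [hr : Fact r.Prime] (hpm : p ∣ m)
    (hrn : r ∣ n) {b : G} (hb : 𝐂[b].index = m) (hob : ∃ k, orderOf b = p ^ k) :
    ∃ R, IsSylowIn r R ⊤ ∧ R ≤ centralizer (pCore p G : Set G) := by
  have hrm := h.symm.not_dvd_n hr.out hrn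
  have hrp : r ≠ p := fun e => hrm (e ▸ hpm)
  obtain ⟨B, H, hS⟩ := h.split hpm hb hob
  obtain ⟨k, hk⟩ := hob
  obtain ⟨R, hR⟩ := exists_isSylowIn r 𝐂[b]
  have hRH := hS.le_H_of_isPGroup hrp hR.1 hR.2.1
  have hO : IsPGroup p (pCore p G) := Core.isPGroup_pCore p
  refine ⟨R, isSylowIn_top_of_not_dvd hR (hb ▸ hrm), thompson_AxB
    (Core.isPGroup_zpowers_of_orderOf hk) (hS.coprime.coprime_dvd_left (card_dvd_of_le hRH)) ?_ hO
    ?_ ?_ ?_⟩
  · rw [le_centralizer_iff, Cls.centralizer_zpowers]; exact hR.1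
  · rw [normalizer_eq_top]; exact le_top
  · rw [normalizer_eq_top]; exact le_top
  · rw [Cls.centralizer_zpowers]
    exact (hS.le_B inf_le_right (hO.to_le inf_le_left)).trans
      (hS.B_le_centralizer_H.trans (centralizer_le hRH))

theorem normal_sylow {p r : ℕ} [hp : Fact p.Prime] [hr : Fact r.Prime]
    (hZ : ∀ q : ℕ, q.Prime → q ≠ p → q ≠ r → ∀ x : G, (∃ k, orderOf x = q ^ k) → x ∈ center G)
    {P R : Subgroup G} (hP : IsSylowIn p P ⊤) (hR : IsSylowIn r R ⊤)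
    (hPc : P ≤ centralizer (pCore r G : Set G)) (hRc : R ≤ centralizer (pCore p G : Set G)) :
    R.Normal := by
  have hsol : Group.IsSolvable G := by
    refine Cls.isSolvable_of_normal_of_quotient (center G)
      (Cls.isSolvable_of_isMulCommutative inferInstance) (Char.solvable_of_two_primes hp.out hr.out fun q hq hd => ?_)
    by_contra hc
    push Not at hc
    have := Fact.mk hq
    exact not_dvd_card_quotient_center (hZ q hq hc.1 hc.2) hd
  have hq : ∀ (q : ℕ) [Fact q.Prime], q ≠ p → q ≠ r → ∀ Q : Subgroup G, IsPGroup q Q →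
      Q ≤ center G := fun q hq h1 h2 Q hQ x hx =>
    hZ q hq.out h1 h2 x (Core.exists_orderOf_eq_pow_of_mem hQ hx)
  set D := centralizer (fittingSubgroup G : Set G)
  have hPR : ⁅P, R⁆ ≤ D := by
    rw [le_centralizer_iff]
    refine Core.fitting_le_of_forall_pCore_le fun q _ => ?_
    by_cases h1 : q = p
    · subst h1
      rw [le_centralizer_iff]
      exact (commutator_mono le_rfl hRc).trans (commutator_le_right _ _)
    by_cases h2 : q = r
    · subst h2
      rw [le_centralizer_iff]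
      exact (commutator_mono hPc le_rfl).trans (commutator_le_left _ _)
    exact (hq q h1 h2 _ (Core.isPGroup_pCore q)).trans (center_le_centralizer _)
  have hDR : D ≤ normalizer (R : Set G) := by
    refine Core.le_of_forall_isPGroup_le fun q _ Q hQD hQ => ?_
    have hQO := Core.le_pCore_of_le_fitting hQ (hQD.trans Core.centralizer_fitting_le)
    by_cases h1 : q = p
    · subst h1
      exact (hQO.trans (le_centralizer_iff.mp hRc)).trans (centralizer_le_normalizer _)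
    by_cases h2 : q = r
    · subst h2
      exact (hQO.trans (hR.le_of_le_normalizer le_top (Core.isPGroup_pCore q)
        (by rw [normalizer_eq_top]; exact le_top))).trans le_normalizer
    exact (hq q h1 h2 Q hQ).trans (center_le_normalizer _)
  have hn : ⊤ ≤ normalizer ((R ⊔ D : Subgroup G) : Set G) := by
    refine le_of_forall_isSylowIn fun q hq' _ => ?_
    have := Fact.mk hq'
    by_cases h1 : q = p
    · subst h1
      refine ⟨P, hP, le_normalizer_iff.mpr fun g hg => ?_⟩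
      change R ⊔ D ≤ (R ⊔ D).comap (MulAut.conj g).toMonoidHom
      refine sup_le (fun x hx => ?_) fun x hx =>
        mem_sup_right ((inferInstance : D.Normal).conj_mem x hx g)
      change g * x * g⁻¹ ∈ R ⊔ D
      have : g * x * g⁻¹ = ⁅g, x⁆ * x := by rw [commutatorElement_def]; group
      rw [this]
      exact mul_mem (mem_sup_right (hPR (commutator_mem_commutator hg hx))) (mem_sup_left hx)
    by_cases h2 : q = r
    · subst h2
      exact ⟨R, hR, le_sup_left.trans le_normalizer⟩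
    obtain ⟨Q, hQ⟩ := exists_isSylowIn q (⊤ : Subgroup G)
    exact ⟨Q, hQ, (hq q h1 h2 Q hQ.2.1).trans (center_le_normalizer _)⟩
  have := (hR.mono le_sup_left le_top).frattini_argument le_top hn
  rw [Core.normal_iff_top_le_normalizer, ← this]
  exact sup_le (sup_le le_normalizer hDR) inf_le_right

theorem good (h : Hyp G m n) {p r : ℕ} (hp : p.Prime) (hr : r.Prime) (hpm : p ∣ m)
    (hrn : r ∣ n) {b c : G} (hb : 𝐂[b].index = m) (hob : ∃ k, orderOf b = p ^ k)
    (hc : 𝐂[c].index = n) (hoc : ∃ k, orderOf c = r ^ k) :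
    Group.IsNilpotent G ∧ IsPrimePow m ∧ IsPrimePow n := by
  obtain ⟨k, hk⟩ := h.good_pow hp hr hpm hrn hb hob hc hoc
  obtain ⟨a, ha⟩ := h.symm.good_pow hr hp hrn hpm hc hoc hb hob
  have := Fact.mk hp
  have := Fact.mk hr
  obtain ⟨R, hR, hRc⟩ := h.good_cent hpm hrn hb hob
  obtain ⟨P, hP, hPc⟩ := h.symm.good_cent hrn hpm hc hoc
  have hZ : ∀ q : ℕ, q.Prime → q ≠ p → q ≠ r → ∀ x : G, (∃ k, orderOf x = q ^ k) →
      x ∈ center G := fun q hq h1 h2 x hx => h.mem_center hq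
    (fun hd => h1 ((Nat.prime_dvd_prime_iff_eq hq hp).mp (hq.dvd_of_dvd_pow (ha ▸ hd))))
    (fun hd => h2 ((Nat.prime_dvd_prime_iff_eq hq hr).mp (hq.dvd_of_dvd_pow (hk ▸ hd)))) hx
  refine ⟨Core.isNilpotent_of_exists_sylow_normal fun q hq => ?_,
    ⟨p, a, hp.prime, Nat.pos_of_ne_zero ?_, ha.symm⟩, ⟨r, k, hr.prime, Nat.pos_of_ne_zero ?_, hk.symm⟩⟩
  · by_cases h1 : q = p
    · subst h1
      obtain ⟨S, rfl⟩ := hP.exists_sylow_top
      exact ⟨S, normal_sylow (fun q hq h1 h2 => hZ q hq h2 h1) hR hP hRc hPc⟩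
    by_cases h2 : q = r
    · subst h2
      obtain ⟨S, rfl⟩ := hR.exists_sylow_top
      exact ⟨S, normal_sylow hZ hP hR hPc hRc⟩
    obtain ⟨S⟩ : Nonempty (Sylow q G) := inferInstance
    exact ⟨S, Core.normal_of_le_center fun x hx =>
      hZ q hq.out h1 h2 x (Core.exists_orderOf_eq_pow_of_mem S.isPGroup' hx)⟩
  · rintro rfl
    exact h.hm.ne' (by simpa using ha)
  · rintro rfl
    exact h.hn.ne' (by simpa using hk)

end Good

end Hyp

/-- All prime-power elements of size `m` have order prime to `m`, and likewise for `n`. -/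
structure Bad (G : Type*) [Group G] (m n : ℕ) : Prop extends Hyp G m n where
  badm : ∀ q : ℕ, q.Prime → ∀ x : G, (∃ k, orderOf x = q ^ k) → 𝐂[x].index = m → q ∣ n
  badn : ∀ q : ℕ, q.Prime → ∀ x : G, (∃ k, orderOf x = q ^ k) → 𝐂[x].index = n → q ∣ m

namespace Bad

theorem symm (h : Bad G m n) : Bad G n m := ⟨h.toHyp.symm, h.badn, h.badm⟩

theorem m_dvd (h : Bad G m n) {q : ℕ} (hq : q.Prime) (hqn : q ∣ n) {x : G}
    (ho : ∃ k, orderOf x = q ^ k) (hx : x ∉ center G) : m ∣ 𝐂[x].index := by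
  rcases h.idx x hx with e | e | e
  · exact e.symm.dvd
  · exact absurd hqn (h.toHyp.not_dvd_n hq (h.badn q hq x ho e))
  · exact e ▸ Dvd.intro _ rfl

theorem eq_of_commute (h : Bad G m n) (hmn : m < n) {w a : G} (hw : 𝐂[w].index = m)
    (ha : 𝐂[a].index = m) (e : 𝐂[w * a] = 𝐂[w] ⊓ 𝐂[a]) : 𝐂[w] ≤ 𝐂[a] := by
  have hle : 𝐂[w * a] ≤ 𝐂[w] := e ▸ inf_le_left
  rcases h.toHyp.idx' (hw ▸ index_dvd_of_le hle) with e' | e'
  · rw [← eq_of_le_of_index_eq hle (e'.trans hw.symm), e]; exact inf_le_right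
  · have h1 := index_inf_le (H := 𝐂[w]) (K := 𝐂[a])
    rw [← e, e', hw, ha] at h1
    have := h.hm
    nlinarith

theorem special (h : Bad G m n) (hmn : m < n) {t : ℕ} [ht : Fact t.Prime] {b c : G}
    (hb : 𝐂[b].index = m) (hob : ∃ k, orderOf b = t ^ k) (hc : 𝐂[c].index = n)
    (hbc : ¬ Commute b c) :
    IsMulCommutative (normalClosure ({b} : Set G)) ∧ IsPGroup t (normalClosure ({b} : Set G)) ∧
      ∀ a ∈ normalClosure ({b} : Set G), a ∉ center G → 𝐂[a].index = m := by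
  have hcop : 𝐂[b].index.Coprime 𝐂[c].index := by rw [hb, hc]; exact h.cop
  have h1 : 𝐂[b * c].index ≤ 𝐂[c].index := by
    have h2 := Perm.index_le_of_coprime hcop
    rw [hc] at h2 ⊢
    have hZ : b * c ∉ center G := fun hZ => by
      rw [Cls.index_centralizer_eq_one_iff.mpr hZ] at h2
      have := h.hn
      omega
    rcases h.idx _ hZ with e | e | e
    · omega
    · exact e.le
    · exfalso
      have h3 := eq_of_le_of_index_eq (inf_le_centralizer_mul b c)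
        (by rw [Perm.index_inf_eq hcop, e, hb, hc])
      have h4 : b * c ∈ 𝐂[b] ⊓ 𝐂[c] := h3 ▸ Cls.self_mem_centralizer_single _
      have h5 := Cls.mem_centralizer_single.mp (mem_inf.mp h4).2
      have h6 := Cls.mem_centralizer_single.mp (mem_inf.mp h4).1
      rw [mul_assoc] at h6
      exact hbc (mul_left_cancel h6).symm
  set S := MulAction.stabilizer G (conjugatesOf c)
  have hSn : S.Normal := Perm.stabilizer_conjugatesOf_normal c
  have hS1 := Perm.mem_stabilizer_of_coprime hcop h1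
  have hS2 : S ≤ 𝐂[b] := Perm.stabilizer_le_centralizer hcop
  have hS3 : Nat.card S ∣ n := hc ▸ Perm.card_stabilizer_conjugatesOf_dvd c
  have h2 : normalClosure ({b} : Set G) ≤ 𝐂[b] := normalClosure_le_of_forall_conj fun g => by
    have : g * b * g⁻¹ = b * (b⁻¹ * (g * b * g⁻¹)) := by group
    rw [this]
    exact mul_mem (Cls.self_mem_centralizer_single b) (hS2 (hS1 g))
  have h3 : normalClosure ({b} : Set G) ≤ centralizer (normalClosure ({b} : Set G) : Set G) :=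
    normalClosure_le_normal (Set.singleton_subset_iff.mpr (Cls.le_centralizer_single_iff.mp h2))
  have hA : IsMulCommutative (normalClosure ({b} : Set G)) :=
    Core.isMulCommutative_of_forall fun x hx y hy => (h3 hx y hy).symm
  obtain ⟨k, hk⟩ := hob
  have hp : IsPGroup t (normalClosure ({b} : Set G)) := by
    have : normalClosure ({b} : Set G) ≤ Core.powKer _ hA (t ^ k) :=
      normalClosure_le_of_forall_conj fun g => Core.mem_powKer.mpr
        ⟨normalClosure_normal.conj_mem b (subset_normalClosure (Set.mem_singleton b)) g, by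
          rw [← hk, ← orderOf_conj g b, pow_orderOf_eq_one]⟩
    exact Core.isPGroup_of_forall_mem fun x hx => ⟨k, (Core.mem_powKer.mp (this hx)).2⟩
  refine ⟨hA, hp, fun a ha haZ => ?_⟩
  have htn := h.badm t ht.out b ⟨k, hk⟩ hb
  refine (h.toHyp.idx' (h.m_dvd ht.out htn (Core.exists_orderOf_eq_pow_of_mem hp ha) haZ)).resolve_right
    fun e => ?_
  have h4 : normalClosure ({b} : Set G) ≤ (center (G ⧸ S)).comap (QuotientGroup.mk' S) := by
    refine normalClosure_le_normal (Set.singleton_subset_iff.mpr ?_)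
    change QuotientGroup.mk' S b ∈ center _
    rw [mem_center_iff]
    intro g
    obtain ⟨g, rfl⟩ := QuotientGroup.mk_surjective g
    have h5 : (QuotientGroup.mk' S) (b⁻¹ * (g * b * g⁻¹)) = 1 :=
      (QuotientGroup.eq_one_iff _).mpr (hS1 g)
    rw [map_mul, map_mul, map_mul, map_inv, map_inv, inv_mul_eq_one] at h5
    exact mul_inv_eq_iff_eq_mul.mp h5.symm
  have h5 : (conjugatesOf a).ncard ≤ (S : Set G).ncard := by
    refine Set.ncard_le_ncard_of_injOn (fun y => a⁻¹ * y) ?_ (fun _ _ _ _ e => by simpa using e)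
    intro y hy
    obtain ⟨g, rfl⟩ := isConj_iff.mp hy
    refine (QuotientGroup.eq_one_iff _).mp ?_
    change QuotientGroup.mk' S _ = 1
    have h6 := mem_center_iff.mp (h4 ha) (QuotientGroup.mk' S g)
    rw [map_mul, map_mul, map_mul, h6, map_inv, map_inv]
    group
  rw [Cls.ncard_conjugatesOf, e, ← Nat.card_coe_set_eq] at h5
  have h6 : Nat.card S ≤ n := Nat.le_of_dvd (by have := h.hn; omega) hS3
  have h7 : m * n ≤ n := h5.trans h6
  have := h.hm
  have := h.hn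
  nlinarith

section NonComm

variable (h : Bad G m n) (hmn : m < n) {t s : ℕ} [ht : Fact t.Prime] [hs : Fact s.Prime] {b c : G}
  (hb : 𝐂[b].index = m) (hob : ∃ k, orderOf b = t ^ k) (hc : 𝐂[c].index = n)
  (hoc : ∃ k, orderOf c = s ^ k) (hbc : ¬ Commute b c)
include h hmn hb hob hc hoc hbc

theorem not_normal {W : Subgroup G} [W.Normal] (hW : W ≤ 𝐂[c]) {w : G} (hw : w ∈ W)
    (hwm : 𝐂[w].index = m) : False := by
  obtain ⟨hA, hp, hidx⟩ := h.special hmn hb hob hc hbc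
  set A := normalClosure ({b} : Set G)
  have hst : s ≠ t := fun e => h.toHyp.not_dvd_n hs.out (h.badn s hs.out c hoc hc)
    (e ▸ h.badm t ht.out b hob hb)
  obtain ⟨k, hk⟩ := hoc
  have hn : zpowers c ≤ normalizer (A : Set G) := by rw [normalizer_eq_top]; exact le_top
  have h1 := centralizer_inf_commutator_eq_bot hn (coprime_card_of_isPGroup (by
    rw [Nat.card_zpowers, hk]; exact coprime_of_ne_prime hs.out hst) hp) hA
  rw [Cls.centralizer_zpowers] at h1
  have hle := commutator_le_of_le_normalizer hn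
  have h2 : ⁅A, zpowers c⁆ ≠ ⊥ := fun e => hbc
    (commutator_eq_bot_iff_le_centralizer'.mp e (mem_zpowers c) b (subset_normalClosure rfl))
  have h3 : (⁅A, zpowers c⁆ : Subgroup G).Normal := by
    constructor
    intro a ha g
    by_cases hZ : a ∈ center G
    · rw [mem_center_iff.mp hZ g]; simpa using ha
    obtain ⟨y, hy, x, hx, rfl⟩ := Transfer.exists_mul_of_coprime_index (H := 𝐂[c]) (K := 𝐂[a])
      (by rw [hc, hidx a (hle ha) hZ]; exact h.cop.symm) g
    have e : y * x * a * (y * x)⁻¹ = y * a * y⁻¹ := by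
      rw [mul_assoc y, Cls.mem_centralizer_single.mp hx]; group
    rw [e]
    refine conj_mem_of_le_normalizer (Core.le_normalizer_commutator (A := 𝐂[c])
      (by rw [normalizer_eq_top]; exact le_top) ?_) hy ha
    rw [← Cls.centralizer_zpowers]
    exact centralizer_le_normalizer _
  obtain ⟨a, ha, ha1⟩ := (bot_or_exists_ne_one _).resolve_left h2
  have h4 : ∀ x ∈ ⁅A, zpowers c⁆, x ∈ 𝐂[c] → x = 1 := fun x hx hxc =>
    mem_bot.mp (h1 ▸ mem_inf.mpr ⟨mem_inf.mpr ⟨hle hx, hxc⟩, hx⟩)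
  have haZ : a ∉ center G := fun hZ => ha1 (h4 a ha (Cls.center_le_centralizer_single c hZ))
  have h5 := centralizer_mul_of_disjoint (A := ⁅A, zpowers c⁆) (W := W) (eq_bot_iff.mpr
    fun x hx => h4 x (mem_inf.mp hx).1 (hW (mem_inf.mp hx).2)) ha hw
  exact ha1 (h4 a ha (mem_comm (h.eq_of_commute hmn hwm (hidx a (hle ha) haZ) h5
    (mem_comm (hW hw)))))

theorem mem_center_of_mem {a : G} (ha : a ∈ normalClosure ({b} : Set G)) (hac : a ∈ 𝐂[c]) :
    a ∈ center G := by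
  by_contra hZ
  obtain ⟨-, -, hidx⟩ := h.special hmn hb hob hc hbc
  refine h.not_normal hmn hb hob hc hoc hbc (W := normalClosure {a})
    (normalClosure_le_of_forall_conj fun g => ?_) (subset_normalClosure rfl) (hidx a ha hZ)
  exact Cls.mem_centralizer_single_commute.mpr (Perm.commute_of_coprime
    (by rw [Cls.index_centralizer_conj, hidx a ha hZ, hc]; exact h.cop)
    (isConj_iff.mpr ⟨g⁻¹, by group⟩) (IsConj.refl c) (Cls.mem_centralizer_single_commute.mp hac))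

theorem mem_center_of_dvd {q : ℕ} (hq : q.Prime) (hqn : q ∣ n) {w : G}
    (how : ∃ k, orderOf w = q ^ k) (hwc : w ∈ 𝐂[c]) : w ∈ center G := by
  by_contra hZ
  have := Fact.mk hq
  have hsm := h.badn s hs.out c hoc hc
  have hsq : s ≠ q := fun e => h.toHyp.not_dvd_n hs.out hsm (e ▸ hqn)
  rcases h.toHyp.idx' (h.m_dvd hq hqn how hZ) with e | e
  · refine h.not_normal hmn hb hob hc hoc hbc (W := normalClosure {w})
      (normalClosure_le_of_forall_conj fun g => ?_) (subset_normalClosure rfl) e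
    exact Cls.mem_centralizer_single_commute.mpr (Perm.commute_of_coprime
      (by rw [Cls.index_centralizer_conj, e, hc]; exact h.cop)
      (isConj_iff.mpr ⟨g⁻¹, by group⟩) (IsConj.refl c) (Cls.mem_centralizer_single_commute.mp hwc))
  have hle := h.toHyp.centT e (mem_comm hwc) (coprime_orderOf hs.out hsq how hoc)
  by_cases hqt : q = t
  · subst hqt
    obtain ⟨hA, hp, hidx⟩ := h.special hmn hb hob hc hbc
    obtain ⟨k, hk⟩ := how
    obtain ⟨j, hj⟩ := hoc
    have := thompson_AxB (P := zpowers w) (Q := zpowers c) (Core.isPGroup_zpowers_of_orderOf hk)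
      (by rw [Nat.card_zpowers, hj]; exact coprime_of_ne_prime hs.out hsq)
      (by rw [Cls.centralizer_zpowers]; exact zpowers_le.mpr hwc) hp
      (by rw [normalizer_eq_top]; exact le_top) (by rw [normalizer_eq_top]; exact le_top)
      (by rw [Cls.centralizer_zpowers, Cls.centralizer_zpowers]; exact inf_le_right.trans hle)
    exact hbc (this (mem_zpowers c) b (subset_normalClosure rfl))
  · obtain ⟨g, hg⟩ := exists_conj_mem_of_not_dvd (D := 𝐂[b])
      (hb ▸ h.toHyp.symm.not_dvd_n hq hqn) how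
    have h1 : g * b * g⁻¹ ∈ 𝐂[w] := Cls.mem_centralizer_single.mpr (by
      have := Cls.mem_centralizer_single.mp hg
      calc g * b * g⁻¹ * w = g * (b * (g⁻¹ * w * g)) * g⁻¹ := by group
        _ = _ := by rw [← this]; group)
    exact h.toHyp.nc (x := g * b * g⁻¹) (by rw [Cls.index_centralizer_conj, hb])
      (h.mem_center_of_mem hmn hb hob hc hoc hbc
        (normalClosure_normal.conj_mem b (subset_normalClosure (Set.mem_singleton b)) g) (hle h1))

omit hmn hb hob hc hoc hbc ht hs in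
theorem transfer_central {q : ℕ} (hq : q.Prime) (hqn : q ∣ n) {x y : G} (hx : n ∣ 𝐂[x].index)
    (hy : n ∣ 𝐂[y].index) (H : ∀ w ∈ 𝐂[x], (∃ k, orderOf w = q ^ k) → w ∈ center G) :
    ∀ w ∈ 𝐂[y], (∃ k, orderOf w = q ^ k) → w ∈ center G := by
  intro w hw how
  have := Fact.mk hq
  obtain ⟨Q, hQ⟩ := exists_isSylowIn q 𝐂[x]
  have hQZ : Q ≤ center G := fun u hu =>
    H u (hQ.1 hu) (Core.exists_orderOf_eq_pow_of_mem hQ.2.1 hu)
  have hQ' := h.toHyp.symm.sylow_of_le hqn hx hy hQ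
    (hQZ.trans (Cls.center_le_centralizer_single y))
  have := Core.normal_of_le_center hQZ
  exact hQZ (mem_of_isSylowIn_of_mem_normalizer hQ' hw how
    (by rw [normalizer_eq_top]; exact mem_top _))

theorem noncomm_false : False := by
  obtain ⟨x, hx⟩ := h.exmn
  have hxm : m ∣ 𝐂[x].index := hx ▸ Dvd.intro _ rfl
  have hxn : n ∣ 𝐂[x].index := hx ▸ Dvd.intro_left _ rfl
  obtain ⟨q, hq, u, hu, hou, huZ⟩ := exists_prime_pow_not_mem (h.toHyp.nc hxm)
  have hux : u ∈ 𝐂[x] := Cls.zpowers_le_centralizer_single x hu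
  have H1 : ∀ q : ℕ, q.Prime → q ∣ n → ∀ y : G, n ∣ 𝐂[y].index → ∀ w ∈ 𝐂[y],
      (∃ k, orderOf w = q ^ k) → w ∈ center G := fun q hq hqn y hy =>
    h.transfer_central hq hqn hc.symm.dvd hy
      fun w hw how => h.mem_center_of_dvd hmn hb hob hc hoc hbc hq hqn how hw
  rcases h.toHyp.dvd_or_dvd hq hou huZ with hqm | hqn
  · refine huZ (h.symm.transfer_central hq hqm hb.symm.dvd hxm (fun v hv hov => ?_) u hux hou)
    by_contra hvZ
    exact h.toHyp.nc hb.symm.dvd (H1 t ht.out (h.badm t ht.out b hob hb) v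
      (h.symm.m_dvd hq hqm hov hvZ) b (mem_comm hv) hob)
  · exact huZ (H1 q hq hqn x hxn u hux hou)

end NonComm

section Comm

/-- All prime-power elements of size `m` commute with those of size `n`. -/
def AllComm (G : Type*) [Group G] (m n : ℕ) : Prop :=
  ∀ b c : G, (∃ q k : ℕ, q.Prime ∧ orderOf b = q ^ k) → (∃ q k : ℕ, q.Prime ∧ orderOf c = q ^ k) →
    𝐂[b].index = m → 𝐂[c].index = n → Commute b c

theorem exists_T (h : Bad G m n) (hA : AllComm G m n) {r s : ℕ} [hr : Fact r.Prime]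
    [hs : Fact s.Prime] {b c : G} (hb : 𝐂[b].index = m) (hob : ∃ k, orderOf b = r ^ k)
    (hc : 𝐂[c].index = n) (hoc : ∃ k, orderOf c = s ^ k) :
    ∃ u ∈ 𝐂[c], (∃ k, orderOf u = s ^ k) ∧ 𝐂[u].index = m * n := by
  have hsm := h.badn s hs.out c hoc hc
  obtain ⟨P, hP⟩ := exists_isSylowIn s 𝐂[c]
  have hP' := isSylowIn_top_of_not_dvd hP (hc ▸ h.toHyp.not_dvd_n hs.out hsm)
  obtain ⟨u, hu, hub⟩ := SetLike.not_le_iff_exists.mp fun hle : P ≤ 𝐂[b] =>
    not_dvd_index_of_isSylowIn_le hP' hle (hb ▸ hsm)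
  have hou := Core.exists_orderOf_eq_pow_of_mem hP.2.1 hu
  refine ⟨u, hP.1 hu, hou, ?_⟩
  rw [mul_comm]
  refine (h.toHyp.symm.idx' (h.symm.m_dvd hs.out hsm hou
    (not_mem_center_of_not_mem hub))).resolve_left fun e => hub ?_
  obtain ⟨k, hk⟩ := hob
  obtain ⟨j, hj⟩ := hou
  exact Cls.mem_centralizer_single_commute.mpr
    (hA b u ⟨r, k, hr.out, hk⟩ ⟨s, j, hs.out, hj⟩ hb e).symm

/-- The Sylow `r`-subgroup of the centralizer of a `q`-element of size `m n` commuting with `c`. -/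
theorem exists_syl (h : Bad G m n) {r s q : ℕ} [hr : Fact r.Prime] [hs : Fact s.Prime]
    [hq : Fact q.Prime] (hrn : r ∣ n) (hqm : q ∣ m) {c v : G} (hc : 𝐂[c].index = n)
    (hv : 𝐂[v].index = m * n) (hov : ∃ k, orderOf v = q ^ k) (hvc : v ∈ 𝐂[c]) :
    ∃ R, IsSylowIn r R 𝐂[c] ∧ R ≤ 𝐂[v] ∧ ∀ w ∈ R, 𝐂[v] ≤ 𝐂[w] := by
  obtain ⟨R, hR⟩ := exists_isSylowIn r 𝐂[v]
  have hrq : r ≠ q := fun e => h.toHyp.not_dvd_n hq.out hqm (e ▸ hrn)
  have h1 : ∀ w ∈ R, 𝐂[v] ≤ 𝐂[w] := fun w hw => h.toHyp.centT hv (hR.1 hw)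
    (coprime_orderOf hr.out hrq hov (Core.exists_orderOf_eq_pow_of_mem hR.2.1 hw))
  exact ⟨R, h.toHyp.symm.sylow_of_le hrn (hv ▸ Dvd.intro_left _ rfl) hc.symm.dvd hR
    fun w hw => mem_comm (h1 w hw (mem_comm hvc)), hR.1, h1⟩

theorem comm_false (h : Bad G m n) (hA : AllComm G m n) : False := by
  obtain ⟨r, hr, b₀, hob₀, hb₀⟩ := h.toHyp.exists_elt
  obtain ⟨s, hs, c, hoc, hc⟩ := h.toHyp.symm.exists_elt
  have := Fact.mk hr
  have := Fact.mk hs
  have hrn := h.badm r hr b₀ hob₀ hb₀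
  have hsm := h.badn s hs c hoc hc
  have hA' : AllComm G n m := fun b c h1 h2 h3 h4 => (hA c b h2 h1 h4 h3).symm
  have hcomm : ∀ b : G, 𝐂[b].index = m → (∃ k, orderOf b = r ^ k) → ∀ (q : ℕ), q.Prime →
      ∀ v : G, 𝐂[v].index = n → (∃ k, orderOf v = q ^ k) → b ∈ 𝐂[v] := by
    rintro b hb ⟨k, hk⟩ q hq v hv ⟨j, hj⟩
    exact Cls.mem_centralizer_single_commute.mpr (hA b v ⟨r, k, hr, hk⟩ ⟨q, j, hq, hj⟩ hb hv)
  obtain ⟨u, huc, hou, hu⟩ := h.exists_T hA hb₀ hob₀ hc hoc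
  obtain ⟨R, hR, hRu, hRc⟩ := h.exists_syl (s := s) hrn hsm hc hu hou huc
  obtain ⟨e₀, -, he₀⟩ := exists_conj_mem hR (hcomm b₀ hb₀ hob₀ s hs c hc hoc) hob₀
  rw [← index_conj' e₀] at hb₀
  rw [← orderOf_conj' e₀] at hob₀
  generalize e₀⁻¹ * b₀ * e₀ = b at hb₀ hob₀ he₀
  have hub : 𝐂[u] ≤ 𝐂[b] := hRc b he₀
  -- the Sylow `s`-subgroups of `C(b)` are abelian
  obtain ⟨w, hwb, how, hw⟩ := h.symm.exists_T hA' hc hoc hb₀ hob₀
  obtain ⟨S, hS, hSw, hSc⟩ := h.symm.exists_syl (s := r) hsm hrn hb₀ hw how hwb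
  have hDc : 𝐂[u] ≤ 𝐂[c] := by
    intro x hx
    obtain ⟨y, hy, z, hz, rfl, hoy, hoz⟩ := Cls.exists_p_part hs x
    have hyu : y ∈ 𝐂[u] := (zpowers_le.mpr hx) hy
    have hzu : z ∈ 𝐂[u] := (zpowers_le.mpr hx) hz
    obtain ⟨k, hk⟩ := hou
    refine mul_mem ?_ (mem_comm (h.toHyp.centT hu hzu (hk ▸ coprime_pow_of_coprime hoz)
      (mem_comm huc)))
    obtain ⟨B, H, hsp⟩ := exists_isSplit (p := s) (C := 𝐂[u]) (fun v hv hc => by
      rw [relIndex_eq_one.mpr (h.toHyp.centT hu hv (hk ▸ coprime_pow_of_coprime hc))]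
      exact hs.one_lt.ne' ∘ Nat.dvd_one.mp)
    obtain ⟨g, -, hg⟩ := hS.exists_le_conj (hsp.B_le.trans hub) hsp.isPGroup
    obtain ⟨y', hy', e1⟩ := hg ((hsp.memB y).mpr ⟨hyu, hoy⟩)
    obtain ⟨c', hc', e2⟩ := hg ((hsp.memB c).mpr ⟨mem_comm huc, hoc⟩)
    rw [Cls.mem_centralizer_single, ← e1, ← e2, ← map_mul, ← map_mul,
      Cls.mem_centralizer_single.mp (hSc c' hc' (hSw hy'))]
  have hDcomm : ∀ x ∈ 𝐂[u], 𝐂[u] ≤ 𝐂[x] := by
    intro x hx x' hx'
    obtain ⟨k, hk⟩ := hou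
    obtain ⟨B, H, hsp⟩ := exists_isSplit (p := s) (C := 𝐂[u]) (fun v hv hc => by
      rw [relIndex_eq_one.mpr (h.toHyp.centT hu hv (hk ▸ coprime_pow_of_coprime hc))]
      exact hs.one_lt.ne' ∘ Nat.dvd_one.mp)
    obtain ⟨g, -, hg⟩ := hS.exists_le_conj (hsp.B_le.trans hub) hsp.isPGroup
    have hH : ∀ z ∈ H, 𝐂[u] ≤ 𝐂[z] := fun z hz => h.toHyp.centT hu (hsp.H_le hz)
      (hk ▸ coprime_pow_of_coprime ((hsp.memH z).mp hz).2)
    have hB : ∀ y ∈ B, 𝐂[u] ≤ 𝐂[y] := fun y hy => hsp.le_of (fun y₂ hy₂ => by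
      obtain ⟨y', hy', e1⟩ := hg hy₂
      obtain ⟨c', hc', e2⟩ := hg hy
      rw [Cls.mem_centralizer_single, ← e1, ← e2, ← map_mul, ← map_mul,
        Cls.mem_centralizer_single.mp (hSc c' hc' (hSw hy'))]) (hsp.H_le_centralizer hy)
    obtain ⟨y, hy, z, hz, rfl⟩ := hsp.exists_mul hx
    exact inf_le_centralizer_mul y z (mem_inf.mpr ⟨hB y hy hx', hH z hz hx'⟩)
  have hkey : ∀ (q : ℕ), q.Prime → q ∣ n → ∀ v ∈ 𝐂[u], (∃ k, orderOf v = q ^ k) →
      v ∉ center G → 𝐂[c] ⊓ 𝐂[v] = 𝐂[u] := by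
    intro q hq hqn v hv hov hvZ
    have e := Cls.centralizer_single_mul (Cls.mem_centralizer_single_commute.mp (hDc hv)).symm
      (coprime_orderOf hq (fun e : q = s => h.toHyp.not_dvd_n hs hsm (e ▸ hqn)) hoc hov)
    refine (eq_of_le_of_index_eq (le_inf hDc (hDcomm v hv)) ?_).symm
    rw [← e, hu]
    exact (h.toHyp.eq_mn ((h.m_dvd hq hqn hov hvZ).trans (index_dvd_of_le (e ▸ inf_le_right)))
      (hc ▸ index_dvd_of_le (e ▸ inf_le_left))).symm
  have hD := hkey r hr hrn b (hRu he₀) hob₀ (h.toHyp.nc hb₀.symm.dvd)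
  have hconj : ∀ {x y e : G}, x ∈ 𝐂[y] → e⁻¹ * x * e ∈ 𝐂[e⁻¹ * y * e] := by
    intro x y e hxy
    have := Cls.mem_centralizer_single.mp hxy
    rw [Cls.mem_centralizer_single]
    calc e⁻¹ * x * e * (e⁻¹ * y * e) = e⁻¹ * (x * y) * e := by group
      _ = _ := by rw [this]; group
  have hfin : 𝐂[c] ≤ 𝐂[u] := by
    refine le_of_forall_exists_conj_mem fun x hx => ?_
    by_cases hxb : x ∈ 𝐂[b]
    · exact ⟨1, one_mem _, by simpa using hD ▸ mem_inf.mpr ⟨hx, hxb⟩⟩
    obtain ⟨q, hq, v, hv, hov, hvb⟩ := exists_prime_pow_not_mem hxb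
    have := Fact.mk hq
    have hvZ := not_mem_center_of_not_mem hvb
    have hvc : v ∈ 𝐂[c] := (zpowers_le.mpr hx) hv
    have hxv : x ∈ 𝐂[v] := mem_comm (Cls.zpowers_le_centralizer_single x hv)
    rcases h.toHyp.dvd_or_dvd hq hov hvZ with hqm | hqn
    · have hvT : 𝐂[v].index = m * n := by
        rw [mul_comm]
        exact (h.toHyp.symm.idx' (h.symm.m_dvd hq hqm hov hvZ)).resolve_left fun e =>
          hvb (mem_comm (hcomm b hb₀ hob₀ q hq v e hov))
      obtain ⟨R', hR', -, hR'c⟩ := h.exists_syl (s := s) hrn hqm hc hvT hov hvc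
      obtain ⟨e, he, hbe⟩ := exists_conj_mem hR' (hR.1 he₀) hob₀
      refine ⟨e⁻¹, inv_mem he, hD ▸ mem_inf.mpr ⟨mul_mem (mul_mem (inv_mem (inv_mem he)) hx)
        (inv_mem he), ?_⟩⟩
      have := hconj (e := e⁻¹) (hR'c _ hbe hxv)
      convert this using 3
      group
    · obtain ⟨Q, hQ⟩ := exists_isSylowIn q 𝐂[u]
      have hQ' := h.toHyp.symm.sylow_of_le hqn (hu ▸ Dvd.intro_left _ rfl) hc.symm.dvd hQ
        (hQ.1.trans hDc)
      obtain ⟨e, he, hve⟩ := exists_conj_mem hQ' hvc hov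
      refine ⟨e, he, hkey q hq hqn _ (hQ.1 hve) (by rwa [orderOf_conj']) (fun hZ => hvZ ?_) ▸
        mem_inf.mpr ⟨mul_mem (mul_mem (inv_mem he) hx) he, hconj hxv⟩⟩
      rwa [← Cls.index_centralizer_eq_one_iff, index_conj', Cls.index_centralizer_eq_one_iff] at hZ
  exact h.toHyp.not_dvd ((Dvd.intro _ rfl).trans (hc ▸ hu ▸ index_dvd_of_le hfin))

end Comm

theorem false_of_lt (h : Bad G m n) (hmn : m < n) : False := by
  refine h.comm_false ?_
  rintro b c ⟨t, k, ht, hk⟩ ⟨s, j, hs, hj⟩ hb hc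
  by_contra hbc
  have := Fact.mk ht
  have := Fact.mk hs
  exact h.noncomm_false hmn hb ⟨k, hk⟩ hc ⟨j, hj⟩ hbc

theorem false (h : Bad G m n) : False := by
  rcases lt_trichotomy m n with h1 | h1 | h1
  · exact h.false_of_lt h1
  · exact h.toHyp.not_dvd h1.dvd
  · exact h.symm.false_of_lt h1

end Bad

theorem Hyp.main (h : Hyp G m n) : Group.IsNilpotent G ∧ IsPrimePow m ∧ IsPrimePow n := by
  obtain ⟨p, hp, b, hob, hb⟩ := h.exists_elt
  obtain ⟨r, hr, c, hoc, hc⟩ := h.symm.exists_elt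
  rcases h.dvd_or_dvd hp hob (h.nc hb.symm.dvd) with hpm | hpn <;>
    rcases h.dvd_or_dvd hr hoc (h.symm.nc hc.symm.dvd) with hrm | hrn
  · exact (h.not_good_bad hp hr hpm hrm hb hob hc hoc).elim
  · exact h.good hp hr hpm hrn hb hob hc hoc
  · refine (Bad.false ⟨h, fun q hq x hox hx => ?_, fun q hq x hox hx => ?_⟩).elim
    · exact (h.dvd_or_dvd hq hox (h.nc hx.symm.dvd)).resolve_left fun hqm =>
        h.not_good_bad hq hr hqm hrm hx hox hc hoc
    · exact (h.dvd_or_dvd hq hox (h.symm.nc hx.symm.dvd)).resolve_right fun hqn =>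
        h.symm.not_good_bad hq hp hqn hpn hx hox hb hob
  · exact (h.symm.not_good_bad hr hp hrn hpn hc hoc hb hob).elim

end

/-- Let G be a finite group whose conjugacy class sizes are exactly 1, n, m and nm for coprime integers n, m > 1. Then G is nilpotent and n and m are prime powers. -/
theorem result {G : Type*} [Group G] [Finite G] (n m : ℕ) (hn : 1 < n) (hm : 1 < m) (hcop : n.Coprime m)
    (h : Set.range (fun x : G => (Subgroup.centralizer ({x} : Set G)).index) = ({1, n, m, n * m} : Set ℕ)) :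
    Group.IsNilpotent G ∧ IsPrimePow n ∧ IsPrimePow m := by
  refine Hyp.main ⟨hn, hm, hcop, fun x hx => ?_, ?_, ?_, ?_⟩
  · have h1 : (Subgroup.centralizer ({x} : Set G)).index ∈ ({1, n, m, n * m} : Set ℕ) :=
      h ▸ ⟨x, rfl⟩
    rcases h1 with e | e | e | e
    · exact absurd (Cls.index_centralizer_eq_one_iff.mp e) hx
    · exact Or.inl e
    · exact Or.inr (Or.inl e)
    · exact Or.inr (Or.inr e)
  · have h1 : n ∈ ({1, n, m, n * m} : Set ℕ) := by simp
    rw [← h] at h1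
    exact h1
  · have h1 : m ∈ ({1, n, m, n * m} : Set ℕ) := by simp
    rw [← h] at h1
    exact h1
  · have h1 : n * m ∈ ({1, n, m, n * m} : Set ℕ) := by simp
    rw [← h] at h1
    exact h1

end Cfsg.Agent.S4146
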