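import Cfsg.Statements.S4149
import Cfsg.Agent.Lib.Cls.Ito

set_option autoImplicit false
open Cfsg

namespace Cfsg.Agent.S4149

/-- Let G be a finite group that has a normal p-complement for at most one prime p dividing its order, and let σ be a natural number such that every conjugacy class size of G has at most σ distinct prime divisors. Then the number of primes dividing at least one conjugacy class size of G is at most 2σ. -/
theorem result {G : Type*} [Group G] [Finite G] (σ : ℕ)
    (hσ : ∀ x : G, ((Subgroup.centralizer ({x} : Set G)).index).primeFactors.card ≤ σ)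
    (hnil : ∀ p q : ℕ, p.Prime → q.Prime → p ∣ Nat.card G → q ∣ Nat.card G →
      Cfsg.HasNormalPComplement p G → Cfsg.HasNormalPComplement q G → p = q) :
    Nat.card {p : ℕ | p.Prime ∧ ∃ x : G, p ∣ (Subgroup.centralizer ({x} : Set G)).index} ≤ 2 * σ := by
  classical
  have := Fintype.ofFinite G
  set V : Finset ℕ := (Nat.card G).primeFactors.filter
    fun p => ∃ x : G, p ∣ (Subgroup.centralizer ({x} : Set G)).index with hV
  have hVm : ∀ p, p ∈ V ↔ p.Prime ∧ ∃ x : G, p ∣ (Subgroup.centralizer ({x} : Set G)).index := by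
    intro p
    rw [hV, Finset.mem_filter, Nat.mem_primeFactors]
    exact ⟨fun h => ⟨h.1.1, h.2⟩, fun ⟨h1, x, hx⟩ =>
      ⟨⟨h1, hx.trans (Subgroup.index_dvd_card _), Nat.card_pos.ne'⟩, x, hx⟩⟩
  have e : {p : ℕ | p.Prime ∧ ∃ x : G, p ∣ (Subgroup.centralizer ({x} : Set G)).index} = V := by
    ext p; simp [hVm]
  rw [e, Nat.card_coe_set_eq, Set.ncard_coe_finset]
  rcases Nat.eq_zero_or_pos σ with rfl | hσ0
  · rw [mul_zero, Nat.le_zero, Finset.card_eq_zero, Finset.eq_empty_iff_forall_notMem]
    intro p hp
    obtain ⟨h1, x, hx⟩ := (hVm p).1 hp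
    have h2 := hσ x
    rw [Nat.le_zero, Finset.card_eq_zero] at h2
    have : p ∈ (Subgroup.centralizer ({x} : Set G)).index.primeFactors :=
      Nat.mem_primeFactors.2 ⟨h1, hx, Subgroup.index_ne_zero_of_finite⟩
    simp [h2] at this
  set W := V.filter fun p => ¬ HasNormalPComplement p G with hW
  have hWV : V.card ≤ W.card + 1 := by
    have h1 : (V.filter fun p => HasNormalPComplement p G).card ≤ 1 := by
      rw [Finset.card_le_one]
      intro a ha b hb
      rw [Finset.mem_filter, hVm] at ha hb
      obtain ⟨⟨a1, x, hx⟩, a2⟩ := ha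
      obtain ⟨⟨b1, y, hy⟩, b2⟩ := hb
      exact hnil a b a1 b1 (hx.trans (Subgroup.index_dvd_card _))
        (hy.trans (Subgroup.index_dvd_card _)) a2 b2
    have := Finset.card_filter_add_card_filter_not (s := V) fun p => HasNormalPComplement p G
    have h2 : W.card = (V.filter fun p => ¬ HasNormalPComplement p G).card := by congr
    have h3 : (V.filter fun p => ¬ HasNormalPComplement p G).card + 1 ≥ V.card := by
      rw [← this]; convert Nat.add_le_add_right h1 _ using 1; exact add_comm _ _
    omega
  have hdc := Finset.sum_card_bipartiteAbove_eq_sum_card_bipartiteBelow (s := W)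
    (t := (Finset.univ : Finset G)) fun p x => p ∣ (Subgroup.centralizer ({x} : Set G)).index
  have h1 : W.card * Nat.card G ≤ 2 * ∑ p ∈ W, (Finset.bipartiteAbove
      (fun p (x : G) => p ∣ (Subgroup.centralizer ({x} : Set G)).index) Finset.univ p).card := by
    rw [Finset.mul_sum, ← smul_eq_mul, ← Finset.sum_const]
    refine Finset.sum_le_sum fun p hp => ?_
    rw [hW, Finset.mem_filter, hVm] at hp
    have : Fact p.Prime := ⟨hp.1.1⟩
    have h2 := Cls.two_mul_ncard_not_dvd_index_le hp.2
    have h3 := Finset.card_filter_add_card_filter_not (s := (Finset.univ : Finset G))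
      fun x => p ∣ (Subgroup.centralizer ({x} : Set G)).index
    have h4 : {x : G | ¬ p ∣ (Subgroup.centralizer ({x} : Set G)).index}.ncard =
        (Finset.univ.filter fun x : G => ¬ p ∣ (Subgroup.centralizer ({x} : Set G)).index).card := by
      rw [← Set.ncard_coe_finset]; congr 1; ext x; simp
    rw [Finset.card_univ, ← Nat.card_eq_fintype_card] at h3
    rw [Finset.bipartiteAbove]
    omega
  have h2 : ∑ x : G, (Finset.bipartiteBelow
      (fun p (x : G) => p ∣ (Subgroup.centralizer ({x} : Set G)).index) W x).card + σ ≤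
      σ * Nat.card G := by
    have h3 : ∀ x : G, (Finset.bipartiteBelow
      (fun p (x : G) => p ∣ (Subgroup.centralizer ({x} : Set G)).index) W x).card ≤
        (Subgroup.centralizer ({x} : Set G)).index.primeFactors.card := by
      intro x
      refine Finset.card_le_card fun p hp => ?_
      rw [Finset.mem_bipartiteBelow, hW, Finset.mem_filter, hVm] at hp
      exact Nat.mem_primeFactors.2 ⟨hp.1.1.1, hp.2, Subgroup.index_ne_zero_of_finite⟩
    rw [← Finset.add_sum_erase _ _ (Finset.mem_univ (1 : G))]
    have h4 := h3 1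
    have h40 : (Subgroup.centralizer ({1} : Set G)).index.primeFactors.card = 0 := by
      rw [Cls.index_centralizer_eq_one_iff.2 (one_mem _)]; simp
    rw [h40, Nat.le_zero] at h4
    rw [h4, zero_add]
    have h5 := Finset.sum_le_card_nsmul (Finset.univ.erase (1 : G)) _ σ
      fun x _ => (h3 x).trans (hσ x)
    rw [Finset.card_erase_of_mem (Finset.mem_univ _), Finset.card_univ,
      ← Nat.card_eq_fintype_card, smul_eq_mul] at h5
    obtain ⟨m, hm⟩ : ∃ m, Nat.card G = m + 1 := ⟨_, (Nat.succ_pred_eq_of_pos Nat.card_pos).symm⟩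
    rw [hm] at h5 ⊢
    rw [Nat.add_sub_cancel] at h5
    nlinarith
  by_contra hcon
  have h6 : 2 * σ ≤ W.card := by omega
  rw [hdc] at h1
  have h7 : 2 * σ * Nat.card G ≤ W.card * Nat.card G := Nat.mul_le_mul_right _ h6
  nlinarith

end Cfsg.Agent.S4149
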