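import Cfsg.Statements.S4150
import Mathlib
import Cfsg.Agent.Lib.Perm.Jordan
import Cfsg.Agent.Lib.Coprime.SylowCount

set_option autoImplicit false
open Cfsg

namespace Cfsg.Agent.S4150

open Equiv Equiv.Perm Subgroup MulAction

theorem pow_le (s : ℕ) (hs : 40 ≤ s) : (s + 1) ^ 7 ≤ 2 ^ s := by
  induction s, hs using Nat.le_induction with
  | base => norm_num
  | succ s hs ih =>
    have h1 : (s + 1 + 1) * 41 ≤ (s + 1) * 42 := by omega
    have h2 := Nat.pow_le_pow_left h1 7
    rw [mul_pow, mul_pow] at h2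
    omega

theorem exists_primes_large {n : ℕ} (hn : 800 ≤ n) :
    ∃ p q : ℕ, p.Prime ∧ q.Prime ∧ n < p ∧ p + 3 ≤ q ∧ q ≤ 2 * n := by
  by_contra h
  push Not at h
  obtain ⟨p, hp, hnp, hp2⟩ := Nat.exists_prime_lt_and_le_two_mul n (by omega)
  obtain ⟨s, hs⟩ : ∃ s, s = Nat.sqrt (2 * n) := ⟨_, rfl⟩
  have hs1 : s * s ≤ 2 * n := hs ▸ Nat.sqrt_le _
  have hs2 : 2 * n < (s + 1) ^ 2 := hs ▸ Nat.lt_succ_sqrt' _
  have hs3 : 40 ≤ s := by nlinarith
  let A := Finset.Icc 1 s ∪ Finset.Icc (p - 2) (p + 2)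
  let B := {p ∈ Finset.range (2 * n / 3 + 1) | Nat.Prime p}
  let f x := x ^ n.centralBinom.factorization x
  have h1 : n.centralBinom ≤ (∏ x ∈ A, f x) * ∏ x ∈ B \ A, f x := by
    rw [← Finset.prod_union Finset.disjoint_sdiff, Finset.union_sdiff_self_eq_union,
      ← n.prod_pow_factorization_centralBinom, ← Finset.prod_filter_ne_one]
    refine Finset.prod_le_prod_of_subset_of_one_le' (fun x hx => ?_) fun x _ _ => Nat.ordProj_pos _ _
    obtain ⟨hx, hx1⟩ := Finset.mem_filter.1 hx
    have hxp : x.Prime := by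
      by_contra h1
      exact hx1 (by rw [Nat.factorization_eq_zero_of_not_prime _ h1, pow_zero])
    have h1 := h p x hp hxp hnp
    have h2 := h x p hxp hp
    have h3 : x ≤ n → ¬ 2 * n < 3 * x := fun h3 h4 => hx1 (by
      rw [Nat.factorization_centralBinom_of_two_mul_self_lt_three_mul (by omega) h3 h4, pow_zero])
    simp only [A, B, Finset.mem_union, Finset.mem_Icc, Finset.mem_filter, Finset.mem_range, hxp,
      and_true] at hx ⊢
    omega
  have h2 : ∏ x ∈ A, f x ≤ (2 * n) ^ (s + 5) := by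
    refine (Finset.prod_le_pow_card _ _ (2 * n) fun p _ =>
      Nat.pow_factorization_choose_le (by omega)).trans (Nat.pow_le_pow_right (by omega) ?_)
    refine (Finset.card_union_le _ _).trans ?_
    simp only [Nat.card_Icc]
    omega
  have h3 : ∏ x ∈ B \ A, f x ≤ 4 ^ (2 * n / 3) := by
    refine le_trans ?_ (primorial_le_four_pow (2 * n / 3))
    refine (Finset.prod_le_prod' fun x hx => (?_ : f x ≤ x)).trans
      (Finset.prod_le_prod_of_subset_of_one_le' Finset.sdiff_subset fun p hp _ =>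
        (Finset.mem_filter.1 hp).2.one_lt.le)
    obtain ⟨h1, h2⟩ := Finset.mem_sdiff.1 hx
    have h3 := (Finset.mem_filter.1 h1).2.one_lt.le
    refine (Nat.pow_le_pow_right h3 (Nat.factorization_choose_le_one (Nat.sqrt_lt'.1 ?_))).trans
      (pow_one x).le
    by_contra h4
    exact h2 (Finset.mem_union_left _ (Finset.mem_Icc.2 ⟨h3, by omega⟩))
  have h4 : (2 * n) ^ (s + 6) ≤ 4 ^ (n - 2 * n / 3) := by
    refine (Nat.pow_le_pow_iff_left three_ne_zero).1 ?_
    calc ((2 * n) ^ (s + 6)) ^ 3 ≤ (((s + 1) ^ 2) ^ (s + 6)) ^ 3 := by gcongr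
      _ ≤ ((s + 1) ^ 7) ^ s := by
        simp only [← pow_mul]
        exact Nat.pow_le_pow_right (by omega) (by omega)
      _ ≤ (2 ^ s) ^ s := Nat.pow_le_pow_left (pow_le s hs3) _
      _ ≤ _ := by
        rw [show 4 = 2 ^ 2 from rfl]
        simp only [← pow_mul]
        exact Nat.pow_le_pow_right (by omega) (by omega)
  refine (Nat.four_pow_lt_mul_centralBinom n (by omega)).not_ge ?_
  calc n * n.centralBinom ≤ 2 * n * ((2 * n) ^ (s + 5) * 4 ^ (2 * n / 3)) :=
        Nat.mul_le_mul (by omega) (h1.trans (Nat.mul_le_mul h2 h3))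
    _ ≤ 4 ^ (n - 2 * n / 3) * 4 ^ (2 * n / 3) := by
      rw [← mul_assoc, ← pow_succ']
      exact Nat.mul_le_mul_right _ h4
    _ = 4 ^ n := by rw [← pow_add, Nat.sub_add_cancel (by omega)]

theorem exists_primes {m : ℕ} (hm : 17 ≤ m) :
    ∃ p q : ℕ, p.Prime ∧ q.Prime ∧ m < 2 * p ∧ p + 3 ≤ q ∧ q ≤ m := by
  rcases le_or_gt 1600 m with h | h
  · obtain ⟨p, q, hp, hq, h1, h2, h3⟩ := exists_primes_large (n := m / 2) (by omega)
    exact ⟨p, q, hp, hq, by omega, h2, by omega⟩
  have : ∀ x ∈ [(13, 17), (19, 23), (31, 37), (53, 59), (97, 103), (181, 191), (353, 359),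
      (691, 701), (1373, 1381)], x.1.Prime ∧ x.2.Prime ∧ x.1 + 3 ≤ x.2 := by
    simp only [List.forall_mem_cons]
    norm_num
  by_contra h1
  push Not at h1
  have h2 := fun x hx => fun h => (h1 x.1 x.2 (this x hx).1 (this x hx).2.1 h (this x hx).2.2)
  simp only [List.forall_mem_cons] at h2
  omega

variable {α : Type*} [Fintype α] [DecidableEq α] {H : Subgroup (Perm α)} {x y : Perm α}

theorem mem_alternatingGroup_of_odd (h : Odd (orderOf x)) : x ∈ alternatingGroup α := by
  rcases Int.units_eq_one_or (sign x) with h1 | h1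
  · exact h1
  · have := congrArg sign (pow_orderOf_eq_one x)
    rw [map_pow, h1, h.neg_one_pow, map_one] at this
    exact absurd this (by decide)

theorem two_mul_relIndex_dvd [Nontrivial α] (hH : H ≤ alternatingGroup α) {k : ℕ}
    (hk : k ≤ Fintype.card α) (h : IsMultiplyPretransitive H α k) :
    2 * H.relIndex (alternatingGroup α) ∣ (Fintype.card α - k).factorial := by
  obtain ⟨F, -, rfl⟩ := Finset.exists_subset_card_eq (s := (Finset.univ : Finset α)) hk
  have h1 := h.index_of_fixingSubgroup_mul (s := (F : Set α)) (Set.ncard_coe_finset F)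
  have h2 := two_mul_nat_card_alternatingGroup (α := α)
  rw [← PGrp.card_mul_relIndex hH, Nat.card_perm, ← h1, mul_left_comm, Nat.card_eq_fintype_card (α := α)] at h2
  exact Nat.dvd_of_mul_dvd_mul_left Nat.card_pos
    (h2 ▸ Nat.mul_dvd_mul_right (index_dvd_card _) _)

theorem toPermHom_injective (h5 : 5 ≤ Fintype.card α) {K : Subgroup (alternatingGroup α)}
    (hK : K ≠ ⊤) : Function.Injective (toPermHom (alternatingGroup α) (_ ⧸ K)) := by
  have := alternatingGroup.isSimpleGroup (α := α) (by simpa using h5)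
  rw [← MonoidHom.ker_eq_bot_iff, ← normalCore_eq_ker]
  exact (normalCore_normal K).eq_bot_or_eq_top.resolve_right fun h =>
    hK (top_le_iff.1 (h.ge.trans K.normalCore_le))

theorem le_of_relIndex_lt (h5 : 5 ≤ Fintype.card α)
    (h : H.relIndex (alternatingGroup α) < Fintype.card α) : alternatingGroup α ≤ H := by
  by_contra h1
  have : Nontrivial α := Fintype.one_lt_card_iff_nontrivial.1 (by omega)
  have h2 := Nat.card_le_card_of_injective _ (toPermHom_injective h5 (subgroupOf_eq_top.not.2 h1))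
  have h3 := two_mul_nat_card_alternatingGroup (α := α)
  obtain ⟨n, hn⟩ := Nat.exists_eq_add_of_le' (show 1 ≤ Fintype.card α by omega)
  rw [Nat.card_perm, Nat.card_eq_fintype_card (α := α), hn, Nat.factorial_succ] at h3
  rw [Nat.card_perm] at h2
  have h4 := h2.trans (Nat.factorial_le (Nat.le_of_lt_succ (hn ▸ h)))
  nlinarith [n.factorial_pos]

theorem nonempty_equiv_of_relIndex_eq (h5 : 5 ≤ Fintype.card α) (hH : H ≤ alternatingGroup α)
    (h : H.relIndex (alternatingGroup α) = Fintype.card α) :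
    Nonempty (H ≃* alternatingGroup (Fin (Fintype.card α - 1))) := by
  classical
  have : Nontrivial α := Fintype.one_lt_card_iff_nontrivial.1 (by omega)
  set K := H.subgroupOf (alternatingGroup α)
  have := Fintype.ofFinite (alternatingGroup α ⧸ K)
  have h0 : Nat.card (alternatingGroup α ⧸ K) = Fintype.card α := h
  have h1 := toPermHom_injective h5 (K := K) fun h1 => by
    rw [relIndex_eq_one.2 (subgroupOf_eq_top.1 h1)] at h
    omega
  set φ := toPermHom (alternatingGroup α) (_ ⧸ K)
  have h2 : φ.range = alternatingGroup _ := eq_alternatingGroup_of_index_eq_two (by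
    have h2 := φ.range.index_mul_card
    rw [← Nat.card_congr (MonoidHom.ofInjective h1).toEquiv, Nat.card_perm, h0,
      ← Nat.card_eq_fintype_card, ← Nat.card_perm, ← two_mul_nat_card_alternatingGroup] at h2
    exact Nat.eq_of_mul_eq_mul_right Nat.card_pos h2)
  let s : Finset (alternatingGroup α ⧸ K) := {((1 : alternatingGroup α) : _ ⧸ K)}ᶜ
  have h3 : K.map φ = (alternatingGroup s).map ofSubtype := by
    rw [alternatingGroup.map_ofSubtype, ← h2]
    ext g
    constructor
    · rintro ⟨g, hg, rfl⟩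
      refine ⟨mem_range_ofSubtype_iff.2 fun a ha => Finset.mem_compl.2 fun h => ?_, g, rfl⟩
      rw [Finset.mem_singleton.1 h] at ha
      exact mem_support.1 ha ((stabilizer_quotient K).ge hg)
    · rintro ⟨hg, g, rfl⟩
      refine ⟨g, (stabilizer_quotient K).le ((notMem_support (f := φ g)
        (x := ((1 : alternatingGroup α) : _ ⧸ K))).1 fun h => ?_), rfl⟩
      simpa [s] using mem_range_ofSubtype_iff.1 hg h
  exact ⟨(subgroupOfEquivOfLe hH).symm.trans ((K.equivMapOfInjective φ h1).trans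
    ((MulEquiv.subgroupCongr h3).trans ((equivMapOfInjective _ _ ofSubtype_injective).symm.trans
      (Fintype.equivFinOfCardEq (by
        rw [Fintype.card_coe, Finset.card_compl, ← Nat.card_eq_fintype_card, h0,
          Finset.card_singleton])).altCongrHom)))⟩

theorem card_ne_two_mul {G : Type*} [Group G] [Finite G] {x y : G} (hx : Odd (orderOf x))
    (hy : Odd (orderOf y)) {k : ℕ} (hk : Odd k) : Nat.card (closure {x, y}) ≠ 2 * k := fun h => by
  obtain ⟨P⟩ : Nonempty (Sylow 2 (closure {x, y})) := inferInstance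
  have h1 : Nat.card P = 2 := by
    rw [P.card_eq_multiplicity, h, Nat.factorization_mul two_ne_zero hk.pos.ne', Finsupp.add_apply,
      Nat.prime_two.factorization_self, Nat.factorization_eq_zero_of_not_dvd hk.not_two_dvd_nat]
    rfl
  have h2 := (IsCyclic.isComplement' (by rw [h, Nat.minFac_eq_two_iff]; simp)
    (isCyclic_of_prime_card h1)).symm.index_eq_card
  rw [h1] at h2
  obtain ⟨K, h2⟩ : ∃ K : Subgroup (closure {x, y}), K.index = 2 := ⟨_, h2⟩
  have h3 : ∀ g ∈ ({x, y} : Set G), g ∈ K.map (closure {x, y}).subtype := fun g hg => by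
    refine ⟨⟨g, subset_closure hg⟩, zpowers_le.2 (sq_mem_of_index_two h2 _)
      (mem_zpowers_pow_iff.2 ?_), rfl⟩
    rcases hg with rfl | rfl <;> simpa [Nat.coprime_two_left]
  rw [(eq_top_iff' K).2 fun g => (mem_map_iff_mem (closure {x, y}).subtype_injective).1
    ((closure_le _).2 h3 g.2), index_top] at h2
  omega

theorem thirteen (hn : Fintype.card α = 13) (hH : H ≤ alternatingGroup α)
    (hprim : IsPreprimitive H α) (hx : x ∈ H) (hx11 : orderOf x = 11) : alternatingGroup α ≤ H := by
  by_contra hA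
  have : Nontrivial α := Fintype.one_lt_card_iff_nontrivial.1 (by omega)
  have hn' : Nat.card α = 13 := Nat.card_eq_fintype_card.trans hn
  have h11 : Nat.Prime 11 := by norm_num
  have := Fact.mk h11
  have := Fact.mk Nat.prime_five
  have hxc := isCycle_of_prime_order' (hx11 ▸ h11) (by omega)
  have hxs := hxc.orderOf.symm.trans hx11
  have hF : x.supportᶜ.card = 2 := by rw [Finset.card_compl, hn, hxs]
  have h3 := Perm.isMultiplyPretransitive_of_isCycle hprim h11 (by omega) hxc hxs hx
  rw [hF] at h3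
  have h5 : ¬ 5 ∣ Nat.card H := fun h5 => by
    obtain ⟨E, -, hE⟩ := Finset.exists_subset_card_eq (s := (Finset.univ : Finset α)) (n := 3)
      (by rw [Finset.card_univ]; omega)
    obtain ⟨P, hP⟩ := Transfer.exists_isSylowIn (p := 5) (H ⊓ fixingSubgroup (Perm α) (E : Set α))
    have h1 := h3.index_of_fixingSubgroup_mul (s := (E : Set α)) (by simpa)
    have h2 := PGrp.card_inf_mul_relIndex (fixingSubgroup (Perm α) (E : Set α)) H
    rw [hn', show Nat.factorial (13 - (2 + 1)) = 3628800 from rfl,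
      show Nat.factorial 13 = 6227020800 from rfl] at h1
    rw [show (fixingSubgroup (Perm α) (E : Set α)).relIndex H =
      (fixingSubgroup H (E : Set α)).index from rfl, inf_comm, ← PGrp.card_mul_relIndex hP.le] at h2
    rw [← h2, Nat.prime_five.dvd_mul, Nat.prime_five.dvd_mul, or_iff_left (by omega),
      or_iff_left hP.not_dvd] at h5
    obtain ⟨⟨u, hu⟩, hu5⟩ := exists_prime_orderOf_dvd_card' 5 h5
    rw [orderOf_mk] at hu5
    have hc : ∀ v ∈ P, v.support.card ≠ 5 := fun v hv h => by
      obtain ⟨y, hy, hy1, hy2⟩ := Perm.exists_isCycle_mem_zpowers Nat.prime_five (x := v) (by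
        simpa using hP.isPGroup.dvd_orderOf (g := ⟨v, hv⟩) fun h' => by
          simp [show v = 1 from congrArg Subtype.val h'] at h) (by omega)
      exact hA (Perm.alternatingGroup_le_of_isCycle hprim Nat.prime_five (by omega) hy1 hy2
        (zpowers_le.2 (hP.le hv).1 hy))
    have h4 : u.support ⊆ Eᶜ := fun a ha => Finset.mem_compl.2 fun h =>
      mem_support.1 ha ((hP.le hu).2 ⟨a, h⟩)
    have h6 : u.support = Eᶜ := Finset.eq_of_subset_of_card_le h4 (by
      obtain ⟨m, hm⟩ := cycleType_prime_order (hu5 ▸ Nat.prime_five)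
      have := hc u hu
      rw [Finset.card_compl, hn, hE]
      rw [← sum_cycleType, hm, hu5, Multiset.sum_replicate, smul_eq_mul] at this ⊢
      omega)
    exact hA (Perm.alternatingGroup_le_of_sylow (k := 2) Nat.prime_five (hE ▸ h3) hP
      (fun a ha => by_contra fun h => mem_support.1 (h6 ▸ Finset.mem_compl.2 h) (ha u hu))
      (by omega) (by omega) (by omega) (by omega) (by omega) (by omega) (by omega) (Or.inr hc))
  have h1 := Perm.card_normalizer_zpowers_dvd h11 hxc hxs
  obtain ⟨τ, hτ, hτ'⟩ := Perm.exists_isSwap_mem_normalizer (x := x) (by omega)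
  set N := normalizer (zpowers x : Set (Perm α))
  have h2 : (alternatingGroup α).relIndex N = 2 := ((Nat.dvd_prime Nat.prime_two).1
    (alternatingGroup.index_eq_two (α := α) ▸ relIndex_dvd_index_of_normal _ N)).resolve_left
    fun h => by simpa [hτ'.sign_eq] using relIndex_eq_one.1 h hτ
  rw [← PGrp.card_inf_mul_relIndex (alternatingGroup α), hn, h2,
    show Nat.factorial (13 - 11) * 11 * (11 - 1) = 22 * 5 * 2 from rfl] at h1
  have h4 : Nat.card ↥(H ⊓ N) ∣ 22 := Nat.Coprime.dvd_of_dvd_mul_right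
    ((Nat.prime_five.coprime_iff_not_dvd.2 fun h => h5 (h.trans (card_dvd_of_le inf_le_left))).symm)
    ((card_dvd_of_le (inf_le_inf_right N hH)).trans (Nat.dvd_of_mul_dvd_mul_right two_pos h1))
  obtain ⟨a, b, hab, hF'⟩ := Finset.card_eq_two.1 hF
  have ha : a ∈ x.supportᶜ := by simp [hF']
  have hb : b ∈ x.supportᶜ := by simp [hF']
  obtain ⟨g, hg, hga⟩ := Perm.exists_mem_normalizer_eqOn (p := 11) (F := x.supportᶜ)
    (hF ▸ isMultiplyPretransitive_of_le (n := 2 + 1) (by omega) (by omega))
    (Perm.isSylowIn_zpowers h11 (by omega) hx11 ⟨hx, fun c => by simpa using c.2⟩)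
    (swap ⟨a, ha⟩ ⟨b, hb⟩)
  set L := H ⊓ stabilizer (Perm α) a
  have hxL : x ∈ L := ⟨hx, by simpa using ha⟩
  have h6 : L ⊓ N < H ⊓ N := lt_of_le_of_ne (inf_le_inf_right N inf_le_left) fun h =>
    hab (((h.ge hg).1.2.symm.trans (hga ⟨a, ha⟩)).trans (by simp))
  have h7 : zpowers x ≤ L ⊓ N := le_inf (zpowers_le.2 hxL) le_normalizer
  have h8 := card_dvd_of_le h7
  have h9 := card_dvd_of_le h6.le
  have h10 : Nat.card ↥(L ⊓ N) < Nat.card ↥(H ⊓ N) := lt_of_le_of_ne (card_le_of_le h6.le)
    fun h => h6.ne (eq_of_le_of_card_ge h6.le h.ge)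
  rw [Nat.card_zpowers, hx11] at h8
  have h12 := Nat.le_of_dvd (by norm_num) h4
  have h13 : Nat.card ↥(L ⊓ N) = 11 ∧ Nat.card ↥(H ⊓ N) = 22 := by
    have := Nat.card_pos (α := ↥(L ⊓ N))
    have := h8.trans h9
    omega
  have h14 := eq_of_le_of_card_ge h7 (by rw [Nat.card_zpowers, hx11, h13.1])
  have hP := Perm.isSylowIn_zpowers h11 (by omega) hx11 hxL
  have h15 : normalizer (hP.toSylow : Set L) = hP.toSylow := by
    rw [← Sylow.coe_coe, hP.coe_toSylow, ← subgroupOf_normalizer_eq hP.le, ← inf_subgroupOf_left,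
      ← h14]
  have h16 : Nat.card hP.toSylow = 11 := (Nat.card_congr (subgroupOfEquivOfLe hP.le).toEquiv).trans
    ((Nat.card_zpowers x).trans hx11)
  have := isCyclic_of_prime_card h16
  obtain ⟨K, _, h17, h18⟩ : ∃ K : Subgroup L, K.Normal ∧ K.IsComplement' hP.toSylow ∧
      ¬ 11 ∣ Nat.card K :=
    ⟨_, inferInstance, MonoidHom.ker_transferSylow_isComplement' _ (h15.le.trans (le_centralizer _)),
      MonoidHom.not_dvd_card_ker_transferSylow _ _⟩
  have h19 := Coprime.pow_factorization_relIndex_centralizer_modEq hP.toSylow.isPGroup'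
    le_normalizer_of_normal h18 Nat.prime_two
  have h20 := PGrp.card_inf_mul_relIndex (centralizer (hP.toSylow : Set L)) K
  rw [(h17.symm.disjoint.mono_left ((centralizer_le_normalizer _).trans h15.le)).eq_bot, card_bot,
    one_mul] at h20
  have h21 := h17.card_mul_card
  rw [h16] at h21
  have h22 := PGrp.card_inf_mul_relIndex (stabilizer (Perm α) a) H
  rw [show (stabilizer (Perm α) a).relIndex H = (stabilizer H a).index from rfl,
    index_stabilizer_of_transitive, hn', inf_comm, ← h21] at h22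
  have h23 := h13.2 ▸ card_dvd_of_le (inf_le_left : H ⊓ N ≤ H)
  have h24 := (Nat.prime_two.dvd_iff_one_le_factorization Nat.card_pos.ne').1
    (show 2 ∣ Nat.card K by omega)
  have h25 := Nat.mul_dvd_mul_left 2 ((Nat.ordProj_dvd _ 2).trans ((card_subgroup_dvd_card K).trans
    (card_dvd_of_le (inf_le_left.trans hH))))
  rw [two_mul_nat_card_alternatingGroup, Nat.card_perm, hn', ← pow_succ'] at h25
  rw [Sylow.coe_coe, h20] at h19
  generalize (Nat.card K).factorization 2 = e at h19 h24 h25
  have h26 : e < 10 := by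
    by_contra h
    exact absurd ((pow_dvd_pow 2 (show 11 ≤ e + 1 by omega)).trans h25) (by decide)
  interval_cases e <;> simp [Nat.ModEq] at h19

theorem key {p q : ℕ} (hp : p.Prime) (hq : q.Prime) (hx : orderOf x = p) (hy : orderOf y = q)
    (hp3 : 3 ≤ p) (hpq : p < q) (hn : Fintype.card α ≤ 2 * p) (hcov : ∀ a, x a ≠ a ∨ y a ≠ a)
    (h : (Fintype.card α < 2 * p ∧ p + 3 ≤ q) ∨ (p = 3 ∧ q = 5) ∨ (p = 5 ∧ q = 7) ∨
      (p = 11 ∧ q = 13 ∧ Fintype.card α < 22)) :
    ∃ d, 5 ≤ d ∧ Nonempty (closure ({x, y} : Set (Perm α)) ≃* alternatingGroup (Fin d)) := by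
  have hyc := isCycle_of_prime_order' (hy ▸ hq) (by omega)
  have hys := hyc.orderOf.symm.trans hy
  have hqn : q ≤ Fintype.card α := hys ▸ y.support.card_le_univ
  have h5 : 5 ≤ Fintype.card α := by omega
  have : Nontrivial α := Fintype.one_lt_card_iff_nontrivial.1 (by omega)
  have hxo : Odd (orderOf x) := hx ▸ hp.odd_of_ne_two (by omega)
  have hyo : Odd (orderOf y) := hy ▸ hq.odd_of_ne_two (by omega)
  set H := closure ({x, y} : Set (Perm α)) with hHd
  have hxH : x ∈ H := subset_closure (Or.inl rfl)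
  have hyH : y ∈ H := subset_closure (Or.inr rfl)
  have hH : H ≤ alternatingGroup α := (closure_le _).2 (by
    rintro _ (rfl | rfl)
    exacts [mem_alternatingGroup_of_odd hxo, mem_alternatingGroup_of_odd hyo])
  by_cases hA : alternatingGroup α ≤ H
  · exact ⟨_, h5, ⟨(MulEquiv.subgroupCongr (le_antisymm hH hA)).trans
      (Fintype.equivFin α).altCongrHom⟩⟩
  have : IsPretransitive H α := by
    obtain ⟨b, hb, hb'⟩ := hyc
    have h1 : ∀ a, y a ≠ a → a ∈ orbit H b := fun a ha => by
      obtain ⟨i, hi⟩ := hb' ha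
      exact ⟨⟨y ^ i, zpow_mem hyH i⟩, hi⟩
    refine (isPretransitive_iff_orbit_eq_univ b).2 (Set.eq_univ_of_forall fun a =>
      (hcov a).elim (fun ha => ?_) (h1 a))
    have h2 := x.isCycle_cycleOf ha
    have h3 : (x.cycleOf a).support.card = p := h2.orderOf ▸ ((Nat.dvd_prime hp).1
      (hx ▸ orderOf_cycleOf_dvd_orderOf x a)).resolve_left (orderOf_eq_one_iff.not.2 h2.ne_one)
    obtain ⟨c, hc⟩ := Finset.card_pos.1 (show 0 < ((x.cycleOf a).support ∩ y.support).card by
      have := Finset.card_union_add_card_inter (x.cycleOf a).support y.support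
      have := ((x.cycleOf a).support ∪ y.support).card_le_univ
      omega)
    obtain ⟨i, hi⟩ := ((mem_support_cycleOf_iff' ha).1 (Finset.mem_inter.1 hc).1).symm
    exact hi ▸ mapsTo_smul_orbit (⟨x ^ i, zpow_mem hxH i⟩ : H) b
      (h1 c (mem_support.1 (Finset.mem_inter.1 hc).2))
  have hprim := Perm.isPreprimitive_of_isCycle hq (by omega) hyc hys hyH
  have h1 : ¬ q + 3 ≤ Fintype.card α := fun h =>
    hA (Perm.alternatingGroup_le_of_isCycle hprim hq h hyc hys hyH)
  have hxc := fun h : Fintype.card α < 2 * p => isCycle_of_prime_order' (hx ▸ hp) (hx ▸ h)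
  have h2 : Fintype.card α < 2 * p → ¬ p + 3 ≤ Fintype.card α := fun h h' =>
    hA (Perm.alternatingGroup_le_of_isCycle hprim hp h' (hxc h) ((hxc h).orderOf.symm.trans hx) hxH)
  have h3 : ¬ H.relIndex (alternatingGroup α) < Fintype.card α := fun h =>
    hA (le_of_relIndex_lt h5 h)
  have h4 := two_mul_nat_card_alternatingGroup (α := α)
  rw [← PGrp.card_mul_relIndex hH, Nat.card_perm, Nat.card_eq_fintype_card (α := α)] at h4
  have h6 : ∀ k, Odd k → Nat.card H ≠ 2 * k := fun k => card_ne_two_mul hxo hyo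
  rcases h with h | ⟨rfl, rfl⟩ | ⟨rfl, rfl⟩ | ⟨rfl, rfl, h⟩
  · omega
  · obtain h | h : Fintype.card α = 5 ∨ Fintype.card α = 6 := by omega
    · exact (hA (alternatingGroup_le_of_isPreprimitive_of_isThreeCycle_mem hprim
        (card_support_eq_three_iff.1 ((hxc (by omega)).orderOf.symm.trans hx)) hxH)).elim
    have h7 := Perm.isMultiplyPretransitive_of_isCycle hprim hq (by omega) hyc hys hyH
    rw [Finset.card_compl, hys] at h7
    have h8 := two_mul_relIndex_dvd hH (by omega) h7
    rw [h, show Nat.factorial (6 - (6 - 5 + 1)) = 24 from rfl] at h8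
    rw [h, show Nat.factorial 6 = 720 from rfl] at h4
    have h9 := Nat.le_of_dvd (by norm_num) h8
    have h10 := nonempty_equiv_of_relIndex_eq h5 hH
    have h11 := h6 15 (by decide)
    generalize H.relIndex (alternatingGroup α) = j at *
    obtain rfl : j = 6 := by
      have : j ≤ 12 := by omega
      have : 6 ≤ j := by omega
      interval_cases j <;> omega
    exact ⟨_, by omega, h10 h.symm⟩
  · have h : Fintype.card α = 7 := by omega
    have h0 := (hxc (by omega)).orderOf.symm.trans hx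
    have h7 := Perm.isMultiplyPretransitive_of_isCycle hprim hp (by omega) (hxc (by omega)) h0 hxH
    rw [Finset.card_compl, h0] at h7
    have h8 := two_mul_relIndex_dvd hH (by omega) h7
    rw [h, show Nat.factorial (7 - (7 - 5 + 1)) = 24 from rfl] at h8
    rw [h, show Nat.factorial 7 = 5040 from rfl] at h4
    have h9 := Nat.le_of_dvd (by norm_num) h8
    have h11 := h6 105 (by decide)
    generalize H.relIndex (alternatingGroup α) = j at *
    have : j ≤ 12 := by omega
    have : 7 ≤ j := by omega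
    interval_cases j <;> omega
  · exact (hA (thirteen (by omega) hH hprim hxH hx)).elim


/-- Let m ≥ 5. Then there are primes p < q with m/2 ≤ p and q ≤ m such that any two elements x, y of the alternating group of degree m with x of order p and y of order q generate a subgroup isomorphic to an alternating group of some degree d ≥ 5. -/
theorem result (m : ℕ) (hm : 5 ≤ m) :
    ∃ p q : ℕ, p.Prime ∧ q.Prime ∧ m ≤ 2 * p ∧ p < q ∧ q ≤ m ∧
      ∀ x y : alternatingGroup (Fin m), orderOf x = p → orderOf y = q →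
        ∃ d : ℕ, 5 ≤ d ∧ Nonempty (Subgroup.closure ({x, y} : Set (alternatingGroup (Fin m))) ≃* alternatingGroup (Fin d)) := by
  obtain ⟨p, q, hp, hq, h1, h2, h3, h4, h5⟩ : ∃ p q : ℕ, p.Prime ∧ q.Prime ∧ m ≤ 2 * p ∧ p < q ∧
      q ≤ m ∧ 3 ≤ p ∧ ((m < 2 * p ∧ p + 3 ≤ q) ∨ (p = 3 ∧ q = 5) ∨ (p = 5 ∧ q = 7) ∨
      (p = 11 ∧ q = 13 ∧ m < 22)) := by
    rcases le_or_gt 17 m with h | h
    · obtain ⟨p, q, hp, hq, h⟩ := exists_primes h
      exact ⟨p, q, hp, hq, by omega⟩
    rcases le_or_gt 14 m with h | h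
    · exact ⟨11, 13, by norm_num, by norm_num, by omega⟩
    rcases le_or_gt 11 m with h | h
    · exact ⟨7, 11, by norm_num, by norm_num, by omega⟩
    rcases le_or_gt 7 m with h | h
    · exact ⟨5, 7, by norm_num, by norm_num, by omega⟩
    · exact ⟨3, 5, by norm_num, by norm_num, by omega⟩
  refine ⟨p, q, hp, hq, h1, h2, h3, fun x y hx hy => ?_⟩
  obtain ⟨s, hs⟩ : ∃ s, s = (x : Perm (Fin m)).support ∪ (y : Perm (Fin m)).support := ⟨_, rfl⟩
  obtain ⟨u, rfl⟩ := (alternatingGroup.mem_range_ofSubtype_iff s x).2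
    (hs ▸ Finset.subset_union_left)
  obtain ⟨v, rfl⟩ := (alternatingGroup.mem_range_ofSubtype_iff s y).2
    (hs ▸ Finset.subset_union_right)
  rw [orderOf_injective _ alternatingGroup.ofSubtype_injective, ← orderOf_coe] at hx hy
  have h6 : Fintype.card s ≤ m := by simpa using s.card_le_univ
  obtain ⟨d, hd, ⟨e⟩⟩ := key hp hq hx hy h4 h2 (by omega) (fun a => by
    simpa only [Finset.mem_union, alternatingGroup.coe_ofSubtype, mem_support, ofSubtype_apply_coe,
      ne_eq, Subtype.coe_inj] using hs.le a.2)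
    (by omega)
  refine ⟨d, hd, ⟨((MulEquiv.subgroupCongr ?_).trans (equivMapOfInjective (closure {u, v}) _
    alternatingGroup.ofSubtype_injective).symm).trans (((closure {u, v}).equivMapOfInjective _
      (alternatingGroup s).subtype_injective).trans ((MulEquiv.subgroupCongr ?_).trans e))⟩⟩ <;>
  simp [MonoidHom.map_closure, Set.image_pair]

end Cfsg.Agent.S4150
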