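import Cfsg.Statements.S4151
import Cfsg.Agent.Lib.Coprime.TIHall

set_option autoImplicit false
open Cfsg

namespace Cfsg.Agent.S4151

/-- Let G be a finite group and H a non-normal subgroup meeting each of its conjugates by elements outside N_G(H) trivially, with the order of H coprime to its index in N_G(H), such that G is π-separable for π the set of primes dividing the order of H (G has a chain of normal subgroups from 1 to G each of whose factors has order divisible only by primes dividing the order of H or coprime to it). Suppose a Sylow 2-subgroup of H is abelian and Q is a complement of H in N_G(H). Then C_H(Q), the subgroup of elements of H commuting with Q, has order coprime to its index in G and has a normal complement in G. -/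
theorem result {G : Type*} [Group G] [Finite G] (H : Subgroup G)
    (hTI : Cfsg.IsTISubset (H : Set G)) (hnn : ¬ H.Normal)
    (hHall : (Nat.card H).Coprime (H.subgroupOf (Subgroup.normalizer (H : Set G))).index)
    (hsep : ∃ (n : ℕ) (M : Fin (n + 1) → Subgroup G), M 0 = ⊥ ∧ M (Fin.last n) = ⊤ ∧ Monotone M ∧ (∀ i, (M i).Normal) ∧
      ∀ i : Fin n, (∀ q : ℕ, q.Prime → q ∣ (M i.castSucc).relIndex (M i.succ) → q ∣ Nat.card H) ∨
        ((M i.castSucc).relIndex (M i.succ)).Coprime (Nat.card H))
    (h2 : ∀ P : Sylow 2 H, IsMulCommutative (P : Subgroup H))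
    (Q : Subgroup G) (hQ : Q ≤ Subgroup.normalizer (H : Set G)) (hQH : Q ⊓ H = ⊥) (hQH' : Q ⊔ H = Subgroup.normalizer (H : Set G)) :
    (Nat.card ↥(H ⊓ Subgroup.centralizer (Q : Set G))).Coprime (H ⊓ Subgroup.centralizer (Q : Set G)).index ∧
    ∃ N : Subgroup G, N.Normal ∧ N.IsComplement' (H ⊓ Subgroup.centralizer (Q : Set G)) := by
  have hH := Coprime.coprime_index_of_isTISubset hTI hHall
  have h1 := Coprime.piCore_sup_normalizer_of_isTISubset hH hTI
    (Coprime.isPiSeparable_of_coprime_chain hsep)
  have h3 := Coprime.coprime_card_piCore_compl H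
  set O := piCore {q | q ∣ Nat.card H}ᶜ G with hO
  have h4 : ¬ O ≤ Subgroup.normalizer (H : Set G) := fun h => hnn
    (Subgroup.normalizer_eq_top_iff.mp (by rwa [sup_eq_right.mpr h] at h1))
  have hZ : IsZGroup H := Coprime.isZGroup_of_forall_isCyclic (fun E hE hc =>
    Coprime.isCyclic_of_isTISubset hTI Subgroup.le_normalizer_of_normal h3 h4 hE hc) h2
  have h5 : Nat.card Q = H.relIndex (Subgroup.normalizer (H : Set G)) := by
    have e1 := Core.card_sup_of_disjoint hQ hQH
    rw [hQH', ← Core.card_mul_relIndex_of_le Subgroup.le_normalizer, mul_comm] at e1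
    exact (Nat.eq_of_mul_eq_mul_right Nat.card_pos e1).symm
  have h6 : (Nat.card Q).Coprime (Nat.card H) := by rw [h5]; exact hHall.symm
  have h7 := Coprime.coprime_centralizer_relIndex_of_isZGroup hQ h6
  have h8 := Coprime.inf_centralizer_inf_commutator_of_isZGroup hQ h6
  have h9 := Coprime.centralizer_sup_commutator hQ h6 (Or.inr inferInstance)
  set C := H ⊓ Subgroup.centralizer (Q : Set G) with hC
  have hCH : Nat.card C ∣ Nat.card H := Subgroup.card_dvd_of_le inf_le_left
  have hCn : C ≤ Subgroup.normalizer ((⁅H, Q⁆ : Subgroup G) : Set G) :=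
    inf_le_left.trans (Subgroup.normalizer_commutator_ge_left _ _)
  have h10 : (Nat.card C).Coprime (Nat.card ↥⁅H, Q⁆) := by
    have e1 := Core.card_sup_of_disjoint hCn h8
    have e2 := Core.card_inf_mul_relIndex (Subgroup.centralizer (Q : Set G)) H
    rw [h9] at e1
    rw [inf_comm, ← hC, e1] at e2
    rwa [← Nat.eq_of_mul_eq_mul_left Nat.card_pos e2]
  have hn : (O ⊔ (Q ⊔ ⁅H, Q⁆)).Normal := by
    rw [← Subgroup.normalizer_eq_top_iff, eq_top_iff, ← h1, ← hQH']
    conv_lhs => rw [← h9]
    refine sup_le (le_sup_left.trans Subgroup.le_normalizer) (sup_le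
      ((le_sup_left.trans le_sup_right).trans Subgroup.le_normalizer) (sup_le ?_
      ((le_sup_right.trans le_sup_right).trans Subgroup.le_normalizer)))
    exact Core.le_normalizer_sup Subgroup.le_normalizer_of_normal (Core.le_normalizer_sup
      (inf_le_right.trans (Subgroup.centralizer_le_normalizer _)) hCn)
  refine ⟨?_, O ⊔ (Q ⊔ ⁅H, Q⁆), hn, Coprime.isComplement'_of_sup_eq_top ?_ ?_⟩
  · rw [← Subgroup.relIndex_mul_index (inf_le_left : C ≤ H), hC, Subgroup.inf_relIndex_left]
    exact h7.mul_right (hH.coprime_dvd_left hCH)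
  · rw [sup_comm]
    refine Nat.Coprime.coprime_dvd_left (Core.card_sup_dvd _ _) (Nat.Coprime.mul_left ?_
      (h3.coprime_dvd_left hCH).symm)
    exact Nat.Coprime.coprime_dvd_left
      (Core.card_sup_dvd_of_le_normalizer (Subgroup.normalizer_commutator_ge_right _ _))
      (Nat.Coprime.mul_left (h6.coprime_dvd_right hCH) h10.symm)
  · rw [sup_assoc, sup_assoc, sup_comm _ C, h9, hQH', h1]

end Cfsg.Agent.S4151
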