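import Cfsg.Statements.S4152
import Mathlib
import Cfsg.Agent.Lib.Cls.PiClasses

set_option autoImplicit false
open Cfsg

namespace Cfsg.Agent.S4152

open Subgroup Finset

def Pi (π : Set ℕ) {G : Type*} [Group G] (x : G) : Prop := ∀ q, q.Prime → q ∣ orderOf x → q ∈ π

theorem card_comm_pi (π : Set ℕ) (G : Type*) [Group G] [Finite G] :
    Nat.card {p : G × G // Pi π p.1 ∧ Commute p.1 p.2} =
      Nat.card {C : ConjClasses G // ∀ q : ℕ, q.Prime →
        (∃ g : G, ConjClasses.mk g = C ∧ q ∣ orderOf g) → q ∈ π} * Nat.card G := by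
  classical
  have := Fintype.ofFinite G
  have := Fintype.ofFinite (ConjClasses G)
  have hmk : ∀ x : G, (∀ q : ℕ, q.Prime →
      (∃ g : G, ConjClasses.mk g = ConjClasses.mk x ∧ q ∣ orderOf g) → q ∈ π) ↔ Pi π x := by
    intro x
    refine ⟨fun h q hq hx => h q hq ⟨x, rfl, hx⟩, fun h q hq ⟨g, hg, hx⟩ => h q hq ?_⟩
    rwa [← Cls.orderOf_eq_of_isConj (ConjClasses.mk_eq_mk_iff_isConj.mp hg)]
  have e : {p : G × G // Pi π p.1 ∧ Commute p.1 p.2} ≃
      Σ C : {C : ConjClasses G // ∀ q : ℕ, q.Prime →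
        (∃ g : G, ConjClasses.mk g = C ∧ q ∣ orderOf g) → q ∈ π},
        Σ x : C.1.carrier, centralizer ({x.1} : Set G) :=
    { toFun := fun p => ⟨⟨ConjClasses.mk p.1.1, (hmk _).mpr p.2.1⟩,
        ⟨p.1.1, ConjClasses.mem_carrier_mk⟩, p.1.2,
          Cls.mem_centralizer_single_commute.mpr p.2.2.symm⟩
      invFun := fun p => ⟨(p.2.1.1, p.2.2.1), (hmk _).mp
        ((ConjClasses.mem_carrier_iff_mk_eq.mp p.2.1.2).symm ▸ p.1.2),
          (Cls.mem_centralizer_single_commute.mp p.2.2.2).symm⟩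
      left_inv := fun _ => rfl
      right_inv := by
        rintro ⟨⟨C, hC⟩, ⟨x, hx⟩, y⟩
        obtain rfl := ConjClasses.mem_carrier_iff_mk_eq.mp hx
        rfl }
  rw [Nat.card_congr e, Nat.card_sigma, sum_congr rfl (g := fun _ => Nat.card G)]
  · simp
  rintro ⟨C, hC⟩ -
  obtain ⟨x, rfl⟩ := ConjClasses.mk_surjective C
  rw [Nat.card_sigma, sum_congr rfl (g := fun _ => Nat.card (centralizer ({x} : Set G)))]
  · rw [sum_const, card_univ, ← Nat.card_eq_fintype_card, Cls.card_carrier_mk, smul_eq_mul,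
      index_mul_card]
  rintro ⟨y, hy⟩ -
  exact Cls.card_centralizer_of_isConj (ConjClasses.mk_eq_mk_iff_isConj.mp
    (ConjClasses.mem_carrier_iff_mk_eq.mp hy).symm)

theorem card_fiber_le {X : Type*} [Group X] [Finite X] (N : Subgroup X) [N.Normal] (x : X)
    (t : X ⧸ N) : Nat.card {y : X // (y : X ⧸ N) = t ∧ Commute x y} ≤
      Nat.card {n : N // Commute x n} := by
  rcases isEmpty_or_nonempty {y : X // (y : X ⧸ N) = t ∧ Commute x y} with h | ⟨⟨y₀, h1, h2⟩⟩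
  · simp
  · refine Nat.card_le_card_of_injective (fun y => ⟨⟨y₀⁻¹ * y.1, QuotientGroup.eq.mp
      (h1.trans y.2.1.symm)⟩, h2.inv_right.mul_right y.2.2⟩) ?_
    intro a b h
    have : y₀⁻¹ * a.1 = y₀⁻¹ * b.1 := congrArg (fun z => (z.1 : X)) h
    exact Subtype.ext (mul_left_cancel this)

theorem pi_unique {π : Set ℕ} {X : Type*} [Group X] [Finite X] {a b c d : X} (hab : Commute a b)
    (hcd : Commute c d) (ha : Pi π a) (hb : ∀ q, q.Prime → q ∣ orderOf b → q ∉ π)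
    (hc : Pi π c) (hd : ∀ q, q.Prime → q ∣ orderOf d → q ∉ π) (h : a * b = c * d) : a = c := by
  have h1 := Cls.mem_zpowers_mul_left hab (Cls.coprime_of_pi ha hb)
  have h2 := Cls.mem_zpowers_mul_right hab (Cls.coprime_of_pi ha hb)
  have h3 := h ▸ Cls.mem_zpowers_mul_left hcd (Cls.coprime_of_pi hc hd)
  have h4 := h ▸ Cls.mem_zpowers_mul_right hcd (Cls.coprime_of_pi hc hd)
  have e : c⁻¹ * a = d * b⁻¹ := by
    rw [inv_mul_eq_iff_eq_mul, ← mul_assoc, ← h, mul_inv_cancel_right]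
  have h5 : orderOf (c⁻¹ * a) ∣ orderOf c * orderOf a := by
    rw [← orderOf_inv c]
    exact (Cls.commute_of_mem_zpowers (inv_mem h3) h1).orderOf_mul_dvd_mul_orderOf
  have h6 : orderOf (d * b⁻¹) ∣ orderOf d * orderOf b := by
    rw [← orderOf_inv b]
    exact (Cls.commute_of_mem_zpowers h4 (inv_mem h2)).orderOf_mul_dvd_mul_orderOf
  have h7 : orderOf (c⁻¹ * a) = 1 := Nat.eq_one_of_dvd_coprimes
    (Nat.Coprime.mul_left (Nat.Coprime.mul_right (Cls.coprime_of_pi hc hd)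
      (Cls.coprime_of_pi hc hb)) (Nat.Coprime.mul_right (Cls.coprime_of_pi ha hd)
      (Cls.coprime_of_pi ha hb))) h5 (e ▸ h6)
  exact (inv_mul_eq_one.mp (orderOf_eq_one_iff.mp h7)).symm

theorem card_pair_le (π : Set ℕ) {X : Type*} [Group X] [Finite X] (N : Subgroup X) [N.Normal]
    (s t : X ⧸ N) :
    Nat.card {p : X × X // ((p.1 : X ⧸ N) = s ∧ (p.2 : X ⧸ N) = t) ∧ Pi π p.1 ∧
      Commute p.1 p.2} ≤ Nat.card {p : N × N // Pi π p.1 ∧ Commute p.1 p.2} := by
  classical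
  have := Fintype.ofFinite X
  have e1 : {p : X × X // ((p.1 : X ⧸ N) = s ∧ (p.2 : X ⧸ N) = t) ∧ Pi π p.1 ∧ Commute p.1 p.2} ≃
      Σ x : {x : X // (x : X ⧸ N) = s ∧ Pi π x}, {y : X // (y : X ⧸ N) = t ∧ Commute x.1 y} :=
    { toFun := fun p => ⟨⟨p.1.1, p.2.1.1, p.2.2.1⟩, ⟨p.1.2, p.2.1.2, p.2.2.2⟩⟩
      invFun := fun p => ⟨(p.1.1, p.2.1), ⟨p.1.2.1, p.2.2.1⟩, p.1.2.2, p.2.2.2⟩
      left_inv := fun _ => rfl
      right_inv := fun _ => rfl }
  choose u hu v hv huv hup hvp using fun n : N => Cls.exists_pi_part π n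
  have hc : ∀ {x : X} {n m : N}, m ∈ zpowers n → Commute x n → Commute x m := by
    rintro x n _ ⟨k, rfl⟩ h
    exact h.zpow_right k
  have e2 : Nat.card (Σ x : {x : X // (x : X ⧸ N) = s ∧ Pi π x}, {n : N // Commute x.1 n}) ≤
      Nat.card (Σ n : {n : N // Pi π n}, {y : X // (y : X ⧸ N) = s ∧ Commute (n.1 : X) y}) := by
    refine Nat.card_le_card_of_injective (fun p => ⟨⟨u p.2.1, hup _⟩, ⟨p.1.1 * v p.2.1, ?_, ?_⟩⟩) ?_
    · rw [QuotientGroup.mk_mul_of_mem _ (v _).2, p.1.2.1]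
    · exact (hc (hu _) p.2.2).symm.mul_right
        ((Cls.commute_of_mem_zpowers (hu p.2.1) (hv p.2.1)).map N.subtype)
    · rintro ⟨⟨x, hx1, hx2⟩, n, hn⟩ ⟨⟨y, hy1, hy2⟩, m, hm⟩ h
      have h1 : u n = u m := congrArg (fun z => z.1.1) h
      have h2 : x * v n = y * v m := congrArg (fun z => z.2.1) h
      obtain rfl : x = y := pi_unique (hc (hv _) hn) (hc (hv _) hm) hx2
        (by rw [orderOf_coe]; exact hvp _) hy2 (by rw [orderOf_coe]; exact hvp _) h2
      have h3 : v n = v m := Subtype.ext (mul_left_cancel h2)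
      obtain rfl : n = m := by rw [huv n, huv m, h1, h3]
      rfl
  have e3 : (Σ n : {n : N // Pi π n}, {m : N // Commute (n.1 : X) m}) ≃
      {p : N × N // Pi π p.1 ∧ Commute p.1 p.2} :=
    { toFun := fun p => ⟨(p.1.1, p.2.1), p.1.2, Subtype.ext p.2.2⟩
      invFun := fun p => ⟨⟨p.1.1, p.2.1⟩, ⟨p.1.2, congrArg Subtype.val p.2.2⟩⟩
      left_inv := fun _ => rfl
      right_inv := fun _ => rfl }
  rw [Nat.card_congr e1, ← Nat.card_congr e3, Nat.card_sigma, Nat.card_sigma]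
  rw [Nat.card_sigma, Nat.card_sigma] at e2
  exact (sum_le_sum fun x _ => card_fiber_le N _ _).trans
    (e2.trans (sum_le_sum fun x _ => card_fiber_le N _ _))

/-- Let G be a finite group, N a normal subgroup and π a set of primes. Then the number of conjugacy classes of π-elements of G (elements whose order is divisible only by primes in π) is at most the number of conjugacy classes of π-elements of N (under conjugation by N) times the number of conjugacy classes of π-elements of G/N. -/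
theorem result {G : Type*} [Group G] [Finite G] (N : Subgroup G) [N.Normal] (π : Set ℕ) :
    Nat.card {C : ConjClasses G // ∀ q : ℕ, q.Prime → (∃ g : G, ConjClasses.mk g = C ∧ q ∣ orderOf g) → q ∈ π} ≤ Nat.card {C : ConjClasses N // ∀ q : ℕ, q.Prime → (∃ g : N, ConjClasses.mk g = C ∧ q ∣ orderOf g) → q ∈ π} * Nat.card {C : ConjClasses (G ⧸ N) // ∀ q : ℕ, q.Prime → (∃ g : (G ⧸ N), ConjClasses.mk g = C ∧ q ∣ orderOf g) → q ∈ π} := by
  classical
  have := Fintype.ofFinite G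
  have := Fintype.ofFinite (G ⧸ N)
  have e : {p : G × G // Pi π p.1 ∧ Commute p.1 p.2} ≃
      Σ q : {q : (G ⧸ N) × (G ⧸ N) // Pi π q.1 ∧ Commute q.1 q.2},
      {p : G × G // ((p.1 : G ⧸ N) = q.1.1 ∧ (p.2 : G ⧸ N) = q.1.2) ∧ Pi π p.1 ∧
        Commute p.1 p.2} :=
    { toFun := fun p => ⟨⟨(p.1.1, p.1.2), fun q hq h => p.2.1 q hq
        (h.trans (orderOf_map_dvd (QuotientGroup.mk' N) _)), p.2.2.map (QuotientGroup.mk' N)⟩,
        ⟨p.1, ⟨rfl, rfl⟩, p.2⟩⟩
      invFun := fun p => ⟨p.2.1, p.2.2.2⟩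
      left_inv := fun _ => rfl
      right_inv := by
        rintro ⟨⟨⟨s, t⟩, h⟩, ⟨⟨x, y⟩, ⟨h3, h4⟩, h2⟩⟩
        change (x : G ⧸ N) = s at h3
        change (y : G ⧸ N) = t at h4
        cases h3; cases h4; rfl }
  have h1 : Nat.card {p : G × G // Pi π p.1 ∧ Commute p.1 p.2} ≤
      Nat.card {q : (G ⧸ N) × (G ⧸ N) // Pi π q.1 ∧ Commute q.1 q.2} *
        Nat.card {p : N × N // Pi π p.1 ∧ Commute p.1 p.2} := by
    rw [Nat.card_congr e, Nat.card_sigma]
    refine (sum_le_card_nsmul _ _ _ fun q _ => card_pair_le π N _ _).trans ?_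
    simp
  rw [card_comm_pi, card_comm_pi, card_comm_pi, card_eq_card_quotient_mul_card_subgroup N] at h1
  refine Nat.le_of_mul_le_mul_right (h1.trans (le_of_eq ?_))
    (Nat.mul_pos Nat.card_pos Nat.card_pos)
  ring

end Cfsg.Agent.S4152
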