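import Cfsg.Statements.S4153
import Mathlib
import Cfsg.Agent.Lib.Core.Subnormalizer

set_option autoImplicit false
open Cfsg

namespace Cfsg.Agent.S4153

open Subgroup Cfsg.Agent.Core Cfsg.Agent.Coprime

theorem pelt_map {G H : Type*} [Group G] [Group H] {p : ℕ} [hp : Fact p.Prime] (f : G →* H) {g : G}
    (h : ∃ k : ℕ, orderOf g = p ^ k) : ∃ k : ℕ, orderOf (f g) = p ^ k := by
  obtain ⟨k, hk⟩ := h
  obtain ⟨j, -, hj⟩ := (Nat.dvd_prime_pow hp.out).1 (hk ▸ orderOf_map_dvd f g)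
  exact ⟨j, hj⟩

theorem exists_lift {G : Type*} [Group G] [Finite G] {p : ℕ} [Fact p.Prime] (N : Subgroup G)
    [N.Normal] (y : G ⧸ N) (h : ∃ k : ℕ, orderOf y = p ^ k) :
    ∃ (S : Sylow p G) (x : G), x ∈ (S : Subgroup G) ∧ QuotientGroup.mk' N x = y := by
  obtain ⟨k, hk⟩ := h
  obtain ⟨T, hT⟩ := (isPGroup_zpowers_of_orderOf hk).exists_le_sylow
  obtain ⟨S, rfl⟩ := Sylow.mapSurjective_surjective (QuotientGroup.mk'_surjective N) p T
  obtain ⟨x, hx, hxy⟩ := hT (mem_zpowers y)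
  exact ⟨S, x, hx, hxy⟩

/-- Let G be a finite group, p a prime, N a normal subgroup, P a Sylow p-subgroup of G and P̄ a Sylow p-subgroup of G/N. Count the elements of p-power order, the identity included. Then (number of such elements of G/N)/#P̄ ≤ (number of such elements of G)/#P, stated as a cross-multiplied inequality, with equality when N is central. -/
theorem result {G : Type*} [Group G] [Finite G] (p : ℕ) [Fact p.Prime] (N : Subgroup G) [N.Normal]
    (P : Sylow p G) (Pbar : Sylow p (G ⧸ N)) :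
    Nat.card {g : (G ⧸ N) // ∃ k : ℕ, orderOf g = p ^ k} * Nat.card (P : Subgroup G) ≤ Nat.card {g : G // ∃ k : ℕ, orderOf g = p ^ k} * Nat.card (Pbar : Subgroup (G ⧸ N)) ∧
    (N ≤ Subgroup.center G → Nat.card {g : (G ⧸ N) // ∃ k : ℕ, orderOf g = p ^ k} * Nat.card (P : Subgroup G) = Nat.card {g : G // ∃ k : ℕ, orderOf g = p ^ k} * Nat.card (Pbar : Subgroup (G ⧸ N))) := by
  classical
  have hp : p.Prime := Fact.out
  set m := Nat.card ↥((P : Subgroup G) ⊓ N) with hm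
  have hS : ∀ S : Sylow p G, IsSylowIn p ((S : Subgroup G) ⊓ N) N := fun S =>
    (isSylowIn_top S).inf_of_le_normalizer le_top (normalizer_eq_top N).ge
  have hSm : ∀ S : Sylow p G, Nat.card ↥((S : Subgroup G) ⊓ N) = m := fun S =>
    (hS S).card_eq.trans (hS P).card_eq.symm
  have hP : Nat.card (P : Subgroup G) = m * Nat.card (Pbar : Subgroup (G ⧸ N)) := by
    rw [Nat.card_congr (Pbar.equiv (P.mapSurjective (QuotientGroup.mk'_surjective N))).toEquiv,
      Sylow.coe_mapSurjective, card_map_mk_eq_relIndex, hm, inf_comm, ← inf_relIndex_right,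
      relIndex, ← Nat.card_congr (subgroupOfEquivOfLe (inf_le_right (a := N))).toEquiv,
      card_mul_index]
  choose S x hxS hx using fun y : {g : (G ⧸ N) // ∃ k : ℕ, orderOf g = p ^ k} =>
    exists_lift N y.1 y.2
  let f : (Σ y : {g : (G ⧸ N) // ∃ k : ℕ, orderOf g = p ^ k}, ↥((S y : Subgroup G) ⊓ N)) →
      {g : G // ∃ k : ℕ, orderOf g = p ^ k} := fun z =>
    ⟨x z.1 * z.2, exists_orderOf_eq_pow_of_mem (S z.1).isPGroup' (mul_mem (hxS _) z.2.2.1)⟩
  have hproj : ∀ z, QuotientGroup.mk' N (f z) = z.1 := fun z => by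
    have : QuotientGroup.mk' N z.2 = 1 := (QuotientGroup.eq_one_iff _).2 z.2.2.2
    simp only [f, map_mul, hx, this, mul_one]
  have hf : Function.Injective f := by
    rintro ⟨y, n⟩ ⟨y', n'⟩ h
    obtain rfl : y = y' := Subtype.ext (by rw [← hproj ⟨y, n⟩, h, hproj])
    obtain rfl : n = n' := Subtype.ext (mul_left_cancel (congrArg Subtype.val h))
    rfl
  have := Fintype.ofFinite {g : (G ⧸ N) // ∃ k : ℕ, orderOf g = p ^ k}
  have hc : Nat.card (Σ y : {g : (G ⧸ N) // ∃ k : ℕ, orderOf g = p ^ k},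
      ↥((S y : Subgroup G) ⊓ N)) = Nat.card {g : (G ⧸ N) // ∃ k : ℕ, orderOf g = p ^ k} * m := by
    rw [Nat.card_sigma, Finset.sum_congr rfl fun y _ => hSm (S y), Finset.sum_const, smul_eq_mul,
      Finset.card_univ, ← Nat.card_eq_fintype_card]
  rw [hP, ← mul_assoc, ← hc]
  refine ⟨Nat.mul_le_mul_right _ (Nat.card_le_card_of_injective f hf), fun hN => ?_⟩
  congr 1
  refine Nat.card_congr (Equiv.ofBijective f ⟨hf, ?_⟩)
  rintro ⟨g, hg⟩
  let y : {g : (G ⧸ N) // ∃ k : ℕ, orderOf g = p ^ k} := ⟨_, pelt_map (QuotientGroup.mk' N) hg⟩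
  have hn : (x y)⁻¹ * g ∈ N := by
    rw [← QuotientGroup.ker_mk' N, MonoidHom.mem_ker, map_mul, map_inv, hx, inv_mul_cancel]
  have hc : Commute (x y) ((x y)⁻¹ * g) := mem_center_iff.1 (hN hn) _
  have hc' : Commute (x y)⁻¹ g := by
    have := ((Commute.refl (x y)).mul_right hc).inv_left
    rwa [mul_inv_cancel_left] at this
  obtain ⟨k, hk⟩ := hg
  obtain ⟨j, hj⟩ := exists_orderOf_eq_pow_of_mem (S y).isPGroup' (inv_mem (hxS y))
  have h1 : ((x y)⁻¹ * g) ^ p ^ (j + k) = 1 := by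
    rw [hc'.mul_pow, pow_add, pow_mul, ← hj, pow_orderOf_eq_one, one_pow, one_mul, mul_comm,
      pow_mul, ← hk, pow_orderOf_eq_one, one_pow]
  have h2 : (x y)⁻¹ * g ∈ (S y : Subgroup G) :=
    zpowers_le.1 (le_sylow_of_le_normalizer (isPGroup_zpowers_of_pow_eq_one h1) (S y)
      ((zpowers_le.2 (hN hn)).trans (center_le_normalizer _)))
  exact ⟨⟨y, ⟨_, h2, hn⟩⟩, Subtype.ext (mul_inv_cancel_left _ _)⟩

end Cfsg.Agent.S4153
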