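import Cfsg.Statements.S4154
import Cfsg.Agent.Lib.Coprime.PiClosed

set_option autoImplicit false
open Cfsg

namespace Cfsg.Agent.S4154

/-- Let G be a finite group and α an automorphism of G such that every element of G is the product of an element fixed by α and an element of the form g⁻¹α(g). If N is a normal α-invariant subgroup, then the automorphism ᾱ induced on G/N has the same property, and every coset fixed by ᾱ contains an element fixed by α (so the fixed points of ᾱ are the images of the fixed points of α). -/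
theorem result {G : Type*} [Group G] [Finite G] (α : MulAut G)
    (hccp : ∀ x : G, ∃ c g : G, α c = c ∧ x = c * (g⁻¹ * α g))
    (N : Subgroup G) [N.Normal] (hN : ∀ n ∈ N, α n ∈ N) :
    (∀ x : G, ∃ c g : G, c⁻¹ * α c ∈ N ∧ x⁻¹ * (c * (g⁻¹ * α g)) ∈ N) ∧
    (∀ x : G, x⁻¹ * α x ∈ N → ∃ c : G, α c = c ∧ c⁻¹ * x ∈ N) := by
  refine ⟨fun x => ?_, fun x hx => ?_⟩
  · obtain ⟨c, g, h1, h2⟩ := hccp x
    exact ⟨c, g, by rw [h1, inv_mul_cancel]; exact N.one_mem,
      by rw [← h2, inv_mul_cancel]; exact N.one_mem⟩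
  let D : Subgroup G :=
    { carrier := {g | g⁻¹ * α g ∈ N}
      mul_mem' := fun {a b} ha hb => by
        have : (a * b)⁻¹ * α (a * b) = b⁻¹ * (a⁻¹ * α a) * b⁻¹⁻¹ * (b⁻¹ * α b) := by
          rw [map_mul]; group
        change _ ∈ N
        rw [this]
        exact N.mul_mem (‹N.Normal›.conj_mem _ ha _) hb
      one_mem' := by simp
      inv_mem' := fun {a} ha => by
        have : a⁻¹⁻¹ * α a⁻¹ = a * (a⁻¹ * α a)⁻¹ * a⁻¹ := by rw [map_inv]; group
        change _ ∈ N
        rw [this]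
        exact ‹N.Normal›.conj_mem _ (N.inv_mem ha) _ }
  let C : Subgroup G := MonoidHom.eqLocus α.toMonoidHom (MonoidHom.id G)
  have h1 : C ⊔ N ≤ D := sup_le (fun c hc => by
    change c⁻¹ * α c ∈ N
    rw [show α c = c from hc, inv_mul_cancel]; exact N.one_mem)
    fun n hn => N.mul_mem (N.inv_mem hn) (hN n hn)
  -- the cosets of `C ⊔ N` are represented by the twisted commutators
  let f : G ⧸ D → G ⧸ (C ⊔ N) := Quotient.map' (fun g => (α g * g⁻¹)) fun a b h => by
    rw [QuotientGroup.leftRel_apply] at h ⊢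
    refine Subgroup.mem_sup_right ?_
    have : (α a * a⁻¹)⁻¹ * (α b * b⁻¹) = b * ((a⁻¹ * b)⁻¹ * α (a⁻¹ * b)) * b⁻¹ := by
      rw [map_mul, map_inv]; group
    rw [this]
    exact ‹N.Normal›.conj_mem _ h _
  have hf : Function.Surjective f := by
    intro q
    obtain ⟨y, rfl⟩ := QuotientGroup.mk_surjective q
    obtain ⟨c, g, h2, h3⟩ := hccp y⁻¹
    refine ⟨(g⁻¹ : G), QuotientGroup.eq.mpr (Subgroup.mem_sup_left ?_)⟩
    have : (α g⁻¹ * g⁻¹⁻¹)⁻¹ * y = c⁻¹ := by
      rw [← inv_inv y, h3, map_inv]; group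
    rw [this]
    exact C.inv_mem h2
  have h2 : D = C ⊔ N := by
    have h3 := Nat.card_le_card_of_surjective f hf
    refine (Subgroup.eq_of_le_of_card_ge h1 ?_).symm
    have e1 := D.card_mul_index
    have e2 := (C ⊔ N).card_mul_index
    by_contra hlt
    have := Nat.mul_lt_mul_of_lt_of_le (not_le.mp hlt) h3 Nat.card_pos
    exact this.ne (e2.trans e1.symm)
  obtain ⟨c, hc, n, hn, rfl⟩ := (Core.mem_sup_of_le_normalizer
    Subgroup.le_normalizer_of_normal).mp (h2 ▸ hx : x ∈ C ⊔ N)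
  exact ⟨c, hc, by simpa using hn⟩

end Cfsg.Agent.S4154
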