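import Cfsg.Statements.S4155
import Cfsg.Agent.Lib.Frob.EqOrder

set_option autoImplicit false
open Cfsg

namespace Cfsg.Agent.S4155

/-- Let G be a finite group and N a proper non-trivial normal nilpotent subgroup whose order is not a prime power, such that for every x outside N all elements of the coset xN have the same order as x. Then N is the Fitting subgroup of G, and for every prime q every Sylow q-subgroup of G/N is cyclic or generalized quaternion. -/
theorem result {G : Type*} [Group G] [Finite G] (N : Subgroup G) [N.Normal] (hN1 : N ≠ ⊥) (hN2 : N ≠ ⊤)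
    (heq : ∀ x : G, x ∉ N → ∀ n ∈ N, orderOf (x * n) = orderOf x)
    (hnil : Group.IsNilpotent N) (hnpp : ¬ IsPrimePow (Nat.card N)) :
    N = Cfsg.fittingSubgroup G ∧
    ∀ (q : ℕ) [Fact q.Prime] (Q : Sylow q (G ⧸ N)), IsCyclic (Q : Subgroup (G ⧸ N)) ∨ ∃ n : ℕ, Nonempty ((Q : Subgroup (G ⧸ N)) ≃* QuaternionGroup (2 ^ n)) := by
  have : Nontrivial N := (Subgroup.nontrivial_iff_ne_bot _).2 hN1
  refine ⟨le_antisymm (Core.le_fitting hnil) (Core.fitting_le_of_forall_pCore_le fun q hq => ?_),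
    fun q hq Q => ?_⟩
  · by_contra h
    exact hnpp (Frob.isPrimePow_card_of_isPGroup (Frob.isPGroup_of_eqOrder heq h))
  · obtain ⟨p, hp, hpN, hpq⟩ := Frob.exists_prime_dvd_ne_of_not_isPrimePow
      Finite.one_lt_card.ne' hnpp q
    have := Fact.mk hp
    have h1 : Frob.IsFC (Q : Subgroup (G ⧸ N)) := Frob.isFC_quotient hnil hpN
      (fun x hx ⟨k, hk⟩ n hn ⟨j, hj⟩ hc => Frob.eq_one_of_commute_of_eqOrder heq hx hn hc (by
        rw [hk, hj]; exact Nat.coprime_pow_primes _ _ hq.out hp hpq.symm)) Q.2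
    rcases PGrp.isCyclic_or_quaternion_of_rank_le_one Q.2 (h1.pRankLE q) with h | ⟨-, k, -, h⟩
    · exact Or.inl h
    · exact Or.inr ⟨k, h⟩

end Cfsg.Agent.S4155
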