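import Cfsg.Statements.S4156
import Mathlib

set_option autoImplicit false
open Cfsg

namespace Cfsg.Agent.S4156

/-- Let n ≥ 5 and F a finite field. Then the projective special linear group PSL_n(F) contains a subgroup isomorphic to the alternating group of degree n + 1. -/
theorem result (n : ℕ) (hn : 5 ≤ n) (F : Type*) [Field F] [Finite F] :
    ∃ f : alternatingGroup (Fin (n + 1)) →* Matrix.ProjectiveSpecialLinearGroup (Fin n) F, Function.Injective f := by
  classical
  let M : Equiv.Perm (Fin (n + 1)) →* Matrix (Fin n) (Fin n) F :=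
    { toFun := fun σ => Matrix.of fun i j => (if σ j.castSucc = i.castSucc then 1 else 0) -
        (if σ (Fin.last n) = i.castSucc then 1 else 0)
      map_one' := by
        ext i j
        simp [Matrix.one_apply, (Fin.castSucc_ne_last _).symm, eq_comm]
      map_mul' := by
        intro σ τ
        ext i j
        have := Fin.sum_univ_castSucc (fun k : Fin (n + 1) =>
          (((if σ k = i.castSucc then 1 else 0) - (if σ (Fin.last n) = i.castSucc then 1 else 0)) *
          ((if τ j.castSucc = k then 1 else 0) - (if τ (Fin.last n) = k then 1 else 0)) : F))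
        rw [sub_self, zero_mul, add_zero] at this
        rw [Matrix.mul_apply]
        simp only [Matrix.of_apply]
        rw [← this]
        simp only [mul_sub, mul_ite, mul_one, mul_zero, Finset.sum_sub_distrib, Finset.sum_ite_eq,
          Finset.mem_univ, if_true, sub_sub_sub_cancel_right]
        rfl }
  have hcard : 5 ≤ Nat.card (Fin (n + 1)) := by simp; omega
  have hs := alternatingGroup.isSimpleGroup hcard
  let D : alternatingGroup (Fin (n + 1)) →* Fˣ :=
    (Matrix.detMonoidHom.comp (M.comp (alternatingGroup _).subtype)).toHomUnits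
  have hD : ∀ g, D g = 1 := fun g => Abelianization.commutator_subset_ker D
    (by rw [commutator_alternatingGroup_eq_top hcard]; trivial)
  let S : alternatingGroup (Fin (n + 1)) →* Matrix.SpecialLinearGroup (Fin n) F :=
    { toFun := fun g => ⟨M g, congrArg Units.val (hD g)⟩
      map_one' := Subtype.ext (map_one M)
      map_mul' := fun a b => Subtype.ext (map_mul M a.1 b.1) }
  refine ⟨(QuotientGroup.mk' _).comp S, ?_⟩
  rw [← MonoidHom.ker_eq_bot_iff]
  refine (hs.eq_bot_or_eq_top_of_normal _ inferInstance).resolve_right fun h => ?_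
  obtain ⟨m, rfl⟩ := Nat.exists_eq_add_of_le' hn
  let a : Fin (m + 5) := 0
  let b : Fin (m + 5) := 1
  let c : Fin (m + 5) := 2
  have hab : a ≠ b := by simp [a, b]
  have hac : a ≠ c := fun h => by
    have := congrArg Fin.val h; simp only [a, c, Fin.val_zero, Fin.val_two] at this; omega
  have hbc : b ≠ c := fun h => by
    have := congrArg Fin.val h; simp only [b, c, Fin.val_one, Fin.val_two] at this; omega
  have h1 : (⟨Equiv.swap a.castSucc b.castSucc * Equiv.swap b.castSucc c.castSucc, by
      simp [hab, hbc]⟩ : alternatingGroup (Fin (m + 5 + 1))) ∈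
      ((QuotientGroup.mk' (Subgroup.center _)).comp S).ker := h ▸ Subgroup.mem_top _
  rw [MonoidHom.mem_ker, MonoidHom.comp_apply, QuotientGroup.mk'_apply, QuotientGroup.eq_one_iff,
    Matrix.SpecialLinearGroup.mem_center_iff] at h1
  obtain ⟨r, -, hr⟩ := h1
  have h2 : Matrix.scalar (Fin (m + 5)) r b a =
      (if (Equiv.swap a.castSucc b.castSucc * Equiv.swap b.castSucc c.castSucc) a.castSucc =
        b.castSucc then 1 else 0) -
      (if (Equiv.swap a.castSucc b.castSucc * Equiv.swap b.castSucc c.castSucc) (Fin.last _) =
        b.castSucc then 1 else 0) := congrFun (congrFun hr b) a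
  have h3 : ∀ x : Fin (m + 5), Fin.last (m + 5) ≠ x.castSucc := fun x => (Fin.castSucc_ne_last x).symm
  simp [hab.symm, Equiv.swap_apply_of_ne_of_ne, hab, hac, h3] at h2

end Cfsg.Agent.S4156
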