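import Cfsg.Statements.S4168
import Mathlib
import Cfsg.Agent.Lib.Core.Frattini

set_option autoImplicit false
open Cfsg

namespace Cfsg.Agent.S4168

/-- Let L be a finite quasisimple group (perfect with L/Z(L) simple). Then every prime dividing the order of the centre Z(L) also divides the order of L/Z(L). -/
theorem result {L : Type*} [Group L] [Finite L] (hL : Cfsg.IsQuasisimple L)
    (p : ℕ) (hp : p.Prime) (hdiv : p ∣ Nat.card (Subgroup.center L)) : p ∣ (Subgroup.center L).index := by
  have := hL.1
  refine Core.dvd_index_of_le_frattini ?_ hp (hdiv.trans (Subgroup.card_subgroup_dvd_card _))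
  have h := Core.center_inf_commutator_le_frattini (G := L)
  rwa [Group.IsPerfect.commutator_eq_top, inf_top_eq] at h

end Cfsg.Agent.S4168
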