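import Cfsg.Statements.S4170
import Cfsg.Agent.Lib.Cls.Basic
import Cfsg.Agent.Lib.Core.MinNormal

set_option autoImplicit false
open scoped Pointwise
open Cfsg

namespace Cfsg.Agent.S4170

theorem mem_of_normalizes {G : Type*} [Group G] [Finite G] {p : ℕ} [hp : Fact p.Prime]
    {K : Subgroup G} (hK : ¬ p ∣ K.index) {x : G} (hx : orderOf x = p)
    (hn : x ∈ Subgroup.normalizer (K : Set G)) : x ∈ K := by
  set N := Subgroup.normalizer (K : Set G)
  have : (K.subgroupOf N).Normal := Subgroup.normal_in_normalizer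
  set y : N ⧸ K.subgroupOf N := QuotientGroup.mk (⟨x, hn⟩ : N) with hy
  have h1 : orderOf y ∣ p := by
    rw [← hx, ← Subgroup.orderOf_mk x hn]
    exact orderOf_map_dvd (QuotientGroup.mk' _) _
  have h2 : orderOf y ∣ K.index :=
    (orderOf_dvd_natCard y).trans (Subgroup.relIndex_dvd_index_of_le Subgroup.le_normalizer)
  have h3 : orderOf y = 1 := by
    rcases (Nat.dvd_prime hp.out).1 h1 with h | h
    · exact h
    · exact absurd (h ▸ h2) hK
  have h4 : y = 1 := orderOf_eq_one_iff.1 h3
  exact Subgroup.mem_subgroupOf.1 ((QuotientGroup.eq_one_iff (⟨x, hn⟩ : N)).1 h4)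

/-- Let p be an odd prime and G a nontrivial group of permutations of a finite set Ω that is generated by its elements of p-power order. Then Ω has two disjoint nonempty subsets Δ₁ and Δ₂ such that the index in G of the subgroup of elements mapping Δ₁ onto Δ₁ and Δ₂ onto Δ₂ (and hence also the complement of their union onto itself) is divisible by p. -/
theorem result {Ω : Type*} [Fintype Ω] (p : ℕ) [Fact p.Prime] (hp : p ≠ 2) (G : Subgroup (Equiv.Perm Ω)) (hG : G ≠ ⊥) (hgen : Subgroup.closure {g : G | ∃ k : ℕ, orderOf g = p ^ k} = ⊤) :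
    ∃ Δ₁ Δ₂ : Set Ω, Δ₁.Nonempty ∧ Δ₂.Nonempty ∧ Disjoint Δ₁ Δ₂ ∧ p ∣ (MulAction.stabilizer G Δ₁ ⊓ MulAction.stabilizer G Δ₂).index := by
  classical
  have hpp : p.Prime := Fact.out
  obtain ⟨x, hx⟩ : ∃ x : G, orderOf x = p := by
    by_contra hno
    push Not at hno
    have : {g : G | ∃ k : ℕ, orderOf g = p ^ k} ⊆ {1} := by
      rintro g ⟨k, hk⟩
      by_contra h1
      have hk0 : k ≠ 0 := by
        rintro rfl
        exact h1 (orderOf_eq_one_iff.1 (by simpa using hk))
      have hd : p ∣ Nat.card G := (hk ▸ dvd_pow_self p hk0 : p ∣ orderOf g).trans (orderOf_dvd_natCard g)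
      obtain ⟨y, hy⟩ := exists_prime_orderOf_dvd_card' p hd
      exact hno y hy
    have h2 : (⊤ : Subgroup G) ≤ ⊥ := by
      rw [← hgen, Subgroup.closure_le]
      intro g hg
      exact Subgroup.mem_bot.2 (this hg)
    apply hG
    rw [eq_bot_iff]
    intro g hg
    have := h2 (Subgroup.mem_top (⟨g, hg⟩ : G))
    exact congrArg Subtype.val (Subgroup.mem_bot.1 this)
  have hx1 : x ≠ 1 := by
    rintro rfl
    exact hpp.one_lt.ne (by simpa using hx)
  obtain ⟨a, ha⟩ : ∃ a : Ω, x • a ≠ a := by
    by_contra h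
    push Not at h
    exact hx1 (Subtype.ext (Equiv.ext h))
  set C : Set Ω := MulAction.orbit (Subgroup.zpowers x) a with hC
  have haC : a ∈ C := MulAction.mem_orbit_self a
  have hxC : ∀ c ∈ C, x • c ∈ C := fun c hc =>
    MulAction.mem_orbit_of_mem_orbit (⟨x, Subgroup.mem_zpowers x⟩ : Subgroup.zpowers x) hc
  have hxC' : ∀ c ∈ C, x⁻¹ • c ∈ C := fun c hc =>
    MulAction.mem_orbit_of_mem_orbit (⟨x⁻¹, inv_mem (Subgroup.mem_zpowers x)⟩ : Subgroup.zpowers x) hc
  have hcard : C.ncard ≤ p := by
    have : C.ncard ≤ Nat.card (Subgroup.zpowers x) := by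
      rw [hC, MulAction.orbit, ← Set.image_univ]
      refine (Set.ncard_image_le).trans ?_
      rw [Set.ncard_univ]
    rwa [Nat.card_zpowers, hx] at this
  refine ⟨{a}, C \ {a}, Set.singleton_nonempty a, ⟨x • a, hxC a haC, ha⟩,
    Set.disjoint_sdiff_right, ?_⟩
  by_contra hnd
  obtain ⟨P, hP⟩ := Cls.exists_sylow_le_of_not_dvd_index hnd
  set K : Subgroup G := ⨅ c : C, MulAction.stabilizer G (c : Ω) with hK
  have hmem : ∀ g : G, g ∈ K ↔ ∀ c ∈ C, g • c = c := fun g => by
    simp [hK, Subgroup.mem_iInf]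
  have hPK : (P : Subgroup G) ≤ K := by
    intro g hg
    rw [hmem]
    intro c hc
    by_cases hca : c = a
    · subst hca
      have := (hP hg).1
      simpa using this
    · obtain ⟨n, hn⟩ := P.isPGroup'.card_orbit c
      have hsub : MulAction.orbit (P : Subgroup G) c ⊆ C \ {a} := by
        rintro _ ⟨u, rfl⟩
        have h1 : (u : G) • (C \ {a}) = C \ {a} := (hP u.2).2
        rw [← h1]
        exact Set.smul_mem_smul_set ⟨hc, hca⟩
      have h2 : (C \ {a}).ncard < p := by
        have := Set.ncard_sdiff_singleton_lt_of_mem haC (Set.toFinite C)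
        omega
      have h3 : p ^ n < p := by
        rw [← hn, Nat.card_coe_set_eq]
        exact (Set.ncard_le_ncard hsub).trans_lt h2
      have h4 : n = 0 := by
        by_contra h5
        exact absurd (Nat.le_self_pow h5 p) (not_le.2 h3)
      rw [h4, pow_zero, Nat.card_coe_set_eq, Set.ncard_eq_one] at hn
      obtain ⟨b, hb⟩ := hn
      have e1 : c ∈ MulAction.orbit (P : Subgroup G) c := MulAction.mem_orbit_self c
      have e2 : g • c ∈ MulAction.orbit (P : Subgroup G) c := ⟨⟨g, hg⟩, rfl⟩
      rw [hb] at e1 e2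
      exact e2.trans e1.symm
  have hxN : x ∈ Subgroup.normalizer (K : Set G) := by
    rw [Subgroup.mem_normalizer_iff]
    intro g
    rw [hmem, hmem]
    constructor
    · intro h c hc
      rw [mul_smul, mul_smul, h _ (hxC' c hc), smul_inv_smul]
    · intro h c hc
      have := h _ (hxC c hc)
      rw [mul_smul, mul_smul, inv_smul_smul] at this
      exact MulAction.injective x this
  have := mem_of_normalizes (Cls.not_dvd_index_of_sylow_le hPK) hx hxN
  exact ha ((hmem x).1 this a haC)

end Cfsg.Agent.S4170
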