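import Cfsg.Statements.S4172
import Cfsg.Agent.Lib.Coprime.Tate
import Cfsg.Agent.Lib.Coprime.Gaschuetz
import Cfsg.Agent.Lib.Core.Primitive
import Cfsg.Agent.Lib.Cls.Solv
import Cfsg.Agent.Lib.PGrp.ConjOrder

set_option autoImplicit false
open Cfsg

namespace Cfsg.Agent.S4172

open Subgroup
open scoped commutatorElement

section
variable {G : Type*} [Group G] [Finite G] {p : ℕ} [Fact p.Prime]

theorem exists_gen {P A : Subgroup G} (hP : IsPGroup p P) (hgen : (frattini P).index = p ^ 2)
    (hA : P ≤ normalizer (A : Set G)) (h : ¬ P ⊓ A ≤ (frattini P).map P.subtype) :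
    ∃ x ∈ P, P ≤ A ⊔ zpowers x := by
  have : (A.subgroupOf P).Normal := normal_subgroupOf_of_le_normalizer hA
  have hs := QuotientGroup.mk'_surjective (A.subgroupOf P)
  have h1 : IsCyclic (P ⧸ A.subgroupOf P) := by
    rw [PGrp.isCyclic_iff_index_frattini_le (hP.to_quotient _),
      ← PGrp.map_frattini_of_surjective hP _ hs, index_map, QuotientGroup.ker_mk',
      MonoidHom.range_eq_top.2 hs, index_top, mul_one]
    have h2 : frattini P < frattini P ⊔ A.subgroupOf P := left_lt_sup.2 fun hle => h fun y hy =>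
      ⟨⟨y, hy.1⟩, hle hy.2, rfl⟩
    obtain ⟨d, hd⟩ := hP.index (frattini P ⊔ A.subgroupOf P)
    have h3 := index_strictAnti h2
    rw [hd, hgen, Nat.pow_lt_pow_iff_right (Fact.out : p.Prime).one_lt] at h3
    rw [hd]
    exact (Nat.pow_le_pow_right (Fact.out : p.Prime).pos (Nat.lt_succ_iff.1 h3)).trans
      (pow_one p).le
  obtain ⟨g, hg⟩ := h1.exists_generator
  obtain ⟨x, rfl⟩ := hs g
  refine ⟨x, x.2, fun y hy => ?_⟩
  obtain ⟨n, hn⟩ := hg (QuotientGroup.mk' _ ⟨y, hy⟩)
  have h4 : (x ^ n)⁻¹ * ⟨y, hy⟩ ∈ A.subgroupOf P := QuotientGroup.eq.1 (by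
    have := (map_zpow (QuotientGroup.mk' (A.subgroupOf P)) x n).trans hn
    exact this)
  have := mul_mem (mem_sup_right (zpow_mem (mem_zpowers (x : G)) n) : _ ∈ A ⊔ zpowers (x : G))
    (mem_sup_left h4)
  simpa using this

omit [Finite G] in
theorem commutator_le_of_gen {P A : Subgroup G} (hA : P ≤ normalizer (A : Set G)) {x : G}
    (hx : P ≤ A ⊔ zpowers x) (hxP : x ∈ P) : ⁅P, P⁆ ≤ A := by
  rw [commutator_le]
  intro a ha b hb
  have hn : zpowers x ≤ normalizer (A : Set G) := zpowers_le.2 (hA hxP)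
  obtain ⟨c, hc, u, hu, rfl⟩ := (Coprime.mem_sup_of_le_normalizer hn).1 (hx ha)
  obtain ⟨d, hd, v, hv, rfl⟩ := (Coprime.mem_sup_of_le_normalizer hn).1 (hx hb)
  have e : ⁅c * u, d * v⁆ = c * (u * d * u⁻¹) * (v * c⁻¹ * v⁻¹) * d⁻¹ := by
    have h := Cls.commute_of_mem_zpowers hu hv
    calc ⁅c * u, d * v⁆ = c * (u * d * u⁻¹) * (u * v) * u⁻¹ * c⁻¹ * v⁻¹ * d⁻¹ := by
          rw [commutatorElement_def]; group
      _ = _ := by rw [h.eq]; group
  rw [e]
  exact mul_mem (mul_mem (mul_mem hc (Coprime.conj_mem_of_le_normalizer hn hu hd))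
    (Coprime.conj_mem_of_le_normalizer hn hv (inv_mem hc))) (inv_mem hd)

open scoped IsMulCommutative in
theorem eq_one_of_mem_center {R : Subgroup G} [IsMulCommutative R] {z : G} (hz : z ∈ center G)
    (hc : z ∈ commutator G) (hcop : (orderOf z).Coprime R.index) : z = 1 := by
  have h1 := MonoidHom.transfer_eq_pow (MonoidHom.id R) z fun k g _ => by
    rw [mul_assoc, ← mem_center_iff.1 (pow_mem hz k) g, inv_mul_cancel_left]
  have h2 := Abelianization.commutator_subset_ker (MonoidHom.transfer (MonoidHom.id R)) hc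
  rw [MonoidHom.mem_ker, h1] at h2
  have h3 : z ^ R.index = 1 := congrArg Subtype.val h2
  exact orderOf_eq_one_iff.1 (hcop.eq_one_of_dvd (orderOf_dvd_of_pow_eq_one h3))

theorem le_pResidualOf {D : Subgroup G} (h : ⁅D, D⁆ = D) : D ≤ pResidualOf p D := by
  have : Group.IsPerfect D := Subgroup.isPerfect_iff.2 h
  have h1 : pResidual p D = ⊤ := by
    by_contra hne
    have : Nontrivial (D ⧸ pResidual p D) := QuotientGroup.nontrivial_iff.2 hne
    have : Group.IsPerfect (D ⧸ pResidual p D) :=
      Group.IsPerfect.ofSurjective (QuotientGroup.mk'_surjective _)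
    exact Group.IsPerfect.not_isSolvable (D ⧸ pResidual p D)
      (Coprime.isSolvable_of_isPGroup Transfer.isPGroup_quotient_pResidual)
  rw [pResidualOf, h1, ← MonoidHom.range_eq_map, range_subtype]

end

/-- Let p be a prime and G a finite group with a non-commutative Sylow p-subgroup P whose Frattini subgroup has index p² in P (P is generated by two elements). Suppose G has no nontrivial normal subgroup of order prime to p and the Frattini subgroup of P contains no nontrivial normal subgroup of G. Then the generalized Fitting subgroup F*(G) is the unique minimal normal subgroup of G, the image of P in G/F*(G) is cyclic, and if F*(G) is not commutative then P permutes the components of G transitively by conjugation. -/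
theorem result {G : Type*} [Group G] [Finite G] (p : ℕ) [Fact p.Prime] (P : Sylow p G) (hna : ¬ IsMulCommutative (P : Subgroup G)) (hgen : (frattini ↥(P : Subgroup G)).index = p ^ 2) (hcore : Cfsg.pPrimeCore p G = ⊥) (hfrat : ((frattini ↥(P : Subgroup G)).map (P : Subgroup G).subtype).normalCore = ⊥) [hFn : (Cfsg.generalizedFittingSubgroup G).Normal] :
    (Cfsg.generalizedFittingSubgroup G ≠ ⊥ ∧ ∀ K : Subgroup G, K.Normal → K ≠ ⊥ → Cfsg.generalizedFittingSubgroup G ≤ K) ∧
      IsCyclic ↥((P : Subgroup G).map (QuotientGroup.mk' (Cfsg.generalizedFittingSubgroup G))) ∧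
      (¬ IsMulCommutative (Cfsg.generalizedFittingSubgroup G) → ∀ K L : Subgroup G, Cfsg.IsComponent K → Cfsg.IsComponent L → ∃ x ∈ (P : Subgroup G), L = K.map (MulAut.conj x).toMonoidHom) := by
  set Φ := (frattini ↥(P : Subgroup G)).map (P : Subgroup G).subtype with hΦ
  have hPp := P.isPGroup'
  have hq : ∀ N : Subgroup G, N.Normal → (Nat.card N).Coprime p → N = ⊥ :=
    Core.pPrimeCore_eq_bot_iff.1 hcore
  have hΦn : ∀ N : Subgroup G, N.Normal → N ≤ Φ → N = ⊥ := fun N _ h =>
    le_bot_iff.1 (hfrat ▸ (normal_le_normalCore.2 h))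
  have hT : ∀ N : Subgroup G, N.Normal → N ≠ ⊥ → ¬ (P : Subgroup G) ⊓ N ≤ Φ := by
    intro N hN hb h
    have h1 := Coprime.tate le_normalizer_of_normal
      ((Coprime.isSylowIn_top P).mono le_sup_right le_top) h
    have : (pResidualOf p N).Normal := Core.normal_iff_top_le_normalizer.2
      (le_normalizer_of_normal.trans (Core.normalizer_le_normalizer_pResidualOf N))
    have h2 := hq _ this ((Nat.Prime.coprime_iff_not_dvd Fact.out).2 h1).symm
    have h3 := Core.pResidualOf_sup_of_isSylowIn
      ((Coprime.isSylowIn_top P).inf_of_le_normalizer le_top (le_normalizer_of_normal (H := N)))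
    rw [h2, bot_sup_eq] at h3
    exact hb (hΦn N hN (h3 ▸ h))
  have hcomm : ∀ A : Subgroup G, (P : Subgroup G) ≤ normalizer (A : Set G) →
      ¬ (P : Subgroup G) ⊓ A ≤ Φ → ⁅(P : Subgroup G), (P : Subgroup G)⁆ ≤ A := by
    intro A hA h
    obtain ⟨x, hxP, hx⟩ := exists_gen hPp hgen hA h
    exact commutator_le_of_gen hA hx hxP
  have hP' : ⁅(P : Subgroup G), (P : Subgroup G)⁆ ≠ ⊥ := fun e =>
    hna (commutator_self_eq_bot_iff.1 e)
  have hnt : Nontrivial G := by
    by_contra h
    rw [not_nontrivial_iff_subsingleton] at h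
    exact hP' (Subsingleton.elim _ _)
  obtain ⟨V, hV⟩ := Core.exists_isMinNormal (G := G)
  have hVn := hV.normal
  have hmin : ∀ K : Subgroup G, K.Normal → K ≠ ⊥ → V ≤ K := fun K hK hb =>
    hV.le_of_inf_ne_bot fun e => hP' (le_bot_iff.1 (e ▸ le_inf
      (hcomm V le_normalizer_of_normal (hT V hVn hV.ne_bot))
      (hcomm K le_normalizer_of_normal (hT K hK hb))))
  have hFit : fittingSubgroup G ≤ pCore p G := Core.fitting_le_of_forall_pCore_le fun q _ => by
    by_cases h : q = p
    · rw [h]
    · exact (Core.pCore_le_pPrimeCore_of_ne h).trans (hcore.le.trans bot_le)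
  have hF0 : ¬ IsMulCommutative V → fittingSubgroup G = ⊥ := fun h => by
    by_contra hb
    exact h (hV.isMulCommutative (Core.isSolvable_of_le Core.isSolvable_fitting
      (hmin _ inferInstance hb)))
  set K := generalizedFittingSubgroup G with hK
  have hVK : V ≤ K := hV.le_generalizedFitting
  have hKV : K = V := by
    by_cases hc : IsMulCommutative V
    swap
    · rw [hK, generalizedFittingSubgroup, hF0 hc, sup_bot_eq,
        ← Core.socle_eq_layer_of_fitting_eq_bot (hF0 hc)]
      exact le_antisymm (sSup_le fun N (hN : Core.IsMinNormal N) =>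
        (hN.eq_of_le (hmin N hN.normal hN.ne_bot) hV.ne_bot).ge) hV.le_socle
    have hVF : V ≤ fittingSubgroup G := hV.le_fitting (Cls.isSolvable_of_isMulCommutative hc)
    have hVP : V ≤ P := hVF.trans (hFit.trans (Core.pCore_le_sylow P))
    have hKC : K ≤ centralizer (V : Set G) :=
      sup_le (Core.layer_le_centralizer_fitting.trans (centralizer_le hVF))
        (le_centralizer_iff.1 hV.le_centralizer_fitting)
    obtain ⟨x, hxP, hx⟩ := exists_gen hPp hgen le_normalizer_of_normal (hT V hVn hV.ne_bot)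
    have hR : ∀ y ∈ (P : Subgroup G) ⊓ K, ∃ v ∈ V, ∃ u ∈ zpowers x ⊓ K, y = v * u := by
      intro y hy
      obtain ⟨v, hv, u, hu, rfl⟩ := mem_sup_of_normal_left.1 (hx hy.1)
      exact ⟨v, hv, u, ⟨hu, by simpa using K.mul_mem (K.inv_mem (hVK hv)) hy.2⟩, rfl⟩
    have hRc : IsMulCommutative ((P : Subgroup G).subgroupOf K) := by
      refine Core.isMulCommutative_of_forall fun a ha b hb => Subtype.ext ?_
      obtain ⟨v, hv, u, hu, e1⟩ := hR a ⟨ha, a.2⟩
      obtain ⟨w, hw, t, ht, e2⟩ := hR b ⟨hb, b.2⟩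
      have c1 : Commute v w := Core.mul_comm_of_mem_of_isMulCommutative hc hv hw
      have c2 : Commute v t := hKC ht.2 v hv
      have c3 : Commute u w := (hKC hu.2 w hw).symm
      have c4 : Commute u t := Cls.commute_of_mem_zpowers hu.1 ht.1
      change (a : G) * b = b * a
      rw [e1, e2]
      exact (c1.mul_right c2).mul_left (c3.mul_right c4)
    have hK' : ⁅K, K⁆ = ⊥ := by
      by_contra hb
      apply hV.ne_bot
      rw [eq_bot_iff]
      intro z hz
      have h1 := hmin _ inferInstance hb hz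
      rw [← map_subtype_commutator] at h1
      obtain ⟨z, h2, rfl⟩ := h1
      have h3 := eq_one_of_mem_center (R := (P : Subgroup G).subgroupOf K) (z := z)
        (mem_center_iff.2 fun g => Subtype.ext (hKC g.2 z hz).symm) h2 (by
          obtain ⟨k, hk⟩ := Core.exists_orderOf_eq_pow_of_mem hPp (hVP hz)
          rw [← Subgroup.orderOf_coe]
          exact hk ▸ Nat.Coprime.pow_left k ((Nat.Prime.coprime_iff_not_dvd Fact.out).2
            (Core.not_dvd_relIndex_sylow P K)))
      rw [h3]
      exact one_mem _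
    have hKc : IsMulCommutative K := commutator_self_eq_bot_iff.1 hK'
    have hKp : K ≤ pCore p G :=
      (Core.le_fitting Core.isNilpotent_of_isMulCommutative).trans hFit
    have hKP : K ≤ P := hKp.trans (Core.pCore_le_sylow P)
    have hKe : ∀ y ∈ K, y ^ p = 1 := fun y hy => by
      have := PGrp.pow_mem_map_frattini (hPp.to_le hKP) hy
      rwa [hΦn _ inferInstance (PGrp.map_frattini_mono hPp hKP), mem_bot] at this
    by_contra hne
    have h1 : ¬ K ≤ V := fun h => hne (le_antisymm h hVK)
    have h2 : zpowers x ⊓ V = ⊥ := by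
      by_contra hb
      apply h1
      intro y hy
      obtain ⟨v, hv, u, hu, rfl⟩ := hR y ⟨hKP hy, hy⟩
      refine mul_mem hv ?_
      obtain ⟨w, hw, w1⟩ := (bot_or_exists_ne_one _).resolve_left hb
      by_cases u1 : u = 1
      · rw [u1]; exact one_mem _
      have e : zpowers u = zpowers w := PGrp.eq_of_card_eq_of_isCyclic (zpowers_le.2 hu.1)
        (zpowers_le.2 hw.1) (by
          rw [Nat.card_zpowers, Nat.card_zpowers, orderOf_eq_prime (hKe u hu.2) u1,
            orderOf_eq_prime (hKe w (hVK hw.2)) w1])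
      exact zpowers_le.2 hw.2 (e ▸ mem_zpowers u)
    obtain ⟨L, hL⟩ := Coprime.gaschuetz hc (H := P) h2
      (le_antisymm (sup_le (zpowers_le.2 hxP) hVP) (sup_comm V _ ▸ hx))
      (Core.coprime_card_of_isPGroup (hPp.to_le hVP)
        ((Nat.Prime.coprime_iff_not_dvd Fact.out).2 P.not_dvd_index).symm)
    have h3 : (K ⊓ L).Normal := by
      rw [Core.normal_iff_top_le_normalizer, ← hL.sup_eq_top]
      refine sup_le (Core.le_normalizer_inf le_normalizer_of_normal le_normalizer) ?_
      exact (le_centralizer_iff.1 (inf_le_left.trans hKC)).trans (centralizer_le_normalizer _)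
    have h4 : K ⊓ L = ⊥ := by
      by_contra hb
      exact hV.ne_bot (le_bot_iff.1 (hL.disjoint.eq_bot ▸
        le_inf ((hmin _ h3 hb).trans inf_le_right) le_rfl))
    apply h1
    intro y hy
    obtain ⟨l, hl, v, hv, rfl⟩ := mem_sup_of_normal_right.1 (hL.sup_eq_top ▸ mem_top y : y ∈ L ⊔ V)
    have : l ∈ K ⊓ L := ⟨by simpa using K.mul_mem hy (K.inv_mem (hVK hv)), hl⟩
    rw [h4, mem_bot] at this
    simpa [this] using hv
  refine ⟨⟨fun e => hV.ne_bot (hKV.symm.trans e), fun N h1 h2 => hKV.le.trans (hmin N h1 h2)⟩, ?_,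
    fun hc A B hA hB => ?_⟩
  · obtain ⟨x, hxP, hx⟩ := exists_gen hPp hgen le_normalizer_of_normal
      (hT K hFn (hKV ▸ hV.ne_bot))
    refine (Subgroup.isCyclic_iff_exists_zpowers_eq_top _).2 ⟨QuotientGroup.mk' K x, ?_⟩
    rw [← MonoidHom.map_zpowers]
    refine le_antisymm (map_mono (zpowers_le.2 hxP)) ((map_mono hx).trans ?_)
    rw [Subgroup.map_sup, (Core.map_mk_eq_bot_iff K K).2 le_rfl, bot_sup_eq]
  · rw [← hK, hKV] at hc
    by_contra hcon
    push Not at hcon
    let 𝒮 : Subgroup G → Set (Subgroup G) := fun C =>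
      {D | ∃ x ∈ (P : Subgroup G), D = C.map (MulAut.conj x).toMonoidHom}
    have h𝒮 : ∀ C, IsComponent C → ∀ D ∈ 𝒮 C, IsComponent D := by
      rintro C hC _ ⟨x, -, rfl⟩
      exact Core.component_map_conj hC x
    have key : ∀ C, IsComponent C → ⁅(P : Subgroup G), (P : Subgroup G)⁆ ≤ sSup (𝒮 C) := by
      intro C hC
      have hn : (P : Subgroup G) ≤ normalizer ((sSup (𝒮 C) : Subgroup G) : Set G) := fun y hy => by
        refine Core.mem_normalizer_of_map_conj_le (map_le_iff_le_comap.2 (sSup_le ?_))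
        rintro _ ⟨x, hx, rfl⟩
        rw [← map_le_iff_le_comap, Core.map_conj_map_conj]
        exact le_sSup ⟨y * x, mul_mem hy hx, rfl⟩
      refine hcomm _ hn fun h => ?_
      have h1 := Coprime.tate_of_le_pResidualOf hn
        ((Coprime.isSylowIn_top P).mono le_sup_right le_top) (sSup_le fun D hD =>
          (le_pResidualOf (Core.component_commutator_eq (h𝒮 C hC D hD))).trans
            (Core.pResidualOf_mono (le_sSup hD))) h
      have h2 : C ≤ sSup (𝒮 C) := le_sSup ⟨1, one_mem _, (Core.map_conj_one C).symm⟩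
      have h3 := Core.le_pPrimeCore_of_isSubnormal hC.1
        ((Nat.Prime.coprime_iff_not_dvd (Fact.out : p.Prime)).2
          fun hd => h1 (hd.trans (card_dvd_of_le h2))).symm
      exact Core.component_ne_bot hC (le_bot_iff.1 (hcore ▸ h3))
    have h1 : sSup (𝒮 B) ≤ centralizer ((sSup (𝒮 A) : Subgroup G) : Set G) := by
      refine sSup_le fun D hD => le_centralizer_iff.1 (sSup_le fun C hC => ?_)
      refine Core.component_le_centralizer_of_ne (h𝒮 A hA C hC) (h𝒮 B hB D hD) ?_
      obtain ⟨x, hx, rfl⟩ := hC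
      obtain ⟨y, hy, rfl⟩ := hD
      intro e
      refine hcon (y⁻¹ * x) (mul_mem (inv_mem hy) hx) ?_
      rw [← Core.map_conj_map_conj, e, Core.map_conj_inv_map_conj]
    have h2 := Core.inf_centralizer_sSup_components_le (h𝒮 A hA) (Z := ⊥) fun C hC =>
      hF0 hc ▸ Core.component_inf_centralizer_le_fitting (h𝒮 A hA C hC)
    exact hP' (le_bot_iff.1 ((le_inf (key A hA) ((key B hB).trans h1)).trans h2))

end Cfsg.Agent.S4172
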