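import Cfsg.Statements.S4176
import Cfsg.Agent.Lib.Mod.Orbit
import Cfsg.Agent.Lib.Mod.Bridge
import Cfsg.Agent.Lib.Coprime.Hall

set_option autoImplicit false
open Cfsg

namespace Cfsg.Agent.S4176


/-- Let k be a field of prime characteristic p, H a finite p-soluble group and ρ a k-linear representation of H on V. Let a be a vector that is fixed by some Sylow p-subgroup of H and whose H-orbit spans V. Then the space of H-fixed vectors has dimension at most 1, and every vector b whose H-orbit has size coprime to the size of the orbit of a is fixed by H. -/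
theorem result {k V H : Type*} [Field k] (p : ℕ) [Fact p.Prime] [CharP k p] [AddCommGroup V] [Module k V]
    [Group H] [Finite H] (hsol : Cfsg.IsPSolvable p H) (ρ : Representation k H V) (a : V)
    (hfix : ∃ P : Sylow p H, ∀ x : H, x ∈ (P : Subgroup H) → ρ x a = a)
    (hspan : Submodule.span k {u : V | ∃ h : H, ρ h a = u} = ⊤) :
    Module.finrank k ρ.invariants ≤ 1 ∧
    ∀ b : V, (Nat.card {u : V | ∃ h : H, ρ h a = u}).Coprime (Nat.card {u : V | ∃ h : H, ρ h b = u}) → ∀ h : H, ρ h b = b := by
  obtain ⟨P, hP⟩ := hfix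
  have hp : p.Prime := Fact.out
  have h1 : p.Coprime (Mod.vstab ρ a).index := hp.coprime_iff_not_dvd.2 fun h =>
    P.not_dvd_index (h.trans (Subgroup.index_dvd_of_le hP))
  have key : ∀ B : Subgroup H, B.index.Coprime (Mod.vstab ρ a).index →
      ∃ L ≤ B, (Nat.card L : k) ≠ 0 ∧ L.index.Coprime (Mod.vstab ρ a).index := fun B hB => by
    obtain ⟨L, hL⟩ := Coprime.pComplement_exists (Coprime.isPSolvable_subgroup hsol B)
    obtain ⟨h2, n, h3⟩ := Coprime.isPiHall_compl_singleton_iff.1 hL
    refine ⟨L.map B.subtype, Subgroup.map_subtype_le _, ?_, ?_⟩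
    · rw [Core.card_map_subtype]
      exact Mod.natCast_ne_zero_of_not_dvd k (hp.coprime_iff_not_dvd.1 h2.symm)
    · rw [Subgroup.index_map_subtype, h3]
      exact (h1.pow_left n).mul_left hB
  constructor
  · obtain ⟨L, -, h2, h3⟩ := key ⊤ (by simp)
    exact Mod.finrank_invariants_le_one h2 hspan h3
  · intro b hb
    rw [Mod.card_orbit_eq_index, Mod.card_orbit_eq_index] at hb
    obtain ⟨L, h4, h2, h3⟩ := key _ hb.symm
    exact Mod.eq_of_le_vstab h2 hspan h3 h4

end Cfsg.Agent.S4176
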