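import Cfsg.Statements.S4178

set_option autoImplicit false
open Cfsg

namespace Cfsg.Agent.S4178

theorem aux {F V : Type*} [Field F] [Fintype F] [AddCommGroup V] [Module F V] [FiniteDimensional F V]
    (H : Subgroup (V ≃ₗ[F] V)) {W₁ W₂ : Submodule F V} (h : W₁ < W₂)
    (h1 : ∀ h ∈ H, ∀ w ∈ W₁, h w ∈ W₁) (h2 : ∀ h ∈ H, ∀ w ∈ W₂, h w ∈ W₂) {n : ℕ}
    (hn : Module.finrank F (W₂.map W₁.mkQ) ≤ n) :
    (Subgroup.closure {h : ↥H | ∃ v : V, v ≠ 0 ∧ (h : V ≃ₗ[F] V) v = v}).index ≤
      Fintype.card F ^ n - 1 := by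
  classical
  obtain ⟨v, hv2, hv1⟩ := SetLike.exists_of_lt h
  set R := Subgroup.closure {h : ↥H | ∃ v : V, v ≠ 0 ∧ (h : V ≃ₗ[F] V) v = v}
  have key : ∀ g : H, (g : V ≃ₗ[F] V) v - v ∈ W₁ → g ∈ R := fun g hg => by
    refine Subgroup.subset_closure ?_
    by_contra hne
    simp only [Set.mem_ofPred_eq, not_exists, not_and] at hne
    let T : V →ₗ[F] V := (g : V ≃ₗ[F] V).toLinearMap - LinearMap.id
    have hT : Function.Injective T := (injective_iff_map_eq_zero T).2 fun u hu => by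
      by_contra h0
      exact hne u h0 (sub_eq_zero.1 hu)
    have hTW : ∀ w ∈ W₁, T w ∈ W₁ := fun w hw => W₁.sub_mem (h1 g g.2 w hw) hw
    obtain ⟨w, hw⟩ := LinearMap.surjective_of_injective (f := T.restrict hTW)
      (fun a b e => Subtype.ext (hT (congrArg Subtype.val e))) ⟨_, hg⟩
    exact hv1 (hT (congrArg Subtype.val hw) ▸ w.2)
  haveI : Finite V := Module.finite_of_finite F
  haveI : Finite (V ⧸ W₁) := Module.finite_of_finite F
  let f : H ⧸ R → {x : W₂.map W₁.mkQ // x ≠ 0} := fun c =>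
    ⟨⟨W₁.mkQ ((c.out : V ≃ₗ[F] V) v), Submodule.mem_map_of_mem (h2 _ c.out.2 v hv2)⟩, fun e => by
      have := h1 _ (H.inv_mem c.out.2) _
        ((Submodule.Quotient.mk_eq_zero W₁).1 (congrArg Subtype.val e))
      exact hv1 (by simpa using this)⟩
  have hf : Function.Injective f := fun a b e => by
    have h3 := h1 _ (H.inv_mem a.out.2) _ ((Submodule.Quotient.eq W₁).1
      (congrArg (fun x => (x.1.1 : V ⧸ W₁)) e).symm)
    rw [← a.out_eq, ← b.out_eq]
    exact QuotientGroup.eq.2 (key _ (by simpa using h3))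
  refine (Nat.card_le_card_of_injective f hf).trans ?_
  haveI := Fintype.ofFinite (W₂.map W₁.mkQ)
  rw [Nat.card_eq_fintype_card, Fintype.card_subtype_compl, Fintype.card_subtype_eq,
    Module.card_eq_pow_finrank (K := F)]
  exact Nat.sub_le_sub_right (Nat.pow_le_pow_right Fintype.card_pos hn) 1


/-- Let F be a finite field with q elements, V a non-zero finite-dimensional F-space of dimension d, H a group of invertible linear maps of V, and R the subgroup of H generated by the elements of H that fix some non-zero vector (have eigenvalue 1). Then the index of R in H is at most q^d − 1; and if H leaves invariant some proper non-zero subspace, the index is at most q^(d/2) − 1. -/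
theorem result {F V : Type*} [Field F] [Fintype F] [AddCommGroup V] [Module F V] [FiniteDimensional F V] [Nontrivial V]
    (H : Subgroup (V ≃ₗ[F] V)) :
    (Subgroup.closure {h : ↥H | ∃ v : V, v ≠ 0 ∧ (h : V ≃ₗ[F] V) v = v}).index ≤ Fintype.card F ^ Module.finrank F V - 1 ∧
    ((∃ W : Submodule F V, W ≠ ⊥ ∧ W ≠ ⊤ ∧ ∀ h ∈ H, ∀ w ∈ W, h w ∈ W) →
      ((Subgroup.closure {h : ↥H | ∃ v : V, v ≠ 0 ∧ (h : V ≃ₗ[F] V) v = v}).index : ℝ) ≤ Real.sqrt ((Fintype.card F : ℝ) ^ Module.finrank F V) - 1) := by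
  refine ⟨aux H bot_lt_top (fun h _ w hw => by rw [(Submodule.mem_bot F).1 hw, map_zero]; exact zero_mem _)
    (fun _ _ _ _ => trivial) ((Submodule.finrank_map_le _ _).trans (finrank_top F V).le), ?_⟩
  rintro ⟨W, h0, h1, hW⟩
  obtain ⟨n, hn, h⟩ : ∃ n, 2 * n ≤ Module.finrank F V ∧
      (Subgroup.closure {h : ↥H | ∃ v : V, v ≠ 0 ∧ (h : V ≃ₗ[F] V) v = v}).index ≤
        Fintype.card F ^ n - 1 := by
    have := W.finrank_quotient_add_finrank
    by_cases h2 : 2 * Module.finrank F W ≤ Module.finrank F V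
    · exact ⟨_, h2, aux H (bot_lt_iff_ne_bot.2 h0)
        (fun h _ w hw => by rw [(Submodule.mem_bot F).1 hw, map_zero]; exact zero_mem _) hW
        (Submodule.finrank_map_le _ _)⟩
    · exact ⟨_, by omega, aux H (lt_top_iff_ne_top.2 h1) hW (fun _ _ _ _ => trivial)
        (Submodule.finrank_le _)⟩
  have hq : 1 ≤ Fintype.card F := Fintype.card_pos
  refine (Nat.cast_le.2 h).trans ?_
  rw [Nat.cast_sub (Nat.one_le_pow _ _ hq), Nat.cast_pow, Nat.cast_one, sub_le_sub_iff_right]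
  refine Real.le_sqrt_of_sq_le ?_
  rw [← pow_mul, mul_comm]
  exact pow_le_pow_right₀ (Nat.one_le_cast.2 hq) hn

end Cfsg.Agent.S4178
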