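import Cfsg.Statements.S4179
import Cfsg.Agent.Lib.AF.Mers
import Cfsg.Agent.Lib.Lin1.Field

set_option autoImplicit false
open Cfsg

namespace Cfsg.Agent.S4179

/-- Let V be a vector space of dimension n over the field with two elements with 2^n − 1 prime, and H a group of invertible linear maps of V. Then H is transitive on the non-zero vectors of V if and only if H is cyclic of order 2^n − 1, or H has order n·(2^n − 1) and contains a normal cyclic subgroup of order 2^n − 1, or H is the whole general linear group of V. -/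
theorem result {V : Type*} [AddCommGroup V] [Module (ZMod 2) V] [Finite V] (n : ℕ) (hn : Module.finrank (ZMod 2) V = n)
    (hprime : (2 ^ n - 1).Prime) (H : Subgroup (V ≃ₗ[ZMod 2] V)) :
    (∀ v w : V, v ≠ 0 → w ≠ 0 → ∃ h ∈ H, h v = w) ↔
      ((IsCyclic ↥H ∧ Nat.card ↥H = 2 ^ n - 1) ∨
       (Nat.card ↥H = n * (2 ^ n - 1) ∧ ∃ C : Subgroup (V ≃ₗ[ZMod 2] V), C ≤ H ∧ (C.subgroupOf H).Normal ∧
          IsCyclic ↥C ∧ Nat.card ↥C = 2 ^ n - 1) ∨
       H = ⊤) := by
  classical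
  haveI : Fact (2 ^ n - 1).Prime := ⟨hprime⟩
  have hV : Nat.card V = 2 ^ n - 1 + 1 := by
    rw [Module.natCard_eq_pow_finrank (K := ZMod 2), hn, Nat.card_zmod,
      Nat.sub_add_cancel Nat.one_le_two_pow]
  have h2 : ∀ v : V, v + v = 0 := fun v => by
    rw [← two_smul (ZMod 2) v, show (2 : ZMod 2) = 0 from rfl, zero_smul]
  haveI : Finite (V ≃ₗ[ZMod 2] V) := Finite.of_injective _ DFunLike.coe_injective
  have hf : ∀ (K : Subgroup (V ≃ₗ[ZMod 2] V)) (g : K), (∀ v : V, g • v = v) → g = 1 :=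
    fun K g h => Subtype.ext (LinearEquiv.ext h)
  have tc : ∀ K : Subgroup (V ≃ₗ[ZMod 2] V), Nat.card K = 2 ^ n - 1 → ∀ v w : V, v ≠ 0 → w ≠ 0 →
      ∃ h ∈ K, h v = w := fun K hK v w hv hw =>
    let ⟨g, e⟩ := AF.trans_of_card hV hK (hf K) hv hw; ⟨g, g.2, e⟩
  constructor
  · intro tr
    have tr' : ∀ v w : V, v ≠ 0 → w ≠ 0 → ∃ g : H, g • v = w := fun v w hv hw =>
      let ⟨g, a, b⟩ := tr v w hv hw; ⟨⟨g, a⟩, b⟩
    rcases AF.mers_dich h2 hV tr' with h | ⟨t, e, he, hr, ht, hg⟩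
    · refine Or.inr (Or.inr (eq_top_iff.2 fun φ _ => ?_))
      obtain ⟨g, hg⟩ := h φ.toAddEquiv.toAddMonoidHom φ.injective
      exact (LinearEquiv.ext hg : (g : V ≃ₗ[ZMod 2] V) = φ) ▸ g.2
    obtain ⟨o, hN, hC⟩ := AF.affine_struct (hf H) he hr ht hg
    haveI : Nontrivial V := Finite.one_lt_card_iff_nontrivial.1 (by have := hprime.pos; omega)
    have d := Lin1.PT.index_dvd (k := ZMod 2) (B := Subgroup.zpowers t)
      (ρ := LinearEquiv.automorphismGroup.toLinearMapMonoidHom.comp H.subtype)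
      (fun v w hv hw => let ⟨g, e⟩ := tr' v w hv hw; ⟨g, 1, e.trans (one_smul _ _).symm⟩)
      (fun a b e => Subtype.ext (LinearEquiv.toLinearMap_injective e)) inferInstance
    rw [hC, hn] at d
    have e1 := (Subgroup.zpowers t).index_mul_card
    rw [Nat.card_zpowers, o] at e1
    rcases (Nat.dvd_prime (Nat.Prime.of_mersenne hprime)).1 d with e2 | e2 <;> rw [e2] at e1
    · exact Or.inl ⟨isCyclic_of_prime_card (e1.symm.trans (one_mul _)), e1.symm.trans (one_mul _)⟩
    · have e3 : Subgroup.zpowers (t : V ≃ₗ[ZMod 2] V) = (Subgroup.zpowers t).map H.subtype :=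
        (MonoidHom.map_zpowers H.subtype t).symm
      refine Or.inr (Or.inl ⟨e1.symm, Subgroup.zpowers (t : V ≃ₗ[ZMod 2] V),
        Subgroup.zpowers_le.2 t.2, ?_, inferInstance, by rw [Nat.card_zpowers, Subgroup.orderOf_coe, o]⟩)
      rwa [e3, Subgroup.subgroupOf, Subgroup.comap_map_eq_self_of_injective H.subtype_injective]
  · rintro (⟨-, h⟩ | ⟨-, C, hC, -, -, h⟩ | rfl) v w hv hw
    · exact tc H h v w hv hw
    · exact let ⟨g, a, b⟩ := tc C h v w hv hw; ⟨g, hC a, b⟩
    · obtain ⟨g, hg⟩ := Submodule.exists_linearEquiv_restrict_eq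
        ((LinearEquiv.toSpanNonzeroSingleton (ZMod 2) V v hv).symm ≪≫ₗ
          LinearEquiv.toSpanNonzeroSingleton (ZMod 2) V w hw)
      refine ⟨g, trivial, ?_⟩
      have := (hg (LinearEquiv.toSpanNonzeroSingleton (ZMod 2) V v hv 1)).symm
      rw [LinearEquiv.trans_apply, LinearEquiv.symm_apply_apply] at this
      simpa using this

end Cfsg.Agent.S4179
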