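import Cfsg.Statements.S4181
import Cfsg.Agent.Lib.Perm.SylFix

set_option autoImplicit false
open Cfsg

namespace Cfsg.Agent.S4181



/-- Let p be a prime and G a finite group generated by its elements of p-power order, and let H be a proper subgroup of G containing a Sylow p-subgroup of G. Then 2p − 1 times the number of Sylow p-subgroups of H is at most p − 1 times the number of Sylow p-subgroups of G. -/
theorem result {G : Type*} [Group G] [Finite G] (p : ℕ) [Fact p.Prime] (hgen : Subgroup.closure {g : G | ∃ k : ℕ, orderOf g = p ^ k} = ⊤)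
    (H : Subgroup G) (hH : H ≠ ⊤) (P : Sylow p G) (hP : (P : Subgroup G) ≤ H) :
    (2 * p - 1) * Nat.card (Sylow p ↥H) ≤ (p - 1) * Nat.card (Sylow p G) := by
  have _ : Fintype (Sylow p G) := Fintype.ofFinite _
  obtain ⟨Q, hQ⟩ : ∃ Q : Sylow p G, ¬ (Q : Subgroup G) ≤ H := by
    by_contra hc
    push Not at hc
    refine hH (top_le_iff.mp (hgen ▸ (Subgroup.closure_le H).mpr ?_))
    rintro g ⟨k, hk⟩
    obtain ⟨Q, hQ⟩ := (IsPGroup.of_card (G := Subgroup.zpowers g) (n := k)
      (by rw [Nat.card_zpowers, hk])).exists_le_sylow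
    exact hc Q (hQ (Subgroup.mem_zpowers g))
  exact SylFix.card_sylow_le hP hQ

end Cfsg.Agent.S4181
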