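import Cfsg.Statements.S4182
import Cfsg.Agent.Lib.Coprime.PiClosed

set_option autoImplicit false
open Cfsg

namespace Cfsg.Agent.S4182

/-- Let p be a prime and G a finite group generated by its p-elements. If a finite family of proper subgroups of G covers the set of p-elements of G (every element of p-power order lies in one of them), then the family has at least p + 1 members. -/
theorem result {G : Type*} [Group G] [Finite G] (p : ℕ) [Fact p.Prime] (hgen : Subgroup.closure {g : G | ∃ k : ℕ, orderOf g = p ^ k} = ⊤)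
    {ι : Type*} [Fintype ι] (K : ι → Subgroup G) (hK : ∀ i, K i ≠ ⊤)
    (hcov : ∀ g : G, (∃ k : ℕ, orderOf g = p ^ k) → ∃ i, g ∈ K i) :
    p + 1 ≤ Fintype.card ι := by
  classical
  by_contra hlt
  have hp : p.Prime := Fact.out
  have hle : Fintype.card ι ≤ p := by omega
  let gen : Subgroup G → Subgroup G := fun H => Subgroup.closure {g | g ∈ H ∧ ∃ k, orderOf g = p ^ k}
  have hgen_le : ∀ H, gen H ≤ H := fun H => (Subgroup.closure_le _).mpr fun g hg => hg.1
  have hgen_mono : ∀ {H L}, H ≤ L → gen H ≤ gen L := fun h =>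
    Subgroup.closure_mono fun g hg => ⟨h hg.1, hg.2⟩
  have hgen_gen : ∀ H, gen H ≤ gen (gen H) := fun H =>
    Subgroup.closure_mono fun g hg => ⟨Subgroup.subset_closure hg, hg.2⟩
  have hgen_p : ∀ P : Subgroup G, IsPGroup p P → P ≤ gen P := fun P hP g hg =>
    Subgroup.subset_closure ⟨hg, Core.exists_orderOf_eq_pow_of_mem hP hg⟩
  have hgen_conj : ∀ (H : Subgroup G) (g : G), H ≤ gen H →
      H.map (MulAut.conj g).toMonoidHom ≤ gen (H.map (MulAut.conj g).toMonoidHom) := by
    intro H g h
    refine (Subgroup.map_mono h).trans ?_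
    rw [MonoidHom.map_closure]
    refine Subgroup.closure_mono ?_
    rintro _ ⟨x, hx, rfl⟩
    exact ⟨⟨x, hx.1, rfl⟩, by simpa [-MulAut.conj_apply] using hx.2⟩
  have hP : ∀ P : Subgroup G, IsPGroup p P → ∃ i, P ≤ K i := by
    intro P hP
    by_contra h
    push Not at h
    have := Fintype.ofFinite G
    have hc : ∀ L : Subgroup G, ((Finset.univ.filter (· ∈ L)).erase 1).card + 1 = Nat.card L := by
      intro L
      rw [Finset.card_erase_add_one (by simp), Nat.card_eq_fintype_card, Fintype.card_subtype]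
    have h1 : (Finset.univ.filter (· ∈ P)).erase 1 ⊆
        Finset.univ.biUnion fun i => (Finset.univ.filter (· ∈ K i ⊓ P)).erase 1 := by
      intro x hx
      simp only [Finset.mem_erase, Finset.mem_filter, Finset.mem_univ, true_and,
        Finset.mem_biUnion] at hx ⊢
      obtain ⟨i, hi⟩ := hcov x (Core.exists_orderOf_eq_pow_of_mem hP hx.2)
      exact ⟨i, hx.1, hi, hx.2⟩
    have h2 := (Finset.card_le_card h1).trans Finset.card_biUnion_le
    obtain ⟨i₀, -⟩ := hcov 1 ⟨0, by simp⟩
    obtain ⟨m, hm⟩ : p ∣ Nat.card P := (Dvd.intro_left _ rfl).trans (PGrp.mul_card_dvd_of_lt hP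
      (lt_of_le_of_ne inf_le_right fun e => h i₀ (inf_eq_right.mp e)))
    have h3 : ∀ i ∈ Finset.univ, ((Finset.univ.filter (· ∈ K i ⊓ P)).erase 1).card ≤ m - 1 := by
      intro i _
      have e1 := hc (K i ⊓ P)
      have e2 := Nat.le_of_dvd Nat.card_pos (PGrp.mul_card_dvd_of_lt hP
        (lt_of_le_of_ne inf_le_right fun e => h i (inf_eq_right.mp e)))
      rw [hm, mul_comm] at e2
      have := Nat.le_of_mul_le_mul_left e2 hp.pos
      omega
    have h4 := h2.trans (Finset.sum_le_card_nsmul _ _ _ h3)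
    rw [Finset.card_univ, smul_eq_mul] at h4
    have h5 := h4.trans (Nat.mul_le_mul_right _ hle)
    have e1 := hc P
    have hm0 : m ≠ 0 := by rintro rfl; exact Nat.card_pos.ne' hm
    obtain ⟨m, rfl⟩ := Nat.exists_eq_succ_of_ne_zero hm0
    rw [hm, Nat.mul_succ] at e1
    rw [Nat.succ_sub_one] at h5
    have := hp.two_le
    omega
  have key : ∀ H : Subgroup G, H ≤ gen H → ∃ i, H ≤ K i := by
    intro H
    induction H using Core.subgroup_induction_lt with
    | h H ih =>
    intro hH
    obtain ⟨P, hPH⟩ := Coprime.exists_isSylowIn p H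
    rcases hPH.1.lt_or_eq with hlt | rfl
    swap
    · exact hP _ hPH.2.1
    by_contra hcon
    push Not at hcon
    obtain ⟨M, ⟨hMH, hM, Q, hQ, hQM⟩, hmax⟩ := Set.Finite.exists_maximalFor
      (fun M : Subgroup G => Nat.card M)
      {M | M < H ∧ M ≤ gen M ∧ ∃ Q, Coprime.IsSylowIn p Q H ∧ Q ≤ M} (Set.toFinite _)
      ⟨P, hlt, hgen_p P hPH.2.1, P, hPH, le_rfl⟩
    have h1 : ∀ g ∈ H, ∃ i, M.map (MulAut.conj g).toMonoidHom = gen (K i ⊓ H) := by
      intro g hg
      have h2 : M.map (MulAut.conj g).toMonoidHom < H := by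
        rw [← Coprime.map_conj_eq_of_mem hg]
        exact (Subgroup.map_lt_map_iff_of_injective (MulAut.conj g).injective).mpr hMH
      obtain ⟨i, hi⟩ := ih _ h2 (hgen_conj M g hM)
      have h3 := (hgen_conj M g hM).trans (hgen_mono (le_inf hi h2.le))
      refine ⟨i, Subgroup.eq_of_le_of_card_ge h3 ?_⟩
      rw [Coprime.card_map_conj]
      refine hmax ⟨lt_of_le_of_lt (hgen_le _) (lt_of_le_of_ne inf_le_right fun e =>
        hcon i (inf_eq_right.mp e)), hgen_gen _, _,
        hQ.map_conj_of_mem_normalizer (Subgroup.le_normalizer hg), (Subgroup.map_mono hQM).trans h3⟩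
        ?_
      have := Subgroup.card_le_of_le h3
      rwa [Coprime.card_map_conj] at this
    have : Nonempty ι := (hcov 1 ⟨0, by simp⟩).nonempty
    choose! f hf using h1
    have h2 : (Subgroup.normalizer (M : Set G)).relIndex H ≤ p := by
      refine le_trans ?_ hle
      rw [← Nat.card_eq_fintype_card]
      refine Nat.card_le_card_of_injective (fun q => f (Quotient.out q : H)) fun a b e => ?_
      rw [← a.out_eq, ← b.out_eq]
      refine QuotientGroup.eq.mpr (Subgroup.mem_normalizer_iff_map_conj_eq.mpr ?_)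
      have e1 := (hf _ (Quotient.out a : H).2).trans ((congrArg (fun i => gen (K i ⊓ H)) e).trans
        (hf _ (Quotient.out b : H).2).symm)
      have e2 := congrArg (Subgroup.map (MulAut.conj ((Quotient.out a : H) : G)⁻¹).toMonoidHom) e1
      rw [Coprime.map_conj_map_conj, Coprime.map_conj_map_conj, inv_mul_cancel,
        Coprime.map_conj_one] at e2
      exact e2.symm
    have h3 : (Subgroup.normalizer (M : Set G)).relIndex H < p := lt_of_le_of_ne h2 fun e =>
      hQ.2.2 (e ▸ Subgroup.relIndex_dvd_of_le_left _ (hQM.trans Subgroup.le_normalizer))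
    have hz : ∀ x : G, (∃ k, orderOf x = p ^ k) → IsPGroup p (Subgroup.zpowers x) :=
      fun x ⟨k, hk⟩ => IsPGroup.of_card (by rw [Nat.card_zpowers, hk])
    have h4 : H ≤ Subgroup.normalizer (M : Set G) := by
      refine hH.trans ((Subgroup.closure_le _).mpr fun x hx => ?_)
      by_contra h5
      have h6 := PGrp.dvd_relIndex_of_not_le (hz x hx.2) fun h => h5 (h (Subgroup.mem_zpowers x))
      have h7 := Subgroup.relIndex_le_of_le_right (H := Subgroup.normalizer (M : Set G))
        (Subgroup.zpowers_le.mpr hx.1) Subgroup.index_ne_zero_of_finite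
      have := Nat.le_of_dvd (Nat.pos_of_ne_zero Subgroup.index_ne_zero_of_finite) h6
      exact absurd (this.trans h7) h3.not_ge
    refine hMH.not_ge (hH.trans ((Subgroup.closure_le _).mpr fun x hx => ?_))
    obtain ⟨g, hg, h5⟩ := hQ.exists_le_conj (Subgroup.zpowers_le.mpr hx.1) (hz x hx.2)
    rw [← Coprime.map_conj_eq_of_mem_normalizer (h4 hg)]
    exact Subgroup.map_mono hQM (h5 (Subgroup.mem_zpowers x))
  obtain ⟨i, hi⟩ := key ⊤ (by simp [gen, hgen])
  exact hK i (top_le_iff.mp hi)

end Cfsg.Agent.S4182
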