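import Cfsg.Statements.S4184
import Cfsg.Agent.Lib.Cls.Split2

set_option autoImplicit false
open Cfsg

namespace Cfsg.Agent.S4184

open Subgroup Cfsg.Agent.Coprime Cfsg.Agent.Split
set_option linter.unusedSectionVars false

local notation "𝐂[" x "]" => Subgroup.centralizer ({x} : Set _)

theorem cent_type {M : Type*} [Group M] [Finite M] {A : Set ℕ}
    (h : ∀ a ∈ A, ∀ b ∉ A, a.Prime → b.Prime → a ∣ Nat.card M → b ∣ Nat.card M →
      ¬ ∃ x : M, orderOf x = a * b) {x : M} (hx : x ≠ 1) :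
    (∀ q : ℕ, q.Prime → q ∣ Nat.card 𝐂[x] → q ∈ A) ∨
      ∀ q : ℕ, q.Prime → q ∣ Nat.card 𝐂[x] → q ∉ A := by
  obtain ⟨r, hr, hrx⟩ := Nat.exists_prime_and_dvd (fun e => hx (orderOf_eq_one_iff.mp e))
  have := Fact.mk hr
  obtain ⟨u, hu, hou⟩ := Core.exists_mem_orderOf_eq_of_dvd_card (p := r) (H := zpowers x)
    (by rwa [Nat.card_zpowers])
  have key : ∀ q : ℕ, q.Prime → q ∣ Nat.card 𝐂[x] → q ≠ r → ∃ y : M, orderOf y = q * r := by
    intro q hq hd hqr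
    have := Fact.mk hq
    obtain ⟨v, hv, hov⟩ := Core.exists_mem_orderOf_eq_of_dvd_card hd
    refine ⟨v * u, ?_⟩
    rw [(Cls.mem_centralizer_single_commute.mp
      (Cls.centralizer_single_le_of_mem_zpowers hu hv)).orderOf_mul_eq_mul_orderOf_of_coprime
      (by rw [hov, hou]; exact (Nat.coprime_primes hq hr).mpr hqr), hov, hou]
  have hrM : r ∣ Nat.card M := hrx.trans (orderOf_dvd_natCard x)
  by_cases hrA : r ∈ A
  · left
    intro q hq hd
    by_contra hqA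
    exact h r hrA q hqA hr hq hrM (hd.trans (card_subgroup_dvd_card _))
      (mul_comm q r ▸ key q hq hd fun e => hqA (e ▸ hrA))
  · right
    intro q hq hd hqA
    exact h q hqA r hrA hq hr (hd.trans (card_subgroup_dvd_card _)) hrM
      (key q hq hd fun e => hrA (e ▸ hqA))

section
variable {G : Type*} [Group G] [Finite G] {L : ℕ}

/-- The cofactor of the class size of `x` in `L` only has primes in `A`. -/
def Ty (L : ℕ) (A : Set ℕ) (x : G) : Prop :=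
  ∃ c, 1 < c ∧ 𝐂[x].index * c = L ∧ ∀ q : ℕ, q.Prime → q ∣ c → q ∈ A

theorem Ty.not_both {A : Set ℕ} {x y : G} (hx : Ty L A x) (hy : Ty L Aᶜ y)
    (hle : 𝐂[x] ≤ 𝐂[y]) : False := by
  obtain ⟨c, hc, e, h1⟩ := hx
  obtain ⟨c', -, e', h2⟩ := hy
  obtain ⟨k, hk⟩ := index_dvd_of_le hle
  rw [hk, ← e', mul_assoc] at e
  have h3 := Nat.eq_of_mul_eq_mul_left (Nat.pos_of_ne_zero index_ne_zero_of_finite) e
  obtain ⟨q, hq, hqc⟩ := Nat.exists_prime_and_dvd hc.ne'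
  exact h2 q hq (h3 ▸ hqc.mul_left k) (h1 q hq hqc)

theorem main {A : Set ℕ} (hT : ∀ x : G, x ≠ 1 → Ty L A x ∨ Ty L Aᶜ x) {d p : ℕ}
    (hd : Nat.card G = L * d) (hp : p.Prime) (hpA : p ∈ A) (hpd : p ∣ d) (hpL : p ∣ L) {y : G}
    (hy1 : y ≠ 1) (hy : Ty L Aᶜ y) : False := by
  have := Fact.mk hp
  have up : ∀ x z : G, z ≠ 1 → Ty L Aᶜ x → 𝐂[x] ≤ 𝐂[z] → Ty L Aᶜ z := fun x z hz hx hle =>
    (hT z hz).resolve_left fun h => hx.not_both (by rwa [compl_compl]) hle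
  have down : ∀ x z : G, x ≠ 1 → Ty L Aᶜ z → 𝐂[x] ≤ 𝐂[z] → Ty L Aᶜ x := fun x z hx h hle =>
    (hT x hx).resolve_left fun h' => h'.not_both h hle
  have swap : ∀ a b : G, a ≠ 1 → b ∈ 𝐂[a] → (orderOf a).Coprime (orderOf b) → Ty L Aᶜ b →
      Ty L Aᶜ a ∧ Ty L Aᶜ (a * b) := by
    intro a b ha hb hc h
    have hcm := (Cls.mem_centralizer_single_commute.mp hb).symm
    have e := Cls.centralizer_single_mul hcm hc
    have h1 := down (a * b) b (fun e' => ha (by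
      have := Cls.mem_zpowers_mul_left hcm hc
      rwa [e', zpowers_one_eq_bot, mem_bot] at this)) h (e ▸ inf_le_right)
    exact ⟨up _ a ha h1 (e ▸ inf_le_left), h1⟩
  have card : ∀ (x : G) (c : ℕ), 𝐂[x].index * c = L → Nat.card 𝐂[x] = c * d := fun x c e => by
    have h1 := 𝐂[x].index_mul_card
    rw [hd, ← e, mul_assoc] at h1
    exact Nat.eq_of_mul_eq_mul_left (Nat.pos_of_ne_zero index_ne_zero_of_finite) h1
  have fact : ∀ x : G, Ty L Aᶜ x → 𝐂[x].index.factorization p = L.factorization p := by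
    rintro x ⟨c, hc, e, h1⟩
    rw [← e, Nat.factorization_mul index_ne_zero_of_finite (by omega)]
    simp [Nat.factorization_eq_zero_of_not_dvd fun h => h1 p hp h hpA]
  obtain ⟨u, hu1, hou, hu⟩ : ∃ u : G, u ≠ 1 ∧ (∃ k, orderOf u = p ^ k) ∧ Ty L Aᶜ u := by
    obtain ⟨a, ha, b, -, e, hoa, hob⟩ := Cls.exists_p_part hp y
    by_cases ha1 : a = 1
    · rw [ha1, one_mul] at e
      subst e
      obtain ⟨c, -, e, -⟩ := id hy
      obtain ⟨u, hu, hou⟩ := Core.exists_mem_orderOf_eq_of_dvd_card (H := 𝐂[y])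
        (card y c e ▸ hpd.mul_left c)
      have hu1 : u ≠ 1 := fun e => hp.one_lt.ne (by rw [← hou, e, orderOf_one])
      exact ⟨u, hu1, ⟨1, by rw [hou, pow_one]⟩, (swap u y hu1 (mem_comm hu) (hou ▸ hob.symm) hy).1⟩
    · exact ⟨a, ha1, hoa, up y a ha1 hy (Cls.centralizer_single_le_of_mem_zpowers ha)⟩
  obtain ⟨c, hc, e, h1⟩ := id hu
  obtain ⟨q, hq, hqc⟩ := Nat.exists_prime_and_dvd hc.ne'
  have hqp : q ≠ p := fun e => h1 q hq hqc (e ▸ hpA)
  have := Fact.mk hq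
  obtain ⟨w, hw, how⟩ := Core.exists_mem_orderOf_eq_of_dvd_card (H := 𝐂[u])
    (card u c e ▸ hqc.mul_right d)
  have hw1 : w ≠ 1 := fun e => hq.one_lt.ne (by rw [← how, e, orderOf_one])
  have how' : ∃ k, orderOf w = q ^ k := ⟨1, by rw [how, pow_one]⟩
  have hcop := (coprime_orderOf hq hqp hou how').symm
  obtain ⟨hwT, hxT⟩ := swap w u hw1 (mem_comm hw) hcop hu
  have e' := Cls.centralizer_single_mul (Cls.mem_centralizer_single_commute.mp hw) hcop
  obtain ⟨S, hS⟩ := exists_isSylowIn p 𝐂[w * u]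
  have hSu : S ≤ 𝐂[u] := hS.1.trans (e' ▸ inf_le_right)
  have hS' := isSylowIn_of_factorization hS hSu ((fact _ hxT).trans (fact _ hu).symm)
  have huS : u ∈ S := mem_of_isSylowIn_of_mem_normalizer hS' (Cls.self_mem_centralizer_single u)
    hou (centralizer_le_normalizer _ (Cls.le_centralizer_single_iff.mp hSu))
  obtain ⟨P, hP, hSP⟩ := exists_isSylowIn_ge le_top hS.2.1
  obtain ⟨z, hz, hz1⟩ := (bot_or_exists_ne_one _).resolve_left (PGrp.inf_centralizer_ne_bot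
    hP.2.1 hP.2.1 le_normalizer fun e => hu1 (mem_bot.mp (e ▸ hSP huS)))
  have hoz := Core.exists_orderOf_eq_pow_of_mem hP.2.1 (mem_inf.mp hz).1
  have hPz : P ≤ 𝐂[z] := Cls.le_centralizer_single_iff.mpr (mem_inf.mp hz).2
  have hzS : z ∈ S := mem_of_isSylowIn_of_mem_normalizer hS' (mem_comm (hPz (hSP huS))) hoz
    (centralizer_le_normalizer _ (Cls.le_centralizer_single_iff.mp (hSP.trans hPz)))
  obtain ⟨c', -, e'', h2⟩ := (swap z w hz1 (mem_comm ((hS.1.trans (e' ▸ inf_le_left)) hzS))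
    (coprime_orderOf hq hqp hoz how') hwT).1
  exact h2 p hp (((Nat.Prime.dvd_mul hp).mp (e'' ▸ hpL)).resolve_left
    (not_dvd_index_of_isSylowIn_le hP hPz)) hpA

end

theorem exists_ty {M : Type*} [Group M] [Finite M] {A : Set ℕ}
    (h : ∀ x : M, x ≠ 1 → (∀ q : ℕ, q.Prime → q ∣ Nat.card 𝐂[x] → q ∈ A) ∨
      ∀ q : ℕ, q.Prime → q ∣ Nat.card 𝐂[x] → q ∉ A) {a : ℕ} (ha : a.Prime) (haA : a ∈ A)
    (hd : a ∣ Nat.card M) : ∃ x : M, x ≠ 1 ∧ ∀ q : ℕ, q.Prime → q ∣ Nat.card 𝐂[x] → q ∈ A := by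
  have := Fact.mk ha
  obtain ⟨x, hx⟩ := exists_prime_orderOf_dvd_card' a hd
  have hx1 : x ≠ 1 := fun e => ha.one_lt.ne (by rw [← hx, e, orderOf_one])
  exact ⟨x, hx1, (h x hx1).resolve_right fun h' => h' a ha
    (hx ▸ orderOf_dvd_natCard _ (Cls.self_mem_centralizer_single x)) haA⟩

/-- Let G and M be finite groups with trivial centres and the same set of conjugacy class sizes, and suppose the prime graph of M is disconnected: the prime divisors of #M split into two non-empty parts such that M has no element of order pq with p in one part and q in the other. Then #G = #M. -/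
theorem result {G M : Type*}
    [Group G] [Finite G] [Group M] [Finite M] (hZG : Subgroup.center G = ⊥) (hZM : Subgroup.center M = ⊥)
    (h : Set.range (fun g : G => (Subgroup.centralizer ({g} : Set G)).index) = Set.range (fun g : M => (Subgroup.centralizer ({g} : Set M)).index))
    (hdisc : ∃ A : Set ℕ, (∃ a ∈ A, a.Prime ∧ a ∣ Nat.card M) ∧ (∃ b ∉ A, b.Prime ∧ b ∣ Nat.card M) ∧
      ∀ a ∈ A, ∀ b ∉ A, a.Prime → b.Prime → a ∣ Nat.card M → b ∣ Nat.card M → ¬ ∃ x : M, orderOf x = a * b) :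
    Nat.card G = Nat.card M := by
  obtain ⟨A, ⟨a, haA, ha, had⟩, ⟨b, hbA, hb, hbd⟩, hA⟩ := hdisc
  have hM := fun x : M => cent_type hA (x := x)
  obtain ⟨xa, hxa1, hxa⟩ := exists_ty hM ha haA had
  obtain ⟨xb, hxb1, hxb⟩ := exists_ty (A := Aᶜ)
    (fun x hx => (hM x hx).symm.imp_right fun h q hq hd => not_not.mpr (h q hq hd)) hb hbA hbd
  have toG : ∀ x : M, ∃ g : G, 𝐂[g].index = 𝐂[x].index := fun x =>
    (h.symm ▸ ⟨x, rfl⟩ : 𝐂[x].index ∈ Set.range fun g : G => 𝐂[g].index)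
  have toM : ∀ g : G, ∃ x : M, 𝐂[x].index = 𝐂[g].index := fun g =>
    (h ▸ ⟨g, rfl⟩ : 𝐂[g].index ∈ Set.range fun x : M => 𝐂[x].index)
  have one_lt : ∀ x : M, x ≠ 1 → 1 < Nat.card 𝐂[x] := fun x hx =>
    (one_lt_card_iff_ne_bot _).mpr fun e => hx (mem_bot.mp (e ▸ Cls.self_mem_centralizer_single x))
  have ne1 : ∀ (g : G) (x : M), 𝐂[g].index = 𝐂[x].index → (g = 1 ↔ x = 1) := fun g x e => by
    rw [← mem_bot, ← mem_bot, ← hZG, ← hZM, ← Cls.index_centralizer_eq_one_iff,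
      ← Cls.index_centralizer_eq_one_iff, e]
  have ty : ∀ (B : Set ℕ) (g : G) (x : M), 𝐂[g].index = 𝐂[x].index → x ≠ 1 →
      (∀ q : ℕ, q.Prime → q ∣ Nat.card 𝐂[x] → q ∈ B) → Ty (Nat.card M) B g :=
    fun B g x e hx h1 => ⟨_, one_lt x hx, e ▸ 𝐂[x].index_mul_card, h1⟩
  have hT : ∀ g : G, g ≠ 1 → Ty (Nat.card M) A g ∨ Ty (Nat.card M) Aᶜ g := fun g hg => by
    obtain ⟨x, hx⟩ := toM g
    have hx1 : x ≠ 1 := fun e => hg ((ne1 g x hx.symm).mpr e)
    exact (hM x hx1).imp (ty A g x hx.symm hx1) (ty Aᶜ g x hx.symm hx1)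
  have hdvd : Nat.card M ∣ Nat.card G := by
    rw [Nat.dvd_iff_prime_pow_dvd_dvd]
    intro q k hq hd
    have key : ∀ x : M, ¬ q ∣ Nat.card 𝐂[x] → q ^ k ∣ Nat.card G := fun x hx => by
      obtain ⟨g, hg⟩ := toG x
      rw [← 𝐂[x].index_mul_card] at hd
      exact (hg ▸ (Nat.Coprime.pow_left k ((Nat.Prime.coprime_iff_not_dvd hq).mpr
        hx)).dvd_of_dvd_mul_right hd).trans (index_dvd_card _)
    by_cases hqA : q ∈ A
    · exact key xb fun h => hxb q hq h hqA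
    · exact key xa fun h => hqA (hxa q hq h)
  obtain ⟨d, hd⟩ := hdvd
  by_cases hd1 : d = 1
  · rw [hd, hd1, mul_one]
  exfalso
  obtain ⟨p, hp, hpd⟩ := Nat.exists_prime_and_dvd hd1
  have := Fact.mk hp
  have hpL : p ∣ Nat.card M := by
    by_contra hpL
    obtain ⟨g, hg⟩ := exists_prime_orderOf_dvd_card' (G := G) p (hd ▸ hpd.mul_left _)
    have h1 := mem_center_of_forall_not_dvd (p := p) (G := G) (fun x hx => by
      obtain ⟨y, hy⟩ := toM x
      exact hpL ((hy ▸ hx).trans (index_dvd_card _))) ⟨1, by rw [hg, pow_one]⟩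
    rw [hZG, mem_bot] at h1
    exact hp.one_lt.ne (by rw [← hg, h1, orderOf_one])
  by_cases hpA : p ∈ A
  · obtain ⟨y, hy⟩ := toG xb
    exact main hT hd hp hpA hpd hpL (fun e => hxb1 ((ne1 y xb hy).mp e)) (ty _ y xb hy hxb1 hxb)
  · obtain ⟨y, hy⟩ := toG xa
    exact main (A := Aᶜ) (fun g hg => by rw [compl_compl]; exact (hT g hg).symm) hd hp hpA hpd hpL
      (fun e => hxa1 ((ne1 y xa hy).mp e)) (by rw [compl_compl]; exact ty _ y xa hy hxa1 hxa)

end Cfsg.Agent.S4184
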