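import Cfsg.Statements.S4186
import Cfsg.Agent.Lib.Coprime.TIHall

set_option autoImplicit false
open Cfsg

namespace Cfsg.Agent.S4186

/-- Let T and X be subgroups of a group with T a finite 2-group normalizing X but not centralizing it. Then some element of T inverts some non-identity element of X under conjugation. -/
theorem result {G : Type*} [Group G] (T X : Subgroup G) [Finite ↥T] (hT : IsPGroup 2 ↥T) (hTN : T ≤ Subgroup.normalizer (X : Set G)) (hTC : ¬ T ≤ Subgroup.centralizer (X : Set G)) : ∃ t ∈ T, ∃ x ∈ X, x ≠ 1 ∧ t * x * t⁻¹ = x⁻¹ := by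
  have hn : ((Subgroup.centralizer (X : Set G)).subgroupOf T).Normal :=
    Core.normal_subgroupOf_of_le_normalizer (Core.le_normalizer_centralizer hTN)
  have hnt : Nontrivial (T ⧸ (Subgroup.centralizer (X : Set G)).subgroupOf T) :=
    QuotientGroup.nontrivial_iff.mpr fun h => hTC (Subgroup.subgroupOf_eq_top.mp h)
  obtain ⟨k, hk, hk'⟩ := (hT.to_quotient
    ((Subgroup.centralizer (X : Set G)).subgroupOf T)).nontrivial_iff_card.mp hnt
  obtain ⟨s, hs⟩ := exists_prime_orderOf_dvd_card' 2 (hk' ▸ dvd_pow_self 2 hk.ne')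
  obtain ⟨t, rfl⟩ := QuotientGroup.mk_surjective s
  have h1 : (t : G) ∉ Subgroup.centralizer (X : Set G) := fun h => by
    rw [(QuotientGroup.eq_one_iff t).mpr h, orderOf_one] at hs
    exact absurd hs (by decide)
  have h2 : (t : G) ^ 2 ∈ Subgroup.centralizer (X : Set G) := by
    have := pow_orderOf_eq_one (t : T ⧸ (Subgroup.centralizer (X : Set G)).subgroupOf T)
    rw [hs, ← QuotientGroup.mk_pow, QuotientGroup.eq_one_iff] at this
    exact this
  rw [Subgroup.mem_centralizer_iff] at h1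
  push Not at h1
  obtain ⟨y, hy, hy'⟩ := h1
  refine ⟨t, t.2, y⁻¹ * (t * y * (t : G)⁻¹), X.mul_mem (X.inv_mem hy)
    (Coprime.conj_mem_of_le_normalizer hTN t.2 hy), fun e => hy' ?_, ?_⟩
  · rw [inv_mul_eq_one, eq_mul_inv_iff_mul_eq] at e
    exact e
  · have := h2 y hy
    calc (t : G) * (y⁻¹ * (t * y * (t : G)⁻¹)) * (t : G)⁻¹
        = t * y⁻¹ * (t : G)⁻¹ * (t ^ 2 * y) * ((t : G) ^ 2)⁻¹ := by simp [pow_two, mul_assoc]
      _ = _ := by rw [← this]; group

end Cfsg.Agent.S4186
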