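import Cfsg.Statements.S4188
import Mathlib
import Cfsg.Agent.Lib.Reg.LinDerived
import Cfsg.Agent.Lib.Core.MinNormal

set_option autoImplicit false
open Cfsg

namespace Cfsg.Agent.S4188

/-- Let G be a finite group that is the semidirect product of a normal abelian subgroup N of odd order by a 2-subgroup P, and suppose N is the unique minimal normal subgroup of G. Then the index of the Frattini subgroup of P in P is at most #N − 1. -/
theorem result {G : Type*} [Group G] [Finite G] (N P : Subgroup G) (hN : N.Normal) (hNab : IsMulCommutative ↥N) (hNodd : Odd (Nat.card ↥N)) (hP : IsPGroup 2 ↥P) (hdisj : N ⊓ P = ⊥) (hprod : N ⊔ P = ⊤) (hmin : N ≠ ⊥ ∧ ∀ M : Subgroup G, M.Normal → M ≠ ⊥ → N ≤ M) : (frattini ↥P).index ≤ Nat.card ↥N - 1 := by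
  obtain ⟨hN0, hmin⟩ := hmin
  have hN1 : Nat.card N ≠ 1 := fun h => hN0 (Subgroup.card_eq_one.1 h)
  obtain ⟨q, hq, hqd⟩ := Nat.exists_prime_and_dvd hN1
  have := Fact.mk hq
  have hq2 : ¬ q ∣ 2 := fun h => by
    rw [(Nat.prime_dvd_prime_iff_eq hq Nat.prime_two).1 h] at hqd
    exact (Nat.not_even_iff_odd.2 hNodd) (even_iff_two_dvd.2 hqd)
  have hE : Cfsg.IsElementaryAbelian q N := by
    obtain ⟨x, hx⟩ := exists_prime_orderOf_dvd_card' (G := N) q hqd
    have h1 : (Core.powKer N hNab q).Normal := by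
      rw [← Subgroup.normalizer_eq_top_iff, eq_top_iff]
      exact le_trans (by rw [Subgroup.normalizer_eq_top]) (Core.normalizer_le_normalizer_powKer N hNab q)
    refine Core.isElementaryAbelian_of_le (Core.isElementaryAbelian_powKer N hNab q)
      (hmin _ h1 fun h => ?_)
    have h2 : (x : G) ∈ Core.powKer N hNab q :=
      ⟨x.2, by rw [← hx]; exact congrArg Subtype.val (pow_orderOf_eq_one x)⟩
    rw [h, Subgroup.mem_bot] at h2
    rw [show x = 1 from Subtype.ext h2, orderOf_one] at hx
    exact hq.one_lt.ne hx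
  obtain ⟨W, _, _, _, ρ, ι, hlin⟩ := Mod.exists_isLin (ZMod q) hE
  have hC : P ⊓ Subgroup.centralizer (N : Set G) = ⊥ := by
    by_contra hne
    have h1 : (P ⊓ Subgroup.centralizer (N : Set G)).Normal := by
      rw [← Subgroup.normalizer_eq_top_iff, eq_top_iff, ← hprod, sup_le_iff]
      constructor
      · refine le_trans ?_ (Subgroup.centralizer_le_normalizer _)
        exact Subgroup.le_centralizer_iff.1 inf_le_right
      · refine le_trans ?_ Subgroup.inf_normalizer_le_normalizer_inf
        exact le_inf Subgroup.le_normalizer Subgroup.le_normalizer_of_normal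
    exact hN0 (le_bot_iff.1 (hdisj ▸ le_inf le_rfl ((hmin _ h1 hne).trans inf_le_left)))
  have h := Reg.two_mul_index_frattini_le (k := ZMod q)
    (Mod.natCast_ne_zero_of_not_dvd (ZMod q) hq2) _ P W (ρ.comp P.subtype) hP rfl (by
      rw [injective_iff_map_eq_one]
      intro g hg
      have : (g : G) ∈ P ⊓ Subgroup.centralizer (N : Set G) := ⟨g.2, hlin.eq_one_iff.1 hg⟩
      rw [hC] at this
      exact Subtype.ext this)
  rw [Nat.card_zmod, ← hlin.card_eq] at h
  obtain ⟨c, hc⟩ := hNodd
  omega

end Cfsg.Agent.S4188
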