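import Cfsg.Statements.S4194
import Cfsg.Agent.Lib.Cls.TwoCentral

set_option autoImplicit false
open Cfsg

namespace Cfsg.Agent.S4194

/-- A finite group G has commutative Sylow 2-subgroups if and only if every 2-element of G (element of order a power of 2) is 2-central, that is, its centralizer contains a Sylow 2-subgroup of G. -/
theorem result {G : Type*} [Group G] [Finite G] (P : Sylow 2 G) :
    IsMulCommutative (P : Subgroup G) ↔ ∀ x : G, (∃ k : ℕ, orderOf x = 2 ^ k) → (∃ Q : Sylow 2 G, (Q : Subgroup G) ≤ Subgroup.centralizer ({x} : Set G)) := by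
  constructor
  · intro hP x ⟨k, hk⟩
    have hz : IsPGroup 2 (Subgroup.zpowers x) := by
      apply IsPGroup.of_card (n := k)
      rw [Nat.card_zpowers, hk]
    obtain ⟨Q, hQ⟩ := hz.exists_le_sylow
    refine ⟨Q, fun y hy z hz' => ?_⟩
    rw [Set.mem_singleton_iff.mp hz']
    have hxQ : x ∈ (Q : Subgroup G) := hQ (Subgroup.mem_zpowers x)
    obtain ⟨g, rfl⟩ := MulAction.exists_smul_eq G P Q
    rw [Transfer.mem_sylow_smul_iff] at hy hxQ
    have := congrArg Subtype.val (hP.is_comm.comm ⟨_, hxQ⟩ ⟨_, hy⟩)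
    simp only [Subgroup.coe_mul] at this
    calc x * y = g * ((g⁻¹ * x * g) * (g⁻¹ * y * g)) * g⁻¹ := by group
      _ = y * x := by rw [this]; group
  · exact Cls.isMulCommutative_sylow_two_of_forall_central P

end Cfsg.Agent.S4194
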