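import Cfsg.Statements.S4231
import Cfsg.Agent.Lib.Perm.AltAut

set_option autoImplicit false
open Cfsg

namespace Cfsg.Agent.S4231

open Equiv Equiv.Perm Subgroup

theorem comm_of_lt_sq {α : Type*} [Fintype α] [DecidableEq α] {q : ℕ} [hq : Fact q.Prime]
    (hn : Fintype.card α < q ^ 2) {R : Subgroup (Perm α)} (hR : IsPGroup q R) {a b : Perm α}
    (ha : a ∈ R) (hb : b ∈ R) : a * b = b * a := by
  have key : ∀ x : α, commutator R ≤ MulAction.stabilizer R x := by
    intro x
    obtain ⟨k, hk⟩ := hR.index (MulAction.stabilizer R x)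
    have h1 : q ^ k < q ^ 2 := by
      rw [← hk, MulAction.index_stabilizer]
      refine lt_of_le_of_lt ?_ hn
      rw [← Nat.card_eq_fintype_card, ← Set.ncard_univ]
      exact Set.ncard_le_ncard (Set.subset_univ _)
    have h2 : k < 2 := (Nat.pow_lt_pow_iff_right hq.out.one_lt).1 h1
    interval_cases k
    · rw [pow_zero, index_eq_one] at hk
      rw [hk]; exact le_top
    · rw [pow_one] at hk
      obtain ⟨m, hm⟩ := IsPGroup.iff_card.1 hR
      have hm0 : m ≠ 0 := by
        rintro rfl
        have := (MulAction.stabilizer R x).index_dvd_card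
        rw [hk, hm, pow_zero] at this
        exact hq.out.one_lt.ne' (Nat.dvd_one.1 this)
      have : (MulAction.stabilizer R x).Normal := normal_of_index_eq_minFac_card (by
        rw [hk, hm, hq.out.pow_minFac hm0])
      have : IsCyclic (R ⧸ MulAction.stabilizer R x) := isCyclic_of_prime_card hk
      exact Normal.quotient_commutative_iff_commutator_le.1 inferInstance
  rw [← commutatorElement_eq_one_iff_mul_comm]
  ext x
  have := key x (commutator_mem_commutator (mem_top ⟨a, ha⟩) (mem_top ⟨b, hb⟩))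
  exact this

theorem exists_order {n p q : ℕ} (hp : p.Prime) (hq : q.Prime) (hpq : p < q) (hn : q ^ 2 ≤ n) :
    ∃ g : alternatingGroup (Fin n), orderOf g = p * q := by
  have hq3 : 3 ≤ q := by have := hp.two_le; omega
  have hqo : Odd q := hq.odd_of_ne_two (by omega)
  have hc : Nat.Coprime p q := (Nat.coprime_primes hp hq).2 hpq.ne
  by_cases h2 : p = 2
  · subst h2
    obtain ⟨g, hg⟩ := (exists_with_cycleType_iff (Fin n) (m := {2, 2, q})).2
      ⟨by simp; nlinarith, by simp; omega⟩
    refine ⟨⟨g, ?_⟩, ?_⟩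
    · rw [mem_alternatingGroup, sign_of_cycleType, hg]
      refine Even.neg_one_pow ?_
      obtain ⟨m, rfl⟩ := hqo
      simp
      exact ⟨m + 4, by ring⟩
    · rw [← orderOf_coe, ← lcm_cycleType, hg]
      simp [← lcm_assoc, lcm_eq_nat_lcm, hc.lcm_eq_mul]
  · obtain ⟨g, hg⟩ := (exists_with_cycleType_iff (Fin n) (m := {p, q})).2
      ⟨by simp; nlinarith, by simp; exact ⟨hp.two_le, hq.two_le⟩⟩
    refine ⟨⟨g, ?_⟩, ?_⟩
    · rw [mem_alternatingGroup, sign_of_cycleType, hg]
      refine Even.neg_one_pow ?_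
      obtain ⟨m, rfl⟩ := hqo
      obtain ⟨l, rfl⟩ := hp.odd_of_ne_two h2
      simp
      exact ⟨m + l + 2, by ring⟩
    · rw [← orderOf_coe, ← lcm_cycleType, hg]
      simp [lcm_eq_nat_lcm, hc.lcm_eq_mul]

theorem aux {n : ℕ} (hn : 5 ≤ n) (G : Subgroup (MulAut (alternatingGroup (Fin n))))
    (hG : (MulAut.conj : alternatingGroup (Fin n) →* MulAut (alternatingGroup (Fin n))).range ≤ G)
    {p q : ℕ} [hp : Fact p.Prime] [hq : Fact q.Prime] (hpq : p < q)
    (h : ∀ g : G, orderOf g ≠ p * q) (Q : Sylow q G) : IsMulCommutative (Q : Subgroup G) := by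
  have hinj := AltAut.conjNormal_injective (α := Fin n) (by simp; omega)
  rcases lt_or_ge n (q ^ 2) with h1 | h1
  · have hqo : Odd q := hq.out.odd_of_ne_two (by have := hp.out.two_le; omega)
    have hR := (Q.isPGroup'.map G.subtype).comap_of_injective _ hinj
    have key : ∀ a : Q, ∃ σ : Perm (Fin n), MulAut.conjNormal σ = ((a : G) : MulAut (alternatingGroup (Fin n))) := by
      intro a
      obtain ⟨k, hk⟩ := IsPGroup.iff_orderOf.1 Q.isPGroup' a
      refine AltAut.exists_conj_of_odd (by simpa using hn) _ ?_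
      rw [orderOf_coe, orderOf_coe, hk]
      exact hqo.pow
    refine ⟨⟨fun a b => Subtype.ext (Subtype.ext ?_)⟩⟩
    obtain ⟨σ, hσ⟩ := key a
    obtain ⟨τ, hτ⟩ := key b
    have := comm_of_lt_sq (by simpa using h1) hR (a := σ) (b := τ) ⟨a, a.2, hσ.symm⟩
      ⟨b, b.2, hτ.symm⟩
    simp only [Subgroup.coe_mul, ← hσ, ← hτ, ← map_mul, this]
  · obtain ⟨g, hg⟩ := exists_order hp.out hq.out hpq h1
    refine absurd ?_ (h ⟨MulAut.conj g, hG ⟨g, rfl⟩⟩)
    rw [← orderOf_coe, ← hg, ← orderOf_coe g, ← orderOf_injective _ hinj]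
    rfl

/-- Let n ≥ 5 and let G be a group of automorphisms of the alternating group of degree n containing all inner automorphisms. If p ≠ q are primes and G has no element of order pq, then every Sylow p-subgroup of G is abelian or every Sylow q-subgroup of G is abelian. -/
theorem result (n : ℕ) (hn : 5 ≤ n) (G : Subgroup (MulAut (alternatingGroup (Fin n))))
    (hG : (MulAut.conj : alternatingGroup (Fin n) →* MulAut (alternatingGroup (Fin n))).range ≤ G)
    (p q : ℕ) [Fact p.Prime] [Fact q.Prime] (hpq : p ≠ q) (h : ∀ g : G, orderOf g ≠ p * q) :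
    (∀ P : Sylow p G, IsMulCommutative (P : Subgroup G)) ∨ (∀ Q : Sylow q G, IsMulCommutative (Q : Subgroup G)) := by
  rcases lt_or_gt_of_ne hpq with h1 | h1
  · exact Or.inr (aux hn G hG h1 h)
  · exact Or.inl (aux hn G hG h1 (mul_comm p q ▸ h))

end Cfsg.Agent.S4231
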