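import Cfsg.Statements.S4234
import Cfsg.Agent.Lib.Core.Ord1092
import Cfsg.Agent.Lib.Lin.SL2

set_option autoImplicit false
open Cfsg

namespace Cfsg.Agent.S4234

open Subgroup Cfsg.Agent.Coprime Cfsg.Agent.OO
open scoped Pointwise MatrixGroups

/-- every non-normal subgroup has a maximal normalizer -/
def Good (G : Type*) [Group G] : Prop := ∀ H : Subgroup G, ¬ H.Normal → IsCoatom 𝐍(H)

theorem good_of_surj {G G' : Type*} [Group G] [Group G'] (f : G →* G') (hf : Function.Surjective f)
    (h : ∀ H : Subgroup G, (𝐍(H.map f)).comap f ≤ 𝐍(H)) (hG : Good G') : Good G := by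
  intro H hH
  have e : 𝐍(H) = (𝐍(H.map f)).comap f :=
    le_antisymm (map_le_iff_le_comap.1 (map_norm_le f H)) (h H)
  rw [e]
  refine isCoatom_comap_of_surjective hf (hG _ fun hn => hH ?_)
  rw [← normalizer_eq_top_iff, e, normalizer_eq_top_iff.2 hn, comap_top]

theorem good_of_equiv {G G' : Type*} [Group G] [Finite G] [Group G'] (e : G ≃* G') (hG : Good G') :
    Good G := by
  refine good_of_surj e.toMonoidHom e.surjective (fun H g hg => ?_) hG
  refine mem_norm_of_conj_mem fun x hx => ?_
  obtain ⟨y, hy, h⟩ := conj_mem_of_norm (mem_comap.1 hg) (mem_map_of_mem e.toMonoidHom hx)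
  rw [← map_inv, ← map_mul, ← map_mul] at h
  exact e.injective h ▸ hy

section
theorem fact13 : Fact (Nat.Prime 13) := ⟨by norm_num⟩
attribute [local instance] fact13

theorem two_ne : (2 : ZMod 13) ≠ 0 := by decide

theorem card_SL : Nat.card SL(2, ZMod 13) = 2184 := by
  rw [Lin.card_SL2, ZMod.card]

theorem card_center : Nat.card (center SL(2, ZMod 13)) = 2 := by
  refine le_antisymm Lin.SL2.card_center_le (one_lt_card fun e => ?_)
  have h : (-1 : SL(2, ZMod 13)) ∈ center SL(2, ZMod 13) := mem_center_iff.2 fun g => by simp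
  rw [e, mem_bot] at h
  have := congrArg (fun x : SL(2, ZMod 13) => x.1 0 0) h
  revert this
  simp
  decide

theorem good_PSL : Good PSL(2, ZMod 13) := by
  have : IsSimpleGroup PSL(2, ZMod 13) :=
    Matrix.ProjectiveSpecialLinearGroup.rank_two_simple (by rw [Nat.card_zmod]; norm_num)
  have hc : Nat.card PSL(2, ZMod 13) = 1092 := by
    have := (center SL(2, ZMod 13)).card_mul_index
    rw [card_center, card_SL] at this
    change (center SL(2, ZMod 13)).index = 1092
    omega
  intro H hH
  exact Ord1092.isCoatom_norm hc (fun e => hH (e ▸ inferInstance)) fun e => hH (e ▸ inferInstance)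

theorem good_SL : Good SL(2, ZMod 13) := by
  refine good_of_surj (QuotientGroup.mk' (center _)) (QuotientGroup.mk'_surjective _)
    (fun H g hg => ?_) good_PSL
  refine mem_norm_of_conj_mem fun x hx => ?_
  obtain ⟨y, hy, h⟩ := conj_mem_of_norm (mem_comap.1 hg) (mem_map_of_mem (QuotientGroup.mk' _) hx)
  rw [← map_inv, ← map_mul, ← map_mul] at h
  obtain ⟨z, hz, h⟩ := (QuotientGroup.mk'_eq_mk' _).1 h
  by_cases h2 : 2 ∣ ♯H
  · obtain ⟨t, ht, ht2⟩ := cauchy Nat.prime_two h2
    have h3 : zpowers t = center _ := eq_zpowers_of_prime (by rw [card_center]; exact Nat.prime_two)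
      (Lin.SL2.mem_center_of_sq_eq_one two_ne (orderOf_dvd_iff_pow_eq_one.1 ht2.dvd))
      fun e => by simp [e] at ht2
    exact h ▸ H.mul_mem hy (zpowers_le.2 ht (h3 ▸ hz))
  · have h3 : Odd ♯H := Nat.odd_iff.2 (by omega)
    have h4 : (y * z) ^ ♯H = 1 := by
      rw [h, conj_pow, show x ^ ♯H = 1 from
        orderOf_dvd_iff_pow_eq_one.1 (orderOf_dvd_card hx)]
      simp
    rw [(show Commute y z from mem_center_iff.1 hz y).mul_pow,
      show y ^ ♯H = 1 from orderOf_dvd_iff_pow_eq_one.1 (orderOf_dvd_card hy), one_mul] at h4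
    obtain ⟨k, hk⟩ := h3
    rw [hk, pow_succ, pow_mul, Lin.SL2.sq_eq_one_of_mem_center hz, one_pow, one_mul] at h4
    rw [← h, h4, mul_one]
    exact hy

end

theorem good_prod {K S : Type*} [Group K] [CommGroup S] [Finite K] [Finite S]
    (hKS : (Nat.card K).Coprime (Nat.card S)) (hK : Good K) : Good (K × S) := by
  refine good_of_surj (MonoidHom.fst K S) Prod.fst_surjective (fun H g hg => ?_) hK
  have key : ∀ x ∈ H, ((1 : K), x.2) ∈ H := by
    intro x hx
    obtain ⟨n, h1, h2⟩ := Nat.chineseRemainder hKS 0 1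
    have := H.pow_mem hx n
    rwa [show x ^ n = (x.1 ^ n, x.2 ^ n) from rfl, pow_eq_pow_of_modEq h1 pow_card_eq_one',
      pow_eq_pow_of_modEq h2 pow_card_eq_one', pow_zero, pow_one] at this
  refine mem_norm_of_conj_mem fun x hx => ?_
  obtain ⟨y, hy, h⟩ := conj_mem_of_norm (mem_comap.1 hg) (mem_map_of_mem (MonoidHom.fst K S) hx)
  have := H.mul_mem (H.mul_mem hy (H.inv_mem (key y hy))) (key x hx)
  convert this using 1
  ext
  · simpa using h.symm
  · simp

/-- Let K be isomorphic to PSL(2, 13) or to SL(2, 13) and let S be a finite abelian group of order coprime to the order of K. Then in the direct product K × S every subgroup that is not normal has a normalizer that is a maximal subgroup. -/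
theorem result {K S : Type*} [Group K] [CommGroup S] [Finite K] [Finite S]
    (hK : Nonempty (K ≃* Matrix.ProjectiveSpecialLinearGroup (Fin 2) (ZMod 13)) ∨
      Nonempty (K ≃* Matrix.SpecialLinearGroup (Fin 2) (ZMod 13)))
    (hKS : (Nat.card K).Coprime (Nat.card S)) (H : Subgroup (K × S)) (hH : ¬ H.Normal) :
    IsCoatom (Subgroup.normalizer (H : Set (K × S))) := by
  refine good_prod hKS ?_ H hH
  rcases hK with ⟨⟨e⟩⟩ | ⟨⟨e⟩⟩
  · exact good_of_equiv e good_PSL
  · exact good_of_equiv e good_SL

end Cfsg.Agent.S4234
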