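import Cfsg.Statements.S4236
import Cfsg.Agent.Lib.Coprime.SylowCount

set_option autoImplicit false
open Cfsg

namespace Cfsg.Agent.S4236

/-- No finite group has exactly 35 Sylow 17-subgroups. -/
theorem result {G : Type*} [Group G] [Finite G] : Nat.card (Sylow 17 G) ≠ 35 := by
  haveI : Fact (Nat.Prime 17) := ⟨by norm_num⟩
  refine (Coprime.card_sylow_induction 17 (fun n => n ≡ 1 [MOD 17] ∧ n ≠ 35) ⟨rfl, by norm_num⟩
    ?_ ?_ G ?_).2
  · rintro a b ⟨ha, ha'⟩ ⟨hb, hb'⟩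
    refine ⟨by simpa using ha.mul hb, fun h => ?_⟩
    have h1 : a ≤ 35 := Nat.le_of_dvd (by norm_num) (Dvd.intro _ h)
    have h2 : b ≤ 35 := Nat.le_of_dvd (by norm_num) (Dvd.intro_left _ h)
    unfold Nat.ModEq at ha hb
    interval_cases a <;> omega
  · intro q k hq h
    refine ⟨h, fun e => ?_⟩
    have h3 : 7 = q := (Nat.prime_dvd_prime_iff_eq Nat.prime_seven hq).mp
      (Nat.prime_seven.dvd_of_dvd_pow (e ▸ by norm_num : 7 ∣ q ^ k))
    have h5 : 5 = q := (Nat.prime_dvd_prime_iff_eq Nat.prime_five hq).mp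
      (Nat.prime_five.dvd_of_dvd_pow (e ▸ by norm_num : 5 ∣ q ^ k))
    omega
  · intro S _ _ hS hc _
    refine ⟨card_sylow_modEq_one 17 S, fun h => ?_⟩
    obtain ⟨r, h1, h2, h3, -⟩ := Coprime.exists_card_eq_of_card_sylow (p := 17) hc (by norm_num) h
    exact h2 (Nat.eq_one_of_dvd_coprimes (a := r) (b := 2 ^ 4)
      ((Nat.coprime_two_right.mpr h3).pow_right 4) dvd_rfl h1)

end Cfsg.Agent.S4236
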