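import Cfsg.Statements.S4237
import Cfsg.Agent.Lib.PGrp.Kulakoff2

set_option autoImplicit false
open Cfsg

namespace Cfsg.Agent.S4237

/-- Let G be a finite group, p a prime and a a natural number such that p^(a+1) divides the order of G. Then the number of subgroups of G of order p^a is congruent to 1 or to 1 + p modulo p². -/
theorem result {G : Type*} [Group G] [Finite G] (p a : ℕ) (hp : p.Prime) (hdvd : p ^ (a + 1) ∣ Nat.card G) :
    Nat.card {H : Subgroup G // Nat.card H = p ^ a} ≡ 1 [MOD p ^ 2] ∨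
      Nat.card {H : Subgroup G // Nat.card H = p ^ a} ≡ 1 + p [MOD p ^ 2] := by
  have := Fact.mk hp
  by_cases h2 : p = 2
  · subst h2
    have h := PGrp.card_subgroups_modEq_one_of_dvd ((pow_dvd_pow 2 a.le_succ).trans hdvd)
    simp only [Nat.ModEq] at h ⊢
    omega
  obtain ⟨P, hP⟩ := Coprime.exists_isSylowIn p (⊤ : Subgroup G)
  have h1 : p ^ (a + 1) ≤ Nat.card P := by
    rw [hP.card_eq, Subgroup.card_top]
    exact Nat.pow_le_pow_right hp.pos
      ((hp.pow_dvd_iff_le_factorization Nat.card_pos.ne').mp hdvd)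
  have h3 := PGrp.card_subgroups_modEq_sylow hP h1
  by_cases hc : IsCyclic P
  · obtain ⟨K, -, hK⟩ := PGrp.exists_normal_card hP.2.1
      ((Nat.pow_le_pow_right hp.pos a.le_succ).trans h1)
    exact Or.inl (PGrp.card_subgroups_of_isCyclic hK ▸ h3)
  rcases a with _ | a
  · left
    rw [Nat.card_eq_one_iff_exists.mpr ⟨⟨⊥, by simp⟩,
      fun H => Subtype.ext (Subgroup.card_eq_one.mp H.2)⟩]
  · exact Or.inr (h3.trans (PGrp.card_subgroups_modEq_one_add hP.2.1 hc (fun h => h2 h.1) h1))

end Cfsg.Agent.S4237
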