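import Mathlib
import Cfsg.Statements.S4238
import Cfsg.Agent.Lib.Transfer.IrredCard

set_option autoImplicit false
open Cfsg

namespace Cfsg.Agent.S4238



/-- Let G be a finite group and p a prime. Then G has a normal p-complement if and only if every section K = H/N of G (N a normal subgroup of a subgroup H) whose largest normal subgroup of order prime to p is trivial contains an element whose order equals the exponent of K. -/
theorem result {G : Type*} [Group G] [Finite G] (p : ℕ) [Fact p.Prime] :
    Cfsg.HasNormalPComplement p G ↔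
      ∀ (H : Subgroup G) (N : Subgroup H) [N.Normal], Cfsg.pPrimeCore p (H ⧸ N) = ⊥ →
        ∃ k : H ⧸ N, orderOf k = Monoid.exponent (H ⧸ N) := by
  have hp : p.Prime := Fact.out
  constructor
  · intro hG H N _ h0
    have h1 := Transfer.hasNormalPComplement_quotient (Transfer.hasNormalPComplement_subgroup hG H) N
    have h2 : IsPGroup p (H ⧸ N) := by
      rw [Transfer.isPGroup_iff_pResidual_eq_bot, Transfer.pResidual_eq_pPrimeCore h1, h0]
    obtain ⟨k, hk⟩ := Nat.Prime.exists_orderOf_eq_pow_factorization_exponent (H ⧸ N) hp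
    obtain ⟨n, hn⟩ := h2.exists_card_eq
    obtain ⟨m, -, hm⟩ := (Nat.dvd_prime_pow hp).mp (hn ▸ Group.exponent_dvd_nat_card)
    exact ⟨k, by rw [hk, hm, Nat.Prime.factorization_pow hp, Finsupp.single_eq_same]⟩
  · intro h
    by_contra hG
    obtain ⟨P⟩ : Nonempty (Sylow p G) := inferInstance
    obtain ⟨X, -, q, g, hI⟩ := Transfer.exists_itoPair hG P
    obtain ⟨N, hN, V, C, hF, htop, hV, hC, hmin⟩ := hI.exists_frobenius_section
    have := hmin.normal
    have hq := Fact.mk hI.prime
    have hVp := Core.isPGroup_of_isElementaryAbelian hV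
    have hpV : p ∣ Nat.card V := by
      obtain ⟨r, hr, hd⟩ := Core.exists_prime_dvd_card_of_ne_bot hF.left_ne_bot
      exact Core.isPGroup_iff_forall_prime_dvd.mp hVp r hr hd ▸ hd
    obtain ⟨k, hk⟩ := h _ N (by
      rcases hF.le_or_ge htop (pPrimeCore p _) with h1 | h1
      · rw [← inf_eq_right.mpr h1]
        exact Core.inf_eq_bot_of_isPGroup_of_coprime hVp (Core.coprime_card_pPrimeCore p)
      · exact absurd (hpV.trans (Subgroup.card_dvd_of_le h1)) Core.not_dvd_card_pPrimeCore)
    obtain ⟨v, -, hv⟩ := Core.exists_mem_orderOf_eq_of_dvd_card hpV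
    obtain ⟨c, -, hc⟩ := Core.exists_mem_orderOf_eq_of_dvd_card (hC ▸ dvd_rfl : q ∣ Nat.card C)
    have h1 : p ∣ orderOf k := hk ▸ hv ▸ Monoid.order_dvd_exponent v
    have h2 : q ∣ orderOf k := hk ▸ hc ▸ Monoid.order_dvd_exponent c
    obtain ⟨u, hu, hup⟩ := Core.exists_mem_orderOf_eq_of_dvd_card
      (Nat.card_zpowers k ▸ h1 : p ∣ Nat.card (Subgroup.zpowers k))
    have huV : u ∈ V := Core.le_of_coprime_card_index (H := Subgroup.zpowers u) (by
      rw [Nat.card_zpowers, hup, hF.index_left htop, hC]
      exact (Nat.coprime_primes hp hI.prime).mpr hI.ne.symm) (Subgroup.mem_zpowers u)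
    have hkV : k ∈ V := hF.mem_left_of_commute (htop ▸ Subgroup.mem_top k) huV
      (fun h3 => hp.ne_one (by rw [← hup, h3, orderOf_one]))
      (Cls.commute_of_mem_zpowers (Subgroup.mem_zpowers k) hu)
    exact hI.ne (Core.isPGroup_iff_forall_prime_dvd.mp hVp q hI.prime
      (h2.trans (V.orderOf_dvd_natCard hkV)))

end Cfsg.Agent.S4238
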