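import Mathlib
import Cfsg.Statements.S4242
import Cfsg.Agent.Lib.Transfer.MinNonNilp
import Cfsg.Agent.Lib.Coprime.Sylow

set_option autoImplicit false
open Cfsg

namespace Cfsg.Agent.S4242



/-- Let G be a finite group and p a prime dividing its order. Every maximal subgroup of G of order divisible by p is nilpotent if and only if G is nilpotent, or G is a minimal non-nilpotent group, or G is the internal direct product of a normal subgroup of order p and a normal minimal non-nilpotent subgroup of order prime to p. -/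
theorem result {G : Type*} [Group G] [Finite G] (p : ℕ) (hp : p.Prime) (hpG : p ∣ Nat.card G) :
    (∀ M : Subgroup G, IsCoatom M → p ∣ Nat.card M → Group.IsNilpotent M) ↔
      (Group.IsNilpotent G ∨ Cfsg.IsMinimalNonNilpotent G ∨
        ∃ Z K : Subgroup G, Z.Normal ∧ K.Normal ∧ Z ⊓ K = ⊥ ∧ Z ⊔ K = ⊤ ∧ Nat.card Z = p ∧
          Cfsg.IsMinimalNonNilpotent K ∧ ¬ p ∣ Nat.card K) := by
  have := Fact.mk hp
  constructor
  · intro h
    have h' : ∀ H : Subgroup G, H ≠ ⊤ → p ∣ Nat.card H → Group.IsNilpotent H := fun H hH hd => by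
      obtain ⟨M, hM, hHM⟩ := Core.exists_coatom_ge hH
      exact Core.isNilpotent_of_le (h M hM (hd.trans (Subgroup.card_dvd_of_le hHM))) hHM
    by_cases hG : Group.IsNilpotent G
    · exact Or.inl hG
    by_cases hall : ∀ H : Subgroup G, H ≠ ⊤ → Group.IsNilpotent H
    · exact Or.inr (Or.inl ⟨hG, hall⟩)
    obtain ⟨K, hK, hKn⟩ : ∃ K : Subgroup G, IsCoatom K ∧ ¬ Group.IsNilpotent K := by
      push Not at hall
      obtain ⟨H, hH, hHn⟩ := hall
      obtain ⟨M, hM, hHM⟩ := Core.exists_coatom_ge hH
      exact ⟨M, hM, fun h1 => hHn (Core.isNilpotent_of_le h1 hHM)⟩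
    have hpK : ¬ p ∣ Nat.card K := fun hd => hKn (h K hK hd)
    have hKc : (Nat.card K).Coprime p := ((Nat.Prime.coprime_iff_not_dvd hp).mpr hpK).symm
    have hdvd : ∀ X : Subgroup G, IsPGroup p X → X ≠ ⊥ → p ∣ Nat.card X := fun X hX hb => by
      obtain ⟨q, hq, hd⟩ := Core.exists_prime_dvd_card_of_ne_bot hb
      exact Core.isPGroup_iff_forall_prime_dvd.mp hX q hq hd ▸ hd
    have hO : pCore p G ≠ ⊥ := by
      intro hO
      obtain ⟨P⟩ : Nonempty (Sylow p G) := inferInstance
      have hPb : (P : Subgroup G) ≠ ⊥ := P.ne_bot_of_dvd_card hpG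
      have hnn : ∀ X : Subgroup G, X ≤ P → X ≠ ⊥ → Subgroup.normalizer (X : Set G) ≠ ⊤ :=
        fun X hX hb ht => hb (Core.pCore_eq_bot_iff.mp hO X
          (Subgroup.normalizer_eq_top_iff.mp ht) (P.2.to_le hX))
      have h1 := Transfer.frobenius_of_normalizer P fun X hX hb =>
        Transfer.hasNormalPComplement_of_isNilpotent (h' _ (hnn X hX hb)
          ((hdvd X (P.2.to_le hX) hb).trans (Subgroup.card_dvd_of_le Subgroup.le_normalizer)))
      have hKR : pResidual p G = K := by
        rcases hK.le_iff.mp (Transfer.le_pResidual_of_coprime hKc) with h2 | h2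
        · exact absurd (by rw [h2, Subgroup.card_top]; exact hpG)
            (Transfer.hasNormalPComplement_iff_not_dvd_pResidual.mp h1)
        · exact h2
      have hKN : K.Normal := hKR ▸ inferInstance
      have hcop := Core.coprime_card_of_isPGroup P.2 hKc
      have h2 : K ≤ Subgroup.centralizer ((P : Subgroup G) : Set G) := by
        refine Coprime.le_of_forall_isSylowIn fun q hq _ => ?_
        have := Fact.mk hq
        obtain ⟨Q, hQ, hPQ⟩ := Coprime.exists_invariant_sylow q (A := P) (G := K)
          Subgroup.le_normalizer_of_normal hcop (Or.inl (Coprime.isSolvable_of_isPGroup P.2))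
        have h3 : (P : Subgroup G) ⊔ Q ≠ ⊤ := fun ht => hKn (by
          have : K = Q := by
            calc K = ((P : Subgroup G) ⊔ Q) ⊓ K := by rw [ht, top_inf_eq]
              _ = Q := by
                rw [Core.sup_inf_eq_inf_sup_of_le_normalizer hPQ hQ.1,
                  Core.inf_eq_bot_of_coprime_card hcop, bot_sup_eq]
          exact this ▸ hQ.2.1.isNilpotent)
        refine ⟨Q, hQ, fun y hy => Transfer.mem_centralizer_of_isNilpotent (h' _ h3
          ((hdvd _ P.2 hPb).trans (Subgroup.card_dvd_of_le le_sup_left))) P.2 le_sup_left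
          (Subgroup.mem_sup_right hy) ?_⟩
        exact Nat.Coprime.coprime_dvd_left (Subgroup.orderOf_dvd_natCard K (hQ.1 hy)) hKc
      refine hnn P le_rfl hPb (top_le_iff.mp ?_)
      rw [← Transfer.pResidual_sup_sylow P, hKR]
      exact sup_le (h2.trans (Subgroup.centralizer_le_normalizer _)) Subgroup.le_normalizer
    obtain ⟨Z, hZ, hZO⟩ := Core.exists_isMinNormal_le hO
    have hZn := hZ.normal
    have hZp : IsPGroup p Z := (Core.isPGroup_pCore p).to_le hZO
    have hZd := hdvd Z hZp hZ.ne_bot
    have hinf : Z ⊓ K = ⊥ := Core.inf_eq_bot_of_isPGroup_of_coprime hZp hKc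
    have htop : K ⊔ Z = ⊤ := hK.2 _ (lt_of_le_of_ne le_sup_left fun he =>
      hpK (hZd.trans (Subgroup.card_dvd_of_le (he ▸ le_sup_right))))
    have hlt : ∀ L : Subgroup G, L < K → Group.IsNilpotent (L ⊔ Z : Subgroup G) := fun L hL => by
      refine h' _ (fun ht => hL.ne ?_) (hZd.trans (Subgroup.card_dvd_of_le le_sup_right))
      calc L = (L ⊔ Z) ⊓ K := by
            rw [Core.sup_inf_assoc_of_le_normalizer Subgroup.le_normalizer_of_normal hL.le, hinf,
              sup_bot_eq]
        _ = K := by rw [ht, top_inf_eq]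
    have hKZ : K ≤ Subgroup.centralizer (Z : Set G) := by
      refine Transfer.le_of_forall_prime_pow_mem fun q _ x hx _ => ?_
      refine Transfer.mem_centralizer_of_isNilpotent (hlt (Subgroup.zpowers x)
        (lt_of_le_of_ne (Subgroup.zpowers_le.mpr hx) fun he => hKn (he ▸ Core.isNilpotent_of_isMulCommutative))) hZp
        le_sup_right (Subgroup.mem_sup_left (Subgroup.mem_zpowers x)) ?_
      exact Nat.Coprime.coprime_dvd_left (Subgroup.orderOf_dvd_natCard K hx) hKc
    have hZc : Z ≤ Subgroup.center G := by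
      have h1 : ⊤ ≤ Subgroup.centralizer (Z : Set G) := htop ▸ sup_le hKZ
        (Subgroup.le_centralizer_iff_isMulCommutative.mpr (hZ.isElementaryAbelian_of_isPGroup hZp).1)
      exact fun z hz => Subgroup.mem_center_iff.mpr fun g => (h1 (Subgroup.mem_top g) z hz).symm
    refine Or.inr (Or.inr ⟨Z, K, hZn, ?_, hinf, sup_comm Z K ▸ htop, ?_, ⟨hKn, fun H hH => ?_⟩, hpK⟩)
    · rw [Core.normal_iff_top_le_normalizer, ← htop]
      exact sup_le Subgroup.le_normalizer
        ((Subgroup.le_centralizer_iff.mp hKZ).trans (Subgroup.centralizer_le_normalizer _))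
    · exact ((Nat.prime_dvd_prime_iff_eq hp (hZ.prime_card_of_le_center hZc)).mp hZd).symm
    · refine Core.isNilpotent_map_subtype_iff.mp (Core.isNilpotent_of_le (hlt _ ?_) le_sup_left)
      refine lt_of_le_of_ne (Subgroup.map_subtype_le H) fun he => hH ?_
      rw [← Subgroup.map_subtype_inj, he, ← MonoidHom.range_eq_map, Subgroup.range_subtype]
  · rintro (h | h | ⟨Z, K, hZ, hK, hinf, htop, hcard, hmin, hpK⟩) M hM hd
    · infer_instance
    · exact h.2 M hM.1
    have hZM : Z ≤ M := by
      obtain ⟨x, hx, hxp⟩ := Core.exists_mem_orderOf_eq_of_dvd_card hd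
      have h1 : Subgroup.zpowers x ≤ Z := Core.le_of_coprime_card_index (by
        rw [Nat.card_zpowers, hxp, (Core.isComplement'_of_sup_eq_top_of_inf_eq_bot
          (sup_comm Z K ▸ htop) (inf_comm Z K ▸ hinf)).index_eq_card]
        exact (Nat.Prime.coprime_iff_not_dvd hp).mpr hpK)
      rw [← Core.eq_of_le_of_card_eq h1 (by rw [Nat.card_zpowers, hxp, hcard])]
      exact Subgroup.zpowers_le.mpr hx
    have hMeq : M = Z ⊔ (K ⊓ M) := by
      rw [← Core.sup_inf_assoc_of_le_normalizer Subgroup.le_normalizer_of_normal hZM, htop, top_inf_eq]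
    have h1 : Group.IsNilpotent (K ⊓ M : Subgroup G) := by
      have h2 := hmin.2 (M.subgroupOf K) fun ht => hM.1 (top_le_iff.mp
        (htop ▸ sup_le hZM (Subgroup.subgroupOf_eq_top.mp ht)))
      rwa [← Core.isNilpotent_map_subtype_iff, Subgroup.subgroupOf_map_subtype, inf_comm] at h2
    have hc : Z ≤ Subgroup.centralizer (K : Set G) := Core.le_centralizer_of_inf_eq_bot hinf
    rw [hMeq]
    refine Core.isNilpotent_sup_of_le_normalizer ((hc.trans (Subgroup.centralizer_le inf_le_left)).trans
      (Subgroup.centralizer_le_normalizer _)) Subgroup.le_normalizer_of_normal ?_ h1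
    exact (IsPGroup.of_card (n := 1) (by rw [hcard, pow_one])).isNilpotent

end Cfsg.Agent.S4242
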