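import Cfsg.Statements.S4245
import Cfsg.Agent.Lib.Cls.Solv
import Cfsg.Agent.Lib.Transfer.Frobenius

set_option autoImplicit false
open Cfsg

namespace Cfsg.Agent.S4245

universe u

/-- Cyclic by cyclic `2`-group. -/
def Q (H : Type*) [Group H] : Prop :=
  ∃ (B : Subgroup H) (_ : B.Normal), IsCyclic B ∧ IsCyclic (H ⧸ B) ∧ IsPGroup 2 (H ⧸ B)

theorem Q.of_injective {H K : Type*} [Group H] [Group K] (h : Q H) (f : K →* H)
    (hf : Function.Injective f) : Q K := by
  obtain ⟨B, _, h1, h2, h3⟩ := h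
  have hi : Function.Injective (QuotientGroup.map (B.comap f) B f le_rfl) := by
    rw [injective_iff_map_eq_one]
    intro x hx
    obtain ⟨x, rfl⟩ := QuotientGroup.mk_surjective x
    rw [QuotientGroup.map_mk, QuotientGroup.eq_one_iff] at hx
    exact (QuotientGroup.eq_one_iff _).2 hx
  refine ⟨B.comap f, inferInstance, isCyclic_of_injective (f.subgroupComap B) ?_,
    isCyclic_of_injective _ hi, h3.of_injective _ hi⟩
  intro x y hxy
  exact Subtype.ext (hf (congrArg Subtype.val hxy))

theorem Q.of_surjective {H K : Type*} [Group H] [Group K] (h : Q H) (f : H →* K)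
    (hf : Function.Surjective f) : Q K := by
  obtain ⟨B, hB, h1, h2, h3⟩ := h
  have := hB.map f hf
  have hs : Function.Surjective (QuotientGroup.map B (B.map f) f (B.le_comap_map f)) := by
    intro x
    obtain ⟨x, rfl⟩ := QuotientGroup.mk_surjective x
    obtain ⟨x, rfl⟩ := hf x
    exact ⟨QuotientGroup.mk x, rfl⟩
  exact ⟨B.map f, inferInstance, isCyclic_of_surjective _ (f.subgroupMap_surjective B),
    isCyclic_of_surjective _ hs, h3.of_surjective _ hs⟩

theorem eq_of_orderOf_eq_two {B : Type*} [Group B] [Finite B] [IsCyclic B] {x y : B}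
    (hx : orderOf x = 2) (hy : orderOf y = 2) : x = y := by
  classical
  have := Fintype.ofFinite B
  by_contra hne
  have h1 := IsCyclic.card_pow_eq_one_le (α := B) (n := 2) two_pos
  have hx1 : x ≠ 1 := by rintro rfl; simp at hx
  have hy1 : y ≠ 1 := by rintro rfl; simp at hy
  have h2 : ({1, x, y} : Finset B) ⊆ Finset.univ.filter fun a => a ^ 2 = 1 := by
    intro a ha
    simp only [Finset.mem_insert, Finset.mem_singleton] at ha
    rcases ha with rfl | rfl | rfl
    · simp
    · simp [← hx, pow_orderOf_eq_one]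
    · simp [← hy, pow_orderOf_eq_one]
  have h3 := Finset.card_le_card h2
  rw [Finset.card_eq_three.2 ⟨1, x, y, hx1.symm, hy1.symm, hne, rfl⟩] at h3
  omega

theorem simple_case {p : ℕ} (hp : p.Prime) (G : Type u) [Group G] [Finite G] [IsSimpleGroup G]
    (hna : ¬ IsMulCommutative G) : ¬ ∃ A : Subgroup G, (∃ s, A.index = p ^ s) ∧ Q A := by
  rintro ⟨A, ⟨s, hs⟩, B, _, h1, h2, h3⟩
  have : Fact (Nat.Prime 2) := ⟨Nat.prime_two⟩
  have : Fact p.Prime := ⟨hp⟩
  have hnp : ∀ q : ℕ, q.Prime → ¬ IsPGroup q G := fun q hq h => by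
    have : Fact q.Prime := ⟨hq⟩
    have := h.isNilpotent
    exact hna ⟨⟨IsSimpleGroup.comm_iff_isSolvable.2 inferInstance⟩⟩
  have key : ∀ (q k : ℕ) (C : Subgroup G), q.Prime → C.index = q ^ k → ∀ z : G,
      C ≤ Subgroup.centralizer {z} → z = 1 := fun q k C hq hC z hz => by
    obtain ⟨j, hj⟩ := Cls.exists_pow_of_dvd_pow hq (hC ▸ Subgroup.index_dvd_of_le hz)
    exact Char.eq_one_of_prime_pow_index hna hq hj
  have key2 : ∀ (q k : ℕ) (C : Subgroup G), q.Prime → C.index = q ^ k → IsCyclic C → False :=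
    fun q k C hq hC hc => by
    have : C = ⊥ := by
      rw [eq_bot_iff]
      intro z hz
      refine key q k C hq hC z fun y hy => Cls.mem_centralizer_single.2 ?_
      exact congrArg Subtype.val (IsCyclic.isMulCommutative.is_comm.comm (⟨y, hy⟩ : C) ⟨z, hz⟩)
    rw [this, Subgroup.index_bot] at hC
    exact hnp q hq (IsPGroup.of_card hC)
  obtain ⟨r, hr⟩ := h3.exists_card_eq
  by_cases hB : 2 ∣ Nat.card B
  · obtain ⟨z, hz⟩ := exists_prime_orderOf_dvd_card' 2 hB
    have : ((z : A) : G) = 1 := by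
      refine key p s A hp hs _ fun y hy => Cls.mem_centralizer_single.2 ?_
      have h4 : (⟨⟨y, hy⟩ * z * (⟨y, hy⟩ : A)⁻¹, Subgroup.Normal.conj_mem ‹_› _ z.2 _⟩ : B) = z := by
        refine eq_of_orderOf_eq_two ?_ hz
        rw [Subgroup.orderOf_mk, ← hz, ← Subgroup.orderOf_coe z]
        exact (orderOf_injective (MulAut.conj (⟨y, hy⟩ : A)).toMonoidHom
          (MulAut.conj _).injective _)
      have h5 : y * (z : A) * y⁻¹ = (z : A) := congrArg (fun w : B => ((w : A) : G)) h4
      rw [mul_inv_eq_iff_eq_mul] at h5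
      exact h5
    have h6 : z = 1 := Subtype.ext (Subtype.ext this)
    simp [h6] at hz
  have hBc : IsCyclic (B.map A.subtype) := isCyclic_of_surjective _ (A.subtype.subgroupMap_surjective B)
  have hBi : (B.map A.subtype).index = 2 ^ r * p ^ s := by
    rw [Subgroup.index_map_subtype, hs, ← hr]; rfl
  by_cases hp2 : p = 2
  · subst hp2
    exact key2 2 (r + s) _ hp (by rw [hBi, pow_add]) hBc
  by_cases hr0 : r = 0
  · subst hr0
    exact key2 p s _ hp (by rw [hBi, pow_zero, one_mul]) hBc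
  have h2A : ¬ 2 ∣ A.index := fun h => hp2 <|
    ((Nat.prime_dvd_prime_iff_eq Nat.prime_two hp).1 (Nat.prime_two.dvd_of_dvd_pow (hs ▸ h))).symm
  obtain ⟨P, hP⟩ := Cls.exists_sylow_le_of_not_dvd_index h2A
  have hPc : IsCyclic P := by
    refine isCyclic_of_injective ((QuotientGroup.mk' B).comp (Subgroup.inclusion hP)) ?_
    rw [injective_iff_map_eq_one]
    intro x hx
    have hxB : Subgroup.inclusion hP x ∈ B := (QuotientGroup.eq_one_iff _).1 hx
    obtain ⟨k, hk⟩ := (IsPGroup.iff_orderOf.1 P.isPGroup') x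
    have h7 : orderOf x ∣ Nat.card B := by
      rw [← orderOf_injective _ (Subgroup.inclusion_injective hP) x, ← Subgroup.orderOf_mk _ hxB]
      exact orderOf_dvd_natCard _
    rcases Nat.eq_zero_or_pos k with rfl | hk0
    · exact orderOf_eq_one_iff.1 (by simpa using hk)
    · exact absurd ((dvd_pow_self 2 hk0.ne').trans (hk ▸ h7)) hB
  have h2G : 2 ∣ Nat.card G :=
    ((dvd_pow_self 2 hr0).trans (Dvd.intro _ hBi.symm)).trans (Subgroup.index_dvd_card _)
  have hmin : (Nat.card G).minFac = 2 := (Nat.minFac_eq_two_iff _).2 h2G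
  obtain ⟨K, hK, h8, h9⟩ := Transfer.hasNormalPComplement_iff_exists_normal.1
    (Transfer.burnside_of_normalizer_le_centralizer P (hPc.normalizer_le_centralizer hmin))
  rcases hK.eq_bot_or_eq_top with rfl | rfl
  · exact hnp 2 Nat.prime_two (h9.of_equiv QuotientGroup.quotientBot)
  · rw [Subgroup.card_top] at h8
    exact absurd (Nat.Coprime.eq_one_of_dvd h8.symm h2G) (by decide)

/-- Let G be a finite group with a subgroup A of prime-power index. Suppose A has a normal cyclic subgroup B such that A/B is cyclic of order a power of 2. Then G is solvable. -/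
theorem result {G : Type*} [Group G] [Finite G] (A : Subgroup G) (p s : ℕ) (hp : p.Prime) (hA : A.index = p ^ s)
    (B : Subgroup A) [B.Normal] (hB : IsCyclic B) (hAB : IsCyclic (A ⧸ B)) (r : ℕ) (hr : Nat.card (A ⧸ B) = 2 ^ r) :
    Group.IsSolvable G := by
  refine Cls.isSolvable_of_hereditary
    (P := fun G _ _ => ∃ A : Subgroup G, (∃ s, A.index = p ^ s) ∧ Q A) ?_ ?_ (simple_case hp) G
    ⟨A, ⟨s, hA⟩, B, inferInstance, hB, hAB, IsPGroup.of_card hr⟩
  · rintro G _ _ N _ ⟨A, ⟨s, hs⟩, h⟩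
    refine ⟨A.subgroupOf N, Cls.exists_pow_of_dvd_pow hp (hs ▸ Cls.relIndex_dvd_index_of_normal' A N),
      h.of_injective (N.subtype.subgroupComap A) fun x y hxy => ?_⟩
    exact Subtype.ext (Subtype.ext (congrArg (fun w : A => (w : G)) hxy))
  · rintro G _ _ N _ ⟨A, ⟨s, hs⟩, h⟩
    exact ⟨A.map (QuotientGroup.mk' N), Cls.exists_pow_of_dvd_pow hp
      (hs ▸ A.index_map_dvd (QuotientGroup.mk'_surjective N)),
      h.of_surjective _ ((QuotientGroup.mk' N).subgroupMap_surjective A)⟩

end Cfsg.Agent.S4245
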