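import Mathlib
import Cfsg.Statements.S4249
import Cfsg.Agent.Lib.Transfer.NilpMax

set_option autoImplicit false
open Cfsg

namespace Cfsg.Agent.S4249



/-- Let G be a finite group and p a prime such that G is not a p-group, and suppose the Hughes subgroup H_p(G), generated by all elements g with g^p ≠ 1, is a proper subgroup. Then H_p(G) is nilpotent and has index p in G. -/
theorem result {G : Type*} [Group G] [Finite G] (p : ℕ) (hp : p.Prime) (hG : ¬ IsPGroup p G)
    (hH : Subgroup.closure {g : G | g ^ p ≠ 1} ≠ ⊤) :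
    Group.IsNilpotent (Subgroup.closure {g : G | g ^ p ≠ 1}) ∧ (Subgroup.closure {g : G | g ^ p ≠ 1}).index = p := by
  have := Fact.mk hp
  set H := Subgroup.closure {g : G | g ^ p ≠ 1} with hHdef
  have hmem : ∀ x : G, x ∉ H → x ^ p = 1 := fun x hx => by
    by_contra h
    exact hx (Subgroup.subset_closure h)
  have hN : H.Normal := by
    refine ⟨fun n hn g => ?_⟩
    have : H ≤ H.comap (MulAut.conj g).toMonoidHom := by
      refine (Subgroup.closure_le _).mpr fun x hx => Subgroup.subset_closure ?_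
      change (g * x * g⁻¹) ^ p ≠ 1
      rw [conj_pow]
      intro h
      exact hx (by simpa using h)
    exact this hn
  refine ⟨Transfer.isNilpotent_of_forall_not_mem_pow_eq_one hp hH hmem, ?_⟩
  have hexp : ∀ z : G ⧸ H, z ^ p = 1 := fun z => by
    obtain ⟨x, rfl⟩ := QuotientGroup.mk_surjective z
    by_cases hx : x ∈ H
    · rw [(QuotientGroup.eq_one_iff x).mpr hx, one_pow]
    · rw [← QuotientGroup.mk_pow, hmem x hx, QuotientGroup.mk_one]
  have hQ : IsPGroup p (G ⧸ H) := fun z => ⟨1, by rw [pow_one, hexp]⟩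
  have hnt : Nontrivial (G ⧸ H) := QuotientGroup.nontrivial_iff.mpr hH
  have := hQ.center_nontrivial
  obtain ⟨⟨z, hz⟩, hz1⟩ := exists_ne (1 : Subgroup.center (G ⧸ H))
  have hz1' : z ≠ 1 := fun h => hz1 (Subtype.ext h)
  have hzo : orderOf z = p := orderOf_eq_prime (hexp z) hz1'
  by_cases htop : Subgroup.zpowers z = ⊤
  · rw [Subgroup.index_eq_card, ← hzo, ← Nat.card_zpowers, htop, Subgroup.card_top]
  exfalso
  have hZn : (Subgroup.zpowers z).Normal :=
    Core.normal_of_le_center (Subgroup.zpowers_le.mpr hz)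
  set K := (Subgroup.zpowers z).comap (QuotientGroup.mk' H) with hK
  have hHK : H ≤ K := fun x hx => by
    change (x : G ⧸ H) ∈ Subgroup.zpowers z
    rw [(QuotientGroup.eq_one_iff x).mpr hx]
    exact one_mem _
  have hKt : K ≠ ⊤ := fun h => htop (by
    rw [← Subgroup.map_comap_eq_self_of_surjective (QuotientGroup.mk'_surjective H)
      (Subgroup.zpowers z), ← hK, h,
      Subgroup.map_top_of_surjective _ (QuotientGroup.mk'_surjective H)])
  have hKn := Transfer.isNilpotent_of_forall_not_mem_pow_eq_one hp hKt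
    (fun x hx => hmem x fun h => hx (hHK h))
  obtain ⟨s, rfl⟩ := QuotientGroup.mk_surjective z
  have hsH : s ∉ H := fun h => hz1' ((QuotientGroup.eq_one_iff s).mpr h)
  have hsK : s ∈ K := Subgroup.mem_zpowers _
  obtain ⟨y, hyp, hy1⟩ : ∃ y : G, (orderOf y).Coprime p ∧ y ≠ 1 := by
    by_contra h
    push Not at h
    exact hG ((Transfer.isPGroup_of_forall_coprime_eq_one (C := ⊤) fun g _ => h g).of_equiv
      Subgroup.topEquiv)
  have hyp1 : y ^ p ≠ 1 := fun h => hy1 (by
    rw [← orderOf_eq_one_iff]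
    exact Nat.Coprime.eq_one_of_dvd hyp (orderOf_dvd_of_pow_eq_one h))
  have hyH : y ∈ H := Subgroup.subset_closure hyp1
  have hc := Transfer.commute_of_coprime_of_isNilpotent hKn hsK (hHK hyH)
    (Nat.Coprime.coprime_dvd_left (orderOf_dvd_of_pow_eq_one (hmem s hsH)) hyp.symm)
  have : s * y ∈ H := Subgroup.subset_closure (by
    change (s * y) ^ p ≠ 1
    rwa [hc.mul_pow, hmem s hsH, one_mul])
  exact hsH ((H.mul_mem_cancel_right hyH).mp this)

end Cfsg.Agent.S4249
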