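import Mathlib
import Cfsg.Statements.S4250
import Cfsg.Agent.Lib.Transfer.Frobenius

set_option autoImplicit false
open Cfsg

namespace Cfsg.Agent.S4250

open Subgroup Cfsg.Agent.Transfer
open scoped Pointwise commutatorElement

/-- Let P be a Sylow p-subgroup of a finite group G. Call an intersection H = P ∩ Q with a Sylow p-subgroup Q tame when N_P(H) and N_Q(H) are Sylow p-subgroups of N_G(H). Then P ∩ G′ is generated by [P, N_G(P)] together with the commutator subgroups [P ∩ Q, ⟨x⟩] for all tame intersections P ∩ Q and all p-elements x of N_G(P ∩ Q). -/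
theorem result {G : Type*} [Group G] [Finite G] (p : ℕ) [Fact p.Prime] (P : Sylow p G) :
    (P : Subgroup G) ⊓ commutator G =
      ⁅(P : Subgroup G), Subgroup.normalizer ((P : Subgroup G) : Set G)⁆ ⊔
        ⨆ (Q : Sylow p G) (_ : (¬ p ∣ ((P : Subgroup G) ⊓ Subgroup.normalizer (((P : Subgroup G) ⊓ (Q : Subgroup G) : Subgroup G) : Set G)).relIndex (Subgroup.normalizer (((P : Subgroup G) ⊓ (Q : Subgroup G) : Subgroup G) : Set G)) ∧ ¬ p ∣ ((Q : Subgroup G) ⊓ Subgroup.normalizer (((P : Subgroup G) ⊓ (Q : Subgroup G) : Subgroup G) : Set G)).relIndex (Subgroup.normalizer (((P : Subgroup G) ⊓ (Q : Subgroup G) : Subgroup G) : Set G))))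
          (x : G) (_ : x ∈ Subgroup.normalizer (((P : Subgroup G) ⊓ (Q : Subgroup G) : Subgroup G) : Set G) ∧ ∃ k : ℕ, orderOf x = p ^ k),
          ⁅(P : Subgroup G) ⊓ (Q : Subgroup G), Subgroup.zpowers x⁆ := by
  apply le_antisymm
  · rw [inf_comm, Subgroup.commutator_inf_eq_focalSubgroup, Subgroup.focalSubgroup_def,
      Subgroup.closure_le]
    rintro _ ⟨hy, x, hx, u, rfl⟩
    set M := ⁅(P : Subgroup G), Subgroup.normalizer ((P : Subgroup G) : Set G)⁆ ⊔
        ⨆ (Q : Sylow p G) (_ : IsTame P Q)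
          (x : G) (_ : x ∈ Subgroup.normalizer (((P : Subgroup G) ⊓ (Q : Subgroup G) : Subgroup G) : Set G) ∧ ∃ k : ℕ, orderOf x = p ^ k),
          ⁅(P : Subgroup G) ⊓ (Q : Subgroup G), Subgroup.zpowers x⁆ with hM
    have key := alperin_induction P (T := fun A g => ∀ a ∈ A, ⁅a⁻¹, g⁆ ∈ M) ⟨?_, ?_, ?_⟩ ?_
      (A := zpowers x⁻¹) (g := u) (zpowers_le.mpr (inv_mem hx)) ?_
    · have := key x⁻¹ (mem_zpowers _)
      rw [inv_inv] at this
      exact this
    · intro A B g hAB h a ha
      exact h a (hAB ha)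
    · intro A B g k h1 h2 hAB a ha
      have := mul_mem (h1 a ha) (h2 _ (hAB (conj_mem_conj_smul ha)))
      convert this using 1
      simp [commutatorElement_def, mul_assoc]
    · intro y hy a ha
      exact Subgroup.mem_sup_left (Subgroup.commutator_mem_commutator (inv_mem ha) hy)
    · intro Q hQ y hy hk a ha
      refine Subgroup.mem_sup_right ?_
      refine Subgroup.mem_iSup_of_mem Q (Subgroup.mem_iSup_of_mem hQ (Subgroup.mem_iSup_of_mem y
        (Subgroup.mem_iSup_of_mem ⟨hy, hk⟩ ?_)))
      exact Subgroup.commutator_mem_commutator (inv_mem ha) (mem_zpowers y)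
    · rw [conj_smul_eq_map, MonoidHom.map_zpowers, zpowers_le]
      have := (P : Subgroup G).mul_mem ((P : Subgroup G).inv_mem hx) hy
      simpa [commutatorElement_def, mul_assoc] using this
  · refine sup_le (le_inf ?_ (Subgroup.commutator_mono le_top le_top)) ?_
    · exact Subgroup.le_normalizer_iff_commutator_le_left.mp le_rfl
    · refine iSup_le fun Q => iSup_le fun _ => iSup_le fun x => iSup_le fun hx => ?_
      refine le_inf ?_ (Subgroup.commutator_mono le_top le_top)
      exact (Subgroup.le_normalizer_iff_commutator_le_left.mp (zpowers_le.mpr hx.1)).trans inf_le_left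

end Cfsg.Agent.S4250
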