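import Cfsg.Statements.S4252
import Cfsg.Agent.Lib.Frob.Kernel

set_option autoImplicit false
open Cfsg

namespace Cfsg.Agent.S4252

/-- Let a finite group G act on a finite set Ω with more than one point, transitively but not regularly, so that no non-identity element of G fixes two distinct points. Then the stabilizer H of any point is a Frobenius complement in G (nontrivial, proper, meeting its other conjugates trivially), and the Frobenius kernel of G with respect to H (the identity together with the elements lying in no conjugate of H) is exactly the set consisting of the identity and the elements fixing no point. -/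
theorem result {G Ω : Type*} [Group G] [Finite G] [Fintype Ω] [MulAction G Ω] (hΩ : 1 < Fintype.card Ω)
    (htrans : ∀ α β : Ω, ∃ g : G, g • α = β) (hnreg : ∃ g : G, g ≠ 1 ∧ ∃ α : Ω, g • α = α)
    (hfix : ∀ g : G, g ≠ 1 → ∀ α β : Ω, g • α = α → g • β = β → α = β) (α : Ω) :
    Cfsg.IsFrobeniusComplement (MulAction.stabilizer G α) ∧
      Cfsg.frobeniusKernel (MulAction.stabilizer G α) = {g : G | g = 1 ∨ ∀ ω : Ω, g • ω ≠ ω} := by
  constructor
  · rw [Frob.isFrobeniusComplement_iff]
    refine ⟨?_, ?_, fun g hg x hx hc => ?_⟩
    · obtain ⟨g, g1, β, hβ⟩ := hnreg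
      obtain ⟨y, rfl⟩ := htrans α β
      intro h
      have : y⁻¹ * g * y ∈ MulAction.stabilizer G α := by
        rw [MulAction.mem_stabilizer_iff, mul_smul, mul_smul, hβ, inv_smul_smul]
      rw [h, Subgroup.mem_bot] at this
      exact g1 (by simpa [mul_assoc, inv_mul_eq_one] using this)
    · intro h
      obtain ⟨β, hβ⟩ := Fintype.exists_ne_of_one_lt_card hΩ α
      obtain ⟨y, rfl⟩ := htrans α β
      exact hβ (MulAction.mem_stabilizer_iff.1 (h ▸ Subgroup.mem_top y))
    · by_contra x1
      rw [MulAction.mem_stabilizer_iff] at hg hx hc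
      rw [mul_smul, mul_smul, inv_smul_eq_iff] at hc
      exact hg (hfix x x1 _ _ hc hx)
  · ext x
    rw [Frob.mem_frobeniusKernel_iff, Set.mem_ofPred_eq]
    constructor
    · intro h
      by_cases x1 : x = 1
      · exact Or.inl x1
      · refine Or.inr fun ω hω => x1 ?_
        obtain ⟨y, rfl⟩ := htrans α ω
        refine h y ?_
        rw [MulAction.mem_stabilizer_iff, mul_smul, mul_smul, hω, inv_smul_smul]
    · rintro (h | h) g hg
      · exact h
      · rw [MulAction.mem_stabilizer_iff, mul_smul, mul_smul, inv_smul_eq_iff] at hg
        exact absurd hg (h _)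

end Cfsg.Agent.S4252
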