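import Cfsg.Statements.S4253
import Cfsg.Agent.Lib.Frob.Kernel

set_option autoImplicit false
open Cfsg

namespace Cfsg.Agent.S4253

/-- Let H be a Frobenius complement in a finite group G (a nontrivial proper subgroup meeting each conjugate gHg⁻¹ with g outside H trivially). Then in the action of G on the left cosets of H by left multiplication, no non-identity element of G fixes two distinct cosets. -/
theorem result {G : Type*} [Group G] [Finite G] (H : Subgroup G) (hH : Cfsg.IsFrobeniusComplement H)
    (g : G) (hg : g ≠ 1) (a b : G ⧸ H) (ha : g • a = a) (hb : g • b = b) : a = b := by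
  rw [Frob.isFrobeniusComplement_iff] at hH
  obtain ⟨x, rfl⟩ := QuotientGroup.mk_surjective a
  obtain ⟨y, rfl⟩ := QuotientGroup.mk_surjective b
  rw [MulAction.Quotient.smul_mk, QuotientGroup.eq, smul_eq_mul] at ha hb
  rw [QuotientGroup.eq]
  by_contra h
  have := hH.2.2 _ h _ ha (by
    have e : (x⁻¹ * y)⁻¹ * ((g * x)⁻¹ * x) * (x⁻¹ * y) = (g * y)⁻¹ * y := by group
    rw [e]; exact hb)
  exact hg (by simpa [mul_assoc, inv_mul_eq_one] using this)

end Cfsg.Agent.S4253
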