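import Cfsg.Statements.S4261
import Cfsg.Agent.Lib.Coprime.TIHall
import Cfsg.Agent.Lib.Core.MinNormal

set_option autoImplicit false
open Cfsg

namespace Cfsg.Agent.S4261

/-- Let M be a maximal subgroup of a finite solvable group G such that x^[G : M] lies in M for every x in G. Then M is normal in G. -/
theorem result {G : Type*} [Group G] [Finite G] (hG : Group.IsSolvable G) (M : Subgroup G) (hM : IsCoatom M)
    (hexp : ∀ x : G, x ^ M.index ∈ M) : M.Normal := by
  by_contra hn
  have := hG
  have h1 : M.normalCore ≠ ⊤ := fun e => hM.1 (eq_top_iff.mpr (e ▸ M.normalCore_le))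
  have : Nontrivial (G ⧸ M.normalCore) := QuotientGroup.nontrivial_iff.mpr h1
  obtain ⟨K, hK⟩ := Core.exists_isMinNormal (G := G ⧸ M.normalCore)
  have := hK.normal
  obtain ⟨p, hp, hpK⟩ := hK.exists_isPGroup inferInstance
  have := Fact.mk hp
  have h2 : ¬ K.comap (QuotientGroup.mk' M.normalCore) ≤ M := fun h => by
    have h3 := Subgroup.map_mono (f := QuotientGroup.mk' M.normalCore)
      (Subgroup.normal_le_normalCore.mpr h)
    rw [Subgroup.map_comap_eq_self_of_surjective (QuotientGroup.mk'_surjective _),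
      (Core.map_mk_eq_bot_iff _ _).mpr le_rfl] at h3
    exact hK.ne_bot (le_bot_iff.mp h3)
  have h3 : M ⊔ K.comap (QuotientGroup.mk' M.normalCore) = ⊤ := hM.2 _ (left_lt_sup.mpr h2)
  have h4 : M.index ∣ Nat.card K := by
    rw [← Subgroup.relIndex_top_right, ← h3,
      Coprime.relIndex_sup_of_le le_rfl Subgroup.le_normalizer_of_normal]
    refine (Subgroup.relIndex_dvd_of_le_left _ M.normalCore_le).trans ?_
    rw [← Core.card_map_mk_eq_relIndex,
      Subgroup.map_comap_eq_self_of_surjective (QuotientGroup.mk'_surjective _)]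
  obtain ⟨k, hk⟩ := hpK.exists_card_eq
  have h5 : pResidual p G ≤ M := by
    refine (Subgroup.closure_le _).mpr fun x hx => ?_
    have h6 : (orderOf x).Coprime M.index :=
      (Nat.Coprime.pow_right k hx).coprime_dvd_right (hk ▸ h4)
    exact Subgroup.zpowers_le.mpr (hexp _) (mem_zpowers_pow_iff.mpr h6.symm)
  have h7 : M.map (QuotientGroup.mk' (pResidual p G)) ≠ ⊤ := fun e => hM.1 (by
    have := congrArg (Subgroup.comap (QuotientGroup.mk' (pResidual p G))) e
    rwa [Core.comap_map_mk, sup_eq_left.mpr h5, Subgroup.comap_top] at this)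
  obtain ⟨L, hL, hL'⟩ := Core.exists_coatom_ge h7
  have := PGrp.coatom_normal Transfer.isPGroup_quotient_pResidual hL
  have h8 : L.comap (QuotientGroup.mk' (pResidual p G)) = M := by
    refine ((hM.le_iff.mp (Subgroup.map_le_iff_le_comap.mp hL')).resolve_left fun e => hL.1 ?_)
    rw [← Subgroup.map_comap_eq_self_of_surjective (QuotientGroup.mk'_surjective _) L, e]
    exact Subgroup.map_top_of_surjective _ (QuotientGroup.mk'_surjective _)
  exact hn (h8 ▸ inferInstance)

end Cfsg.Agent.S4261
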