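import Mathlib
import Cfsg.Statements.S4262
import Cfsg.Agent.Lib.Transfer.MaxCent

set_option autoImplicit false
open Cfsg

namespace Cfsg.Agent.S4262



/-- Let G be a finite group in which the centralizer of every non-central element is a maximal subgroup of G. Then G is solvable. -/
theorem result {G : Type*} [Group G] [Finite G]
    (h : ∀ g : G, g ∉ Subgroup.center G → IsCoatom (Subgroup.centralizer ({g} : Set G))) :
    Group.IsSolvable G := by
  refine Core.isSolvable_top_iff.mp (Transfer.MaxCent.isSolvable fun x _ hx => h x fun h1 => hx ?_)
  exact fun g _ => Subgroup.mem_center_iff.mp h1 g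

end Cfsg.Agent.S4262
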