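import Cfsg.Statements.S4263
import Mathlib
import Cfsg.Agent.Lib.Core.Subnormal

set_option autoImplicit false
open Cfsg

namespace Cfsg.Agent.S4263


open Cfsg.Agent.Core

theorem pow_index_mem_of_isSubnormal {G : Type*} [Group G] {H : Subgroup G} (h : H.IsSubnormal)
    (x : G) : x ^ H.index ∈ H := by
  refine isSubnormal_induction (P := fun H => x ^ H.index ∈ H) (Subgroup.mem_top _)
    (fun H K hle hn _ ih => ?_) h
  have := Subgroup.normal_subgroupOf_of_le_normalizer hn
  have h1 := (H.subgroupOf K).pow_index_mem ⟨_, ih⟩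
  rw [← Subgroup.relIndex_mul_index hle, mul_comm, pow_mul]
  exact h1

/-- Let G be a finite group. An element x lies in the Fitting subgroup F(G) if and only if, for every subgroup H of G, the power x^[G : H] lies in H. -/
theorem result {G : Type*} [Group G] [Finite G] (x : G) :
    x ∈ Cfsg.fittingSubgroup G ↔ ∀ H : Subgroup G, x ^ H.index ∈ H := by
  constructor
  · intro hx H
    have := isNilpotent_fitting (G := G)
    have h1 := pow_index_mem_of_isSubnormal
      (isSubnormal_of_isNilpotent (H.subgroupOf (fittingSubgroup G))) ⟨x, hx⟩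
    obtain ⟨k, hk⟩ := relIndex_dvd_index_of_isSubnormal (fittingSubgroup_normal G).isSubnormal H
    rw [hk, pow_mul]
    exact H.pow_mem h1 k
  · intro h
    rw [← Subgroup.zpowers_le]
    refine le_of_forall_isPGroup_le fun q hq Q hQx hQ y hy => pCore_le_fitting q ?_
    rw [mem_pCore_iff_forall_sylow]
    intro P
    obtain ⟨k, rfl⟩ := hQx hy
    obtain ⟨a, ha⟩ := exists_orderOf_eq_pow_of_mem hQ hy
    have h1 : (x ^ k) ^ (P : Subgroup G).index ∈ (P : Subgroup G) := by
      rw [← zpow_natCast, ← zpow_mul, mul_comm, zpow_mul, zpow_natCast]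
      exact Subgroup.zpow_mem _ (h _) k
    refine (Subgroup.zpowers_le.2 h1) (mem_zpowers_pow_iff.2 ?_)
    simp only at ha
    rw [ha]
    exact (Nat.Coprime.pow_left a ((Nat.Prime.coprime_iff_not_dvd hq.out).2 P.not_dvd_index)).symm

end Cfsg.Agent.S4263
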