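import Cfsg.Statements.S4265
import Cfsg.Agent.Lib.SLG.Cx

set_option autoImplicit false
open Cfsg

namespace Cfsg.Agent.S4265

/-- Let G be a finite solvable subgroup of GL_r(ℂ), r ≥ 1, with Fitting subgroup F(G) normal in G. Then for every subgroup H of G the quotient H/(H ∩ F(G)) has at most 3^{r−1} conjugacy classes. -/
theorem result (r : ℕ) (hr : 1 ≤ r) (G : Subgroup (GL (Fin r) ℂ)) [Finite ↥G] (hsolv : Group.IsSolvable ↥G) [hF : (Cfsg.fittingSubgroup ↥G).Normal] (H : Subgroup ↥G) : Nat.card (ConjClasses (↥H ⧸ (Cfsg.fittingSubgroup ↥G).subgroupOf H)) ≤ 3 ^ (r - 1) := by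
  have : Nonempty (Fin r) := ⟨⟨0, hr⟩⟩
  have := SLG.kn_lin _ G (Fin r → ℂ) (((Matrix.toLinAlgEquiv' (R := ℂ) (n := Fin r) :
    Matrix (Fin r) (Fin r) ℂ →* Module.End ℂ (Fin r → ℂ)).comp (Units.coeHom _)).comp G.subtype)
    (Matrix.toLinAlgEquiv'.injective.comp (Units.val_injective.comp G.subtype_injective)) le_rfl
    H _ H.subtype (QuotientGroup.mk' ((Cfsg.fittingSubgroup ↥G).subgroupOf H))
    (QuotientGroup.mk'_surjective _) (QuotientGroup.ker_mk' _).ge
  simpa using this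

end Cfsg.Agent.S4265
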