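import Cfsg.Statements.S4269
import Mathlib
import Cfsg.Agent.Lib.Core.Pronormal

set_option autoImplicit false
open Cfsg

namespace Cfsg.Agent.S4269

open Subgroup Cfsg.Agent.Core
open scoped commutatorElement

/-- Let G be a finite group, V an abelian normal subgroup and H a subgroup with HV = G. Then H is pronormal in G (H and gHg⁻¹ are conjugate inside the subgroup they generate, for every g) if and only if every H-invariant subgroup U of V satisfies U = N_U(H)·[H, U], that is, U is the join of U ∩ N_G(H) and the commutator subgroup [H, U]. -/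
theorem result {G : Type*} [Group G] [Finite G]
    (V : Subgroup G) [V.Normal] (hV : IsMulCommutative ↥V) (H : Subgroup G) (hHV : H ⊔ V = ⊤) :
    Cfsg.IsPronormal H ↔
      ∀ U : Subgroup G, U ≤ V → (∀ h ∈ H, U.map (MulAut.conj h).toMonoidHom = U) →
        U = (U ⊓ Subgroup.normalizer (H : Set G)) ⊔ ⁅H, U⁆ := by
  have hcomm : ∀ a ∈ V, ∀ b ∈ V, a * b = b * a := fun a ha b hb =>
    congrArg Subtype.val (hV.is_comm.comm (⟨a, ha⟩ : V) ⟨b, hb⟩)
  have hCU : ∀ U : Subgroup G, (∀ h ∈ H, U.map (MulAut.conj h).toMonoidHom = U) → ⁅H, U⁆ ≤ U := by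
    intro U hU
    rw [commutator_le]
    intro h hh u hu
    rw [commutatorElement_def]
    refine mul_mem ?_ (inv_mem hu)
    rw [← hU h hh]
    exact conj_mem_map_conj hu
  constructor
  · intro h U hUV hU
    refine le_antisymm (fun u hu => ?_) (sup_le inf_le_left (hCU U hU))
    obtain ⟨x, hx, hn⟩ := pronAt_iff.1 (h u)
    have hle : H ⊔ H.map (MulAut.conj u).toMonoidHom ≤ H ⊔ ⁅H, U⁆ := by
      refine sup_le le_sup_left ?_
      rintro _ ⟨k, hk, rfl⟩
      have h1 : ⁅k⁻¹, u⁆ ∈ ⁅H, U⁆ := commutator_mem_commutator (inv_mem hk) hu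
      have h2 : (MulAut.conj u).toMonoidHom k = k * ⁅k⁻¹, u⁆ := by
        simp only [MulEquiv.toMonoidHom_eq_coe, MonoidHom.coe_coe, MulAut.conj_apply,
          commutatorElement_def]
        group
      rw [h2]
      exact mul_mem (mem_sup_left hk) (mem_sup_right h1)
    have hn' : H ≤ normalizer ((⁅H, U⁆ : Subgroup G) : Set G) :=
      le_normalizer_commutator le_normalizer fun k hk => map_conj_eq_iff.1 (hU k hk)
    obtain ⟨c, hc, k, hk, rfl⟩ := (mem_sup_of_le_normalizer' hn').1 (hle.trans (sup_comm _ _).le hx)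
    have h3 : c⁻¹ * u ∈ U ⊓ normalizer (H : Set G) := by
      refine mem_inf.2 ⟨mul_mem (inv_mem (hCU U hU hc)) hu, ?_⟩
      have := mul_mem (le_normalizer hk) hn
      rwa [mul_inv_rev, mul_assoc, mul_inv_cancel_left] at this
    have := mul_mem (mem_sup_right (S := U ⊓ normalizer (H : Set G)) hc) (mem_sup_left h3)
    rwa [mul_inv_cancel_left] at this
  · intro h g
    have hg : g ∈ V ⊔ H := by rw [sup_comm, hHV]; exact mem_top g
    rw [← SetLike.mem_coe, normal_mul] at hg
    obtain ⟨v, hv, k, hk, rfl⟩ := hg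
    refine (pronAt_mul_normalizer (le_normalizer hk)).2 ?_
    set L := H ⊔ H.map (MulAut.conj v).toMonoidHom with hL
    have hVc : ∀ a : G, ∀ u ∈ V, ⁅a, u⁆ ∈ V := fun a u hu => by
      rw [commutatorElement_def]
      exact mul_mem ((inferInstance : V.Normal).conj_mem u hu a) (inv_mem hu)
    let W : Subgroup G :=
      { carrier := {u | u ∈ V ∧ ∀ a ∈ H, ⁅a, u⁆ ∈ L}
        one_mem' := ⟨one_mem _, fun a _ => by simp⟩
        mul_mem' := by
          rintro u w ⟨hu, hu'⟩ ⟨hw, hw'⟩
          refine ⟨mul_mem hu hw, fun a ha => ?_⟩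
          have : ⁅a, u * w⁆ = ⁅a, u⁆ * ⁅a, w⁆ := by
            have e : ⁅a, u * w⁆ = ⁅a, u⁆ * (u * ⁅a, w⁆) * u⁻¹ := by
              simp only [commutatorElement_def]; group
            rw [e, hcomm u hu _ (hVc a w hw)]
            group
          rw [this]
          exact mul_mem (hu' a ha) (hw' a ha)
        inv_mem' := by
          rintro u ⟨hu, hu'⟩
          refine ⟨inv_mem hu, fun a ha => ?_⟩
          have : ⁅a, u⁻¹⁆ = ⁅a, u⁆⁻¹ := by
            have e : ⁅a, u⁻¹⁆ = u⁻¹ * (⁅a, u⁆⁻¹ * u) := by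
              simp only [commutatorElement_def]; group
            rw [e, ← hcomm u hu _ (inv_mem (hVc a u hu))]
            group
          rw [this]
          exact inv_mem (hu' a ha) }
    have hWV : W ≤ V := fun u hu => hu.1
    have hconj : ∀ a ∈ H, ∀ u ∈ W, a * u * a⁻¹ ∈ W := by
      intro a ha u hu
      refine ⟨(inferInstance : V.Normal).conj_mem u hu.1 a, fun b hb => ?_⟩
      have e : ⁅b, a * u * a⁻¹⁆ = a * ⁅a⁻¹ * b * a, u⁆ * a⁻¹ := by
        simp only [commutatorElement_def]; group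
      rw [e]
      exact mul_mem (mul_mem (mem_sup_left ha) (hu.2 _ (mul_mem (mul_mem (inv_mem ha) hb) ha)))
        (inv_mem (mem_sup_left ha))
    have hWinv : ∀ a ∈ H, W.map (MulAut.conj a).toMonoidHom = W := fun a ha =>
      map_conj_eq_iff.2 (mem_normalizer_fintype (hconj a ha))
    have hvW : v ∈ W := by
      refine ⟨hv, fun a ha => ?_⟩
      have e : ⁅a, v⁆ = a * (v * a⁻¹ * v⁻¹) := by simp only [commutatorElement_def]; group
      rw [e]
      exact mul_mem (mem_sup_left ha) (mem_sup_right (conj_mem_map_conj (inv_mem ha)))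
    have hHW : ⁅H, W⁆ ≤ L := commutator_le.2 fun a ha u hu => hu.2 a ha
    have hn' : W ⊓ normalizer (H : Set G) ≤ normalizer ((⁅H, W⁆ : Subgroup G) : Set G) :=
      le_normalizer_commutator inf_le_right (inf_le_left.trans le_normalizer)
    rw [h W hWV hWinv, sup_comm] at hvW
    obtain ⟨c, hc, n, hn, e⟩ := (mem_sup_of_le_normalizer' hn').1 hvW
    exact pronAt_iff.2 ⟨c, hHW hc, by rw [← e, inv_mul_cancel_left]; exact hn.2⟩

end Cfsg.Agent.S4269
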