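import Cfsg.Statements.S4270
import Mathlib
import Cfsg.Agent.Lib.Core.Pronormal

set_option autoImplicit false
open Cfsg

namespace Cfsg.Agent.S4270

open Subgroup Cfsg.Agent.Core Cfsg.Agent.Coprime in
theorem fwd {G : Type*} [Group G] [Finite G] {p : ℕ} [Fact p.Prime] (A : Subgroup G) [A.Normal]
    (T : Subgroup G) (hT : IsSylowIn p T A) [(T.subgroupOf (normalizer (T : Set G))).Normal]
    (h : ∀ K : Subgroup G, (∃ P : Sylow p G, (P : Subgroup G) ≤ K) → IsPronormal K)
    (K : Subgroup (↥(normalizer (T : Set G)) ⧸ T.subgroupOf (normalizer (T : Set G))))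
    (hK : ∃ P : Sylow p (↥(normalizer (T : Set G)) ⧸ T.subgroupOf (normalizer (T : Set G))),
      (P : Subgroup _) ≤ K) : IsPronormal K := by
  obtain ⟨Q, hQ⟩ := hK
  set NT := normalizer (T : Set G) with hNT
  set π := QuotientGroup.mk' (T.subgroupOf NT) with hπ
  have hsurj : Function.Surjective π := QuotientGroup.mk'_surjective _
  have hker : IsPGroup p π.ker := by
    rw [hπ, QuotientGroup.ker_mk']; exact isPGroup_subgroupOf hT.2.1 _
  have h1 : IsSylowIn p (((Q : Subgroup _).comap π).map NT.subtype) NT := by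
    refine ⟨map_subtype_le _, (Q.isPGroup'.comap_of_ker_isPGroup π hker).map _, ?_⟩
    rw [relIndex, subgroupOf, comap_map_eq_self_of_injective NT.subtype_injective,
      index_comap_of_surjective _ hsurj]
    exact Q.not_dvd_index
  have h2 : ¬ p ∣ NT.relIndex ⊤ := by
    obtain ⟨S, hS, hTS⟩ := exists_isSylowIn_ge (le_top (a := T)) hT.2.1
    have hAn : normalizer (A : Set G) = ⊤ := normalizer_eq_top A
    have h3 := hS.inf_of_le_normalizer (le_top (a := A)) hAn.ge
    have h4 : S ⊓ A = T := hT.eq_of_le (le_inf hTS hT.1) inf_le_right h3.2.1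
    have h5 : S ≤ NT := by
      rw [hNT, ← h4]
      exact le_normalizer_inf le_normalizer (le_top.trans hAn.ge)
    exact fun hp => hS.2.2 (hp.trans (relIndex_dvd_of_le_left _ h5))
  obtain ⟨P, hP⟩ := (h1.trans le_top h2).exists_sylow_top
  have h3 := h ((K.comap π).map NT.subtype) ⟨P, by rw [hP]; exact map_mono (comap_mono hQ)⟩
  have h4 := (isPronormal_subgroupOf_iff (map_subtype_le (K.comap π))).2 fun g _ => h3 g
  rw [subgroupOf, comap_map_eq_self_of_injective NT.subtype_injective] at h4
  have h5 := isPronormal_map_of_surjective hsurj h4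
  rwa [map_comap_eq_self_of_surjective hsurj] at h5

open Subgroup Cfsg.Agent.Core Cfsg.Agent.Coprime in
theorem bwd {G : Type*} [Group G] [Finite G] {p : ℕ} [Fact p.Prime] (A : Subgroup G) [A.Normal]
    (hA : ∀ K : Subgroup A, (∃ P : Sylow p A, (P : Subgroup A) ≤ K) → IsPronormal K)
    (T : Subgroup G) (hT : IsSylowIn p T A) [(T.subgroupOf (normalizer (T : Set G))).Normal]
    (h : ∀ K : Subgroup (↥(normalizer (T : Set G)) ⧸ T.subgroupOf (normalizer (T : Set G))),
      (∃ P : Sylow p (↥(normalizer (T : Set G)) ⧸ T.subgroupOf (normalizer (T : Set G))),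
        (P : Subgroup _) ≤ K) → IsPronormal K)
    (H : Subgroup G) (P : Sylow p G) (hPH : (P : Subgroup G) ≤ H) (hPT : (P : Subgroup G) ⊓ A = T)
    {a : G} (ha : a ∈ A) : PronAt H a := by
  have hAn : normalizer (A : Set G) = ⊤ := normalizer_eq_top A
  have hTH : T ≤ H ⊓ A := le_inf (hPT.ge.trans (inf_le_left.trans hPH)) hT.1
  have hTs : IsSylowIn p T (H ⊓ A) := hT.mono hTH inf_le_right
  have hHn : H ≤ normalizer ((H ⊓ A : Subgroup G) : Set G) :=
    le_normalizer_inf le_normalizer (le_top.trans hAn.ge)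
  have h1 : ∀ g ∈ A, PronAt (H ⊓ A) g := by
    refine (isPronormal_subgroupOf_iff inf_le_right).1 (hA _ ?_)
    obtain ⟨S, hS, -⟩ := hT.exists_sylow
    exact ⟨S, by rw [hS]; exact comap_mono hTH⟩
  refine PronAt.of_le inf_le_left (h1 a ha) fun x hx hb => ?_
  set b := x⁻¹ * a
  refine PronAt.of_le (hTH.trans inf_le_left) (pronAt_of_isSylowIn hTs hb) fun y hy hc => ?_
  have hyH : y ∈ H ⊓ A := (sup_le hTs.1 (hTs.map_conj_of_mem_normalizer hb).1) hy
  have hc' : y⁻¹ * b ∈ normalizer ((H ⊓ A : Subgroup G) : Set G) :=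
    mul_mem (inv_mem (le_normalizer hyH)) hb
  set c := y⁻¹ * b
  set NT := normalizer (T : Set G) with hNT
  have hPN : (P : Subgroup G) ≤ NT := by
    rw [hNT, ← hPT]
    exact le_normalizer_inf le_normalizer (le_top.trans hAn.ge)
  set π := QuotientGroup.mk' (T.subgroupOf NT) with hπ
  have hsurj : Function.Surjective π := QuotientGroup.mk'_surjective _
  have h2 := h (((H ⊓ NT).subgroupOf NT).map π) ⟨(P.subtype hPN).mapSurjective hsurj, by
    rw [Sylow.coe_mapSurjective, Sylow.coe_subtype]
    exact map_mono (comap_mono (le_inf hPH hPN))⟩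
  have h3 : IsPronormal ((H ⊓ NT).subgroupOf NT) := fun g =>
    PronAt.of_map π (by
      rw [hπ, QuotientGroup.ker_mk']
      exact comap_mono (le_inf (hTH.trans inf_le_left) le_normalizer)) (h2 (π g))
  obtain ⟨w, hw, hwc⟩ := (isPronormal_subgroupOf_iff inf_le_right).1 h3 c hc
  have hfr : H ⊓ A ⊔ H ⊓ NT = H := hTs.frattini_argument inf_le_left hHn
  have hwn : w ∈ normalizer ((H ⊓ A : Subgroup G) : Set G) :=
    (sup_le (inf_le_left.trans hHn) (map_conj_le_of_mem (inf_le_left.trans hHn) hc')) hw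
  refine ⟨w, sup_le_sup inf_le_left (map_mono inf_le_left) hw, ?_⟩
  rw [← hfr, Subgroup.map_sup, Subgroup.map_sup, hwc, map_conj_eq_iff.2 hc', map_conj_eq_iff.2 hwn]

open Subgroup Cfsg.Agent.Core Cfsg.Agent.Coprime

/-- Let p be a prime and G a finite group with a normal subgroup A such that, both in A and in G/A, every subgroup containing a Sylow p-subgroup of that group is pronormal in that group. Let T be a Sylow p-subgroup of A. Then every subgroup of G containing a Sylow p-subgroup of G is pronormal in G if and only if (i) every subgroup of N_G(T)/T containing a Sylow p-subgroup of N_G(T)/T is pronormal there, and (ii) for every subgroup H of G containing a Sylow p-subgroup of G, the image of N_G(H) in G/A is the full normalizer of the image of H. (Pronormal: H and gHg⁻¹ are conjugate inside the subgroup they generate, for every g.) -/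
theorem result {G : Type*} [Group G] [Finite G] {p : ℕ} [Fact p.Prime]
    (A : Subgroup G) [A.Normal] (hA : (∀ K : Subgroup ↥A, (∃ P : Sylow p ↥A, (P : Subgroup ↥A) ≤ K) → Cfsg.IsPronormal K)) (hQ : (∀ K : Subgroup (G ⧸ A), (∃ P : Sylow p (G ⧸ A), (P : Subgroup (G ⧸ A)) ≤ K) → Cfsg.IsPronormal K))
    (T : Subgroup G) (hT : ∃ P : Sylow p ↥A, (P : Subgroup ↥A).map A.subtype = T) [(T.subgroupOf (Subgroup.normalizer (T : Set G))).Normal] :
    (∀ K : Subgroup G, (∃ P : Sylow p G, (P : Subgroup G) ≤ K) → Cfsg.IsPronormal K) ↔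
      ((∀ K : Subgroup (↥(Subgroup.normalizer (T : Set G)) ⧸ T.subgroupOf (Subgroup.normalizer (T : Set G))), (∃ P : Sylow p (↥(Subgroup.normalizer (T : Set G)) ⧸ T.subgroupOf (Subgroup.normalizer (T : Set G))), (P : Subgroup (↥(Subgroup.normalizer (T : Set G)) ⧸ T.subgroupOf (Subgroup.normalizer (T : Set G)))) ≤ K) → Cfsg.IsPronormal K) ∧
        ∀ K : Subgroup G, (∃ P : Sylow p G, (P : Subgroup G) ≤ K) →
          (Subgroup.normalizer (K : Set G)).map (QuotientGroup.mk' A) = Subgroup.normalizer ((K.map (QuotientGroup.mk' A) : Subgroup (G ⧸ A)) : Set (G ⧸ A))) := by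
  have hT' : IsSylowIn p T A := by
    obtain ⟨S, rfl⟩ := hT
    exact isSylowIn_map_subtype S
  have hAn : normalizer (A : Set G) = ⊤ := normalizer_eq_top A
  constructor
  · intro h
    exact ⟨fwd A T hT' h, fun K hK =>
      map_normalizer_eq_of_isPronormal (QuotientGroup.mk'_surjective A) (h K hK)⟩
  · rintro ⟨h1, h2⟩
    have key : ∀ (H : Subgroup G) (P : Sylow p G), (P : Subgroup G) ≤ H →
        (P : Subgroup G) ⊓ A = T → IsPronormal H := by
      intro H P hPH hPT g
      obtain ⟨y, hy, hn⟩ := pronAt_iff.1 (hQ (H.map (QuotientGroup.mk' A))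
        ⟨P.mapSurjective (QuotientGroup.mk'_surjective A), by
          rw [Sylow.coe_mapSurjective]; exact map_mono hPH⟩ (QuotientGroup.mk' A g))
      rw [← map_map_conj_hom, ← Subgroup.map_sup] at hy
      obtain ⟨x, hx, rfl⟩ := hy
      refine PronAt.of_inv_mul hx ?_
      rw [← h2 H ⟨P, hPH⟩] at hn
      obtain ⟨n, hn, e⟩ := hn
      have ha : x⁻¹ * g * n⁻¹ ∈ A := by
        rw [← QuotientGroup.ker_mk' A, MonoidHom.mem_ker, map_mul, map_mul, map_inv, map_inv, e,
          mul_inv_cancel]
      have := (pronAt_mul_normalizer hn).2 (bwd A hA T hT' h1 H P hPH hPT ha)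
      rwa [inv_mul_cancel_right] at this
    rintro H ⟨P, hPH⟩
    obtain ⟨a, ha, e⟩ := ((isSylowIn_top P).inf_of_le_normalizer (le_top (a := A))
      hAn.ge).exists_conj hT'
    obtain ⟨P', hP'⟩ := ((isSylowIn_top P).map_conj_of_mem_normalizer (g := a)
      (by rw [normalizer_eq_top]; exact mem_top a)).exists_sylow_top
    refine isPronormal_of_map_conj a (key _ P' (by rw [hP']; exact map_mono hPH) ?_)
    rw [hP', e, map_inf_eq _ _ _ (MulAut.conj a).injective, map_conj_eq_iff.2 (hAn.ge (mem_top a))]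

end Cfsg.Agent.S4270
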