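import Cfsg.Statements.S4284
import Cfsg.Agent.Lib.Cls.Chain2

set_option autoImplicit false
open Cfsg

namespace Cfsg.Agent.S4284

open Subgroup Cfsg.Agent.Coprime Cfsg.Agent.Split Cfsg.Agent.Chain
open scoped commutatorElement

local notation "𝐂[" x "]" => Subgroup.centralizer ({x} : Set _)

section
variable {G : Type*} [Group G] [Finite G] {m n : ℕ} {p : ℕ} [hp : Fact p.Prime]

theorem exists_ycfg (h : Hyp G m n) (hpm : p ∣ m) {a : ℕ} (ha : m = p ^ a) {P : Subgroup G}
    (hP : IsSylowIn p P ⊤) {u : G} (hou : ∃ k, orderOf u = p ^ k) (hu : 𝐂[u].index = m) :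
    ∃ y B H, YCfg p P y B H ∧ 𝐂[y].index = m := by
  obtain ⟨r, hr, hrn⟩ := Nat.exists_prime_and_dvd h.hn.ne'
  have := Fact.mk hr
  have hrm : ¬ r ∣ m := fun h' => hr.one_lt.ne' (Nat.eq_one_of_dvd_coprimes h.cop h' hrn)
  have hrp : r ≠ p := fun e => hrm (e ▸ hpm)
  have huZ := h.nc1 hu
  obtain ⟨B', H', hS'⟩ := h.exists_split hpm huZ hou
  obtain ⟨k, hk⟩ := hou
  have huO : u ∈ pCore p G := Transfer.mem_pCore_of_index_eq_pow hk (hu.trans ha)
  obtain ⟨R, hR⟩ := exists_isSylowIn r 𝐂[u]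
  have hRH := hS'.le_H_of_isPGroup hrp hR.1 hR.2.1
  have hO : IsPGroup p (pCore p G) := Core.isPGroup_pCore p
  have hRO : R ≤ centralizer (pCore p G : Set G) := by
    refine thompson_AxB (Core.isPGroup_zpowers_of_orderOf hk)
      (hS'.coprime.coprime_dvd_left (card_dvd_of_le hRH)) ?_ hO ?_ ?_ ?_
    · rw [le_centralizer_iff, Cls.centralizer_zpowers]; exact hR.1
    · rw [normalizer_eq_top]; exact le_top
    · rw [normalizer_eq_top]; exact le_top
    · rw [Cls.centralizer_zpowers]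
      exact (hS'.le_B inf_le_right (hO.to_le inf_le_left)).trans
        (hS'.B_le_centralizer_H.trans (centralizer_le hRH))
  have hR' := isSylowIn_top_of_not_dvd hR (hu ▸ hrm)
  have hn : P ≤ normalizer (pCore p G : Set G) := by rw [normalizer_eq_top]; exact le_top
  obtain ⟨y, hyO, hyZ, hyp, hyc⟩ := exists_second_central hP.2.1 hO hn (fun hle => huZ (hle huO))
  have hyP := hP.le_of_le_normalizer le_top hO hn hyO
  have hRy : R ≤ 𝐂[y] := hRO.trans (centralizer_le (Set.singleton_subset_iff.mpr hyO))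
  obtain ⟨B, H, hS⟩ := h.exists_split hpm hyZ (Core.exists_orderOf_eq_pow_of_mem hO hyO)
  refine ⟨y, B, H, ⟨hP, hyP, hyZ, hyp, hyc, hS, fun hle => ?_⟩, (h.idx y hyZ).resolve_right ?_⟩
  · obtain ⟨x, hx⟩ := h.ex2
    refine not_dvd_index_of_isSylowIn_le hR' (((hS.le_H_of_isPGroup hrp hRy hR.2.1).trans
      hle).trans (Cls.center_le_centralizer_single x)) ?_
    rw [hx]; exact hrn.mul_left m
  · intro e
    exact not_dvd_index_of_isSylowIn_le hR' hRy (e ▸ hrn.mul_left m)

theorem exists_ycfg' (h : Hyp G m n) (hpm : p ∣ m) {a : ℕ} (ha : m = p ^ a) {P : Subgroup G}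
    (hP : IsSylowIn p P ⊤) : ∃ y B H, YCfg p P y B H ∧ 𝐂[y].index = m := by
  by_cases hA : ∃ u : G, (∃ k, orderOf u = p ^ k) ∧ 𝐂[u].index = m
  · obtain ⟨u, hou, hu⟩ := hA
    exact exists_ycfg h hpm ha hP hou hu
  · exfalso
    have hB : ∀ u : G, (∃ k, orderOf u = p ^ k) → 𝐂[u].index ≠ m := fun u h1 h2 => hA ⟨u, h1, h2⟩
    obtain ⟨x, hx⟩ := h.ex1
    obtain ⟨g, hg, hgx⟩ := h.exists_not_mem hpm hP (h.nc1 hx)
    obtain ⟨y, hyP, hyZ, hyp, hyc⟩ := exists_second_central hP.2.1 hP.2.1 le_normalizer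
      (fun hle => not_mem_center_of_not_mem hgx (hle hg))
    have hoy := Core.exists_orderOf_eq_pow_of_mem hP.2.1 hyP
    obtain ⟨B, H, hS⟩ := h.exists_split hpm hyZ hoy
    have c : YCfg p P y B H := ⟨hP, hyP, hyZ, hyp, hyc, hS, h.not_le_center hpm hB hyZ hoy hS⟩
    have e := c.m_eq h hpm ha
    subst e
    exact h.caseB hB

variable {P B H : Subgroup G} {y : G}

theorem normal_M (h : Hyp G p n) (c : YCfg p P y B H) (hy : 𝐂[y].index = p) : 𝐂[y].Normal := by
  rw [Core.normal_iff_top_le_normalizer]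
  obtain ⟨g, hg, hgy⟩ := h.exists_not_mem dvd_rfl c.syl c.nc
  refine ((PGrp.isCoatom_of_index_eq hy).2 _ (lt_of_le_of_ne le_normalizer fun e => hgy ?_)).ge
  rw [e]; exact c.le_normalizer hg

theorem normal_H (h : Hyp G p n) (c : YCfg p P y B H) (hy : 𝐂[y].index = p) : H.Normal := by
  have := normal_M h c hy
  rw [Core.normal_iff_top_le_normalizer]
  exact (normalizer_eq_top 𝐂[y]).ge.trans c.split.normalizer_le_H

theorem mem_H (h : Hyp G p n) (c : YCfg p P y B H) (hy : 𝐂[y].index = p) {R : Subgroup G}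
    (hR : (Nat.card R).Coprime p) : R ≤ H := by
  have := normal_M h c hy
  exact c.split.le_H (Core.le_of_coprime_card_index (hy ▸ hR)) hR

theorem index_H (h : Hyp G p n) (c : YCfg p P y B H) (hy : 𝐂[y].index = p) :
    ∃ a, H.index = p ^ a := by
  refine Cls.eq_pow_of_forall_prime_eq index_ne_zero_of_finite fun q hq hd => ?_
  by_contra hqp
  have := Fact.mk hq
  obtain ⟨R, hR⟩ := exists_isSylowIn q (⊤ : Subgroup G)
  obtain ⟨k, hk⟩ := hR.2.1.exists_card_eq
  exact not_dvd_index_of_isSylowIn_le hR (mem_H h c hy (hk ▸ coprime_of_ne_prime hq hqp)) hd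

theorem relIndex_H (h : Hyp G p n) (c : YCfg p P y B H) (hy : 𝐂[y].index = p) {x : G}
    (hx : 𝐂[x].index = p * n) : 𝐂[x].relIndex H = n := by
  have := normal_H h c hy
  apply Nat.dvd_antisymm
  · have h1 := Cls.relIndex_dvd_index_of_normal' 𝐂[x] H
    rw [hx] at h1
    exact (c.split.coprime.coprime_dvd_left (relIndex_dvd_card _ _)).dvd_of_dvd_mul_left h1
  · obtain ⟨a, ha⟩ := index_H h c hy
    have h2 : n ∣ 𝐂[x].relIndex H * H.index := by
      rw [← inf_relIndex_right, relIndex_mul_index inf_le_right]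
      exact (hx ▸ Dvd.intro_left p rfl : n ∣ 𝐂[x].index).trans (index_dvd_of_le inf_le_left)
    rw [ha] at h2
    exact (h.cop.symm.pow_right a).dvd_of_dvd_mul_right h2

theorem H_le_of_index (h : Hyp G p n) (c : YCfg p P y B H) (hy : 𝐂[y].index = p) {x : G}
    (hx : 𝐂[x].index = p) : H ≤ 𝐂[x] := by
  have := normal_H h c hy
  exact Cls.le_centralizer_of_coprime (hx ▸ c.split.coprime)

theorem index_of_not_mem (h : Hyp G p n) (c : YCfg p P y B H) (hy : 𝐂[y].index = p) {g : G}
    (hg : g ∈ P) (hgy : g ∉ 𝐂[y]) : 𝐂[g].index = p * n :=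
  (h.idx g (not_mem_center_of_not_mem hgy)).resolve_left fun e => c.not_le fun _ hw =>
    c.fixH h dvd_rfl hg hgy hw (mem_comm (H_le_of_index h c hy e hw))

theorem H_comm (h : Hyp G p n) (c : YCfg p P y B H) (hy : 𝐂[y].index = p) {w : G}
    (hw : w ∈ H) : H ≤ 𝐂[w] := by
  by_cases hZ : w ∈ center G
  · rw [Cls.centralizer_single_eq_top_iff.mpr hZ]; exact le_top
  refine H_le_of_index h c hy ((h.idx w hZ).resolve_right fun e => hZ ?_)
  obtain ⟨g, hg, hgy⟩ := h.exists_not_mem dvd_rfl c.syl c.nc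
  have h1 := Core.card_inf_mul_relIndex 𝐂[w] H
  have h2 := Core.card_inf_mul_relIndex 𝐂[g] H
  rw [relIndex_H h c hy e] at h1
  rw [relIndex_H h c hy (index_of_not_mem h c hy hg hgy)] at h2
  have hle : 𝐂[g] ⊓ H ≤ 𝐂[w] ⊓ H := fun v hv => mem_inf.mpr
    ⟨Cls.center_le_centralizer_single w (c.fixH h dvd_rfl hg hgy (mem_inf.mp hv).2
      (mem_comm (mem_inf.mp hv).1)), (mem_inf.mp hv).2⟩
  have e' := Core.eq_of_le_of_card_eq hle (Nat.eq_of_mul_eq_mul_right
    (by have := h.hn; omega) (h2.trans h1.symm))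
  have h3 : w ∈ 𝐂[g] ⊓ H := e' ▸ mem_inf.mpr ⟨Cls.self_mem_centralizer_single w, hw⟩
  exact c.fixH h dvd_rfl hg hgy hw (mem_comm (mem_inf.mp h3).1)

theorem dvd_sub_one (h : Hyp G p n) (c : YCfg p P y B H) (hy : 𝐂[y].index = p) : p ∣ n - 1 := by
  have := normal_H h c hy
  obtain ⟨g, hg, hgy⟩ := h.exists_not_mem dvd_rfl c.syl c.nc
  obtain ⟨k, hk⟩ := c.ord hg
  have h1 := relIndex_centralizer_modEq_one (Q := H) (Core.isPGroup_zpowers_of_orderOf hk)
    (by rw [normalizer_eq_top]; exact le_top)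
    ((Nat.Prime.coprime_iff_not_dvd hp.out).mp c.split.coprime.symm)
  rw [Cls.centralizer_zpowers, relIndex_H h c hy (index_of_not_mem h c hy hg hgy)] at h1
  exact (Nat.modEq_iff_dvd' h.hn.le).mp h1.symm

theorem le_sup_of_relIndex_le {K L : Subgroup G} (hL : IsPGroup p L) (hle : K.relIndex L ≤ p)
    {x : G} (hx : x ∈ L) (hxK : x ∉ K) : L ≤ K ⊔ zpowers x := by
  obtain ⟨k, hk⟩ := PGrp.exists_relIndex_eq_pow (H := K) hL
  have h1 : K.relIndex L = p := le_antisymm hle (Nat.le_of_dvd (hk ▸ pow_pos hp.out.pos k)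
    (PGrp.dvd_relIndex_of_not_le hL fun h => hxK (h hx)))
  have h2 := (PGrp.isCoatom_of_index_eq (H := K.subgroupOf L) h1).2
    ((K ⊔ zpowers x).subgroupOf L) (lt_of_le_of_ne (comap_mono le_sup_left) fun e => hxK (by
      have : (⟨x, hx⟩ : L) ∈ K.subgroupOf L := e ▸ mem_sup_right (mem_zpowers x)
      exact this))
  exact subgroupOf_eq_top.mp h2

theorem B_le_sup (h : Hyp G p n) (c : YCfg p P y B H) (hy : 𝐂[y].index = p) :
    B ≤ center G ⊔ zpowers y := by
  have := normal_M h c hy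
  obtain ⟨g, hg, hgy⟩ := h.exists_not_mem dvd_rfl c.syl c.nc
  have hgZ := not_mem_center_of_not_mem hgy
  obtain ⟨Q, hQ⟩ := exists_isSylowIn p 𝐂[g]
  have h1 : Nat.card Q = Nat.card B := card_eq_of_factorization hQ c.split.sylow
    ((h.fact dvd_rfl hgZ).trans (h.fact dvd_rfl c.nc).symm)
  have h2 := Core.card_inf_mul_relIndex 𝐂[y] Q
  have h3 : 𝐂[y].relIndex Q ≤ p :=
    Nat.le_of_dvd hp.out.pos (hy ▸ relIndex_dvd_index_of_normal 𝐂[y] Q)
  have h4 : 𝐂[y] ⊓ Q ≤ center G ⊓ B := by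
    intro u hu
    have huB := c.split.le_B inf_le_left (hQ.2.1.to_le inf_le_right) hu
    exact mem_inf.mpr ⟨c.fixB h dvd_rfl hg hgy huB (mem_comm (hQ.1 (mem_inf.mp hu).2)), huB⟩
  have h5 := Core.card_inf_mul_relIndex (center G) B
  have h6 := card_le_of_le h4
  refine le_sup_of_relIndex_le c.split.isPGroup ?_
    (c.mem_B c.mem (Cls.self_mem_centralizer_single y)) c.nc
  refine Nat.le_of_mul_le_mul_left ?_ (Nat.card_pos (α := ↥(center G ⊓ B)))
  rw [h5, ← h1, ← h2]
  exact Nat.mul_le_mul h6 h3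

theorem M_comm (h : Hyp G p n) (c : YCfg p P y B H) (hy : 𝐂[y].index = p) {x : G}
    (hx : x ∈ 𝐂[y]) : 𝐂[y] ≤ 𝐂[x] := by
  obtain ⟨u, hu, v, hv, rfl⟩ := c.split.exists_mul hx
  have h1 : 𝐂[y] ≤ 𝐂[u] := c.split.le_of ((B_le_sup h c hy).trans (sup_le
    (Cls.center_le_centralizer_single u) (zpowers_le.mpr (mem_comm (c.split.B_le hu)))))
    (c.split.H_le_centralizer hu)
  have h2 : 𝐂[y] ≤ 𝐂[v] := c.split.le_of (c.split.B_le_centralizer hv) (H_comm h c hy hv)
  exact fun g hg => Cls.mem_centralizer_single_commute.mpr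
    ((Cls.mem_centralizer_single_commute.mp (h1 hg)).mul_right
      (Cls.mem_centralizer_single_commute.mp (h2 hg)))

theorem mem_M_iff (h : Hyp G p n) (c : YCfg p P y B H) (hy : 𝐂[y].index = p) (x : G) :
    x ∈ 𝐂[y] ↔ 𝐂[x].index = 1 ∨ 𝐂[x].index = p := by
  constructor
  · intro hx
    exact (Nat.dvd_prime hp.out).mp (hy ▸ index_dvd_of_le (M_comm h c hy hx))
  · rintro (e | e)
    · exact Cls.center_le_centralizer_single y (Cls.index_centralizer_eq_one_iff.mp e)
    · have h1 : x ∈ centralizer (H : Set G) :=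
        Cls.le_centralizer_single_iff.mp (H_le_of_index h c hy e)
      have h2 : 𝐂[y] ≤ centralizer (H : Set G) := fun g hg w hw =>
        (Cls.mem_centralizer_single.mp (M_comm h c hy (c.split.H_le hw) hg)).symm
      by_contra hx
      have h3 := (PGrp.isCoatom_of_index_eq hy).2 _ (lt_of_le_of_ne h2 fun e => hx (e ▸ h1))
      exact c.not_le (centralizer_eq_top_iff_subset.mp h3)

theorem card_commutator (h : Hyp G p n) (c : YCfg p P y B H) (hy : 𝐂[y].index = p) :
    Nat.card (commutator P) = p := by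
  have := normal_M h c hy
  obtain ⟨g, hg, hgy⟩ := h.exists_not_mem dvd_rfl c.syl c.nc
  have hP : P ≤ (center G ⊔ zpowers y) ⊔ zpowers g := by
    have h1 := le_sup_of_relIndex_le (K := 𝐂[y] ⊓ P) c.syl.2.1 (by
      rw [inf_relIndex_right]
      exact Nat.le_of_dvd hp.out.pos (hy ▸ relIndex_dvd_index_of_normal 𝐂[y] P)) hg
      (fun h' => hgy (mem_inf.mp h').1)
    exact h1.trans (sup_le_sup_right ((c.split.le_B inf_le_left
      (c.syl.2.1.to_le inf_le_right)).trans (B_le_sup h c hy)) _)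
  set z := y⁻¹ * (g * y * g⁻¹) with hz
  have hzZ : z ∈ center G := c.comm g hg
  have e : g * y * g⁻¹ = y * z := by rw [hz]; group
  have hoz : orderOf z = p := by
    refine orderOf_eq_prime (pow_eq_one_of_central hzZ e c.pow) fun h1 => hgy ?_
    rw [h1, mul_one] at e
    exact Cls.mem_centralizer_single.mpr (mul_inv_eq_iff_eq_mul.mp e)
  have hD : ⁅P, P⁆ = zpowers z := by
    apply le_antisymm
    · have := Core.normal_of_le_center (zpowers_le.mpr hzZ)
      set f := QuotientGroup.mk' (zpowers z)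
      have key : ∀ a : G, f g * f a = f a * f g → f y * f a = f a * f y →
          ∀ b ∈ P, f b * f a = f a * f b := by
        intro a h1 h2 b hb
        have : (center G ⊔ zpowers y) ⊔ zpowers g ≤ (𝐂[f a]).comap f :=
          sup_le (sup_le (fun w hw => Cls.mem_centralizer_single.mpr (by
            rw [← map_mul, ← map_mul, mem_center_iff.mp hw a]))
            (zpowers_le.mpr (Cls.mem_centralizer_single.mpr h2)))
            (zpowers_le.mpr (Cls.mem_centralizer_single.mpr h1))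
        exact Cls.mem_centralizer_single.mp (this (hP hb))
      have hgy' : f g * f y = f y * f g := by
        have h1 : f z = 1 := (QuotientGroup.eq_one_iff z).mpr (mem_zpowers z)
        have h2 := congrArg f e
        rw [map_mul, map_mul, map_mul, h1, mul_one, map_inv] at h2
        exact mul_inv_eq_iff_eq_mul.mp h2
      rw [commutator_le]
      intro a ha b hb
      rw [← QuotientGroup.eq_one_iff]
      change f _ = 1
      rw [map_commutatorElement, commutatorElement_eq_one_iff_mul_comm]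
      exact key b (key g rfl hgy'.symm b hb).symm (key y hgy' rfl b hb).symm a ha
    · rw [zpowers_le]
      have := commutator_mem_commutator (P.inv_mem c.mem) hg
      rw [commutatorElement_def] at this
      convert this using 1
      rw [hz]; group
  rw [← Core.card_map_subtype, map_subtype_commutator, hD, Nat.card_zpowers, hoz]

end

/-- Let G be a finite group with no nontrivial abelian direct factor whose conjugacy class sizes are exactly 1, m and m·n with m, n > 1 coprime. Then m is a prime p dividing n − 1; the elements whose class has size 1 or p form an abelian normal subgroup of index p; G has a normal p-complement; and the commutator subgroup of a Sylow p-subgroup of G has order p. -/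
theorem result {G : Type*} [Group G] [Finite G] (hnodf : ∀ A B : Subgroup G, A.Normal → B.Normal → A ⊓ B = ⊥ → A ⊔ B = ⊤ → IsMulCommutative A → A = ⊥) (m n : ℕ) (hm : 1 < m) (hn : 1 < n) (hcop : m.Coprime n) (h : Set.range (fun x : G => (Subgroup.centralizer ({x} : Set G)).index) = ({1, m, m * n} : Set ℕ)) : m.Prime ∧ m ∣ n - 1 ∧ (∃ M : Subgroup G, M.Normal ∧ (M : Set G) = {x : G | (Subgroup.centralizer ({x} : Set G)).index = 1 ∨ (Subgroup.centralizer ({x} : Set G)).index = m} ∧ M.index = m ∧ IsMulCommutative M) ∧ (∃ N : Subgroup G, N.Normal ∧ (Nat.card N).Coprime m ∧ ∃ a : ℕ, N.index = m ^ a) ∧ ∀ P : Sylow m G, Nat.card (commutator (P : Subgroup G)) = m := by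
  have hh : Hyp G m n := by
    refine ⟨hm, hn, hcop, fun x hx => ?_, ?_, ?_⟩
    · have h1 : (Subgroup.centralizer ({x} : Set G)).index ∈ ({1, m, m * n} : Set ℕ) :=
        h ▸ ⟨x, rfl⟩
      rcases h1 with e | e | e
      · exact absurd (Cls.index_centralizer_eq_one_iff.mp e) hx
      · exact Or.inl e
      · exact Or.inr e
    · have h1 : m ∈ ({1, m, m * n} : Set ℕ) := by simp
      rw [← h] at h1
      exact h1
    · have h1 : m * n ∈ ({1, m, m * n} : Set ℕ) := by simp
      rw [← h] at h1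
      exact h1
  obtain ⟨p, a, hp, ha0, ha⟩ := hh.exists_prime_pow
  have := Fact.mk hp
  have hpm : p ∣ m := ha ▸ dvd_pow_self p ha0.ne'
  obtain ⟨P, hP⟩ := exists_isSylowIn p (⊤ : Subgroup G)
  obtain ⟨y, B, H, c, hy⟩ := exists_ycfg' hh hpm ha hP
  have e := c.m_eq hh hpm ha
  clear ha
  subst e
  refine ⟨hp, dvd_sub_one hh c hy, ⟨_, normal_M hh c hy, ?_, hy, ?_⟩,
    ⟨H, normal_H hh c hy, c.split.coprime, index_H hh c hy⟩, fun Q => ?_⟩
  · ext x
    exact mem_M_iff hh c hy x
  · exact Core.isMulCommutative_of_forall fun a ha b hb =>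
      Cls.mem_centralizer_single.mp (M_comm hh c hy hb ha)
  · obtain ⟨y', B', H', c', hy'⟩ := exists_ycfg' hh hpm (pow_one m).symm (isSylowIn_top Q)
    exact card_commutator hh c' hy'

end Cfsg.Agent.S4284
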