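import Cfsg.Statements.S4330
import Mathlib
import Cfsg.Agent.Lib.Core.Gluck2
import Cfsg.Agent.Lib.Core.Subnormal

set_option autoImplicit false
open Pointwise
open Cfsg

namespace Cfsg.Agent.S4330

open Subgroup Cfsg.Agent.Core

universe u

theorem aux {p : ℕ} [hp : Fact p.Prime] (hp2 : p ≠ 2) (G : Type u) [Group G] [Finite G] :
    Group.IsSolvable G → ∀ a : G,
      (∀ c : G, ∃ g : G, IsConj c g ∧ IsPGroup p (closure ({a, g * a * g⁻¹} : Set G))) →
      a ∈ pCore p G := by
  refine induction_on_card (P := fun G _ _ => Group.IsSolvable G → ∀ a : G,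
      (∀ c : G, ∃ g : G, IsConj c g ∧ IsPGroup p (closure ({a, g * a * g⁻¹} : Set G))) →
      a ∈ pCore p G) ?_ G
  intro G _ _ ih hG a h
  rcases subsingleton_or_nontrivial G with _ | _
  · rw [Subsingleton.elim a 1]; exact one_mem _
  obtain ⟨N, hN⟩ := exists_isMinNormal (G := G)
  have := hN.normal
  obtain ⟨q, hq, hE⟩ := hN.exists_isElementaryAbelian inferInstance
  have h1 := ih (G ⧸ N) (card_quotient_lt hN.ne_bot) inferInstance (a : G ⧸ N) fun c => by
    obtain ⟨c, rfl⟩ := QuotientGroup.mk_surjective c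
    obtain ⟨g, hg, hP⟩ := h c
    refine ⟨g, (QuotientGroup.mk' N).map_isConj hg, ?_⟩
    have := hP.map (QuotientGroup.mk' N)
    rwa [MonoidHom.map_closure, Set.image_pair] at this
  have hNq := isPGroup_of_isElementaryAbelian hE
  by_cases hqp : q = p
  · subst hqp
    rw [← comap_mk_pCore hNq]
    exact h1
  have : Fact q.Prime := ⟨hq⟩
  obtain ⟨K, hK⟩ : ∃ K, K = (pCore p (G ⧸ N)).comap (QuotientGroup.mk' N) := ⟨_, rfl⟩
  have hKn : K.Normal := hK ▸ inferInstance
  have hcop : (Nat.card N).Coprime p := by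
    obtain ⟨k, hk⟩ := IsPGroup.iff_card.1 hNq
    rw [hk]
    exact ((Nat.coprime_primes hq hp.out).2 hqp).pow_left k
  have ha : IsPGroup p (zpowers a) := by
    obtain ⟨g, -, hP⟩ := h 1
    exact hP.to_le (zpowers_le.2 (Subgroup.subset_closure (by simp)))
  obtain ⟨P, hP, haP⟩ := Coprime.exists_isSylowIn_ge (G := K) (zpowers_le.2 (hK ▸ h1)) ha
  have hKP : K ≤ P ⊔ N := by
    have h2 := hP.map (QuotientGroup.mk' N)
    have h3 := h2.eq_of_le h2.1 le_rfl ((isPGroup_pCore p).to_le (hK ▸ map_comap_le _ _))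
    exact (map_mk_le_map_mk_iff N K P).1 h3.le
  have hfr := hP.frattini_argument le_top (normal_iff_top_le_normalizer.1 hKn)
  have hG' : N ⊔ normalizer (P : Set G) = ⊤ := by
    rw [eq_top_iff, ← hfr]
    exact sup_le (hKP.trans (sup_le (le_normalizer.trans le_sup_right) le_sup_left))
      (inf_le_right.trans le_sup_right)
  have hNn : normalizer (P : Set G) ≤ normalizer (N : Set G) :=
    le_top.trans (normal_iff_top_le_normalizer.1 inferInstance)
  have haN : a ∈ centralizer (N : Set G) := by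
    by_contra hc
    obtain ⟨v, hv, h2⟩ := exists_not_commute_conj hp2 _ G N (normalizer (P : Set G)) P a rfl hE.1
      hcop hNn le_normalizer le_rfl hP.2.1 (haP (mem_zpowers a)) hc
    obtain ⟨g, hg, h3⟩ := h v
    obtain ⟨u, rfl⟩ := isConj_iff.1 hg
    have hu : u ∈ N ⊔ normalizer (P : Set G) := hG' ▸ mem_top u
    obtain ⟨n, hn, k, hk, rfl⟩ := (mem_sup_of_le_normalizer' hNn).1 hu
    have hw : k * v * k⁻¹ ∈ N := hN.normal.conj_mem v hv k
    have e : n * k * v * (n * k)⁻¹ = k * v * k⁻¹ := by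
      calc n * k * v * (n * k)⁻¹ = n * (k * v * k⁻¹) * n⁻¹ := by group
        _ = _ := by rw [Coprime.mul_comm_of_mem hE.1 hn hw]; group
    rw [e] at h3
    obtain ⟨w, hwd⟩ : ∃ w, w = k * v * k⁻¹ := ⟨_, rfl⟩
    rw [← hwd] at h3 hw
    have h4 : w * a * w⁻¹ * a⁻¹ ∈ closure ({a, w * a * w⁻¹} : Set G) ⊓ N :=
      mem_inf.2 ⟨mul_mem (Subgroup.subset_closure (by simp))
        (inv_mem (Subgroup.subset_closure (by simp))), by
          rw [mul_assoc, mul_assoc, ← mul_assoc a]
          exact N.mul_mem hw (hN.normal.conj_mem _ (N.inv_mem hw) a)⟩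
    rw [inf_comm, inf_eq_bot_of_coprime_card (Coprime.coprime_card_of_isPGroup hcop h3), mem_bot,
      mul_inv_eq_one, mul_inv_eq_iff_eq_mul, hwd] at h4
    refine h2 k⁻¹ (inv_mem hk) ?_
    calc k⁻¹ * a * k⁻¹⁻¹ * v = k⁻¹ * (a * (k * v * k⁻¹)) * k := by group
      _ = _ := by rw [← h4]; group
  have hD : (P ⊓ centralizer (N : Set G)).Normal := by
    rw [normal_iff_top_le_normalizer, ← hG']
    exact sup_le ((le_centralizer_iff.1 inf_le_right).trans (centralizer_le_normalizer _))
      (le_normalizer_inf le_rfl (le_normalizer_centralizer hNn))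
  exact le_pCore (hP.2.1.to_le (inf_le_left : P ⊓ centralizer (N : Set G) ≤ P))
    (mem_inf.2 ⟨haP (mem_zpowers a), haN⟩)

/-- Let G be a finite solvable group, p an odd prime and A a p-subgroup of G such that every conjugacy class of G contains an element g for which A is subnormal in the subgroup generated by A and its conjugate by g. Then A is contained in O_p(G). (The hypothesis that p is odd is needed.) -/
theorem result {G : Type*} [Group G] [Finite G]
    (hG : Group.IsSolvable G) (p : ℕ) [Fact p.Prime] (hp : p ≠ 2) (A : Subgroup G) (hA : IsPGroup p A)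
    (h : ∀ c : G, ∃ g : G, IsConj c g ∧ (A.subgroupOf (A ⊔ MulAut.conj g • A)).IsSubnormal) :
    A ≤ Cfsg.pCore p G := by
  intro a ha
  refine aux hp G hG a fun c => ?_
  obtain ⟨g, hg, hs⟩ := h c
  refine ⟨g, hg, ?_⟩
  rw [smul_eq_map_conj] at hs
  obtain ⟨L, hL⟩ : ∃ L, L = A ⊔ A.map (MulAut.conj g).toMonoidHom := ⟨_, rfl⟩
  rw [← hL] at hs
  have h1 : A ≤ pCoreOf p L := by
    have := map_mono (f := L.subtype)
      (le_pCore_of_isSubnormal hs (hA.comap_of_injective L.subtype L.subtype_injective))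
    rwa [map_subgroupOf_eq_of_le (hL ▸ le_sup_left)] at this
  have h2 : IsPGroup p ↥(A.map (MulAut.conj g).toMonoidHom ⊔ pCoreOf p L) :=
    (hA.map _).to_sup_of_normal_right' (isPGroup_pCoreOf L)
      ((hL ▸ le_sup_right : _ ≤ L).trans (le_normalizer_pCoreOf L))
  refine h2.to_le ((closure_le _).2 ?_)
  rintro _ (rfl | rfl)
  · exact mem_sup_right (h1 ha)
  · exact mem_sup_left (conj_mem_map_conj ha)

end Cfsg.Agent.S4330
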