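import Cfsg.Statements.S4331
import Cfsg.Agent.Lib.Core.Subnormal

set_option autoImplicit false
open Cfsg

namespace Cfsg.Agent.S4331

open Subgroup

/-- The semidihedral group of order 16. -/
structure H where
  k : Fin 8
  s : Bool
  deriving DecidableEq, Fintype

instance : Mul H := ⟨fun x y => ⟨x.k + (if x.s then 3 * y.k else y.k), xor x.s y.s⟩⟩
instance : One H := ⟨⟨0, false⟩⟩
instance : Inv H := ⟨fun x => ⟨if x.s then 5 * x.k else 7 * x.k, x.s⟩⟩

instance : Group H := Group.ofLeftAxioms (by decide +kernel) (by decide +kernel) (by decide +kernel)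

abbrev V := Multiplicative (ZMod 3 × ZMod 3)

def mulU (v : ZMod 3 × ZMod 3) : ZMod 3 × ZMod 3 := (v.1 - v.2, v.1 + v.2)

def act (h : H) (v : V) : V :=
  Multiplicative.ofAdd (mulU^[h.k.val] (if h.s then (v.toAdd.1, -v.toAdd.2) else v.toAdd))

theorem act_mul : ∀ (g h : H) (v : V), act (g * h) v = act g (act h v) := by decide +kernel
theorem act_one : ∀ v : V, act 1 v = v := by decide +kernel
theorem act_add : ∀ (g : H) (v w : V), act g (v * w) = act g v * act g w := by decide +kernel

def φ : H →* MulAut V where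
  toFun g :=
    { toFun := act g
      invFun := act g⁻¹
      left_inv := fun v => by rw [← act_mul, inv_mul_cancel, act_one]
      right_inv := fun v => by rw [← act_mul, mul_inv_cancel, act_one]
      map_mul' := act_add g }
  map_one' := MulEquiv.ext act_one
  map_mul' g h := MulEquiv.ext (act_mul g h)

abbrev G := V ⋊[φ] H

instance : DecidableEq G := fun x y =>
  decidable_of_iff (x.left = y.left ∧ x.right = y.right) SemidirectProduct.ext_iff.symm

instance : Finite G := Finite.of_equiv _ (SemidirectProduct.equivProd (φ := φ)).symm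

def a : G := ⟨1, ⟨0, true⟩⟩

def v0 : G := ⟨Multiplicative.ofAdd (0, 1), 1⟩

theorem key : ∀ (v : V) (h : H), ∃ (w : V) (k : H),
    ((⟨w, k⟩ : G) * ⟨v, h⟩ * (⟨w, k⟩ : G)⁻¹).left = 1 ∨
      a * ((⟨w, k⟩ : G) * ⟨v, h⟩ * (⟨w, k⟩ : G)⁻¹) = ((⟨w, k⟩ : G) * ⟨v, h⟩ * (⟨w, k⟩ : G)⁻¹) * a := by
  decide +kernel

theorem hH : IsPGroup 2 H := IsPGroup.of_card (n := 4) (by rw [Nat.card_eq_fintype_card]; rfl)

/-- There is a finite solvable group G with a subgroup A of order 2 such that every conjugacy class of G contains an element g for which A is subnormal in the subgroup generated by A and g, and yet A is not contained in O_2(G). (So the corresponding criteria for odd primes fail at the prime 2, even for solvable groups.) -/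
theorem result :
    ∃ (G : Type) (_ : Group G) (_ : Finite G) (A : Subgroup G), Group.IsSolvable G ∧ Nat.card A = 2 ∧
      (∀ c : G, ∃ g : G, IsConj c g ∧ (A.subgroupOf (A ⊔ Subgroup.zpowers g)).IsSubnormal) ∧
      ¬ A ≤ Cfsg.pCore 2 G := by
  refine ⟨G, inferInstance, inferInstance, zpowers a, ?_, ?_, ?_, ?_⟩
  · have := hH.isNilpotent
    exact Group.isSolvable_of_ker_le_range SemidirectProduct.inl SemidirectProduct.rightHom
      SemidirectProduct.range_inl_eq_ker_rightHom.ge
  · rw [Nat.card_zpowers]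
    exact orderOf_eq_prime (by decide +kernel) (by decide +kernel)
  · rintro ⟨v, h⟩
    obtain ⟨w, k, hk⟩ := key v h
    refine ⟨_, isConj_iff.2 ⟨⟨w, k⟩, rfl⟩, ?_⟩
    set g := (⟨w, k⟩ : G) * ⟨v, h⟩ * (⟨w, k⟩ : G)⁻¹
    rcases hk with hk | hk
    · have h1 : zpowers a ⊔ zpowers g ≤ (SemidirectProduct.inr : H →* G).range := by
        refine sup_le (zpowers_le.2 ⟨a.right, rfl⟩) (zpowers_le.2 ⟨g.right, ?_⟩)
        exact SemidirectProduct.ext hk.symm rfl
      have h2 : IsPGroup 2 (zpowers a ⊔ zpowers g : Subgroup G) :=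
        (hH.of_surjective _ (MonoidHom.rangeRestrict_surjective _)).to_le h1
      have := h2.isNilpotent
      exact Core.isSubnormal_of_isNilpotent _
    · refine Normal.isSubnormal (normal_subgroupOf_of_le_normalizer (sup_le le_normalizer ?_))
      refine (zpowers_le.2 ?_).trans (centralizer_le_normalizer _)
      rintro _ ⟨n, rfl⟩
      exact ((show Commute a g from hk).zpow_left n).eq
  · intro h
    have h1 : a ∈ pCore 2 G := h (mem_zpowers a)
    have h2 : a * (v0 * a * v0⁻¹) ∈ pCore 2 G :=
      mul_mem h1 ((inferInstance : (pCore 2 G).Normal).conj_mem _ h1 v0)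
    have h3 : a * (v0 * a * v0⁻¹) = v0 := by decide +kernel
    rw [h3] at h2
    obtain ⟨k, hk⟩ := Core.isPGroup_pCore 2 ⟨v0, h2⟩
    have h4 : v0 ^ 2 ^ k = 1 := congrArg Subtype.val hk
    have h5 : orderOf v0 = 3 :=
      haveI : Fact (Nat.Prime 3) := ⟨by norm_num⟩
      orderOf_eq_prime (by decide +kernel) (by decide +kernel)
    have h6 := orderOf_dvd_of_pow_eq_one h4
    rw [h5] at h6
    exact absurd (Nat.prime_three.dvd_of_dvd_pow h6) (by norm_num)

end Cfsg.Agent.S4331
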