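import Cfsg.Statements.S4332
import Mathlib
import Cfsg.Agent.Lib.Perm.Swaps
import Cfsg.Agent.Lib.Core.PCore

set_option autoImplicit false
open Pointwise
open Cfsg

namespace Cfsg.Agent.S4332

open Equiv Equiv.Perm

theorem comm_swap {α : Type*} [DecidableEq α] {a b c d : α} (h1 : a ≠ b) (h2 : c ≠ d)
    (h3 : c ≠ a) (h4 : c ≠ b) (h5 : d ≠ a) (h6 : d ≠ b) : Commute (swap a b) (swap c d) := by
  apply Disjoint.commute
  apply disjoint_swap_swap
  simp [h1, h2, h3.symm, h4.symm, h5.symm, h6.symm]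

theorem exists_three (c : Perm (Fin 8)) : ∃ x y z : Fin 8, x ≠ y ∧ x ≠ z ∧ y ≠ z ∧
    Commute (swap x y * swap x z) (swap (c x) (c y) * swap (c x) (c z)) := by
  have good : ∀ x y z : Fin 8, x ≠ y → x ≠ z → y ≠ z → c x ≠ x → c x ≠ y → c x ≠ z → c y ≠ x →
      c y ≠ y → c y ≠ z → c z ≠ x → c z ≠ y → c z ≠ z → ∃ x y z : Fin 8, x ≠ y ∧ x ≠ z ∧ y ≠ z ∧
      Commute (swap x y * swap x z) (swap (c x) (c y) * swap (c x) (c z)) := by
    intro x y z h1 h2 h3 a1 a2 a3 b1 b2 b3 c1 c2 c3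
    refine ⟨x, y, z, h1, h2, h3, ?_⟩
    have h1' := c.injective.ne h1
    have h2' := c.injective.ne h2
    refine Commute.mul_left (Commute.mul_right ?_ ?_) (Commute.mul_right ?_ ?_) <;>
      apply comm_swap <;> assumption
  by_cases h : c.support.card ≤ 5
  · have : 2 < c.supportᶜ.card := by rw [Finset.card_compl, Fintype.card_fin]; omega
    obtain ⟨x, y, z, hx, hy, hz, h1, h2, h3⟩ := Finset.two_lt_card_iff.1 this
    rw [Finset.mem_compl, notMem_support] at hx hy hz
    exact ⟨x, y, z, h1, h2, h3, by rw [hx, hy, hz]⟩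
  have pick : ∀ a1 a2 a3 a4 a5 : Fin 8, ∃ z, c z ≠ z ∧ z ≠ a1 ∧ z ≠ a2 ∧ z ≠ a3 ∧ z ≠ a4 ∧
      z ≠ a5 := by
    intro a1 a2 a3 a4 a5
    obtain ⟨z, hz, hz'⟩ := Finset.exists_mem_notMem_of_card_lt_card
      (s := {a1, a2, a3, a4, a5}) (t := c.support) (Finset.card_le_five.trans_lt (by omega))
    exact ⟨z, mem_support.1 hz, by simpa [not_or] using hz'⟩
  obtain ⟨x, hx, -⟩ := pick 0 0 0 0 0
  have hx2 : c (c x) ≠ c x := c.injective.ne hx
  by_cases h2 : c (c x) = x
  · obtain ⟨y, hy, h3, h4, -⟩ := pick x (c x) x x x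
    obtain ⟨z, hz, h5, h6, h7, h8, h9⟩ := pick x (c x) y (c y) (c⁻¹ y)
    refine good x y z h3.symm h5.symm h7.symm hx h4.symm h6.symm ?_ hy h8.symm ?_ ?_ hz
    · intro h; exact h4 (c.injective (h.trans h2.symm))
    · intro h; exact h6 (c.injective (h.trans h2.symm))
    · intro h; exact h9 (eq_inv_iff_eq.2 h)
  by_cases h3 : c (c (c x)) = x
  · refine ⟨x, c x, c (c x), hx.symm, Ne.symm h2, hx2.symm, ?_⟩
    rw [h3]
    have : swap (c x) (c (c x)) * swap (c x) x = swap x (c x) * swap x (c (c x)) := by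
      rw [swap_comm (c x) x, swap_mul_eq_mul_swap, swap_inv, swap_apply_right,
        swap_apply_of_ne_of_ne h2 hx2]
    rw [this]
  · obtain ⟨z, hz, h5, h6, h7, h8, h9⟩ := pick x (c x) (c (c x)) (c (c (c x))) (c⁻¹ x)
    refine good x (c (c x)) z (Ne.symm h2) h5.symm h7.symm hx hx2.symm h6.symm h3
      (c.injective.ne hx2) h8.symm ?_ (c.injective.ne h6) hz
    intro h; exact h9 (eq_inv_iff_eq.2 h)



/-- In the symmetric group of degree 8, let A be the subgroup generated by a 3-cycle. Then every conjugacy class contains an element g for which A is subnormal in the subgroup generated by A and its conjugate by g, although O_3 of the symmetric group of degree 8 is trivial. -/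
theorem result
    (σ : Equiv.Perm (Fin 8)) (hσ : σ.IsThreeCycle) :
    (∀ c : Equiv.Perm (Fin 8), ∃ g : Equiv.Perm (Fin 8), IsConj c g ∧
      ((Subgroup.zpowers σ).subgroupOf (Subgroup.zpowers σ ⊔ MulAut.conj g • Subgroup.zpowers σ)).IsSubnormal) ∧
    Cfsg.pCore 3 (Equiv.Perm (Fin 8)) = ⊥ := by
  constructor
  · intro c
    obtain ⟨x, y, z, h1, h2, h3, h4⟩ := exists_three c
    have h5 := isThreeCycle_swap_mul_swap_same h1 h2 h3
    obtain ⟨s, hs⟩ := isConj_iff.1 (isConj_iff_cycleType_eq.2 (h5.cycleType.trans hσ.cycleType.symm))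
    refine ⟨s * c * s⁻¹, isConj_iff.2 ⟨s, rfl⟩, Subgroup.Normal.isSubnormal ?_⟩
    have h6 : Commute σ (s * c * s⁻¹ * σ * (s * c * s⁻¹)⁻¹) := by
      have := h4.map (MulAut.conj s)
      rw [swap_apply_apply, swap_apply_apply, MulAut.conj_apply, hs, MulAut.conj_apply] at this
      have e : s * c * s⁻¹ * σ * (s * c * s⁻¹)⁻¹ =
          s * (c * swap x y * c⁻¹ * (c * swap x z * c⁻¹)) * s⁻¹ := by
        rw [← hs]
        group
      rwa [e]
    refine Subgroup.normal_subgroupOf_of_le_normalizer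
      (sup_le Subgroup.le_normalizer (le_trans ?_ (Subgroup.centralizer_le_normalizer _)))
    rintro _ ⟨_, ⟨i, rfl⟩, rfl⟩ _ ⟨j, rfl⟩
    have := h6.zpow_zpow j i
    rw [conj_zpow] at this
    exact this
  · rw [Core.pCore_eq_bot_iff]
    intro N hN h
    by_contra h1
    have := Perm.isPretransitive_of_normal (X := Fin 8) h1
    have h2 := Perm.card_dvd_card_of_isPretransitive N (Fin 8)
    have : Fact (Nat.Prime 3) := ⟨Nat.prime_three⟩
    obtain ⟨k, hk⟩ := IsPGroup.iff_card.1 h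
    rw [Nat.card_eq_fintype_card, Fintype.card_fin, hk] at h2
    exact absurd (Nat.prime_two.dvd_of_dvd_pow (Dvd.dvd.trans (by norm_num) h2)) (by norm_num)

end Cfsg.Agent.S4332
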