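import Cfsg.Statements.S4334
import Cfsg.Agent.Lib.Coprime.Wielandt

set_option autoImplicit false
open Cfsg

namespace Cfsg.Agent.S4334

/-- Let σ and τ be disjoint sets of primes with union π. Suppose a finite group G has a Hall π-subgroup H which is the direct product of a nilpotent σ-subgroup and a τ-subgroup (two elementwise-commuting subgroups generating H), and that the maximal τ-subgroups of G are pairwise conjugate. Then the maximal π-subgroups of G are pairwise conjugate. -/
theorem result {G : Type*} [Group G] [Finite G]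
    (σ τ π : Set ℕ) (hπ : π = σ ∪ τ) (hd : Disjoint σ τ) (H Hs Ht : Subgroup G) (hH : Cfsg.IsPiHall π H)
    (hs : Cfsg.IsPiSubgroup σ Hs) (ht : Cfsg.IsPiSubgroup τ Ht) (hsn : Group.IsNilpotent Hs)
    (hjoin : Hs ⊔ Ht = H) (hcomm : ∀ a ∈ Hs, ∀ b ∈ Ht, a * b = b * a) (hD : Cfsg.IsDPiGroup τ G) :
    Cfsg.IsDPiGroup π G := by
  subst hπ
  have h1 : Hs ≤ Subgroup.centralizer (Ht : Set G) := fun a ha b hb => (hcomm a ha b hb).symm
  have h2 : (Nat.card Hs).Coprime (Nat.card Ht) := Nat.coprime_of_dvd fun q hq h h' =>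
    Set.disjoint_left.mp hd (hs q hq h) (ht q hq h')
  have h3 : Nat.card H = Nat.card Hs * Nat.card Ht := by
    rw [← hjoin, Core.card_sup_of_disjoint (h1.trans (Subgroup.centralizer_le_normalizer _))
      (Coprime.inf_eq_bot_of_coprime' h2)]
  have h4 : Hs ≤ H := hjoin ▸ le_sup_left
  have h5 : Ht ≤ H := hjoin ▸ le_sup_right
  have h6 : IsPiHall τ Ht := by
    refine ⟨ht, fun q hq h h' => ?_⟩
    have := Core.card_mul_relIndex_of_le h5
    rw [h3, mul_comm] at this
    rw [← Subgroup.relIndex_mul_index h5, Nat.eq_of_mul_eq_mul_right Nat.card_pos this] at h'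
    exact ((Nat.Prime.dvd_mul hq).mp h').elim (fun e => Set.disjoint_left.mp hd (hs q hq e) h)
      (hH.2 q hq (Or.inr h))
  have h7 : (Nat.card Hs).Coprime Hs.index := by
    have := Core.card_mul_relIndex_of_le h4
    rw [h3] at this
    rw [← Subgroup.relIndex_mul_index h4, Nat.eq_of_mul_eq_mul_left Nat.card_pos this]
    exact h2.mul_right ((Coprime.isPiHall_coprime hH).coprime_dvd_left (Subgroup.card_dvd_of_le h4))
  have h8 := Coprime.coversPi_sup_of_isNilpotent Hs hsn h7 h6 h1
    (Coprime.coversPi_of_isDPiGroup h6 hD)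
  rw [hjoin] at h8
  refine Coprime.isDPiGroup_of_coversPi hH.1 fun K hK => h8 K fun q hq hq' => ?_
  have h9 := hq'.trans (Subgroup.card_subgroup_dvd_card K)
  rw [← H.card_mul_index] at h9
  have h10 := ((Nat.Prime.dvd_mul hq).mp h9).resolve_right (hH.2 q hq (hK q hq hq'))
  rw [h3] at h10
  exact ((Nat.Prime.dvd_mul hq).mp h10).imp id (ht q hq)

end Cfsg.Agent.S4334
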