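import Cfsg.Statements.S4337
import Mathlib
import Cfsg.Agent.Lib.Perm.Swaps
import Cfsg.Agent.Lib.Char.Burnside

set_option autoImplicit false
open Cfsg

namespace Cfsg.Agent.S4337

/-- In a finite symmetric group, any three transpositions generate a solvable subgroup. -/
theorem result (n : ℕ) (a b c : Equiv.Perm (Fin n))
    (ha : a.IsSwap) (hb : b.IsSwap) (hc : c.IsSwap) :
    Group.IsSolvable (Subgroup.closure ({a, b, c} : Set (Equiv.Perm (Fin n)))) := by
  refine Char.solvable_of_two_primes Nat.prime_two Nat.prime_three fun p hp h => ?_
  have h1 : Set.range ![a, b, c] = {a, b, c} := by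
    ext x; simp [or_comm, or_assoc, or_left_comm]
  rw [← h1] at h
  have := Perm.prime_le_of_dvd_card_closure_swaps ![a, b, c]
    (fun i => by fin_cases i <;> assumption) hp h
  rw [Nat.card_eq_fintype_card, Fintype.card_fin] at this
  have h2 := hp.two_le
  interval_cases p
  · simp
  · simp
  · exact absurd hp (by decide)

end Cfsg.Agent.S4337
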