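import Cfsg.Statements.S4338
import Mathlib
import Cfsg.Agent.Lib.BR.CaseB
import Cfsg.Agent.Lib.BR.Red

set_option autoImplicit false
open Cfsg

namespace Cfsg.Agent.S4338

/-- Let G be a finite group and p a prime, and suppose the number n of Sylow p-subgroups of G is less than p². Then n is a power of a prime (possibly 1), or p = 13 and n = 144, or p is odd with p + 1 not a power of 2 and n = 1 + p, or p > 3 with p - 1 a power of 2 and n = 1 + (p - 3)p/2, or p > 3 with p + 1 a power of 2 and n = 1 + (p + 3)p/2. -/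
theorem result {G : Type*} [Group G] [Finite G]
    (p : ℕ) [Fact p.Prime] (hn : Nat.card (Sylow p G) < p ^ 2) :
    (∃ q k : ℕ, q.Prime ∧ Nat.card (Sylow p G) = q ^ k) ∨
    (p = 13 ∧ Nat.card (Sylow p G) = 144) ∨
    (p ≠ 2 ∧ (¬ ∃ k : ℕ, p + 1 = 2 ^ k) ∧ Nat.card (Sylow p G) = 1 + p) ∨
    (3 < p ∧ (∃ k : ℕ, p = 2 ^ k + 1) ∧ 2 * Nat.card (Sylow p G) = 2 + (p - 3) * p) ∨
    (3 < p ∧ (∃ k : ℕ, p + 1 = 2 ^ k) ∧ 2 * Nat.card (Sylow p G) = 2 + (p + 3) * p) := by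
  rcases BR.red G hn with ⟨-, h2⟩ | ⟨-, S, _, _, s, hd, e, -⟩
  · exact .inl h2
  obtain ⟨P⟩ : Nonempty (Sylow p S) := inferInstance
  have := s.simple
  rw [← e] at hn ⊢
  obtain ⟨x, y, K, H, d, -⟩ := BR.exists_dat P (Coprime.card_sylow_eq_of_card_sylow_lt s.nc hd hn P)
  obtain ⟨r, hN, hr⟩ := d.exists_r' hn
  obtain ⟨I, δ, ξ, δ0, b⟩ := d.exists_brauer
  rw [d.card_sylow, hN]
  have h2 := d.e_mul_t
  have h3 := b.two_le_e s
  rcases (b.main s hN hr).2 with ⟨rfl, h, -⟩ | ⟨h, m, h1, h4, -⟩ | ⟨h, h1, m, -, h4, -⟩ | ⟨rfl, rfl, -⟩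
  · by_cases h4 : ∃ k : ℕ, p + 1 = 2 ^ k
    · obtain ⟨k, hk⟩ := h4
      exact .inl ⟨2, k, Nat.prime_two, by omega⟩
    · exact .inr (.inr (.inl ⟨by rw [h] at h2; omega, h4, by omega⟩))
  · have := Nat.pow_le_pow_right two_pos h1
    refine .inr (.inr (.inr (.inl ⟨by omega, ⟨m, h4⟩, ?_⟩)))
    obtain ⟨q, rfl⟩ : ∃ q, p = q + 3 := ⟨p - 3, by omega⟩
    rw [h, show q + 3 - 1 = q + 2 from rfl, show q + 3 - 2 = q + 1 from rfl, Nat.add_sub_cancel]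
    ring
  · exact .inr (.inr (.inr (.inr ⟨h, ⟨m, h4⟩, by rw [h1]; ring⟩)))
  · exact .inr (.inl ⟨rfl, rfl⟩)

end Cfsg.Agent.S4338
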