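import Cfsg.Statements.S4339
import Mathlib
import Cfsg.Agent.Lib.BR.Red

set_option autoImplicit false
open Cfsg

namespace Cfsg.Agent.S4339

/-- Let G be a finite group and p a prime such that it is not the case that p > 3 with p + 1 a power of 2. If the number of Sylow p-subgroups of G is less than p², then G is p-solvable if and only if that number is a power of a prime (possibly 1). -/
theorem result {G : Type*} [Group G] [Finite G]
    (p : ℕ) [Fact p.Prime] (hp : ¬ (3 < p ∧ ∃ k : ℕ, p + 1 = 2 ^ k)) (hn : Nat.card (Sylow p G) < p ^ 2) :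
    Cfsg.IsPSolvable p G ↔ ∃ q k : ℕ, q.Prime ∧ Nat.card (Sylow p G) = q ^ k := by
  rcases BR.red G hn with ⟨h1, h2⟩ | ⟨h1, S, _, _, s, hd, e, -⟩
  · exact ⟨fun _ => h2, fun _ => h1⟩
  · refine ⟨fun h => absurd h h1, fun ⟨q, k, hq, h⟩ => absurd ?_ hp⟩
    obtain ⟨P⟩ : Nonempty (Sylow p S) := inferInstance
    have := s.simple
    rw [← e] at hn h
    exact s.not_prime_pow P (Coprime.card_sylow_eq_of_card_sylow_lt s.nc hd hn P) hn hq h

end Cfsg.Agent.S4339
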