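import Cfsg.Statements.S4342
import Cfsg.Agent.Lib.Coprime.SylowCount

set_option autoImplicit false
open Cfsg

namespace Cfsg.Agent.S4342

/-- Let H be a normal subgroup of a finite group G and p a prime not dividing the index of H. Then the number of Sylow p-subgroups of H/Z(H) equals the number of Sylow p-subgroups of G. -/
theorem result {G : Type*} [Group G] [Finite G]
    (p : ℕ) [Fact p.Prime] (H : Subgroup G) [H.Normal] (hp : ¬ p ∣ H.index) :
    Nat.card (Sylow p (H ⧸ Subgroup.center H)) = Nat.card (Sylow p G) := by
  obtain ⟨P⟩ : Nonempty (Sylow p H) := inferInstance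
  rw [Coprime.card_sylow_quotient_of_le_normalizer _ P (Subgroup.center_le_normalizer _)]
  have h1 := Coprime.isSylowIn_map_subtype P
  obtain ⟨Q, hQ⟩ := (h1.trans le_top (by rwa [Subgroup.relIndex_top_right])).exists_sylow_top
  have h2 := h1.frattini_argument le_top (Subgroup.le_normalizer_of_normal)
  rw [h1.card_sylow, Q.card_eq_index_normalizer, ← Sylow.coe_coe, hQ,
    ← Subgroup.relIndex_top_right, ← h2, sup_comm,
    Coprime.relIndex_sup_of_le inf_le_right Subgroup.le_normalizer_of_normal]

end Cfsg.Agent.S4342
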