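import Cfsg.Statements.S4344
import Cfsg.Agent.Lib.Coprime.SylowCount

set_option autoImplicit false
open Cfsg

namespace Cfsg.Agent.S4344

/-- Let S be a finite non-abelian simple group, M a maximal subgroup of S and C a cyclic normal subgroup of M. If a Sylow p-subgroup P of S (for a prime p dividing the order of S) is contained in C, then the number of Sylow p-subgroups of S equals the index of M. -/
theorem result {S : Type*} [Group S] [Finite S]
    [IsSimpleGroup S] (hS : ¬ IsMulCommutative S) (p : ℕ) [Fact p.Prime] (hp : p ∣ Nat.card S)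
    (M : Subgroup S) (hM : IsCoatom M) (C : Subgroup S) (hCM : C ≤ M) (hCn : (C.subgroupOf M).Normal)
    (hC : IsCyclic C) (P : Sylow p S) (hP : (P : Subgroup S) ≤ C) :
    Nat.card (Sylow p S) = M.index := by
  have h1 : M ≤ Subgroup.normalizer ((P : Subgroup S) : Set S) := by
    have h2 := ((Coprime.isSylowIn_top P).mono hP le_top).frattini_argument hCM
      ((Subgroup.normal_subgroupOf_iff_le_normalizer hCM).mp hCn)
    rw [← h2]
    refine sup_le ?_ inf_le_right
    exact (Subgroup.le_centralizer_iff.mp (hP.trans (Subgroup.le_centralizer C))).trans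
      (Subgroup.centralizer_le_normalizer _)
  have h2 : Subgroup.normalizer ((P : Subgroup S) : Set S) ≠ ⊤ := by
    intro h
    have := Subgroup.normalizer_eq_top_iff.mp h
    exact P.ne_bot_of_dvd_card hp (le_bot_iff.mp
      (Coprime.pCore_eq_bot_of_isSimpleGroup (p := p) hS ▸ Core.le_pCore P.isPGroup'))
  rw [P.card_eq_index_normalizer, ← Sylow.coe_coe, (hM.le_iff.mp h1).resolve_left h2]

end Cfsg.Agent.S4344
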