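import Cfsg.Statements.S4345
import Cfsg.Agent.Lib.Coprime.SylowCount

set_option autoImplicit false
open Cfsg

namespace Cfsg.Agent.S4345

/-- Let G be a finite solvable group and p, ℓ primes. Then the largest power of ℓ dividing the number of Sylow p-subgroups of G is congruent to 1 modulo p. -/
theorem result {G : Type*} [Group G] [Finite G]
    (hG : Group.IsSolvable G) (p ℓ : ℕ) [Fact p.Prime] (hℓ : ℓ.Prime) :
    ℓ ^ (Nat.card (Sylow p G)).factorization ℓ ≡ 1 [MOD p] := by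
  refine (Coprime.card_sylow_induction p
    (fun n => n ≠ 0 ∧ ℓ ^ n.factorization ℓ ≡ 1 [MOD p]) ⟨one_ne_zero, by simp [Nat.ModEq]⟩
    ?_ ?_ G ?_).2
  · rintro a b ⟨ha, ha'⟩ ⟨hb, hb'⟩
    refine ⟨mul_ne_zero ha hb, ?_⟩
    rw [Nat.factorization_mul ha hb, Finsupp.add_apply, pow_add]
    simpa using ha'.mul hb'
  · intro q k hq h
    refine ⟨pow_ne_zero _ hq.ne_zero, ?_⟩
    rw [hq.factorization_pow, Finsupp.single_apply]
    split_ifs with e
    · rwa [← e]
    · rw [pow_zero]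
  · intro S _ _ hS hc hs
    exact absurd ⟨⟨IsSimpleGroup.comm_iff_isSolvable.mpr (hs hG)⟩⟩ hc

end Cfsg.Agent.S4345
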