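import Cfsg.Statements.S4346
import Cfsg.Agent.Lib.Coprime.SylowOrbit
import Cfsg.Agent.Lib.Core.Primitive
import Cfsg.Agent.Lib.PGrp.Omega

set_option autoImplicit false
open Cfsg

namespace Cfsg.Agent.S4346

open Subgroup MulAction Coprime
open scoped commutatorElement Pointwise

instance fact_prime_three : Fact (Nat.Prime 3) := ⟨Nat.prime_three⟩
instance fact_prime_seven : Fact (Nat.Prime 7) := ⟨by norm_num⟩
instance fact_prime_eleven : Fact (Nat.Prime 11) := ⟨by norm_num⟩

variable {G : Type*} [Group G] [Finite G]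

/-- The Sylow 3-subgroups meeting `P` in index `k`. -/
def dist (P : Sylow 3 G) (k : ℕ) : Set (Sylow 3 G) := {Q | (Q : Subgroup G).relIndex P = k}

theorem dist_invariant (P : Sylow 3 G) (k : ℕ) {g : G}
    (hg : g ∈ normalizer ((P : Subgroup G) : Set G)) {Q : Sylow 3 G} (hQ : Q ∈ dist P k) :
    g • Q ∈ dist P k := (relIndex_smul_sylow P Q hg).trans hQ

section

variable (h : Nat.card (Sylow 3 G) = 22)
include h

theorem trichotomy (P Q : Sylow 3 G) : Q = P ∨ Q ∈ dist P 3 ∨ Q ∈ dist P 9 := by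
  have h1 : (Q : Subgroup G).relIndex P ≤ 22 := by
    rw [← ncard_orbit_sylow, ← h]
    exact Set.ncard_le_card _
  obtain ⟨k, hk⟩ := PGrp.exists_relIndex_eq_pow (H := (Q : Subgroup G)) P.isPGroup'
  have h2 : k < 3 := (Nat.pow_lt_pow_iff_right (by norm_num : 1 < 3)).mp (by omega)
  rw [← relIndex_sylow_eq_one_iff]
  simp only [dist, Set.mem_ofPred_eq, hk]
  interval_cases k <;> simp

theorem ncard_add (P : Sylow 3 G) : (dist P 3).ncard + (dist P 9).ncard = 21 := by
  have h1 := Set.ncard_add_ncard_compl ({P} : Set (Sylow 3 G))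
  rw [Set.ncard_singleton, h] at h1
  rw [← Set.ncard_union_eq (Set.disjoint_left.mpr fun Q h1 h2 => by
    simp only [dist, Set.mem_ofPred_eq] at h1 h2; omega)]
  have : dist P 3 ∪ dist P 9 = {P}ᶜ := by
    ext Q
    refine ⟨fun h1 h2 => ?_, (trichotomy h P Q).resolve_left⟩
    have := (relIndex_sylow_eq_one_iff P Q).mpr h2
    simp only [dist, Set.mem_union, Set.mem_ofPred_eq] at h1
    omega
  rw [this]
  omega

omit h in
theorem nine_dvd (P : Sylow 3 G) : 9 ∣ (dist P 9).ncard :=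
  dvd_ncard_of_forall_orbit (P := P) (fun _ ha _ hQ => dist_invariant P 9 (le_normalizer ha) hQ)
    fun Q hQ => by rw [ncard_orbit_sylow, hQ]

theorem card_eq (P : Sylow 3 G) :
    Nat.card G = 22 * Nat.card (normalizer ((P : Subgroup G) : Set G)) := by
  rw [← h, P.card_eq_index_normalizer]
  exact (index_mul_card _).symm

variable [IsSimpleGroup G] (hc : ¬ IsMulCommutative G)
include hc

theorem twelve_le (P : Sylow 3 G) : 12 ≤ (dist P 3).ncard := by
  have h1 := ncard_add h P
  have h2 := nine_dvd P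
  by_contra! hlt
  have h3 : (dist P 3).ncard = 3 := by omega
  obtain ⟨Q, hQ⟩ : (dist P 3).Nonempty := Set.nonempty_of_ncard_ne_zero (by omega)
  obtain ⟨W, hW⟩ : (dist P 9).Nonempty := Set.nonempty_of_ncard_ne_zero (by omega)
  have h4 : orbit (P : Subgroup G) Q = dist P 3 := Set.eq_of_subset_of_ncard_le
    (by rintro _ ⟨a, rfl⟩; exact dist_invariant P 3 (le_normalizer a.2) hQ)
    (by rw [ncard_orbit_sylow, h3, hQ])
  set D := (P : Subgroup G) ⊓ Q with hD
  have hP : (P : Subgroup G) ≤ normalizer (D : Set G) :=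
    le_normalizer_of_relIndex_prime P.isPGroup' inf_le_left (by rw [inf_relIndex_left, hQ])
  have hQ' : (Q : Subgroup G) ≤ normalizer (D : Set G) :=
    le_normalizer_of_relIndex_prime Q.isPGroup' inf_le_right
      (by rw [inf_relIndex_right, ← relIndex_sylow_comm, hQ])
  have key : ∀ g ∈ normalizer ((P : Subgroup G) : Set G),
      D.map (MulAut.conj g).toMonoidHom = (P : Subgroup G) ⊓ (g • Q : Sylow 3 G) := fun g hg => by
    rw [hD, map_inf _ _ _ (MulAut.conj g).injective, map_conj_eq_of_mem_normalizer hg]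
    rfl
  have h5 : normalizer ((P : Subgroup G) : Set G) ≤ normalizer (D : Set G) := fun g hg => by
    obtain ⟨a, ha⟩ : g • Q ∈ orbit (P : Subgroup G) Q := h4 ▸ dist_invariant P 3 hg hQ
    rw [← Core.map_conj_eq_iff, key g hg, ← ha]
    exact (key a (le_normalizer a.2)).symm.trans (map_conj_eq_of_mem_normalizer (hP a.2))
  have h6 := card_sylow_modEq_one 3 (normalizer (D : Set G))
  rw [((isSylowIn_top P).mono hP le_top).card_sylow] at h6
  have h7 := relIndex_mul_index h5
  rw [Sylow.coe_coe, ← P.card_eq_index_normalizer, h, ← Sylow.coe_coe] at h7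
  have h8 : (normalizer ((P : Subgroup G) : Set G)).relIndex (normalizer (D : Set G)) ≠ 1 := by
    rw [ne_eq, relIndex_eq_one]
    intro e
    have := (relIndex_sylow_eq_one_iff Q P).mpr (sylow_eq_of_forall_smul_eq fun a ha =>
      Sylow.smul_eq_iff_mem_normalizer.mpr (e (hQ' ha)))
    rw [← relIndex_sylow_comm, hQ] at this
    omega
  have h9 : (normalizer (D : Set G)).index = 1 := by
    have := Nat.le_of_dvd (by norm_num) (Dvd.intro _ h7)
    unfold Nat.ModEq at h6
    generalize (normalizer ((P : Subgroup G) : Set G)).relIndex (normalizer (D : Set G)) = n at *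
    interval_cases n <;> omega
  have hn : D.Normal := normalizer_eq_top_iff.mp (index_eq_one.mp h9)
  have h10 : D = ⊥ := le_bot_iff.mp (pCore_eq_bot_of_isSimpleGroup (p := 3) hc ▸
    Core.le_pCore (P.isPGroup'.to_le inf_le_left))
  have h11 : Nat.card P = 3 := by
    rw [← relIndex_bot_left, ← h10, inf_relIndex_left, hQ]
  have h12 := relIndex_dvd_card (W : Subgroup G) P
  rw [h11, hW] at h12
  omega

theorem eq_one_of_forall_mem (P : Sylow 3 G) {y : G} (hy : y ∈ (P : Subgroup G))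
    (h' : ∀ Q ∈ dist P 3, y ∈ (Q : Subgroup G)) : y = 1 := by
  by_contra hy1
  obtain ⟨W, hW⟩ : ∃ W : Sylow 3 G, y ∉ (W : Subgroup G) := by
    by_contra! h1
    have := pCore_eq_bot_of_isSimpleGroup (p := 3) hc
    rw [Core.pCore_eq_iInf_sylow] at this
    exact hy1 (mem_bot.mp (this ▸ mem_iInf.mpr h1))
  set F := {Q : Sylow 3 G | y ∈ (Q : Subgroup G)}
  have hn : ∀ R : Sylow 3 G, R ∉ dist R 3 := fun R hR => by
    have := (relIndex_sylow_eq_one_iff R R).mpr rfl
    rw [hR] at this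
    omega
  have h1 : (insert P (dist P 3)).ncard ≤ F.ncard :=
    Set.ncard_le_ncard (Set.insert_subset hy h')
  have h2 : (insert W (dist W 3 \ F)).ncard ≤ Fᶜ.ncard :=
    Set.ncard_le_ncard (Set.insert_subset hW fun Q hQ => hQ.2)
  have h3 : (dist W 3 ∩ F).ncard ≤ 1 := (Set.ncard_le_one (Set.toFinite _)).mpr
    fun Q₁ h₁ Q₂ h₂ => sylow_eq_of_relIndex_eq_prime hW h₁.1 h₂.1 h₁.2 h₂.2
  have h4 := Set.ncard_inter_add_ncard_sdiff_eq_ncard (dist W 3) F
  have h5 := Set.ncard_add_ncard_compl F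
  rw [Set.ncard_insert_of_notMem (hn P)] at h1
  rw [Set.ncard_insert_of_notMem fun e => hn W e.1] at h2
  have := twelve_le h hc P
  have := twelve_le h hc W
  omega

theorem elemAb (P : Sylow 3 G) : IsElementaryAbelian 3 (P : Subgroup G) := by
  constructor
  · refine PGrp.isMulCommutative_iff_mem.mpr fun a ha b hb => ?_
    rw [← commutatorElement_eq_one_iff_mul_comm]
    refine eq_one_of_forall_mem h hc P (commutator_le_self _ (commutator_mem_commutator ha hb))
      fun Q hQ => ?_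
    have := PGrp.normal_of_index_eq P.isPGroup' hQ
    exact PGrp.commutator_le_of_index_eq hQ
      (commutator_mem_commutator (mem_top (⟨a, ha⟩ : (P : Subgroup G))) (mem_top ⟨b, hb⟩))
  · refine fun a ha => eq_one_of_forall_mem h hc P (pow_mem ha 3) fun Q hQ => ?_
    have := PGrp.normal_of_index_eq P.isPGroup' hQ
    exact PGrp.pow_mem_of_index_eq hQ (⟨a, ha⟩ : (P : Subgroup G))

theorem card_cases (P : Sylow 3 G) : Nat.card P = 3 ∨
    (Nat.card P = 9 ∧ (dist P 3).ncard = 12 ∧ (dist P 9).ncard = 9) := by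
  obtain ⟨S, hS⟩ := exists_inf_eq_pCore_of_isMulCommutative P (elemAb h hc P).1
  rw [pCore_eq_bot_of_isSimpleGroup hc] at hS
  have h1 : (S : Subgroup G).relIndex P = Nat.card P := by
    rw [← inf_relIndex_right, hS, relIndex_bot_left]
  have h2 := ncard_add h P
  have h3 := nine_dvd P
  have h4 := twelve_le h hc P
  rcases trichotomy h P S with e | e | e
  · obtain ⟨Q, hQ⟩ : (dist P 3).Nonempty := Set.nonempty_of_ncard_ne_zero (by omega)
    have := relIndex_dvd_card (Q : Subgroup G) P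
    rw [← h1, hQ, (relIndex_sylow_eq_one_iff P S).mpr e] at this
    omega
  · exact Or.inl (h1.symm.trans e)
  · have : 0 < (dist P 9).ncard := (Set.ncard_pos (s := dist P 9) (Set.toFinite _)).mpr ⟨S, e⟩
    exact Or.inr ⟨h1.symm.trans e, by omega, by omega⟩

theorem mem_centralizer_of_orderOf (P : Sylow 3 G) {x : G}
    (hx : x ∈ normalizer ((P : Subgroup G) : Set G)) (ho : (orderOf x).Coprime 48) :
    x ∈ centralizer ((P : Subgroup G) : Set G) := by
  have h1 : Nat.card (MulAut P) ∣ 48 := by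
    have hE := elemAb h hc P
    rcases card_cases h hc P with e | e
    · rw [PGrp.card_mulAut_of_elemAb (d := 1) hE.1 (fun x => Subtype.ext (hE.2 x x.2)) e]
      decide
    · rw [PGrp.card_mulAut_of_elemAb (d := 2) hE.1 (fun x => Subtype.ext (hE.2 x x.2)) e.1]
      decide
  have h3 : orderOf ((P : Subgroup G).normalizerMonoidHom ⟨x, hx⟩) ∣ orderOf x := by
    have := orderOf_map_dvd (P : Subgroup G).normalizerMonoidHom ⟨x, hx⟩
    rwa [← Subgroup.orderOf_coe] at this
  have h5 : (⟨x, hx⟩ : normalizer ((P : Subgroup G) : Set G)) ∈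
      (P : Subgroup G).normalizerMonoidHom.ker := orderOf_eq_one_iff.mp
    (Nat.eq_one_of_dvd_coprimes ho h3 ((_root_.orderOf_dvd_natCard _).trans h1))
  rwa [normalizerMonoidHom_ker] at h5

omit hc in
theorem fixedBy_lt {x : G} (hx : x ≠ 1) : (fixedBy (Sylow 3 G) x).ncard < 22 :=
  h ▸ ncard_fixedBy_lt (exists_smul_ne_of_one_lt (by omega)) hx

theorem prime_bound (P : Sylow 3 G) {q : ℕ} (hq : q.Prime) (h5 : 5 ≤ q)
    (hd : q ∣ Nat.card (normalizer ((P : Subgroup G) : Set G))) : q ≤ 7 ∧ Nat.card P = 3 := by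
  haveI := Fact.mk hq
  obtain ⟨⟨x, hx⟩, hx'⟩ := exists_prime_orderOf_dvd_card' q hd
  rw [← orderOf_coe] at hx'
  change orderOf x = q at hx'
  have hC := mem_centralizer_of_orderOf h hc P hx (by
    rw [hx', show 48 = 2 ^ 4 * 3 by norm_num]
    exact Nat.Coprime.mul_right (((Nat.coprime_primes hq Nat.prime_two).mpr (by omega)).pow_right 4)
      ((Nat.coprime_primes hq Nat.prime_three).mpr (by omega)))
  obtain ⟨W, hW⟩ : ∃ W : Sylow 3 G, x • W ≠ W := by
    by_contra! h1
    rw [eq_one_of_forall_smul_eq (exists_smul_ne_of_one_lt (by omega)) h1, orderOf_one] at hx'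
    omega
  have h1 := mul_relIndex_le_ncard P W hq (by omega) (hx' ▸ pow_orderOf_eq_one x) hC hW
  have h2 := ncard_add h P
  have h3 := twelve_le h hc P
  rcases trichotomy h P W with rfl | e | e
  · exact absurd (Sylow.smul_eq_iff_mem_normalizer.mpr hx) hW
  · rw [e] at h1
    change _ ≤ (dist P 3).ncard at h1
    rcases card_cases h hc P with e' | e' <;> omega
  · rw [e] at h1
    change _ ≤ (dist P 9).ncard at h1
    omega

theorem card_eleven (R : Sylow 11 G) : Nat.card R = 11 := by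
  obtain ⟨P⟩ : Nonempty (Sylow 3 G) := inferInstance
  obtain ⟨k, hk⟩ := R.isPGroup'.exists_card_eq
  have h1 := R.dvd_card_of_dvd_card (by rw [card_eq h P]; omega)
  have h2 := card_subgroup_dvd_card (R : Subgroup G)
  have h3 := fun e => (prime_bound h hc P (q := 11) (by norm_num) (by norm_num) e).1
  rw [hk] at h1 h2 ⊢
  rw [card_eq h P] at h2
  rcases k with _ | _ | k
  · omega
  · simp
  · have := (pow_dvd_pow 11 (show 2 ≤ k + 1 + 1 by omega)).trans h2
    omega

theorem eleven_free (R : Sylow 11 G) :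
    ∀ a ∈ (R : Subgroup G), ∀ w ∈ (Set.univ : Set (Sylow 3 G)), a • w = w → a = 1 := by
  intro a ha w _ e
  by_contra h1
  have h2 : orderOf a = 11 := orderOf_eq_prime (card_eleven h hc R ▸
    congrArg Subtype.val (pow_card_eq_one' (x := (⟨a, ha⟩ : R)))) h1
  have := (prime_bound h hc w (q := 11) (by norm_num) (by norm_num)
    (h2 ▸ orderOf_dvd_natCard _ (Sylow.smul_eq_iff_mem_normalizer.mp e))).1
  omega

theorem centralizer_eleven (R : Sylow 11 G) :
    Nat.card (centralizer ((R : Subgroup G) : Set G)) = 11 := by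
  have hR := card_eleven h hc R
  have := isCyclic_of_prime_card hR
  refine (congrArg (fun K : Subgroup G => Nat.card K) (le_antisymm ?_ (le_centralizer _))).trans hR
  refine ((isSylowIn_top R).le_of_le_normalizer' le_top ?_ (centralizer_le_normalizer _))
  rw [Core.isPGroup_iff_forall_prime_dvd]
  intro q hq hq'
  haveI := Fact.mk hq
  obtain ⟨⟨x, hx⟩, hx'⟩ := exists_prime_orderOf_dvd_card' q hq'
  rw [← orderOf_coe] at hx'
  change orderOf x = q at hx'
  have h1 := ncard_modEq_of_invariant R.isPGroup' (S := fixedBy (Sylow 3 G) x)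
    fun a ha w hw => smul_mem_fixedBy_of_commute (hx a ha).symm hw
  obtain ⟨⟨u, hu⟩, hu1⟩ := ne_bot_iff_exists_ne_one.mp
    (show (R : Subgroup G) ≠ ⊥ from fun e => by rw [e, card_bot] at hR; omega)
  rw [show {w ∈ fixedBy (Sylow 3 G) x | ∀ a ∈ (R : Subgroup G), a • w = w} = ∅ from
    Set.eq_empty_of_forall_notMem fun w hw => hu1 (Subtype.ext
      (eleven_free h hc R u hu w trivial (hw.2 u hu))), Set.ncard_empty] at h1
  have h2 := fixedBy_lt h (x := x) (by rintro rfl; rw [orderOf_one] at hx'; exact hq.ne_one hx'.symm)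
  have h3 := ncard_fixedBy_modEq_card (Ω := Sylow 3 G) hq (hx' ▸ pow_orderOf_eq_one x)
  rw [h] at h3
  have h4 := (Nat.modEq_iff_dvd' h2.le).mp h3
  unfold Nat.ModEq at h1
  have h5 : q ∣ 2 * 11 := by
    rcases (by omega : (fixedBy (Sylow 3 G) x).ncard = 0 ∨ (fixedBy (Sylow 3 G) x).ncard = 11) with
      e | e
    · rwa [e] at h4
    · rw [e] at h4
      exact h4.mul_left 2
  rcases (Nat.Prime.dvd_mul hq).mp h5 with e | e
  · obtain rfl := (Nat.prime_dvd_prime_iff_eq hq Nat.prime_two).mp e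
    have h6 := ncard_fixedBy_modEq_four (Ω := Sylow 3 G) hc (hx' ▸ pow_orderOf_eq_one x)
    rw [h] at h6
    unfold Nat.ModEq at h6
    omega
  · exact (Nat.prime_dvd_prime_iff_eq hq (by norm_num)).mp e

theorem exists_of_dvd (R : Sylow 11 G) {q : ℕ} (hq : q.Prime) (h11 : q ≠ 11)
    (hd : q ∣ Nat.card (normalizer ((R : Subgroup G) : Set G))) :
    ∃ x ∈ normalizer ((R : Subgroup G) : Set G), orderOf x = q ∧
      x ∉ centralizer ((R : Subgroup G) : Set G) ∧ (fixedBy (Sylow 3 G) x).ncard ≤ 2 := by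
  haveI := Fact.mk hq
  obtain ⟨⟨x, hx⟩, hx'⟩ := exists_prime_orderOf_dvd_card' q hd
  rw [← orderOf_coe] at hx'
  change orderOf x = q at hx'
  have h1 : x ∉ centralizer ((R : Subgroup G) : Set G) := fun e => by
    have := orderOf_dvd_natCard _ e
    rw [hx', centralizer_eleven h hc R] at this
    exact h11 ((Nat.prime_dvd_prime_iff_eq hq (by norm_num)).mp this)
  have h2 := card_mul_ncard_fixedBy_le hx
    (inf_centralizer_eq_bot_of_card_eq_prime (card_eleven h hc R) h1) (fun _ _ _ _ => Set.mem_univ _)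
    (eleven_free h hc R)
  rw [Set.univ_inter, Set.ncard_univ, h, card_eleven h hc R] at h2
  exact ⟨x, hx, hx', h1, by omega⟩

theorem normalizer_eleven (R : Sylow 11 G) :
    Nat.card (normalizer ((R : Subgroup G) : Set G)) = 22 := by
  obtain ⟨c, r, hr, hr1, hC, hN, -⟩ := exists_sylow_prime_data hc R (card_eleven h hc R)
  rw [centralizer_eleven h hc R] at hC
  rw [← hC] at hN
  have h5 : ¬ 5 ∣ r := fun e => by
    obtain ⟨x, -, hx, -, h1⟩ := exists_of_dvd h hc R (q := 5) (by norm_num) (by norm_num)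
      (hN ▸ e.mul_left _)
    have h2 := ncard_fixedBy_modEq_card (Ω := Sylow 3 G) (by norm_num : Nat.Prime 5)
      (hx ▸ pow_orderOf_eq_one x)
    rw [h] at h2
    unfold Nat.ModEq at h2
    obtain ⟨P, hP⟩ : (fixedBy (Sylow 3 G) x).Nonempty := Set.nonempty_of_ncard_ne_zero (by omega)
    have h3 := ncard_fixedBy_sylow_modEq_one P (mem_centralizer_of_orderOf h hc P
      (Sylow.smul_eq_iff_mem_normalizer.mp hP) (by rw [hx]; norm_num))
    unfold Nat.ModEq at h3
    omega
  have := Nat.le_of_dvd (by norm_num) hr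
  interval_cases r <;> omega

theorem card_sylow_eleven (P : Sylow 3 G) :
    Nat.card (Sylow 11 G) = Nat.card (normalizer ((P : Subgroup G) : Set G)) := by
  obtain ⟨R⟩ : Nonempty (Sylow 11 G) := inferInstance
  have h1 := (normalizer ((R : Subgroup G) : Set G)).index_mul_card
  rw [normalizer_eleven h hc R, card_eq h P, Sylow.coe_coe, ← R.card_eq_index_normalizer] at h1
  omega

theorem ne_nine (P : Sylow 3 G) : Nat.card P = 3 := by
  have hall : ∀ P Q : Sylow 3 G, Nat.card P = Nat.card Q := fun P Q =>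
    P.card_eq_multiplicity.trans Q.card_eq_multiplicity.symm
  by_contra hne
  obtain ⟨R⟩ : Nonempty (Sylow 11 G) := inferInstance
  obtain ⟨t, -, ht, -, h1⟩ := exists_of_dvd h hc R Nat.prime_two (by norm_num)
    (by rw [normalizer_eleven h hc R]; norm_num)
  have ht2 : t ^ 2 = 1 := ht ▸ pow_orderOf_eq_one t
  have h2 := ncard_fixedBy_modEq_four (Ω := Sylow 3 G) hc ht2
  rw [h] at h2
  unfold Nat.ModEq at h2
  obtain ⟨Q, hQ⟩ : (fixedBy (Sylow 3 G) t).Nonempty := Set.nonempty_of_ncard_ne_zero (by omega)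
  rw [hall P Q] at hne
  clear P
  have htQ : t ∈ normalizer ((Q : Subgroup G) : Set G) := Sylow.smul_eq_iff_mem_normalizer.mp hQ
  obtain ⟨h9, h12, h9'⟩ := (card_cases h hc Q).resolve_left hne
  have hE := elemAb h hc Q
  have hdist : ∀ b ∈ (Q : Subgroup G), b ≠ 1 → ∀ W : Sylow 3 G, b ∈ (W : Subgroup G) → W ≠ Q →
      W ∈ dist Q 3 := fun b hb hb1 W hW hWQ => by
    refine ((trichotomy h Q W).resolve_left hWQ).resolve_right fun e => hb1 ?_
    have := Core.card_inf_mul_relIndex (W : Subgroup G) Q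
    rw [e, h9] at this
    exact mem_bot.mp (card_eq_one.mp (show Nat.card ↥((W : Subgroup G) ⊓ Q) = 1 by omega) ▸
      mem_inf.mpr ⟨hW, hb⟩)
  have hf : ∀ b ∈ (Q : Subgroup G), b ≠ 1 →
      {W ∈ dist Q 3 | b ∈ (W : Subgroup G)}.ncard + 1 =
        {W : Sylow 3 G | b ∈ (W : Subgroup G)}.ncard := fun b hb hb1 => by
    rw [← Set.ncard_insert_of_notMem (a := Q) fun e => by
      have := (relIndex_sylow_eq_one_iff Q Q).mpr rfl
      rw [e.1] at this
      omega]
    congr 1
    ext W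
    refine ⟨?_, fun hW => (eq_or_ne W Q).imp id fun e => ⟨hdist b hb hb1 W hW e, hW⟩⟩
    rintro (rfl | e)
    · exact hb
    · exact e.2
  have hf' : ∀ b ∈ (Q : Subgroup G), b ≠ 1 →
      {W ∈ dist Q 3 | b ∈ (W : Subgroup G)}.ncard = 0 ∨
        {W ∈ dist Q 3 | b ∈ (W : Subgroup G)}.ncard = 3 := fun b hb hb1 => by
    have h3 := ncard_sylow_mem_dvd Q (fun W => (elemAb h hc W).1) hb
    have h4 := ncard_sylow_modEq_one Q (S := {W : Sylow 3 G | b ∈ (W : Subgroup G)}) hb
      fun a ha W hW => ⟨b, hW, by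
        change a * b * a⁻¹ = b
        rw [mul_comm_of_mem hE.1 ha hb, mul_inv_cancel_right]⟩
    have h5 : {W ∈ dist Q 3 | b ∈ (W : Subgroup G)}.ncard ≤ (dist Q 3).ncard :=
      Set.ncard_le_ncard fun W hW => hW.1
    have h6 : ∀ q : ℕ, q.Prime → 5 ≤ q → q ≠ 11 → ¬ q ∣ Nat.card G := fun q hq h5 h11 e => by
      rw [card_eq h Q, show 22 = 2 * 11 by norm_num] at e
      rcases (Nat.Prime.dvd_mul hq).mp e with e | e
      · rcases (Nat.Prime.dvd_mul hq).mp e with e | e
        · have := Nat.le_of_dvd two_pos e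
          omega
        · exact h11 ((Nat.prime_dvd_prime_iff_eq hq (by norm_num)).mp e)
      · exact hne (prime_bound h hc Q hq h5 e).2
    have h7 := h6 5 (by norm_num) (by norm_num) (by norm_num)
    have h8 := h6 7 (by norm_num) (by norm_num) (by norm_num)
    have h10 := h6 13 (by norm_num) (by norm_num) (by norm_num)
    rw [← hf b hb hb1] at h3 h4
    unfold Nat.ModEq at h4
    generalize {W ∈ dist Q 3 | b ∈ (W : Subgroup G)}.ncard = n at *
    have : n = 0 ∨ n = 3 ∨ n = 6 ∨ n = 9 ∨ n = 12 := by omega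
    rcases this with rfl | rfl | rfl | rfl | rfl <;> omega
  obtain ⟨b, hb, hb1, hbt⟩ : ∃ b ∈ (Q : Subgroup G), b ≠ 1 ∧ t ∈ normalizer (zpowers b : Set G) := by
    obtain ⟨⟨a, ha⟩, ha1⟩ := ne_bot_iff_exists_ne_one.mp
      (show (Q : Subgroup G) ≠ ⊥ from fun e => by rw [e, card_bot] at h9; omega)
    have ha' := (mem_normalizer_iff.mp htQ a).mp ha
    by_cases e : a * (t * a * t⁻¹) = 1
    · refine ⟨a, ha, fun e => ha1 (Subtype.ext e), Core.mem_normalizer_of_map_conj_le ?_⟩
      rw [MonoidHom.map_zpowers, zpowers_le]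
      change t * a * t⁻¹ ∈ _
      rw [eq_inv_of_mul_eq_one_right e]
      exact inv_mem (mem_zpowers a)
    · refine ⟨_, mul_mem ha ha', e, PGrp.mem_normalizer_zpowers_of_commute ?_⟩
      have htt : t * t = 1 := by rw [← pow_two, ht2]
      change a * (t * a * t⁻¹) * t = t * (a * (t * a * t⁻¹))
      conv_lhs => rw [mul_comm_of_mem hE.1 ha ha']
      rw [inv_eq_of_mul_eq_one_right htt]
      simp only [mul_assoc]
  have h3 : {W ∈ dist Q 3 | b ∈ (W : Subgroup G)}.ncard = 3 := by
    classical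
    refine (hf' b hb hb1).resolve_left fun h0 => ?_
    have := Fintype.ofFinite G
    have := Fintype.ofFinite (Sylow 3 G)
    have h4 := Finset.sum_card_bipartiteAbove_eq_sum_card_bipartiteBelow
      (s := (((Q : Subgroup G) : Set G) \ {1}).toFinset) (t := (dist Q 3).toFinset)
      (fun (a : G) (W : Sylow 3 G) => a ∈ (W : Subgroup G))
    have h5 : ∀ W ∈ (dist Q 3).toFinset, (Finset.bipartiteBelow
        (fun (a : G) (W : Sylow 3 G) => a ∈ (W : Subgroup G))
        (((Q : Subgroup G) : Set G) \ {1}).toFinset W).card = 2 := fun W hW => by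
      have e1 := Core.card_inf_mul_relIndex (W : Subgroup G) Q
      rw [Set.mem_toFinset.mp hW, h9] at e1
      have e2 := Set.ncard_sdiff_singleton_add_one (s := (((W : Subgroup G) ⊓ Q : Subgroup G) : Set G))
        (one_mem _)
      have e3 : (Finset.bipartiteBelow (fun (a : G) (W : Sylow 3 G) => a ∈ (W : Subgroup G))
          (((Q : Subgroup G) : Set G) \ {1}).toFinset W).card =
          ((((W : Subgroup G) ⊓ Q : Subgroup G) : Set G) \ {1}).ncard := by
        rw [← Set.ncard_coe_finset]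
        congr 1
        ext a
        simp only [Finset.coe_filter, Finset.bipartiteBelow, Set.mem_toFinset, Set.mem_ofPred_eq]
        exact ⟨fun e => ⟨⟨e.2, e.1.1⟩, e.1.2⟩, fun e => ⟨⟨e.1.2, e.2⟩, e.1.1⟩⟩
      change _ = Nat.card ↥((W : Subgroup G) ⊓ Q) at e2
      omega
    have h6 : ∀ a, (Finset.bipartiteAbove (fun (a : G) (W : Sylow 3 G) => a ∈ (W : Subgroup G))
        (dist Q 3).toFinset a).card = {W ∈ dist Q 3 | a ∈ (W : Subgroup G)}.ncard := fun a => by
      rw [← Set.ncard_coe_finset]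
      congr 1
      ext W
      simp [Finset.mem_bipartiteAbove]
    have hb' : b ∈ (((Q : Subgroup G) : Set G) \ {1}).toFinset := Set.mem_toFinset.mpr ⟨hb, hb1⟩
    rw [Finset.sum_congr rfl h5, Finset.sum_const, ← Set.ncard_eq_toFinset_card', h12,
      ← Finset.add_sum_erase _ _ hb', h6, h0] at h4
    have h7 := Finset.sum_le_card_nsmul ((((Q : Subgroup G) : Set G) \ {1}).toFinset.erase b)
      (fun a => (Finset.bipartiteAbove (fun (a : G) (W : Sylow 3 G) => a ∈ (W : Subgroup G))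
        (dist Q 3).toFinset a).card) 3 fun a ha => by
          have ha' := Set.mem_toFinset.mp (Finset.mem_of_mem_erase ha)
          have := hf' a ha'.1 ha'.2
          rw [h6]
          omega
    have h8 := Set.ncard_sdiff_singleton_add_one (s := ((Q : Subgroup G) : Set G)) (one_mem _)
    change _ = Nat.card Q at h8
    rw [Finset.card_erase_of_mem hb', ← Set.ncard_eq_toFinset_card'] at h7
    simp only [smul_eq_mul] at h4 h7
    omega
  have h4 := ncard_modEq_of_pow_eq_one Nat.prime_two ht2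
    (S := {W ∈ dist Q 3 | b ∈ (W : Subgroup G)}) fun W hW => ⟨dist_invariant Q 3 htQ hW.1,
      ⟨t⁻¹ * b * t, zpowers_le.mpr hW.2 ((mem_normalizer_iff''.mp hbt b).mp (mem_zpowers b)),
        by simp [mul_assoc]⟩⟩
  have h5 := ncard_modEq_of_pow_eq_one Nat.prime_two ht2 (S := dist Q 9)
    fun W hW => dist_invariant Q 9 htQ hW
  rw [h3] at h4
  rw [h9'] at h5
  unfold Nat.ModEq at h4 h5
  obtain ⟨W₁, hW₁⟩ := Set.nonempty_of_ncard_ne_zero
    (s := {W ∈ dist Q 3 | b ∈ (W : Subgroup G)} ∩ fixedBy (Sylow 3 G) t) (by omega)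
  obtain ⟨W₂, hW₂⟩ := Set.nonempty_of_ncard_ne_zero
    (s := dist Q 9 ∩ fixedBy (Sylow 3 G) t) (by omega)
  have h6 : (Q : Subgroup G).relIndex Q = 1 := relIndex_self _
  have h7 : (W₁ : Subgroup G).relIndex Q = 3 := hW₁.1.1
  have h8 : (W₂ : Subgroup G).relIndex Q = 9 := hW₂.1
  have := (Set.two_lt_ncard (s := fixedBy (Sylow 3 G) t) (Set.toFinite _)).mpr
    ⟨Q, hQ, W₁, hW₁.2, W₂, hW₂.2, by rintro rfl; omega, by rintro rfl; omega, by rintro rfl; omega⟩
  omega

theorem false_of_simple : False := by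
  obtain ⟨P⟩ : Nonempty (Sylow 3 G) := inferInstance
  have hP := ne_nine h hc P
  obtain ⟨c, r, hr, hr1, hC, hN, hG⟩ := exists_sylow_prime_data hc P hP
  obtain rfl : r = 2 := by have := Nat.le_of_dvd (by norm_num) hr; omega
  rw [h] at hG
  have h1 := card_sylow_modEq_one 11 G
  rw [card_sylow_eleven h hc P, hN] at h1
  have := isCyclic_of_prime_card hP
  have hfree : ∀ a ∈ (P : Subgroup G), ∀ w ∈ ({P}ᶜ : Set (Sylow 3 G)), a • w = w → a = 1 := by
    intro a ha w hw e
    rcases eq_or_eq_of_relIndex_prime (p := 3) (D := ⊥) (by rw [relIndex_bot_left, hP]) bot_le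
      (inf_le_left : (P : Subgroup G) ⊓ w ≤ P) with e' | e'
    · exact mem_bot.mp (e' ▸ mem_inf.mpr ⟨ha, mem_sylow_of_smul_eq P.isPGroup' ha e⟩)
    · exact absurd (Sylow.ext (P.is_maximal' w.isPGroup' (inf_eq_left.mp e'))) hw
  have hfix : ∀ a ∈ centralizer ((P : Subgroup G) : Set G), a • P = P := fun a ha =>
    Sylow.smul_eq_iff_mem_normalizer.mpr (centralizer_le_normalizer _ ha)
  obtain ⟨K, hK1, hK2⟩ := exists_index_dvd_factorial (P := (P : Subgroup G)) le_rfl 
    (S := ({P}ᶜ : Set (Sylow 3 G))) (fun a ha w hw e => hw (by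
      rw [Set.mem_singleton_iff] at e ⊢
      rw [← inv_smul_smul a w, e, hfix _ (inv_mem ha)])) (le_centralizer _) hfree (m := 7) (by
      have := Set.ncard_add_ncard_compl ({P} : Set (Sylow 3 G))
      rw [Set.ncard_singleton, h] at this
      omega)
  have h2 : K ⊓ centralizer ((P : Subgroup G) : Set G) ≤ P := by
    rintro g ⟨hg, hg'⟩
    have h3 : g ^ 3 = 1 := by
      refine eq_one_of_forall_smul_eq (Ω := Sylow 3 G) (exists_smul_ne_of_one_lt (by omega))
        fun w => ?_
      by_cases hw : w = P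
      · rw [hw]; exact hfix _ (pow_mem hg' 3)
      obtain ⟨a, ha, e⟩ := hK2 g hg w hw
      have e1 : ∀ k : ℕ, g ^ k • w = a ^ k • w := fun k => by
        induction k with
        | zero => simp
        | succ k ih => rw [pow_succ', mul_smul, ih, ← mul_smul, ← hg' _ (pow_mem ha k), mul_smul, e,
            ← mul_smul, pow_succ]
      rw [e1, (elemAb h hc P).2 a ha, one_smul]
    exact mem_sylow_of_smul_eq (PGrp.IsElementaryAbelian.isPGroup
      (PGrp.isElementaryAbelian_zpowers h3)) (mem_zpowers g) (hfix g hg')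
  have h3 : 3 * c ∣ 3 * 5040 := by
    rw [← hC, ← Core.card_inf_mul_relIndex K]
    exact mul_dvd_mul ((card_dvd_of_le h2).trans hP.dvd) hK1
  have h9 : ¬ 9 ∣ Nat.card G := fun e => by
    have h4 := (P : Subgroup G).index_mul_card
    have h5 := P.not_dvd_index
    rw [hP] at h4
    omega
  have h4 : ∀ c ∈ Nat.divisors 5040, 3 * c * 2 % 11 = 1 → ¬ 3 ∣ c → c = 2 ∨ c = 35 ∨ c = 112 := by
    decide +kernel
  obtain ⟨R⟩ : Nonempty (Sylow 11 G) := inferInstance
  rcases h4 c (Nat.mem_divisors.mpr ⟨Nat.dvd_of_mul_dvd_mul_left (by norm_num) h3, by norm_num⟩) h1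
    (by omega) with rfl | h5
  · obtain ⟨t, htN, ht, htC, -⟩ := exists_of_dvd h hc R Nat.prime_two (by norm_num)
      (by rw [normalizer_eleven h hc R]; norm_num)
    have h5 := mul_ncard_fixedBy_sylow_le R (card_eleven h hc R) htN htC
    have h6 := ncard_fixedBy_modEq_four (Ω := Sylow 11 G) hc (ht ▸ pow_orderOf_eq_one t)
    rw [card_sylow_eleven h hc P, hN] at h5 h6
    unfold Nat.ModEq at h6
    omega
  obtain ⟨⟨x, hx⟩, hx'⟩ := exists_prime_orderOf_dvd_card'
    (G := centralizer ((P : Subgroup G) : Set G)) 7 (by omega)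
  rw [← orderOf_coe] at hx'
  change orderOf x = 7 at hx'
  have hx7 : x ^ 7 = 1 := hx' ▸ pow_orderOf_eq_one x
  have h6 : fixedBy (Sylow 3 G) x = {P} := by
    have e1 := ncard_fixedBy_sylow_modEq_one P hx
    have e2 := ncard_fixedBy_modEq_card (Ω := Sylow 3 G) (by norm_num) hx7
    have e3 := fixedBy_lt h (x := x) (by rintro rfl; rw [orderOf_one] at hx'; omega)
    rw [h] at e2
    unfold Nat.ModEq at e1 e2
    exact (Set.eq_of_subset_of_ncard_le (t := fixedBy (Sylow 3 G) x)
      (Set.singleton_subset_iff.mpr (hfix x hx)) (by rw [Set.ncard_singleton]; omega)).symm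
  obtain ⟨S, hS⟩ := (PGrp.IsElementaryAbelian.isPGroup
    (PGrp.isElementaryAbelian_zpowers hx7)).exists_le_sylow
  have hS7 : Nat.card S = 7 := by
    obtain ⟨k, hk⟩ := S.isPGroup'.exists_card_eq
    have e1 := S.dvd_card_of_dvd_card (by omega)
    have e2 := card_subgroup_dvd_card (S : Subgroup G)
    rw [hk] at e1 e2 ⊢
    rcases k with _ | _ | k
    · omega
    · simp
    · have := (pow_dvd_pow 7 (show 2 ≤ k + 1 + 1 by omega)).trans e2
      omega
  obtain ⟨c', r', hr', hr1', hC', -, hG'⟩ := exists_sylow_prime_data hc S hS7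
  have h7 : 3 ∣ c' := by
    have e1 := (dvd_card_centralizer_iff P hP (q := 7) (by norm_num) (by norm_num)).mp (by omega)
    have e2 := (dvd_card_centralizer_iff S hS7 (q := 3) (by norm_num) (by norm_num)).mpr
      (e1.imp fun _ e => e.symm)
    omega
  have h8 : ∀ q : ℕ, q.Prime → q ∣ c' → ∃ f, f < 22 ∧ f % 7 = 1 ∧ f % q = 22 % q ∧
      (q = 2 → f % 4 = 2) := fun q hq hq' => by
    haveI := Fact.mk hq
    obtain ⟨⟨y, hy⟩, hy'⟩ := exists_prime_orderOf_dvd_card'
      (G := centralizer ((S : Subgroup G) : Set G)) q (hC' ▸ hq'.mul_left _)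
    rw [← orderOf_coe] at hy'
    change orderOf y = q at hy'
    have hxy : Commute x y := hy x (hS (mem_zpowers x))
    have e1 := ncard_modEq_of_pow_eq_one (by norm_num) hx7 (S := fixedBy (Sylow 3 G) y)
      fun w hw => smul_mem_fixedBy_of_commute hxy.symm hw
    have e2 : P ∈ fixedBy (Sylow 3 G) y := by
      have := smul_mem_fixedBy_of_commute hxy (hfix x hx)
      rwa [h6] at this
    rw [h6, Set.inter_eq_right.mpr (Set.singleton_subset_iff.mpr e2), Set.ncard_singleton] at e1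
    have e3 := ncard_fixedBy_modEq_card (Ω := Sylow 3 G) hq (hy' ▸ pow_orderOf_eq_one y)
    refine ⟨_, fixedBy_lt h (x := y) (by
      rintro rfl; rw [orderOf_one] at hy'; exact hq.ne_one hy'.symm), e1, h ▸ e3, ?_⟩
    rintro rfl
    have := ncard_fixedBy_modEq_four (Ω := Sylow 3 G) hc (hy' ▸ pow_orderOf_eq_one y)
    rwa [h] at this
  have h10 : ¬ 2 ∣ c' := fun e => by
    obtain ⟨f, e1, e2, -, e3⟩ := h8 2 Nat.prime_two e
    omega
  have h11 : ¬ 5 ∣ c' := fun e => by
    obtain ⟨f, e1, e2, e3, -⟩ := h8 5 (by norm_num) e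
    omega
  have h12 : ¬ 11 ∣ c' := fun e => by
    obtain ⟨f, e1, e2, e3, -⟩ := h8 11 (by norm_num) e
    omega
  have h13 := card_sylow_modEq_one 7 G
  have h14 : ∀ N ∈ [660, 2112], ∀ c ∈ Nat.divisors N, ¬ 2 ∣ c → ¬ 5 ∣ c → ¬ 11 ∣ c → c ≤ 3 := by
    decide +kernel
  have h15 : Nat.card (Sylow 7 G) * r' * c' = 660 ∨ Nat.card (Sylow 7 G) * r' * c' = 2112 := by
    have : Nat.card (Sylow 7 G) * (7 * c' * r') = 7 * (Nat.card (Sylow 7 G) * r' * c') := by ring
    omega
  have h16 : c' ≤ 3 := by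
    rcases h15 with e | e
    · exact h14 660 (by simp) c' (Nat.mem_divisors.mpr ⟨Dvd.intro_left _ e, by norm_num⟩) h10 h11 h12
    · exact h14 2112 (by simp) c' (Nat.mem_divisors.mpr ⟨Dvd.intro_left _ e, by norm_num⟩) h10 h11 h12
  obtain rfl : c' = 3 := by omega
  have := Nat.le_of_dvd (by norm_num) hr'
  unfold Nat.ModEq at h13
  interval_cases r' <;> omega

end

/-- No finite group has exactly 22 Sylow 3-subgroups. -/
theorem result {G : Type*} [Group G] [Finite G] : Nat.card (Sylow 3 G) ≠ 22 := by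
  refine (card_sylow_induction 3 (fun n => n % 3 = 1 ∧ n ≠ 22) ⟨rfl, by norm_num⟩ ?_ ?_ G ?_).2
  · rintro a b ⟨ha, ha'⟩ ⟨hb, hb'⟩
    refine ⟨by rw [Nat.mul_mod, ha, hb], fun e => ?_⟩
    have := Nat.le_of_dvd (by norm_num) (Dvd.intro _ e)
    interval_cases a <;> omega
  · refine fun q k hq e => ⟨e, fun e' => ?_⟩
    have h1 := (Nat.prime_dvd_prime_iff_eq Nat.prime_two hq).mp
      (Nat.prime_two.dvd_of_dvd_pow (e' ▸ (by norm_num : 2 ∣ 22)))
    have h2 := (Nat.prime_dvd_prime_iff_eq (by norm_num : Nat.Prime 11) hq).mp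
      (Nat.Prime.dvd_of_dvd_pow (by norm_num) (e' ▸ (by norm_num : 11 ∣ 22)))
    omega
  · exact fun S _ _ hS hc _ => ⟨card_sylow_modEq_one 3 S, fun e => false_of_simple e hc⟩

end Cfsg.Agent.S4346
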