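import Cfsg.Statements.S4354
import Cfsg.Agent.Lib.Cls.Basic

set_option autoImplicit false
open Cfsg

namespace Cfsg.Agent.S4354

/-- Let G be a finite group and p a prime such that the Sylow p-subgroups of G are non-abelian while every element of p-power order has conjugacy class size prime to p, and suppose no nontrivial proper normal subgroup N of G has this property and no quotient G/N by such an N has it. Then G is simple. -/
theorem result {G : Type*} [Group G] [Finite G]
    (p : ℕ) [Fact p.Prime] (h : ((∃ P : Sylow p G, ¬ IsMulCommutative P) ∧ ∀ x : G, (∃ k : ℕ, orderOf x = p ^ k) → ¬ p ∣ (Subgroup.centralizer ({x} : Set G)).index))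
    (hmin : ∀ (N : Subgroup G) [N.Normal], N ≠ ⊥ → N ≠ ⊤ →
      ¬ ((∃ P : Sylow p N, ¬ IsMulCommutative P) ∧ ∀ x : N, (∃ k : ℕ, orderOf x = p ^ k) → ¬ p ∣ (Subgroup.centralizer ({x} : Set N)).index) ∧
      ¬ ((∃ P : Sylow p (G ⧸ N), ¬ IsMulCommutative P) ∧ ∀ x : (G ⧸ N), (∃ k : ℕ, orderOf x = p ^ k) → ¬ p ∣ (Subgroup.centralizer ({x} : Set (G ⧸ N))).index)) :
    IsSimpleGroup G := by
  obtain ⟨⟨P, hP⟩, hcl⟩ := h
  have hp : p.Prime := Fact.out
  have hnt : Nontrivial G := by
    by_contra hn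
    rw [not_nontrivial_iff_subsingleton] at hn
    exact hP ⟨⟨fun a b => Subsingleton.elim _ _⟩⟩
  refine ⟨fun N hN => ?_⟩
  by_contra hne
  rw [not_or] at hne
  obtain ⟨h1, h2⟩ := hmin N hne.1 hne.2
  apply hP
  have hNab : ∀ Q : Sylow p N, IsMulCommutative Q := by
    intro Q
    by_contra hQ
    refine h1 ⟨⟨Q, hQ⟩, fun x hx hd => ?_⟩
    refine hcl x ?_ (hd.trans (Cls.index_centralizer_normal_dvd x))
    simpa using hx
  have hQab : ∀ Q : Sylow p (G ⧸ N), IsMulCommutative Q := by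
    intro Q
    by_contra hQ
    refine h2 ⟨⟨Q, hQ⟩, fun x hx hd => ?_⟩
    obtain ⟨x, rfl⟩ := QuotientGroup.mk'_surjective N x
    obtain ⟨u, -, hu, hk⟩ := Cls.exists_p_lift hp (QuotientGroup.mk' N) x hx
    rw [← hu] at hd
    exact hcl u hk (hd.trans (Cls.index_centralizer_map_dvd (QuotientGroup.mk'_surjective N) u))
  -- elements of `P ∩ N` commute
  have hA : ∀ a ∈ (P : Subgroup G), a ∈ N → ∀ b ∈ (P : Subgroup G), b ∈ N → a * b = b * a := by
    intro a ha haN b hb hbN
    obtain ⟨Q, hQ⟩ := Core.exists_sylow_subgroupOf_of_normal P N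
    have ha' : (⟨a, haN⟩ : N) ∈ (Q : Subgroup N) := by rw [hQ]; exact ha
    have hb' : (⟨b, hbN⟩ : N) ∈ (Q : Subgroup N) := by rw [hQ]; exact hb
    have := (hNab Q).is_comm.comm ⟨_, ha'⟩ ⟨_, hb'⟩
    exact congrArg (fun z : Q => ((z : N) : G)) this
  -- every element of `P` is a central element of `P` times an element of `P ∩ N`
  have hdec : ∀ x ∈ (P : Subgroup G), ∃ z ∈ Subgroup.centralizer ((P : Subgroup G) : Set G),
      ∃ a ∈ (P : Subgroup G), a ∈ N ∧ x = z * a := by
    intro x hx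
    have hxo := Core.exists_orderOf_eq_pow_of_mem P.2 hx
    obtain ⟨g, hg⟩ := Cls.exists_conj_mem_centralizer_sylow P (hcl x hxo)
    set f := QuotientGroup.mk' N with hf
    have hfs : Function.Surjective f := QuotientGroup.mk'_surjective N
    set Pb := P.mapSurjective hfs with hPb
    have hgP : g⁻¹ * x * g ∈ (P : Subgroup G) := by
      refine Cls.mem_sylow_of_mem_centralizer P ?_ hg
      obtain ⟨k, hk⟩ := hxo
      refine ⟨k, ?_⟩
      rw [← hk]
      simpa using (MulAut.conj g⁻¹).orderOf_eq x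
    have := hQab Pb
    have hx1 : f x ∈ Pb := Subgroup.mem_map_of_mem f hx
    have hx2 : (f g)⁻¹ * f x * f g ∈ Pb := by
      have := Subgroup.mem_map_of_mem f hgP
      rw [map_mul, map_mul, map_inv] at this
      exact this
    obtain ⟨n, hn, hn'⟩ := Pb.conj_eq_normalizer_conj_of_mem (f x) (f g) hx1 hx2
    have hn2 : n ∈ (Subgroup.normalizer ((P : Subgroup G) : Set G)).map f := by
      rw [← Cls.normalizer_map_sylow hfs P]; exact hn
    obtain ⟨m, hm, rfl⟩ := hn2
    set z := g⁻¹ * x * g with hz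
    have hz1 : m * z * m⁻¹ ∈ Subgroup.centralizer ((P : Subgroup G) : Set G) :=
      (Subgroup.mem_normalizer_iff.1 (Core.le_normalizer_centralizer le_rfl hm) z).1 hg
    have hz2 : m * z * m⁻¹ ∈ (P : Subgroup G) := (Subgroup.mem_normalizer_iff.1 hm z).1 hgP
    refine ⟨m * z * m⁻¹, hz1, (m * z * m⁻¹)⁻¹ * x, mul_mem (inv_mem hz2) hx, ?_, by group⟩
    rw [← QuotientGroup.eq]
    change f (m * z * m⁻¹) = f x
    have : f z = (f m)⁻¹ * f x * f m := by rw [← hn', hz]; simp
    rw [map_mul, map_mul, this, map_inv]; group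
  refine ⟨⟨fun x y => Subtype.ext ?_⟩⟩
  obtain ⟨z, hz, a, ha, haN, hx⟩ := hdec x x.2
  obtain ⟨w, hw, b, hb, hbN, hy⟩ := hdec y y.2
  change (x : G) * y = y * x
  have e1 : (y : G) * z = z * y := hz y y.2
  have e2 : a * w = w * a := hw a ha
  have e3 : a * b = b * a := hA a ha haN b hb hbN
  have e4 : a * y = y * a := by rw [hy, ← mul_assoc, e2, mul_assoc, e3, mul_assoc]
  rw [hx, mul_assoc, e4, ← mul_assoc, ← e1, mul_assoc]

end Cfsg.Agent.S4354
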