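import Cfsg.Statements.S4355
import Cfsg.Agent.Lib.Cls.TwoCentral

set_option autoImplicit false
open Cfsg

namespace Cfsg.Agent.S4355

/-- If every element of 2-power order of a finite group has a conjugacy class of odd size, then the Sylow 2-subgroups of the group are abelian. -/
theorem result {G : Type*} [Group G] [Finite G]
    (h : ∀ x : G, (∃ k : ℕ, orderOf x = 2 ^ k) → ¬ 2 ∣ (Subgroup.centralizer ({x} : Set G)).index) (P : Sylow 2 G) :
    IsMulCommutative P := by
  refine Cls.isMulCommutative_sylow_two_of_forall_central P fun x hx => ?_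
  obtain ⟨Y, hY⟩ := Transfer.exists_isSylowIn (p := 2) (Subgroup.centralizer ({x} : Set G))
  have h2 : Transfer.IsSylowIn 2 Y ⊤ := by
    refine ⟨le_top, hY.isPGroup, ?_⟩
    rw [Subgroup.relIndex_top_right, ← Subgroup.relIndex_mul_index hY.le]
    intro hd
    rcases (Nat.Prime.dvd_mul Nat.prime_two).mp hd with h1 | h1
    · exact hY.not_dvd h1
    · exact h x hx h1
  obtain ⟨Q, hQ⟩ := h2.exists_sylow_eq
  exact ⟨Q, hQ ▸ hY.le⟩

end Cfsg.Agent.S4355
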