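import Cfsg.Statements.S4359
import Mathlib
import Cfsg.Agent.Lib.Core.TwoF
import Cfsg.Agent.Lib.Coprime.SylowOrbit
import Cfsg.Agent.Lib.PGrp.Frattini
import Cfsg.Agent.Lib.Core.Primitive

set_option autoImplicit false
open Pointwise
open Cfsg

namespace Cfsg.Agent.S4359

open Subgroup Cfsg.Agent.Core
open scoped commutatorElement

variable {G : Type*} [Group G]

def yy (g x : G) (m : ℤ) : G := g ^ m * x * (g ^ m)⁻¹

def seg (g x : G) (i j : ℤ) : Subgroup G := closure {y | ∃ m : ℤ, i ≤ m ∧ m ≤ j ∧ y = yy g x m}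

theorem conj_yy (g x : G) (k m : ℤ) : g ^ k * yy g x m * (g ^ k)⁻¹ = yy g x (m + k) := by
  unfold yy
  group

theorem mem_seg {g x : G} {i j m : ℤ} (h1 : i ≤ m) (h2 : m ≤ j) : yy g x m ∈ seg g x i j :=
  Subgroup.subset_closure ⟨m, h1, h2, rfl⟩

theorem seg_le {g x : G} {i j : ℤ} {K : Subgroup G} (h : ∀ m, i ≤ m → m ≤ j → yy g x m ∈ K) :
    seg g x i j ≤ K := (closure_le _).2 (by rintro _ ⟨m, h1, h2, rfl⟩; exact h m h1 h2)

theorem seg_mono {g x : G} {i j i' j' : ℤ} (h1 : i' ≤ i) (h2 : j ≤ j') :
    seg g x i j ≤ seg g x i' j' := seg_le fun _ a b => mem_seg (h1.trans a) (b.trans h2)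

theorem map_seg (g x : G) (i j k : ℤ) :
    (seg g x i j).map (MulAut.conj (g ^ k)).toMonoidHom = seg g x (i + k) (j + k) := by
  unfold seg
  rw [MonoidHom.map_closure]
  congr 1
  ext y
  constructor
  · rintro ⟨_, ⟨m, h1, h2, rfl⟩, rfl⟩
    exact ⟨m + k, by omega, by omega, conj_yy g x k m⟩
  · rintro ⟨m, h1, h2, rfl⟩
    refine ⟨_, ⟨m - k, by omega, by omega, rfl⟩, ?_⟩
    have := conj_yy g x k (m - k)
    rw [sub_add_cancel] at this
    exact this

theorem seg_le_sup {g x : G} {i j i' j' : ℤ} (h : i' ≤ j + 1) :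
    seg g x i j' ≤ seg g x i j ⊔ seg g x i' j' := seg_le fun m a b => by
  by_cases hm : m ≤ j
  · exact mem_sup_left (mem_seg a hm)
  · exact mem_sup_right (mem_seg (by omega) b)

theorem commute_yy_shift {g x : G} {i j : ℤ} (h : Commute (yy g x i) (yy g x j)) (k : ℤ) :
    Commute (yy g x (i + k)) (yy g x (j + k)) := by
  rw [← conj_yy, ← conj_yy]
  exact (h.map (MulAut.conj (g ^ k)))

variable [Finite G] {p : ℕ} [hp : Fact p.Prime]

omit hp in
theorem relIndex_eq_of_card {A B : Subgroup G} (h : A ≤ B) (hc : Nat.card B = p * Nat.card A) :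
    A.relIndex B = p := by
  have := card_mul_relIndex_of_le h
  rw [hc, mul_comm p] at this
  exact Nat.eq_of_mul_eq_mul_left Nat.card_pos this

theorem commutator_mem_of_card {A B : Subgroup G} (hB : IsPGroup p B) (h : A ≤ B)
    (hc : Nat.card B = p * Nat.card A) {u v : G} (hu : u ∈ B) (hv : v ∈ B) : ⁅u, v⁆ ∈ A := by
  have h1 := relIndex_eq_of_card h hc
  have := Subgroup.normal_subgroupOf_of_le_normalizer (Coprime.le_normalizer_of_relIndex_prime hB h h1)
  have h2 := PGrp.commutator_le_of_index_eq (M := A.subgroupOf B) h1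
    (commutator_mem_commutator (mem_top ⟨u, hu⟩) (mem_top ⟨v, hv⟩))
  exact h2

section
variable {g x : G} {t : ℕ}
  (hc : ∀ (l : ℕ) (i j : ℤ), l ≤ t → j + 1 = i + l → Nat.card (seg g x i j) = p ^ l)

include hc in
omit [Finite G] hp in
theorem card_seg_succ {i j i' j' : ℤ} (h0 : i ≤ j) (h : j - i < t) (e : j' - i' + 1 = j - i) :
    Nat.card (seg g x i j) = p * Nat.card (seg g x i' j') := by
  obtain ⟨l, hl⟩ : ∃ l : ℕ, j - i = l := ⟨(j - i).toNat, by omega⟩
  rw [hc (l + 1) i j (by omega) (by push_cast; omega), hc l i' j' (by omega) (by omega), pow_succ']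

include hc in
omit [Finite G] hp in
theorem isPGroup_seg {i j : ℤ} (h0 : i ≤ j) (h : j - i < t) : IsPGroup p (seg g x i j) := by
  obtain ⟨l, hl⟩ : ∃ l : ℕ, j - i = l := ⟨(j - i).toNat, by omega⟩
  exact IsPGroup.of_card (hc (l + 1) i j (by omega) (by push_cast; omega))

include hc in
theorem commutator_mem_seg {i j : ℤ} (h0 : i < j) (h : j - i < t) :
    ⁅yy g x i, yy g x j⁆ ∈ seg g x (i + 1) (j - 1) := by
  have hP := isPGroup_seg hc h0.le h
  have c1 := card_seg_succ hc (i' := i + 1) (j' := j) h0.le h (by omega)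
  have c2 := card_seg_succ hc (i' := i) (j' := j - 1) h0.le h (by omega)
  have c3 := card_seg_succ hc (i := i + 1) (j := j) (i' := i + 1) (j' := j - 1) (by omega)
    (by omega) (by omega)
  have m1 := commutator_mem_of_card hP (seg_mono (by omega) le_rfl) c1
    (mem_seg le_rfl h0.le) (mem_seg h0.le le_rfl)
  have m2 := commutator_mem_of_card hP (seg_mono le_rfl (by omega)) c2
    (mem_seg le_rfl h0.le) (mem_seg h0.le le_rfl)
  rcases Coprime.eq_or_eq_of_relIndex_prime
    (K := seg g x (i + 1) j ⊓ seg g x i (j - 1))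
    (relIndex_eq_of_card (seg_mono le_rfl (by omega)) c3)
    (le_inf (seg_mono le_rfl (by omega)) (seg_mono (by omega) le_rfl)) inf_le_left with e | e
  · exact e ▸ mem_inf.2 ⟨m1, m2⟩
  · exfalso
    have h1 : seg g x i j ≤ seg g x i (j - 1) :=
      (seg_le_sup (j := j - 1) (i' := i + 1) (by omega)).trans
        (sup_le le_rfl (inf_eq_left.1 e))
    have h2 := card_le_of_le h1
    have h3 : 0 < Nat.card (seg g x i (j - 1)) := Nat.card_pos
    have h4 := hp.out.two_le
    rw [c2] at h2
    nlinarith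

omit [Finite G] hp in
theorem commute_commutator {u v w : G} (h1 : Commute w v) (h2 : Commute ⁅u⁻¹, w⁆ v) :
    Commute w ⁅u, v⁆ := by
  obtain ⟨d, hd⟩ : ∃ d, d = ⁅u⁻¹, w⁆ := ⟨_, rfl⟩
  rw [← hd] at h2
  have e : w * u * w⁻¹ = u * d := by rw [hd, commutatorElement_def]; group
  rw [Commute, SemiconjBy, ← mul_inv_eq_iff_eq_mul, commutatorElement_def]
  calc w * (u * v * u⁻¹ * v⁻¹) * w⁻¹
      = (w * u * w⁻¹) * (w * v * w⁻¹) * (w * u * w⁻¹)⁻¹ * (w * v * w⁻¹)⁻¹ := by group
    _ = u * (d * v) * d⁻¹ * u⁻¹ * v⁻¹ := by rw [e, h1.eq]; group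
    _ = _ := by rw [h2.eq]; group

include hc in
theorem two_mul_le {k : ℤ} (hk0 : 0 ≤ k) (hkt : k < t) (hk : ¬ Commute (yy g x 0) (yy g x k))
    (hmin : ∀ i j : ℤ, i - j < k → j - i < k → Commute (yy g x i) (yy g x j)) :
    2 * (t : ℤ) ≤ 3 * k := by
  classical
  have hk1 : 0 < k := by
    rcases hk0.eq_or_lt with rfl | h
    · exact absurd (Commute.refl _) hk
    · exact h
  obtain ⟨c, hcc⟩ : ∃ c, c = ⁅yy g x 0, yy g x k⁆ := ⟨_, rfl⟩
  have hc1 : c ≠ 1 := fun e => hk (commutatorElement_eq_one_iff_commute.1 (hcc ▸ e))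
  have hcm : c ∈ seg g x 1 (k - 1) := by
    have := commutator_mem_seg hc (i := 0) (j := k) hk1 (by omega)
    rwa [← hcc, zero_add] at this
  have hbot : ∀ i j : ℤ, j < i → c ∉ seg g x i j := fun i j h hm =>
    hc1 (mem_bot.1 (seg_le (K := ⊥) (fun m a b => by omega) hm))
  have hcen : ∀ i j m : ℤ, m - i < k → j - m < k → seg g x i j ≤ centralizer {yy g x m} :=
    fun i j m h1 h2 => seg_le fun m' a b =>
      mem_centralizer_singleton_iff.2 (hmin _ _ (by omega) (by omega)).eq
  obtain ⟨a, ⟨ha1, ha2⟩, ha3⟩ := Int.exists_greatest_of_bdd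
    (P := fun a => 1 ≤ a ∧ c ∈ seg g x a (k - 1))
    ⟨k, fun z hz => by by_contra h; exact hbot _ _ (by omega) hz.2⟩ ⟨1, le_rfl, hcm⟩
  obtain ⟨b, ⟨hb1, hb2⟩, hb3⟩ := Int.exists_least_of_bdd
    (P := fun b => b ≤ k - 1 ∧ c ∈ seg g x 1 b)
    ⟨0, fun z hz => by by_contra h; exact hbot _ _ (by omega) hz.2⟩ ⟨k - 1, le_rfl, hcm⟩
  have hak : a ≤ k - 1 := by by_contra h; exact hbot _ _ (by omega) ha2
  have hb0 : 1 ≤ b := by by_contra h; exact hbot _ _ (by omega) hb2
  have hab : a ≤ b := by
    by_contra h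
    have hn : seg g x 1 b ≤ normalizer (seg g x (b + 1) (k - 1) : Set G) := by
      refine le_trans ?_ (centralizer_le_normalizer _)
      refine seg_le fun m h1 h2 y hy => ?_
      exact mem_centralizer_singleton_iff.1 (hcen _ _ m (by omega) (by omega) hy)
    have h1 := card_sup_mul_card_inf_of_le_normalizer hn
    have e : seg g x 1 b ⊔ seg g x (b + 1) (k - 1) = seg g x 1 (k - 1) :=
      le_antisymm (sup_le (seg_mono le_rfl hb1) (seg_mono (by omega) le_rfl)) (seg_le_sup le_rfl)
    obtain ⟨l1, hl1⟩ : ∃ l : ℕ, b = l := ⟨b.toNat, by omega⟩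
    obtain ⟨l2, hl2⟩ : ∃ l : ℕ, k - 1 - b = l := ⟨(k - 1 - b).toNat, by omega⟩
    rw [e, hc (l1 + l2) _ _ (by omega) (by push_cast; omega), hc l1 1 b (by omega) (by omega),
      hc l2 (b + 1) (k - 1) (by omega) (by omega), ← pow_add] at h1
    have h2 : Nat.card ↥(seg g x 1 b ⊓ seg g x (b + 1) (k - 1)) = 1 :=
      Nat.eq_of_mul_eq_mul_left (pow_pos hp.out.pos _) (h1.trans (mul_one _).symm)
    rw [card_eq_one] at h2
    exact hc1 (mem_bot.1 (h2 ▸ mem_inf.2 ⟨hb2, seg_mono (by omega) le_rfl ha2⟩))
  have hA : (t : ℤ) ≤ a + k := by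
    by_contra h
    have h1 : Commute (yy g x (a + k)) c := by
      rw [hcc]
      refine commute_commutator (hmin _ _ (by omega) (by omega)) ?_
      have h2 := hcen _ _ k (by omega) (by omega)
        (commutator_mem_seg hc (i := 0) (j := a + k) (by omega) (by omega))
      have hn := Coprime.le_normalizer_of_relIndex_prime
        (isPGroup_seg hc (i := 0) (j := a + k - 1) (by omega) (by omega))
        (seg_mono (by omega) le_rfl) (relIndex_eq_of_card (seg_mono (by omega) le_rfl)
          (card_seg_succ hc (i' := 0 + 1) (j' := a + k - 1) (by omega) (by omega) (by omega)))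
      have h3 := Coprime.conj_mem_of_le_normalizer' hn (mem_seg (m := 0) le_rfl (by omega))
        (inv_mem (commutator_mem_seg hc (i := 0) (j := a + k) (by omega) (by omega)))
      have h4 := hcen _ _ k (by omega) (by omega) h3
      rw [mem_centralizer_singleton_iff] at h4
      have e : ⁅(yy g x 0)⁻¹, yy g x (a + k)⁆ =
          (yy g x 0)⁻¹ * ⁅yy g x 0, yy g x (a + k)⁆⁻¹ * yy g x 0 := by
        simp only [commutatorElement_def]; group
      rw [e]
      exact h4
    rcases Coprime.eq_or_eq_of_relIndex_prime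
      (K := seg g x a (k - 1) ⊓ centralizer {yy g x (a + k)})
      (relIndex_eq_of_card (seg_mono (by omega) le_rfl)
        (card_seg_succ hc (i' := a + 1) (j' := k - 1) hak (by omega) (by omega)))
      (le_inf (seg_mono (by omega) le_rfl) (hcen _ _ _ (by omega) (by omega))) inf_le_left
      with e | e
    · have := ha3 (a + 1) ⟨by omega, e ▸ mem_inf.2 ⟨ha2, mem_centralizer_singleton_iff.2 h1.eq.symm⟩⟩
      omega
    · have h2 : Commute (yy g x a) (yy g x (a + k)) :=
        mem_centralizer_singleton_iff.1 (inf_eq_left.1 e (mem_seg le_rfl hak))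
      have := commute_yy_shift h2 (-a)
      rw [add_neg_cancel, show a + k + -a = k by ring] at this
      exact hk this
  have hB : (t : ℤ) ≤ 2 * k - b := by
    by_contra h
    have h1 : Commute (yy g x (b - k)) c := by
      rw [hcc, ← commutatorElement_inv]
      refine (commute_commutator (hmin _ _ (by omega) (by omega)) ?_).inv_right
      have hn := Coprime.le_normalizer_of_relIndex_prime
        (isPGroup_seg hc (i := b - k + 1) (j := k) (by omega) (by omega))
        (seg_mono le_rfl (by omega)) (relIndex_eq_of_card (seg_mono le_rfl (by omega))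
          (card_seg_succ hc (i' := b - k + 1) (j' := k - 1) (by omega) (by omega) (by omega)))
      have h3 := Coprime.conj_mem_of_le_normalizer' hn (mem_seg (m := k) (by omega) le_rfl)
        (commutator_mem_seg hc (i := b - k) (j := k) (by omega) (by omega))
      have h4 := hcen _ _ 0 (by omega) (by omega) h3
      rw [mem_centralizer_singleton_iff] at h4
      have e : ⁅(yy g x k)⁻¹, yy g x (b - k)⁆ =
          (yy g x k)⁻¹ * ⁅yy g x (b - k), yy g x k⁆ * yy g x k := by
        simp only [commutatorElement_def]; group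
      rw [e]
      exact h4
    rcases Coprime.eq_or_eq_of_relIndex_prime
      (K := seg g x 1 b ⊓ centralizer {yy g x (b - k)})
      (relIndex_eq_of_card (seg_mono le_rfl (by omega))
        (card_seg_succ hc (i' := 1) (j' := b - 1) hb0 (by omega) (by omega)))
      (le_inf (seg_mono le_rfl (by omega)) (hcen _ _ _ (by omega) (by omega))) inf_le_left
      with e | e
    · have := hb3 (b - 1) ⟨by omega, e ▸ mem_inf.2 ⟨hb2, mem_centralizer_singleton_iff.2 h1.eq.symm⟩⟩
      omega
    · have h2 : Commute (yy g x b) (yy g x (b - k)) :=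
        mem_centralizer_singleton_iff.1 (inf_eq_left.1 e (mem_seg hb0 le_rfl))
      have := commute_yy_shift h2.symm (k - b)
      rw [show b - k + (k - b) = 0 by ring, show b + (k - b) = k by ring] at this
      exact hk this
  omega

end

def chain (P : Subgroup G) (g : G) : ℕ → Subgroup G
  | 0 => P
  | l + 1 => P ⊓ (chain P g l).map (MulAut.conj g⁻¹).toMonoidHom

theorem exists_seg {P : Subgroup G} {g : G}
    (hN : P.map (MulAut.conj g⁻¹).toMonoidHom ≤
      normalizer ((P ⊓ P.map (MulAut.conj g⁻¹).toMonoidHom : Subgroup G) : Set G))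
    (hidx : P.relIndex (P.map (MulAut.conj g⁻¹).toMonoidHom) = p)
    (h1 : ∀ Q : Subgroup G, Q ≤ P → P ≤ normalizer (Q : Set G) →
      Q.map (MulAut.conj g⁻¹).toMonoidHom = Q → Q = ⊥) :
    ∃ (t : ℕ) (x : G), 1 ≤ t ∧ P = seg g x 0 (t - 1) ∧
      ∀ (l : ℕ) (i j : ℤ), l ≤ t → j + 1 = i + l → Nat.card (seg g x i j) = p ^ l := by
  classical
  have hinj := (MulAut.conj g⁻¹).injective
  have hcm : ∀ H : Subgroup G, Nat.card (H.map (MulAut.conj g⁻¹).toMonoidHom) = Nat.card H :=
    fun H => card_map_of_injective hinj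
  have hP : IsPGroup p P := by
    have h2 : pResidualOf p (P.map (MulAut.conj g⁻¹).toMonoidHom) ≤ pResidualOf p P := by
      refine pResidualOf_le_of_forall fun y hy ho => mem_pResidualOf ?_ ho
      have := Subgroup.normal_subgroupOf_of_le_normalizer hN
      have h3 := le_of_coprime_card_index (H := zpowers (⟨y, hy⟩ : P.map (MulAut.conj g⁻¹).toMonoidHom))
        (N := (P ⊓ P.map (MulAut.conj g⁻¹).toMonoidHom).subgroupOf _) (by
          rw [Nat.card_zpowers, ← orderOf_coe]
          change Nat.Coprime _ (relIndex _ _)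
          rwa [inf_relIndex_right, hidx]) (mem_zpowers _)
      exact (mem_inf.1 h3).1
    rw [← map_pResidualOf_of_injective hinj] at h2
    have h3 := h1 _ (pResidualOf_le P) (le_normalizer_pResidualOf P)
      (eq_of_le_of_card_eq h2 (hcm _))
    obtain ⟨S, hS⟩ := Coprime.exists_isSylowIn p P
    rw [← pResidualOf_sup_of_isSylowIn hS, h3, bot_sup_eq]
    exact hS.2.1
  have hle : ∀ l, chain P g l ≤ P := fun l => by
    cases l
    exacts [le_rfl, inf_le_left]
  have hanti : ∀ l, chain P g (l + 1) ≤ chain P g l := fun l => by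
    induction l with
    | zero => exact inf_le_left
    | succ l ih => exact inf_le_inf_left _ (map_mono ih)
  have hstep : ∀ l, (chain P g l).map (MulAut.conj g⁻¹).toMonoidHom ≠ chain P g l →
      Nat.card (chain P g l) = p * Nat.card (chain P g (l + 1)) := fun l hne => by
    have h2 := card_inf_mul_relIndex P ((chain P g l).map (MulAut.conj g⁻¹).toMonoidHom)
    have h3 : P.relIndex ((chain P g l).map (MulAut.conj g⁻¹).toMonoidHom) ∣ p := by
      have hl := map_mono (f := (MulAut.conj g⁻¹).toMonoidHom) (hle l)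
      have := Subgroup.normal_subgroupOf_of_le_normalizer hN
      have h4 := relIndex_dvd_index_of_normal
        ((P ⊓ P.map (MulAut.conj g⁻¹).toMonoidHom).subgroupOf (P.map (MulAut.conj g⁻¹).toMonoidHom))
        (((chain P g l).map (MulAut.conj g⁻¹).toMonoidHom).subgroupOf _)
      rw [relIndex_subgroupOf hl, ← inf_relIndex_right, inf_assoc, inf_eq_right.2 hl,
        inf_relIndex_right] at h4
      refine h4.trans (dvd_of_eq ?_)
      change relIndex _ _ = p
      rwa [inf_relIndex_right]
    rcases (Nat.dvd_prime hp.out).1 h3 with e | e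
    · exact absurd (eq_of_le_of_card_eq ((le_inf (relIndex_eq_one.1 e) le_rfl).trans (hanti l))
        (hcm _)) hne
    · rw [e, hcm, mul_comm] at h2
      exact h2.symm
  have hex : ∃ l, (chain P g l).map (MulAut.conj g⁻¹).toMonoidHom = chain P g l := by
    by_contra hh
    push Not at hh
    have : ∀ l, l + Nat.card (chain P g l) ≤ Nat.card P := fun l => by
      induction l with
      | zero => simp [chain]
      | succ l ih =>
        have h2 := hstep l (hh l)
        have h3 : 0 < Nat.card (chain P g (l + 1)) := Nat.card_pos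
        have h4 := hp.out.two_le
        nlinarith
    have h2 := this (Nat.card P)
    have h3 : 0 < Nat.card (chain P g (Nat.card P)) := Nat.card_pos
    omega
  obtain ⟨t, ht⟩ : ∃ t, t = Nat.find hex := ⟨_, rfl⟩
  have ht1 := ht ▸ Nat.find_spec hex
  have ht2 : ∀ l < t, (chain P g l).map (MulAut.conj g⁻¹).toMonoidHom ≠ chain P g l :=
    fun l hl => Nat.find_min hex (ht ▸ hl)
  have ht0 : 1 ≤ t := by
    by_contra h
    have : t = 0 := by omega
    rw [this] at ht1
    change P.map _ = P at ht1
    rw [ht1, relIndex_self] at hidx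
    exact hp.out.one_lt.ne hidx
  have hgen : ∀ l, l + 1 < t → chain P g l =
      chain P g (l + 1) ⊔ (chain P g (l + 1)).map (MulAut.conj g).toMonoidHom := fun l hl => by
    have h2 : (chain P g (l + 1)).map (MulAut.conj g).toMonoidHom ≤ chain P g l := by
      rw [← map_conj_map_conj_inv g (chain P g l)]
      exact map_mono inf_le_right
    rcases Coprime.eq_or_eq_of_relIndex_prime
      (relIndex_eq_of_card (hanti l) (hstep l (ht2 l (by omega)))) le_sup_left
      (sup_le (hanti l) h2) with e | e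
    · exfalso
      have h3 := eq_of_le_of_card_eq (sup_eq_left.1 e)
        (card_map_of_injective (MulAut.conj g).injective)
      refine ht2 (l + 1) hl ?_
      conv_lhs => rw [← h3]
      rw [map_conj_map_conj, inv_mul_cancel, map_conj_one]
    · exact e.symm
  obtain ⟨s, rfl⟩ : ∃ s, t = s + 1 := ⟨t - 1, by omega⟩
  have hD : chain P g (s + 1) = ⊥ := by
    refine h1 _ (hle _) ?_ ht1
    have hg : g ∈ normalizer (chain P g (s + 1) : Set G) :=
      inv_mem_iff.1 (mem_normalizer_of_map_conj_le ht1.le)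
    have : ∀ j ≤ s, chain P g (s - j) ≤ normalizer (chain P g (s + 1) : Set G) := fun j hj => by
      induction j with
      | zero =>
        exact Coprime.le_normalizer_of_relIndex_prime (hP.to_le (hle _)) (hanti s)
          (relIndex_eq_of_card (hanti s) (hstep s (ht2 s (by omega))))
      | succ j ih =>
        rw [hgen _ (by omega), show s - (j + 1) + 1 = s - j by omega]
        exact sup_le (ih (by omega)) (map_conj_le_of_mem (ih (by omega)) hg)
    simpa [chain] using this s le_rfl
  have hs := hstep s (ht2 s (by omega))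
  rw [hD, card_bot, mul_one] at hs
  obtain ⟨x, hx⟩ : ∃ x, chain P g s = zpowers x := by
    have := isCyclic_of_prime_card hs
    obtain ⟨x, hx⟩ := (isCyclic_iff_exists_zpowers_eq_top (α := chain P g s)).1 this
    refine ⟨x, ?_⟩
    have := congrArg (map (chain P g s).subtype) hx
    rw [MonoidHom.map_zpowers, ← MonoidHom.range_eq_map, range_subtype] at this
    exact this.symm
  have key : ∀ j ≤ s, chain P g (s - j) = seg g x 0 j ∧ Nat.card (chain P g (s - j)) = p ^ (j + 1) :=
    fun j hj => by
      induction j with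
      | zero =>
        refine ⟨?_, by simpa using hs⟩
        rw [Nat.sub_zero, hx]
        refine le_antisymm (zpowers_le.2 ?_) (seg_le fun m a b => ?_)
        · have := mem_seg (g := g) (x := x) (m := 0) (i := 0) (j := (0 : ℕ)) le_rfl (by simp)
          simpa [yy] using this
        · have : m = 0 := by omega
          simp [this, yy]
      | succ j ih =>
        obtain ⟨e1, e2⟩ := ih (by omega)
        constructor
        · have := map_seg g x 0 j 1
          rw [zpow_one] at this
          rw [hgen _ (by omega), show s - (j + 1) + 1 = s - j by omega, e1, this]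
          exact le_antisymm (sup_le (seg_mono le_rfl (by omega)) (seg_mono (by omega) (by omega)))
            ((seg_mono le_rfl (by omega)).trans (seg_le_sup (by omega)))
        · rw [hstep _ (ht2 _ (by omega)), show s - (j + 1) + 1 = s - j by omega, e2, ← pow_succ']
  refine ⟨s + 1, x, ht0, ?_, fun l i j hl e => ?_⟩
  · simpa [chain] using (key s le_rfl).1
  · rcases l with _ | l
    · rw [pow_zero, card_eq_one, eq_bot_iff]
      exact seg_le fun m a b => by omega
    · obtain ⟨e1, e2⟩ := key l (by omega)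
      rw [← e2, e1, ← card_map_of_injective (f := (MulAut.conj (g ^ i)).toMonoidHom)
        (K := seg g x 0 l) (MulAut.conj (g ^ i)).injective, map_seg, zero_add,
        show (l : ℤ) + i = j by push_cast at e; omega]

/-- Let P be a subgroup of a finite group G and g an element such that P ∩ g⁻¹Pg is a normal subgroup of prime index p in g⁻¹Pg. Let n ≥ 1 and let K be the subgroup generated by P and its conjugates g⁻ⁱPgⁱ for i ≤ n. Suppose that g normalizes no non-identity normal subgroup of P and that P meets the center of K trivially. Then the order of P is pᵗ for some t with 1 ≤ t ≤ 3n and t ≠ 3n - 1. -/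
theorem result {G : Type*} [Group G] [Finite G]
    (P : Subgroup G) (g : G) (p : ℕ) (hp : p.Prime)
    (hN : ((P ⊓ MulAut.conj g⁻¹ • P).subgroupOf (MulAut.conj g⁻¹ • P)).Normal)
    (hidx : (P ⊓ MulAut.conj g⁻¹ • P).relIndex (MulAut.conj g⁻¹ • P) = p)
    (n : ℕ) (hn : 1 ≤ n) (K : Subgroup G) (hK : K = ⨆ i ∈ Finset.range (n + 1), MulAut.conj (g ^ i)⁻¹ • P)
    (h1 : ∀ Q : Subgroup G, Q ≤ P → (Q.subgroupOf P).Normal → MulAut.conj g • Q = Q → Q = ⊥)
    (h2 : P ⊓ (Subgroup.center K).map K.subtype = ⊥) :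
    ∃ t : ℕ, Nat.card P = p ^ t ∧ 1 ≤ t ∧ t ≤ 3 * n ∧ t ≠ 3 * n - 1 := by
  classical
  have : Fact p.Prime := ⟨hp⟩
  simp only [smul_eq_map_conj] at hN hidx hK h1
  rw [inf_relIndex_right] at hidx
  obtain ⟨t, x, ht, hP, hc⟩ := exists_seg (p := p) (P := P) (g := g)
    (le_normalizer_of_normal_subgroupOf (hK := hN) inf_le_right) hidx fun Q hQ hn e =>
      h1 Q hQ (Subgroup.normal_subgroupOf_of_le_normalizer hn) (by
        conv_lhs => rw [← e]
        exact map_conj_map_conj_inv g Q)
  refine ⟨t, hP ▸ hc t _ _ le_rfl (by omega), ht, ?_⟩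
  have hK' : K ≤ seg g x (-n) (t - 1) := by
    rw [hK]
    refine iSup₂_le fun i hi => ?_
    rw [Finset.mem_range] at hi
    rw [hP, ← zpow_natCast, ← zpow_neg, map_seg]
    exact seg_mono (by omega) (by omega)
  have hPK : P ≤ K := by
    rw [hK]
    refine le_iSup₂_of_le 0 (by simp) ?_
    rw [pow_zero, inv_one, map_conj_one]
  have key : ∀ k : ℤ, (∀ i j : ℤ, i - j < k → j - i < k → Commute (yy g x i) (yy g x j)) →
      ∀ m : ℤ, 0 ≤ m → m ≤ t - 1 → m + n < k → t - 1 - m < k → False := fun k hk m a b c d => by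
    have hm : yy g x m ∈ P := hP ▸ mem_seg a b
    have h3 : yy g x m ∈ P ⊓ (center K).map K.subtype := by
      refine mem_inf.2 ⟨hm, ⟨_, hPK hm⟩, mem_center_iff.2 fun y => Subtype.ext ?_, rfl⟩
      exact mem_centralizer_singleton_iff.1 (seg_le (K := centralizer {yy g x m}) (fun m' a' b' =>
        mem_centralizer_singleton_iff.2 (hk _ _ (by omega) (by omega)).eq) (hK' y.2))
    rw [h2, mem_bot] at h3
    have h4 := hc 1 m m ht (by omega)
    rw [eq_bot_iff.2 (seg_le (K := ⊥) fun m' a' b' => by
      rw [show m' = m by omega, h3]; exact one_mem _), card_bot, pow_one] at h4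
    exact hp.one_lt.ne h4
  have hsh : ∀ k : ℤ, (∀ d : ℤ, 0 ≤ d → d < k → Commute (yy g x 0) (yy g x d)) →
      ∀ i j : ℤ, i - j < k → j - i < k → Commute (yy g x i) (yy g x j) := fun k h i j a b => by
    rcases le_total i j with e | e
    · simpa using commute_yy_shift (h (j - i) (by omega) b) i
    · simpa using (commute_yy_shift (h (i - j) (by omega) a) j).symm
  by_cases hab : ∃ k : ℤ, 0 ≤ k ∧ k < t ∧ ¬ Commute (yy g x 0) (yy g x k)
  · obtain ⟨k, ⟨k0, k1, k2⟩, k3⟩ := Int.exists_least_of_bdd ⟨0, fun z hz => hz.1⟩ hab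
    have hk := hsh k fun d a b => by
      by_contra hh
      have := k3 d ⟨a, by omega, hh⟩
      omega
    have h3 := two_mul_le hc k0 k1 k2 hk
    have h4 : 2 * k ≤ t + n := by
      by_contra hh
      exact key k hk (t - k) (by omega) (by omega) (by omega) (by omega)
    omega
  · push Not at hab
    have h3 : t ≤ n := by
      by_contra hh
      exact key t (hsh t hab) 0 le_rfl (by omega) (by omega) (by omega)
    omega

end Cfsg.Agent.S4359
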